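import Cfsg.Statements.S4252
-- import your own Cfsg.Agent.* helpers here

set_option autoImplicit false
open Cfsg

namespace Cfsg.Agent.S4252

section
open Pointwise
theorem mem_conj_stab {G Ω : Type*} [Group G] [MulAction G Ω] (α : Ω) (g x : G) :
    x ∈ MulAut.conj g • MulAction.stabilizer G α ↔ x • (g • α) = g • α := by
  rw [Subgroup.mem_pointwise_smul_iff_inv_smul_mem, MulAction.mem_stabilizer_iff]
  have h1 : (MulAut.conj g)⁻¹ • x = g⁻¹ * x * g := by
    rw [← map_inv, MulAut.smul_def, MulAut.conj_apply, inv_inv]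
  rw [h1, mul_smul, mul_smul]
  constructor
  · intro h
    have h2 := congrArg (fun y => g • y) h
    simpa using h2
  · intro h; rw [h, inv_smul_smul]

theorem frob_of_action {G Ω : Type*} [Group G] [Fintype Ω] [MulAction G Ω]
    (hΩ : 1 < Fintype.card Ω)
    (htrans : ∀ α β : Ω, ∃ g : G, g • α = β) (hnreg : ∃ g : G, g ≠ 1 ∧ ∃ α : Ω, g • α = α)
    (hfix : ∀ g : G, g ≠ 1 → ∀ α β : Ω, g • α = α → g • β = β → α = β) (α : Ω) :
    Cfsg.IsFrobeniusComplement (MulAction.stabilizer G α) := by
  refine ⟨?_, ?_, ?_⟩
  · obtain ⟨g, hg1, β, hgβ⟩ := hnreg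
    obtain ⟨k, hk⟩ := htrans β α
    intro hbot
    have h1 : k * g * k⁻¹ ∈ MulAction.stabilizer G α := by
      rw [MulAction.mem_stabilizer_iff, mul_smul, mul_smul, ← hk, inv_smul_smul, hgβ]
    rw [hbot, Subgroup.mem_bot] at h1
    apply hg1
    have h2 : g = k⁻¹ * (k * g * k⁻¹) * k := by group
    rw [h2, h1]; group
  · intro htop
    obtain ⟨β, hβ⟩ : ∃ β, β ≠ α := Fintype.exists_ne_of_one_lt_card hΩ α
    obtain ⟨g, hg⟩ := htrans α β
    have h1 : g ∈ MulAction.stabilizer G α := by rw [htop]; trivial
    rw [MulAction.mem_stabilizer_iff] at h1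
    exact hβ (hg ▸ h1)
  · intro g hg
    rw [eq_bot_iff]
    intro x hx
    rw [Subgroup.mem_inf, mem_conj_stab, MulAction.mem_stabilizer_iff] at hx
    rw [Subgroup.mem_bot]
    by_contra hx1
    have h1 := hfix x hx1 α (g • α) hx.1 hx.2
    exact hg (MulAction.mem_stabilizer_iff.mpr h1.symm)

end

/-- Let a finite group G act on a finite set Ω with more than one point, transitively but not regularly, so that no non-identity element of G fixes two distinct points. Then the stabilizer H of any point is a Frobenius complement in G (nontrivial, proper, meeting its other conjugates trivially), and the Frobenius kernel of G with respect to H (the identity together with the elements lying in no conjugate of H) is exactly the set consisting of the identity and the elements fixing no point. -/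
theorem result {G Ω : Type*} [Group G] [Finite G] [Fintype Ω] [MulAction G Ω] (hΩ : 1 < Fintype.card Ω)
    (htrans : ∀ α β : Ω, ∃ g : G, g • α = β) (hnreg : ∃ g : G, g ≠ 1 ∧ ∃ α : Ω, g • α = α)
    (hfix : ∀ g : G, g ≠ 1 → ∀ α β : Ω, g • α = α → g • β = β → α = β) (α : Ω) :
    Cfsg.IsFrobeniusComplement (MulAction.stabilizer G α) ∧
      Cfsg.frobeniusKernel (MulAction.stabilizer G α) = {g : G | g = 1 ∨ ∀ ω : Ω, g • ω ≠ ω} := by
  refine ⟨frob_of_action hΩ htrans hnreg hfix α, ?_⟩
  ext x
  simp only [Cfsg.frobeniusKernel, Set.mem_setOf_eq]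
  constructor
  · rintro (h | h)
    · exact Or.inl h
    · right
      intro ω hω
      obtain ⟨g, hg⟩ := htrans α ω
      exact h g ((mem_conj_stab α g x).mpr (by rw [hg]; exact hω))
  · rintro (h | h)
    · exact Or.inl h
    · right
      intro g hg
      exact h (g • α) ((mem_conj_stab α g x).mp hg)

end Cfsg.Agent.S4252
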