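import Mathlib
import Cfsg.Agent.H4Sharp
import Cfsg.Agent.Lib.Helper7.FrobAff

set_option autoImplicit false

namespace Cfsg.Agent.H4Tab

open Matrix Cfsg.Agent.H4Sharp

/-- The quadruple of a matrix. -/
def toQ (p : ℕ) (g : Matrix (Fin 2) (Fin 2) (ZMod p)) : Q :=
  ((g 0 0).val, (g 0 1).val, (g 1 0).val, (g 1 1).val)

theorem toM_toQ (p : ℕ) [NeZero p] (g : Matrix (Fin 2) (Fin 2) (ZMod p)) :
    toM p (toQ p g) = g := by
  ext i j; fin_cases i <;> fin_cases j <;> simp [toM, toQ]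

theorem toQ_red (p : ℕ) [NeZero p] (g : Matrix (Fin 2) (Fin 2) (ZMod p)) :
    redQ p (toQ p g) = true := by
  rw [redQ_iff]; exact ⟨ZMod.val_lt _, ZMod.val_lt _, ZMod.val_lt _, ZMod.val_lt _⟩

theorem mulQ_red (p : ℕ) [NeZero p] (x y : Q) : redQ p (mulQ p x y) = true := by
  rw [redQ_iff]
  have hp : 0 < p := Nat.pos_of_ne_zero (NeZero.ne p)
  exact ⟨Nat.mod_lt _ hp, Nat.mod_lt _ hp, Nat.mod_lt _ hp, Nat.mod_lt _ hp⟩

theorem toQ_mul (p : ℕ) [NeZero p] (g h : Matrix (Fin 2) (Fin 2) (ZMod p)) :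
    toQ p (g * h) = mulQ p (toQ p g) (toQ p h) := by
  apply toM_inj p _ _ (toQ_red p _) (mulQ_red p _ _)
  rw [toM_toQ, toM_mulQ, toM_toQ, toM_toQ]

theorem one_red (p : ℕ) (hp : 1 < p) : redQ p one = true := by
  rw [redQ_iff]
  show 1 < p ∧ 0 < p ∧ 0 < p ∧ 1 < p
  exact ⟨hp, by omega, by omega, hp⟩

theorem toQ_one (p : ℕ) [NeZero p] (hp : 1 < p) :
    toQ p (1 : Matrix (Fin 2) (Fin 2) (ZMod p)) = one := by
  apply toM_inj p _ _ (toQ_red p _) (one_red p hp)
  rw [toM_toQ, toM_one]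

theorem toQ_inj (p : ℕ) [NeZero p] (g h : Matrix (Fin 2) (Fin 2) (ZMod p))
    (e : toQ p g = toQ p h) : g = h := by
  rw [← toM_toQ p g, ← toM_toQ p h, e]

/-- Table lookup. -/
def look (tbl : List (Q × Q)) (x : Q) : Q :=
  match tbl.find? (fun e => decide (e.1 = x)) with
  | some e => e.2
  | none => one

/-- The table is multiplicative. -/
def chkHom (p q : ℕ) (tbl : List (Q × Q)) : Bool :=
  tbl.all fun e => tbl.all fun e' =>
    decide (look tbl (mulQ p e.1 e'.1) = mulQ q (look tbl e.1) (look tbl e'.1))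

/-- All reduced quadruples. -/
def allQ (p : ℕ) : List Q :=
  (List.range p).flatMap fun a => (List.range p).flatMap fun b =>
    (List.range p).flatMap fun c => (List.range p).map fun d => (a, b, c, d)

/-- Every reduced quadruple of determinant one is a key. -/
def chkKeys (p : ℕ) (tbl : List (Q × Q)) : Bool :=
  (allQ p).all fun x => !(decide (detQ p 0 x = 1)) || (tbl.any fun e => decide (e.1 = x))

/-- The images are fixed-point-free. -/
def chkFpf (q : ℕ) (tbl : List (Q × Q)) : Bool :=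
  tbl.all fun e => redQ q (look tbl e.1) &&
    (decide (e.1 = one) || !(decide (detQ q 1 (look tbl e.1) = 0)))

theorem mem_allQ (p : ℕ) (x : Q) (hx : redQ p x = true) : x ∈ allQ p := by
  rw [redQ_iff] at hx
  simp only [allQ, List.mem_flatMap, List.mem_map, List.mem_range]
  exact ⟨x.1, hx.1, x.2.1, hx.2.1, x.2.2.1, hx.2.2.1, x.2.2.2, hx.2.2.2, rfl⟩

theorem key_of (p : ℕ) [Fact p.Prime] (tbl : List (Q × Q)) (hkeys : chkKeys p tbl = true)
    (g : Matrix.SpecialLinearGroup (Fin 2) (ZMod p)) :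
    ∃ e ∈ tbl, e.1 = toQ p g.1 := by
  have hp : p.Prime := Fact.out
  haveI : NeZero p := ⟨hp.ne_zero⟩
  simp only [chkKeys, List.all_eq_true, Bool.or_eq_true, Bool.not_eq_true', decide_eq_false_iff_not,
    List.any_eq_true, decide_eq_true_eq] at hkeys
  have hred := toQ_red p g.1
  rcases hkeys _ (mem_allQ p _ hred) with h | h
  · exfalso
    apply h
    have h1 := detQ_cast p 0 (toQ p g.1) (Nat.zero_le _) hred
    rw [toM_toQ, Nat.cast_zero, zero_smul, sub_zero, g.2] at h1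
    have hlt : detQ p 0 (toQ p g.1) < p := Nat.mod_lt _ hp.pos
    exact cast_inj_of_lt p _ 1 hlt hp.one_lt (by rw [h1, Nat.cast_one])
  · exact h

/-- The action of `SL₂(p)` on `(ZMod q)²` through a matrix representation. -/
def act {K : Type*} [Group K] (q : ℕ) (ρ : K →* Matrix (Fin 2) (Fin 2) (ZMod q)) :
    DistribMulAction K (Fin 2 → ZMod q) where
  smul k v := ρ k *ᵥ v
  one_smul v := by
    show ρ 1 *ᵥ v = v
    rw [map_one, Matrix.one_mulVec]
  mul_smul k k' v := by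
    show ρ (k * k') *ᵥ v = ρ k *ᵥ (ρ k' *ᵥ v)
    rw [map_mul, Matrix.mulVec_mulVec]
  smul_zero k := Matrix.mulVec_zero _
  smul_add k v w := Matrix.mulVec_add _ v w

theorem frob_of_tbl (p q : ℕ) [Fact p.Prime] [Fact q.Prime] (tbl : List (Q × Q))
    (hhom : chkHom p q tbl = true) (hkeys : chkKeys p tbl = true) (hfpf : chkFpf q tbl = true)
    (hone : look tbl one = one) :
    ∃ (L : Type) (_ : Group L) (_ : Finite L) (H : Subgroup L),
      Cfsg.IsFrobeniusComplement H ∧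
        Nonempty (H ≃* Matrix.SpecialLinearGroup (Fin 2) (ZMod p)) := by
  have hp : p.Prime := Fact.out
  have hq : q.Prime := Fact.out
  haveI : NeZero p := ⟨hp.ne_zero⟩
  haveI : NeZero q := ⟨hq.ne_zero⟩
  haveI : Fact (1 < p) := ⟨hp.one_lt⟩
  haveI : Fact (1 < q) := ⟨hq.one_lt⟩
  simp only [chkHom, List.all_eq_true, decide_eq_true_eq] at hhom
  simp only [chkFpf, List.all_eq_true, Bool.and_eq_true, Bool.or_eq_true, decide_eq_true_eq,
    Bool.not_eq_true', decide_eq_false_iff_not] at hfpf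
  let ρ : Matrix.SpecialLinearGroup (Fin 2) (ZMod p) →* Matrix (Fin 2) (Fin 2) (ZMod q) :=
    { toFun := fun g => toM q (look tbl (toQ p g.1))
      map_one' := by
        show toM q (look tbl (toQ p (1 : Matrix (Fin 2) (Fin 2) (ZMod p)))) = 1
        rw [toQ_one p hp.one_lt, hone, toM_one]
      map_mul' := by
        intro g h
        show toM q (look tbl (toQ p (g.1 * h.1))) =
          toM q (look tbl (toQ p g.1)) * toM q (look tbl (toQ p h.1))
        obtain ⟨e, he, e1⟩ := key_of p tbl hkeys g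
        obtain ⟨e', he', e1'⟩ := key_of p tbl hkeys h
        rw [toQ_mul, ← e1, ← e1', hhom e he e' he', toM_mulQ] }
  have hρ : ∀ g : Matrix.SpecialLinearGroup (Fin 2) (ZMod p),
      ρ g = toM q (look tbl (toQ p g.1)) := fun g => rfl
  letI : DistribMulAction (Matrix.SpecialLinearGroup (Fin 2) (ZMod p)) (Fin 2 → ZMod q) :=
    act q ρ
  have hsmul : ∀ (k : Matrix.SpecialLinearGroup (Fin 2) (ZMod p)) (v : Fin 2 → ZMod q),
      k • v = ρ k *ᵥ v := fun k v => rfl
  haveI : Finite (Matrix.SpecialLinearGroup (Fin 2) (ZMod p)) :=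
    Finite.of_injective (fun g => g.1) Subtype.val_injective
  haveI : Nontrivial (Matrix.SpecialLinearGroup (Fin 2) (ZMod p)) := by
    refine ⟨⟨1, ⟨!![1, 1; 0, 1], by simp [Matrix.det_fin_two]⟩, ?_⟩⟩
    intro h
    have h1 := congrArg (fun g : Matrix.SpecialLinearGroup (Fin 2) (ZMod p) => g.1 0 1) h
    simp at h1
  have hfree : ∀ k : Matrix.SpecialLinearGroup (Fin 2) (ZMod p), k ≠ 1 →
      ∀ v : Fin 2 → ZMod q, k • v = v → v = 0 := by
    intro k hk v hv
    by_contra hv0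
    apply hk
    obtain ⟨e, he, e1⟩ := key_of p tbl hkeys k
    obtain ⟨hred, hor⟩ := hfpf e he
    rw [e1] at hred hor
    have hdet : (toM q (look tbl (toQ p k.1)) -
        ((1 : ℕ) : ZMod q) • (1 : Matrix (Fin 2) (Fin 2) (ZMod q))).det = 0 := by
      rw [← Matrix.exists_mulVec_eq_zero_iff]
      refine ⟨v, hv0, ?_⟩
      rw [Matrix.sub_mulVec, Nat.cast_one, one_smul, Matrix.one_mulVec, ← hρ, ← hsmul, hv,
        sub_self]
    rw [← detQ_cast q 1 _ hq.one_lt.le hred] at hdet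
    have hd0 : detQ q 1 (look tbl (toQ p k.1)) = 0 := by
      have hlt : detQ q 1 (look tbl (toQ p k.1)) < q := Nat.mod_lt _ hq.pos
      have hdvd := (ZMod.natCast_eq_zero_iff _ _).mp hdet
      exact Nat.eq_zero_of_dvd_of_lt hdvd hlt
    rcases hor with h | h
    · apply Subtype.ext
      apply toQ_inj p
      rw [h]
      show H4Sharp.one = toQ p (1 : Matrix (Fin 2) (Fin 2) (ZMod p))
      rw [toQ_one p hp.one_lt]
    · exact absurd hd0 h
  obtain ⟨L, iL, fL, C, hC, ⟨e⟩⟩ := Cfsg.Agent.Lib.Helper7.exists_frob_of_fpf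
    (K := Matrix.SpecialLinearGroup (Fin 2) (ZMod p)) (V := Fin 2 → ZMod q) hfree
  exact ⟨L, iL, fL, C, hC, ⟨e.symm⟩⟩

end Cfsg.Agent.H4Tab
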