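import Mathlib
import Cfsg.Statements.S0237

set_option autoImplicit false
open Cfsg

namespace Cfsg.Agent.S0237

theorem mem_centralizer_singleton {G : Type*} [Group G] (x c : G) :
    c ∈ Subgroup.centralizer ({x} : Set G) ↔ x * c = c * x := by
  rw [Subgroup.mem_centralizer_iff]
  constructor
  · intro h; exact h x rfl
  · intro h y hy
    rw [Set.mem_singleton_iff.mp hy]; exact h

theorem result {G : Type*} [Group G] [Finite G] (x : G) (hreal : IsConj x x⁻¹) : Nat.card {g : G // g * x * g⁻¹ = x⁻¹} = Nat.card (Subgroup.centralizer ({x} : Set G)) := by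
  obtain ⟨g0, hg0⟩ := isConj_iff.mp hreal
  apply Nat.card_congr
  refine ⟨fun g => ⟨g0⁻¹ * g.1, ?_⟩, fun c => ⟨g0 * c.1, ?_⟩, ?_, ?_⟩
  · rw [mem_centralizer_singleton]
    have h1 := g.2
    have h2 : g.1 * x = x⁻¹ * g.1 := by
      calc g.1 * x = g.1 * x * g.1⁻¹ * g.1 := by group
        _ = x⁻¹ * g.1 := by rw [h1]
    have h3 : x * g0⁻¹ = g0⁻¹ * x⁻¹ := by
      calc x * g0⁻¹ = g0⁻¹ * (g0 * x * g0⁻¹) := by group
        _ = g0⁻¹ * x⁻¹ := by rw [hg0]
    calc x * (g0⁻¹ * g.1) = (x * g0⁻¹) * g.1 := by group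
      _ = g0⁻¹ * (x⁻¹ * g.1) := by rw [h3]; group
      _ = g0⁻¹ * g.1 * x := by rw [← h2]; group
  · have hc := (mem_centralizer_singleton x c.1).mp c.2
    calc g0 * c.1 * x * (g0 * c.1)⁻¹ = g0 * (c.1 * x) * c.1⁻¹ * g0⁻¹ := by group
      _ = g0 * (x * c.1) * c.1⁻¹ * g0⁻¹ := by rw [hc]
      _ = g0 * x * g0⁻¹ := by group
      _ = x⁻¹ := hg0
  · intro g
    apply Subtype.ext
    simp
  · intro c
    apply Subtype.ext
    simp

end Cfsg.Agent.S0237
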