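import Cfsg.Statements.S0236
import Cfsg.Agent.Lib.Helper5.Invol

set_option autoImplicit false
open Cfsg

namespace Cfsg.Agent.S0236

open Cfsg.Agent.Lib.Helper5 in
theorem result {G : Type*} [Group G] [Finite G] (x : G) (hx : orderOf x = 2) : Nat.card {p : G × G // orderOf p.1 = 2 ∧ orderOf p.2 = 2 ∧ p.1 * p.2 = x} + 1 = Nat.card {t : G // orderOf t = 2 ∧ Commute t x} := by
  classical
  rw [← Finite.card_option]
  apply Nat.card_congr
  have hx2 := sq_of_order_two hx
  have key : ∀ t : G, orderOf t = 2 → Commute t x → t ≠ x → orderOf (t * x) = 2 := by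
    intro t ht hc hne
    apply order_two_of_sq
    · intro h1
      apply hne
      have : t = x⁻¹ := eq_inv_of_mul_eq_one_left h1
      rw [this, inv_of_order_two hx]
    · have hc' : x * t = t * x := hc.eq.symm
      calc t * x * (t * x) = t * (x * t) * x := by group
        _ = t * (t * x) * x := by rw [hc']
        _ = (t * t) * (x * x) := by group
        _ = 1 := by rw [hx2, sq_of_order_two ht, one_mul]
  refine ⟨fun o => match o with
    | none => ⟨x, hx, Commute.refl x⟩
    | some p => ⟨p.1.1, p.2.1, ?_⟩,
    fun t => if h : t.1 = x then none else some ⟨(t.1, t.1 * x), t.2.1, key t.1 t.2.1 t.2.2 h, ?_⟩, ?_, ?_⟩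
  · obtain ⟨⟨u, v⟩, hu, hv, huv⟩ := p
    simp only at hu hv huv ⊢
    have hu2 := sq_of_order_two hu
    have h1 : u * x = v := by rw [← huv, ← mul_assoc, hu2, one_mul]
    have h2 : x * u = v := by
      have h3 : u * v * (u * v) = 1 := by rw [huv]; exact hx2
      have h4 : u * v * u = v⁻¹ := by
        apply eq_inv_of_mul_eq_one_left
        rw [← h3]; group
      rw [← huv, h4, inv_of_order_two hv]
    exact h1.trans h2.symm
  · simp only
    rw [← mul_assoc, sq_of_order_two t.2.1, one_mul]
  · intro o
    match o with
    | none => simp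
    | some p =>
      obtain ⟨⟨u, v⟩, hu, hv, huv⟩ := p
      simp only at hu hv huv ⊢
      have hne : u ≠ x := by
        intro h
        rw [h] at huv
        have : v = 1 := by
          have h5 : x * v = x * 1 := by rw [huv, mul_one]
          exact mul_left_cancel h5
        exact ne_one_of_order_two hv this
      rw [dif_neg hne]
      congr 1
      apply Subtype.ext
      simp only
      rw [← huv, ← mul_assoc, sq_of_order_two hu, one_mul]
  · rintro ⟨t, ht, hc⟩
    simp only
    by_cases h : t = x
    · rw [dif_pos h]
      exact Subtype.ext h.symm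
    · rw [dif_neg h]

end Cfsg.Agent.S0236
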