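import Mathlib
import Cfsg.Statements.S0238
import Cfsg.Agent.S0236
import Cfsg.Agent.S0237
import Cfsg.Agent.Lib.Helper5.Invol

set_option autoImplicit false
open Cfsg

namespace Cfsg.Agent.S0238

open Cfsg.Agent.Lib.Helper5 in
theorem inverts_of_pair {G : Type*} [Group G] (x u v : G) (hu : orderOf u = 2) (hv : orderOf v = 2)
    (huv : u * v = x) : u * x * u⁻¹ = x⁻¹ := by
  rw [← huv, mul_inv_rev, inv_of_order_two hu, inv_of_order_two hv, ← mul_assoc,
    sq_of_order_two hu, one_mul]

open Cfsg.Agent.Lib.Helper5 in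
theorem result {G : Type*} [Group G] [Finite G] (x : G) : Nat.card {p : G × G // orderOf p.1 = 2 ∧ orderOf p.2 = 2 ∧ p.1 * p.2 = x} ≤ Nat.card (Subgroup.centralizer ({x} : Set G)) ∧ (¬ IsConj x x⁻¹ → Nat.card {p : G × G // orderOf p.1 = 2 ∧ orderOf p.2 = 2 ∧ p.1 * p.2 = x} = 0) ∧ (orderOf x = 2 → Nat.card {p : G × G // orderOf p.1 = 2 ∧ orderOf p.2 = 2 ∧ p.1 * p.2 = x} + 2 ≤ Nat.card (Subgroup.centralizer ({x} : Set G))) := by
  classical
  have hb : ¬ IsConj x x⁻¹ → Nat.card {p : G × G // orderOf p.1 = 2 ∧ orderOf p.2 = 2 ∧ p.1 * p.2 = x} = 0 := by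
    intro hnc
    have : IsEmpty {p : G × G // orderOf p.1 = 2 ∧ orderOf p.2 = 2 ∧ p.1 * p.2 = x} := by
      constructor
      rintro ⟨⟨u, v⟩, hu, hv, huv⟩
      exact hnc (isConj_iff.mpr ⟨u, inverts_of_pair x u v hu hv huv⟩)
    exact Nat.card_of_isEmpty
  refine ⟨?_, hb, ?_⟩
  · by_cases hreal : IsConj x x⁻¹
    · rw [← Cfsg.Agent.S0237.result x hreal]
      apply Nat.card_le_card_of_injective
        (fun p : {p : G × G // orderOf p.1 = 2 ∧ orderOf p.2 = 2 ∧ p.1 * p.2 = x} =>
          (⟨p.1.1, inverts_of_pair x p.1.1 p.1.2 p.2.1 p.2.2.1 p.2.2.2⟩ : {g : G // g * x * g⁻¹ = x⁻¹}))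
      rintro ⟨⟨u, v⟩, hu, hv, huv⟩ ⟨⟨u', v'⟩, hu', hv', huv'⟩ h
      simp only [Subtype.mk.injEq] at h
      simp only at huv huv' h
      subst h
      have : v = v' := mul_left_cancel (huv.trans huv'.symm)
      subst this
      rfl
    · rw [hb hreal]; exact Nat.zero_le _
  · intro hx
    have h1 := Cfsg.Agent.S0236.result x hx
    have h2 : Nat.card {t : G // orderOf t = 2 ∧ Commute t x} + 1 ≤
        Nat.card (Subgroup.centralizer ({x} : Set G)) := by
      rw [← Finite.card_option]
      apply Nat.card_le_card_of_injective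
        (fun o : Option {t : G // orderOf t = 2 ∧ Commute t x} => match o with
          | none => (1 : Subgroup.centralizer ({x} : Set G))
          | some t => ⟨t.1, (Cfsg.Agent.S0237.mem_centralizer_singleton x t.1).mpr t.2.2.eq.symm⟩)
      intro o₁ o₂ h
      match o₁, o₂, h with
      | none, none, _ => rfl
      | none, some t, h =>
        exfalso
        have : (1 : G) = t.1 := congrArg Subtype.val h
        exact ne_one_of_order_two t.2.1 this.symm
      | some t, none, h =>
        exfalso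
        have : t.1 = (1 : G) := congrArg Subtype.val h
        exact ne_one_of_order_two t.2.1 this
      | some t₁, some t₂, h =>
        have : (t₁.1 : G) = t₂.1 := congrArg (fun c : Subgroup.centralizer ({x} : Set G) => (c : G)) h
        rw [Subtype.ext this]
    omega

end Cfsg.Agent.S0238
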