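import Cfsg.Statements.S0764

set_option autoImplicit false
open Cfsg

namespace Cfsg.Agent.S0764

open Matrix in
theorem J_mulVec_J_mulVec {F : Type*} [CommRing F] (m : ℕ) (v : Fin m ⊕ Fin m → F) :
    Matrix.J (Fin m) F *ᵥ (Matrix.J (Fin m) F *ᵥ v) = -v := by
  rw [Matrix.mulVec_mulVec, Matrix.J_squared, Matrix.neg_mulVec, Matrix.one_mulVec]

open Matrix in
theorem dot_J_self {F : Type*} [CommRing F] (m : ℕ) (v : Fin m ⊕ Fin m → F) :
    v ⬝ᵥ (Matrix.J (Fin m) F *ᵥ v) = 0 := by
  simp only [Matrix.J, Matrix.fromBlocks_mulVec, dotProduct, Fintype.sum_sum_type, Sum.elim_inl, Sum.elim_inr,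
    Matrix.zero_mulVec, Matrix.neg_mulVec, Matrix.one_mulVec, Pi.neg_apply, zero_add, add_zero]
  simp only [mul_neg, Finset.sum_neg_distrib]
  rw [neg_add_eq_zero]
  exact Finset.sum_congr rfl fun i _ => mul_comm _ _

open Matrix in
/-- Symplectic transvections are isometries: for every vector v and scalar c the matrix of x ↦ x + c f(x, v) v lies in the symplectic group. -/
theorem result {F : Type*} [Field F] (m : ℕ) (v : Fin m ⊕ Fin m → F) (c : F) : Cfsg.sympTransvection m v c ∈ Matrix.symplecticGroup (Fin m) F := by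
  rw [SymplecticGroup.mem_iff]
  unfold Cfsg.sympTransvection
  have h1 : (Matrix.J (Fin m) F *ᵥ v) ᵥ* Matrix.J (Fin m) F = v := by
    rw [← Matrix.mulVec_transpose, Matrix.J_transpose, Matrix.neg_mulVec, J_mulVec_J_mulVec, neg_neg]
  rw [Matrix.transpose_add, Matrix.transpose_one, Matrix.transpose_smul, Matrix.transpose_vecMulVec]
  have h2 : (c • Matrix.vecMulVec v v) *ᵥ (Matrix.J (Fin m) F *ᵥ v) = 0 := by
    rw [Matrix.smul_mulVec, Matrix.vecMulVec_mulVec, dot_J_self]
    simp
  simp only [add_mul, mul_add, one_mul, mul_one, Matrix.smul_mul, Matrix.mul_smul,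
    Matrix.vecMulVec_mul, Matrix.mul_vecMulVec, h1, J_mulVec_J_mulVec, h2,
    Matrix.zero_vecMulVec, smul_zero, add_zero, Matrix.neg_vecMulVec, smul_neg, neg_smul, one_smul]
  abel

end Cfsg.Agent.S0764
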