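import Cfsg.Statements.S0581
import Mathlib
import Cfsg.Agent.Lib.Helper9.Schmidt

set_option autoImplicit false
open Pointwise
open Cfsg

namespace Cfsg.Agent.S0581


open Subgroup
open scoped Pointwise
open Cfsg.Agent.Lib.Helper9

section
variable {G : Type*} [Group G] [Finite G]

theorem isPGroup_conj_smul {p : ℕ} [Fact p.Prime] {A : Subgroup G} (hA : IsPGroup p A) (g : G) :
    IsPGroup p (MulAut.conj g • A : Subgroup G) := by
  obtain ⟨k, hk⟩ := IsPGroup.iff_card.mp hA
  exact IsPGroup.of_card ((card_conj_smul A g).trans hk)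

theorem commute_of_nilpotent (H : Subgroup G) (hH : Group.IsNilpotent H) (p r : ℕ)
    [Fact p.Prime] [Fact r.Prime] (hpr : p ≠ r) (A B : Subgroup G) (hAH : A ≤ H) (hBH : B ≤ H)
    (hA : IsPGroup p A) (hB : IsPGroup r B) : ∀ a ∈ A, ∀ b ∈ B, a * b = b * a := by
  intro a ha b hb
  have hall : ∀ (p : ℕ) [Fact p.Prime] (P : Sylow p H), (P : Subgroup H).Normal :=
    ((Group.isNilpotent_of_finite_tfae (G := H)).out 0 3).mp hH
  have hA' : IsPGroup p (A.subgroupOf H) := hA.comap_subtype
  have hB' : IsPGroup r (B.subgroupOf H) := hB.comap_subtype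
  obtain ⟨P, hP⟩ := hA'.exists_le_sylow
  obtain ⟨R, hR⟩ := hB'.exists_le_sylow
  have hdis : Disjoint (P : Subgroup H) (R : Subgroup H) :=
    IsPGroup.disjoint_of_ne p r hpr _ _ P.isPGroup' R.isPGroup'
  have h := Subgroup.commute_of_normal_of_disjoint _ _ (hall p P) (hall r R) hdis
    ⟨a, hAH ha⟩ ⟨b, hBH hb⟩ (hP (mem_subgroupOf.mpr ha)) (hR (mem_subgroupOf.mpr hb))
  exact congrArg Subtype.val h.eq

theorem exists_conj_sylow_in (p : ℕ) [Fact p.Prime] (S : Sylow p G) (L A : Subgroup G)
    (hSL : (S : Subgroup G) ≤ L) (hAL : A ≤ L) (hA : IsPGroup p A) :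
    ∃ l ∈ L, A ≤ MulAut.conj l • (S : Subgroup G) := by
  have hA' : IsPGroup p (A.subgroupOf L) := hA.comap_subtype
  obtain ⟨T, hT⟩ := hA'.exists_le_sylow
  obtain ⟨l, hl⟩ := MulAction.exists_smul_eq L (S.subtype hSL) T
  refine ⟨l, l.2, ?_⟩
  intro a ha
  have h1 : (⟨a, hAL ha⟩ : L) ∈ (T : Subgroup L) := hT (mem_subgroupOf.mpr ha)
  rw [← hl, Sylow.smul_def, Sylow.pointwise_smul_def, Sylow.coe_subtype,
    Cfsg.Agent.Lib.Helper9.conj_smul_subgroupOf, mem_subgroupOf] at h1
  exact h1

theorem exists_sylow_le_of_hall (H : Subgroup G) (hHall : (Nat.card H).Coprime H.index) (p : ℕ)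
    [hp : Fact p.Prime] (hpd : p ∣ Nat.card H) : ∃ S : Sylow p G, (S : Subgroup G) ≤ H := by
  obtain ⟨P⟩ : Nonempty (Sylow p H) := inferInstance
  have hcard : Nat.card ((P : Subgroup H).map H.subtype) = p ^ (Nat.card G).factorization p := by
    rw [Subgroup.card_map_of_injective H.subtype_injective, Sylow.card_eq_multiplicity]
    congr 1
    have h1 := H.card_mul_index
    have hpi : ¬ p ∣ H.index := by
      intro h
      have h2 := Nat.dvd_gcd hpd h
      have h3 : Nat.gcd (Nat.card H) H.index = 1 := hHall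
      rw [h3] at h2
      exact hp.out.one_lt.ne' (Nat.dvd_one.mp h2)
    rw [← h1, Nat.factorization_mul Nat.card_pos.ne' Subgroup.index_ne_zero_of_finite,
      Finsupp.add_apply, Nat.factorization_eq_zero_of_not_dvd hpi, add_zero]
  refine ⟨Sylow.ofCard _ hcard, ?_⟩
  rw [Sylow.coe_ofCard]; exact map_subtype_le _

theorem commute_of_normalizes (H : Subgroup G) (hH : Group.IsNilpotent H) (p q : ℕ)
    [Fact p.Prime] [Fact q.Prime] (hpq : p ≠ q) (Sp : Sylow p G) (Sq : Sylow q G)
    (hSp : (Sp : Subgroup G) ≤ H) (hSq : (Sq : Subgroup G) ≤ H) (A B : Subgroup G)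
    (hA : IsPGroup p A) (hB : IsPGroup q B) (hAB : A ≤ normalizer (B : Set G)) :
    ∀ a ∈ A, ∀ b ∈ B, a * b = b * a := by
  obtain ⟨T, hT⟩ := hB.exists_le_sylow
  obtain ⟨h, hh⟩ := MulAction.exists_smul_eq G Sq T
  have hB1 : B ≤ MulAut.conj h • (Sq : Subgroup G) := by
    rw [← Sylow.pointwise_smul_def, ← Sylow.smul_def, hh]; exact hT
  have hB2 : MulAut.conj h⁻¹ • B ≤ (Sq : Subgroup G) := by
    rw [conj_smul_le_iff, inv_inv]; exact hB1
  have hBq : IsPGroup q (MulAut.conj h⁻¹ • B : Subgroup G) := isPGroup_conj_smul hB _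
  have hcomm1 := commute_of_nilpotent H hH p q hpq (Sp : Subgroup G) (MulAut.conj h⁻¹ • B) hSp
    (hB2.trans hSq) Sp.isPGroup' hBq
  have hSpL : (Sp : Subgroup G) ≤ normalizer ((MulAut.conj h⁻¹ • B : Subgroup G) : Set G) := by
    intro s hs
    apply Subgroup.centralizer_le_normalizer
    exact mem_centralizer_iff.mpr (fun x hx => (hcomm1 s hs x hx).symm)
  have hA1L : MulAut.conj h⁻¹ • A ≤ normalizer ((MulAut.conj h⁻¹ • B : Subgroup G) : Set G) := by
    intro x hx
    rw [mem_conj_smul_iff, inv_inv] at hx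
    have h1 := hAB hx
    rw [← conj_smul_eq_self_iff_mem_normalizer] at h1 ⊢
    have h2 : MulAut.conj x • MulAut.conj h⁻¹ • B
        = MulAut.conj h⁻¹ • MulAut.conj (h * x * h⁻¹) • B := by
      rw [← conj_smul_smul, ← conj_smul_smul]; congr 2; group
    rw [h2, h1]
  have hA1 : IsPGroup p (MulAut.conj h⁻¹ • A : Subgroup G) := isPGroup_conj_smul hA _
  obtain ⟨l, hl, hAl⟩ := exists_conj_sylow_in p Sp _ _ hSpL hA1L hA1
  intro a ha b hb
  have ha1 : h⁻¹ * a * h ∈ MulAut.conj h⁻¹ • A := by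
    rw [mem_conj_smul_iff, inv_inv]; simpa [mul_assoc] using ha
  have hb1 : h⁻¹ * b * h ∈ MulAut.conj h⁻¹ • B := by
    rw [mem_conj_smul_iff, inv_inv]; simpa [mul_assoc] using hb
  have ha2 : l⁻¹ * (h⁻¹ * a * h) * l ∈ (Sp : Subgroup G) := mem_conj_smul_iff.mp (hAl ha1)
  have hb2 : l⁻¹ * (h⁻¹ * b * h) * l ∈ MulAut.conj h⁻¹ • B := by
    have hl' := Subgroup.inv_mem _ hl
    have := (mem_normalizer_iff.mp hl' (h⁻¹ * b * h)).mp hb1
    simpa using this
  have hc := hcomm1 _ ha2 _ hb2
  have e1 : a * b = h * l * ((l⁻¹ * (h⁻¹ * a * h) * l) * (l⁻¹ * (h⁻¹ * b * h) * l)) * l⁻¹ * h⁻¹ := by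
    group
  have e2 : b * a = h * l * ((l⁻¹ * (h⁻¹ * b * h) * l) * (l⁻¹ * (h⁻¹ * a * h) * l)) * l⁻¹ * h⁻¹ := by
    group
  rw [e1, e2, hc]

theorem isNilpotent_of_nilpotent_hall (H K : Subgroup G) (hH : Group.IsNilpotent H)
    (hHall : (Nat.card H).Coprime H.index)
    (hK : ∀ p : ℕ, p.Prime → p ∣ Nat.card K → p ∣ Nat.card H) : Group.IsNilpotent K := by
  classical
  by_contra hnn
  obtain ⟨K₀, hK₀K, hK₀min⟩ := Finite.exists_le_minimal
    (p := fun L : Subgroup G => L ≤ K ∧ ¬ Group.IsNilpotent L) (a := K) ⟨le_rfl, hnn⟩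
  obtain ⟨-, hK₀nn⟩ := hK₀min.prop
  have hprop : ∀ L : Subgroup K₀, L ≠ ⊤ → Group.IsNilpotent L := by
    intro L hL
    by_contra hLnn
    have h1 : L.map K₀.subtype ≤ K₀ := map_subtype_le L
    have h2 : ¬ Group.IsNilpotent (L.map K₀.subtype) := by
      intro h
      apply hLnn
      exact Group.nilpotent_of_mulEquiv
        (Subgroup.equivMapOfInjective L K₀.subtype K₀.subtype_injective).symm
    have h3 := hK₀min.le_of_le ⟨h1.trans hK₀K, h2⟩ h1
    apply hL
    rw [eq_top_iff]
    intro x _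
    obtain ⟨y, hy, hyx⟩ := h3 x.2
    have : y = x := Subtype.ext hyx
    rw [← this]; exact hy
  obtain ⟨p, q, hp, hq, hpq, P, Q, hcyc, hQn, hPQ⟩ := schmidt_structure hK₀nn hprop
  have hpF : Fact p.Prime := ⟨hp⟩
  have hqF : Fact q.Prime := ⟨hq⟩
  have hcomm : ∀ a : K₀, a ∈ (P : Subgroup K₀) → ∀ b : K₀, b ∈ (Q : Subgroup K₀) →
      a * b = b * a := by
    intro a ha b hb
    by_cases hpd : p ∣ Nat.card K₀
    swap
    · have hc : Nat.card (P : Subgroup K₀) = 1 := by
        rw [Sylow.card_eq_multiplicity, Nat.factorization_eq_zero_of_not_dvd hpd, pow_zero]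
      have h1 : (P : Subgroup K₀) = ⊥ := Subgroup.card_eq_one.mp hc
      have h2 : a = 1 := by rw [h1] at ha; exact mem_bot.mp ha
      rw [h2, one_mul, mul_one]
    by_cases hqd : q ∣ Nat.card K₀
    swap
    · have hc : Nat.card (Q : Subgroup K₀) = 1 := by
        rw [Sylow.card_eq_multiplicity, Nat.factorization_eq_zero_of_not_dvd hqd, pow_zero]
      have h1 : (Q : Subgroup K₀) = ⊥ := Subgroup.card_eq_one.mp hc
      have h2 : b = 1 := by rw [h1] at hb; exact mem_bot.mp hb
      rw [h2, one_mul, mul_one]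
    have hpH : p ∣ Nat.card H := hK p hp (hpd.trans (Subgroup.card_dvd_of_le hK₀K))
    have hqH : q ∣ Nat.card H := hK q hq (hqd.trans (Subgroup.card_dvd_of_le hK₀K))
    obtain ⟨Sp, hSp⟩ := exists_sylow_le_of_hall H hHall p hpH
    obtain ⟨Sq, hSq⟩ := exists_sylow_le_of_hall H hHall q hqH
    have hAB : (P : Subgroup K₀).map K₀.subtype
        ≤ normalizer (((Q : Subgroup K₀).map K₀.subtype : Subgroup G) : Set G) := by
      have h1 : (P : Subgroup K₀) ≤ normalizer ((Q : Subgroup K₀) : Set K₀) := by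
        rw [normalizer_eq_top_iff.mpr hQn]; exact le_top
      exact (Subgroup.map_mono h1).trans (Subgroup.le_normalizer_map _)
    have h := commute_of_normalizes H hH p q hpq Sp Sq hSp hSq _ _ (P.isPGroup'.map _)
      (Q.isPGroup'.map _) hAB (a : G) (Subgroup.mem_map_of_mem _ ha) (b : G)
      (Subgroup.mem_map_of_mem _ hb)
    exact Subtype.ext h
  apply hK₀nn
  have hPnil : Group.IsNilpotent (P : Subgroup K₀) := P.isPGroup'.isNilpotent
  have hQnil : Group.IsNilpotent (Q : Subgroup K₀) := Q.isPGroup'.isNilpotent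
  have hf : Function.Surjective (MonoidHom.noncommCoprod (P : Subgroup K₀).subtype
      (Q : Subgroup K₀).subtype (fun a b => (commute_iff_eq _ _).mpr (hcomm a a.2 b b.2))) := by
    rw [← MonoidHom.range_eq_top, MonoidHom.noncommCoprod_range, Subgroup.range_subtype,
      Subgroup.range_subtype]
    exact hPQ
  exact Group.nilpotent_of_surjective _ hf

end


/-- Let H be a nilpotent subgroup of a finite group G whose order is coprime to its index, and K a subgroup every prime divisor of whose order divides the order of H. Then K lies in some conjugate of H. -/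
theorem result {G : Type*} [Group G] [Finite G] (H K : Subgroup G) (hH : Group.IsNilpotent H) (hHall : (Nat.card H).Coprime H.index) (hK : ∀ p : ℕ, p.Prime → p ∣ Nat.card K → p ∣ Nat.card H) : ∃ x : G, K ≤ MulAut.conj x • H := by
  classical
  have hKnil := isNilpotent_of_nilpotent_hall H K hH hHall hK
  have key : ∀ s : Finset ℕ, (∀ r ∈ s, r.Prime ∧ r ∣ Nat.card K) →
      ∃ y : G, ∀ r ∈ s,
        MulAut.conj y • (((default : Sylow r K) : Subgroup K).map K.subtype) ≤ H := by
    intro s
    induction s using Finset.induction_on with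
    | empty => intro _; exact ⟨1, fun r hr => absurd hr (Finset.notMem_empty _)⟩
    | insert a s ha ih =>
      intro hs
      obtain ⟨y, hy⟩ := ih (fun r hr => hs r (Finset.mem_insert_of_mem hr))
      obtain ⟨hap, hadvd⟩ := hs a (Finset.mem_insert_self a s)
      have haF : Fact a.Prime := ⟨hap⟩
      obtain ⟨Sa, hSa⟩ := exists_sylow_le_of_hall H hHall a (hK a hap hadvd)
      have hSaL : (Sa : Subgroup G) ≤ ⨅ r ∈ s, centralizer ((MulAut.conj y •
          (((default : Sylow r K) : Subgroup K).map K.subtype) : Subgroup G) : Set G) := by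
        refine le_iInf₂ (fun r hr => ?_)
        obtain ⟨hrp, -⟩ := hs r (Finset.mem_insert_of_mem hr)
        have hrF : Fact r.Prime := ⟨hrp⟩
        have hra : a ≠ r := fun h => ha (h ▸ hr)
        intro x hx
        refine mem_centralizer_iff.mpr (fun z hz => ?_)
        exact (commute_of_nilpotent H hH a r hra (Sa : Subgroup G) _ hSa (hy r hr) Sa.isPGroup'
          (isPGroup_conj_smul ((default : Sylow r K).isPGroup'.map _) y) x hx z hz).symm
      have hAL : MulAut.conj y • (((default : Sylow a K) : Subgroup K).map K.subtype)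
          ≤ ⨅ r ∈ s, centralizer ((MulAut.conj y •
          (((default : Sylow r K) : Subgroup K).map K.subtype) : Subgroup G) : Set G) := by
        refine le_iInf₂ (fun r hr => ?_)
        obtain ⟨hrp, -⟩ := hs r (Finset.mem_insert_of_mem hr)
        have hrF : Fact r.Prime := ⟨hrp⟩
        have hra : a ≠ r := fun h => ha (h ▸ hr)
        intro x hx
        refine mem_centralizer_iff.mpr (fun z hz => ?_)
        rw [mem_conj_smul_iff] at hx
        rw [SetLike.mem_coe, mem_conj_smul_iff] at hz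
        have hc := commute_of_nilpotent K hKnil a r hra
          (((default : Sylow a K) : Subgroup K).map K.subtype)
          (((default : Sylow r K) : Subgroup K).map K.subtype) (map_subtype_le _)
          (map_subtype_le _) ((default : Sylow a K).isPGroup'.map _)
          ((default : Sylow r K).isPGroup'.map _) _ hx _ hz
        have e1 : z * x = y * ((y⁻¹ * z * y) * (y⁻¹ * x * y)) * y⁻¹ := by group
        have e2 : x * z = y * ((y⁻¹ * x * y) * (y⁻¹ * z * y)) * y⁻¹ := by group
        rw [e1, e2, hc]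
      obtain ⟨c, hc, hAc⟩ := exists_conj_sylow_in a Sa _ _ hSaL hAL
        (isPGroup_conj_smul ((default : Sylow a K).isPGroup'.map _) y)
      refine ⟨c⁻¹ * y, ?_⟩
      intro r hr
      rw [conj_smul_smul]
      rcases Finset.mem_insert.mp hr with hra | hrs
      · subst hra
        rw [conj_smul_le_iff, inv_inv]
        exact hAc.trans (Subgroup.pointwise_smul_le_pointwise_smul_iff.mpr hSa)
      · have hcr : c ∈ centralizer ((MulAut.conj y •
            (((default : Sylow r K) : Subgroup K).map K.subtype) : Subgroup G) : Set G) :=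
          (iInf₂_le r hrs : (⨅ r ∈ s, centralizer ((MulAut.conj y •
            (((default : Sylow r K) : Subgroup K).map K.subtype) : Subgroup G) : Set G)) ≤ _) hc
        intro x hx
        rw [mem_conj_smul_iff, inv_inv] at hx
        have h1 : c * x * c⁻¹ * c = c * (c * x * c⁻¹) := mem_centralizer_iff.mp hcr _ hx
        have h2 : x = c * x * c⁻¹ := by
          calc x = c⁻¹ * (c * x * c⁻¹ * c) := by group
            _ = c⁻¹ * (c * (c * x * c⁻¹)) := by rw [h1]
            _ = c * x * c⁻¹ := by group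
        rw [h2]; exact hy r hrs hx
  obtain ⟨y, hy⟩ := key (Nat.card K).primeFactors
    (fun r hr => ⟨Nat.prime_of_mem_primeFactors hr, Nat.dvd_of_mem_primeFactors hr⟩)
  refine ⟨y⁻¹, ?_⟩
  have hT : (MulAut.conj y⁻¹ • H).subgroupOf K = ⊤ := by
    apply Cfsg.Agent.Lib.Helper7.eq_top_of_sylow_le
    intro r hr
    refine ⟨default, ?_⟩
    intro x hx
    rw [mem_subgroupOf]
    by_cases hrd : r ∣ Nat.card K
    · have hmem : r ∈ (Nat.card K).primeFactors :=
        Nat.mem_primeFactors.mpr ⟨hr.out, hrd, Nat.card_pos.ne'⟩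
      have h1 := hy r hmem
      rw [conj_smul_le_iff] at h1
      exact h1 (Subgroup.mem_map_of_mem _ hx)
    · have hc : Nat.card ((default : Sylow r K) : Subgroup K) = 1 := by
        rw [Sylow.card_eq_multiplicity, Nat.factorization_eq_zero_of_not_dvd hrd, pow_zero]
      have h1 : ((default : Sylow r K) : Subgroup K) = ⊥ := Subgroup.card_eq_one.mp hc
      rw [h1, mem_bot] at hx
      rw [hx]; exact one_mem _
  exact Subgroup.subgroupOf_eq_top.mp hT

end Cfsg.Agent.S0581
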