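import Cfsg.Statements.S0013
-- import your own Cfsg.Agent.* helpers here
import Mathlib

set_option autoImplicit false
open Cfsg

namespace Cfsg.Agent.S0013

/-- In a finite p-group the Frattini subgroup is the smallest normal subgroup with elementary abelian quotient: it lies below any normal subgroup containing all commutators and all p-th powers. -/
theorem result {G : Type*} [Group G] [Finite G] (p : ℕ) [Fact p.Prime]
    (hG : IsPGroup p G) (N : Subgroup G) [N.Normal] (hcomm : commutator G ≤ N) (hpow : ∀ x : G, x ^ p ∈ N) :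
    frattini G ≤ N := by
  classical
  intro x hx
  by_contra hxN
  have hp : p.Prime := Fact.out
  let P : Subgroup G → Prop := fun M => N ≤ M ∧ x ∉ M
  obtain ⟨M, hNM, hMmax⟩ := Finite.exists_le_maximal (p := P) (a := N) ⟨le_rfl, hxN⟩
  have hxM : x ∉ M := hMmax.prop.2
  have hMn : M.Normal := Subgroup.Normal.of_commutator_le G (hcomm.trans hNM)
  have hcoatom : IsCoatom M := by
    refine ⟨fun h => hxM (h ▸ Subgroup.mem_top x), ?_⟩
    intro K hMK
    have hxK : x ∈ K := by
      by_contra hxK
      exact (not_le_of_gt hMK) (hMmax.le_of_ge ⟨hNM.trans hMK.le, hxK⟩ hMK.le)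
    rw [eq_top_iff]
    intro g _
    by_cases hgM : g ∈ M
    · exact hMK.le hgM
    · have hlt : M < M ⊔ Subgroup.zpowers g := by
        refine lt_of_le_of_ne le_sup_left ?_
        intro h
        apply hgM
        rw [h]
        exact (le_sup_right : Subgroup.zpowers g ≤ _) (Subgroup.mem_zpowers g)
      have hx' : x ∈ M ⊔ Subgroup.zpowers g := by
        by_contra hx'
        exact (not_le_of_gt hlt) (hMmax.le_of_ge ⟨hNM.trans hlt.le, hx'⟩ hlt.le)
      obtain ⟨m, hm, z, hz, hmz⟩ := Subgroup.mem_sup_of_normal_left.mp hx'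
      obtain ⟨k, rfl⟩ := Subgroup.mem_zpowers_iff.mp hz
      have hpk : ¬ (p : ℤ) ∣ k := by
        rintro ⟨c, rfl⟩
        apply hxM
        rw [← hmz]
        refine M.mul_mem hm (hNM ?_)
        rw [zpow_mul, zpow_natCast]
        exact N.zpow_mem (hpow g) c
      have hcop : IsCoprime (p : ℤ) k :=
        (Nat.prime_iff_prime_int.mp hp).coprime_iff_not_dvd.mpr hpk
      obtain ⟨a, b, hab⟩ := hcop
      have hg : g = (g ^ k) ^ b * (g ^ p) ^ a := by
        rw [← zpow_mul, ← zpow_natCast g p, ← zpow_mul, ← zpow_add]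
        have h1 : k * b + (p : ℤ) * a = 1 := by linarith [hab]
        rw [h1, zpow_one]
      rw [hg]
      refine K.mul_mem (K.zpow_mem ?_ b) (K.zpow_mem (hMK.le (hNM (hpow g))) a)
      have h2 : g ^ k = m⁻¹ * x := by rw [← hmz]; group
      rw [h2]
      exact K.mul_mem (K.inv_mem (hMK.le hm)) hxK
  exact hxM (frattini_le_coatom hcoatom hx)

end Cfsg.Agent.S0013
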