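import Cfsg.Statements.S0039
-- import your own Cfsg.Agent.* helpers here

set_option autoImplicit false
open Cfsg

namespace Cfsg.Agent.S0039

section
open scoped Pointwise

theorem mem_conj_smul_iff {G : Type*} [Group G] {H : Subgroup G} {g x : G} :
    x ∈ MulAut.conj g • H ↔ g⁻¹ * x * g ∈ H := by
  rw [Subgroup.mem_pointwise_smul_iff_inv_smul_mem]
  simp [MulAut.smul_def]

theorem main {G : Type*} [Group G] [Finite G] (K H : Subgroup G) [K.Normal]
    (hc : Subgroup.IsComplement' K H) (hK : K ≠ ⊥) (hH : H ≠ ⊥) :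
    Cfsg.IsFrobeniusComplement H ↔ ∀ h ∈ H, h ≠ 1 → K ⊓ Subgroup.centralizer {h} = ⊥ := by
  classical
  have hdisj : K ⊓ H = ⊥ := hc.disjoint.eq_bot
  have hKH : ∀ x, x ∈ K → x ∈ H → x = 1 := fun x hxK hxH =>
    (Subgroup.eq_bot_iff_forall _).mp hdisj x ⟨hxK, hxH⟩
  constructor
  · rintro ⟨-, -, hfrob⟩ h hh hh1
    rw [Subgroup.eq_bot_iff_forall]
    intro k hk
    obtain ⟨hkK, hkC⟩ := Subgroup.mem_inf.mp hk
    by_contra hk1
    have hkH : k ∉ H := fun hkH => hk1 (hKH k hkK hkH)
    have h1 := hfrob k hkH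
    have hcomm : k * h = h * k := Subgroup.mem_centralizer_singleton_iff.mp hkC
    have h2 : h ∈ MulAut.conj k • H := by
      rw [mem_conj_smul_iff]
      have : k⁻¹ * h * k = h := by
        rw [mul_assoc, ← hcomm, inv_mul_cancel_left]
      rw [this]; exact hh
    exact hh1 ((Subgroup.eq_bot_iff_forall _).mp h1 h ⟨hh, h2⟩)
  · intro hfpf
    refine ⟨hH, ?_, ?_⟩
    · intro htop
      apply hK
      rw [htop, inf_top_eq] at hdisj
      exact hdisj
    · intro g hg
      rw [Subgroup.eq_bot_iff_forall]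
      intro x hx
      obtain ⟨hxH, hxg⟩ := Subgroup.mem_inf.mp hx
      rw [mem_conj_smul_iff] at hxg
      obtain ⟨⟨⟨k, hk⟩, ⟨h', hh'⟩⟩, hkh, -⟩ := hc.existsUnique g
      simp only at hkh
      have hk1 : k ≠ 1 := by
        rintro rfl
        apply hg
        rw [← hkh, one_mul]; exact hh'
      by_contra hx1
      have hy : k⁻¹ * x * k ∈ H := by
        have h3 : k⁻¹ * x * k = h' * (g⁻¹ * x * g) * h'⁻¹ := by
          rw [← hkh]; group
        rw [h3]
        exact H.mul_mem (H.mul_mem hh' hxg) (H.inv_mem hh')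
      have h4 : x⁻¹ * (k⁻¹ * x * k) ∈ H := H.mul_mem (H.inv_mem hxH) hy
      have h5 : x⁻¹ * (k⁻¹ * x * k) ∈ K := by
        have h6 : x⁻¹ * (k⁻¹ * x * k) = (x⁻¹ * k⁻¹ * x⁻¹⁻¹) * k := by group
        rw [h6]
        exact K.mul_mem (‹K.Normal›.conj_mem _ (K.inv_mem hk) _) hk
      have h7 := hKH _ h5 h4
      have h8 : k * x = x * k := by
        have e1 : k⁻¹ * x * k = x := by
          have e2 := congrArg (fun z => x * z) h7
          simpa [mul_assoc] using e2
        calc k * x = k * (k⁻¹ * x * k) := by rw [e1]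
          _ = x * k := by group
      have h9 : k ∈ K ⊓ Subgroup.centralizer {x} :=
        ⟨hk, Subgroup.mem_centralizer_singleton_iff.mpr h8⟩
      rw [hfpf x hxH hx1] at h9
      exact hk1 (Subgroup.mem_bot.mp h9)

end

/-- In a finite group that is a semidirect product of a normal subgroup K by a nontrivial subgroup H, H is a Frobenius complement exactly when each nonidentity element of H acts without nonidentity fixed points on K by conjugation. -/
theorem result {G : Type*} [Group G] [Finite G] (K H : Subgroup G) [K.Normal]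
    (hc : Subgroup.IsComplement' K H) (hK : K ≠ ⊥) (hH : H ≠ ⊥) :
    Cfsg.IsFrobeniusComplement H ↔ ∀ h ∈ H, h ≠ 1 → K ⊓ Subgroup.centralizer {h} = ⊥ := by
  exact main K H hc hK hH

end Cfsg.Agent.S0039
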