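import Cfsg.Statements.S0048
-- import your own Cfsg.Agent.* helpers here
import Cfsg.Agent.Lib.Helper7.Hall
import Mathlib.Algebra.IsPrimePow

set_option autoImplicit false
open Cfsg

namespace Cfsg.Agent.S0048

section
open Cfsg.Agent.Lib.Helper7
universe u

theorem main : ∀ (n : ℕ) (G : Type u) [Group G] [Finite G] [Group.IsSolvable G],
    Nat.card G ≤ n → ∀ M : Subgroup G, IsCoatom M → IsPrimePow M.index := by
  intro n
  induction n with
  | zero =>
    intro G _ _ _ hN
    exact absurd hN (by have : 0 < Nat.card G := Nat.card_pos; omega)
  | succ n ih =>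
    intro G _ _ _ hN M hM
    have hnt : Nontrivial G := by
      by_contra h
      rw [not_nontrivial_iff_subsingleton] at h
      apply hM.1
      rw [eq_top_iff]
      intro x _
      rw [Subsingleton.elim x 1]
      exact M.one_mem
    obtain ⟨N, p, hNn, hNne, hp, hNp⟩ := exists_normal_pgroup G
    have : Fact p.Prime := ⟨hp⟩
    by_cases hNM : N ≤ M
    · -- pass to the quotient
      have hN1 : 1 < Nat.card N := (Subgroup.one_lt_card_iff_ne_bot N).mpr hNne
      have hQlt := card_quotient_lt N hN1
      have hsurj : Function.Surjective (QuotientGroup.mk' N) := QuotientGroup.mk'_surjective N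
      have hcm : (M.map (QuotientGroup.mk' N)).comap (QuotientGroup.mk' N) = M := by
        rw [Subgroup.comap_map_eq, QuotientGroup.ker_mk', sup_eq_left.mpr hNM]
      have hco : IsCoatom (M.map (QuotientGroup.mk' N)) := by
        constructor
        · intro h
          apply hM.1
          rw [← hcm, h, Subgroup.comap_top]
        · intro Kb hKb
          have h1 : M < Kb.comap (QuotientGroup.mk' N) := by
            rw [lt_iff_le_and_ne]
            refine ⟨?_, ?_⟩
            · rw [← hcm]; exact Subgroup.comap_mono hKb.le
            · intro h
              apply ne_of_lt hKb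
              rw [h, Subgroup.map_comap_eq_self_of_surjective hsurj]
          have h2 := hM.2 _ h1
          rw [← Subgroup.map_comap_eq_self_of_surjective hsurj Kb, h2,
            Subgroup.map_top_of_surjective _ hsurj]
      have h3 := ih (G ⧸ N) (by omega) _ hco
      rwa [Subgroup.index_map_eq _ hsurj (by rw [QuotientGroup.ker_mk']; exact hNM)] at h3
    · have hsup : N ⊔ M = ⊤ := by
        apply hM.2
        rw [lt_iff_le_and_ne]
        refine ⟨le_sup_right, fun h => hNM ?_⟩
        rw [h]; exact le_sup_left
      obtain ⟨k, hk⟩ := IsPGroup.iff_card.mp hNp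
      have h1 : Nat.card G ∣ Nat.card N * Nat.card M := by
        have h2 := card_sup_dvd_of_normal N M
        rwa [hsup, Subgroup.card_top] at h2
      have h3 : M.index ∣ Nat.card N := by
        rw [← M.card_mul_index] at h1
        have h4 : M.index * Nat.card M ∣ Nat.card N * Nat.card M := by
          rw [mul_comm]; exact h1
        exact Nat.dvd_of_mul_dvd_mul_right Nat.card_pos h4
      rw [hk] at h3
      obtain ⟨j, -, hj⟩ := (Nat.dvd_prime_pow hp).mp h3
      rw [isPrimePow_nat_iff]
      refine ⟨p, j, hp, ?_, hj.symm⟩
      rcases Nat.eq_zero_or_pos j with h0 | h0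
      · exfalso
        rw [h0, pow_zero] at hj
        exact hM.1 (Subgroup.index_eq_one.mp hj)
      · exact h0

end

/-- In a finite solvable group every maximal subgroup has index a prime power. -/
theorem result {G : Type*} [Group G] [Finite G] [Group.IsSolvable G]
    (M : Subgroup G) (hM : IsCoatom M) : IsPrimePow M.index := by
  exact main (Nat.card G) G le_rfl M hM

end Cfsg.Agent.S0048
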