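import Cfsg.Statements.S0087
import Cfsg.Agent.Lib.Helper9.WielandtHall

set_option autoImplicit false
open Cfsg

namespace Cfsg.Agent.S0087


open Cfsg.Agent.Lib.Helper9
open Subgroup
open scoped Pointwise IsMulCommutative

universe u

theorem fusion {G : Type u} [Group G] [Finite G] (H : Subgroup G)
    (hHall : Nat.Coprime (Nat.card H) H.index)
    (h : Subgroup.normalizer (H : Set G) ≤ Subgroup.centralizer (H : Set G))
    (hcomm : ∀ x ∈ H, ∀ y ∈ H, x * y = y * x) :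
    ∀ x ∈ H, ∀ g₀ : G, g₀⁻¹ * x * g₀ ∈ H → g₀⁻¹ * x * g₀ = x := by
  intro x hx g₀ hy
  obtain ⟨y, hydef⟩ : ∃ y, y = g₀⁻¹ * x * g₀ := ⟨_, rfl⟩
  rw [← hydef] at hy ⊢
  have hHM : H ≤ Subgroup.centralizer {y} := by
    intro z hz
    rw [Subgroup.mem_centralizer_iff]
    intro w hw
    rw [Set.mem_singleton_iff] at hw
    rw [hw]; exact hcomm y hy z hz
  have hcomm' : ∀ a ∈ MulAut.conj g₀⁻¹ • H, ∀ b ∈ MulAut.conj g₀⁻¹ • H, a * b = b * a := by
    intro a ha b hb
    rw [mem_conj_smul_iff] at ha hb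
    have h6 := hcomm _ ha _ hb
    have h7 : g₀⁻¹⁻¹ * (a * b) * g₀⁻¹ = g₀⁻¹⁻¹ * (b * a) * g₀⁻¹ := by
      calc g₀⁻¹⁻¹ * (a * b) * g₀⁻¹ = (g₀⁻¹⁻¹ * a * g₀⁻¹) * (g₀⁻¹⁻¹ * b * g₀⁻¹) := by group
        _ = (g₀⁻¹⁻¹ * b * g₀⁻¹) * (g₀⁻¹⁻¹ * a * g₀⁻¹) := h6
        _ = g₀⁻¹⁻¹ * (b * a) * g₀⁻¹ := by group
    exact mul_left_cancel (mul_right_cancel h7)
  have hyK : y ∈ MulAut.conj g₀⁻¹ • H := by
    rw [mem_conj_smul_iff, hydef]
    have h8 : g₀⁻¹⁻¹ * (g₀⁻¹ * x * g₀) * g₀⁻¹ = x := by group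
    rw [h8]; exact hx
  have hH₁M : MulAut.conj g₀⁻¹ • H ≤ Subgroup.centralizer {y} := by
    intro z hz
    rw [Subgroup.mem_centralizer_iff]
    intro w hw
    rw [Set.mem_singleton_iff] at hw
    rw [hw]; exact hcomm' y hyK z hz
  have hcard : Nat.card H = Nat.card (MulAut.conj g₀⁻¹ • H : Subgroup G) :=
    (card_conj_smul H g₀⁻¹).symm
  have hhall' : (Nat.card H).Coprime (H.relIndex (Subgroup.centralizer {y})) :=
    Nat.Coprime.coprime_dvd_right (Subgroup.relIndex_dvd_index_of_le hHM) hHall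
  obtain ⟨c, hcM, hc⟩ := wielandt_abelian _ (Subgroup.centralizer {y}) H (MulAut.conj g₀⁻¹ • H)
    le_rfl hHM hH₁M hcomm hcomm' hcard hhall'
  have hgc : g₀ * c ∈ Subgroup.normalizer (H : Set G) := by
    rw [← conj_smul_eq_self_iff_mem_normalizer, conj_smul_smul, hc]
    have := conj_smul_smul_inv H g₀
    exact this
  have h9 := Subgroup.mem_centralizer_iff.mp (h hgc) x hx
  have h10 : y * c = c * y := Subgroup.mem_centralizer_iff.mp hcM y rfl
  have h11 : c * y = c * x := by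
    rw [← h10, hydef]
    calc g₀⁻¹ * x * g₀ * c = g₀⁻¹ * (x * (g₀ * c)) := by group
      _ = g₀⁻¹ * (g₀ * c * x) := by rw [h9]
      _ = c * x := by group
  exact mul_left_cancel h11

theorem main {G : Type u} [Group G] [Finite G] (H : Subgroup G)
    (hHall : Nat.Coprime (Nat.card H) H.index)
    (h : Subgroup.normalizer (H : Set G) ≤ Subgroup.centralizer (H : Set G)) :
    ∃ N : Subgroup G, N.Normal ∧ N.IsComplement' H := by
  have hcomm : ∀ x ∈ H, ∀ y ∈ H, x * y = y * x := by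
    intro x hx y hy
    exact Subgroup.mem_centralizer_iff.mp (h (Subgroup.le_normalizer hy)) x hx
  have hHc : IsMulCommutative H := ⟨⟨fun x y => Subtype.ext (hcomm x x.2 y y.2)⟩⟩
  have hfus := fusion H hHall h hcomm
  have hT : ∀ (x : G) (hx : x ∈ H),
      MonoidHom.transfer (MonoidHom.id H) x = ⟨x ^ H.index, H.pow_mem hx _⟩ := by
    intro x hx
    have key : ∀ (k : ℕ) (g₀ : G), g₀⁻¹ * x ^ k * g₀ ∈ H → g₀⁻¹ * x ^ k * g₀ = x ^ k :=
      fun k g₀ => hfus (x ^ k) (H.pow_mem hx k) g₀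
    rw [MonoidHom.transfer_eq_pow (MonoidHom.id H) x key]
    rfl
  refine ⟨(MonoidHom.transfer (MonoidHom.id H)).ker, MonoidHom.normal_ker _, ?_⟩
  apply Subgroup.isComplement'_of_disjoint_and_mul_eq_univ
  · rw [Subgroup.disjoint_def]
    intro x hxN hxH
    rw [MonoidHom.mem_ker, hT x hxH] at hxN
    have h1 : x ^ H.index = 1 := congrArg Subtype.val hxN
    have h2 : x ^ Nat.card H = 1 := by
      have := pow_card_eq_one' (G := H) (x := ⟨x, hxH⟩)
      exact congrArg Subtype.val this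
    have h3 := pow_gcd_eq_one.mpr ⟨h2, h1⟩
    rw [Nat.Coprime.gcd_eq_one hHall, pow_one] at h3
    exact h3
  · rw [Set.eq_univ_iff_forall]
    intro g
    obtain ⟨t, ht⟩ : ∃ t : H, t ^ H.index = MonoidHom.transfer (MonoidHom.id H) g :=
      ⟨(powCoprime hHall).symm (MonoidHom.transfer (MonoidHom.id H) g),
        (powCoprime hHall).apply_symm_apply _⟩
    have h4 : MonoidHom.transfer (MonoidHom.id H) (t : G) = t ^ H.index := by
      rw [hT (t : G) t.2]; rfl
    refine ⟨g * (t : G)⁻¹, ?_, (t : G), t.2, by group⟩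
    show g * (t : G)⁻¹ ∈ (MonoidHom.transfer (MonoidHom.id H)).ker
    rw [MonoidHom.mem_ker, map_mul, map_inv, h4, ht, mul_inv_cancel]


/-- A Hall subgroup that is central in its normalizer has a normal complement. -/
theorem result {G : Type*} [Group G] [Finite G] (H : Subgroup G) (hHall : Nat.Coprime (Nat.card H) H.index) (h : Subgroup.normalizer (H : Set G) ≤ Subgroup.centralizer (H : Set G)) : ∃ N : Subgroup G, N.Normal ∧ N.IsComplement' H := by
  exact main H hHall h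

end Cfsg.Agent.S0087
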