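import Cfsg.Statements.S0090
-- import your own Cfsg.Agent.* helpers here
import Cfsg.Agent.Lib.Helper7.Coprime2

set_option autoImplicit false
open Cfsg

namespace Cfsg.Agent.S0090


open Cfsg.Agent.Lib.Helper7
open scoped commutatorElement
open scoped IsMulCommutative

section

theorem comm_mul_left {Q : Type*} [Group Q] (u v g : Q) (hu : ∀ z, u * z = z * u) :
    ⁅u * v, g⁆ = ⁅v, g⁆ := by
  rw [commutatorElement_def, commutatorElement_def]
  have h1 : u * v * g * (u * v)⁻¹ * g⁻¹ = u * (v * g * v⁻¹) * u⁻¹ * g⁻¹ := by group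
  rw [h1, hu, mul_inv_cancel_right]

theorem comm_mul_right {Q : Type*} [Group Q] (u v g : Q) (hu : ∀ z, u * z = z * u) :
    ⁅g, u * v⁆ = ⁅g, v⁆ := by
  rw [commutatorElement_def, commutatorElement_def]
  have h1 : g * (u * v) * g⁻¹ * (u * v)⁻¹ = (g * u) * (v * g⁻¹ * v⁻¹) * u⁻¹ := by group
  rw [h1, ← hu g]
  have h2 : u * g * (v * g⁻¹ * v⁻¹) * u⁻¹ = u * (g * v * g⁻¹ * v⁻¹) * u⁻¹ := by group
  rw [h2, hu, mul_inv_cancel_right]

theorem part2 {G : Type*} [Group G] [Finite G] (A : Subgroup G) [A.Normal]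
    (hc : IsMulCommutative A) (hHall : Nat.Coprime (Nat.card A) A.index) (x : G)
    (hx1 : x ∈ commutator G) (hxA : x ∈ A) (hxZ : x ∈ Subgroup.center G) : x = 1 := by
  have key : ∀ (k : ℕ) (g₀ : G), g₀⁻¹ * x ^ k * g₀ ∈ A → g₀⁻¹ * x ^ k * g₀ = x ^ k := by
    intro k g₀ _
    have h1 : x ^ k ∈ Subgroup.center G := Subgroup.pow_mem _ hxZ k
    rw [Subgroup.mem_center_iff] at h1
    rw [mul_assoc, ← h1 g₀, inv_mul_cancel_left]
  have h2 := MonoidHom.transfer_eq_pow (MonoidHom.id A) x key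
  have h3 : MonoidHom.transfer (MonoidHom.id A) x = 1 :=
    Abelianization.commutator_subset_ker (MonoidHom.transfer (MonoidHom.id A)) hx1
  rw [h3] at h2
  have h4 : x ^ A.index = 1 := by
    have := congrArg Subtype.val h2
    simpa using this.symm
  have h5 : x ^ Nat.card A = 1 := by
    have := pow_card_eq_one' (G := A) (x := ⟨x, hxA⟩)
    exact congrArg Subtype.val this
  have h6 : orderOf x ∣ Nat.gcd (Nat.card A) A.index :=
    Nat.dvd_gcd (orderOf_dvd_of_pow_eq_one h5) (orderOf_dvd_of_pow_eq_one h4)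
  rw [Nat.Coprime.gcd_eq_one hHall] at h6
  exact orderOf_eq_one_iff.mp (Nat.dvd_one.mp h6)

end

/-- An abelian normal Hall subgroup A splits as the internal direct product of G' ∩ A and Z(G) ∩ A, and [A, G] = G' ∩ A. -/
theorem result {G : Type*} [Group G] [Finite G] (A : Subgroup G) [A.Normal] (hc : IsMulCommutative A) (hHall : Nat.Coprime (Nat.card A) A.index) : ⁅A, (⊤ : Subgroup G)⁆ = commutator G ⊓ A ∧ (commutator G ⊓ A) ⊓ (Subgroup.center G ⊓ A) = ⊥ ∧ (commutator G ⊓ A) ⊔ (Subgroup.center G ⊓ A) = A := by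
  obtain ⟨K, hK⟩ := Subgroup.exists_right_complement'_of_coprime hHall
  have hsup : A ⊔ K = ⊤ := hK.sup_eq_top
  have hinf : A ⊓ K = ⊥ := hK.disjoint.eq_bot
  have hdecomp : ∀ g : G, ∃ a ∈ A, ∃ k ∈ K, g = a * k := by
    intro g
    have hg : g ∈ A ⊔ K := by rw [hsup]; trivial
    exact exists_mul_of_mem_sup (Subgroup.le_normalizer_of_normal (H := A) (K := K)) hg
  obtain ⟨C, hC⟩ : ∃ C : Subgroup G, C = ⁅A, (⊤ : Subgroup G)⁆ := ⟨_, rfl⟩
  have hCn : C.Normal := by rw [hC]; infer_instance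
  have hCA : C ≤ A := by rw [hC]; exact Subgroup.commutator_le_left A ⊤
  have hCG : C ≤ commutator G := by
    rw [hC, commutator_def]; exact Subgroup.commutator_mono le_top le_rfl
  have hcen : ∀ a ∈ A, ∀ z : G ⧸ C,
      (QuotientGroup.mk' C a) * z = z * (QuotientGroup.mk' C a) := by
    intro a ha z
    obtain ⟨g, rfl⟩ := QuotientGroup.mk'_surjective C z
    rw [← map_mul, ← map_mul]
    apply QuotientGroup.eq.mpr
    have e : (a * g)⁻¹ * (g * a) = ⁅a⁻¹, g⁻¹⁆⁻¹ := by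
      rw [commutatorElement_def]; group
    rw [e, hC]
    exact Subgroup.inv_mem _ (Subgroup.commutator_mem_commutator (A.inv_mem ha) trivial)
  have hG' : commutator G ≤ C ⊔ K := by
    rw [commutator_def, Subgroup.commutator_le]
    intro g₁ _ g₂ _
    obtain ⟨a₁, ha₁, k₁, hk₁, rfl⟩ := hdecomp g₁
    obtain ⟨a₂, ha₂, k₂, hk₂, rfl⟩ := hdecomp g₂
    have e : QuotientGroup.mk' C ⁅a₁ * k₁, a₂ * k₂⁆ = QuotientGroup.mk' C ⁅k₁, k₂⁆ := by
      rw [map_commutatorElement, map_mul, map_mul, comm_mul_left _ _ _ (hcen a₁ ha₁),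
        comm_mul_right _ _ _ (hcen a₂ ha₂), ← map_commutatorElement]
    have e2 : ⁅k₁, k₂⁆⁻¹ * ⁅a₁ * k₁, a₂ * k₂⁆ ∈ C := QuotientGroup.eq.mp e.symm
    have e3 : ⁅a₁ * k₁, a₂ * k₂⁆ = ⁅k₁, k₂⁆ * (⁅k₁, k₂⁆⁻¹ * ⁅a₁ * k₁, a₂ * k₂⁆) := by group
    rw [e3]
    refine Subgroup.mul_mem _ (Subgroup.mem_sup_right ?_) (Subgroup.mem_sup_left e2)
    rw [commutatorElement_def]
    exact K.mul_mem (K.mul_mem (K.mul_mem hk₁ hk₂) (K.inv_mem hk₁)) (K.inv_mem hk₂)
  have p1 : C = commutator G ⊓ A := by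
    apply le_antisymm (le_inf hCG hCA)
    rintro x ⟨hx1, hx2⟩
    have hx3 := hG' hx1
    obtain ⟨c, hc', k, hk, rfl⟩ := exists_mul_of_mem_sup
      (Subgroup.le_normalizer_of_normal (H := C) (K := K)) hx3
    have hkA : k ∈ A := by
      have e : k = c⁻¹ * (c * k) := by group
      rw [e]; exact A.mul_mem (A.inv_mem (hCA hc')) hx2
    have hk1 : k = 1 := by
      have h : k ∈ A ⊓ K := ⟨hkA, hk⟩
      rw [hinf] at h; exact Subgroup.mem_bot.mp h
    rw [hk1, mul_one]; exact hc'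
  have hcardK : Nat.card K = A.index := by
    have h1 := hK.card_mul_card
    have h2 := A.card_mul_index
    exact Nat.eq_of_mul_eq_mul_left Nat.card_pos (h1.trans h2.symm)
  have hsolv : IsSolvable A := isSolvable_of_comm (fun a b => hc.is_comm.comm a b)
  have h3 := commutator_sup_centralizer K A Subgroup.le_normalizer_of_normal
    (by rw [hcardK]; exact hHall.symm) (Or.inr hsolv)
  refine ⟨hC ▸ p1, ?_, ?_⟩
  · rw [eq_bot_iff]
    rintro x ⟨⟨hx1, hx2⟩, hx3, _⟩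
    exact Subgroup.mem_bot.mpr (part2 A hc hHall x hx1 hx2 hx3)
  · apply le_antisymm (sup_le inf_le_right inf_le_right)
    rw [← p1]
    conv_lhs => rw [← h3]
    apply sup_le_sup
    · rw [hC]; exact Subgroup.commutator_mono le_rfl le_top
    · intro a ha
      refine ⟨?_, ha.1⟩
      show a ∈ Subgroup.center G
      rw [Subgroup.mem_center_iff]
      intro g
      obtain ⟨a', ha', k, hk, rfl⟩ := hdecomp g
      have e1 : a' * a = a * a' :=
        congrArg Subtype.val (hc.is_comm.comm (⟨a', ha'⟩ : A) ⟨a, ha.1⟩)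
      have e2 : k * a = a * k := Subgroup.mem_centralizer_iff.mp ha.2 k hk
      rw [mul_assoc, e2, ← mul_assoc, e1, mul_assoc]

end Cfsg.Agent.S0090
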