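import Cfsg.Statements.S0169
import Cfsg.Agent.Lib.Lead.CharCenter
import Cfsg.Agent.Lib.Lead.CharClifford3
import Cfsg.Agent.Lib.Lead.CharMore

set_option autoImplicit false
open Cfsg

namespace Cfsg.Agent.S0169

open Cfsg.Agent.Lib.Lead Module in
open scoped ComplexConjugate in
theorem result {G : Type*} [Group G] [Finite G] {V : Type*} [AddCommGroup V] [Module ℂ V] [FiniteDimensional ℂ V] (ρ : Representation ℂ G V) [ρ.IsIrreducible] (H : Subgroup G) [H.Normal] (hH : ∀ a ∈ H, ∀ b ∈ H, a * b = b * a) : Module.finrank ℂ V ∣ H.index := by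
  classical
  letI := Fintype.ofFinite G
  letI : Fintype H := Fintype.ofFinite H
  have hχ : IsIrrCharacter G ρ.character := isIrrCharacter_character ρ
  have hres : IsCharacter H (fun h : H => ρ.character h) :=
    isCharacter_res H (isCharacter_of_isIrrCharacter hχ)
  have h1 : (fun h : H => ρ.character h) 1 ≠ 0 := by
    show ρ.character ((1 : H) : G) ≠ 0
    rw [Subgroup.coe_one]; exact isIrrCharacter_one_ne_zero hχ
  obtain ⟨θ, hθ⟩ := exists_irr_constituent hres h1
  have hθ1 : (θ : H → ℂ) 1 = 1 :=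
    (comm_iff_all_degree_one (G := H)).mp (fun a b => Subtype.ext (hH a a.2 b b.2)) θ
  let T := charInertia H (θ : H → ℂ)
  have hHT : H ≤ T := le_charInertia H (isClassFunction_irr θ)
  letI : Fintype T := Fintype.ofFinite T
  obtain ⟨ψ, hψ, hind, hmult⟩ := clifford_corr_surj H T hHT θ.2
    (fun g => mem_charInertia H _ g) hχ hθ
  have hc : classInner (fun n : H => ψ ⟨n, hHT n.2⟩) (θ : H → ℂ) ≠ 0 := by
    rw [hmult]; exact hθ
  have hsm := res_eq_smul_of_inertia H T hHT θ.2
    (fun g hg => (mem_charInertia H _ g).mp hg) hψ hc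
  obtain ⟨m, σ, hσirr, rfl⟩ := hψ
  haveI := hσirr
  have hpos := finrank_pos_of_irreducible σ
  set e := classInner (fun n : H => σ.character ⟨n, hHT n.2⟩) (θ : H → ℂ) with he
  have he1 : e = (finrank ℂ (Fin m → ℂ) : ℂ) := by
    have := hsm 1
    rw [hθ1, mul_one] at this
    rw [← this, ← Representation.char_one σ]
    rfl
  have hscal : ∀ a ∈ H.subgroupOf T, ∃ c : ℂ, σ a = c • LinearMap.id := by
    intro a ha
    apply (norm_char_eq_finrank_iff σ a).mp
    have ha' : (a : G) ∈ H := Subgroup.mem_subgroupOf.mp ha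
    have e1 : σ.character a = e * (θ : H → ℂ) ⟨a, ha'⟩ := hsm ⟨a, ha'⟩
    rw [e1, norm_mul, he1, Complex.norm_natCast]
    have hn1 : ‖(θ : H → ℂ) ⟨a, ha'⟩‖ = 1 := by
      have h2 := irr_linear_mul_conj θ hθ1 ⟨a, ha'⟩
      rw [Complex.mul_conj, Complex.normSq_eq_norm_sq] at h2
      have h3 : ‖(θ : H → ℂ) ⟨a, ha'⟩‖ ^ 2 = 1 := by exact_mod_cast h2
      have h4 := norm_nonneg ((θ : H → ℂ) ⟨a, ha'⟩)
      nlinarith
    rw [hn1, mul_one]
  have hdvd := degree_dvd_index_of_scalar σ (H.subgroupOf T) hscal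
  have hdeg : (finrank ℂ V : ℂ) = (T.index : ℂ) * (finrank ℂ (Fin m → ℂ) : ℂ) := by
    rw [← Representation.char_one ρ, ← hind, indFun_one, Representation.char_one]
  have hdeg' : finrank ℂ V = T.index * finrank ℂ (Fin m → ℂ) := by exact_mod_cast hdeg
  rw [hdeg', ← Subgroup.relIndex_mul_index hHT, mul_comm]
  exact Nat.mul_dvd_mul hdvd (dvd_refl _)

end Cfsg.Agent.S0169
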