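import Mathlib
import Cfsg.Statements.S0200
import Cfsg.Agent.Lib.Helper5.Invol
import Cfsg.Agent.S0199

set_option autoImplicit false
open Cfsg

namespace Cfsg.Agent.S0200

open Cfsg.Agent.Lib.Helper5

theorem result {G : Type*} [Group G] [Finite G] (t : G) (ht : orderOf t = 2) (hO : ∀ N : Subgroup G, N.Normal → IsPGroup 2 N → t ∉ N) : ∃ h : G, h ≠ 1 ∧ Odd (orderOf h) ∧ t * h * t⁻¹ = h⁻¹ := by
  haveI : Fact (Nat.Prime 2) := ⟨Nat.prime_two⟩
  have hX : IsPGroup 2 (Subgroup.zpowers t) :=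
    IsPGroup.of_card (n := 1) (by rw [Nat.card_zpowers, ht, pow_one])
  have hex : ∃ g : G, ¬ IsPGroup 2
      ↥(Subgroup.zpowers t ⊔ (Subgroup.zpowers t).map (MulAut.conj g).toMonoidHom) := by
    by_contra hcon
    have hall : ∀ g : G, IsPGroup 2
        ↥(Subgroup.zpowers t ⊔ (Subgroup.zpowers t).map (MulAut.conj g).toMonoidHom) := by
      intro g
      by_contra h
      exact hcon ⟨g, h⟩
    obtain ⟨N, hN, hNp, hXN⟩ := Cfsg.Agent.S0199.result (Subgroup.zpowers t) hX hall
    exact hO N hN hNp (hXN (Subgroup.mem_zpowers t))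
  obtain ⟨g, hg⟩ := hex
  have hs2 : orderOf (g * t * g⁻¹) = 2 := by
    have : orderOf ((MulAut.conj g) t) = orderOf t := MulEquiv.orderOf_eq _ _
    rw [MulAut.conj_apply] at this
    rw [this, ht]
  have htt := sq_of_order_two ht
  have hss := sq_of_order_two hs2
  have hle : Subgroup.zpowers t ⊔ (Subgroup.zpowers t).map (MulAut.conj g).toMonoidHom ≤
      Subgroup.closure ({t, g * t * g⁻¹} : Set G) := by
    apply sup_le
    · rw [Subgroup.zpowers_le]
      exact Subgroup.subset_closure (by simp)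
    · rintro _ ⟨y, hy, rfl⟩
      obtain ⟨j, rfl⟩ := Subgroup.mem_zpowers_iff.mp hy
      change (MulAut.conj g) (t ^ j) ∈ _
      rw [map_zpow, MulAut.conj_apply]
      exact Subgroup.zpow_mem _ (Subgroup.subset_closure (by simp)) j
  have hg' : ¬ IsPGroup 2 ↥(Subgroup.closure ({t, g * t * g⁻¹} : Set G)) :=
    fun h => hg (h.to_le hle)
  generalize g * t * g⁻¹ = s at *
  obtain ⟨e, m, hm, hn⟩ := Nat.exists_eq_two_pow_mul_odd (orderOf_pos (t * s)).ne'
  have hm1 : m ≠ 1 := by
    rintro rfl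
    apply hg'
    rintro ⟨d, hd⟩
    obtain ⟨k, hk | hk⟩ := (mem_closure_pair_iff t s htt hss d).mp hd
    · refine ⟨e, ?_⟩
      apply Subtype.ext
      rw [Subgroup.coe_pow, Subgroup.coe_one]
      change d ^ 2 ^ e = 1
      have h1 : (t * s) ^ 2 ^ e = 1 := by
        have := pow_orderOf_eq_one (t * s)
        rw [hn, mul_one] at this
        exact this
      rw [hk, ← zpow_natCast, ← zpow_mul, mul_comm, zpow_mul, zpow_natCast, h1, one_zpow]
    · refine ⟨1, ?_⟩
      apply Subtype.ext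
      rw [Subgroup.coe_pow, Subgroup.coe_one]
      change d ^ 2 ^ 1 = 1
      rw [pow_one, pow_two, hk]
      calc (t * s) ^ k * t * ((t * s) ^ k * t) = (t * s) ^ k * (t * (t * s) ^ k) * t := by group
        _ = (t * s) ^ k * ((t * s) ^ (-k) * t) * t := by rw [rot_swap t s htt hss k]
        _ = (t * s) ^ k * (t * s) ^ (-k) * (t * t) := by group
        _ = 1 := by rw [htt, mul_one, ← zpow_add, add_neg_cancel, zpow_zero]
  have hord : orderOf ((t * s) ^ (2 ^ e)) = m := by
    rw [orderOf_pow_of_dvd (pow_ne_zero e (by norm_num)) (by rw [hn]; exact dvd_mul_right _ _), hn]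
    exact Nat.mul_div_cancel_left m (pow_pos (by norm_num) e)
  refine ⟨(t * s) ^ (2 ^ e), ?_, ?_, ?_⟩
  · intro h
    rw [h, orderOf_one] at hord
    exact hm1 hord.symm
  · rw [hord]; exact hm
  · have h1 := rot_swap t s htt hss ((2 ^ e : ℕ) : ℤ)
    rw [zpow_natCast] at h1
    rw [h1, mul_assoc, inv_of_order_two ht, htt, mul_one, zpow_neg, zpow_natCast]

end Cfsg.Agent.S0200
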