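import Cfsg.Statements.S0436
import Mathlib.Tactic.Group

set_option autoImplicit false
open Cfsg

namespace Cfsg.Agent.S0436

theorem sq_of_order_two {G : Type*} [Group G] {a : G} (h : orderOf a = 2) : a * a = 1 := by
  have := pow_orderOf_eq_one a
  rw [h, pow_two] at this
  exact this

theorem inv_of_order_two {G : Type*} [Group G] {a : G} (h : orderOf a = 2) : a⁻¹ = a :=
  inv_eq_of_mul_eq_one_left (sq_of_order_two h)

/-- Two involutions whose product squares to one commute. -/
theorem commute_of_sq {G : Type*} [Group G] {e a : G} (he : e * e = 1) (ha : a * a = 1)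
    (h : (e * a) ^ 2 = 1) : Commute e a := by
  have h1 : e * a * (e * a) = 1 := by rw [← pow_two]; exact h
  have hainv : a⁻¹ = a := inv_eq_of_mul_eq_one_left ha
  have heinv : e⁻¹ = e := inv_eq_of_mul_eq_one_left he
  have h2 : (e * a)⁻¹ = e * a := inv_eq_of_mul_eq_one_left h1
  show e * a = a * e
  rw [← h2, mul_inv_rev, hainv, heinv]

theorem key {G : Type*} [Group G] {E : Set G} (hE : Cfsg.IsThreeTranspositionSet E) {a b e : G}
    (ha : a ∈ E) (hb : b ∈ E) (he : e ∈ E) (hab : a ≠ b) (hcomm : Commute a b)
    (hc : Commute e (a * b)) : Commute e a ∧ Commute e b := by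
  obtain ⟨hord, hprod⟩ := hE
  have ha2 := sq_of_order_two (hord a ha)
  have hb2 := sq_of_order_two (hord b hb)
  have he2 := sq_of_order_two (hord e he)
  have hca : Commute a (a * b) := (Commute.refl a).mul_right hcomm
  have hcea : Commute (e * a) (a * b) := hc.mul_left hca
  have heb : e * b = (e * a) * (a * b) := by
    calc e * b = e * (a * a) * b := by rw [ha2, mul_one]
      _ = (e * a) * (a * b) := by group
  have hab2 : (a * b) ^ 2 = 1 := by
    rw [hcomm.mul_pow, pow_two, pow_two, ha2, hb2, one_mul]
  have hab3 : (a * b) ^ 3 = a * b := by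
    rw [pow_succ, hab2, one_mul]
  have hea : Commute e a := by
    by_contra hna
    have h2 : (e * a) ^ 2 ≠ 1 := fun h => hna (commute_of_sq he2 ha2 h)
    have h3 : (e * a) ^ 3 = 1 := (hprod e he a ha).resolve_left h2
    rcases hprod e he b hb with h | h
    · rw [heb, hcea.mul_pow, hab2, mul_one] at h
      exact h2 h
    · rw [heb, hcea.mul_pow, hab3, h3, one_mul] at h
      exact hab ((eq_inv_of_mul_eq_one_left h).trans (inv_eq_of_mul_eq_one_left hb2))
  refine ⟨hea, ?_⟩
  have h4 : Commute e (a * (a * b)) := hea.mul_right hc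
  have e1 : a * (a * b) = b := by
    calc a * (a * b) = (a * a) * b := by group
      _ = b := by rw [ha2, one_mul]
  rwa [e1] at h4

/-- For distinct commuting members a, b of a set of 3-transpositions E, a member e of E centralises the product a * b if and only if it centralises both a and b. -/
theorem result {G : Type*} [Group G] {E : Set G} (hE : Cfsg.IsThreeTranspositionSet E) {a b e : G} (ha : a ∈ E) (hb : b ∈ E) (he : e ∈ E) (hab : a ≠ b) (hcomm : Commute a b) : Commute e (a * b) ↔ (Commute e a ∧ Commute e b) := by
  constructor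
  · exact key hE ha hb he hab hcomm
  · rintro ⟨h1, h2⟩
    exact h1.mul_right h2

end Cfsg.Agent.S0436
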