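import Cfsg.Statements.S0437
import Cfsg.Agent.S0436

set_option autoImplicit false
open Cfsg

namespace Cfsg.Agent.S0437

theorem braid_of_cube {G : Type*} [Group G] {e a : G} (he : e * e = 1) (ha : a * a = 1)
    (h : (e * a) ^ 3 = 1) : e * a * e = a * e * a := by
  have hainv : a⁻¹ = a := inv_eq_of_mul_eq_one_left ha
  have heinv : e⁻¹ = e := inv_eq_of_mul_eq_one_left he
  have h1 : (e * a * e) * (a * e * a) = 1 := by
    have h' : (e * a) * (e * a) * (e * a) = 1 := by
      rw [← pow_two, ← pow_succ]; exact h
    rw [← h']; group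
  have h2 := eq_inv_of_mul_eq_one_left h1
  rw [h2, mul_inv_rev, mul_inv_rev, hainv, heinv, mul_assoc]

theorem R1 {G : Type*} [Group G] {e a b c w : G} (he2 : e * e = 1) (hw2 : w * w = 1)
    (hwe : w * e = e * w) (hwa : w * a = a * w) (hwb : w * b = b * w) (hc : c = a * b * w)
    (Ba : e * a * e = a * e * a) (Bb : e * b * e = b * e * b) (Bc : e * c * e = c * e * c) :
    e * (a * b) * e * w = b * e * a := by
  have l : e * c * e = (a * e * a) * (b * e * b) * w := by
    calc e * c * e = e * (a * b * w) * e := by rw [hc]
      _ = e * a * b * (w * e) := by group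
      _ = e * a * b * (e * w) := by rw [hwe]
      _ = e * a * 1 * b * e * w := by group
      _ = e * a * (e * e) * b * e * w := by rw [he2]
      _ = (e * a * e) * (e * b * e) * w := by group
      _ = (a * e * a) * (b * e * b) * w := by rw [Ba, Bb]
  have r : c * e * c = (a * b) * e * (a * b) := by
    calc c * e * c = (a * b * w) * e * (a * b * w) := by rw [hc]
      _ = a * b * (w * e) * (a * b * w) := by group
      _ = a * b * (e * w) * (a * b * w) := by rw [hwe]
      _ = a * b * e * (w * a) * b * w := by group
      _ = a * b * e * (a * w) * b * w := by rw [hwa]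
      _ = a * b * e * a * (w * b) * w := by group
      _ = a * b * e * a * (b * w) * w := by rw [hwb]
      _ = a * b * e * a * b * (w * w) := by group
      _ = (a * b) * e * (a * b) := by rw [hw2]; group
  have star : (a * e * a) * (b * e * b) * w = (a * b) * e * (a * b) := by
    rw [← l, ← r]; exact Bc
  have X' : (a * e * a) * (b * e * b) * w = a * (e * (a * b) * e * w) * b := by
    calc (a * e * a) * (b * e * b) * w = a * e * a * b * e * (b * w) := by group
      _ = a * e * a * b * e * (w * b) := by rw [hwb]
      _ = a * (e * (a * b) * e * w) * b := by group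
  calc e * (a * b) * e * w = a⁻¹ * (a * (e * (a * b) * e * w) * b) * b⁻¹ := by group
    _ = a⁻¹ * ((a * b) * e * (a * b)) * b⁻¹ := by rw [← X', star]
    _ = b * e * a := by group

theorem all_braid {G : Type*} [Group G] {e a b c : G} (ha2 : a * a = 1) (hb2 : b * b = 1)
    (hc2 : c * c = 1) (he2 : e * e = 1) (h₁ : Commute a b) (h₂ : Commute a c) (h₃ : Commute b c)
    (hw : Commute e (a * b * c))
    (Ba : e * a * e = a * e * a) (Bb : e * b * e = b * e * b) (Bc : e * c * e = c * e * c) :
    Commute e (a * b) := by
  have hab2 : (a * b) * (a * b) = 1 := by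
    have := h₁.mul_pow 2
    rw [pow_two, pow_two, pow_two, ha2, hb2, one_mul] at this
    exact this
  have hw2 : (a * b * c) * (a * b * c) = 1 := by
    have := (h₂.mul_left h₃).mul_pow 2
    rw [pow_two, pow_two, pow_two, hab2, hc2, one_mul] at this
    exact this
  have hwa : (a * b * c) * a = a * (a * b * c) :=
    (((Commute.refl a).mul_left h₁.symm).mul_left h₂.symm).eq
  have hwb : (a * b * c) * b = b * (a * b * c) :=
    ((h₁.mul_left (Commute.refl b)).mul_left h₃.symm).eq
  have hc : c = a * b * (a * b * c) := by
    calc c = 1 * c := by rw [one_mul]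
      _ = (a * b) * (a * b) * c := by rw [hab2]
      _ = a * b * (a * b * c) := by group
  have hc' : c = b * a * (a * b * c) := by
    rw [← h₁.eq]; exact hc
  have r1 := R1 he2 hw2 hw.eq.symm hwa hwb hc Ba Bb Bc
  have r2 := R1 he2 hw2 hw.eq.symm hwb hwa hc' Bb Ba Bc
  rw [← h₁.eq] at r2
  have h5 : b * e * a = a * e * b := by rw [← r1, ← r2]
  show e * (a * b) = (a * b) * e
  calc e * (a * b) = e * (b * a) := by rw [h₁.eq]
    _ = 1 * e * b * a := by group
    _ = (a * a) * e * b * a := by rw [ha2]
    _ = a * (a * e * b) * a := by group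
    _ = a * (b * e * a) * a := by rw [h5]
    _ = a * b * e * (a * a) := by group
    _ = (a * b) * e := by rw [ha2, mul_one]

/-- For three distinct, pairwise commuting members a, b, c of a set of 3-transpositions E, a member e of E centralises a * b * c if and only if it centralises each of a, b and c. -/
theorem result {G : Type*} [Group G] {E : Set G} (hE : Cfsg.IsThreeTranspositionSet E) {a b c e : G} (ha : a ∈ E) (hb : b ∈ E) (hc : c ∈ E) (he : e ∈ E) (hab : a ≠ b) (hac : a ≠ c) (hbc : b ≠ c) (h₁ : Commute a b) (h₂ : Commute a c) (h₃ : Commute b c) : Commute e (a * b * c) ↔ (Commute e a ∧ Commute e b ∧ Commute e c) := by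
  constructor
  · intro hw
    obtain ⟨hord, hprod⟩ := hE
    have ha2 := Cfsg.Agent.S0436.sq_of_order_two (hord a ha)
    have hb2 := Cfsg.Agent.S0436.sq_of_order_two (hord b hb)
    have hc2 := Cfsg.Agent.S0436.sq_of_order_two (hord c hc)
    have he2 := Cfsg.Agent.S0436.sq_of_order_two (hord e he)
    have hE' : Cfsg.IsThreeTranspositionSet E := ⟨hord, hprod⟩
    by_cases c1 : Commute e a
    · have h4 : Commute e (a * (a * b * c)) := c1.mul_right hw
      have e1 : a * (a * b * c) = b * c := by
        calc a * (a * b * c) = (a * a) * b * c := by group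
          _ = b * c := by rw [ha2, one_mul]
      rw [e1] at h4
      obtain ⟨h5, h6⟩ := Cfsg.Agent.S0436.key hE' hb hc he hbc h₃ h4
      exact ⟨c1, h5, h6⟩
    · by_cases c2 : Commute e b
      · have h4 : Commute e (b * (a * b * c)) := c2.mul_right hw
        have e1 : b * (a * b * c) = a * c := by
          calc b * (a * b * c) = (b * a) * b * c := by group
            _ = (a * b) * b * c := by rw [h₁.eq]
            _ = a * (b * b) * c := by group
            _ = a * c := by rw [hb2, mul_one]
        rw [e1] at h4
        obtain ⟨h5, h6⟩ := Cfsg.Agent.S0436.key hE' ha hc he hac h₂ h4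
        exact ⟨h5, c2, h6⟩
      · by_cases c3 : Commute e c
        · have h4 : Commute e ((a * b * c) * c) := hw.mul_right c3
          have e1 : (a * b * c) * c = a * b := by
            calc (a * b * c) * c = a * b * (c * c) := by group
              _ = a * b := by rw [hc2, mul_one]
          rw [e1] at h4
          obtain ⟨h5, h6⟩ := Cfsg.Agent.S0436.key hE' ha hb he hab h₁ h4
          exact ⟨h5, h6, c3⟩
        · exfalso
          have br : ∀ x ∈ E, x * x = 1 → ¬ Commute e x → e * x * e = x * e * x := by
            intro x hx hx2 hnx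
            have h2 : (e * x) ^ 2 ≠ 1 := fun h => hnx (Cfsg.Agent.S0436.commute_of_sq he2 hx2 h)
            exact braid_of_cube he2 hx2 ((hprod e he x hx).resolve_left h2)
          have h4 := all_braid ha2 hb2 hc2 he2 h₁ h₂ h₃ hw (br a ha ha2 c1) (br b hb hb2 c2)
            (br c hc hc2 c3)
          exact c1 (Cfsg.Agent.S0436.key hE' ha hb he hab h₁ h4).1
  · rintro ⟨h1, h2, h3⟩
    exact (h1.mul_right h2).mul_right h3

end Cfsg.Agent.S0437
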