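import Cfsg.Statements.S0638
import Cfsg.Agent.Lib.Helper1.MetaOdd

set_option autoImplicit false
open Cfsg

namespace Cfsg.Agent.S0638

/-- For odd p, in a non-cyclic metacyclic p-group the elements of order dividing p generate an elementary abelian subgroup of order p². -/
theorem result {R : Type*} [Group R] [Finite R] {p : ℕ} [Fact p.Prime] (hp : p ≠ 2) (hR : IsPGroup p R) (hm : Cfsg.IsMetacyclic R) (hnc : ¬ IsCyclic R) : Cfsg.IsElementaryAbelian p (Cfsg.omegaOne p (⊤ : Subgroup R)) ∧ Nat.card ↥(Cfsg.omegaOne p (⊤ : Subgroup R)) = p ^ 2 := by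
  have hpp := (Fact.out : p.Prime)
  obtain ⟨Ω, hΩ, hc, hcyc⟩ := Cfsg.Agent.Lib.Helper1.omega_lemma p hp _ R rfl hR hm
  have hO : Cfsg.omegaOne p (⊤ : Subgroup R) = Ω := by
    unfold Cfsg.omegaOne
    apply le_antisymm
    · rw [Subgroup.closure_le]
      rintro x ⟨-, hx⟩
      exact (hΩ x).mpr hx
    · intro x hx
      exact Subgroup.subset_closure ⟨Subgroup.mem_top x, (hΩ x).mp hx⟩
  rw [hO]
  have hcard : Nat.card Ω = p ^ 2 := by
    have h1 : p < Nat.card Ω := by
      by_contra h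
      exact hnc (hcyc (not_lt.mp h))
    obtain ⟨k, hk⟩ := IsPGroup.iff_card.mp (hR.to_subgroup Ω)
    rw [hk] at h1 hc ⊢
    have hk2 : k ≤ 2 := by
      by_contra hcon
      push_neg at hcon
      have h2 : p ^ 3 ≤ p ^ k := Nat.pow_le_pow_right hpp.pos hcon
      have h3 : p ^ 2 < p ^ 3 := Nat.pow_lt_pow_right hpp.one_lt (by norm_num)
      omega
    interval_cases k
    · simp at h1
      have := hpp.one_lt
      omega
    · simp at h1
    · rfl
  refine ⟨⟨⟨⟨fun a b => Cfsg.Agent.Lib.Helper1.comm_of_card_le_sq (hR.to_subgroup Ω) hc a b⟩⟩,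
    fun a ha => (hΩ a).mp ha⟩, hcard⟩

end Cfsg.Agent.S0638
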