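import Mathlib
import Cfsg.Statements.S0755

set_option autoImplicit false
open Cfsg

namespace Cfsg.Agent.S0755

universe u v

theorem norm_surj {F : Type*} [Field F] [Finite F] (σ : F →+* F) (hσ : σ ≠ RingHom.id F)
    (hσ2 : ∀ a : F, σ (σ a) = a) (c : F) (hc0 : c ≠ 0) (hc : σ c = c) : ∃ a : F, σ a * a = c := by
  classical
  obtain ⟨s, hs⟩ : ∃ s : Fˣ →* Fˣ, ∀ a : Fˣ, ((s a : Fˣ) : F) = σ a :=
    ⟨Units.map σ.toMonoidHom, fun a => rfl⟩
  obtain ⟨N, hN⟩ : ∃ N : Fˣ →* Fˣ, ∀ a : Fˣ, N a = a * s a :=
    ⟨MonoidHom.id Fˣ * s, fun a => rfl⟩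
  obtain ⟨D, hD⟩ : ∃ D : Fˣ →* Fˣ, ∀ a : Fˣ, D a = a / s a :=
    ⟨MonoidHom.id Fˣ / s, fun a => rfl⟩
  have hs2 : ∀ a : Fˣ, s (s a) = a := fun a => Units.ext (by rw [hs, hs, hσ2])
  have h90 : N.ker ≤ D.range := by
    intro a ha
    rw [MonoidHom.mem_ker, hN] at ha
    have ha' : (a : F) * σ a = 1 := by
      have := congrArg Units.val ha
      rw [Units.val_mul, hs] at this
      simpa using this
    obtain ⟨c, hc⟩ : ∃ c : F, c + (a : F) * σ c ≠ 0 := by
      by_contra hcon
      push Not at hcon
      have h1 := hcon 1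
      rw [map_one, mul_one] at h1
      apply hσ
      ext c
      have h2 := hcon c
      have ha1 : (a : F) = -1 := by linear_combination h1
      rw [ha1] at h2
      rw [RingHom.id_apply]
      linear_combination -h2
    refine ⟨Units.mk0 _ hc, ?_⟩
    rw [hD, div_eq_iff_eq_mul]
    apply Units.ext
    rw [Units.val_mul, hs, Units.val_mk0, map_add, map_mul, hσ2]
    linear_combination (-c) * ha'
  have hND : N.range ≤ D.ker := by
    rintro _ ⟨a, rfl⟩
    rw [MonoidHom.mem_ker, hD, hN, map_mul, hs2, mul_comm a (s a), div_self']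
  have h1 := Subgroup.card_mul_index D.ker
  have h2 := Subgroup.card_mul_index N.ker
  rw [Subgroup.index_ker] at h1 h2
  have h3 := Subgroup.card_le_of_le h90
  have h4 : 0 < Nat.card N.ker := Nat.card_pos
  have h5 : Nat.card D.ker ≤ Nat.card N.range := by
    have : Nat.card N.ker * Nat.card D.ker ≤ Nat.card N.ker * Nat.card N.range := by
      calc Nat.card N.ker * Nat.card D.ker ≤ Nat.card D.range * Nat.card D.ker :=
            Nat.mul_le_mul_right _ h3
        _ = Nat.card N.ker * Nat.card N.range := by rw [h2, mul_comm, h1]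
    exact Nat.le_of_mul_le_mul_left this h4
  have h6 : N.range = D.ker := Subgroup.eq_of_le_of_card_ge hND h5
  have h7 : Units.mk0 c hc0 ∈ D.ker := by
    rw [MonoidHom.mem_ker, hD, div_eq_one]
    apply Units.ext
    rw [hs, Units.val_mk0, hc]
  rw [← h6] at h7
  obtain ⟨a, ha⟩ := h7
  refine ⟨(a : F), ?_⟩
  have := congrArg Units.val ha
  rw [hN, Units.val_mul, hs, Units.val_mk0] at this
  rw [mul_comm]; exact this

theorem onb {F : Type u} [Field F] [Finite F] (σ : F →+* F) (hσ : σ ≠ RingHom.id F)
    (hσ2 : ∀ a : F, σ (σ a) = a) :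
    ∀ (n : ℕ) (V : Type v) [AddCommGroup V] [Module F V] [FiniteDimensional F V]
      (B : V →ₛₗ[σ] V →ₗ[F] F), B.IsSymm → B.Nondegenerate → Module.finrank F V = n →
      ∃ b : Fin n → V, ∀ i j, B (b i) (b j) = if i = j then 1 else 0 := by
  intro n
  induction n with
  | zero => intro V _ _ _ B hS hB hn; exact ⟨fun i => i.elim0, fun i => i.elim0⟩
  | succ n ih =>
    intro V _ _ _ B hS hB hn
    have hnt : Nontrivial V := Module.nontrivial_of_finrank_pos (R := F) (by omega)
    obtain ⟨v0, hv0⟩ : ∃ v0 : V, B v0 v0 ≠ 0 := by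
      by_contra hcon
      push Not at hcon
      obtain ⟨x, hx⟩ := exists_ne (0 : V)
      apply hx
      apply hB.1 x
      intro y
      obtain ⟨a, ha⟩ : ∃ a : F, σ a ≠ a := by
        by_contra h
        push Not at h
        exact hσ (RingHom.ext h)
      have h1 : ∀ a : F, σ a * B x y + a * σ (B x y) = 0 := by
        intro a
        have := hcon (a • x + y)
        simp only [map_add, LinearMap.add_apply, map_smulₛₗ, LinearMap.smul_apply, map_smul,
          smul_eq_mul, hcon, mul_zero, add_zero, zero_add] at this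
        rw [← hS.eq x y] at this
        linear_combination this
      have h2 := h1 1
      have h3 := h1 a
      rw [map_one, one_mul, one_mul] at h2
      have h4 : (σ a - a) * B x y = 0 := by linear_combination h3 - a * h2
      rcases mul_eq_zero.1 h4 with h | h
      · exact absurd (sub_eq_zero.1 h) ha
      · exact h
    have hfix : σ (B v0 v0) = B v0 v0 := hS.eq v0 v0
    obtain ⟨a, ha⟩ := norm_surj σ hσ hσ2 (B v0 v0)⁻¹ (inv_ne_zero hv0) (by rw [map_inv₀, hfix])
    obtain ⟨v, hvdef⟩ : ∃ v : V, v = a • v0 := ⟨_, rfl⟩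
    have hvv : B v v = 1 := by
      rw [hvdef]
      simp only [map_smulₛₗ, LinearMap.smul_apply, map_smul, smul_eq_mul]
      rw [RingHom.id_apply, ← mul_assoc, mul_comm a (σ a), ha, inv_mul_cancel₀ hv0]
    obtain ⟨W, hW⟩ : ∃ W : Submodule F V, W = LinearMap.ker (B v) := ⟨_, rfl⟩
    have hmemW : ∀ w, w ∈ W ↔ B v w = 0 := by
      intro w; rw [hW]; exact LinearMap.mem_ker
    have hWdim : Module.finrank F W = n := by
      have h1 := LinearMap.finrank_range_add_finrank_ker (B v)
      have h2 : LinearMap.range (B v) = ⊤ := by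
        rw [eq_top_iff]
        intro c _
        exact ⟨c • v, by simp [hvv]⟩
      rw [h2, finrank_top, Module.finrank_self, hn, ← hW] at h1
      omega
    have hdecomp : ∀ z : V, z - B v z • v ∈ W := by
      intro z; rw [hmemW]; simp [hvv]
    have hWv : ∀ w ∈ W, B w v = 0 := by
      intro w hw
      rw [← hS.eq v w, (hmemW w).1 hw, map_zero]
    have hsepW : ∀ x ∈ W, (∀ y ∈ W, B x y = 0) → x = 0 := by
      intro x hx hxy
      apply hB.1 x
      intro z
      have h1 := hxy _ (hdecomp z)
      rw [map_sub, map_smul, hWv x hx, smul_zero, sub_zero] at h1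
      exact h1
    obtain ⟨bW, hbW⟩ := ih W (B.domRestrict₁₂ W W) ⟨fun x y => hS.eq x y⟩
      ⟨fun x hx => Subtype.ext (hsepW x x.2 (fun y hy => hx ⟨y, hy⟩)),
       fun y hy => Subtype.ext (hsepW y y.2 (fun x hx => by
        have := hy ⟨x, hx⟩
        have h2 : B x (y : V) = 0 := this
        rw [← hS.eq, h2, map_zero]))⟩ hWdim
    refine ⟨Fin.cons v (fun i => (bW i : V)), ?_⟩
    intro i j
    induction i using Fin.cases with
    | zero =>
      induction j using Fin.cases with
      | zero => simpa using hvv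
      | succ j =>
        simp only [Fin.cons_zero, Fin.cons_succ]
        rw [(hmemW _).1 (bW j).2, if_neg (Fin.succ_ne_zero j).symm]
    | succ i =>
      induction j using Fin.cases with
      | zero =>
        simp only [Fin.cons_zero, Fin.cons_succ]
        rw [hWv _ (bW i).2, if_neg (Fin.succ_ne_zero i)]
      | succ j =>
        simp only [Fin.cons_succ, Fin.succ_inj]
        exact hbW i j

/-- Classification of Hermitian forms over finite fields: if σ is a non-identity involutive automorphism of the finite field F and B is a non-degenerate conjugate-symmetric σ-sesquilinear form on the finite-dimensional space V, then V has a B-orthonormal basis. -/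
theorem result {F V : Type*} [Field F] [Finite F] [AddCommGroup V] [Module F V] [FiniteDimensional F V] (σ : F →+* F) (hσ : σ ≠ RingHom.id F) (hσ2 : ∀ a : F, σ (σ a) = a) (B : V →ₛₗ[σ] V →ₗ[F] F) (hS : B.IsSymm) (hB : B.Nondegenerate) : ∃ b : Module.Basis (Fin (Module.finrank F V)) F V, ∀ i j, B (b i) (b j) = if i = j then 1 else 0 := by
  classical
  obtain ⟨b, hb⟩ := onb σ hσ hσ2 (Module.finrank F V) V B hS hB rfl
  have hli : LinearIndependent F b := by
    apply LinearMap.linearIndependent_of_isOrthoᵢ (B := B)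
    · rw [LinearMap.isOrthoᵢ_def]
      intro i j hij
      rw [hb, if_neg hij]
    · intro i
      rw [hb, if_pos rfl]
      exact one_ne_zero
  refine ⟨basisOfLinearIndependentOfCardEqFinrank' b hli (by simp), ?_⟩
  intro i j
  rw [coe_basisOfLinearIndependentOfCardEqFinrank']
  exact hb i j

end Cfsg.Agent.S0755
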