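import Mathlib
import Cfsg.Statements.S0751
import Cfsg.Agent.S0755

set_option autoImplicit false
open Cfsg

namespace Cfsg.Agent.S0751

section
variable {F V : Type*} [Field F] [AddCommGroup V] [Module F V]
  (σ : F →+* F) (B : V →ₛₗ[σ] V →ₗ[F] F)

/-- right orthogonal complement of a submodule for a sesquilinear form -/
def perp (X : Submodule F V) : Submodule F V where
  carrier := {w | ∀ x ∈ X, B x w = 0}
  add_mem' := by
    intro a b ha hb x hx
    rw [map_add, ha x hx, hb x hx, add_zero]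
  zero_mem' := by
    intro x hx
    simp
  smul_mem' := by
    intro c a ha x hx
    rw [map_smul, ha x hx, smul_zero]

theorem mem_perp (X : Submodule F V) (w : V) : w ∈ perp σ B X ↔ ∀ x ∈ X, B x w = 0 := Iff.rfl

theorem finrank_perp [FiniteDimensional F V] (hσ2 : ∀ a : F, σ (σ a) = a) (hB : B.Nondegenerate)
    (X : Submodule F V) :
    Module.finrank F (perp σ B X) + Module.finrank F X = Module.finrank F V := by
  classical
  obtain ⟨x, -⟩ : ∃ x : Module.Basis (Fin (Module.finrank F X)) F X, True :=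
    ⟨Module.finBasis F X, trivial⟩
  obtain ⟨T, hT⟩ : ∃ T : V →ₗ[F] (Fin (Module.finrank F X) → F), ∀ w i, T w i = B (x i : V) w :=
    ⟨LinearMap.pi (fun i => B (x i : V)), fun w i => rfl⟩
  have hker : LinearMap.ker T = perp σ B X := by
    ext w
    rw [LinearMap.mem_ker, mem_perp]
    constructor
    · intro h y hy
      have hrep := congrArg Subtype.val (x.sum_repr ⟨y, hy⟩)
      rw [Submodule.coe_sum] at hrep
      simp only [Submodule.coe_smul] at hrep
      rw [← hrep]
      simp only [map_sum, map_smulₛₗ, LinearMap.sum_apply, LinearMap.smul_apply]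
      apply Finset.sum_eq_zero
      intro i _
      have hi : B (x i : V) w = 0 := by rw [← hT]; exact congrFun h i
      rw [hi, smul_zero]
    · intro h
      funext i
      rw [hT]
      exact h _ (x i).2
  have hrange : LinearMap.range T = ⊤ := by
    by_contra hne
    obtain ⟨g, hg0, hg⟩ := Submodule.exists_dual_map_eq_bot_of_lt_top (lt_top_iff_ne_top.2 hne)
      inferInstance
    have hgT : ∀ w, g (T w) = 0 := by
      intro w
      have h1 : g (T w) ∈ (LinearMap.range T).map g :=
        Submodule.mem_map_of_mem (LinearMap.mem_range_self T w)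
      rw [hg] at h1
      exact (Submodule.mem_bot F).1 h1
    have hz : ∀ w, B (∑ i, σ (g (fun j => if i = j then 1 else 0)) • (x i : V)) w = 0 := by
      intro w
      simp only [map_sum, map_smulₛₗ, LinearMap.sum_apply, LinearMap.smul_apply, hσ2]
      have h1 := hgT w
      rw [LinearMap.pi_apply_eq_sum_univ] at h1
      refine Eq.trans (Finset.sum_congr rfl ?_) h1
      intro i _
      rw [hT, smul_eq_mul, smul_eq_mul, mul_comm]
    have hz0 := hB.1 _ hz
    have hli : LinearIndependent F (fun i => (x i : V)) :=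
      x.linearIndependent.map' X.subtype (Submodule.ker_subtype X)
    have hc := Fintype.linearIndependent_iff.1 hli _ hz0
    apply hg0
    apply LinearMap.ext
    intro y
    rw [LinearMap.pi_apply_eq_sum_univ]
    simp only [LinearMap.zero_apply]
    apply Finset.sum_eq_zero
    intro i _
    have h2 := hc i
    have h3 : g (fun j => if i = j then 1 else 0) = 0 := by
      have := congrArg σ h2
      rw [hσ2, map_zero] at this
      exact this
    rw [h3, smul_zero]
  have h1 := LinearMap.finrank_range_add_finrank_ker T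
  rw [hrange, finrank_top, Module.finrank_fin_fun, hker] at h1
  omega

theorem perp_perp [FiniteDimensional F V] (hσ2 : ∀ a : F, σ (σ a) = a) (hS : B.IsSymm)
    (hB : B.Nondegenerate) (X : Submodule F V) : perp σ B (perp σ B X) = X := by
  have hle : X ≤ perp σ B (perp σ B X) := by
    intro x hx w hw
    rw [← hS.eq x w, hw x hx, map_zero]
  have h1 := finrank_perp σ B hσ2 hB X
  have h2 := finrank_perp σ B hσ2 hB (perp σ B X)
  exact (Submodule.eq_of_le_of_finrank_le hle (by omega)).symm

theorem iso_of_all (hσ : σ ≠ RingHom.id F) (hS : B.IsSymm) (M : Submodule F V)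
    (h : ∀ v ∈ M, B v v = 0) : ∀ x ∈ M, ∀ y ∈ M, B x y = 0 := by
  intro x hx y hy
  obtain ⟨a, ha⟩ : ∃ a : F, σ a ≠ a := by
    by_contra h'
    push Not at h'
    exact hσ (RingHom.ext h')
  have h1 : ∀ a : F, σ a * B x y + a * σ (B x y) = 0 := by
    intro a
    have := h (a • x + y) (M.add_mem (M.smul_mem a hx) hy)
    simp only [map_add, LinearMap.add_apply, map_smulₛₗ, LinearMap.smul_apply, map_smul,
      smul_eq_mul, h x hx, h y hy, mul_zero, add_zero, zero_add] at this
    rw [← hS.eq x y] at this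
    linear_combination this
  have h2 := h1 1
  have h3 := h1 a
  rw [map_one, one_mul, one_mul] at h2
  have h4 : (σ a - a) * B x y = 0 := by linear_combination h3 - a * h2
  rcases mul_eq_zero.1 h4 with h | h
  · exact absurd (sub_eq_zero.1 h) ha
  · exact h

theorem exists_trace_one (hσ : σ ≠ RingHom.id F) (hσ2 : ∀ a : F, σ (σ a) = a) :
    ∃ θ : F, θ + σ θ = 1 := by
  obtain ⟨b, hb⟩ : ∃ b : F, b + σ b ≠ 0 := by
    by_contra h
    push Not at h
    have h1 := h 1
    rw [map_one] at h1
    apply hσ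
    ext a
    have h2 := h a
    rw [RingHom.id_apply]
    linear_combination h2 - a * h1
  refine ⟨b / (b + σ b), ?_⟩
  rw [map_div₀, map_add, hσ2, add_comm (σ b) b]
  field_simp

theorem step [FiniteDimensional F V] (hS : B.IsSymm) (X : Submodule F V) (f : V →ₗ[F] V)
    (hinj : ∀ x ∈ X, f x = 0 → x = 0)
    (hiso : ∀ x ∈ X, ∀ x' ∈ X, B (f x) (f x') = B x x') (v w : V) (hv : v ∉ X)
    (hw : w ∉ X.map f) (h1 : ∀ x ∈ X, B (f x) w = B x v) (h2 : B w w = B v v) :
    ∃ (X' : Submodule F V) (f' : V →ₗ[F] V), X < X' ∧ (∀ x ∈ X, f' x = f x) ∧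
      (∀ x ∈ X', f' x = 0 → x = 0) ∧ (∀ x ∈ X', ∀ x' ∈ X', B (f' x) (f' x') = B x x') := by
  classical
  obtain ⟨l, hl1, hl2⟩ := Submodule.exists_dual_map_eq_bot_of_notMem hv inferInstance
  have hlX : ∀ x ∈ X, l x = 0 := by
    intro x hx
    have : l x ∈ X.map l := Submodule.mem_map_of_mem hx
    rw [hl2] at this
    exact (Submodule.mem_bot F).1 this
  obtain ⟨f', hf'⟩ : ∃ f' : V →ₗ[F] V, f' = f + LinearMap.smulRight ((l v)⁻¹ • l) (w - f v) :=
    ⟨_, rfl⟩
  have hf'X : ∀ x ∈ X, f' x = f x := by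
    intro x hx
    rw [hf']
    simp [hlX x hx]
  have hf'v : f' v = w := by
    rw [hf']
    simp [inv_mul_cancel₀ hl1]
  have hf'z : ∀ x ∈ X, ∀ a : F, f' (x + a • v) = f x + a • w := by
    intro x hx a
    rw [map_add, map_smul, hf'X x hx, hf'v]
  have hwf : ∀ x ∈ X, B w (f x) = B v x := by
    intro x hx
    rw [← hS.eq (f x) w, h1 x hx, hS.eq]
  refine ⟨X ⊔ F ∙ v, f', ?_, hf'X, ?_, ?_⟩
  · exact SetLike.lt_iff_le_and_exists.2 ⟨le_sup_left, v,
      Submodule.mem_sup_right (Submodule.mem_span_singleton_self v), hv⟩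
  · intro z hz h0
    obtain ⟨x, hx, y, hy, rfl⟩ := Submodule.mem_sup.1 hz
    obtain ⟨a, rfl⟩ := Submodule.mem_span_singleton.1 hy
    rw [hf'z x hx a] at h0
    have ha : a = 0 := by
      by_contra ha
      apply hw
      refine ⟨-(a⁻¹ • x), X.neg_mem (X.smul_mem _ hx), ?_⟩
      have h3 : a • w = - f x := by
        rw [eq_neg_iff_add_eq_zero, add_comm]; exact h0
      rw [map_neg, map_smul, ← smul_neg, ← h3, smul_smul, inv_mul_cancel₀ ha, one_smul]
    rw [ha, zero_smul, add_zero] at h0 ⊢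
    exact hinj x hx h0
  · intro z hz z' hz'
    obtain ⟨x, hx, y, hy, rfl⟩ := Submodule.mem_sup.1 hz
    obtain ⟨a, rfl⟩ := Submodule.mem_span_singleton.1 hy
    obtain ⟨x', hx', y', hy', rfl⟩ := Submodule.mem_sup.1 hz'
    obtain ⟨a', rfl⟩ := Submodule.mem_span_singleton.1 hy'
    rw [hf'z x hx a, hf'z x' hx' a']
    simp only [map_add, map_smulₛₗ, map_smul, LinearMap.add_apply, LinearMap.smul_apply, smul_eq_mul]
    rw [hiso x hx x' hx', h1 x hx, hwf x' hx', h2]

theorem find_pair [Finite F] [FiniteDimensional F V] (hσ : σ ≠ RingHom.id F)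
    (hσ2 : ∀ a : F, σ (σ a) = a) (hS : B.IsSymm) (hB : B.Nondegenerate)
    (X : Submodule F V) (f : V →ₗ[F] V) (hinj : ∀ x ∈ X, f x = 0 → x = 0)
    (hiso : ∀ x ∈ X, ∀ x' ∈ X, B (f x) (f x') = B x x') (hX : X ≠ ⊤) :
    ∃ v w : V, v ∉ X ∧ w ∉ X.map f ∧ (∀ x ∈ X, B (f x) w = B x v) ∧ B w w = B v v := by
  classical
  have hfY : ∀ x ∈ X, f x ∈ X.map f := fun x hx => Submodule.mem_map_of_mem hx
  obtain ⟨r, hr⟩ := LinearMap.exists_leftInverse_of_injective (f ∘ₗ X.subtype)
    (LinearMap.ker_eq_bot'.2 (fun x hx => Subtype.ext (hinj x x.2 hx)))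
  have hr' : ∀ x : X, r (f x) = x := fun x => by
    have := LinearMap.congr_fun hr x
    simpa using this
  have d1 := finrank_perp σ B hσ2 hB X
  have d2 := finrank_perp σ B hσ2 hB (X.map f)
  have d3 := Submodule.finrank_map_le f X
  have d4 : Module.finrank F X ≤ Module.finrank F (X.map f) := by
    have hi : Function.Injective (LinearMap.codRestrict (X.map f) (f ∘ₗ X.subtype)
        (fun x => hfY x x.2)) := by
      rw [← LinearMap.ker_eq_bot, LinearMap.ker_eq_bot']
      intro x hx
      exact Subtype.ext (hinj x x.2 (congrArg Subtype.val hx))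
    exact LinearMap.finrank_le_finrank_of_injective hi
  have K1 : perp σ B (X.map f) ≤ X.map f → perp σ B X ≤ X := by
    intro h2
    have hj : ∀ u : perp σ B (X.map f),
        (X.subtype ∘ₗ r ∘ₗ (perp σ B (X.map f)).subtype) u ∈ X ⊓ perp σ B X := by
      intro u
      refine ⟨(r (u:V)).2, ?_⟩
      intro x hx
      change B x (r (u : V) : V) = 0
      obtain ⟨xu, hxu, hxu'⟩ := h2 u.2
      have h3 : r (u : V) = ⟨xu, hxu⟩ := by rw [← hxu']; exact hr' ⟨xu, hxu⟩
      rw [h3]
      change B x xu = 0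
      rw [← hiso x hx xu hxu, hxu']
      exact u.2 (f x) (hfY x hx)
    have hjinj : Function.Injective (LinearMap.codRestrict (X ⊓ perp σ B X)
        (X.subtype ∘ₗ r ∘ₗ (perp σ B (X.map f)).subtype) hj) := by
      rw [← LinearMap.ker_eq_bot, LinearMap.ker_eq_bot']
      intro u hu
      have h0 : (r (u : V) : V) = 0 := congrArg Subtype.val hu
      obtain ⟨xu, hxu, hxu'⟩ := h2 u.2
      have h3 : r (u : V) = ⟨xu, hxu⟩ := by rw [← hxu']; exact hr' ⟨xu, hxu⟩
      rw [h3] at h0
      have h4 : xu = 0 := h0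
      apply Subtype.ext
      rw [← hxu', h4, map_zero]; rfl
    have hfin1 := LinearMap.finrank_le_finrank_of_injective hjinj
    have heq : X ⊓ perp σ B X = perp σ B X :=
      Submodule.eq_of_le_of_finrank_le inf_le_right (by omega)
    rw [← heq]; exact inf_le_left
  have K2 : perp σ B X ≤ X → perp σ B (X.map f) ≤ X.map f := by
    intro h2
    have hj : ∀ u : perp σ B X,
        (f ∘ₗ (perp σ B X).subtype) u ∈ X.map f ⊓ perp σ B (X.map f) := by
      intro u
      refine ⟨hfY _ (h2 u.2), ?_⟩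
      rintro _ ⟨x, hx, rfl⟩
      change B (f x) (f (u : V)) = 0
      rw [hiso x hx _ (h2 u.2)]
      exact u.2 x hx
    have hjinj : Function.Injective (LinearMap.codRestrict (X.map f ⊓ perp σ B (X.map f))
        (f ∘ₗ (perp σ B X).subtype) hj) := by
      rw [← LinearMap.ker_eq_bot, LinearMap.ker_eq_bot']
      intro u hu
      have h0 : f (u : V) = 0 := congrArg Subtype.val hu
      exact Subtype.ext (hinj _ (h2 u.2) h0)
    have hfin1 := LinearMap.finrank_le_finrank_of_injective hjinj
    have heq : X.map f ⊓ perp σ B (X.map f) = perp σ B (X.map f) :=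
      Submodule.eq_of_le_of_finrank_le inf_le_right (by omega)
    rw [← heq]; exact inf_le_left
  by_cases hc : perp σ B X ≤ X
  · have hcY := K2 hc
    obtain ⟨v, hv⟩ : ∃ v, v ∉ X := by
      by_contra h
      push Not at h
      exact hX (eq_top_iff.2 (fun x _ => h x))
    obtain ⟨b, hb⟩ := Cfsg.Agent.S0755.result σ hσ hσ2 B hS hB
    obtain ⟨w0, hw0⟩ : ∃ w0 : V, ∀ y : V, B w0 y = B v (r y : V) := by
      refine ⟨∑ i, σ (B v (r (b i) : V)) • b i, fun y => ?_⟩
      simp only [map_sum, map_smulₛₗ, LinearMap.sum_apply, LinearMap.smul_apply, hσ2, smul_eq_mul]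
      have hrepr : ∀ j, b.repr y j = B (b j) y := by
        intro j
        conv_rhs => rw [← b.sum_repr y]
        simp only [map_sum, map_smul, smul_eq_mul, hb, mul_ite, mul_one, mul_zero,
          Finset.sum_ite_eq, Finset.mem_univ, if_true]
      have hy : y = ∑ j, B (b j) y • b j := by
        conv_lhs => rw [← b.sum_repr y]
        apply Finset.sum_congr rfl
        intro j _
        rw [hrepr]
      conv_rhs => rw [hy]
      simp only [map_sum, map_smul, Submodule.coe_sum, Submodule.coe_smul, smul_eq_mul]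
      apply Finset.sum_congr rfl
      intro i _
      ring
    have hw0' : ∀ x ∈ X, B (f x) w0 = B x v := by
      intro x hx
      rw [← hS.eq w0 (f x), hw0, hr' ⟨x, hx⟩]
      exact hS.eq v x
    have hw0Y : w0 ∉ X.map f := by
      rintro ⟨x0, hx0, hx0w⟩
      apply hv
      have hperp : v - x0 ∈ perp σ B X := by
        intro x hx
        change B x (v - x0) = 0
        rw [map_sub, ← hw0' x hx, ← hx0w, hiso x hx x0 hx0, sub_self]
      have := X.add_mem (hc hperp) hx0
      simpa using this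
    obtain ⟨u0, hu0, hβ⟩ : ∃ u0 ∈ perp σ B (X.map f), B w0 u0 ≠ 0 := by
      by_contra hcon
      push Not at hcon
      apply hw0Y
      rw [← perp_perp σ B hσ2 hS hB (X.map f)]
      intro u hu
      change B u w0 = 0
      rw [← hS.eq w0 u, hcon u hu, map_zero]
    obtain ⟨θ, hθ⟩ := exists_trace_one σ hσ hσ2
    obtain ⟨d, hd⟩ : ∃ d : F, d = B v v - B w0 w0 := ⟨_, rfl⟩
    have hdfix : σ d = d := by rw [hd, map_sub, hS.eq, hS.eq]
    have hu0Y : u0 ∈ X.map f := hcY hu0
    have hu0u0 : B u0 u0 = 0 := hu0 u0 hu0Y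
    obtain ⟨β, hβdef⟩ : ∃ β : F, β = B w0 u0 := ⟨_, rfl⟩
    rw [← hβdef] at hβ
    have h3 : B u0 w0 = σ β := by rw [hβdef]; exact (hS.eq w0 u0).symm
    have e1 : (θ * d / β) * β = θ * d := by field_simp
    have e2 : σ (θ * d / β) * σ β = σ θ * d := by rw [← map_mul, e1, map_mul, hdfix]
    refine ⟨v, w0 + (θ * d / β) • u0, hv, ?_, ?_, ?_⟩
    · intro h
      apply hw0Y
      have := (X.map f).sub_mem h ((X.map f).smul_mem (θ * d / β) hu0Y)
      simpa using this
    · intro x hx
      rw [map_add, map_smul, hw0' x hx, hu0 (f x) (hfY x hx), smul_zero, add_zero]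
    · simp only [map_add, map_smulₛₗ, map_smul, LinearMap.add_apply, LinearMap.smul_apply,
        smul_eq_mul, hu0u0, mul_zero, add_zero, h3, ← hβdef, RingHom.id_apply]
      linear_combination e1 + e2 + d * hθ + hd
  · have hcY : ¬ perp σ B (X.map f) ≤ X.map f := fun h => hc (K1 h)
    have hex : ∀ Z : Submodule F V, ¬ perp σ B Z ≤ Z → ∃ v ∈ perp σ B Z, B v v ≠ 0 := by
      intro Z hZ
      by_contra hcon
      push Not at hcon
      apply hZ
      have hall := iso_of_all σ B hσ hS (perp σ B Z) hcon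
      intro u hu
      rw [← perp_perp σ B hσ2 hS hB Z]
      intro u' hu'
      exact hall u' hu' u hu
    obtain ⟨v, hv, hvv⟩ := hex X hc
    obtain ⟨w', hw', hww⟩ := hex (X.map f) hcY
    have hfixv : σ (B v v) = B v v := hS.eq v v
    have hfixw : σ (B w' w') = B w' w' := hS.eq w' w'
    obtain ⟨a, ha⟩ := Cfsg.Agent.S0755.norm_surj σ hσ hσ2 (B v v / B w' w')
      (div_ne_zero hvv hww) (by rw [map_div₀, hfixv, hfixw])
    have hww2 : B (a • w') (a • w') = B v v := by
      have h5 : B (a • w') (a • w') = σ a * a * B w' w' := by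
        simp only [map_smulₛₗ, map_smul, LinearMap.smul_apply, smul_eq_mul, RingHom.id_apply]
        ring
      rw [h5, ha]
      field_simp
    refine ⟨v, a • w', ?_, ?_, ?_, hww2⟩
    · intro hvX
      exact hvv (hv v hvX)
    · intro hwY
      have h6 : B (a • w') (a • w') = 0 := (perp σ B (X.map f)).smul_mem a hw' _ hwY
      rw [hww2] at h6
      exact hvv h6
    · intro x hx
      rw [(perp σ B (X.map f)).smul_mem a hw' (f x) (hfY x hx), hv x hx]

theorem top_case [FiniteDimensional F V] (f : V →ₗ[F] V) (hinj : ∀ x : V, f x = 0 → x = 0)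
    (hiso : ∀ x x' : V, B (f x) (f x') = B x x') :
    ∃ g : V ≃ₗ[F] V, (∀ u v : V, B (g u) (g v) = B u v) ∧ ∀ x, g x = f x := by
  have hfi : Function.Injective f := by
    rw [← LinearMap.ker_eq_bot, LinearMap.ker_eq_bot']
    exact hinj
  refine ⟨LinearEquiv.ofInjectiveEndo f hfi, fun u v => ?_, fun x => ?_⟩
  · simp [hiso u v]
  · simp

theorem witt_aux [Finite F] [FiniteDimensional F V] (hσ : σ ≠ RingHom.id F)
    (hσ2 : ∀ a : F, σ (σ a) = a) (hS : B.IsSymm) (hB : B.Nondegenerate) :
    ∀ (d : ℕ) (X : Submodule F V) (f : V →ₗ[F] V),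
    Module.finrank F V - Module.finrank F X ≤ d → (∀ x ∈ X, f x = 0 → x = 0) →
    (∀ x ∈ X, ∀ x' ∈ X, B (f x) (f x') = B x x') →
    ∃ g : V ≃ₗ[F] V, (∀ u v : V, B (g u) (g v) = B u v) ∧ ∀ x ∈ X, g x = f x := by
  intro d
  induction d with
  | zero =>
    intro X f hd hinj hiso
    have hX : X = ⊤ := Submodule.eq_top_of_finrank_eq (by have := Submodule.finrank_le X; omega)
    subst hX
    obtain ⟨g, hg1, hg2⟩ := top_case σ B f (fun x => hinj x trivial)
      (fun x x' => hiso x trivial x' trivial)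
    exact ⟨g, hg1, fun x _ => hg2 x⟩
  | succ d ih =>
    intro X f hd hinj hiso
    by_cases hX : X = ⊤
    · subst hX
      obtain ⟨g, hg1, hg2⟩ := top_case σ B f (fun x => hinj x trivial)
        (fun x x' => hiso x trivial x' trivial)
      exact ⟨g, hg1, fun x _ => hg2 x⟩
    · obtain ⟨v, w, hv, hw, h1, h2⟩ := find_pair σ B hσ hσ2 hS hB X f hinj hiso hX
      obtain ⟨X', f', hlt, hff, hinj', hiso'⟩ := step σ B hS X f hinj hiso v w hv hw h1 h2
      have e1 := Submodule.finrank_lt_finrank_of_lt hlt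
      have e2 := Submodule.finrank_le X'
      obtain ⟨g, hg1, hg2⟩ := ih X' f' (by omega) hinj' hiso'
      exact ⟨g, hg1, fun x hx => by rw [hg2 x (hlt.le hx), hff x hx]⟩

end

/-- Witt's Lemma for Hermitian forms. Let σ be a non-identity involutive automorphism of a finite field F and B a non-degenerate σ-sesquilinear form on a finite-dimensional F-space V which is conjugate-symmetric (σ (B x y) = B y x). Then every linear equivalence between subspaces X, Y of V preserving B extends to a B-preserving linear automorphism of V. -/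
theorem result {F V : Type*} [Field F] [Finite F] [AddCommGroup V] [Module F V] [FiniteDimensional F V] (σ : F →+* F) (hσ : σ ≠ RingHom.id F) (hσ2 : ∀ a : F, σ (σ a) = a) (B : V →ₛₗ[σ] V →ₗ[F] F) (hS : B.IsSymm) (hB : B.Nondegenerate) (X Y : Submodule F V) (φ : X ≃ₗ[F] Y) (hφ : ∀ x x' : X, B (φ x : V) (φ x' : V) = B (x : V) (x' : V)) : ∃ g : V ≃ₗ[F] V, (∀ u v : V, B (g u) (g v) = B u v) ∧ ∀ x : X, g (x : V) = (φ x : V) := by
  obtain ⟨f, hf⟩ := LinearMap.exists_extend (Y.subtype ∘ₗ φ.toLinearMap)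
  have hfx : ∀ x : X, f x = φ x := fun x => by
    have := LinearMap.congr_fun hf x
    simpa using this
  have hinj : ∀ x ∈ X, f x = 0 → x = 0 := by
    intro x hx h0
    have := hfx ⟨x, hx⟩
    rw [h0] at this
    have h1 : φ ⟨x, hx⟩ = 0 := Subtype.ext this.symm
    have h2 := φ.map_eq_zero_iff.1 h1
    exact congrArg Subtype.val h2
  have hiso : ∀ x ∈ X, ∀ x' ∈ X, B (f x) (f x') = B x x' := by
    intro x hx x' hx'
    rw [hfx ⟨x, hx⟩, hfx ⟨x', hx'⟩]; exact hφ _ _
  obtain ⟨g, hg1, hg2⟩ := witt_aux σ B hσ hσ2 hS hB _ X f le_rfl hinj hiso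
  exact ⟨g, hg1, fun x => by rw [hg2 x x.2, hfx]⟩

end Cfsg.Agent.S0751
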