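import Mathlib
import Cfsg.Statements.S0752

set_option autoImplicit false
open Cfsg

namespace Cfsg.Agent.S0752

def SF {F V : Type*} [Field F] [AddCommGroup V] [Module F V] (B : LinearMap.BilinForm F V)
    (m : ℕ) (e f : Fin m → V) : Prop :=
  (∀ i j, B (e i) (f j) = if i = j then 1 else 0) ∧ (∀ i j, B (e i) (e j) = 0) ∧
    (∀ i j, B (f i) (f j) = 0)

theorem sf_pair {F V : Type*} [Field F] [AddCommGroup V] [Module F V] (B : LinearMap.BilinForm F V)
    (hA : B.IsAlt) (m : ℕ) (e f : Fin m → V) (h : SF B m e f) (c : Fin m ⊕ Fin m → F) (j : Fin m) :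
    B (∑ s, c s • Sum.elim e f s) (f j) = c (Sum.inl j) ∧
    B (∑ s, c s • Sum.elim e f s) (e j) = - c (Sum.inr j) := by
  classical
  obtain ⟨h1, h2, h3⟩ := h
  have h1' : ∀ i j, B (f i) (e j) = if j = i then -1 else 0 := by
    intro i j
    rw [← hA.neg_eq, h1]
    split_ifs <;> simp
  constructor
  · simp only [map_sum, map_smul, map_add, LinearMap.add_apply, LinearMap.sum_apply, LinearMap.smul_apply, smul_eq_mul,
      Fintype.sum_sum_type, Sum.elim_inl, Sum.elim_inr, h1, h3, mul_zero, Finset.sum_const_zero,
      add_zero, mul_ite, mul_one, Finset.sum_ite_eq', Finset.mem_univ, if_true]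
  · simp only [map_sum, map_smul, map_add, LinearMap.add_apply, LinearMap.sum_apply, LinearMap.smul_apply, smul_eq_mul,
      Fintype.sum_sum_type, Sum.elim_inl, Sum.elim_inr, h1', h2, mul_zero, Finset.sum_const_zero,
      zero_add, mul_ite, mul_neg, mul_one, Finset.sum_ite_eq, Finset.mem_univ, if_true]

theorem sf_li {F V : Type*} [Field F] [AddCommGroup V] [Module F V] (B : LinearMap.BilinForm F V)
    (hA : B.IsAlt) (m : ℕ) (e f : Fin m → V) (h : SF B m e f) :
    LinearIndependent F (Sum.elim e f) := by
  rw [Fintype.linearIndependent_iff]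
  intro c hc s
  rcases s with j | j
  · have := (sf_pair B hA m e f h c j).1
    rw [hc] at this
    simpa using this.symm
  · have := (sf_pair B hA m e f h c j).2
    rw [hc] at this
    simpa using this

/-- Classification of alternating forms: for an alternating bilinear form B on a finite-dimensional space over any field there is a basis indexed by (Fin m ⊕ Fin m) ⊕ Fin k such that B (e_i, f_j) = δ_ij, the e's are pairwise orthogonal, the f's are pairwise orthogonal, and the last k basis vectors are orthogonal to everything (they span the radical). -/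
theorem result {F V : Type*} [Field F] [AddCommGroup V] [Module F V] [FiniteDimensional F V] (B : LinearMap.BilinForm F V) (hA : B.IsAlt) : ∃ (m k : ℕ) (b : Module.Basis ((Fin m ⊕ Fin m) ⊕ Fin k) F V), (∀ i j : Fin m, B (b (Sum.inl (Sum.inl i))) (b (Sum.inl (Sum.inr j))) = if i = j then 1 else 0) ∧ (∀ i j : Fin m, B (b (Sum.inl (Sum.inl i))) (b (Sum.inl (Sum.inl j))) = 0) ∧ (∀ i j : Fin m, B (b (Sum.inl (Sum.inr i))) (b (Sum.inl (Sum.inr j))) = 0) ∧ (∀ (j : Fin k) (v : V), B (b (Sum.inr j)) v = 0) := by
  classical
  have hP0 : ∃ e f : Fin 0 → V, SF B 0 e f :=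
    ⟨fun i => i.elim0, fun i => i.elim0, fun i => i.elim0, fun i => i.elim0, fun i => i.elim0⟩
  have hbound : ∀ m, (∃ e f : Fin m → V, SF B m e f) → m ≤ Module.finrank F V := by
    rintro m ⟨e, f, h⟩
    have := (sf_li B hA m e f h).fintype_card_le_finrank
    simp at this
    omega
  obtain ⟨m, ⟨e, f, hef⟩, hmax⟩ : ∃ m, (∃ e f : Fin m → V, SF B m e f) ∧
      ¬ (∃ e f : Fin (m + 1) → V, SF B (m + 1) e f) := by
    refine ⟨Nat.findGreatest (fun m => ∃ e f : Fin m → V, SF B m e f) (Module.finrank F V),
      Nat.findGreatest_spec (P := fun m => ∃ e f : Fin m → V, SF B m e f) (Nat.zero_le _) hP0, ?_⟩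
    intro h
    have := Nat.le_findGreatest (P := fun m => ∃ e f : Fin m → V, SF B m e f) (hbound _ h) h
    omega
  have hli := sf_li B hA m e f hef
  obtain ⟨H, hH⟩ : ∃ H : Submodule F V, H = Submodule.span F (Set.range (Sum.elim e f)) := ⟨_, rfl⟩
  have heH : ∀ i, e i ∈ H := fun i => by
    rw [hH]; exact Submodule.subset_span ⟨Sum.inl i, rfl⟩
  have hfH : ∀ i, f i ∈ H := fun i => by
    rw [hH]; exact Submodule.subset_span ⟨Sum.inr i, rfl⟩
  have hsep : ∀ x ∈ H, (∀ y ∈ H, B x y = 0) → x = 0 := by
    intro x hx hxy
    rw [hH, Submodule.mem_span_range_iff_exists_fun] at hx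
    obtain ⟨c, rfl⟩ := hx
    have hc : c = 0 := by
      funext s
      rcases s with j | j
      · have := (sf_pair B hA m e f hef c j).1
        rw [hxy _ (hfH j)] at this
        simpa using this.symm
      · have := (sf_pair B hA m e f hef c j).2
        rw [hxy _ (heH j)] at this
        simpa using this
    rw [hc]; simp
  have hnd : (B.restrict H).Nondegenerate := by
    refine ⟨fun x hx => ?_, fun y hy => ?_⟩
    · apply Subtype.ext
      exact hsep x x.2 (fun y hy => hx ⟨y, hy⟩)
    · apply Subtype.ext
      refine hsep y y.2 (fun x hx => ?_)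
      have := hy ⟨x, hx⟩
      have h2 : B (x : V) (y : V) = 0 := this
      rw [← hA.neg_eq, h2, neg_zero]
  have hrefl : B.IsRefl := hA.isRefl
  have hcompl : IsCompl H (B.orthogonal H) :=
    LinearMap.BilinForm.isCompl_orthogonal_of_restrict_nondegenerate hrefl hnd
  have hK0 : ∀ x ∈ B.orthogonal H, ∀ y ∈ B.orthogonal H, B x y = 0 := by
    intro x hx y hy
    by_contra hxy
    apply hmax
    have hxe : ∀ i, B (e i) x = 0 := fun i => hx _ (heH i)
    have hxf : ∀ i, B (f i) x = 0 := fun i => hx _ (hfH i)
    have hye : ∀ i, B (e i) y = 0 := fun i => hy _ (heH i)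
    have hyf : ∀ i, B (f i) y = 0 := fun i => hy _ (hfH i)
    have hxe' : ∀ i, B x (e i) = 0 := fun i => by rw [← hA.neg_eq, hxe, neg_zero]
    have hxf' : ∀ i, B x (f i) = 0 := fun i => by rw [← hA.neg_eq, hxf, neg_zero]
    have hye' : ∀ i, B y (e i) = 0 := fun i => by rw [← hA.neg_eq, hye, neg_zero]
    have hyf' : ∀ i, B y (f i) = 0 := fun i => by rw [← hA.neg_eq, hyf, neg_zero]
    obtain ⟨h1, h2, h3⟩ := hef
    refine ⟨Fin.snoc e x, Fin.snoc f ((B x y)⁻¹ • y), ?_, ?_, ?_⟩
    · intro i j
      induction i using Fin.lastCases with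
      | last =>
        induction j using Fin.lastCases with
        | last => simp [inv_mul_cancel₀ hxy]
        | cast j =>
          simp only [Fin.snoc_last, Fin.snoc_castSucc, hxf']
          rw [if_neg]
          exact fun h => (Fin.castSucc_lt_last j).ne h.symm
      | cast i =>
        induction j using Fin.lastCases with
        | last =>
          simp only [Fin.snoc_last, Fin.snoc_castSucc, map_smul, smul_eq_mul, hye, mul_zero]
          rw [if_neg]
          exact fun h => (Fin.castSucc_lt_last i).ne h
        | cast j =>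
          simp only [Fin.snoc_castSucc, h1, Fin.castSucc_inj]
    · intro i j
      induction i using Fin.lastCases with
      | last =>
        induction j using Fin.lastCases with
        | last => simp only [Fin.snoc_last]; exact hA x
        | cast j => simp only [Fin.snoc_last, Fin.snoc_castSucc, hxe']
      | cast i =>
        induction j using Fin.lastCases with
        | last => simp only [Fin.snoc_last, Fin.snoc_castSucc, hxe]
        | cast j => simp only [Fin.snoc_castSucc, h2]
    · intro i j
      induction i using Fin.lastCases with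
      | last =>
        induction j using Fin.lastCases with
        | last =>
          simp only [Fin.snoc_last, map_smul, LinearMap.smul_apply, smul_eq_mul]
          rw [hA y]; simp
        | cast j =>
          simp only [Fin.snoc_last, Fin.snoc_castSucc, map_smul, LinearMap.smul_apply, smul_eq_mul, hyf', mul_zero]
      | cast i =>
        induction j using Fin.lastCases with
        | last => simp only [Fin.snoc_last, Fin.snoc_castSucc, map_smul, smul_eq_mul, hyf, mul_zero]
        | cast j => simp only [Fin.snoc_castSucc, h3]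
  obtain ⟨h1, h2, h3⟩ := hef
  obtain ⟨bH, hbH⟩ : ∃ bH : Module.Basis (Fin m ⊕ Fin m) F H, ∀ s, (bH s : V) = Sum.elim e f s := by
    subst hH
    exact ⟨Module.Basis.span hli, fun s => by rw [Module.Basis.span_apply]⟩
  have bK := Module.finBasis F (B.orthogonal H)
  refine ⟨m, Module.finrank F (B.orthogonal H),
    (bH.prod bK).map (Submodule.prodEquivOfIsCompl H (B.orthogonal H) hcompl), ?_, ?_, ?_, ?_⟩
  · intro i j
    simp only [Module.Basis.map_apply, Submodule.coe_prodEquivOfIsCompl', Module.Basis.prod_apply,
      Sum.elim_inl, Sum.elim_inr, Function.comp_apply, LinearMap.inl_apply, Submodule.coe_zero, add_zero, hbH, h1]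
  · intro i j
    simp only [Module.Basis.map_apply, Submodule.coe_prodEquivOfIsCompl', Module.Basis.prod_apply,
      Sum.elim_inl, Function.comp_apply, LinearMap.inl_apply, Submodule.coe_zero, add_zero, hbH, h2]
  · intro i j
    simp only [Module.Basis.map_apply, Submodule.coe_prodEquivOfIsCompl', Module.Basis.prod_apply,
      Sum.elim_inl, Sum.elim_inr, Function.comp_apply, LinearMap.inl_apply, Submodule.coe_zero, add_zero, hbH, h3]
  · intro j v
    simp only [Module.Basis.map_apply, Submodule.coe_prodEquivOfIsCompl', Module.Basis.prod_apply,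
      Sum.elim_inr, Function.comp_apply, LinearMap.inr_apply, Submodule.coe_zero, zero_add]
    have hv : v ∈ H ⊔ B.orthogonal H := by rw [hcompl.sup_eq_top]; trivial
    obtain ⟨a, ha, b, hb, rfl⟩ := Submodule.mem_sup.1 hv
    rw [map_add, hK0 _ (bK j).2 b hb, add_zero, ← hA.neg_eq]
    have : B a (bK j : V) = 0 := (bK j).2 a ha
    rw [this, neg_zero]

end Cfsg.Agent.S0752
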