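import Cfsg.Statements.S0785
import Cfsg.Agent.S0784

set_option autoImplicit false
open Cfsg

namespace Cfsg.Agent.S0785

open Matrix in
theorem mem_isometryGroup_iff {F : Type*} [Field F] {n : ℕ} (Q : (Fin n → F) → F)
    (g : Matrix.GeneralLinearGroup (Fin n) F) :
    g ∈ Cfsg.isometryGroup F Q ↔ ∀ u, Q ((g : Matrix (Fin n) (Fin n) F) *ᵥ u) = Q u := by
  constructor
  · intro h u
    exact h u u
  · intro h u _
    exact h u

open Matrix in
theorem det_sq_eq_one {F : Type*} [Field F] {n : ℕ} (Q : QuadraticForm F (Fin n → F))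
    (hQ : (QuadraticMap.polarBilin Q).Nondegenerate) (g : Matrix (Fin n) (Fin n) F)
    (hg : ∀ u, Q (g *ᵥ u) = Q u) : g.det * g.det = 1 := by
  have hcomp : LinearMap.BilinForm.comp (QuadraticMap.polarBilin Q) (Matrix.toLin' g) (Matrix.toLin' g) = QuadraticMap.polarBilin Q := by
    apply LinearMap.ext
    intro x
    apply LinearMap.ext
    intro y
    rw [LinearMap.BilinForm.comp_apply, QuadraticMap.polarBilin_apply_apply, QuadraticMap.polarBilin_apply_apply,
      Matrix.toLin'_apply, Matrix.toLin'_apply, QuadraticMap.polar, QuadraticMap.polar,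
      ← Matrix.mulVec_add, hg, hg, hg]
  have hM : gᵀ * LinearMap.BilinForm.toMatrix' (QuadraticMap.polarBilin Q) * g = LinearMap.BilinForm.toMatrix' (QuadraticMap.polarBilin Q) := by
    rw [LinearMap.BilinForm.mul_toMatrix'_mul, Matrix.transpose_transpose, hcomp]
  have hdet : (LinearMap.BilinForm.toMatrix' (QuadraticMap.polarBilin Q)).det ≠ 0 := by
    rw [← Matrix.nondegenerate_iff_det_ne_zero]
    exact LinearMap.BilinForm.Nondegenerate.toMatrix' hQ
  have h := congrArg Matrix.det hM
  rw [Matrix.det_mul, Matrix.det_mul, Matrix.det_transpose] at h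
  have h2 : (g.det * g.det - 1) * (LinearMap.BilinForm.toMatrix' (QuadraticMap.polarBilin Q)).det = 0 := by
    linear_combination h
  rcases mul_eq_zero.mp h2 with h3 | h3
  · linear_combination h3
  · exact absurd h3 hdet

open Matrix in
/-- det(I) = {±1}: for a quadratic form on F^n whose polar form is non-degenerate, every element of the isometry group has determinant 1 or −1, and as soon as Q takes a non-zero value some isometry has determinant −1. -/
theorem result {F : Type*} [Field F] {n : ℕ} (Q : QuadraticForm F (Fin n → F)) (hQ : (QuadraticMap.polarBilin Q).Nondegenerate) : (∀ g : ↥(Cfsg.isometryGroup F ⇑Q), ((g : Matrix.GeneralLinearGroup (Fin n) F) : Matrix (Fin n) (Fin n) F).det = 1 ∨ ((g : Matrix.GeneralLinearGroup (Fin n) F) : Matrix (Fin n) (Fin n) F).det = -1) ∧ ((∃ v, Q v ≠ 0) → ∃ g : ↥(Cfsg.isometryGroup F ⇑Q), ((g : Matrix.GeneralLinearGroup (Fin n) F) : Matrix (Fin n) (Fin n) F).det = -1) := by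
  refine ⟨?_, ?_⟩
  · intro g
    have hg := (mem_isometryGroup_iff ⇑Q g.1).mp g.2
    have h := det_sq_eq_one Q hQ _ hg
    have h2 : (((g : Matrix.GeneralLinearGroup (Fin n) F) : Matrix (Fin n) (Fin n) F).det - 1) *
        (((g : Matrix.GeneralLinearGroup (Fin n) F) : Matrix (Fin n) (Fin n) F).det + 1) = 0 := by
      linear_combination h
    rcases mul_eq_zero.mp h2 with h3 | h3
    · left; linear_combination h3
    · right; linear_combination h3
  · rintro ⟨v, hv⟩
    obtain ⟨h1, -, -, h4⟩ := Cfsg.Agent.S0784.result Q v hv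
    have hdet : (Cfsg.reflectionMatrix ⇑Q v).det ≠ 0 := by
      rw [h4]; simp
    refine ⟨⟨Matrix.GeneralLinearGroup.mkOfDetNeZero (Cfsg.reflectionMatrix ⇑Q v) hdet, ?_⟩, ?_⟩
    · rw [mem_isometryGroup_iff]
      intro u
      exact h1 u
    · exact h4

end Cfsg.Agent.S0785
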