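import Mathlib
import Cfsg.Statements.S0832

set_option autoImplicit false
open Cfsg

namespace Cfsg.Agent.S0832

theorem two_max {F V : Type*} [Field F] [AddCommGroup V] [Module F V] [FiniteDimensional F V]
    (Q : V → F) (B : LinearMap.BilinForm F V)
    (hQB : ∀ u v, Q (u + v) = Q u + Q v + B u v)
    (hQs : ∀ (a : F) v, Q (a • v) = a * a * Q v)
    (hB : B.Nondegenerate) (hS : B.IsSymm) (m : ℕ) (hV : Module.finrank F V = 2 * m)
    (W₀ : Submodule F V) (hW₀ : Module.finrank F W₀ = m) (hW₀s : ∀ w ∈ W₀, Q w = 0)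
    (U : Submodule F V) (hU : Module.finrank F U + 1 = m) (hUs : ∀ u ∈ U, Q u = 0) :
    Nat.card {W : Submodule F V // Module.finrank F W = m ∧ (∀ w ∈ W, Q w = 0) ∧ U ≤ W} = 2 := by
  classical
  have hR : B.IsRefl := hS.isRefl
  have hts : ∀ X : Submodule F V, (∀ x ∈ X, Q x = 0) → X ≤ B.orthogonal X := by
    intro X hX y hy x hx
    have := hQB x y
    rw [hX _ (X.add_mem hx hy), hX x hx, hX y hy] at this
    show B x y = 0
    rw [this]; ring
  obtain ⟨P, hPdef⟩ : ∃ P, P = B.orthogonal U := ⟨_, rfl⟩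
  have hPmem : ∀ w ∈ P, ∀ u ∈ U, B u w = 0 := by
    intro w hw u hu
    rw [hPdef] at hw
    exact hw u hu
  have hPfin : Module.finrank F P = m + 1 := by
    rw [hPdef, LinearMap.BilinForm.finrank_orthogonal hB, hV]; omega
  have hUP : U ≤ P := hPdef ▸ hts U hUs
  have hPperp : B.orthogonal P = U := by
    rw [hPdef, LinearMap.BilinForm.orthogonal_orthogonal hB hR]
  have hW₀perp : B.orthogonal W₀ = W₀ := by
    symm
    apply Submodule.eq_of_le_of_finrank_eq (hts W₀ hW₀s)
    rw [LinearMap.BilinForm.finrank_orthogonal hB, hV, hW₀]; omega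
  have hsup : B.orthogonal (W₀ ⊔ P) = W₀ ⊓ U := by
    apply le_antisymm
    · intro x hx
      refine ⟨?_, ?_⟩
      · rw [← hW₀perp]; exact fun n hn => hx n (Submodule.mem_sup_left hn)
      · rw [← hPperp]; exact fun n hn => hx n (Submodule.mem_sup_right hn)
    · rintro x ⟨hx1, hx2⟩ n hn
      obtain ⟨a, ha, b, hb, rfl⟩ := Submodule.mem_sup.1 hn
      have hx1' : x ∈ B.orthogonal W₀ := hW₀perp.symm ▸ hx1
      have hx2' : x ∈ B.orthogonal P := hPperp.symm ▸ hx2
      have e1 : B a x = 0 := hx1' a ha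
      have e2 : B b x = 0 := hx2' b hb
      show B (a + b) x = 0
      rw [map_add, LinearMap.add_apply, e1, e2, add_zero]
  have hd1 : Module.finrank F ↥(W₀ ⊓ U) = 2 * m - Module.finrank F ↥(W₀ ⊔ P) := by
    rw [← hsup, LinearMap.BilinForm.finrank_orthogonal hB, hV]
  have hd2 := Submodule.finrank_sup_add_finrank_inf_eq W₀ P
  have hd3 : Module.finrank F ↥(W₀ ⊔ P) ≤ 2 * m := hV ▸ Submodule.finrank_le _
  have hlt : Module.finrank F ↥(W₀ ⊓ U) < Module.finrank F ↥(W₀ ⊓ P) := by omega
  obtain ⟨w₁, hw₁, hw₁n⟩ : ∃ w ∈ W₀ ⊓ P, w ∉ W₀ ⊓ U := by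
    by_contra hcon
    push Not at hcon
    have : W₀ ⊓ P ≤ W₀ ⊓ U := hcon
    exact absurd (Submodule.finrank_mono this) (not_le.2 hlt)
  have hw₁U : w₁ ∉ U := fun h => hw₁n ⟨hw₁.1, h⟩
  have hQw₁ : Q w₁ = 0 := hW₀s _ hw₁.1
  have hw₁P : w₁ ∈ P := hw₁.2
  obtain ⟨x', hx'P, hx'⟩ : ∃ x ∈ P, B x w₁ ≠ 0 := by
    by_contra hcon
    push Not at hcon
    apply hw₁U
    rw [← hPperp]
    exact hcon
  obtain ⟨x, hxP, hx⟩ : ∃ x ∈ P, B x w₁ = 1 := by
    refine ⟨(B x' w₁)⁻¹ • x', P.smul_mem _ hx'P, ?_⟩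
    rw [map_smul, LinearMap.smul_apply, smul_eq_mul, inv_mul_cancel₀ hx']
  have hBw₁ : B w₁ w₁ = 0 := hts W₀ hW₀s hw₁.1 w₁ hw₁.1
  obtain ⟨w₂, hw₂P, hBw₂, hQw₂⟩ : ∃ w ∈ P, B w w₁ = 1 ∧ Q w = 0 := by
    refine ⟨x + (-(Q x)) • w₁, P.add_mem hxP (P.smul_mem _ hw₁P), ?_, ?_⟩
    · rw [map_add, LinearMap.add_apply, map_smul, LinearMap.smul_apply, hx, hBw₁, smul_zero,
        add_zero]
    · rw [hQB, hQs, hQw₁, map_smul, smul_eq_mul, hx]; ring
  have hW : ∀ w ∈ P, Q w = 0 → w ∉ U →
      Module.finrank F ↥(U ⊔ Submodule.span F {w}) = m ∧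
        (∀ y ∈ U ⊔ Submodule.span F {w}, Q y = 0) := by
    intro w hwP hQw hwU
    have hs : ∀ y ∈ U ⊔ Submodule.span F {w}, Q y = 0 := by
      intro y hy
      obtain ⟨u, hu, z, hz, rfl⟩ := Submodule.mem_sup.1 hy
      obtain ⟨a, rfl⟩ := Submodule.mem_span_singleton.1 hz
      rw [hQB, hQs, hUs u hu, hQw, map_smul, smul_eq_mul, hPmem w hwP u hu]; ring
    refine ⟨?_, hs⟩
    have h1 : U < U ⊔ Submodule.span F {w} := by
      refine lt_of_le_of_ne le_sup_left (fun h => hwU ?_)
      rw [h]; exact Submodule.mem_sup_right (Submodule.mem_span_singleton_self w)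
    have h2 := Submodule.finrank_lt_finrank_of_lt h1
    have h3 := hts _ hs
    have h4 := Submodule.finrank_mono h3
    rw [LinearMap.BilinForm.finrank_orthogonal hB, hV] at h4
    omega
  have hw₂U : w₂ ∉ U := by
    intro h
    have : B w₂ w₁ = 0 := hPmem w₁ hw₁P w₂ h
    rw [hBw₂] at this; exact one_ne_zero this
  obtain ⟨hf1, hs1⟩ := hW w₁ hw₁P hQw₁ hw₁U
  obtain ⟨hf2, hs2⟩ := hW w₂ hw₂P hQw₂ hw₂U
  have hw₁mem : w₁ ∈ U ⊔ Submodule.span F {w₁} :=
    Submodule.mem_sup_right (Submodule.mem_span_singleton_self w₁)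
  have hw₂not : w₂ ∉ U ⊔ Submodule.span F {w₁} := by
    intro h2
    have : B w₂ w₁ = 0 := hts _ hs1 hw₁mem w₂ h2
    rw [hBw₂] at this; exact one_ne_zero this
  have hne : U ⊔ Submodule.span F {w₁} ≠ U ⊔ Submodule.span F {w₂} := by
    intro h
    apply hw₂not
    rw [h]; exact Submodule.mem_sup_right (Submodule.mem_span_singleton_self w₂)
  have hPeq : (U ⊔ Submodule.span F {w₁}) ⊔ Submodule.span F {w₂} = P := by
    apply Submodule.eq_of_le_of_finrank_le
    · exact sup_le (sup_le hUP ((Submodule.span_singleton_le_iff_mem _ _).2 hw₁P))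
        ((Submodule.span_singleton_le_iff_mem _ _).2 hw₂P)
    · have h1 : U ⊔ Submodule.span F {w₁} <
          (U ⊔ Submodule.span F {w₁}) ⊔ Submodule.span F {w₂} := by
        refine lt_of_le_of_ne le_sup_left (fun h => hw₂not ?_)
        rw [h]; exact Submodule.mem_sup_right (Submodule.mem_span_singleton_self w₂)
      have h2 := Submodule.finrank_lt_finrank_of_lt h1
      omega
  have hall : ∀ W : Submodule F V, Module.finrank F W = m → (∀ w ∈ W, Q w = 0) → U ≤ W →
      W = U ⊔ Submodule.span F {w₁} ∨ W = U ⊔ Submodule.span F {w₂} := by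
    intro W hWf hWs hUW
    have hWP : W ≤ P := by
      rw [hPdef]; exact (hts W hWs).trans (LinearMap.BilinForm.orthogonal_le hUW)
    obtain ⟨w, hwW, hwU⟩ : ∃ w ∈ W, w ∉ U := by
      by_contra hcon
      push Not at hcon
      have : W ≤ U := hcon
      have := Submodule.finrank_mono this
      omega
    have hwP := hWP hwW
    rw [← hPeq] at hwP
    obtain ⟨y, hy, z₂, hz₂, hyz⟩ := Submodule.mem_sup.1 hwP
    obtain ⟨u, hu, z₁, hz₁, rfl⟩ := Submodule.mem_sup.1 hy
    obtain ⟨a, rfl⟩ := Submodule.mem_span_singleton.1 hz₁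
    obtain ⟨b, rfl⟩ := Submodule.mem_span_singleton.1 hz₂
    have hQ : a * b = 0 := by
      have h0 := hWs w hwW
      have e : B (u + a • w₁) (b • w₂) = a * b := by
        simp only [map_add, map_smul, LinearMap.add_apply, LinearMap.smul_apply, smul_eq_mul,
          hPmem w₂ hw₂P u hu, hS.eq w₁ w₂, hBw₂]
        ring
      rw [← hyz, hQB, hQs, hQw₂, hs1 _ hy, e] at h0
      simpa using h0
    rcases mul_eq_zero.1 hQ with ha | hb
    · right
      subst ha
      have hb : b ≠ 0 := by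
        rintro rfl
        apply hwU
        rw [← hyz]
        simpa using hu
      have hw₂W : w₂ ∈ W := by
        have : w₂ = b⁻¹ • (w - u) := by
          rw [← hyz]
          simp only [zero_smul, add_zero, add_sub_cancel_left]
          rw [smul_smul, inv_mul_cancel₀ hb, one_smul]
        rw [this]
        exact W.smul_mem _ (W.sub_mem hwW (hUW hu))
      symm
      apply Submodule.eq_of_le_of_finrank_eq
      · exact sup_le hUW ((Submodule.span_singleton_le_iff_mem _ _).2 hw₂W)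
      · rw [hf2, hWf]
    · left
      subst hb
      have ha : a ≠ 0 := by
        rintro rfl
        apply hwU
        rw [← hyz]
        simpa using hu
      have hw₁W : w₁ ∈ W := by
        have : w₁ = a⁻¹ • (w - u) := by
          rw [← hyz]
          simp only [zero_smul, add_zero, add_sub_cancel_left]
          rw [smul_smul, inv_mul_cancel₀ ha, one_smul]
        rw [this]
        exact W.smul_mem _ (W.sub_mem hwW (hUW hu))
      symm
      apply Submodule.eq_of_le_of_finrank_eq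
      · exact sup_le hUW ((Submodule.span_singleton_le_iff_mem _ _).2 hw₁W)
      · rw [hf1, hWf]
  rw [Nat.card_eq_two_iff]
  refine ⟨⟨U ⊔ Submodule.span F {w₁}, hf1, hs1, le_sup_left⟩,
    ⟨U ⊔ Submodule.span F {w₂}, hf2, hs2, le_sup_left⟩, ?_, ?_⟩
  · intro h; exact hne (congrArg Subtype.val h)
  · ext ⟨W, hW1, hW2, hW3⟩
    simp only [Set.mem_insert_iff, Set.mem_singleton_iff, Set.mem_univ, iff_true,
      Subtype.mk.injEq]
    exact hall W hW1 hW2 hW3

variable {F : Type*} [Field F]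

/-- The polar form of `quadFormPlus`. -/
noncomputable def Bp (m : ℕ) (F : Type*) [Field F] : LinearMap.BilinForm F (Fin m ⊕ Fin m → F) :=
  LinearMap.mk₂ F
    (fun u v => ∑ i : Fin m, (u (Sum.inl i) * v (Sum.inr i) + u (Sum.inr i) * v (Sum.inl i)))
    (fun u u' v => by
      rw [← Finset.sum_add_distrib]
      exact Finset.sum_congr rfl (fun i _ => by simp only [Pi.add_apply]; ring))
    (fun c u v => by
      rw [smul_eq_mul, Finset.mul_sum]
      exact Finset.sum_congr rfl (fun i _ => by simp only [Pi.smul_apply, smul_eq_mul]; ring))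
    (fun u v v' => by
      rw [← Finset.sum_add_distrib]
      exact Finset.sum_congr rfl (fun i _ => by simp only [Pi.add_apply]; ring))
    (fun c u v => by
      rw [smul_eq_mul, Finset.mul_sum]
      exact Finset.sum_congr rfl (fun i _ => by simp only [Pi.smul_apply, smul_eq_mul]; ring))

theorem Bp_apply (m : ℕ) (u v : Fin m ⊕ Fin m → F) :
    Bp m F u v =
      ∑ i : Fin m, (u (Sum.inl i) * v (Sum.inr i) + u (Sum.inr i) * v (Sum.inl i)) := rfl

theorem Bp_symm (m : ℕ) : (Bp m F).IsSymm := by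
  refine ⟨fun u v => ?_⟩
  rw [Bp_apply, Bp_apply]
  exact Finset.sum_congr rfl (fun i _ => by ring)

theorem Bp_nondeg (m : ℕ) : (Bp m F).Nondegenerate := by
  classical
  have key : ∀ u : Fin m ⊕ Fin m → F, (∀ v, Bp m F u v = 0) → u = 0 := by
    intro u hu
    funext j
    rcases j with j | j
    · have := hu (Pi.single (Sum.inr j) 1)
      rw [Bp_apply] at this
      simpa [Pi.single_apply] using this
    · have := hu (Pi.single (Sum.inl j) 1)
      rw [Bp_apply] at this
      simpa [Pi.single_apply] using this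
  constructor
  · intro u hu
    exact key u hu
  · intro v hv
    exact key v (fun a => by rw [(Bp_symm m).eq]; exact hv a)

/-- For the form Σ x_i y_i on F^(2m) over a finite field, m ≥ 1: an (m−1)-dimensional subspace on which the form vanishes is contained in exactly two m-dimensional subspaces on which it vanishes. -/
theorem result {F : Type*} [Field F] [Finite F] (m : ℕ) (hm : 1 ≤ m) (U : Submodule F (Fin m ⊕ Fin m → F)) (hU : Module.finrank F U + 1 = m ∧ ∀ u ∈ U, Cfsg.quadFormPlus m F u = 0) : Nat.card {W : Submodule F (Fin m ⊕ Fin m → F) // Module.finrank F W = m ∧ (∀ w ∈ W, Cfsg.quadFormPlus m F w = 0) ∧ U ≤ W} = 2 := by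
  classical
  have hV : Module.finrank F (Fin m ⊕ Fin m → F) = 2 * m := by
    rw [Module.finrank_fintype_fun_eq_card, Fintype.card_sum, Fintype.card_fin]; ring
  obtain ⟨π, hπ⟩ : ∃ π : (Fin m ⊕ Fin m → F) →ₗ[F] (Fin m → F), π = LinearMap.funLeft F F Sum.inr :=
    ⟨_, rfl⟩
  have hπa : ∀ v i, π v i = v (Sum.inr i) := by
    intro v i; rw [hπ]; rfl
  have hsurj : LinearMap.range π = ⊤ := by
    rw [LinearMap.range_eq_top]
    intro x
    refine ⟨Sum.elim 0 x, ?_⟩
    funext i
    rw [hπa]; rfl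
  have hW₀ : Module.finrank F (LinearMap.ker π) = m := by
    have := LinearMap.finrank_range_add_finrank_ker π
    rw [hsurj, finrank_top, Module.finrank_fintype_fun_eq_card, Fintype.card_fin, hV] at this
    omega
  refine two_max (Cfsg.quadFormPlus m F) (Bp m F) ?_ ?_ (Bp_nondeg m) (Bp_symm m) m hV
    (LinearMap.ker π) hW₀ ?_ U hU.1 hU.2
  · intro u v
    rw [Bp_apply]
    simp only [Cfsg.quadFormPlus, ← Finset.sum_add_distrib]
    exact Finset.sum_congr rfl (fun i _ => by simp only [Pi.add_apply]; ring)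
  · intro a v
    simp only [Cfsg.quadFormPlus, Finset.mul_sum]
    exact Finset.sum_congr rfl (fun i _ => by simp only [Pi.smul_apply, smul_eq_mul]; ring)
  · intro w hw
    rw [LinearMap.mem_ker] at hw
    simp only [Cfsg.quadFormPlus]
    apply Finset.sum_eq_zero
    intro i _
    have := congrFun hw i
    rw [hπa] at this
    rw [this]; simp

end Cfsg.Agent.S0832
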