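import Mathlib
import Cfsg.Statements.S0831
import Cfsg.Agent.S0832

set_option autoImplicit false
open Cfsg

namespace Cfsg.Agent.S0831

open Cfsg.Agent.S0832

/-- The abstract setting: a quadratic function with nondegenerate symmetric polar form on a
space of dimension `2m`. -/
structure Setup {F V : Type*} [Field F] [AddCommGroup V] [Module F V]
    (Q : V → F) (B : LinearMap.BilinForm F V) (m : ℕ) : Prop where
  hQB : ∀ u v, Q (u + v) = Q u + Q v + B u v
  hQs : ∀ (a : F) v, Q (a • v) = a * a * Q v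
  hB : B.Nondegenerate
  hS : B.IsSymm
  hV : Module.finrank F V = 2 * m

variable {F V : Type*} [Field F] [AddCommGroup V] [Module F V] [FiniteDimensional F V]
  {Q : V → F} {B : LinearMap.BilinForm F V} {m : ℕ}

theorem ts_B (h : Setup Q B m) {X : Submodule F V} (hX : ∀ x ∈ X, Q x = 0) {x y : V}
    (hx : x ∈ X) (hy : y ∈ X) : B x y = 0 := by
  have := h.hQB x y
  rw [hX _ (X.add_mem hx hy), hX x hx, hX y hy] at this
  rw [this]; ring

theorem ts_le (h : Setup Q B m) {X : Submodule F V} (hX : ∀ x ∈ X, Q x = 0) :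
    X ≤ B.orthogonal X :=
  fun _ hy _ hx => ts_B h hX hx hy

theorem ts_finrank_le (h : Setup Q B m) {X : Submodule F V} (hX : ∀ x ∈ X, Q x = 0) :
    Module.finrank F X ≤ m := by
  have h4 := Submodule.finrank_mono (ts_le h hX)
  rw [LinearMap.BilinForm.finrank_orthogonal h.hB, h.hV] at h4
  omega

theorem mts_perp (h : Setup Q B m) {X : Submodule F V} (hXf : Module.finrank F X = m)
    (hX : ∀ x ∈ X, Q x = 0) : B.orthogonal X = X := by
  symm
  apply Submodule.eq_of_le_of_finrank_eq (ts_le h hX)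
  rw [LinearMap.BilinForm.finrank_orthogonal h.hB, h.hV, hXf]; omega

theorem dim_formula (h : Setup Q B m) {X : Submodule F V} (hXf : Module.finrank F X = m)
    (hX : ∀ x ∈ X, Q x = 0) (H : Submodule F V) :
    Module.finrank F ↥(X ⊓ B.orthogonal H) + Module.finrank F H =
      m + Module.finrank F ↥(X ⊓ H) := by
  have hR : B.IsRefl := h.hS.isRefl
  have hsup : B.orthogonal (X ⊔ B.orthogonal H) = X ⊓ H := by
    apply le_antisymm
    · intro x hx
      refine ⟨?_, ?_⟩
      · rw [← mts_perp h hXf hX]; exact fun n hn => hx n (Submodule.mem_sup_left hn)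
      · rw [← LinearMap.BilinForm.orthogonal_orthogonal h.hB hR H]
        exact fun n hn => hx n (Submodule.mem_sup_right hn)
    · rintro x ⟨hx1, hx2⟩ n hn
      obtain ⟨a, ha, b, hb, rfl⟩ := Submodule.mem_sup.1 hn
      have e1 : B a x = 0 := ts_B h hX ha hx1
      have e2 : B b x = 0 := hR _ _ (hb x hx2)
      show B (a + b) x = 0
      rw [map_add, LinearMap.add_apply, e1, e2, add_zero]
  have hd1 : Module.finrank F ↥(X ⊓ H) = 2 * m - Module.finrank F ↥(X ⊔ B.orthogonal H) := by
    rw [← hsup, LinearMap.BilinForm.finrank_orthogonal h.hB, h.hV]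
  have hd2 := Submodule.finrank_sup_add_finrank_inf_eq X (B.orthogonal H)
  have hd3 : Module.finrank F ↥(X ⊔ B.orthogonal H) ≤ 2 * m := h.hV ▸ Submodule.finrank_le _
  have hd4 := LinearMap.BilinForm.finrank_orthogonal h.hB H
  have hd5 : Module.finrank F H ≤ 2 * m := h.hV ▸ Submodule.finrank_le _
  rw [h.hV] at hd4
  omega

theorem adj (h : Setup Q B m) {U W X : Submodule F V}
    (hUf : Module.finrank F U = m) (hU : ∀ x ∈ U, Q x = 0)
    (hWf : Module.finrank F W = m) (hW : ∀ x ∈ W, Q x = 0)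
    (hXf : Module.finrank F X = m) (hX : ∀ x ∈ X, Q x = 0)
    (hUW : Module.finrank F ↥(U ⊓ W) + 1 = m) :
    Module.finrank F ↥(U ⊓ X) = Module.finrank F ↥(W ⊓ X) + 1 ∨
      Module.finrank F ↥(W ⊓ X) = Module.finrank F ↥(U ⊓ X) + 1 := by
  classical
  have hR : B.IsRefl := h.hS.isRefl
  obtain ⟨H, hH⟩ : ∃ H, H = U ⊓ W := ⟨_, rfl⟩
  rw [← hH] at hUW
  have hHU : H ≤ U := hH ▸ inf_le_left
  have hHW : H ≤ W := hH ▸ inf_le_right
  have hHs : ∀ x ∈ H, Q x = 0 := fun x hx => hU x (hHU hx)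
  have hne : U ≠ W := by
    intro hh
    rw [hH, hh, inf_idem, hWf] at hUW
    omega
  obtain ⟨P, hP⟩ : ∃ P, P = B.orthogonal H := ⟨_, rfl⟩
  have hUP : U ≤ P := by
    rw [hP]; exact (ts_le h hU).trans (LinearMap.BilinForm.orthogonal_le hHU)
  have hWP : W ≤ P := by
    rw [hP]; exact (ts_le h hW).trans (LinearMap.BilinForm.orthogonal_le hHW)
  have hHP : H ≤ P := hHU.trans hUP
  have hdim := dim_formula h hXf hX H
  rw [← hP] at hdim
  obtain ⟨Y, hY⟩ : ∃ Y, Y = (X ⊓ P) ⊔ H := ⟨_, rfl⟩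
  have hYs : ∀ y ∈ Y, Q y = 0 := by
    intro y hy
    rw [hY] at hy
    obtain ⟨a, ha, b, hb, rfl⟩ := Submodule.mem_sup.1 hy
    have haP : a ∈ B.orthogonal H := hP ▸ ha.2
    have e : B a b = 0 := hR _ _ (haP b hb)
    rw [h.hQB, hX a ha.1, hHs b hb, e]; ring
  have hYf : Module.finrank F Y = m := by
    have e := Submodule.finrank_sup_add_finrank_inf_eq (X ⊓ P) H
    have e2 : (X ⊓ P) ⊓ H = X ⊓ H := by rw [inf_assoc, inf_eq_right.2 hHP]
    rw [e2, ← hY] at e
    omega
  have hHY : H ≤ Y := hY ▸ le_sup_right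
  have hcard := Cfsg.Agent.S0832.two_max Q B h.hQB h.hQs h.hB h.hS m h.hV U hUf hU H hUW hHs
  have hYUW : Y = U ∨ Y = W := by
    rw [Nat.card_eq_two_iff' (⟨U, hUf, hU, hHU⟩ :
      {W : Submodule F V // Module.finrank F W = m ∧ (∀ w ∈ W, Q w = 0) ∧ H ≤ W})] at hcard
    obtain ⟨z, hz1, hz2⟩ := hcard
    by_cases hYU : Y = U
    · exact Or.inl hYU
    · right
      have e1 := hz2 ⟨Y, hYf, hYs, hHY⟩ (fun hh => hYU (congrArg Subtype.val hh))
      have e2 := hz2 ⟨W, hWf, hW, hHW⟩ (fun hh => hne (congrArg Subtype.val hh).symm)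
      have := e1.trans e2.symm
      exact congrArg Subtype.val this
  have key : ∀ U' W' : Submodule F V, U' ≤ P → W' ≤ P → H ≤ W' → U' ⊓ W' = H → Y = U' →
      Module.finrank F ↥(U' ⊓ X) = Module.finrank F ↥(W' ⊓ X) + 1 := by
    intro U' W' hU'P hW'P hHW' hUW' hYU'
    have e1 : U' ⊓ X = X ⊓ P := by
      apply le_antisymm
      · exact le_inf inf_le_right (inf_le_left.trans hU'P)
      · refine le_inf ?_ inf_le_left
        rw [← hYU', hY]; exact le_sup_left
    have e2 : W' ⊓ X = X ⊓ H := by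
      apply le_antisymm
      · refine le_inf inf_le_right ?_
        rw [← hUW']
        refine le_inf ?_ inf_le_left
        have : W' ⊓ X ≤ X ⊓ P := le_inf inf_le_right (inf_le_left.trans hW'P)
        rw [← e1] at this
        exact this.trans inf_le_left
      · exact le_inf (inf_le_right.trans hHW') inf_le_left
    rw [e1, e2]; omega
  rcases hYUW with hYU | hYW
  · left; exact key U W hUP hWP hHW hH.symm hYU
  · right; exact key W U hWP hUP hHU (by rw [inf_comm]; exact hH.symm) hYW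

theorem step (h : Setup Q B m) {U W : Submodule F V}
    (hUf : Module.finrank F U = m) (hU : ∀ x ∈ U, Q x = 0)
    (hWf : Module.finrank F W = m) (hW : ∀ x ∈ W, Q x = 0) (hne : U ≠ W) :
    ∃ U' : Submodule F V, Module.finrank F U' = m ∧ (∀ x ∈ U', Q x = 0) ∧
      Module.finrank F ↥(U ⊓ U') + 1 = m ∧
      Module.finrank F ↥(U ⊓ W) < Module.finrank F ↥(U' ⊓ W) := by
  classical
  have hR : B.IsRefl := h.hS.isRefl
  obtain ⟨w, hwW, hwU⟩ : ∃ w ∈ W, w ∉ U := by
    by_contra hcon
    push Not at hcon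
    have hle : W ≤ U := hcon
    exact hne (Submodule.eq_of_le_of_finrank_eq hle (by rw [hWf, hUf])).symm
  have hw0 : w ≠ 0 := fun h0 => hwU (h0 ▸ U.zero_mem)
  obtain ⟨P, hP⟩ : ∃ P, P = B.orthogonal (Submodule.span F {w}) := ⟨_, rfl⟩
  have hPmem : ∀ x, x ∈ P ↔ B w x = 0 := by
    intro x
    rw [hP]
    constructor
    · intro hx; exact hx w (Submodule.mem_span_singleton_self w)
    · intro hx n hn
      obtain ⟨a, rfl⟩ := Submodule.mem_span_singleton.1 hn
      show B (a • w) x = 0
      rw [map_smul, LinearMap.smul_apply, hx, smul_zero]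
  have hPf : Module.finrank F P = 2 * m - 1 := by
    rw [hP, LinearMap.BilinForm.finrank_orthogonal h.hB, h.hV, finrank_span_singleton hw0]
  obtain ⟨H, hH⟩ : ∃ H, H = U ⊓ P := ⟨_, rfl⟩
  have hHU : H ≤ U := hH ▸ inf_le_left
  have hHP : H ≤ P := hH ▸ inf_le_right
  have hHne : H ≠ U := by
    intro hh
    apply hwU
    rw [← mts_perp h hUf hU]
    intro u hu
    have : u ∈ P := hHP (hh ▸ hu)
    exact hR _ _ ((hPmem u).1 this)
  have hHf : Module.finrank F H + 1 = m := by
    have e := Submodule.finrank_sup_add_finrank_inf_eq U P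
    have e3 : Module.finrank F ↥(U ⊔ P) ≤ 2 * m := h.hV ▸ Submodule.finrank_le _
    have e4 := Submodule.finrank_lt_finrank_of_lt (lt_of_le_of_ne hHU hHne)
    rw [← hH] at e
    omega
  have hHs : ∀ x ∈ H, Q x = 0 := fun x hx => hU x (hHU hx)
  obtain ⟨U', hU'⟩ : ∃ U', U' = H ⊔ Submodule.span F {w} := ⟨_, rfl⟩
  have hwU' : w ∈ U' := hU' ▸ Submodule.mem_sup_right (Submodule.mem_span_singleton_self w)
  have hHU' : H ≤ U' := hU' ▸ le_sup_left
  have hU's : ∀ x ∈ U', Q x = 0 := by
    intro y hy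
    rw [hU'] at hy
    obtain ⟨u, hu, z, hz, rfl⟩ := Submodule.mem_sup.1 hy
    obtain ⟨a, rfl⟩ := Submodule.mem_span_singleton.1 hz
    have e : B u w = 0 := hR _ _ ((hPmem u).1 (hHP hu))
    rw [h.hQB, h.hQs, hHs u hu, hW w hwW, map_smul, smul_eq_mul, e]; ring
  have hU'f : Module.finrank F U' = m := by
    have h1 : H < U' := by
      refine lt_of_le_of_ne hHU' (fun hh => hwU ?_)
      have : w ∈ H := hh ▸ hwU'
      exact hHU this
    have h2 := Submodule.finrank_lt_finrank_of_lt h1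
    have h3 := ts_finrank_le h hU's
    omega
  refine ⟨U', hU'f, hU's, ?_, ?_⟩
  · have h1 : H ≤ U ⊓ U' := le_inf hHU hHU'
    have h2 : U ⊓ U' ≠ U := by
      intro hh
      have hle : U ≤ U' := inf_eq_left.1 hh
      have := Submodule.eq_of_le_of_finrank_eq hle (by rw [hUf, hU'f])
      exact hwU (this ▸ hwU')
    have h3 := Submodule.finrank_mono h1
    have h4 := Submodule.finrank_lt_finrank_of_lt (lt_of_le_of_ne inf_le_left h2)
    omega
  · apply Submodule.finrank_lt_finrank_of_lt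
    refine lt_of_le_of_ne ?_ ?_
    · intro x hx
      refine ⟨hHU' ?_, hx.2⟩
      rw [hH]
      exact ⟨hx.1, (hPmem x).2 (ts_B h hW hwW hx.2)⟩
    · intro hh
      have : w ∈ U ⊓ W := hh ▸ (⟨hwU', hwW⟩ : w ∈ U' ⊓ W)
      exact hwU this.1

theorem parity (h : Setup Q B m) : ∀ (k : ℕ) (U W : Submodule F V),
    Module.finrank F U = m → (∀ x ∈ U, Q x = 0) → Module.finrank F W = m → (∀ x ∈ W, Q x = 0) →
    m - Module.finrank F ↥(U ⊓ W) = k →
    ∀ X : Submodule F V, Module.finrank F X = m → (∀ x ∈ X, Q x = 0) →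
      Even ((m - Module.finrank F ↥(U ⊓ W)) + (m - Module.finrank F ↥(W ⊓ X)) +
        (m - Module.finrank F ↥(U ⊓ X))) := by
  intro k
  induction k using Nat.strong_induction_on with
  | _ k ih =>
    intro U W hUf hU hWf hW hk X hXf hX
    by_cases hUW : U = W
    · subst hUW
      rw [inf_idem, hUf, Nat.sub_self, zero_add, ← two_mul]
      exact even_two_mul _
    · obtain ⟨U', hU'f, hU's, hadj, hlt⟩ := step h hUf hU hWf hW hUW
      have hle1 : Module.finrank F ↥(U' ⊓ W) ≤ m :=
        (Submodule.finrank_mono inf_le_left).trans_eq hU'f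
      have ih' := ih (m - Module.finrank F ↥(U' ⊓ W)) (by omega) U' W hU'f hU's hWf hW rfl X hXf hX
      have a1 := adj h hUf hU hU'f hU's hXf hX hadj
      have a2 := adj h hUf hU hU'f hU's hWf hW hadj
      have b1 : Module.finrank F ↥(U ⊓ W) ≤ m := (Submodule.finrank_mono inf_le_left).trans_eq hUf
      have b2 : Module.finrank F ↥(W ⊓ X) ≤ m := (Submodule.finrank_mono inf_le_left).trans_eq hWf
      have b3 : Module.finrank F ↥(U ⊓ X) ≤ m := (Submodule.finrank_mono inf_le_left).trans_eq hUf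
      have b4 : Module.finrank F ↥(U' ⊓ X) ≤ m :=
        (Submodule.finrank_mono inf_le_left).trans_eq hU'f
      rw [Nat.even_iff] at ih' ⊢
      omega

/-- The two families of maximal totally singular subspaces of the hyperbolic quadric: for the form Σ x_i y_i on F^(2m), m ≥ 1, and m-dimensional subspaces U, W, X on which it vanishes, the parities of m − dim(U ∩ W), m − dim(W ∩ X) and m − dim(U ∩ X) sum to an even number (so 'even codimension of the intersection' is an equivalence relation), and there exist two such subspaces meeting in codimension 1 (so there are exactly two classes). -/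
theorem result {F : Type*} [Field F] (m : ℕ) (hm : 1 ≤ m) : (∀ U W X : Submodule F (Fin m ⊕ Fin m → F), (Module.finrank F U = m ∧ ∀ w ∈ U, Cfsg.quadFormPlus m F w = 0) → (Module.finrank F W = m ∧ ∀ w ∈ W, Cfsg.quadFormPlus m F w = 0) → (Module.finrank F X = m ∧ ∀ w ∈ X, Cfsg.quadFormPlus m F w = 0) → Even ((m - Module.finrank F ↥(U ⊓ W)) + (m - Module.finrank F ↥(W ⊓ X)) + (m - Module.finrank F ↥(U ⊓ X)))) ∧ ∃ U W : Submodule F (Fin m ⊕ Fin m → F), (Module.finrank F U = m ∧ ∀ w ∈ U, Cfsg.quadFormPlus m F w = 0) ∧ (Module.finrank F W = m ∧ ∀ w ∈ W, Cfsg.quadFormPlus m F w = 0) ∧ Module.finrank F ↥(U ⊓ W) + 1 = m := by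
  classical
  have hV : Module.finrank F (Fin m ⊕ Fin m → F) = 2 * m := by
    rw [Module.finrank_fintype_fun_eq_card, Fintype.card_sum, Fintype.card_fin]; ring
  have hset : Setup (Cfsg.quadFormPlus m F) (Bp m F) m := by
    refine ⟨?_, ?_, Bp_nondeg m, Bp_symm m, hV⟩
    · intro u v
      rw [Bp_apply]
      simp only [Cfsg.quadFormPlus, ← Finset.sum_add_distrib]
      exact Finset.sum_congr rfl (fun i _ => by simp only [Pi.add_apply]; ring)
    · intro a v
      simp only [Cfsg.quadFormPlus, Finset.mul_sum]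
      exact Finset.sum_congr rfl (fun i _ => by simp only [Pi.smul_apply, smul_eq_mul]; ring)
  refine ⟨?_, ?_⟩
  · intro U W X hU hW hX
    exact parity hset _ U W hU.1 hU.2 hW.1 hW.2 rfl X hX.1 hX.2
  · obtain ⟨π, hπ⟩ : ∃ π : (Fin m ⊕ Fin m → F) →ₗ[F] (Fin m → F),
        π = LinearMap.funLeft F F Sum.inr := ⟨_, rfl⟩
    have hπa : ∀ v i, π v i = v (Sum.inr i) := by
      intro v i; rw [hπ]; rfl
    have hsurj : LinearMap.range π = ⊤ := by
      rw [LinearMap.range_eq_top]
      intro x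
      refine ⟨Sum.elim 0 x, ?_⟩
      funext i
      rw [hπa]; rfl
    have hW₀ : Module.finrank F (LinearMap.ker π) = m := by
      have := LinearMap.finrank_range_add_finrank_ker π
      rw [hsurj, finrank_top, Module.finrank_fintype_fun_eq_card, Fintype.card_fin, hV] at this
      omega
    have hW₀s : ∀ w ∈ LinearMap.ker π, Cfsg.quadFormPlus m F w = 0 := by
      intro w hw
      rw [LinearMap.mem_ker] at hw
      simp only [Cfsg.quadFormPlus]
      apply Finset.sum_eq_zero
      intro i _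
      have := congrFun hw i
      rw [hπa] at this
      rw [this]; simp
    obtain ⟨ρ, hρ⟩ : ∃ ρ : (Fin m ⊕ Fin m → F) →ₗ[F] (Fin m → F),
        ρ = LinearMap.funLeft F F Sum.inl := ⟨_, rfl⟩
    have hρa : ∀ v i, ρ v i = v (Sum.inl i) := by
      intro v i; rw [hρ]; rfl
    have hsurj' : LinearMap.range ρ = ⊤ := by
      rw [LinearMap.range_eq_top]
      intro x
      refine ⟨Sum.elim x 0, ?_⟩
      funext i
      rw [hρa]; rfl
    have hW₁ : Module.finrank F (LinearMap.ker ρ) = m := by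
      have := LinearMap.finrank_range_add_finrank_ker ρ
      rw [hsurj', finrank_top, Module.finrank_fintype_fun_eq_card, Fintype.card_fin, hV] at this
      omega
    have hW₁s : ∀ w ∈ LinearMap.ker ρ, Cfsg.quadFormPlus m F w = 0 := by
      intro w hw
      rw [LinearMap.mem_ker] at hw
      simp only [Cfsg.quadFormPlus]
      apply Finset.sum_eq_zero
      intro i _
      have := congrFun hw i
      rw [hρa] at this
      rw [this]; simp
    have hne : LinearMap.ker π ≠ LinearMap.ker ρ := by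
      intro hh
      have h1 : (Pi.single (Sum.inl ⟨0, hm⟩) 1 : Fin m ⊕ Fin m → F) ∈ LinearMap.ker π := by
        rw [LinearMap.mem_ker]
        funext i
        rw [hπa]; simp
      rw [hh, LinearMap.mem_ker] at h1
      have := congrFun h1 ⟨0, hm⟩
      rw [hρa] at this
      simp at this
    obtain ⟨U', hU'f, hU's, hadj, -⟩ := step hset hW₀ hW₀s hW₁ hW₁s hne
    exact ⟨LinearMap.ker π, U', ⟨hW₀, hW₀s⟩, ⟨hU'f, hU's⟩, hadj⟩

end Cfsg.Agent.S0831
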