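import Cfsg.Statements.S0876
import Cfsg.Agent.Lib.Lead.CharPMod

set_option maxHeartbeats 1600000

namespace Cfsg.Agent.S0876

open Cfsg Cfsg.Agent.Lib.Lead Cfsg.Agent.Lib.Helper2

theorem result {G : Type*} [Group G] [Finite G] (p : ℕ) (M : Ideal Cfsg.AlgInt) (hM : Cfsg.IsPModular p M) (x y a b : G) (ha : Cfsg.IsPPart p x a) (hb : Cfsg.IsPPart p y b) : IsConj (a⁻¹ * x) (b⁻¹ * y) ↔ ∀ χ : Cfsg.IrrCharacter G, Cfsg.MemLocalIdeal M ((χ : G → ℂ) x - (χ : G → ℂ) y) := by
  classical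
  letI := Fintype.ofFinite G
  obtain ⟨hp, hMax, hpM⟩ := hM
  obtain ⟨r, rfl, hcr, ⟨k, hk⟩, hr⟩ := ha
  obtain ⟨s, rfl, hcs, ⟨l, hl⟩, hs⟩ := hb
  have e1 : a⁻¹ * (a * r) = r := by group
  have e2 : b⁻¹ * (b * s) = s := by group
  rw [e1, e2]
  have hak : a ^ (p ^ k) = 1 := by rw [← hk]; exact pow_orderOf_eq_one a
  have hbl : b ^ (p ^ l) = 1 := by rw [← hl]; exact pow_orderOf_eq_one b
  have key1 : ∀ χ : IrrCharacter G, ∃ z : AlgInt, z ∈ M ∧
      (z : ℂ) = (χ : G → ℂ) (a * r) - (χ : G → ℂ) r :=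
    fun χ => char_sub_preg_mem hp M hMax hpM (isCharacter_of_isIrrCharacter χ.2) a r hcr k hak
  have key2 : ∀ χ : IrrCharacter G, ∃ z : AlgInt, z ∈ M ∧
      (z : ℂ) = (χ : G → ℂ) (b * s) - (χ : G → ℂ) s :=
    fun χ => char_sub_preg_mem hp M hMax hpM (isCharacter_of_isIrrCharacter χ.2) b s hcs l hbl
  constructor
  · intro hconj χ
    obtain ⟨z1, hz1, e1⟩ := key1 χ
    obtain ⟨z2, hz2, e2⟩ := key2 χ
    have hrs : (χ : G → ℂ) r = (χ : G → ℂ) s := by
      obtain ⟨c, hc⟩ := isConj_iff.mp hconj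
      rw [← hc]; exact (isClassFunction_irr χ r c).symm
    have : (χ : G → ℂ) (a * r) - (χ : G → ℂ) (b * s) = ((z1 - z2 : AlgInt) : ℂ) := by
      push_cast; rw [e1, e2, hrs]; ring
    rw [this]
    exact memLocalIdeal_of_mem M hMax (M.sub_mem hz1 hz2)
  · intro h
    by_contra hconj
    have hN0 : Nat.card G ≠ 0 := Nat.card_pos.ne'
    obtain ⟨m, hm⟩ : ∃ m, m = p ^ (Nat.card G).factorization p := ⟨_, rfl⟩
    obtain ⟨n, hn⟩ : ∃ n, n = Nat.card G / p ^ (Nat.card G).factorization p := ⟨_, rfl⟩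
    have hmn : Nat.card G = m * n := by
      rw [hm, hn]; exact (Nat.ordProj_mul_ordCompl_eq_self (Nat.card G) p).symm
    have hcopp : Nat.Coprime p n := by rw [hn]; exact Nat.coprime_ordCompl hp hN0
    have hcop : Nat.Coprime m n := by rw [hm]; exact Nat.Coprime.pow_left _ hcopp
    obtain ⟨e, hem, hen⟩ := Nat.chineseRemainder hcop 0 1
    have hordn : ∀ t : G, ¬ p ∣ orderOf t → t ^ e = t := by
      intro t ht
      have h1 : Nat.Coprime (orderOf t) m := by
        rw [hm]; exact Nat.Coprime.pow_right _ ((Nat.Prime.coprime_iff_not_dvd hp).mpr ht).symm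
      have h2 : orderOf t ∣ n := h1.dvd_of_dvd_mul_left (hmn ▸ orderOf_dvd_natCard t)
      have : t ^ e = t ^ 1 := by rw [pow_eq_pow_iff_modEq]; exact hen.of_dvd h2
      rw [this, pow_one]
    obtain ⟨ϑ, hϑ⟩ : ∃ ϑ : G → ℂ, ϑ = fun z => if IsConj (z ^ e) r then (n : ℂ) else 0 :=
      ⟨_, rfl⟩
    obtain ⟨hcl, hint⟩ := hall_theta m n hmn hcop e hem hen r ϑ
      (fun z hz => by rw [hϑ]; exact if_pos hz) (fun z hz => by rw [hϑ]; exact if_neg hz)
    haveI : Finite (IrrCharacter G) := irr_finite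
    letI : Fintype (IrrCharacter G) := Fintype.ofFinite _
    have hexp := expansion ϑ hcl
    have hr1 : ϑ r = n := by
      rw [hϑ]; simp only; rw [hordn r hr, if_pos (IsConj.refl r)]
    have hs1 : ϑ s = 0 := by
      rw [hϑ]; simp only; rw [hordn s hs, if_neg (fun h' => hconj h'.symm)]
    have hd : ∀ χ : IrrCharacter G, ∃ d : AlgInt, d ∈ M ∧
        (d : ℂ) = (χ : G → ℂ) r - (χ : G → ℂ) s := by
      intro χ
      obtain ⟨z1, hz1, e1⟩ := key1 χ
      obtain ⟨z2, hz2, e2⟩ := key2 χ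
      have hir : IsIntegral ℤ ((χ : G → ℂ) r) :=
        isCharacter_isIntegral (isCharacter_of_isIrrCharacter χ.2) r
      have his : IsIntegral ℤ ((χ : G → ℂ) s) :=
        isCharacter_isIntegral (isCharacter_of_isIrrCharacter χ.2) s
      refine ⟨⟨_, hir⟩ - ⟨_, his⟩, ?_, by push_cast; rfl⟩
      apply mem_of_memLocalIdeal M hMax
      have h3 := memLocalIdeal_sub M hMax (h χ) (memLocalIdeal_of_mem M hMax (M.sub_mem hz1 hz2))
      convert h3 using 1
      push_cast
      rw [e1, e2]; ring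
    choose d hdM hd using hd
    have hnM : (n : AlgInt) ∈ M := by
      have h4 : (n : AlgInt) =
          ∑ χ : IrrCharacter G, (⟨classInner ϑ χ, hint χ⟩ : AlgInt) * d χ := by
        apply Subtype.ext
        push_cast
        have h5 : (n : ℂ) = ϑ r - ϑ s := by rw [hr1, hs1, sub_zero]
        have hr2 := congrFun hexp r
        have hs2 := congrFun hexp s
        rw [h5, hr2, hs2]
        simp only [Finset.sum_apply, Pi.smul_apply, smul_eq_mul]
        rw [← Finset.sum_sub_distrib]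
        apply Finset.sum_congr rfl
        intro χ _
        rw [hd]; ring
      rw [h4]
      exact M.sum_mem (fun χ _ => M.mul_mem_left _ (hdM χ))
    have hone : (1 : AlgInt) ∈ M := by
      have hb := Nat.gcd_eq_gcd_ab p n
      rw [hcopp.gcd_eq_one] at hb
      have : (1 : AlgInt) = (p : AlgInt) * ((Nat.gcdA p n : ℤ) : AlgInt) +
          (n : AlgInt) * ((Nat.gcdB p n : ℤ) : AlgInt) := by
        have := congrArg (fun t : ℤ => (t : AlgInt)) hb
        simpa using this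
      rw [this]
      exact M.add_mem (M.mul_mem_right _ hpM) (M.mul_mem_right _ hnM)
    exact hMax.ne_top ((Ideal.eq_top_iff_one M).mpr hone)

end Cfsg.Agent.S0876
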