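import Mathlib
import Cfsg.Statements.S0879
import Cfsg.Agent.S1900

set_option autoImplicit false
open Cfsg

namespace Cfsg.Agent.S0879

/-- Let G be a Zassenhaus group on the finite set Ω and E the stabilizer of two distinct points a, b. Then an element outside the normalizer of E conjugates no non-identity element of E into E, and E has index 2 in its normalizer. -/
theorem result {G Ω : Type*} [Group G] [Finite G] [MulAction G Ω] [Fintype Ω] (hZ : Cfsg.IsZassenhausGroup G Ω) {a b : Ω} (hab : a ≠ b) : (∀ g : G, g ∉ Subgroup.normalizer ((MulAction.stabilizer G a ⊓ MulAction.stabilizer G b : Subgroup G) : Set G) → ∀ x ∈ (MulAction.stabilizer G a ⊓ MulAction.stabilizer G b : Subgroup G), g * x * g⁻¹ ∈ (MulAction.stabilizer G a ⊓ MulAction.stabilizer G b : Subgroup G) → x = 1) ∧ ((MulAction.stabilizer G a ⊓ MulAction.stabilizer G b : Subgroup G).subgroupOf (Subgroup.normalizer ((MulAction.stabilizer G a ⊓ MulAction.stabilizer G b : Subgroup G)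 : Set G))).index = 2 := by
  classical
  obtain ⟨hfaith, h2, h3, ⟨g₀, hg₀1, a', b', ha'b', hg₀a, hg₀b⟩, -⟩ := hZ
  have h2' : ∀ a b c d : Ω, a ≠ b → c ≠ d → ∃ g : G, g • a = c ∧ g • b = d :=
    fun a b c d h h' => MulAction.is_two_pretransitive_iff.mp h2 h h'
  obtain ⟨E, hE⟩ : ∃ E : Subgroup G, E = MulAction.stabilizer G a ⊓ MulAction.stabilizer G b :=
    ⟨_, rfl⟩
  rw [← hE]
  have hmem : ∀ x : G, x ∈ E ↔ x • a = a ∧ x • b = b := by
    intro x
    rw [hE, Subgroup.mem_inf, MulAction.mem_stabilizer_iff, MulAction.mem_stabilizer_iff]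
  -- a nontrivial element of E
  obtain ⟨x₀, hx₀E, hx₀1⟩ : ∃ x₀ ∈ E, x₀ ≠ 1 := by
    obtain ⟨k, hka, hkb⟩ := h2' a' b' a b ha'b' hab
    refine ⟨k * g₀ * k⁻¹, (hmem _).mpr ⟨?_, ?_⟩, ?_⟩
    · rw [← hka, mul_smul, mul_smul, inv_smul_smul, hg₀a]
    · rw [← hkb, mul_smul, mul_smul, inv_smul_smul, hg₀b]
    · intro h
      apply hg₀1
      have : g₀ = k⁻¹ * (k * g₀ * k⁻¹) * k := by group
      rw [this, h]; group
  have hL : ∀ g : G, ∀ x ∈ E, x ≠ 1 → g * x * g⁻¹ ∈ E →
      (g • a = a ∧ g • b = b) ∨ (g • a = b ∧ g • b = a) := by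
    intro g x hx hx1 hgx
    have hy1 : g * x * g⁻¹ ≠ 1 := by
      intro h
      apply hx1
      have : x = g⁻¹ * (g * x * g⁻¹) * g := by group
      rw [this, h]; group
    obtain ⟨hxa, hxb⟩ := (hmem x).mp hx
    obtain ⟨hya, hyb⟩ := (hmem _).mp hgx
    have hyga : (g * x * g⁻¹) • (g • a) = g • a := by
      rw [mul_smul, mul_smul, inv_smul_smul, hxa]
    have hygb : (g * x * g⁻¹) • (g • b) = g • b := by
      rw [mul_smul, mul_smul, inv_smul_smul, hxb]
    have hne : g • a ≠ g • b := fun h => hab (smul_left_cancel g h)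
    have hfix : ∀ z : Ω, (g * x * g⁻¹) • z = z → z = a ∨ z = b := by
      intro z hz
      by_contra hcon
      push_neg at hcon
      exact hy1 (h3 _ a b z hab (Ne.symm hcon.2) (Ne.symm hcon.1) hya hyb hz)
    rcases hfix _ hyga with h1 | h1 <;> rcases hfix _ hygb with h2 | h2
    · exact absurd (h1.trans h2.symm) hne
    · exact Or.inl ⟨h1, h2⟩
    · exact Or.inr ⟨h1, h2⟩
    · exact absurd (h1.trans h2.symm) hne
  have hN : ∀ g : G, ((g • a = a ∧ g • b = b) ∨ (g • a = b ∧ g • b = a)) →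
      g ∈ Subgroup.normalizer (E : Set G) := by
    intro g hg
    apply S1900.mem_normalizer_of_conj_mem
    intro x hx
    obtain ⟨hxa, hxb⟩ := (hmem x).mp hx
    rw [hmem]
    rcases hg with ⟨h1, h2⟩ | ⟨h1, h2⟩
    · have i1 : g⁻¹ • a = a := by rw [inv_smul_eq_iff, h1]
      have i2 : g⁻¹ • b = b := by rw [inv_smul_eq_iff, h2]
      constructor
      · rw [mul_smul, mul_smul, i1, hxa, h1]
      · rw [mul_smul, mul_smul, i2, hxb, h2]
    · have i1 : g⁻¹ • a = b := by rw [inv_smul_eq_iff, h2]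
      have i2 : g⁻¹ • b = a := by rw [inv_smul_eq_iff, h1]
      constructor
      · rw [mul_smul, mul_smul, i1, hxb, h2]
      · rw [mul_smul, mul_smul, i2, hxa, h1]
  constructor
  · intro g hg x hx hgx
    by_contra hx1
    exact hg (hN g (hL g x hx hx1 hgx))
  · rw [Subgroup.index_eq_two_iff]
    obtain ⟨t, hta, htb⟩ := h2' a b b a hab (Ne.symm hab)
    refine ⟨⟨t, hN t (Or.inr ⟨hta, htb⟩)⟩, ?_⟩
    intro n
    have hn := hL n.1 x₀ hx₀E hx₀1 ((Subgroup.mem_normalizer_iff.mp n.2 x₀).mp hx₀E)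
    rw [Subgroup.mem_subgroupOf, Subgroup.mem_subgroupOf, hmem, hmem]
    show Xor' (((n : G) * t) • a = a ∧ ((n : G) * t) • b = b) _
    rcases hn with ⟨h1, h2⟩ | ⟨h1, h2⟩
    · right
      refine ⟨⟨h1, h2⟩, ?_⟩
      rintro ⟨h4, -⟩
      rw [mul_smul, hta, h2] at h4
      exact hab h4.symm
    · left
      refine ⟨⟨?_, ?_⟩, ?_⟩
      · rw [mul_smul, hta, h2]
      · rw [mul_smul, htb, h1]
      · rintro ⟨h4, -⟩
        rw [h1] at h4
        exact hab h4.symm

end Cfsg.Agent.S0879
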