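import Cfsg.Statements.S0914
import Cfsg.Agent.Lib.Helper6.BlockProj
import Cfsg.Agent.Lib.Lead.CharRing
import Cfsg.Agent.Lib.Lead.CharDeg
import Cfsg.Agent.Lib.Lead.CharCons

set_option autoImplicit false
open Cfsg

namespace Cfsg.Agent.S0914

/-- Let χ be an irreducible character of the finite group G, p a prime and M a maximal ideal of the algebraic integers containing p. Then p does not divide the integer (Nat.card G) / χ(1) if and only if the block of χ relative to M consists of χ alone. -/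
theorem result {G : Type*} [Group G] [Finite G] (p : ℕ) [Fact p.Prime] (M : Ideal Cfsg.AlgInt) (hM : Cfsg.IsPModular p M) (χ : Cfsg.IrrCharacter G) : ¬ p ∣ Nat.card G / Cfsg.charDegree (χ : G → ℂ) ↔ Cfsg.blockOf M (χ : G → ℂ) = {χ} := by
  classical
  haveI := Fintype.ofFinite G
  have hMp := hM.2.1.isPrime
  have hχ1 := Cfsg.Agent.Lib.Lead.isIrrCharacter_one_eq_charDegree χ.2
  have hdpos0 := Cfsg.Agent.Lib.Lead.charDegree_pos_of_irr χ.2
  obtain ⟨d, hd⟩ : ∃ d, d = Cfsg.charDegree (χ : G → ℂ) := ⟨_, rfl⟩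
  rw [← hd] at hχ1 hdpos0 ⊢
  have hdvd : d ∣ Nat.card G := Cfsg.Agent.Lib.Lead.irr_degree_dvd_card χ d hχ1
  have hself : χ ∈ Cfsg.blockOf M (χ : G → ℂ) := Cfsg.Agent.Lib.Helper6.sb_refl hMp _
  have hd0 : (d : ℂ) ≠ 0 := by exact_mod_cast hdpos0.ne'
  have hG0 : (Nat.card G : ℂ) ≠ 0 := by exact_mod_cast (Nat.card_pos (α := G)).ne'
  have hcoeff : ∀ g, Cfsg.blockCoeff {χ} g
      = (starRingEnd ℂ) ((χ : G → ℂ) g) / ((Nat.card G / d : ℕ) : ℂ) := by
    intro g
    unfold Cfsg.blockCoeff
    rw [finsum_mem_singleton, hχ1, Nat.cast_div hdvd hd0]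
    field_simp
  constructor
  · intro hnd
    apply Set.Subset.antisymm
    · apply Cfsg.Agent.Lib.Helper6.bb_union p M hM {χ} _ χ rfl
      intro g
      rw [hcoeff]
      exact Cfsg.Agent.Lib.Helper6.lr_div_nat p M hM
        (map_isIntegral_int (starRingEnd ℂ) (Cfsg.Agent.Lib.Helper6.bcf_irr_isIntegral χ.2 g)) _ hnd
    · rintro ψ rfl
      exact hself
  · intro hB hdiv
    have hcl := Cfsg.Agent.Lib.Helper6.block_closed M hMp (Cfsg.blockOf M (χ : G → ℂ)) ⟨χ, rfl⟩
    rw [hB] at hcl
    have hvan : ∀ y : G, p ∣ orderOf y → (χ : G → ℂ) y = 0 := by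
      intro y hy
      have h := Cfsg.Agent.Lib.Helper6.blockCoeff_psingular p M hM {χ} hcl y hy
      rw [hcoeff] at h
      rcases div_eq_zero_iff.1 h with h1 | h1
      · simpa using h1
      · exfalso
        rw [Nat.cast_div hdvd hd0] at h1
        rcases div_eq_zero_iff.1 h1 with h2 | h2
        · exact hG0 h2
        · exact hd0 h2
    obtain ⟨P⟩ : Nonempty (Sylow p G) := inferInstance
    haveI := Fintype.ofFinite (P : Subgroup G)
    obtain ⟨n, hn⟩ := Cfsg.Agent.Lib.Lead.classInner_isCharacter_nat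
      (Cfsg.Agent.Lib.Lead.isCharacter_res (P : Subgroup G)
        (Cfsg.Agent.Lib.Lead.isCharacter_of_isIrrCharacter χ.2))
      (Cfsg.Agent.Lib.Lead.isCharacter_one (G := (P : Subgroup G)))
    unfold Cfsg.classInner at hn
    have hsum : ∑ x : (P : Subgroup G), (χ : G → ℂ) x * (starRingEnd ℂ) (1 : ℂ) = (χ : G → ℂ) 1 := by
      rw [Finset.sum_eq_single (1 : (P : Subgroup G))]
      · simp
      · intro x _ hx
        rw [hvan, zero_mul]
        obtain ⟨k, hk⟩ := (IsPGroup.iff_orderOf.1 P.isPGroup') x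
        rw [Subgroup.orderOf_coe, hk]
        apply dvd_pow_self
        rintro rfl
        rw [pow_zero, orderOf_eq_one_iff] at hk
        exact hx hk
      · intro h
        exact absurd (Finset.mem_univ _) h
    rw [hsum, hχ1] at hn
    have hPpos : 0 < Nat.card (P : Subgroup G) := Nat.card_pos
    have hP0 : (Nat.card (P : Subgroup G) : ℂ) ≠ 0 := by exact_mod_cast hPpos.ne'
    have hd2 : d = Nat.card (P : Subgroup G) * n := by
      have h3 : (d : ℂ) = (Nat.card (P : Subgroup G) : ℂ) * n := by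
        rw [← hn]
        field_simp
      exact_mod_cast h3
    have hcard : Nat.card G = Nat.card (P : Subgroup G) * (P : Subgroup G).index :=
      ((P : Subgroup G).card_mul_index).symm
    have hnd := P.not_dvd_index
    apply hnd
    have hn_dvd : n ∣ (P : Subgroup G).index := by
      rw [hcard, hd2] at hdvd
      exact Nat.dvd_of_mul_dvd_mul_left hPpos hdvd
    have e : Nat.card G / d = (P : Subgroup G).index / n := by
      rw [hcard, hd2, Nat.mul_div_mul_left _ _ hPpos]
    rw [e] at hdiv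
    exact dvd_trans hdiv (Nat.div_dvd_of_dvd hn_dvd)

end Cfsg.Agent.S0914
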