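import Mathlib
import Cfsg.Statements.S0916
import Cfsg.Agent.S0957
import Cfsg.Agent.S1900
import Cfsg.Agent.Lib.Helper8.Basic

set_option autoImplicit false
open Cfsg

namespace Cfsg.Agent.S0916

theorem syl_of {G : Type*} [Group G] (p : ℕ) (K P : Subgroup G) (hPK : P ≤ K)
    (hP : IsPGroup p P)
    (hmax : ∀ Q : Subgroup G, IsPGroup p Q → P ≤ Q → Q ≤ K → Q = P) :
    ∃ S : Sylow p K, (S : Subgroup K).map K.subtype = P := by
  have hp' : IsPGroup p (P.subgroupOf K) := by
    rw [← Subgroup.comap_subtype]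
    exact hP.comap_subtype
  refine ⟨⟨P.subgroupOf K, hp', ?_⟩, Subgroup.map_subgroupOf_eq_of_le hPK⟩
  intro Q' hQ' hle
  have h1 : Q'.map K.subtype = P := by
    apply hmax _ (hQ'.map _)
    · intro x hx
      exact ⟨⟨x, hPK hx⟩, hle (Subgroup.mem_subgroupOf.mpr hx), rfl⟩
    · exact Subgroup.map_subtype_le Q'
  apply le_antisymm _ hle
  intro y hy
  rw [Subgroup.mem_subgroupOf, ← h1]
  exact ⟨y, hy, rfl⟩

theorem of_syl {G : Type*} [Group G] [Finite G] (p : ℕ) [Fact p.Prime] (K P : Subgroup G)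
    (S : Sylow p K) (hS : (S : Subgroup K).map K.subtype = P) :
    P ≤ K ∧ (∀ Q : Subgroup G, IsPGroup p Q → P ≤ Q → Q ≤ K → Q = P) ∧
      Nat.card P = p ^ (Nat.card K).factorization p := by
  refine ⟨?_, ?_, ?_⟩
  · rw [← hS]; exact Subgroup.map_subtype_le _
  · intro Q hQ hPQ hQK
    have hp' : IsPGroup p (Q.subgroupOf K) := by
      rw [← Subgroup.comap_subtype]
      exact hQ.comap_subtype
    have hle : (S : Subgroup K) ≤ Q.subgroupOf K := by
      intro x hx
      rw [Subgroup.mem_subgroupOf]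
      apply hPQ
      rw [← hS]
      exact ⟨x, hx, rfl⟩
    have h1 := S.is_maximal' hp' hle
    rw [← Subgroup.map_subgroupOf_eq_of_le hQK, h1]
    exact hS
  · rw [← hS, Subgroup.card_map_of_injective (Subgroup.subtype_injective _)]
    exact S.card_eq_multiplicity

theorem syl_of_card {G : Type*} [Group G] [Finite G] (p : ℕ) [Fact p.Prime] (K P : Subgroup G)
    (hPK : P ≤ K) (hP : IsPGroup p P)
    (hc : Nat.card P = p ^ (Nat.card K).factorization p) :
    ∃ S : Sylow p K, (S : Subgroup K).map K.subtype = P := by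
  have hp : p.Prime := Fact.out
  apply syl_of p K P hPK hP
  intro Q hQ hPQ hQK
  obtain ⟨e, he⟩ := IsPGroup.iff_card.mp hQ
  have h1 : p ^ e ∣ Nat.card K := by rw [← he]; exact Subgroup.card_dvd_of_le hQK
  have h2 : e ≤ (Nat.card K).factorization p :=
    (hp.pow_dvd_iff_le_factorization Nat.card_pos.ne').mp h1
  symm
  apply Subgroup.eq_of_le_of_card_ge hPQ
  rw [he, hc]
  exact Nat.pow_le_pow_right hp.pos h2

/-- Let P be a p-subgroup of the finite group G, C its centralizer and N its normalizer. Say that a conjugacy class (of G, or of N) has defect group P when P is a Sylow p-subgroup of the centralizer (in G, respectively in N) of some element of the class. Then: (i) if the class of g in G has defect group P, the elements of that class lying in C form a single N-class, again with defect group P; (ii) every N-class with defect group P arises this way from exactly one G-class with defect group P. -/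
theorem result {G : Type*} [Group G] [Finite G] (p : ℕ) [Fact p.Prime] (P : Subgroup G) (hP : IsPGroup p P) : (∀ g : G, (∃ S : Sylow p (Subgroup.centralizer ({g} : Set G)), (S : Subgroup (Subgroup.centralizer ({g} : Set G))).map (Subgroup.centralizer ({g} : Set G)).subtype = P) → (∃ c : G, IsConj g c ∧ c ∈ Subgroup.centralizer (P : Set G)) ∧ (∀ c₁ c₂ : G, IsConj g c₁ → IsConj g c₂ → c₁ ∈ Subgroup.centralizer (P : Set G) → c₂ ∈ Subgroup.centralizer (P : Set G) → ∃ n ∈ Subgroup.normalizer (P : Set G), n * c₁ * n⁻¹ = c₂)) ∧ (∀ c : G, c ∈ Subgroup.centralizer (P : Set G) → (∃ S : Sylow p (Subgroup.centralizer ({c} : Set G) ⊓ Subgroup.normalizer (P : Set G) : Subgroup G), (S : Subgroup ↥(Subgroup.centralizer ({c} : Set G) ⊓ Subgroup.normalizer (P : Set G))).map (Subgroup.centralizer ({c} : Set G) ⊓ Subgroup.normalizer (P : Set G)).subtype = P) → ∃ S : Sylow p (Subgroup.centralizer ({c} : Set G)), (S : Subgroup (Subgroup.centralizer ({c} : Set G))).map (Subgroup.centralizer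 ({c} : Set G)).subtype = P) := by
  classical
  have hcent : ∀ c : G, c ∈ Subgroup.centralizer (P : Set G) →
      P ≤ Subgroup.centralizer ({c} : Set G) := by
    intro c hc x hx
    rw [Subgroup.mem_centralizer_singleton_iff]
    rw [Subgroup.mem_centralizer_iff] at hc
    exact hc x hx
  constructor
  · rintro g ⟨S, hS⟩
    obtain ⟨hPK, -, hcard⟩ := of_syl p _ P S hS
    have hg : g ∈ Subgroup.centralizer (P : Set G) := by
      rw [Subgroup.mem_centralizer_iff]
      intro x hx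
      have := hPK hx
      rw [Subgroup.mem_centralizer_singleton_iff] at this
      exact this
    refine ⟨⟨g, IsConj.refl g, hg⟩, ?_⟩
    intro c₁ c₂ h1 h2 hc1 hc2
    obtain ⟨a, ha⟩ := isConj_iff.mp h1
    obtain ⟨b, hb⟩ := isConj_iff.mp h2
    have hcard2 : Nat.card P =
        p ^ (Nat.card (Subgroup.centralizer ({c₂} : Set G))).factorization p := by
      rw [← hb, S0957.cent_card]; exact hcard
    obtain ⟨S₂, hS₂⟩ := syl_of_card p _ P (hcent c₂ hc2) hP hcard2
    -- the conjugate of P by b * a⁻¹ lies in C(c₂)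
    have hrel : b * a⁻¹ * c₁ * (b * a⁻¹)⁻¹ = c₂ := by
      rw [← ha, ← hb]; group
    have hP' : ∀ x ∈ P, b * a⁻¹ * x * (b * a⁻¹)⁻¹ ∈ Subgroup.centralizer ({c₂} : Set G) := by
      intro x hx
      have hx1 := hcent c₁ hc1 hx
      rw [Subgroup.mem_centralizer_singleton_iff] at hx1 ⊢
      rw [← hrel]
      calc b * a⁻¹ * x * (b * a⁻¹)⁻¹ * (b * a⁻¹ * c₁ * (b * a⁻¹)⁻¹)
          = b * a⁻¹ * (x * c₁) * (b * a⁻¹)⁻¹ := by group
        _ = b * a⁻¹ * (c₁ * x) * (b * a⁻¹)⁻¹ := by rw [hx1]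
        _ = b * a⁻¹ * c₁ * (b * a⁻¹)⁻¹ * (b * a⁻¹ * x * (b * a⁻¹)⁻¹) := by group
    obtain ⟨Q, hQdef⟩ : ∃ Q : Subgroup G, Q = P.map (MulAut.conj (b * a⁻¹)).toMonoidHom := ⟨_, rfl⟩
    have hQp : IsPGroup p Q := by rw [hQdef]; exact hP.map _
    have hQK : Q ≤ Subgroup.centralizer ({c₂} : Set G) := by
      rw [hQdef]
      rintro _ ⟨x, hx, rfl⟩
      exact hP' x hx
    have hQ' : IsPGroup p (Q.subgroupOf (Subgroup.centralizer ({c₂} : Set G))) := by
      rw [← Subgroup.comap_subtype]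
      exact hQp.comap_subtype
    obtain ⟨d, hd⟩ := Cfsg.Agent.Lib.Helper8.h8_exists_conj_sylow_ge S₂ hQ'
    have hdc : (d : G) * c₂ = c₂ * (d : G) := by
      have := d.2
      rw [Subgroup.mem_centralizer_singleton_iff] at this
      exact this
    refine ⟨(d : G)⁻¹ * (b * a⁻¹), ?_, ?_⟩
    · apply S1900.mem_normalizer_of_conj_mem
      intro x hx
      have hxQ : b * a⁻¹ * x * (b * a⁻¹)⁻¹ ∈ Q := by
        rw [hQdef]; exact ⟨x, hx, rfl⟩
      have h3 := hd ⟨b * a⁻¹ * x * (b * a⁻¹)⁻¹, hQK hxQ⟩ (Subgroup.mem_subgroupOf.mpr hxQ)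
      have h4 : ((d⁻¹ * ⟨b * a⁻¹ * x * (b * a⁻¹)⁻¹, hQK hxQ⟩ * d :
          Subgroup.centralizer ({c₂} : Set G)) : G) ∈ P := by
        rw [← hS₂]
        exact ⟨_, h3, rfl⟩
      have h5 : ((d⁻¹ * ⟨b * a⁻¹ * x * (b * a⁻¹)⁻¹, hQK hxQ⟩ * d :
          Subgroup.centralizer ({c₂} : Set G)) : G) =
          (d : G)⁻¹ * (b * a⁻¹) * x * ((d : G)⁻¹ * (b * a⁻¹))⁻¹ := by
        simp only [Subgroup.coe_mul, Subgroup.coe_inv]
        group
      rw [← h5]; exact h4
    · calc (d : G)⁻¹ * (b * a⁻¹) * c₁ * ((d : G)⁻¹ * (b * a⁻¹))⁻¹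
          = (d : G)⁻¹ * (b * a⁻¹ * c₁ * (b * a⁻¹)⁻¹) * (d : G) := by group
        _ = (d : G)⁻¹ * c₂ * (d : G) := by rw [hrel]
        _ = (d : G)⁻¹ * ((d : G) * c₂) := by rw [hdc]; group
        _ = c₂ := by group
  · rintro c hc ⟨S, hS⟩
    obtain ⟨hPK, hmax, -⟩ := of_syl p _ P S hS
    apply syl_of p _ P (hcent c hc) hP
    intro Q hQ hPQ hQK
    by_contra hne
    obtain ⟨n, hnQ, hnN, hnP⟩ := Cfsg.Agent.Lib.Helper8.h8_normalizer_growth hQ hPQ
      (fun h => hne h.symm)
    have hR : Q ⊓ Subgroup.normalizer (P : Set G) = P := by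
      apply hmax
      · exact hQ.to_le inf_le_left
      · exact le_inf hPQ Subgroup.le_normalizer
      · exact inf_le_inf_right _ hQK
    apply hnP
    rw [← hR]
    exact ⟨hnQ, hnN⟩

end Cfsg.Agent.S0916
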