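import Mathlib
import Cfsg.Statements.S1784
import Cfsg.Agent.S0099
import Cfsg.Agent.S3763
import Cfsg.Agent.Lib.Helper1.GenFit

set_option autoImplicit false

namespace Cfsg.Agent.S1784

open scoped commutatorElement
open Cfsg.Agent.S0099 Cfsg.Agent.S3763

universe u

/-- a hom into a group of order 2 with proper kernel has kernel of index 2 -/
theorem ker_dich {A : Type*} {Z : Type*} [Group A] [Group Z] [Finite A] (f : A →* Z)
    (hZ : Nat.card Z = 2) (hk : f.ker ≠ ⊤) : 2 * Nat.card f.ker = Nat.card A := by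
  have : Finite Z := Nat.finite_of_card_ne_zero (by rw [hZ]; norm_num)
  have h1 : Nat.card f.ker * f.ker.index = Nat.card A := Subgroup.card_mul_index _
  have h2 : f.ker.index = Nat.card f.range := Subgroup.index_ker _
  have h3 : Nat.card f.range ∣ 2 := by
    rw [← hZ]; exact Subgroup.card_subgroup_dvd_card _
  have h4 : f.ker.index ≠ 1 := fun h => hk (Subgroup.index_eq_one.1 h)
  have h5 : f.ker.index = 2 := by
    rw [h2] at h4 ⊢
    rcases (Nat.dvd_prime Nat.prime_two).1 h3 with h | h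
    · exact absurd h h4
    · exact h
  rw [h5] at h1
  omega

/-- counting a relation by rows which are either full or half full -/
theorem rowcount {X Y : Type*} [Finite X] [Finite Y] (R : X → Y → Prop) (P : X → Prop) (n : ℕ)
    (hP : ∀ x, P x → Nat.card {y // R x y} = n)
    (hnP : ∀ x, ¬ P x → 2 * Nat.card {y // R x y} = n) :
    2 * Nat.card {p : X × Y // R p.1 p.2} = (Nat.card {x // P x} + Nat.card X) * n := by
  classical
  haveI := Fintype.ofFinite X
  rw [Nat.card_congr (Equiv.subtypeProdEquivSigmaSubtype R), Nat.card_sigma, Finset.mul_sum]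
  have h1 : ∀ x ∈ (Finset.univ : Finset X),
      2 * Nat.card {y // R x y} = n + (if P x then n else 0) := by
    intro x _
    by_cases hx : P x
    · rw [if_pos hx, hP x hx]; omega
    · rw [if_neg hx, hnP x hx]; omega
  have e1 : Nat.card {x // P x} = (Finset.univ.filter P).card := by
    rw [Nat.card_eq_fintype_card, Fintype.card_subtype]
  have e2 : Nat.card X = Fintype.card X := Nat.card_eq_fintype_card
  rw [Finset.sum_congr rfl h1, Finset.sum_add_distrib, Finset.sum_const, Finset.card_univ,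
    smul_eq_mul, ← Finset.sum_filter, Finset.sum_const, smul_eq_mul, e1, e2]
  ring

/-- `|C_E(H)| |H| = 2 |E|` in an extraspecial 2-group, for `Z(E) ≤ H`. -/
theorem count {E : Type u} [Group E] [Finite E] (hcl : ∀ a b : E, ⁅a, b⁆ ∈ Subgroup.center E)
    (hZ : Nat.card (Subgroup.center E) = 2) (H : Subgroup E) (hH : Subgroup.center E ≤ H) :
    Nat.card (Subgroup.centralizer (H : Set E)) * Nat.card H = 2 * Nat.card E := by
  have r1 := rowcount (X := ↥H) (Y := E) (fun h q => q * (h : E) = h * q)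
    (fun h => (h : E) ∈ Subgroup.center E) (Nat.card E)
    (by
      intro h hh
      exact Nat.card_congr (Equiv.subtypeUnivEquiv (fun q => Subgroup.mem_center_iff.1 hh q)))
    (by
      intro h hh
      have hk : (kap hcl (h : E)).ker ≠ ⊤ := by
        intro htop
        apply hh
        rw [Subgroup.mem_center_iff]
        intro g
        exact (mem_ker_kap hcl (h : E) g).1 (by rw [htop]; exact Subgroup.mem_top g)
      have := ker_dich (kap hcl (h : E)) hZ hk
      rw [← this]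
      congr 1
      exact Nat.card_congr (Equiv.subtypeEquivRight (fun q => (mem_ker_kap hcl (h : E) q).symm)))
  have r2 := rowcount (X := E) (Y := ↥H) (fun q h => q * (h : E) = h * q)
    (fun q => q ∈ Subgroup.centralizer (H : Set E)) (Nat.card H)
    (by
      intro q hq
      exact Nat.card_congr (Equiv.subtypeUnivEquiv
        (fun h => (Subgroup.mem_centralizer_iff.1 hq h h.2).symm)))
    (by
      intro q hq
      have hker : ∀ h : ↥H, h ∈ ((kap hcl q).comp H.subtype).ker ↔ q * (h : E) = h * q := by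
        intro h
        rw [MonoidHom.mem_ker, MonoidHom.comp_apply, ← MonoidHom.mem_ker, mem_ker_kap]
        exact ⟨fun h' => h'.symm, fun h' => h'.symm⟩
      have hk : ((kap hcl q).comp H.subtype).ker ≠ ⊤ := by
        intro htop
        apply hq
        rw [Subgroup.mem_centralizer_iff]
        intro h hh
        exact ((hker ⟨h, hh⟩).1 (by rw [htop]; exact Subgroup.mem_top _)).symm
      have := ker_dich ((kap hcl q).comp H.subtype) hZ hk
      rw [← this]
      congr 1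
      exact Nat.card_congr (Equiv.subtypeEquivRight (fun h => (hker h).symm)))
  beta_reduce at r1 r2
  have e1 : Nat.card {p : ↥H × E // p.2 * (p.1 : E) = p.1 * p.2} =
      Nat.card {p : E × ↥H // p.1 * (p.2 : E) = p.2 * p.1} :=
    Nat.card_congr ((Equiv.prodComm ↥H E).subtypeEquiv (fun p => Iff.rfl))
  have e2 : Nat.card {h : ↥H // (h : E) ∈ Subgroup.center E} = 2 := by
    rw [← hZ]
    exact Nat.card_congr
      { toFun := fun x => ⟨x.1.1, x.2⟩
        invFun := fun c => ⟨⟨c.1, hH c.2⟩, c.2⟩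
        left_inv := fun x => rfl
        right_inv := fun c => rfl }
  have e3 : Nat.card {q : E // q ∈ Subgroup.centralizer (H : Set E)} =
      Nat.card (Subgroup.centralizer (H : Set E)) := rfl
  rw [e1, e2] at r1
  rw [e3] at r2
  nlinarith [r1, r2]

/-- double centralizer property -/
theorem dc {E : Type u} [Group E] [Finite E] (hcl : ∀ a b : E, ⁅a, b⁆ ∈ Subgroup.center E)
    (hZ : Nat.card (Subgroup.center E) = 2) (H : Subgroup E) (hH : Subgroup.center E ≤ H) :
    Subgroup.centralizer ((Subgroup.centralizer (H : Set E) : Subgroup E) : Set E) = H := by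
  have h1 := count hcl hZ H hH
  have h2 := count hcl hZ (Subgroup.centralizer (H : Set E)) (Subgroup.center_le_centralizer _)
  have hle : H ≤ Subgroup.centralizer ((Subgroup.centralizer (H : Set E) : Subgroup E) : Set E) := by
    intro x hx
    rw [Subgroup.mem_centralizer_iff]
    intro w hw
    exact ((Subgroup.mem_centralizer_iff.1 hw) x hx).symm
  have hpos : 0 < Nat.card (Subgroup.centralizer (H : Set E)) := Nat.card_pos
  have h3 : Nat.card (Subgroup.centralizer
      ((Subgroup.centralizer (H : Set E) : Subgroup E) : Set E)) = Nat.card H := by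
    have : Nat.card (Subgroup.centralizer
        ((Subgroup.centralizer (H : Set E) : Subgroup E) : Set E)) *
          Nat.card (Subgroup.centralizer (H : Set E)) =
        Nat.card H * Nat.card (Subgroup.centralizer (H : Set E)) := by
      exact (h2.trans h1.symm).trans (mul_comm _ _)
    exact Nat.eq_of_mul_eq_mul_right hpos this
  exact (Subgroup.eq_of_le_of_card_ge hle (le_of_eq h3)).symm

section core

variable {E : Type u} [Group E] [Finite E]

theorem comm_mul_right (hcl : ∀ a b : E, ⁅a, b⁆ ∈ Subgroup.center E) (u g h : E) :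
    ⁅u, g * h⁆ = ⁅u, g⁆ * ⁅u, h⁆ := by
  rw [← commutatorElement_inv (g * h) u, comm_mul hcl g h u, mul_inv_rev, commutatorElement_inv,
    commutatorElement_inv]
  exact (Subgroup.mem_center_iff.1 (hcl u g)) ⁅u, h⁆

theorem comm_inv_left (hcl : ∀ a b : E, ⁅a, b⁆ ∈ Subgroup.center E) (e y : E) :
    ⁅e⁻¹, y⁆ = ⁅e, y⁆⁻¹ := by
  have h := comm_mul hcl e e⁻¹ y
  rw [mul_inv_cancel, commutatorElement_one_left] at h
  exact eq_inv_of_mul_eq_one_right h.symm

theorem comm_quot (hcl : ∀ a b : E, ⁅a, b⁆ ∈ Subgroup.center E) (a b y : E)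
    (h : ⁅a, y⁆ = ⁅b, y⁆) : (a * b⁻¹) * y = y * (a * b⁻¹) := by
  have h1 : ⁅a * b⁻¹, y⁆ = 1 := by
    rw [comm_mul hcl, comm_inv_left hcl, h, mul_inv_cancel]
  exact (commutatorElement_eq_one_iff_commute.1 h1).eq

theorem comm_sigma (hcl : ∀ a b : E, ⁅a, b⁆ ∈ Subgroup.center E) (σ : E ≃* E)
    (hσz : ∀ w ∈ Subgroup.center E, σ w = w) (a b : E) : ⁅σ a, σ b⁆ = ⁅a, b⁆ :=
  (map_commutatorElement σ a b).symm.trans (hσz _ (hcl a b))

theorem coreI (hXS : XS 2 E) (σ : E ≃* E) (hσ2 : ∀ e, σ (σ e) = e)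
    (hσz : ∀ w ∈ Subgroup.center E, σ w = w) (e : E) :
    σ (σ e * e⁻¹) * (σ e * e⁻¹)⁻¹ ∈ Subgroup.center E ∧
      ∀ y : E, σ y * y⁻¹ ∈ Subgroup.center E → (σ e * e⁻¹) * y = y * (σ e * e⁻¹) := by
  have hcl := hXS.2.1
  constructor
  · have h1 : σ (σ e * e⁻¹) * (σ e * e⁻¹)⁻¹ = (e * (σ e)⁻¹) ^ 2 := by
      rw [map_mul, map_inv, hσ2, mul_inv_rev, inv_inv, pow_two]
    rw [h1]
    exact sq_central hXS _
  · intro y hy
    apply comm_quot hcl
    have h1 : ⁅σ e, σ y⁆ = ⁅e, y⁆ := comm_sigma hcl σ hσz e y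
    have h2 : σ y = (σ y * y⁻¹) * y := by group
    rw [h2, comm_mul_right hcl] at h1
    have h3 : ⁅σ e, σ y * y⁻¹⁆ = 1 :=
      commutatorElement_eq_one_iff_commute.2 (Subgroup.mem_center_iff.1 hy (σ e))
    rw [h3, one_mul] at h1
    exact h1

theorem coreD (hXS : XS 2 E) (σ : E ≃* E) (hσ2 : ∀ e, σ (σ e) = e)
    (hσz : ∀ w ∈ Subgroup.center E, σ w = w) (w : E)
    (hw : ∀ e : E, (σ e * e⁻¹) * w = w * (σ e * e⁻¹)) : σ w * w⁻¹ ∈ Subgroup.center E := by
  have hcl := hXS.2.1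
  rw [Subgroup.mem_center_iff]
  intro u
  symm
  apply comm_quot hcl
  have h1 : ⁅σ w, σ (σ u)⁆ = ⁅w, σ u⁆ := comm_sigma hcl σ hσz w (σ u)
  rw [hσ2] at h1
  have h2 : σ u = (σ u * u⁻¹) * u := by group
  rw [h2, comm_mul_right hcl] at h1
  have h3 : ⁅w, σ u * u⁻¹⁆ = 1 :=
    commutatorElement_eq_one_iff_commute.2 (hw u).symm
  rw [h3, one_mul] at h1
  exact h1

theorem coreE (hXS : XS 2 E) (σ : E ≃* E) (hσ1 : ∃ e, σ e ≠ e) :
    Subgroup.center E ≤ Subgroup.closure (Set.range fun e : E => σ e * e⁻¹) := by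
  have hcl := hXS.2.1
  obtain ⟨K, hK⟩ : ∃ K : Subgroup E,
    K = Subgroup.closure (Set.range fun e : E => σ e * e⁻¹) := ⟨_, rfl⟩
  rw [← hK]
  have hgen : ∀ e : E, σ e * e⁻¹ ∈ K := by
    intro e
    rw [hK]
    exact Subgroup.subset_closure ⟨e, rfl⟩
  have hconj : ∀ y e : E, y * (σ e * e⁻¹) * y⁻¹ ∈ K := by
    intro y e
    have h : y * (σ e * e⁻¹) * y⁻¹ = (σ y * y⁻¹)⁻¹ * (σ (y * e) * (y * e)⁻¹) := by
      rw [map_mul]; group
    rw [h]
    exact K.mul_mem (K.inv_mem (hgen y)) (hgen (y * e))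
  have key : ∃ k ∈ K, k ∈ Subgroup.center E ∧ k ≠ 1 := by
    obtain ⟨e₀, he₀⟩ := hσ1
    have hk1 : σ e₀ * e₀⁻¹ ≠ 1 := fun h => he₀ (mul_inv_eq_one.1 h)
    by_cases hk : σ e₀ * e₀⁻¹ ∈ Subgroup.center E
    · exact ⟨_, hgen e₀, hk, hk1⟩
    · rw [Subgroup.mem_center_iff] at hk
      push Not at hk
      obtain ⟨y, hy⟩ := hk
      refine ⟨⁅y, σ e₀ * e₀⁻¹⁆, ?_, hcl _ _, ?_⟩
      · rw [commutatorElement_def]
        exact K.mul_mem (hconj y e₀) (K.inv_mem (hgen e₀))
      · intro h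
        exact hy (commutatorElement_eq_one_iff_commute.1 h).eq
  obtain ⟨k, hkK, hkc, hk1⟩ := key
  intro w hw
  rcases central_cases hXS k hkc hk1 w hw with h | h
  · rw [h]; exact K.one_mem
  · rw [h]; exact hkK

theorem coreII (hXS : XS 2 E) (σ : E ≃* E) (hσ2 : ∀ e, σ (σ e) = e)
    (hσz : ∀ w ∈ Subgroup.center E, σ w = w) (hσ1 : ∃ e, σ e ≠ e) (x : E)
    (hx : ∀ y : E, σ y * y⁻¹ ∈ Subgroup.center E → x * y = y * x) :
    x ∈ Subgroup.closure (Set.range fun e : E => σ e * e⁻¹) := by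
  have hKc := coreE hXS σ hσ1
  rw [← dc hXS.2.1 hXS.2.2 _ hKc, Subgroup.mem_centralizer_iff]
  intro w hw
  rw [SetLike.mem_coe, Subgroup.mem_centralizer_iff] at hw
  have h1 : σ w * w⁻¹ ∈ Subgroup.center E := by
    apply coreD hXS σ hσ2 hσz
    intro e
    exact hw _ (Subgroup.subset_closure ⟨e, rfl⟩)
  exact (hx w h1).symm

end core

theorem bridge {G : Type u} [Group G] [Finite G] (z : G) (hz : orderOf z = 2) (C : Subgroup G)
    (hzC : ∀ c ∈ C, z * c = c * z) (hzC' : z ∈ C) (F : Subgroup ↥C) (hFn : F.Normal)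
    (hFc : Subgroup.centralizer (F : Set ↥C) ≤ F) (hXS : XS 2 ↥F)
    (α : G) (hα : orderOf α = 2) (hαC : α ∈ C) (hαQ : α ∉ F.map C.subtype)
    (Q₀ : Subgroup G)
    (hQ₀ : ∀ q : G, q ∈ Q₀ ↔ (q ∈ F.map C.subtype ∧ α * q * α⁻¹ * q⁻¹ ∈ Subgroup.zpowers z)) :
    Subgroup.closure ((fun q : G => α * q * α⁻¹ * q⁻¹) ''
        ((F.map C.subtype : Subgroup G) : Set G)) = (Subgroup.center ↥Q₀).map Q₀.subtype ∧
      (¬ Q₀ ≤ (F.map C.subtype ⊓ Subgroup.centralizer ({α} : Set G)) ⊔ Subgroup.zpowers z →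
        ∃ q ∈ F.map C.subtype, q * α * q⁻¹ = α * z) := by
  haveI := hFn
  have hz2 : z * z = 1 := by
    have := pow_orderOf_eq_one z
    rw [hz, pow_two] at this
    exact this
  have hz1 : z ≠ 1 := by
    intro h
    rw [h, orderOf_one] at hz
    exact absurd hz (by norm_num)
  have hα2 : α * α = 1 := by
    have := pow_orderOf_eq_one α
    rw [hα, pow_two] at this
    exact this
  have hαinv : α⁻¹ = α := inv_eq_of_mul_eq_one_left hα2
  have hαz : z * α = α * z := hzC α hαC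
  have hzp : ∀ x : G, x ∈ Subgroup.zpowers z → x = 1 ∨ x = z := by
    intro x hx
    obtain ⟨k, rfl⟩ := Subgroup.mem_zpowers_iff.1 hx
    rw [← zpow_mod_orderOf, hz]
    simp only [Nat.cast_ofNat]
    rcases Int.emod_two_eq_zero_or_one k with h | h
    · left; rw [h, zpow_zero]
    · right; rw [h, zpow_one]
  -- the embedding of `F` in `G`
  obtain ⟨ι, hι⟩ : ∃ ι : ↥F →* G, ∀ e : ↥F, ι e = ((e : ↥C) : G) :=
    ⟨C.subtype.comp F.subtype, fun e => rfl⟩
  have hιinj : Function.Injective ι := by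
    intro a b h
    rw [hι, hι] at h
    exact Subtype.ext (Subtype.ext h)
  have hιQ : ∀ q : G, q ∈ F.map C.subtype ↔ ∃ e : ↥F, ι e = q := by
    intro q
    constructor
    · rintro ⟨c, hc, rfl⟩
      exact ⟨⟨c, hc⟩, hι _⟩
    · rintro ⟨e, rfl⟩
      exact ⟨e.1, e.2, (hι e).symm⟩
  -- the central involution
  have hz'cen : ∀ g : ↥C, (⟨z, hzC'⟩ : ↥C) * g = g * ⟨z, hzC'⟩ := fun g =>
    Subtype.ext (hzC g g.2)
  have hz'F : (⟨z, hzC'⟩ : ↥C) ∈ F :=
    hFc (Subgroup.mem_centralizer_iff.2 (fun h _ => (hz'cen h).symm))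
  obtain ⟨ζ, hζ⟩ : ∃ ζ : ↥F, (ζ : ↥C) = ⟨z, hzC'⟩ := ⟨⟨_, hz'F⟩, rfl⟩
  have hιζ : ι ζ = z := by rw [hι, hζ]
  have hζc : ζ ∈ Subgroup.center ↥F := by
    rw [Subgroup.mem_center_iff]
    intro g
    apply Subtype.ext
    rw [Subgroup.coe_mul, Subgroup.coe_mul, hζ]
    exact (hz'cen g.1).symm
  have hζ1 : ζ ≠ 1 := by
    intro h
    apply hz1
    rw [← hιζ, h, map_one]
  -- the automorphism
  obtain ⟨σ, hσ⟩ : ∃ σ : ↥F ≃* ↥F, ∀ e : ↥F, ι (σ e) = α * ι e * α⁻¹ :=
    ⟨MulAut.conjNormal (⟨α, hαC⟩ : ↥C), fun e => by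
      rw [hι, hι]
      exact congrArg Subtype.val (MulAut.conjNormal_apply (⟨α, hαC⟩ : ↥C) e)⟩
  have hσ2 : ∀ e, σ (σ e) = e := by
    intro e
    apply hιinj
    rw [hσ, hσ, hαinv]
    have : α * (α * ι e * α) * α = (α * α) * ι e * (α * α) := by group
    rw [this, hα2, one_mul, mul_one]
  have hσz : ∀ w ∈ Subgroup.center ↥F, σ w = w := by
    intro w hw
    rcases central_cases hXS ζ hζc hζ1 w hw with h | h
    · rw [h, map_one]
    · rw [h]
      apply hιinj
      rw [hσ, hιζ, hαinv, ← hαz, mul_assoc, hα2, mul_one]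
  have hσ1 : ∃ e, σ e ≠ e := by
    by_contra hno
    push Not at hno
    apply hαQ
    refine ⟨⟨α, hαC⟩, hFc (Subgroup.mem_centralizer_iff.2 (fun h hh => ?_)), rfl⟩
    apply Subtype.ext
    have h1 := hσ ⟨h, hh⟩
    rw [hno, hι] at h1
    show (h : G) * α = α * (h : G)
    have h2 : (h : G) = α * (h : G) * α⁻¹ := h1
    calc (h : G) * α = (α * (h : G) * α⁻¹) * α := by rw [← h2]
      _ = α * (h : G) := by group
  have hιc : ∀ e : ↥F, ι (σ e * e⁻¹) = α * ι e * α⁻¹ * (ι e)⁻¹ := by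
    intro e
    rw [map_mul, map_inv, hσ]
  have hcenz : ∀ e : ↥F, e ∈ Subgroup.center ↥F ↔ ι e ∈ Subgroup.zpowers z := by
    intro e
    constructor
    · intro he
      rcases central_cases hXS ζ hζc hζ1 e he with h | h
      · rw [h, map_one]; exact one_mem _
      · rw [h, hιζ]; exact Subgroup.mem_zpowers z
    · intro he
      rcases hzp _ he with h | h
      · rw [hιinj (h.trans (map_one ι).symm)]; exact one_mem _
      · rw [hιinj (h.trans hιζ.symm)]; exact hζc
  have hQ₀' : ∀ e : ↥F, ι e ∈ Q₀ ↔ σ e * e⁻¹ ∈ Subgroup.center ↥F := by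
    intro e
    rw [hQ₀, hcenz, hιc]
    exact ⟨fun h => h.2, fun h => ⟨(hιQ _).2 ⟨e, rfl⟩, h⟩⟩
  refine ⟨le_antisymm ?_ ?_, ?_⟩
  · rw [Subgroup.closure_le]
    rintro _ ⟨q, hq, rfl⟩
    obtain ⟨e, rfl⟩ := (hιQ q).1 hq
    obtain ⟨hI1, hI2⟩ := coreI hXS σ hσ2 hσz e
    have hmem : α * ι e * α⁻¹ * (ι e)⁻¹ ∈ Q₀ := by
      rw [← hιc, hQ₀']; exact hI1
    refine ⟨⟨_, hmem⟩, ?_, rfl⟩
    rw [SetLike.mem_coe, Subgroup.mem_center_iff]
    intro g
    obtain ⟨y, hy⟩ := (hιQ g.1).1 ((hQ₀ g.1).1 g.2).1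
    have hy' : σ y * y⁻¹ ∈ Subgroup.center ↥F := by
      rw [← hQ₀', hy]; exact g.2
    apply Subtype.ext
    show (g : G) * (α * ι e * α⁻¹ * (ι e)⁻¹) = (α * ι e * α⁻¹ * (ι e)⁻¹) * g
    rw [← hy, ← hιc, ← map_mul, ← map_mul, hI2 y hy']
  · rintro _ ⟨x', hx', rfl⟩
    obtain ⟨e, he⟩ := (hιQ x'.1).1 ((hQ₀ x'.1).1 x'.2).1
    have hcomm : ∀ y : ↥F, σ y * y⁻¹ ∈ Subgroup.center ↥F → e * y = y * e := by
      intro y hy
      have hyQ : ι y ∈ Q₀ := (hQ₀' y).2 hy
      have h1 := Subgroup.mem_center_iff.1 hx' ⟨ι y, hyQ⟩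
      have h2 : ι y * (x' : G) = x' * ι y := congrArg Subtype.val h1
      apply hιinj
      rw [map_mul, map_mul, he]
      exact h2.symm
    have heK := coreII hXS σ hσ2 hσz hσ1 e hcomm
    have hle : Subgroup.closure (Set.range fun e : ↥F => σ e * e⁻¹) ≤
        (Subgroup.closure ((fun q : G => α * q * α⁻¹ * q⁻¹) ''
          ((F.map C.subtype : Subgroup G) : Set G))).comap ι := by
      rw [Subgroup.closure_le]
      rintro _ ⟨e', rfl⟩
      rw [SetLike.mem_coe, Subgroup.mem_comap, hιc]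
      exact Subgroup.subset_closure ⟨ι e', (hιQ _).2 ⟨e', rfl⟩, rfl⟩
    have h3 := hle heK
    rw [Subgroup.mem_comap, he] at h3
    exact h3
  · intro hnot
    obtain ⟨q, hq, hqn⟩ := SetLike.not_le_iff_exists.1 hnot
    obtain ⟨hqQ, hqz⟩ := (hQ₀ q).1 hq
    rcases hzp _ hqz with h1 | h1
    · exfalso
      apply hqn
      apply Subgroup.mem_sup_left
      refine Subgroup.mem_inf.2 ⟨hqQ, ?_⟩
      rw [Subgroup.mem_centralizer_iff]
      intro h hh
      rw [Set.mem_singleton_iff] at hh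
      rw [hh]
      exact mul_inv_eq_iff_eq_mul.1 (mul_inv_eq_one.1 h1)
    · refine ⟨q, hqQ, ?_⟩
      have h2 : q * α⁻¹ * q⁻¹ = α⁻¹ * (α * q * α⁻¹ * q⁻¹) := by group
      rw [h1, hαinv] at h2
      exact h2

/-- Let G be a finite group and let z be an involution of G such that Q, the generalized Fitting subgroup of the centralizer C of z, is a 2-group of symplectic type (every characteristic abelian subgroup of Q is cyclic); suppose Q is extraspecial, and view Q inside G. Let α be an involution of C that is not in Q, and let Q₀ be the subgroup of those q ∈ Q whose commutator with α lies in the subgroup generated by z. Then (a) the subgroup generated by the commutators α q α⁻¹ q⁻¹, q ∈ Q, equals the centre of Q₀; and (b) if Q₀ is not contained in the product of the centralizer of α in Q with the subgroup generated by z, then some element of Q conjugates α to α z. -/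
theorem result {G : Type*} [Group G] [Finite G] (z : G) (hz : orderOf z = 2) (hQ : Cfsg.IsOfSymplecticType ↥(Cfsg.generalizedFittingSubgroup ↥(Subgroup.centralizer ({z} : Set G)))) (hE : Cfsg.IsExtraspecial 2 ↥(Cfsg.generalizedFittingSubgroup ↥(Subgroup.centralizer ({z} : Set G))))
    (α : G) (hα : orderOf α = 2) (hαC : α ∈ Subgroup.centralizer ({z} : Set G)) (hαQ : α ∉ (Cfsg.generalizedFittingSubgroup ↥(Subgroup.centralizer ({z} : Set G))).map (Subgroup.centralizer ({z} : Set G)).subtype)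
    (Q₀ : Subgroup G) (hQ₀ : ∀ q : G, q ∈ Q₀ ↔ (q ∈ (Cfsg.generalizedFittingSubgroup ↥(Subgroup.centralizer ({z} : Set G))).map (Subgroup.centralizer ({z} : Set G)).subtype ∧ α * q * α⁻¹ * q⁻¹ ∈ Subgroup.zpowers z)) :
    Subgroup.closure ((fun q : G => α * q * α⁻¹ * q⁻¹) '' ((Cfsg.generalizedFittingSubgroup ↥(Subgroup.centralizer ({z} : Set G))).map (Subgroup.centralizer ({z} : Set G)).subtype : Set G)) = (Subgroup.center ↥Q₀).map Q₀.subtype ∧
      (¬ Q₀ ≤ ((Cfsg.generalizedFittingSubgroup ↥(Subgroup.centralizer ({z} : Set G))).map (Subgroup.centralizer ({z} : Set G)).subtype ⊓ Subgroup.centralizer ({α} : Set G)) ⊔ Subgroup.zpowers z →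
        ∃ q ∈ (Cfsg.generalizedFittingSubgroup ↥(Subgroup.centralizer ({z} : Set G))).map (Subgroup.centralizer ({z} : Set G)).subtype, q * α * q⁻¹ = α * z) := by
  exact bridge z hz (Subgroup.centralizer ({z} : Set G))
    (fun c hc => Subgroup.mem_centralizer_iff.1 hc z rfl)
    (Subgroup.mem_centralizer_iff.2 (fun h hh => by rw [Set.mem_singleton_iff.1 hh]))
    (Cfsg.generalizedFittingSubgroup ↥(Subgroup.centralizer ({z} : Set G)))
    (Cfsg.Agent.Lib.Helper1.genFitting_normal _)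
    (Cfsg.Agent.Lib.Helper1.centralizer_genFitting_le _)
    (xs_of_extraspecial hE) α hα hαC hαQ Q₀ hQ₀

end Cfsg.Agent.S1784
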