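import Cfsg.Statements.S1901
import Cfsg.Agent.Lib.Helper1.UpperP

set_option autoImplicit false
open Cfsg

open Cfsg Cfsg.Agent.Lib.Helper1 Cfsg.Agent.Lib.Helper7

namespace Cfsg.Agent.S1901

universe u

theorem eq_one_of_conj_eq_mul {Y : Type*} [Group Y] {x q c : Y} (h : x * q * x⁻¹ = c * q)
    (hcomm : x * c = c * x) (hcop : (orderOf c).Coprime (orderOf x)) : c = 1 := by
  have key : ∀ n : ℕ, x ^ n * q * (x ^ n)⁻¹ = c ^ n * q := by
    intro n
    induction n with
    | zero => simp
    | succ n ih =>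
      have hcn : x * c ^ n = c ^ n * x := Commute.pow_right hcomm n
      calc x ^ (n+1) * q * (x ^ (n+1))⁻¹ = x * (x ^ n * q * (x ^ n)⁻¹) * x⁻¹ := by
            rw [pow_succ']; group
        _ = x * (c ^ n * q) * x⁻¹ := by rw [ih]
        _ = (x * c ^ n) * (q * x⁻¹) := by group
        _ = (c ^ n * x) * (q * x⁻¹) := by rw [hcn]
        _ = c ^ n * (x * q * x⁻¹) := by group
        _ = c ^ n * (c * q) := by rw [h]
        _ = c ^ (n+1) * q := by rw [pow_succ]; group
  have h1 := key (orderOf x)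
  rw [pow_orderOf_eq_one] at h1
  have h2 : c ^ orderOf x = 1 := by
    have h3 : c ^ orderOf x * q = 1 * q := by rw [← h1]; group
    exact mul_right_cancel h3
  have h3 : orderOf c ∣ orderOf x := orderOf_dvd_of_pow_eq_one h2
  exact orderOf_eq_one_iff.mp (Nat.Coprime.eq_one_of_dvd hcop h3)

theorem mem_of_normal_subgroupOf_of_coprime {Y : Type*} [Group Y] {p : ℕ}
    [hp : Fact p.Prime] {C N : Subgroup Y} (hnorm : (C.subgroupOf N).Normal)
    (hidx : ¬ p ∣ C.relIndex N) {x : Y} (hx : x ∈ N) {k : ℕ} (hk : orderOf x = p ^ k) : x ∈ C := by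
  haveI := hnorm
  have h1 : (⟨x, hx⟩ : ↥N) ^ (C.subgroupOf N).index ∈ C.subgroupOf N :=
    Subgroup.pow_index_mem _ _
  have h2 : x ^ C.relIndex N ∈ C := by
    have := Subgroup.mem_subgroupOf.mp h1
    change x ^ (C.subgroupOf N).index ∈ C
    simpa using this
  have hcop : (C.relIndex N).Coprime (orderOf x) := by
    rw [hk]
    exact Nat.Coprime.pow_right _ (((Nat.Prime.coprime_iff_not_dvd hp.out).mpr hidx).symm)
  obtain ⟨m, hm⟩ := exists_pow_eq_self_of_coprime hcop
  rw [← hm]
  exact C.pow_mem h2 m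

theorem coprime_pgroup_card {Y : Type*} [Group Y] [Finite Y] {p : ℕ} [hp : Fact p.Prime] {A K : Subgroup Y}
    (hA : IsPGroup p A) (hK : ¬ p ∣ Nat.card K) : (Nat.card A).Coprime (Nat.card K) := by
  obtain ⟨k, hk⟩ := IsPGroup.iff_card.mp hA
  rw [hk]
  exact Nat.Coprime.pow_left _ ((Nat.Prime.coprime_iff_not_dvd hp.out).mpr hK)

theorem main (p : ℕ) [hp : Fact p.Prime] : ∀ n : ℕ, ∀ (G : Type u) [Group G] [Finite G],
    Nat.card G = n →
    Cfsg.IsPSolvable p G → ∀ (P : Sylow p G) (Q : Subgroup G), ¬ p ∣ Nat.card Q →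
    Q ≤ Subgroup.normalizer ((P : Subgroup G) : Set G) →
    ∀ x : G, x ∈ Subgroup.normalizer (Q : Set G) → (∃ k : ℕ, orderOf x = p ^ k) →
    x ∈ Subgroup.centralizer (Q : Set G) := by
  intro n
  induction n using Nat.strong_induction_on with
  | _ n ih =>
    intro G _ _ hn hG P Q hQ hQP x hxN hxp
    obtain ⟨k, hk⟩ := hxp
    have hxq : ∀ q ∈ Q, x * q * x⁻¹ ∈ Q := fun q hq => conj_mem_of_mem_normalizer hxN hq
    have step : ∀ M : Subgroup G, M.Normal → M ≠ ⊥ → ∀ q ∈ Q, x * q * x⁻¹ * q⁻¹ ∈ M := by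
      intro M hM hMne q hq
      haveI := hM
      have hcard : Nat.card (G ⧸ M) < n := by
        rw [← hn, ← Subgroup.index_eq_card, ← Subgroup.index_mul_card M]
        have h1 : 1 < Nat.card M := (Subgroup.one_lt_card_iff_ne_bot _).mpr hMne
        have h2 : 0 < M.index := Nat.pos_of_ne_zero Subgroup.index_ne_zero_of_finite
        nlinarith
      have hsol : Cfsg.IsPSolvable p (G ⧸ M) :=
        isPSolvable_of_surjective p (QuotientGroup.mk' M) (QuotientGroup.mk'_surjective M) hG
      have hQ' : ¬ p ∣ Nat.card (Q.map (QuotientGroup.mk' M)) := fun hd =>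
        hQ (dvd_trans hd (Subgroup.card_map_dvd _ _))
      have hQP' : Q.map (QuotientGroup.mk' M) ≤ Subgroup.normalizer
          (((P.mapSurjective (QuotientGroup.mk'_surjective M) : Sylow p (G ⧸ M)) :
            Subgroup (G ⧸ M)) : Set (G ⧸ M)) := by
        rw [Sylow.coe_mapSurjective]
        exact le_trans (Subgroup.map_mono hQP) (Subgroup.le_normalizer_map _)
      have hx' : QuotientGroup.mk' M x ∈ Subgroup.normalizer
          ((Q.map (QuotientGroup.mk' M) : Subgroup (G ⧸ M)) : Set (G ⧸ M)) :=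
        Subgroup.le_normalizer_map _ (Subgroup.mem_map_of_mem _ hxN)
      have hxo : ∃ j : ℕ, orderOf (QuotientGroup.mk' M x) = p ^ j := by
        have hd : orderOf (QuotientGroup.mk' M x) ∣ p ^ k := hk ▸ orderOf_map_dvd _ x
        obtain ⟨j, -, hj⟩ := (Nat.dvd_prime_pow hp.out).mp hd
        exact ⟨j, hj⟩
      have hc := ih _ hcard (G ⧸ M) rfl hsol (P.mapSurjective (QuotientGroup.mk'_surjective M))
        (Q.map (QuotientGroup.mk' M)) hQ' hQP' _ hx' hxo
      have hcomm := Subgroup.mem_centralizer_iff.mp hc (QuotientGroup.mk' M q)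
        (Subgroup.mem_map_of_mem _ hq)
      rw [← QuotientGroup.ker_mk' M, MonoidHom.mem_ker]
      simp only [map_mul, map_inv]
      rw [← hcomm]; group
    rw [Subgroup.mem_centralizer_iff]
    intro q hq
    have fin : x * q * x⁻¹ * q⁻¹ = 1 → q * x = x * q := by
      intro h
      calc q * x = (x * q * x⁻¹ * q⁻¹)⁻¹ * (x * q) := by group
        _ = x * q := by rw [h, inv_one, one_mul]
    by_cases hO : Cfsg.pPrimeCore p G = ⊥
    · by_cases hU : Cfsg.pCore p G = ⊥
      · have hle := centralizer_pCore_le_of_isPSolvable p G hG hO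
        rw [hU] at hle
        have hq1 : q ∈ (⊥ : Subgroup G) := hle (Subgroup.mem_centralizer_iff.mpr (fun h hh => by
          have := Subgroup.mem_bot.mp hh; subst this; simp))
        rw [Subgroup.mem_bot.mp hq1]; simp
      · have h1 := step _ (pCore_normal p G) hU q hq
        have h2 : x * q * x⁻¹ * q⁻¹ ∈ Q := Q.mul_mem (hxq q hq) (Q.inv_mem hq)
        exact fin (eq_one_of_mem_of_mem_coprime
          (coprime_pgroup_card (pCore_isPGroup p G) hQ) h1 h2)
    · -- `O = O_{p'}(G) ≠ 1`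
      have hOn : (Cfsg.pPrimeCore p G).Normal := pPrimeCore_normal p G
      have hst := step _ hOn hO
      -- `Q ∩ O` centralises `P`
      have hcopPO : (Nat.card (P : Subgroup G)).Coprime (Nat.card (Cfsg.pPrimeCore p G)) := by
        obtain ⟨j, hj⟩ := IsPGroup.iff_card.mp P.2
        rw [hj]
        exact Nat.Coprime.pow_left _ (pPrimeCore_coprime p G).symm
      have hQ1P : ∀ c ∈ Q ⊓ Cfsg.pPrimeCore p G, ∀ y ∈ (P : Subgroup G), c * y = y * c := by
        intro c hc y hy
        obtain ⟨hcQ, hcO⟩ := Subgroup.mem_inf.mp hc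
        have h1 : c * y * c⁻¹ * y⁻¹ ∈ (P : Subgroup G) :=
          Subgroup.mul_mem _ (conj_mem_of_mem_normalizer (hQP hcQ) hy) (Subgroup.inv_mem _ hy)
        have h2 : c * y * c⁻¹ * y⁻¹ ∈ Cfsg.pPrimeCore p G := by
          have h3 : c * y * c⁻¹ * y⁻¹ = c * (y * c⁻¹ * y⁻¹) := by group
          rw [h3]
          exact Subgroup.mul_mem _ hcO (hOn.conj_mem _ (Subgroup.inv_mem _ hcO) y)
        have h4 := eq_one_of_mem_of_mem_coprime hcopPO h1 h2
        calc c * y = (c * y * c⁻¹ * y⁻¹) * (y * c) := by group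
          _ = y * c := by rw [h4, one_mul]
      -- `x` normalises `Q ∩ O`
      have hxN1 : x ∈ Subgroup.normalizer ((Q ⊓ Cfsg.pPrimeCore p G : Subgroup G) : Set G) := by
        rw [Subgroup.mem_normalizer_iff]
        intro c
        constructor
        · intro hc
          obtain ⟨hcQ, hcO⟩ := Subgroup.mem_inf.mp hc
          exact Subgroup.mem_inf.mpr ⟨hxq c hcQ, hOn.conj_mem _ hcO x⟩
        · intro hc
          obtain ⟨hcQ, hcO⟩ := Subgroup.mem_inf.mp hc
          have e : c = x⁻¹ * (x * c * x⁻¹) * x⁻¹⁻¹ := by group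
          rw [e]
          exact Subgroup.mem_inf.mpr ⟨conj_mem_of_mem_normalizer (Subgroup.inv_mem _ hxN) hcQ,
            hOn.conj_mem _ hcO x⁻¹⟩
      -- `x` centralises `Q ∩ O`
      have hxC1 : x ∈ Subgroup.centralizer ((Q ⊓ Cfsg.pPrimeCore p G : Subgroup G) : Set G) := by
        have hPC : (P : Subgroup G) ≤
            Subgroup.centralizer ((Q ⊓ Cfsg.pPrimeCore p G : Subgroup G) : Set G) := by
          intro y hy
          rw [Subgroup.mem_centralizer_iff]
          intro c hc
          exact hQ1P c hc y hy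
        have hCN : Subgroup.centralizer ((Q ⊓ Cfsg.pPrimeCore p G : Subgroup G) : Set G) ≤
            Subgroup.normalizer ((Q ⊓ Cfsg.pPrimeCore p G : Subgroup G) : Set G) :=
          Subgroup.centralizer_le_normalizer _
        have hnorm : ((Subgroup.centralizer ((Q ⊓ Cfsg.pPrimeCore p G : Subgroup G) : Set G)).subgroupOf
            (Subgroup.normalizer ((Q ⊓ Cfsg.pPrimeCore p G : Subgroup G) : Set G))).Normal := by
          rw [Subgroup.normal_subgroupOf_iff_le_normalizer hCN]
          exact normalizer_le_normalizer_centralizer' _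
        have hidx : ¬ p ∣ (Subgroup.centralizer ((Q ⊓ Cfsg.pPrimeCore p G : Subgroup G) : Set G)).relIndex
            (Subgroup.normalizer ((Q ⊓ Cfsg.pPrimeCore p G : Subgroup G) : Set G)) := by
          intro hd
          exact P.not_dvd_index (dvd_trans hd (dvd_trans (Subgroup.relIndex_dvd_of_le_left _ hPC)
            (Subgroup.relIndex_dvd_index_of_le (le_trans hPC hCN))))
        exact mem_of_normal_subgroupOf_of_coprime hnorm hidx hxN1 hk
      have hcQ1 : x * q * x⁻¹ * q⁻¹ ∈ Q ⊓ Cfsg.pPrimeCore p G :=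
        Subgroup.mem_inf.mpr ⟨Q.mul_mem (hxq q hq) (Q.inv_mem hq), hst q hq⟩
      have hcomm : x * (x * q * x⁻¹ * q⁻¹) = (x * q * x⁻¹ * q⁻¹) * x :=
        (Subgroup.mem_centralizer_iff.mp hxC1 _ hcQ1).symm
      have hcop : (orderOf (x * q * x⁻¹ * q⁻¹)).Coprime (orderOf x) := by
        rw [hk]
        apply Nat.Coprime.pow_right
        exact Nat.Coprime.coprime_dvd_left
          (Subgroup.orderOf_dvd_natCard Q (Subgroup.mem_inf.mp hcQ1).1)
          (((Nat.Prime.coprime_iff_not_dvd hp.out).mpr hQ).symm)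
      exact fin (eq_one_of_conj_eq_mul (q := q) (by group) hcomm hcop)

/-- Let G be a finite p-solvable group and Q a subgroup of order prime to p such that p divides the index of C_G(Q) in N_G(Q). Then Q normalizes no Sylow p-subgroup of G. -/
theorem result {G : Type*} [Group G] [Finite G] {p : ℕ} [Fact p.Prime]
    (hG : Cfsg.IsPSolvable p G) (Q : Subgroup G) (hQ : ¬ p ∣ Nat.card Q)
    (hA : p ∣ (Subgroup.centralizer (Q : Set G)).relIndex (Subgroup.normalizer (Q : Set G)))
    (P : Sylow p G) : ¬ Q ≤ Subgroup.normalizer ((P : Subgroup G) : Set G) := by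
  intro hQP
  have key : ∀ x : G, x ∈ Subgroup.normalizer (Q : Set G) → (∃ k : ℕ, orderOf x = p ^ k) →
      x ∈ Subgroup.centralizer (Q : Set G) :=
    main p _ G rfl hG P Q hQ hQP
  obtain ⟨R⟩ : Nonempty (Sylow p ↥(Subgroup.normalizer (Q : Set G))) := inferInstance
  have hle : (R : Subgroup ↥(Subgroup.normalizer (Q : Set G))) ≤
      (Subgroup.centralizer (Q : Set G)).subgroupOf (Subgroup.normalizer (Q : Set G)) := by
    intro y hy
    rw [Subgroup.mem_subgroupOf]
    apply key _ y.2
    obtain ⟨k, hk⟩ := (IsPGroup.iff_orderOf.mp R.2) ⟨y, hy⟩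
    refine ⟨k, ?_⟩
    rw [← hk, Subgroup.orderOf_coe]
    exact (Subgroup.orderOf_mk y hy).symm
  exact R.not_dvd_index (dvd_trans hA (Subgroup.index_dvd_of_le hle))

end Cfsg.Agent.S1901
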