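import Cfsg.Statements.S1892
import Cfsg.Agent.S1901

set_option autoImplicit false
open Cfsg

open Cfsg Cfsg.Agent.Lib.Helper1 Cfsg.Agent.Lib.Helper7
open scoped commutatorElement

namespace Cfsg.Agent.S1892

/-- Elements of `N(W)` acting trivially on `U` modulo `W`. -/
def kerSub {Y : Type*} [Group Y] (U W : Subgroup Y) : Subgroup Y where
  carrier := {x | x ∈ Subgroup.normalizer (W : Set Y) ∧ ∀ u ∈ U, u * x * u⁻¹ * x⁻¹ ∈ W}
  one_mem' := ⟨Subgroup.one_mem _, fun u _ => by simp [W.one_mem]⟩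
  mul_mem' := by
    rintro x y ⟨hx, hx'⟩ ⟨hy, hy'⟩
    refine ⟨Subgroup.mul_mem _ hx hy, fun u hu => ?_⟩
    have e : u * (x * y) * u⁻¹ * (x * y)⁻¹ = (u * x * u⁻¹ * x⁻¹) * (x * (u * y * u⁻¹ * y⁻¹) * x⁻¹) := by
      group
    rw [e]
    exact W.mul_mem (hx' u hu) (conj_mem_of_mem_normalizer hx (hy' u hu))
  inv_mem' := by
    rintro x ⟨hx, hx'⟩
    refine ⟨Subgroup.inv_mem _ hx, fun u hu => ?_⟩
    have e : u * x⁻¹ * u⁻¹ * x⁻¹⁻¹ = x⁻¹ * (u * x * u⁻¹ * x⁻¹)⁻¹ * x⁻¹⁻¹ := by group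
    rw [e]
    exact conj_mem_of_mem_normalizer (Subgroup.inv_mem _ hx) (W.inv_mem (hx' u hu))

/-- Let S be a finite p-solvable group with no nontrivial normal subgroup of order prime to p, A a p-subgroup of S, and Q a nontrivial A-invariant subgroup of order prime to p with [A, Q] = Q. Then the commutator [O_p(S), A, Q] is nontrivial. -/
theorem result {S : Type*} [Group S] [Finite S] {p : ℕ} [Fact p.Prime]
    (hS : Cfsg.IsPSolvable p S) (hred : Cfsg.pPrimeCore p S = ⊥)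
    (A Q : Subgroup S) (hA : IsPGroup p A) (hQ : ¬ p ∣ Nat.card Q) (hQ1 : Q ≠ ⊥)
    (hinv : ∀ a ∈ A, ∀ x ∈ Q, a * x * a⁻¹ ∈ Q) (hAQ : ⁅A, Q⁆ = Q) :
    ⁅⁅Cfsg.pCore p S, A⁆, Q⁆ ≠ ⊥ := by
  intro hbot
  have hUn : (Cfsg.pCore p S).Normal := pCore_normal p S
  -- `Q` centralises `W = [U, A]`
  have hWQ : ⁅Cfsg.pCore p S, A⁆ ≤ Subgroup.centralizer (Q : Set S) :=
    Subgroup.commutator_eq_bot_iff_le_centralizer.mp hbot
  have hqw : ∀ q ∈ Q, ∀ w ∈ ⁅Cfsg.pCore p S, A⁆, q * w * q⁻¹ = w := by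
    intro q hq w hw
    have := Subgroup.mem_centralizer_iff.mp (hWQ hw) q hq
    rw [this]; group
  have hQN : Q ≤ Subgroup.normalizer ((⁅Cfsg.pCore p S, A⁆ : Subgroup S) : Set S) := by
    intro q hq
    rw [Subgroup.mem_normalizer_iff]
    intro w
    constructor
    · intro hw
      rw [hqw q hq w hw]; exact hw
    · intro hw
      have := hqw q hq _ hw
      have e : w = q⁻¹ * (q * w * q⁻¹) * q⁻¹⁻¹ := by group
      rw [e, hqw q⁻¹ (Q.inv_mem hq) _ hw]; exact hw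
  have hAK : A ≤ kerSub (Cfsg.pCore p S) ⁅Cfsg.pCore p S, A⁆ := by
    intro a ha
    refine ⟨le_normalizer_commutator_right _ _ ha, fun u hu => ?_⟩
    exact comm_mem_commutator hu ha
  have hQK : Q ≤ kerSub (Cfsg.pCore p S) ⁅Cfsg.pCore p S, A⁆ := by
    rw [← hAQ, Subgroup.commutator_le]
    intro a ha q hq
    have e : ⁅a, q⁆ = a * (q * a⁻¹ * q⁻¹) := by
      rw [commutatorElement_def]; group
    rw [e]
    apply Subgroup.mul_mem _ (hAK ha)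
    obtain ⟨h1, h2⟩ := hAK (A.inv_mem ha)
    refine ⟨?_, fun u hu => ?_⟩
    · exact Subgroup.mul_mem _ (Subgroup.mul_mem _ (hQN hq) h1) (Subgroup.inv_mem _ (hQN hq))
    · have e2 : u * (q * a⁻¹ * q⁻¹) * u⁻¹ * (q * a⁻¹ * q⁻¹)⁻¹ =
          q * ((q⁻¹ * u * q⁻¹⁻¹) * a⁻¹ * (q⁻¹ * u * q⁻¹⁻¹)⁻¹ * a⁻¹⁻¹) * q⁻¹ := by group
      rw [e2]
      have h3 := h2 (q⁻¹ * u * q⁻¹⁻¹) (hUn.conj_mem u hu q⁻¹)
      rw [hqw q hq _ h3]
      exact h3
  -- `Q` centralises `U`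
  have hQC : Q ≤ Subgroup.centralizer (Cfsg.pCore p S : Set S) := by
    intro q hq
    rw [Subgroup.mem_centralizer_iff]
    intro u hu
    have hc : u * q * u⁻¹ * q⁻¹ ∈ ⁅Cfsg.pCore p S, A⁆ := (hQK hq).2 u hu
    have hc' : q * u * q⁻¹ * u⁻¹ ∈ ⁅Cfsg.pCore p S, A⁆ := by
      have e : q * u * q⁻¹ * u⁻¹ = (u * q * u⁻¹ * q⁻¹)⁻¹ := by group
      rw [e]; exact Subgroup.inv_mem _ hc
    have hcomm : q * (q * u * q⁻¹ * u⁻¹) = (q * u * q⁻¹ * u⁻¹) * q := by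
      have := hqw q hq _ hc'
      calc q * (q * u * q⁻¹ * u⁻¹) = (q * (q * u * q⁻¹ * u⁻¹) * q⁻¹) * q := by group
        _ = (q * u * q⁻¹ * u⁻¹) * q := by rw [this]
    have hcU : q * u * q⁻¹ * u⁻¹ ∈ Cfsg.pCore p S :=
      Subgroup.mul_mem _ (hUn.conj_mem u hu q) (Subgroup.inv_mem _ hu)
    have hcop : (orderOf (q * u * q⁻¹ * u⁻¹)).Coprime (orderOf q) := by
      obtain ⟨k, hk⟩ := (IsPGroup.iff_orderOf.mp (pCore_isPGroup p S)) ⟨_, hcU⟩
      rw [Subgroup.orderOf_mk] at hk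
      rw [hk]
      apply Nat.Coprime.pow_left
      exact Nat.Coprime.coprime_dvd_right (Subgroup.orderOf_dvd_natCard Q hq)
        ((Nat.Prime.coprime_iff_not_dvd (Fact.out)).mpr hQ)
    have h1 := Cfsg.Agent.S1901.eq_one_of_conj_eq_mul (x := q) (q := u) (c := q * u * q⁻¹ * u⁻¹)
      (by group) hcomm hcop
    calc u * q = (q * u * q⁻¹ * u⁻¹)⁻¹ * (q * u) := by group
      _ = q * u := by rw [h1, inv_one, one_mul]
  have hQU : Q ≤ Cfsg.pCore p S :=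
    le_trans hQC (centralizer_pCore_le_of_isPSolvable p S hS hred)
  apply hQ1
  have hQp : IsPGroup p Q := (pCore_isPGroup p S).to_le hQU
  obtain ⟨k, hk⟩ := IsPGroup.iff_card.mp hQp
  rcases Nat.eq_zero_or_pos k with h0 | hpos
  · rw [h0, pow_zero] at hk
    exact Subgroup.card_eq_one.mp hk
  · exact absurd (hk ▸ dvd_pow_self p hpos.ne') hQ

end Cfsg.Agent.S1892
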