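import Mathlib
import Cfsg.Statements.S1894
import Cfsg.Agent.Lib.Helper8.PGroupNormal

set_option autoImplicit false
open Cfsg

namespace Cfsg.Agent.S1894

/-- Let P be a finite p-group, A a normal subgroup of P and B an abelian subgroup of A that is normal in P. Then some subgroup C of A containing B is normal in P and is self-centralizing and normal in A (C ∈ SCN(A)). -/
theorem result {P : Type*} [Group P] [Finite P] {p : ℕ} [Fact p.Prime] (hP : IsPGroup p P)
    (A : Subgroup P) [A.Normal] (B : Subgroup P) [B.Normal] (hBA : B ≤ A) (hB : IsMulCommutative B) :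
    ∃ C : Subgroup P, C.Normal ∧ B ≤ C ∧ Cfsg.IsSCN A C := by
  classical
  obtain ⟨S, hSdef⟩ : ∃ S : Set (Subgroup P),
      S = {C | C.Normal ∧ B ≤ C ∧ C ≤ A ∧ ∀ a ∈ C, ∀ b ∈ C, a * b = b * a} := ⟨_, rfl⟩
  have hBS : B ∈ S := by
    rw [hSdef]
    refine ⟨inferInstance, le_rfl, hBA, fun a ha b hb => ?_⟩
    have h := hB.is_comm.comm ⟨a, ha⟩ ⟨b, hb⟩
    have h' := congrArg Subtype.val h
    exact h'
  obtain ⟨C, hBC, hCmax⟩ := (Set.toFinite S).exists_le_maximal hBS
  have hCS : C ∈ S := hCmax.1
  rw [hSdef] at hCS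
  obtain ⟨hCn, -, hCA, hCc⟩ := hCS
  haveI := hCn
  refine ⟨C, hCn, hBC, hCA, ?_, ?_⟩
  · rw [Subgroup.normalizer_eq_top_iff.mpr hCn]; exact le_top
  · apply le_antisymm
    · by_contra hnot
      obtain ⟨D, hDdef⟩ : ∃ D : Subgroup P, D = A ⊓ Subgroup.centralizer (C : Set P) := ⟨_, rfl⟩
      rw [← hDdef] at hnot
      haveI hDn : D.Normal := by rw [hDdef]; infer_instance
      let N : Subgroup (P ⧸ C) := D.map (QuotientGroup.mk' C)
      haveI : N.Normal := Subgroup.Normal.map hDn _ (QuotientGroup.mk'_surjective C)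
      have hN : N ≠ ⊥ := by
        intro h
        apply hnot
        intro d hd
        have h2 : (QuotientGroup.mk' C d) ∈ N := Subgroup.mem_map_of_mem _ hd
        rw [h, Subgroup.mem_bot] at h2
        exact (QuotientGroup.eq_one_iff d).mp h2
      have hq : IsPGroup p (P ⧸ C) := hP.to_quotient C
      have h1 := Cfsg.Agent.Lib.Helper8.h8_normal_inf_center_ne_bot hq N hN
      obtain ⟨⟨xb, hxb⟩, hxb1⟩ := (Subgroup.ne_bot_iff_exists_ne_one).mp h1
      have hxb1' : xb ≠ 1 := fun h => hxb1 (Subtype.ext h)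
      obtain ⟨hxbN, hxbZ⟩ := Subgroup.mem_inf.mp hxb
      obtain ⟨x, hxD, hx⟩ := Subgroup.mem_map.mp hxbN
      have hxA : x ∈ A := by rw [hDdef] at hxD; exact (Subgroup.mem_inf.mp hxD).1
      have hxc : ∀ c ∈ C, c * x = x * c := by
        rw [hDdef] at hxD
        exact Subgroup.mem_centralizer_iff.mp (Subgroup.mem_inf.mp hxD).2
      have hxC : x ∉ C := by
        intro h
        apply hxb1'
        rw [← hx]
        exact (QuotientGroup.eq_one_iff x).mpr h
      obtain ⟨E, hEdef⟩ : ∃ E : Subgroup P,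
          E = (Subgroup.zpowers xb).comap (QuotientGroup.mk' C) := ⟨_, rfl⟩
      have hZn : (Subgroup.zpowers xb).Normal := by
        constructor
        intro n hn g
        obtain ⟨k, rfl⟩ := Subgroup.mem_zpowers_iff.mp hn
        have h3 : xb ^ k ∈ Subgroup.center (P ⧸ C) := Subgroup.zpow_mem _ hxbZ k
        have h4 := Subgroup.mem_center_iff.mp h3 g
        rw [h4, mul_inv_cancel_right]
        exact Subgroup.zpow_mem _ (Subgroup.mem_zpowers _) k
      have hEn : E.Normal := by rw [hEdef]; exact hZn.comap _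
      have hdecomp : ∀ e ∈ E, ∃ k : ℤ, ∃ c ∈ C, e = x ^ k * c := by
        intro e he
        rw [hEdef, Subgroup.mem_comap] at he
        obtain ⟨k, hk⟩ := Subgroup.mem_zpowers_iff.mp he
        refine ⟨k, (x ^ k)⁻¹ * e, ?_, by group⟩
        have h5 : (QuotientGroup.mk' C) (x ^ k) = (QuotientGroup.mk' C) e := by
          rw [map_zpow, hx, hk]
        exact (QuotientGroup.eq).mp h5
      have hCE : C ≤ E := by
        intro c hc
        rw [hEdef, Subgroup.mem_comap]
        have h6 : (QuotientGroup.mk' C) c = 1 := (QuotientGroup.eq_one_iff c).mpr hc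
        rw [h6]; exact Subgroup.one_mem _
      have hES : E ∈ S := by
        rw [hSdef]
        refine ⟨hEn, hBC.trans hCE, ?_, ?_⟩
        · intro e he
          obtain ⟨k, c, hc, rfl⟩ := hdecomp e he
          exact A.mul_mem (A.zpow_mem hxA k) (hCA hc)
        · intro a ha b hb
          obtain ⟨k, c, hc, rfl⟩ := hdecomp a ha
          obtain ⟨l, d, hd, rfl⟩ := hdecomp b hb
          have c1 : Commute (x ^ k) d := (Commute.zpow_left (hxc d hd).symm k)
          have c2 : Commute (x ^ l) c := (Commute.zpow_left (hxc c hc).symm l)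
          have c3 : Commute c d := hCc c hc d hd
          have c4 : Commute (x ^ k) (x ^ l) := (Commute.refl x).zpow_zpow k l
          calc x ^ k * c * (x ^ l * d) = x ^ k * (c * x ^ l) * d := by group
            _ = x ^ k * (x ^ l * c) * d := by rw [c2.eq]
            _ = (x ^ k * x ^ l) * (c * d) := by group
            _ = (x ^ l * x ^ k) * (d * c) := by rw [c4.eq, c3.eq]
            _ = x ^ l * (x ^ k * d) * c := by group
            _ = x ^ l * (d * x ^ k) * c := by rw [c1.eq]
            _ = x ^ l * d * (x ^ k * c) := by group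
      have hEC : E ≤ C := hCmax.2 hES hCE
      apply hxC
      apply hEC
      rw [hEdef, Subgroup.mem_comap, hx]
      exact Subgroup.mem_zpowers _
    · exact le_inf hCA (fun c hc => Subgroup.mem_centralizer_iff.mpr (fun h hh => hCc h hh c hc))

end Cfsg.Agent.S1894
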