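import Mathlib
import Cfsg.Statements.S1898
import Cfsg.Agent.Lib.Helper2.ClassTwo

set_option autoImplicit false
open Cfsg
open scoped commutatorElement

namespace Cfsg.Agent.S1898

/-- Let X be a finite 2-group whose derived subgroup is elementary abelian and central. Then the subgroup generated by the elements of order dividing 4 has exponent dividing 4, and every automorphism of X fixing each element of order dividing 4 has 2-power order. -/
theorem result {X : Type*} [Group X] [Finite X] (hX : IsPGroup 2 X)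
    (hel : Cfsg.IsElementaryAbelian 2 (commutator X)) (hcen : commutator X ≤ Subgroup.center X) :
    (∀ x ∈ Subgroup.closure {g : X | g ^ 4 = 1}, x ^ 4 = 1) ∧
      ∀ φ : MulAut X, (∀ g : X, g ^ 4 = 1 → φ g = g) → ∃ k : ℕ, φ ^ (2 ^ k) = 1 := by
  obtain ⟨-, hexp⟩ := hel
  have hc_mem : ∀ x y : X, ⁅y, x⁆ ∈ commutator X := fun x y => by
    rw [commutator_def]
    exact Subgroup.commutator_mem_commutator (Subgroup.mem_top y) (Subgroup.mem_top x)
  have hc_cen : ∀ x y z : X, ⁅y, x⁆ * z = z * ⁅y, x⁆ := fun x y z =>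
    ((Subgroup.mem_center_iff.mp (hcen (hc_mem x y))) z).symm
  have hc_sq : ∀ x y : X, ⁅y, x⁆ ^ 2 = 1 := fun x y => hexp _ (hc_mem x y)
  have hpow : ∀ (x y : X) (n : ℕ), (x * y) ^ n = ⁅y, x⁆ ^ (n.choose 2) * x ^ n * y ^ n :=
    fun x y n => Cfsg.Agent.Lib.Helper2.mul_pow_of_central x y ⁅y, x⁆ (hc_cen x y)
      (by rw [commutatorElement_def]; group) n
  constructor
  · intro x hx
    induction hx using Subgroup.closure_induction with
    | mem x hx => exact hx
    | one => simp
    | mul x y _ _ hx hy =>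
      rw [hpow x y 4, hx, hy]
      have h1 : Nat.choose 4 2 = 2 * 3 := by decide
      rw [h1, pow_mul, hc_sq]; simp
    | inv x _ hx => rw [inv_pow, hx, inv_one]
  · intro φ hφ
    have hN : orderOf φ ≠ 0 := (orderOf_pos φ).ne'
    obtain ⟨k, m, hm, hkm⟩ := Nat.exists_eq_two_pow_mul_odd hN
    refine ⟨k, ?_⟩
    obtain ⟨ψ, hψ⟩ : ∃ ψ : MulAut X, ψ = φ ^ (2 ^ k) := ⟨_, rfl⟩
    rw [← hψ]
    have hψm : ψ ^ m = 1 := by rw [hψ, ← pow_mul, ← hkm, pow_orderOf_eq_one]
    have hψfix : ∀ g : X, g ^ 4 = 1 → ψ g = g := by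
      intro g hg
      have h1 : ∀ j : ℕ, (φ ^ j) g = g := by
        intro j
        induction j with
        | zero => simp
        | succ j ih => rw [pow_succ, MulAut.mul_apply, hφ g hg, ih]
      rw [hψ]; exact h1 _
    have key : ∀ e : ℕ, ∀ g : X, g ^ (2 ^ e) = 1 → ψ g = g := by
      intro e
      induction e with
      | zero =>
        intro g hg
        apply hψfix
        rw [pow_zero, pow_one] at hg
        rw [hg]; simp
      | succ e ih =>
        intro g hg
        have hg2 : (g ^ 2) ^ (2 ^ e) = 1 := by rw [← pow_mul, ← pow_succ']; exact hg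
        have h1 : ψ (g ^ 2) = g ^ 2 := ih _ hg2
        obtain ⟨u, hu⟩ : ∃ u, u = g⁻¹ * ψ g := ⟨_, rfl⟩
        have hψg : ψ g = g * u := by rw [hu]; group
        have h2 : (g * u) ^ 2 = g ^ 2 := by rw [← hψg, ← map_pow, h1]
        rw [hpow g u 2] at h2
        have hch : Nat.choose 2 2 = 1 := by decide
        rw [hch, pow_one] at h2
        have h3 : ⁅u, g⁆ * u ^ 2 = 1 := by
          have h30 : g ^ 2 * (⁅u, g⁆ * u ^ 2) = g ^ 2 * 1 := by
            rw [mul_one, ← mul_assoc, ← hc_cen g u (g ^ 2)]; exact h2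
          exact mul_left_cancel h30
        have h4 : u ^ 4 = 1 := by
          have h5 : u ^ 2 = ⁅u, g⁆⁻¹ := eq_inv_of_mul_eq_one_right h3
          rw [show 4 = 2 * 2 from rfl, pow_mul, h5, inv_pow, hc_sq, inv_one]
        have hψu : ψ u = u := hψfix u h4
        have h6 : ∀ j : ℕ, (ψ ^ j) g = g * u ^ j := by
          intro j
          induction j with
          | zero => simp
          | succ j ih2 =>
            rw [pow_succ', MulAut.mul_apply, ih2, map_mul, map_pow, hψg, hψu, pow_succ', mul_assoc]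
        have h7 := h6 m
        rw [hψm] at h7
        have h8 : u ^ m = 1 := by
          have h80 : g * 1 = g * u ^ m := by rw [mul_one]; exact h7
          exact (mul_left_cancel h80).symm
        have h9 : orderOf u ∣ Nat.gcd 4 m :=
          Nat.dvd_gcd (orderOf_dvd_of_pow_eq_one h4) (orderOf_dvd_of_pow_eq_one h8)
        have h10 : Nat.gcd 4 m = 1 := by
          have : Nat.Coprime (2 ^ 2) m := Nat.Coprime.pow_left 2 (Nat.coprime_two_left.mpr hm)
          exact this
        rw [h10, Nat.dvd_one, orderOf_eq_one_iff] at h9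
        rw [hψg, h9, mul_one]
    ext g
    obtain ⟨e, he⟩ := hX g
    exact key e g he

end Cfsg.Agent.S1898
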