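import Mathlib
import Cfsg.Statements.S1899

set_option autoImplicit false
open Cfsg

namespace Cfsg.Agent.S1899

theorem card_mul_le {G : Type*} [Group G] [Finite G] (H K : Subgroup G) (h : H ⊓ K = ⊥) :
    Nat.card H * Nat.card K ≤ Nat.card (H ⊔ K : Subgroup G) := by
  rw [← Nat.card_prod]
  apply Nat.card_le_card_of_injective (fun x : H × K =>
    (⟨(x.1 : G) * (x.2 : G), Subgroup.mul_mem _ (le_sup_left (a := H) (b := K) x.1.2)
      (le_sup_right (a := H) (b := K) x.2.2)⟩ : ↥(H ⊔ K)))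
  rintro ⟨x, y⟩ ⟨x', y'⟩ hxy
  have h0 : (x : G) * y = x' * y' := congrArg Subtype.val hxy
  have h1 : (x' : G)⁻¹ * x = y' * (y : G)⁻¹ := by
    rw [inv_mul_eq_iff_eq_mul, ← mul_assoc, ← h0]; group
  have h2 : (x' : G)⁻¹ * x ∈ H ⊓ K := by
    refine Subgroup.mem_inf.mpr ⟨H.mul_mem (H.inv_mem x'.2) x.2, ?_⟩
    rw [h1]; exact K.mul_mem y'.2 (K.inv_mem y.2)
  rw [h, Subgroup.mem_bot] at h2
  have hx : (x : G) = x' := by
    rw [inv_mul_eq_one] at h2; exact h2.symm
  have hy : (y : G) = y' := by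
    rw [hx] at h0; exact mul_left_cancel h0
  exact Prod.ext (Subtype.ext hx) (Subtype.ext hy)

/-- Let a dihedral group of order 2n, n odd and n > 1, act on a finite abelian 2-group A through automorphisms d and t with d^n = 1, t² = 1 and t d t⁻¹ = d⁻¹, and suppose that d fixes only the identity. Then A is the internal direct product of C_A(t) and its image under d. -/
theorem result {A : Type*} [CommGroup A] [Finite A] (hA : IsPGroup 2 A)
    {n : ℕ} (hn : Odd n) (hn1 : 1 < n) (d t : MulAut A) (hd : d ^ n = 1) (ht : t ^ 2 = 1) (hdt : t * d * t⁻¹ = d⁻¹)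
    (hfix : ∀ a : A, d a = a → a = 1) :
    (MulEquiv.toMonoidHom t).eqLocus (MonoidHom.id A) ⊓ ((MulEquiv.toMonoidHom t).eqLocus (MonoidHom.id A)).map d.toMonoidHom = ⊥ ∧
      (MulEquiv.toMonoidHom t).eqLocus (MonoidHom.id A) ⊔ ((MulEquiv.toMonoidHom t).eqLocus (MonoidHom.id A)).map d.toMonoidHom = ⊤ := by
  classical
  obtain ⟨C, hCdef⟩ : ∃ C : Subgroup A,
      C = (MulEquiv.toMonoidHom t).eqLocus (MonoidHom.id A) := ⟨_, rfl⟩
  rw [← hCdef]
  have hCmem : ∀ a, a ∈ C ↔ t a = a := by intro a; rw [hCdef]; exact Iff.rfl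
  have htt : ∀ a, t (t a) = a := by
    intro a
    have h1 := congrArg (fun φ : MulAut A => φ a) ht
    simpa [pow_two] using h1
  have htd : ∀ a, t (d a) = d⁻¹ (t a) := by
    intro a
    have h1 : t * d = d⁻¹ * t := by rw [← hdt]; group
    have h2 := congrArg (fun φ : MulAut A => φ a) h1
    simpa using h2
  have hd2 : ∀ a, d (d a) = a → a = 1 := by
    intro a ha
    obtain ⟨k, hk⟩ := hn
    apply hfix
    have h1 : (d ^ 2) ^ (k + 1) = d := by
      rw [← pow_mul, show 2 * (k + 1) = n + 1 by omega, pow_succ, hd, one_mul]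
    have h2 : ∀ j : ℕ, ((d ^ 2) ^ j) a = a := by
      intro j
      induction j with
      | zero => simp
      | succ j ih =>
        rw [pow_succ, MulAut.mul_apply, show (d ^ 2) a = a from (by simpa [pow_two] using ha), ih]
    have h3 := h2 (k + 1)
    rw [h1] at h3
    exact h3
  obtain ⟨I, hIdef⟩ : ∃ I : Subgroup A,
      I = ((MulEquiv.toMonoidHom t) * MonoidHom.id A).ker := ⟨_, rfl⟩
  have hImem : ∀ a, a ∈ I ↔ t a * a = 1 := by intro a; rw [hIdef, MonoidHom.mem_ker]; rfl
  have hCC : C ⊓ C.map d.toMonoidHom = ⊥ := by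
    rw [eq_bot_iff]
    intro a ha
    obtain ⟨ha1, ha2⟩ := Subgroup.mem_inf.mp ha
    obtain ⟨c, hc, rfl⟩ := Subgroup.mem_map.mp ha2
    rw [hCmem] at ha1 hc
    have ha1' : t (d c) = d c := ha1
    have h1 : d⁻¹ c = d c := by
      have h0 := htd c
      rw [hc] at h0
      rw [← h0]; exact ha1'
    have h2 : d (d c) = c := by
      rw [← h1]; simp
    have h3 := hd2 c h2
    rw [Subgroup.mem_bot, h3]; simp
  have hII : I ⊓ I.map d.toMonoidHom = ⊥ := by
    rw [eq_bot_iff]
    intro a ha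
    obtain ⟨ha1, ha2⟩ := Subgroup.mem_inf.mp ha
    obtain ⟨c, hc, rfl⟩ := Subgroup.mem_map.mp ha2
    rw [hImem] at ha1 hc
    have ha1' : t (d c) * d c = 1 := ha1
    have htc : t c = c⁻¹ := eq_inv_of_mul_eq_one_left hc
    have h0 : t (d c) = d⁻¹ (c⁻¹) := by rw [htd c, htc]
    have h1 : d⁻¹ (c⁻¹) = d (c⁻¹) := by
      have h4 : t (d c) = (d c)⁻¹ := eq_inv_of_mul_eq_one_left ha1'
      rw [h0] at h4
      rw [h4, map_inv]
    have h2 : d (d c⁻¹) = c⁻¹ := by rw [← h1]; simp
    have h3 := hd2 c⁻¹ h2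
    rw [Subgroup.mem_bot]
    have h5 : c = 1 := by simpa using h3
    rw [h5]; simp
  have hψ : Nat.card A ≤ Nat.card C * Nat.card I := by
    let ψ : A →* A := (MulEquiv.toMonoidHom t) * (MonoidHom.id A)⁻¹
    have hker : ψ.ker = C := by
      ext a
      rw [MonoidHom.mem_ker, hCmem]
      show t a * a⁻¹ = 1 ↔ t a = a
      rw [mul_inv_eq_one]
    have hrange : ψ.range ≤ I := by
      rintro _ ⟨a, rfl⟩
      rw [hImem]
      show t (t a * a⁻¹) * (t a * a⁻¹) = 1
      rw [map_mul, htt, map_inv]; group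
    have h1 := Subgroup.card_mul_index ψ.ker
    rw [Subgroup.index_ker, hker] at h1
    rw [← h1]
    exact Nat.mul_le_mul_left _ (Subgroup.card_le_of_le hrange)
  have hinj : Function.Injective (d.toMonoidHom) := d.injective
  have hC2 : Nat.card C * Nat.card C ≤ Nat.card (C ⊔ C.map d.toMonoidHom : Subgroup A) := by
    have h1 := card_mul_le C (C.map d.toMonoidHom) hCC
    rwa [Subgroup.card_map_of_injective hinj] at h1
  have hI2 : Nat.card I * Nat.card I ≤ Nat.card A := by
    have h1 := card_mul_le I (I.map d.toMonoidHom) hII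
    rw [Subgroup.card_map_of_injective hinj] at h1
    exact h1.trans (Subgroup.card_le_card_group _)
  refine ⟨hCC, ?_⟩
  apply Subgroup.eq_top_of_le_card
  have hApos : 0 < Nat.card A := Nat.card_pos
  have h5 : Nat.card A ≤ Nat.card C * Nat.card C := by
    by_contra hlt
    push_neg at hlt
    have h6 : Nat.card A * Nat.card A ≤ (Nat.card C * Nat.card I) * (Nat.card C * Nat.card I) :=
      Nat.mul_le_mul hψ hψ
    have h7 : (Nat.card C * Nat.card I) * (Nat.card C * Nat.card I) =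
        (Nat.card C * Nat.card C) * (Nat.card I * Nat.card I) := by ring
    have h8 : (Nat.card C * Nat.card C) * (Nat.card I * Nat.card I) < Nat.card A * Nat.card A := by
      calc (Nat.card C * Nat.card C) * (Nat.card I * Nat.card I)
          ≤ (Nat.card C * Nat.card C) * Nat.card A := Nat.mul_le_mul_left _ hI2
        _ < Nat.card A * Nat.card A := Nat.mul_lt_mul_of_pos_right hlt hApos
    rw [h7] at h6
    exact lt_irrefl _ (lt_of_le_of_lt h6 h8)
  exact h5.trans hC2

end Cfsg.Agent.S1899
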