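import Cfsg.Statements.S1907
import Cfsg.Agent.Lib.Helper1.UpperP
import Cfsg.Agent.Lib.Helper2.Index
import Cfsg.Agent.Lib.Helper8.CoprimeSylow
import Cfsg.Agent.Lib.Helper6.FixedPts

set_option autoImplicit false
open Cfsg

open Cfsg Cfsg.Agent.Lib.Helper1 Cfsg.Agent.Lib.Helper7 Cfsg.Agent.Lib.Helper8 Cfsg.Agent.Lib.Helper2 Cfsg.Agent.Lib.Helper6

namespace Cfsg.Agent.S1907

theorem partA {G : Type*} [Group G] [Finite G] {p : ℕ} [hp : Fact p.Prime] (D H : Subgroup G)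
    [hDn : D.Normal] (hD : (Nat.card D).Coprime p) (hH : IsPGroup p H)
    (y : G) (hyN : y ∈ Subgroup.normalizer (H : Set G)) (hyp : ∃ k : ℕ, orderOf y = p ^ k)
    (d : G) (hd : d ∈ D) (hdy : d⁻¹ * y * d ∈ Subgroup.normalizer (H : Set G)) :
    ∃ d₁ ∈ D ⊓ Subgroup.centralizer ({y} : Set G),
      ∃ d₂ ∈ D ⊓ Subgroup.centralizer (H : Set G), d = d₁ * d₂ := by
  obtain ⟨k, hk⟩ := hyp
  have hcopHD : (Nat.card H).Coprime (Nat.card D) := by
    obtain ⟨j, hj⟩ := IsPGroup.iff_card.mp hH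
    rw [hj]; exact Nat.Coprime.pow_left _ hD.symm
  have hHD : H ≤ Subgroup.normalizer (D : Set G) := by
    rw [Subgroup.normalizer_eq_top_iff.mpr hDn]; exact le_top
  have hND : ∀ e ∈ D, e ∈ Subgroup.normalizer (H : Set G) → e ∈ D ⊓ Subgroup.centralizer (H : Set G) :=
    fun e he heN => Subgroup.mem_inf.mpr
      ⟨he, mem_centralizer_of_mem_normalizer_coprime hHD hcopHD he heN⟩
  have hYcard : Nat.card (Subgroup.zpowers y) = p ^ k := by rw [Nat.card_zpowers, hk]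
  have hYp : IsPGroup p (Subgroup.zpowers y) := IsPGroup.of_card hYcard
  have hcopYD : (Nat.card (Subgroup.zpowers y)).Coprime (Nat.card D) := by
    rw [hYcard]; exact Nat.Coprime.pow_left _ hD.symm
  have hYN : Subgroup.zpowers y ≤ Subgroup.normalizer (H : Set G) := (Subgroup.zpowers_le).mpr hyN
  have hY_CD : Subgroup.zpowers y ≤
      Subgroup.normalizer ((D ⊓ Subgroup.centralizer (H : Set G) : Subgroup G) : Set G) := by
    apply h8_le_normalizer_inf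
    · rw [Subgroup.normalizer_eq_top_iff.mpr hDn]; exact le_top
    · exact le_trans hYN (normalizer_le_normalizer_centralizer' H)
  have hY'N : (Subgroup.zpowers y).map (MulAut.conj d⁻¹).toMonoidHom ≤
      Subgroup.normalizer (H : Set G) := by
    rw [MonoidHom.map_zpowers, Subgroup.zpowers_le]
    have e : (MulAut.conj d⁻¹).toMonoidHom y = d⁻¹ * y * d := by
      show d⁻¹ * y * d⁻¹⁻¹ = d⁻¹ * y * d
      rw [inv_inv]
    rw [e]; exact hdy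
  have hY'L : (Subgroup.zpowers y).map (MulAut.conj d⁻¹).toMonoidHom ≤
      D ⊓ Subgroup.centralizer (H : Set G) ⊔ Subgroup.zpowers y := by
    rintro _ ⟨w, hw, rfl⟩
    have h1 : (MulAut.conj d⁻¹).toMonoidHom w ∈ Subgroup.normalizer (H : Set G) :=
      hY'N ⟨w, hw, rfl⟩
    have h2 : (MulAut.conj d⁻¹).toMonoidHom w * w⁻¹ ∈ D := by
      have e : (MulAut.conj d⁻¹).toMonoidHom w * w⁻¹ = d⁻¹ * (w * d * w⁻¹) := by
        show d⁻¹ * w * d⁻¹⁻¹ * w⁻¹ = d⁻¹ * (w * d * w⁻¹)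
        group
      rw [e]; exact Subgroup.mul_mem _ (Subgroup.inv_mem _ hd) (hDn.conj_mem d hd w)
    have h3 := hND _ h2 (Subgroup.mul_mem _ h1 (Subgroup.inv_mem _ (hYN hw)))
    have e : (MulAut.conj d⁻¹).toMonoidHom w = ((MulAut.conj d⁻¹).toMonoidHom w * w⁻¹) * w := by
      group
    rw [e]; exact Subgroup.mul_mem_sup h3 hw
  have hidx : ¬ p ∣ (Subgroup.zpowers y).relIndex
      (D ⊓ Subgroup.centralizer (H : Set G) ⊔ Subgroup.zpowers y) := by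
    have hcop' : (Nat.card (Subgroup.zpowers y)).Coprime
        (Nat.card ↥(D ⊓ Subgroup.centralizer (H : Set G))) :=
      Nat.Coprime.coprime_dvd_right (Subgroup.card_dvd_of_le inf_le_left) hcopYD
    have h1 := card_sup_of_coprime hY_CD hcop'
    rw [sup_comm] at h1
    have h2 := card_mul_relIndex_of_le (le_sup_right : Subgroup.zpowers y ≤
      D ⊓ Subgroup.centralizer (H : Set G) ⊔ Subgroup.zpowers y)
    rw [h1, mul_comm] at h2
    have h3 : (Subgroup.zpowers y).relIndex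
        (D ⊓ Subgroup.centralizer (H : Set G) ⊔ Subgroup.zpowers y) =
        Nat.card ↥(D ⊓ Subgroup.centralizer (H : Set G)) :=
      Nat.eq_of_mul_eq_mul_right Nat.card_pos h2
    rw [h3]
    intro hdvd
    exact (Nat.Prime.coprime_iff_not_dvd hp.out).mp hD.symm
      (dvd_trans hdvd (Subgroup.card_dvd_of_le inf_le_left))
  obtain ⟨l, hl, hle⟩ := h8_exists_conj_le_of_relIndex
    (le_sup_right : Subgroup.zpowers y ≤
      D ⊓ Subgroup.centralizer (H : Set G) ⊔ Subgroup.zpowers y) hY'L hYp (hYp.map _) hidx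
  obtain ⟨c, hc, a, ha, hla⟩ := exists_mul_of_mem_sup
    (N := D ⊓ Subgroup.centralizer (H : Set G)) (A := Subgroup.zpowers y) hY_CD
    (g := l⁻¹) (Subgroup.inv_mem _ hl)
  have hkey : c⁻¹ * d⁻¹ * y * (c⁻¹ * d⁻¹)⁻¹ ∈ Subgroup.zpowers y := by
    have h1 : l * (d⁻¹ * y * d⁻¹⁻¹) * l⁻¹ ∈ Subgroup.zpowers y :=
      hle (Subgroup.mem_map_of_mem _ (Subgroup.mem_map_of_mem _ (Subgroup.mem_zpowers y)))
    have e : c⁻¹ * d⁻¹ * y * (c⁻¹ * d⁻¹)⁻¹ = a * (l * (d⁻¹ * y * d⁻¹⁻¹) * l⁻¹) * a⁻¹ := by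
      have hl' : l = a⁻¹ * c⁻¹ := by
        rw [← inv_inv l, hla]; group
      rw [hl']; group
    rw [e]
    exact Subgroup.mul_mem _ (Subgroup.mul_mem _ ha h1) (Subgroup.inv_mem _ ha)
  have hcD : c ∈ D := (Subgroup.mem_inf.mp hc).1
  have heD : c⁻¹ * d⁻¹ ∈ D := Subgroup.mul_mem _ (Subgroup.inv_mem _ hcD) (Subgroup.inv_mem _ hd)
  have h5 : c⁻¹ * d⁻¹ * y * (c⁻¹ * d⁻¹)⁻¹ * y⁻¹ = 1 := by
    apply eq_one_of_mem_of_mem_coprime hcopYD
    · exact Subgroup.mul_mem _ hkey (Subgroup.inv_mem _ (Subgroup.mem_zpowers y))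
    · have e : c⁻¹ * d⁻¹ * y * (c⁻¹ * d⁻¹)⁻¹ * y⁻¹ = (c⁻¹ * d⁻¹) * (y * (c⁻¹ * d⁻¹)⁻¹ * y⁻¹) := by
        group
      rw [e]
      exact Subgroup.mul_mem _ heD (hDn.conj_mem _ (Subgroup.inv_mem _ heD) y)
  refine ⟨(c⁻¹ * d⁻¹)⁻¹, Subgroup.mem_inf.mpr ⟨Subgroup.inv_mem _ heD, ?_⟩, c⁻¹,
    Subgroup.inv_mem _ hc, by group⟩
  apply Subgroup.inv_mem
  rw [Subgroup.mem_centralizer_iff]
  intro w hw
  rw [Set.mem_singleton_iff] at hw
  rw [hw]
  calc y * (c⁻¹ * d⁻¹) = (c⁻¹ * d⁻¹ * y * (c⁻¹ * d⁻¹)⁻¹ * y⁻¹)⁻¹ * ((c⁻¹ * d⁻¹) * y) := by group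
    _ = (c⁻¹ * d⁻¹) * y := by rw [h5, inv_one, one_mul]

/-- Let P be a Sylow p-subgroup of a finite group G, H = P ∩ O_{p',p}(G), N = N_G(H) and D = O_{p'}(G). (a) If y is an element of p-power order of N and d ∈ D with d⁻¹ y d ∈ N, then d = d₁ d₂ with d₁ ∈ C_D(y) and d₂ ∈ C_D(H). (b) Two elements of P that are conjugate in G are conjugate in N. -/
theorem result {G : Type*} [Group G] [Finite G] {p : ℕ} [Fact p.Prime] (P : Sylow p G) :
    (∀ y ∈ Subgroup.normalizer (((P : Subgroup G) ⊓ Cfsg.pPrimePCore p G : Subgroup G) : Set G), (∃ k : ℕ, orderOf y = p ^ k) →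
      ∀ d ∈ Cfsg.pPrimeCore p G, d⁻¹ * y * d ∈ Subgroup.normalizer (((P : Subgroup G) ⊓ Cfsg.pPrimePCore p G : Subgroup G) : Set G) →
        ∃ d₁ ∈ Cfsg.pPrimeCore p G ⊓ Subgroup.centralizer ({y} : Set G),
          ∃ d₂ ∈ Cfsg.pPrimeCore p G ⊓ Subgroup.centralizer (((P : Subgroup G) ⊓ Cfsg.pPrimePCore p G : Subgroup G) : Set G), d = d₁ * d₂) ∧
    ∀ x y : G, x ∈ (P : Subgroup G) → y ∈ (P : Subgroup G) → IsConj x y →
      ∃ n ∈ Subgroup.normalizer (((P : Subgroup G) ⊓ Cfsg.pPrimePCore p G : Subgroup G) : Set G), n * x * n⁻¹ = y := by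
  haveI hDn : (Cfsg.pPrimeCore p G).Normal := pPrimeCore_normal p G
  haveI hVn : (Cfsg.pPrimePCore p G).Normal :=
    (pCore_normal p (G ⧸ Cfsg.pPrimeCore p G)).comap _
  have hπs : Function.Surjective (QuotientGroup.mk' (Cfsg.pPrimeCore p G)) :=
    QuotientGroup.mk'_surjective _
  have hHp : IsPGroup p ↥((P : Subgroup G) ⊓ Cfsg.pPrimePCore p G) := P.2.to_le inf_le_left
  have hA : ∀ y ∈ Subgroup.normalizer (((P : Subgroup G) ⊓ Cfsg.pPrimePCore p G : Subgroup G) : Set G),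
      (∃ k : ℕ, orderOf y = p ^ k) → ∀ d ∈ Cfsg.pPrimeCore p G,
      d⁻¹ * y * d ∈ Subgroup.normalizer (((P : Subgroup G) ⊓ Cfsg.pPrimePCore p G : Subgroup G) : Set G) →
        ∃ d₁ ∈ Cfsg.pPrimeCore p G ⊓ Subgroup.centralizer ({y} : Set G),
          ∃ d₂ ∈ Cfsg.pPrimeCore p G ⊓ Subgroup.centralizer
            (((P : Subgroup G) ⊓ Cfsg.pPrimePCore p G : Subgroup G) : Set G), d = d₁ * d₂ :=
    fun y hy hyp d hd hdy => partA _ _ (pPrimeCore_coprime p G) hHp y hy hyp d hd hdy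
  refine ⟨hA, ?_⟩
  intro x y hx hy hxy
  obtain ⟨g, hg⟩ := isConj_iff.mp hxy
  -- `P ≤ N`
  have hPN : (P : Subgroup G) ≤
      Subgroup.normalizer (((P : Subgroup G) ⊓ Cfsg.pPrimePCore p G : Subgroup G) : Set G) := by
    apply h8_le_normalizer_inf Subgroup.le_normalizer
    rw [Subgroup.normalizer_eq_top_iff.mpr hVn]; exact le_top
  -- Frattini: `g = n * d`
  have hidx : ¬ p ∣ ((P : Subgroup G) ⊓ Cfsg.pPrimePCore p G).relIndex (Cfsg.pPrimePCore p G) := by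
    rw [Subgroup.inf_relIndex_right]; exact sylow_not_dvd_relIndex_of_normal P _
  have hR : ((P : Subgroup G) ⊓ Cfsg.pPrimePCore p G).map (MulAut.conj g).toMonoidHom ≤
      Cfsg.pPrimePCore p G := by
    rintro _ ⟨w, hw, rfl⟩
    exact hVn.conj_mem w (Subgroup.mem_inf.mp hw).2 g
  obtain ⟨l, hl, hle⟩ := h8_exists_conj_le_of_relIndex
    (inf_le_right : (P : Subgroup G) ⊓ Cfsg.pPrimePCore p G ≤ Cfsg.pPrimePCore p G) hR hHp
    (hHp.map _) hidx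
  have hlgN : l * g ∈
      Subgroup.normalizer (((P : Subgroup G) ⊓ Cfsg.pPrimePCore p G : Subgroup G) : Set G) := by
    apply sy_mem_normalizer_of_conj_le
    intro w hw
    have := hle (Subgroup.mem_map_of_mem _ (Subgroup.mem_map_of_mem _ hw))
    have e : l * g * w * (l * g)⁻¹ = (MulAut.conj l).toMonoidHom ((MulAut.conj g).toMonoidHom w) := by
      show l * g * w * (l * g)⁻¹ = l * (g * w * g⁻¹) * l⁻¹
      group
    rw [e]; exact this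
  -- `l⁻¹ = s * o` with `s ∈ P ∩ V`, `o ∈ D`
  have hDV : Cfsg.pPrimeCore p G ≤ Cfsg.pPrimePCore p G := by
    intro o ho
    show QuotientGroup.mk' (Cfsg.pPrimeCore p G) o ∈ Cfsg.pCore p (G ⧸ Cfsg.pPrimeCore p G)
    have : QuotientGroup.mk' (Cfsg.pPrimeCore p G) o = 1 := by
      rw [QuotientGroup.mk'_apply, QuotientGroup.eq_one_iff]; exact ho
    rw [this]; exact Subgroup.one_mem _
  have hVdecomp : ∀ v ∈ Cfsg.pPrimePCore p G, ∃ s ∈ (P : Subgroup G) ⊓ Cfsg.pPrimePCore p G,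
      ∃ o ∈ Cfsg.pPrimeCore p G, v = s * o := by
    intro v hv
    have hv' : QuotientGroup.mk' (Cfsg.pPrimeCore p G) v ∈
        Cfsg.pCore p (G ⧸ Cfsg.pPrimeCore p G) := hv
    have hUS : Cfsg.pCore p (G ⧸ Cfsg.pPrimeCore p G) ≤
        ((P.mapSurjective hπs : Sylow p (G ⧸ Cfsg.pPrimeCore p G)) :
          Subgroup (G ⧸ Cfsg.pPrimeCore p G)) := by
      haveI := pCore_normal p (G ⧸ Cfsg.pPrimeCore p G)
      exact (pCore_isPGroup p _).le_sylow_of_normal _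
    have hv2 := hUS hv'
    rw [Sylow.coe_mapSurjective] at hv2
    obtain ⟨s, hs, hse⟩ := hv2
    have h3 : s⁻¹ * v ∈ Cfsg.pPrimeCore p G := by
      rw [← QuotientGroup.ker_mk' (Cfsg.pPrimeCore p G), MonoidHom.mem_ker, map_mul, map_inv,
        hse]
      group
    have hsV : s ∈ Cfsg.pPrimePCore p G := by
      have e : s = v * (s⁻¹ * v)⁻¹ := by group
      rw [e]; exact Subgroup.mul_mem _ hv (Subgroup.inv_mem _ (hDV h3))
    exact ⟨s, Subgroup.mem_inf.mpr ⟨hs, hsV⟩, s⁻¹ * v, h3, by group⟩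
  obtain ⟨s, hs, o, ho, hlso⟩ := hVdecomp l⁻¹ (Subgroup.inv_mem _ hl)
  -- `g = n * d` with `n = s * (l * g)`, `d = (l g)⁻¹ o (l g)`
  obtain ⟨n, hndef⟩ : ∃ n, n = s * (l * g) := ⟨_, rfl⟩
  obtain ⟨d, hddef⟩ : ∃ d, d = (l * g)⁻¹ * o * (l * g)⁻¹⁻¹ := ⟨_, rfl⟩
  have hnN : n ∈
      Subgroup.normalizer (((P : Subgroup G) ⊓ Cfsg.pPrimePCore p G : Subgroup G) : Set G) := by
    rw [hndef]; exact Subgroup.mul_mem _ (Subgroup.le_normalizer hs) hlgN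
  have hdD : d ∈ Cfsg.pPrimeCore p G := by
    rw [hddef]; exact hDn.conj_mem o ho _
  have hgnd : g = n * d := by
    have e : g = l⁻¹ * (l * g) := by group
    rw [hndef, hddef]
    conv_lhs => rw [e, hlso]
    group
  -- apply (a) to `x` and `d⁻¹`
  have hxN := hPN hx
  have hxp : ∃ k : ℕ, orderOf x = p ^ k := by
    obtain ⟨k, hk⟩ := (IsPGroup.iff_orderOf.mp P.2) ⟨x, hx⟩
    rw [Subgroup.orderOf_mk] at hk
    exact ⟨k, hk⟩
  have hdx : d⁻¹⁻¹ * x * d⁻¹ ∈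
      Subgroup.normalizer (((P : Subgroup G) ⊓ Cfsg.pPrimePCore p G : Subgroup G) : Set G) := by
    have e : d⁻¹⁻¹ * x * d⁻¹ = n⁻¹ * y * n := by
      rw [← hg, hgnd]; group
    rw [e]
    exact Subgroup.mul_mem _ (Subgroup.mul_mem _ (Subgroup.inv_mem _ hnN) (hPN hy)) hnN
  obtain ⟨d₁, hd₁, d₂, hd₂, hdd⟩ := hA x hxN hxp d⁻¹ (Subgroup.inv_mem _ hdD) hdx
  have hd₁x : x * d₁ = d₁ * x :=
    Subgroup.mem_centralizer_iff.mp (Subgroup.mem_inf.mp hd₁).2 x (Set.mem_singleton x)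
  refine ⟨n * d₂⁻¹, Subgroup.mul_mem _ hnN (Subgroup.inv_mem _
    (Subgroup.centralizer_le_normalizer _ (Subgroup.mem_inf.mp hd₂).2)), ?_⟩
  have hd' : d = d₂⁻¹ * d₁⁻¹ := by
    rw [← inv_inv d, hdd]; group
  rw [← hg, hgnd, hd']
  calc n * d₂⁻¹ * x * (n * d₂⁻¹)⁻¹ = n * d₂⁻¹ * (d₁⁻¹ * (d₁ * x)) * d₂ * n⁻¹ := by group
    _ = n * d₂⁻¹ * (d₁⁻¹ * (x * d₁)) * d₂ * n⁻¹ := by rw [hd₁x]
    _ = n * (d₂⁻¹ * d₁⁻¹) * x * (n * (d₂⁻¹ * d₁⁻¹))⁻¹ := by group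

end Cfsg.Agent.S1907
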