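import Cfsg.Statements.S1939
import Cfsg.Agent.Lib.Helper2.SylowAux
import Cfsg.Agent.Lib.Helper2.Hall
-- import your own Cfsg.Agent.* helpers here

set_option autoImplicit false
open Cfsg

namespace Cfsg.Agent.S1939

open Cfsg.Agent.Lib.Helper2

/-- Let S be a Sylow p-subgroup of the finite group G and a an element of S that is the only G-conjugate of a lying in S. Then every power of a has the same property: for every n, the only G-conjugate of a^n lying in S is a^n. -/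
theorem result {G : Type*} [Group G] [Finite G] {p : ℕ} [Fact p.Prime] (S : Sylow p G) (a : G)
    (haS : a ∈ (S : Subgroup G)) (hwc : ∀ g : G, g * a * g⁻¹ ∈ (S : Subgroup G) → g * a * g⁻¹ = a) (n : ℕ) :
    ∀ g : G, g * a ^ n * g⁻¹ ∈ (S : Subgroup G) → g * a ^ n * g⁻¹ = a ^ n := by
  intro g hg
  obtain ⟨k, hk⟩ := S.2 ⟨a, haS⟩
  have hak : a ^ p ^ k = 1 := congrArg Subtype.val hk
  have hak' : (g * a * g⁻¹) ^ p ^ k = 1 := by rw [conj_pow, hak]; group
  have hacen : ∀ s ∈ (S : Subgroup G), a * s = s * a := by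
    intro s hs
    have h1 := hwc s (Subgroup.mul_mem _ (Subgroup.mul_mem _ hs haS) (Subgroup.inv_mem _ hs))
    have h2 : s * a = s * a * s⁻¹ * s := by group
    rw [h2, h1]
  have haC : a ∈ Subgroup.centralizer ({g * a ^ n * g⁻¹} : Set G) := by
    rw [mem_centralizer_singleton_iff']
    exact (hacen _ hg).symm
  have ha'C : g * a * g⁻¹ ∈ Subgroup.centralizer ({g * a ^ n * g⁻¹} : Set G) := by
    rw [mem_centralizer_singleton_iff']
    have h1 : g * a ^ n * g⁻¹ * (g * a * g⁻¹) = g * (a ^ n * a) * g⁻¹ := by group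
    have h2 : g * a * g⁻¹ * (g * a ^ n * g⁻¹) = g * (a * a ^ n) * g⁻¹ := by group
    rw [h1, h2, ← pow_succ, ← pow_succ']
  obtain ⟨c, hcC, R, haR, hcR⟩ := exists_sylow_conj_in_subgroup _ a (g * a * g⁻¹) haC ha'C hak hak'
  obtain ⟨t, rfl⟩ := MulAction.exists_smul_eq G S R
  rw [mem_sylow_smul_iff] at haR hcR
  have e1 : t⁻¹ * a * t = a := by
    have h1 := hwc t⁻¹ (by rw [inv_inv]; exact haR)
    rwa [inv_inv] at h1
  have e2 : t⁻¹ * (c * (g * a * g⁻¹) * c⁻¹) * t = a := by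
    have h0 : t⁻¹ * (c * (g * a * g⁻¹) * c⁻¹) * t = (t⁻¹ * c * g) * a * (t⁻¹ * c * g)⁻¹ := by group
    rw [h0] at hcR ⊢
    exact hwc _ hcR
  have e3 : c * (g * a * g⁻¹) * c⁻¹ = a := by
    have h1 : c * (g * a * g⁻¹) * c⁻¹ = t * (t⁻¹ * (c * (g * a * g⁻¹) * c⁻¹) * t) * t⁻¹ := by group
    rw [h1, e2]
    have h2 : a = t * (t⁻¹ * a * t) * t⁻¹ := by group
    conv_rhs => rw [h2, e1]
  have e4 : g * a ^ n * g⁻¹ = c⁻¹ * a ^ n * c := by
    have h1 : g * a * g⁻¹ = c⁻¹ * (c * (g * a * g⁻¹) * c⁻¹) * c := by group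
    rw [e3] at h1
    have h2 : c⁻¹ * a * c = c⁻¹ * a * c⁻¹⁻¹ := by rw [inv_inv]
    rw [← conj_pow, h1, h2, conj_pow, inv_inv]
  rw [mem_centralizer_singleton_iff'] at hcC
  rw [e4] at hcC ⊢
  have h5 : c⁻¹ * a ^ n * c * c = c * (c⁻¹ * a ^ n * c) := hcC
  have h6 : c⁻¹ * a ^ n * c = c * (c⁻¹ * a ^ n * c) * c⁻¹ := by rw [← h5]; group
  rw [h6]; group

end Cfsg.Agent.S1939
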