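import Cfsg.Statements.S1940
-- import your own Cfsg.Agent.* helpers here

set_option autoImplicit false
open Cfsg

namespace Cfsg.Agent.S1940

/-- Let the finite group L act by automorphisms on the finite abelian group M, and let N be an L-invariant subgroup of M such that M/N is a p-group on which L acts trivially (every l • m lies in the coset mN). If every element of M is a product of an element of N and an element fixed by a Sylow p-subgroup T of L, then every element of M is a product of an element of N and an element fixed by all of L. -/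
theorem result {L : Type*} [Group L] [Finite L] {M : Type*} [CommGroup M] [Finite M] [MulDistribMulAction L M]
    {p : ℕ} [Fact p.Prime] (N : Subgroup M) (hN : ∀ (l : L) (m : M), m ∈ N → l • m ∈ N)
    (hquot : IsPGroup p (M ⧸ N)) (htriv : ∀ (l : L) (m : M), (l • m) * m⁻¹ ∈ N) (T : Sylow p L)
    (hT : ∀ m : M, ∃ n ∈ N, ∃ c : M, (∀ t ∈ (T : Subgroup L), t • c = c) ∧ m = n * c) :
    ∀ m : M, ∃ n ∈ N, ∃ c : M, (∀ l : L, l • c = c) ∧ m = n * c := by
  classical
  intro m
  obtain ⟨n, hn, c, hc, rfl⟩ := hT m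
  haveI : Fintype (L ⧸ (T : Subgroup L)) := Fintype.ofFinite _
  let π : M →* M ⧸ N := QuotientGroup.mk' N
  have hπ : ∀ (l : L) (x : M), π (l • x) = π x := by
    intro l x
    have h1 : π ((l • x) * x⁻¹) = 1 := (QuotientGroup.eq_one_iff _).mpr (htriv l x)
    rw [map_mul, map_inv, mul_inv_eq_one] at h1
    exact h1
  have hout : ∀ (l : L) (q : L ⧸ (T : Subgroup L)), l • (Quotient.out q) • c = (Quotient.out (l • q)) • c := by
    intro l q
    have h1 : (QuotientGroup.mk (Quotient.out (l • q)) : L ⧸ (T : Subgroup L)) = QuotientGroup.mk (l * Quotient.out q) := by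
      rw [QuotientGroup.out_eq']
      conv_lhs => rw [← QuotientGroup.out_eq' q]
      rfl
    rw [QuotientGroup.eq] at h1
    have h2 := hc _ h1
    rw [← mul_smul]
    have h3 : l * Quotient.out q = Quotient.out (l • q) * ((Quotient.out (l • q))⁻¹ * (l * Quotient.out q)) := by group
    rw [h3, mul_smul, h2]
  set c' : M := ∏ q : L ⧸ (T : Subgroup L), (Quotient.out q) • c with hc'
  have hfix : ∀ l : L, l • c' = c' := by
    intro l
    rw [hc', Finset.smul_prod']
    refine Fintype.prod_equiv (MulAction.toPerm l) _ _ ?_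
    intro q
    exact hout l q
  obtain ⟨e, he⟩ := IsPGroup.iff_card.mp hquot
  have hpe : ∀ y : M ⧸ N, y ^ p ^ e = 1 := by
    intro y
    rw [← he]
    exact pow_card_eq_one'
  have hπc' : π c' = π c ^ (T : Subgroup L).index := by
    rw [hc', map_prod]
    have h1 : ∀ q ∈ (Finset.univ : Finset (L ⧸ (T : Subgroup L))), π (Quotient.out q • c) = π c := fun q _ => hπ (Quotient.out q) c
    rw [Finset.prod_congr rfl h1]
    rw [Finset.prod_const, Finset.card_univ, Subgroup.index, Nat.card_eq_fintype_card]
  have hcop : Nat.Coprime (T : Subgroup L).index (p ^ e) :=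
    Nat.Coprime.pow_right _ (Nat.Coprime.symm ((Fact.out : p.Prime).coprime_iff_not_dvd.mpr T.not_dvd_index))
  have hgcd := Nat.gcd_eq_gcd_ab (T : Subgroup L).index (p ^ e)
  rw [hcop] at hgcd
  set a := Nat.gcdA (T : Subgroup L).index (p ^ e)
  set b := Nat.gcdB (T : Subgroup L).index (p ^ e)
  have hfix' : ∀ l : L, l • (c' ^ a) = c' ^ a := by
    intro l
    have := map_zpow (MulDistribMulAction.toMonoidHom M l) c' a
    simp only [MulDistribMulAction.toMonoidHom_apply] at this
    rw [this, hfix]
  have hkey : π c = π (c' ^ a) := by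
    rw [map_zpow, hπc', ← zpow_natCast, ← zpow_mul]
    have h1 : π c = π c ^ ((1 : ℕ) : ℤ) := by simp
    conv_lhs => rw [h1, hgcd]
    rw [zpow_add, zpow_mul (π c) ((p ^ e : ℕ) : ℤ) b, zpow_natCast, hpe, one_zpow, mul_one]
  refine ⟨n * c * (c' ^ a)⁻¹, ?_, c' ^ a, hfix', by group⟩
  rw [← QuotientGroup.eq_one_iff]
  have h2 : ((n * c * (c' ^ a)⁻¹ : M) : M ⧸ N) = π n * π c * (π (c' ^ a))⁻¹ := by
    simp [π]
  rw [h2, ← hkey]
  have h3 : π n = 1 := (QuotientGroup.eq_one_iff _).mpr hn
  rw [h3]; group

end Cfsg.Agent.S1940
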