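import Cfsg.Statements.S1947
import Cfsg.Agent.Lib.Helper9.FrobOmega
import Cfsg.Agent.Lib.Helper7.Coprime2

set_option autoImplicit false
open Cfsg

namespace Cfsg.Agent.S1947


open Cfsg.Agent.Lib.Helper9 Cfsg.Agent.Lib.Helper2 Cfsg.Agent.Lib.Helper7
open scoped commutatorElement

universe u

theorem main {G : Type u} [Group G] [Finite G] {p : ℕ} [Fact p.Prime] (n : ℕ)
    (h : ∀ a : G, (a ^ p = 1 ∨ (p = 2 ∧ a ^ 4 = 1)) → a ∈ Subgroup.upperCentralSeries G n) :
    Cfsg.HasNormalPComplement p G := by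
  have hp := (Fact.out : p.Prime)
  obtain ⟨e, hpe, hch, he1, he2⟩ := exists_omega_exp p
  apply Cfsg.Agent.Lib.Helper2.frobenius
  apply frobCond_of_omega p e hpe hch
  intro Q hQ g hg hgp x hx hxe
  have hxn : x ∈ Subgroup.upperCentralSeries G n := by
    apply h
    by_cases h2 : p = 2
    · right; rw [he2 h2] at hxe; exact ⟨h2, hxe⟩
    · left; rw [he1 h2] at hxe; exact hxe
  have hAQ : ∀ i, Subgroup.zpowers g ≤ Subgroup.normalizer
      ((Q ⊓ Subgroup.upperCentralSeries G i : Subgroup G) : Set G) := by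
    intro i
    rw [Subgroup.zpowers_le, Subgroup.mem_normalizer_iff]
    intro y
    rw [Subgroup.mem_inf, Subgroup.mem_inf, ← Subgroup.mem_normalizer_iff.mp hg y]
    have hn : (Subgroup.upperCentralSeries G i).Normal := inferInstance
    constructor
    · rintro ⟨h1, h2⟩; exact ⟨h1, hn.conj_mem y h2 g⟩
    · rintro ⟨h1, h2⟩
      refine ⟨h1, ?_⟩
      have := hn.conj_mem _ h2 g⁻¹
      simpa [mul_assoc] using this
  have hcop : ∀ i, (Nat.card (Subgroup.zpowers g)).Coprime
      (Nat.card (Q ⊓ Subgroup.upperCentralSeries G i : Subgroup G)) := by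
    intro i
    rw [Nat.card_zpowers]
    have hQi : IsPGroup p (Q ⊓ Subgroup.upperCentralSeries G i : Subgroup G) :=
      hQ.to_le inf_le_left
    obtain ⟨k, hk⟩ := IsPGroup.iff_card.mp hQi
    rw [hk]; exact hgp.pow_right k
  have hbot : ∀ i, ⁅(Q ⊓ Subgroup.upperCentralSeries G i : Subgroup G), Subgroup.zpowers g⁆ = ⊥ := by
    intro i
    induction i with
    | zero =>
      rw [Subgroup.upperCentralSeries_zero, inf_bot_eq, Subgroup.commutator_bot_left]
    | succ i ih =>
      rw [← commutator_commutator_eq (Subgroup.zpowers g) _ (hAQ (i+1)) (hcop (i+1))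
        (Or.inl inferInstance), eq_bot_iff, ← ih]
      apply Subgroup.commutator_mono _ le_rfl
      rw [Subgroup.commutator_le]
      intro y hy a ha
      refine ⟨?_, ?_⟩
      · have h1 : a * y⁻¹ * a⁻¹ ∈ Q := by
          have haN : a ∈ Subgroup.normalizer (Q : Set G) := (Subgroup.zpowers_le.mpr hg) ha
          exact (Subgroup.mem_normalizer_iff.mp haN y⁻¹).mp (Q.inv_mem hy.1)
        have h2 : ⁅y, a⁆ = y * (a * y⁻¹ * a⁻¹) := by rw [commutatorElement_def]; group
        rw [h2]; exact Q.mul_mem hy.1 h1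
      · exact Subgroup.mem_upperCentralSeries_succ_iff.mp hy.2 a
  have h3 : ⁅x, g⁆ ∈ ⁅(Q ⊓ Subgroup.upperCentralSeries G n : Subgroup G), Subgroup.zpowers g⁆ :=
    Subgroup.commutator_mem_commutator ⟨hx, hxn⟩ (Subgroup.mem_zpowers g)
  rw [hbot n, Subgroup.mem_bot, commutatorElement_eq_one_iff_mul_comm] at h3
  exact h3.symm


/-- Let G be a finite group and p a prime. If every element of G of order dividing p (dividing 4 when p = 2) lies in some fixed term Z_n(G) of the upper central series, then G has a normal p-complement. -/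
theorem result {G : Type*} [Group G] [Finite G] {p : ℕ} [Fact p.Prime] (n : ℕ)
    (h : ∀ a : G, (a ^ p = 1 ∨ (p = 2 ∧ a ^ 4 = 1)) → a ∈ Subgroup.upperCentralSeries G n) : Cfsg.HasNormalPComplement p G := by
  exact main n h

end Cfsg.Agent.S1947
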