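import Cfsg.Statements.S1948
import Cfsg.Agent.Lib.Helper1.UpperP
import Cfsg.Agent.Lib.Helper2.Index
import Cfsg.Agent.Lib.Helper8.CoprimeSylow

set_option autoImplicit false
open Cfsg

open Cfsg Cfsg.Agent.Lib.Helper1 Cfsg.Agent.Lib.Helper7 Cfsg.Agent.Lib.Helper8 Cfsg.Agent.Lib.Helper2

namespace Cfsg.Agent.S1948

theorem isPSolvable_of_chain3 (p : ℕ) {G : Type*} [Group G] (N : Subgroup G) [hN : N.Normal]
    (h1 : (∃ m : ℕ, Nat.card N = p ^ m) ∨ (Nat.card N).Coprime p)
    (h2 : (∃ m : ℕ, N.index = p ^ m) ∨ (N.index).Coprime p) : Cfsg.IsPSolvable p G := by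
  refine ⟨2, ![⊥, N, ⊤], rfl, rfl, ?_, ?_, ?_⟩
  · rw [Fin.monotone_iff_le_succ]
    intro i
    fin_cases i
    · exact bot_le
    · exact le_top
  · intro i
    fin_cases i
    · exact Subgroup.normal_bot
    · exact hN
    · exact Subgroup.normal_top
  · intro i
    fin_cases i
    · have e : (⊥ : Subgroup G).relIndex N = Nat.card N := Subgroup.relIndex_bot_left N
      show (∃ m : ℕ, (⊥ : Subgroup G).relIndex N = p ^ m) ∨ ((⊥ : Subgroup G).relIndex N).Coprime p
      rw [e]; exact h1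
    · have e : N.relIndex ⊤ = N.index := Subgroup.relIndex_top_right N
      show (∃ m : ℕ, N.relIndex ⊤ = p ^ m) ∨ (N.relIndex ⊤).Coprime p
      rw [e]; exact h2

/-- Let S be a Sylow p-subgroup of the finite group G. Then G = N_G(S)·O_{p'}(G) if and only if G is p-constrained and N_G(S) controls fusion in S, in the sense that whenever a subgroup Q of S has a conjugate g Q g⁻¹ inside S, the element g is a product n c with n normalizing S and c centralizing Q. -/
theorem result {G : Type*} [Group G] [Finite G] {p : ℕ} [Fact p.Prime] (S : Sylow p G) :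
    Subgroup.normalizer ((S : Subgroup G) : Set G) ⊔ Cfsg.pPrimeCore p G = ⊤ ↔
      (Cfsg.IsPConstrained p G ∧
        ∀ Q : Subgroup G, Q ≤ (S : Subgroup G) → ∀ g : G, Q.map (MulAut.conj g).toMonoidHom ≤ (S : Subgroup G) →
          ∃ n ∈ Subgroup.normalizer ((S : Subgroup G) : Set G), ∃ c ∈ Subgroup.centralizer (Q : Set G), g = n * c) := by
  haveI hOn : (Cfsg.pPrimeCore p G).Normal := pPrimeCore_normal p G
  have hπs : Function.Surjective (QuotientGroup.mk' (Cfsg.pPrimeCore p G)) :=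
    QuotientGroup.mk'_surjective _
  have hcopSO : (Nat.card (S : Subgroup G)).Coprime (Nat.card (Cfsg.pPrimeCore p G)) := by
    obtain ⟨j, hj⟩ := IsPGroup.iff_card.mp S.2
    rw [hj]
    exact Nat.Coprime.pow_left _ (pPrimeCore_coprime p G).symm
  constructor
  · intro htop
    have hSn : ((S.mapSurjective hπs : Sylow p (G ⧸ Cfsg.pPrimeCore p G)) :
        Subgroup (G ⧸ Cfsg.pPrimeCore p G)).Normal := by
      rw [← Subgroup.normalizer_eq_top_iff, Sylow.coe_mapSurjective, eq_top_iff]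
      have h1 : (Subgroup.normalizer ((S : Subgroup G) : Set G) ⊔ Cfsg.pPrimeCore p G).map
          (QuotientGroup.mk' (Cfsg.pPrimeCore p G)) = ⊤ := by
        rw [htop, ← MonoidHom.range_eq_map, MonoidHom.range_eq_top]; exact hπs
      rw [← h1, Subgroup.map_sup]
      refine sup_le (Subgroup.le_normalizer_map _) ?_
      have h2 : (Cfsg.pPrimeCore p G).map (QuotientGroup.mk' (Cfsg.pPrimeCore p G)) = ⊥ :=
        (Subgroup.map_eq_bot_iff _).mpr (by rw [QuotientGroup.ker_mk'])
      rw [h2]; exact bot_le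
    have hsolv : Cfsg.IsPSolvable p (G ⧸ Cfsg.pPrimeCore p G) := by
      haveI := hSn
      refine isPSolvable_of_chain3 p ((S.mapSurjective hπs : Sylow p _) : Subgroup _)
        (Or.inl (IsPGroup.iff_card.mp (S.mapSurjective hπs).2)) (Or.inr ?_)
      exact (Nat.Coprime.symm ((Nat.Prime.coprime_iff_not_dvd Fact.out).mpr
        (S.mapSurjective hπs).not_dvd_index))
    refine ⟨?_, ?_⟩
    · rw [isPConstrained_iff_centralizer_le]
      exact centralizer_pCore_le_of_isPSolvable p _ hsolv (pPrimeCore_quotient_eq_bot p G)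
    · intro Q hQ g hg
      have hgtop : g ∈ Subgroup.normalizer ((S : Subgroup G) : Set G) ⊔ Cfsg.pPrimeCore p G := by
        rw [htop]; trivial
      obtain ⟨o, ho, n₁, hn₁, rfl⟩ := exists_mul_of_mem_sup (N := Cfsg.pPrimeCore p G)
        (A := Subgroup.normalizer ((S : Subgroup G) : Set G))
        (by rw [Subgroup.normalizer_eq_top_iff.mpr hOn]; exact le_top)
        (by rw [sup_comm]; exact hgtop)
      obtain ⟨c, hcdef⟩ : ∃ c, c = n₁⁻¹ * o * n₁ := ⟨_, rfl⟩
      have hc : c ∈ Cfsg.pPrimeCore p G := by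
        have := hOn.conj_mem o ho n₁⁻¹
        rw [hcdef]; simpa using this
      refine ⟨n₁, hn₁, c, ?_, by rw [hcdef]; group⟩
      rw [Subgroup.mem_centralizer_iff]
      intro x hx
      have h1 : (o * n₁) * x * (o * n₁)⁻¹ ∈ (S : Subgroup G) :=
        hg ⟨x, hx, rfl⟩
      have h2 : c * x * c⁻¹ ∈ (S : Subgroup G) := by
        have := conj_mem_of_mem_normalizer' hn₁ h1
        have e : n₁⁻¹ * (o * n₁ * x * (o * n₁)⁻¹) * n₁ = c * x * c⁻¹ := by
          rw [hcdef]; group
        rwa [e] at this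
      have h3 : c * x * c⁻¹ * x⁻¹ ∈ (S : Subgroup G) :=
        Subgroup.mul_mem _ h2 (Subgroup.inv_mem _ (hQ hx))
      have h4 : c * x * c⁻¹ * x⁻¹ ∈ Cfsg.pPrimeCore p G := by
        have e : c * x * c⁻¹ * x⁻¹ = c * (x * c⁻¹ * x⁻¹) := by group
        rw [e]; exact Subgroup.mul_mem _ hc (hOn.conj_mem _ (Subgroup.inv_mem _ hc) x)
      have h5 := eq_one_of_mem_of_mem_coprime hcopSO h3 h4
      calc x * c = (c * x * c⁻¹ * x⁻¹)⁻¹ * (c * x) := by group
        _ = c * x := by rw [h5, inv_one, one_mul]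
  · rintro ⟨hcon, hfus⟩
    rw [eq_top_iff]
    intro g _
    haveI hVn : (Cfsg.pPrimePCore p G).Normal :=
      (pCore_normal p (G ⧸ Cfsg.pPrimeCore p G)).comap _
    have hidx : ¬ p ∣ ((S : Subgroup G) ⊓ Cfsg.pPrimePCore p G).relIndex (Cfsg.pPrimePCore p G) := by
      rw [Subgroup.inf_relIndex_right]; exact sylow_not_dvd_relIndex_of_normal S _
    have hQp : IsPGroup p ↥((S : Subgroup G) ⊓ Cfsg.pPrimePCore p G) := S.2.to_le inf_le_left
    have hR : ((S : Subgroup G) ⊓ Cfsg.pPrimePCore p G).map (MulAut.conj g).toMonoidHom ≤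
        Cfsg.pPrimePCore p G := by
      rintro _ ⟨x, hx, rfl⟩
      exact hVn.conj_mem x (Subgroup.mem_inf.mp hx).2 g
    obtain ⟨l, hl, hle⟩ := h8_exists_conj_le_of_relIndex
      (inf_le_right : (S : Subgroup G) ⊓ Cfsg.pPrimePCore p G ≤ Cfsg.pPrimePCore p G) hR hQp
      (hQp.map _) hidx
    obtain ⟨n, hn, c, hc, hlg⟩ := hfus ((S : Subgroup G) ⊓ Cfsg.pPrimePCore p G) inf_le_left
      (l * g) (by
        rintro _ ⟨x, hx, rfl⟩
        have := hle (Subgroup.mem_map_of_mem _ (Subgroup.mem_map_of_mem _ hx))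
        have e : (MulAut.conj (l * g)).toMonoidHom x =
            (MulAut.conj l).toMonoidHom ((MulAut.conj g).toMonoidHom x) := by
          simp [MulAut.conj_apply, mul_assoc]
        rw [e]; exact (Subgroup.mem_inf.mp this).1)
    have hCV : Subgroup.centralizer
        (((S : Subgroup G) ⊓ Cfsg.pPrimePCore p G : Subgroup G) : Set G) ≤ Cfsg.pPrimePCore p G := by
      have hQ'p : IsPGroup p (((S : Subgroup G) ⊓ Cfsg.pPrimePCore p G).subgroupOf
          (Cfsg.pPrimePCore p G)) := hQp.comap_subtype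
      have := hcon (hQ'p.toSylow hidx)
      have h2 : ((hQ'p.toSylow hidx : Sylow p ↥(Cfsg.pPrimePCore p G)) :
          Subgroup ↥(Cfsg.pPrimePCore p G)) =
          ((S : Subgroup G) ⊓ Cfsg.pPrimePCore p G).subgroupOf (Cfsg.pPrimePCore p G) :=
        IsPGroup.toSylow_coe hQ'p hidx
      rw [h2, Subgroup.map_subgroupOf_eq_of_le inf_le_right] at this
      exact this
    have hV : Cfsg.pPrimePCore p G ≤
        Subgroup.normalizer ((S : Subgroup G) : Set G) ⊔ Cfsg.pPrimeCore p G := by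
      intro v hv
      have hv' : QuotientGroup.mk' (Cfsg.pPrimeCore p G) v ∈
          Cfsg.pCore p (G ⧸ Cfsg.pPrimeCore p G) := hv
      have hUS : Cfsg.pCore p (G ⧸ Cfsg.pPrimeCore p G) ≤
          ((S.mapSurjective hπs : Sylow p (G ⧸ Cfsg.pPrimeCore p G)) :
            Subgroup (G ⧸ Cfsg.pPrimeCore p G)) := by
        haveI := pCore_normal p (G ⧸ Cfsg.pPrimeCore p G)
        exact (pCore_isPGroup p _).le_sylow_of_normal _
      have hv2 := hUS hv'
      rw [Sylow.coe_mapSurjective] at hv2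
      obtain ⟨s, hs, hse⟩ := hv2
      have h3 : s⁻¹ * v ∈ Cfsg.pPrimeCore p G := by
        rw [← QuotientGroup.ker_mk' (Cfsg.pPrimeCore p G), MonoidHom.mem_ker, map_mul, map_inv,
          hse]
        group
      have e : v = s * (s⁻¹ * v) := by group
      rw [e]; exact Subgroup.mul_mem_sup (Subgroup.le_normalizer hs) h3
    have e : g = l⁻¹ * (n * c) := by rw [← hlg]; group
    rw [e]
    exact Subgroup.mul_mem _ (Subgroup.inv_mem _ (hV hl))
      (Subgroup.mul_mem _ (Subgroup.mem_sup_left hn) (hV (hCV hc)))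

end Cfsg.Agent.S1948
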