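import Cfsg.Statements.S1949
import Cfsg.Agent.Lib.Helper1.FusCoprime
import Cfsg.Agent.Lib.Helper1.FusCoprime2
import Cfsg.Agent.Lib.Helper1.FusCrit
import Cfsg.Agent.Lib.Helper1.FusFoc

set_option autoImplicit false
open Cfsg

open Cfsg.Agent.Lib.Helper1
open scoped commutatorElement

namespace Cfsg.Agent.S1949

/-- Let P be a finite p-group and G a group of automorphisms of P containing the inner automorphisms. Then there is a G-invariant subgroup D of P, contained in the subgroup generated by the elements x⁻¹α(x) with x in P and α in O^p(G), of exponent dividing p when p is odd and dividing 4 when p = 2, with [D, P] ≤ Z(D), such that every automorphism in G of order prime to p that fixes D elementwise is the identity; moreover every maximal abelian subgroup A of D is normal in P and every automorphism in G fixing A elementwise has p-power order. -/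
theorem result {P : Type*} [Group P] [Finite P] {p : ℕ} [Fact p.Prime] (hP : IsPGroup p P)
    (G : Subgroup (MulAut P)) (hG : Cfsg.Inn P ≤ G) :
    ∃ D : Subgroup P,
      (∀ α ∈ G, D.map α.toMonoidHom = D) ∧
      D ≤ Subgroup.closure {y : P | ∃ α ∈ Cfsg.pResidual p ↥G, ∃ x : P, y = x⁻¹ * (α : MulAut P) x} ∧
      (∀ d ∈ D, d ^ p = 1 ∨ (p = 2 ∧ d ^ 4 = 1)) ∧
      ⁅D, (⊤ : Subgroup P)⁆ ≤ D ⊓ Subgroup.centralizer (D : Set P) ∧
      (∀ α ∈ G, (orderOf α).Coprime p → (∀ d ∈ D, α d = d) → α = 1) ∧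
      ∀ A : Subgroup P, A ≤ D → IsMulCommutative ↥A →
        (∀ B : Subgroup P, A ≤ B → B ≤ D → IsMulCommutative ↥B → B = A) →
        A.Normal ∧ ∀ α ∈ G, (∀ a ∈ A, α a = a) → ∃ k : ℕ, orderOf α = p ^ k := by
  classical
  have hp : p.Prime := Fact.out
  have hconjG : ∀ y : P, MulAut.conj y ∈ G := fun y => hG ⟨y, rfl⟩
  have hnormal : ∀ K : Subgroup P, (∀ α ∈ G, ∀ x ∈ K, α x ∈ K) →
      ∀ x ∈ K, ∀ y : P, y * x * y⁻¹ ∈ K :=
    fun K hK x hx y => hK (MulAut.conj y) (hconjG y) x hx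
  obtain ⟨P₁, hP₁def⟩ : ∃ P₁ : Subgroup P, P₁ = Subgroup.closure
      {y : P | ∃ α ∈ Cfsg.pResidual p ↥G, ∃ x : P, y = x⁻¹ * (α : MulAut P) x} := ⟨_, rfl⟩
  have hP₁inv : ∀ α ∈ G, ∀ x ∈ P₁, α x ∈ P₁ := by
    intro α hα x hx
    have hle : P₁ ≤ P₁.comap α.toMonoidHom := by
      conv_lhs => rw [hP₁def]
      rw [Subgroup.closure_le]
      rintro _ ⟨γ, hγ, x, rfl⟩
      show α (x⁻¹ * (γ : MulAut P) x) ∈ P₁
      have hγ' : (MulAut.conj (⟨α, hα⟩ : G)).toMonoidHom γ ∈ Cfsg.pResidual p ↥G :=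
        pResidual_map_le p _ ⟨γ, hγ, rfl⟩
      have e : (α x)⁻¹ * (((MulAut.conj (⟨α, hα⟩ : G)).toMonoidHom γ : G) : MulAut P) (α x) =
          α (x⁻¹ * (γ : MulAut P) x) := by
        show (α x)⁻¹ * (α ((γ : MulAut P) (α⁻¹ (α x)))) = _
        have e2 : α⁻¹ (α x) = x := MulEquiv.symm_apply_apply α x
        rw [e2, map_mul, map_inv]
      rw [← e, hP₁def]
      exact Subgroup.subset_closure ⟨_, hγ', α x, rfl⟩
    exact hle hx
  -- a maximal invariant abelian subgroup of `P₁`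
  obtain ⟨M, ⟨hMP₁, hMinv, hMab⟩, hMmax⟩ := Set.Finite.exists_maximalFor
    (fun M : Subgroup P => Nat.card M)
    {M : Subgroup P | M ≤ P₁ ∧ (∀ α ∈ G, ∀ x ∈ M, α x ∈ M) ∧ ∀ a ∈ M, ∀ b ∈ M, a * b = b * a}
    (Set.toFinite _)
    ⟨⊥, bot_le, (fun α _ x hx => by
      rw [Subgroup.mem_bot] at hx ⊢
      rw [hx, map_one]), by
      intro a ha b hb
      rw [Subgroup.mem_bot] at ha hb
      rw [ha, hb]⟩
  have hMmax' : ∀ M' : Subgroup P, M' ≤ P₁ → (∀ α ∈ G, ∀ x ∈ M', α x ∈ M') →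
      (∀ a ∈ M', ∀ b ∈ M', a * b = b * a) → M ≤ M' → M' = M := by
    intro M' h0 h1 h2 hle
    have hc := hMmax ⟨h0, h1, h2⟩ (Subgroup.card_le_of_le hle)
    exact (Subgroup.eq_of_le_of_card_ge hle hc).symm
  haveI hMn : M.Normal := ⟨fun x hx y => hnormal M hMinv x hx y⟩
  obtain ⟨H, hHdef⟩ : ∃ H : Subgroup P, H = P₁ ⊓ Subgroup.centralizer (M : Set P) := ⟨_, rfl⟩
  have hHmem : ∀ x, x ∈ H ↔ (x ∈ P₁ ∧ ∀ a ∈ M, a * x = x * a) := by
    intro x; rw [hHdef, Subgroup.mem_inf, Subgroup.mem_centralizer_iff]; rfl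
  have hMH : M ≤ H := fun a ha => (hHmem a).mpr ⟨hMP₁ ha, fun b hb => hMab b hb a ha⟩
  have hHinv : ∀ α ∈ G, ∀ x ∈ H, α x ∈ H := by
    intro α hα x hx
    rw [hHmem] at hx ⊢
    refine ⟨hP₁inv α hα x hx.1, fun a ha => ?_⟩
    have ha' : α⁻¹ a ∈ M := hMinv α⁻¹ (inv_mem hα) a ha
    have h1 := hx.2 _ ha'
    have h2 := congrArg α h1
    rw [map_mul, map_mul] at h2
    have e2 : α (α⁻¹ a) = a := MulEquiv.apply_symm_apply α a
    rw [e2] at h2
    exact h2
  -- the subgroup `C`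
  obtain ⟨C, hCdef⟩ : ∃ C : Subgroup P, C = H ⊓ Subgroup.comap (QuotientGroup.mk' M)
      { carrier := {z : P ⧸ M | (∀ w, w * z = z * w) ∧ z ^ p = 1}
        one_mem' := ⟨fun w => by rw [mul_one, one_mul], one_pow _⟩
        mul_mem' := by
          rintro a b ⟨ha1, ha2⟩ ⟨hb1, hb2⟩
          refine ⟨fun w => ?_, ?_⟩
          · rw [← mul_assoc, ha1 w, mul_assoc, hb1 w, mul_assoc]
          · have hc : Commute a b := (ha1 b).symm
            rw [hc.mul_pow, ha2, hb2, one_mul]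
        inv_mem' := by
          rintro a ⟨ha1, ha2⟩
          refine ⟨fun w => ?_, ?_⟩
          · have h1 := ha1 w
            calc w * a⁻¹ = a⁻¹ * (a * w) * a⁻¹ := by group
              _ = a⁻¹ * (w * a) * a⁻¹ := by rw [h1]
              _ = a⁻¹ * w := by group
          · rw [inv_pow, ha2, inv_one] } := ⟨_, rfl⟩
  have hCmem : ∀ x, x ∈ C ↔ (x ∈ H ∧ (∀ y : P, x * y * x⁻¹ * y⁻¹ ∈ M) ∧ x ^ p ∈ M) := by
    intro x
    rw [hCdef, Subgroup.mem_inf, Subgroup.mem_comap]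
    constructor
    · rintro ⟨h1, h2, h3⟩
      refine ⟨h1, fun y => ?_, ?_⟩
      · have h4 := h2 (QuotientGroup.mk' M y)
        rw [← QuotientGroup.eq_one_iff]
        have e : ((x * y * x⁻¹ * y⁻¹ : P) : P ⧸ M) =
            (QuotientGroup.mk' M x) * (QuotientGroup.mk' M y) * (QuotientGroup.mk' M x)⁻¹ *
              (QuotientGroup.mk' M y)⁻¹ := rfl
        rw [e, ← h4]
        group
      · rw [← QuotientGroup.eq_one_iff]
        exact h3
    · rintro ⟨h1, h2, h3⟩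
      refine ⟨h1, fun w => ?_, ?_⟩
      · obtain ⟨y, rfl⟩ := QuotientGroup.mk_surjective w
        have h4 := (QuotientGroup.eq_one_iff _).mpr (h2 y)
        have e : ((x * y * x⁻¹ * y⁻¹ : P) : P ⧸ M) =
            (QuotientGroup.mk' M x) * (y : P ⧸ M) * (QuotientGroup.mk' M x)⁻¹ *
              (y : P ⧸ M)⁻¹ := rfl
        rw [e] at h4
        calc (y : P ⧸ M) * QuotientGroup.mk' M x
            = ((QuotientGroup.mk' M x) * (y : P ⧸ M) * (QuotientGroup.mk' M x)⁻¹ *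
              (y : P ⧸ M)⁻¹)⁻¹ * (QuotientGroup.mk' M x * (y : P ⧸ M)) := by group
          _ = QuotientGroup.mk' M x * (y : P ⧸ M) := by rw [h4, inv_one, one_mul]
      · exact (QuotientGroup.eq_one_iff _).mpr h3
  have hMC : M ≤ C := by
    intro x hx
    rw [hCmem]
    refine ⟨hMH hx, fun y => ?_, M.pow_mem hx p⟩
    have h3 : y * x⁻¹ * y⁻¹ ∈ M := hMn.conj_mem _ (M.inv_mem hx) y
    have e : x * y * x⁻¹ * y⁻¹ = x * (y * x⁻¹ * y⁻¹) := by group
    rw [e]; exact M.mul_mem hx h3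
  have hCinv : ∀ α ∈ G, ∀ x ∈ C, α x ∈ C := by
    intro α hα x hx
    rw [hCmem] at hx ⊢
    obtain ⟨h1, h2, h3⟩ := hx
    refine ⟨hHinv α hα x h1, fun y => ?_, ?_⟩
    · have h4 := hMinv α hα _ (h2 (α⁻¹ y))
      rw [map_mul, map_mul, map_mul, map_inv, map_inv] at h4
      have e2 : α (α⁻¹ y) = y := MulEquiv.apply_symm_apply α y
      rw [e2] at h4
      exact h4
    · rw [← map_pow]; exact hMinv α hα _ h3
  have hCP₁ : C ≤ P₁ := fun x hx => ((hHmem x).mp ((hCmem x).mp hx).1).1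
  have hCnormal : ∀ x ∈ C, ∀ y : P, y * x * y⁻¹ ∈ C := hnormal C hCinv
  have hcentM : ∀ z ∈ M, ∀ r ∈ C, r * z = z * r := by
    intro z hz r hr
    exact (((hHmem r).mp ((hCmem r).mp hr).1).2 z hz).symm
  -- the centre of `C` is `M`
  have hZ : ∀ z ∈ C, (∀ x ∈ C, x * z = z * x) → z ∈ M := by
    intro z hzC hz
    have hinv' : ∀ α ∈ G, ∀ x ∈ C ⊓ Subgroup.centralizer (C : Set P),
        α x ∈ C ⊓ Subgroup.centralizer (C : Set P) := by
      intro α hα x hx
      obtain ⟨hx1, hx2⟩ := Subgroup.mem_inf.mp hx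
      refine Subgroup.mem_inf.mpr ⟨hCinv α hα x hx1, Subgroup.mem_centralizer_iff.mpr ?_⟩
      intro c hc
      have hc' : α⁻¹ c ∈ C := hCinv α⁻¹ (inv_mem hα) c hc
      have h1 := Subgroup.mem_centralizer_iff.mp hx2 _ hc'
      have h2 := congrArg α h1
      rw [map_mul, map_mul] at h2
      have e2 : α (α⁻¹ c) = c := MulEquiv.apply_symm_apply α c
      rw [e2] at h2
      exact h2
    have hab : ∀ a ∈ C ⊓ Subgroup.centralizer (C : Set P),
        ∀ b ∈ C ⊓ Subgroup.centralizer (C : Set P), a * b = b * a := by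
      intro a ha b hb
      exact Subgroup.mem_centralizer_iff.mp (Subgroup.mem_inf.mp hb).2 a (Subgroup.mem_inf.mp ha).1
    have hle : M ≤ C ⊓ Subgroup.centralizer (C : Set P) := by
      intro a ha
      refine Subgroup.mem_inf.mpr ⟨hMC ha, Subgroup.mem_centralizer_iff.mpr (fun h hh => ?_)⟩
      exact hcentM a ha h hh
    have heq := hMmax' _ (inf_le_left.trans hCP₁) hinv' hab hle
    rw [← heq]
    exact Subgroup.mem_inf.mpr ⟨hzC, Subgroup.mem_centralizer_iff.mpr hz⟩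
  -- `C` is self-centralizing in `P₁`
  have hself : ∀ q ∈ P₁, (∀ x ∈ C, x * q = q * x) → q ∈ C := by
    intro q hqP hq
    by_contra hqC
    obtain ⟨Q, hQdef⟩ : ∃ Q : Subgroup P, Q = P₁ ⊓ Subgroup.centralizer (C : Set P) := ⟨_, rfl⟩
    have hQmem : ∀ x, x ∈ Q ↔ (x ∈ P₁ ∧ ∀ a ∈ C, a * x = x * a) := by
      intro x; rw [hQdef, Subgroup.mem_inf, Subgroup.mem_centralizer_iff]; rfl
    have hQinv : ∀ α ∈ G, ∀ x ∈ Q, α x ∈ Q := by
      intro α hα x hx
      rw [hQmem] at hx ⊢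
      refine ⟨hP₁inv α hα x hx.1, fun c hc => ?_⟩
      have hc' : α⁻¹ c ∈ C := hCinv α⁻¹ (inv_mem hα) c hc
      have h1 := hx.2 _ hc'
      have h2 := congrArg α h1
      rw [map_mul, map_mul] at h2
      have e2 : α (α⁻¹ c) = c := MulEquiv.apply_symm_apply α c
      rw [e2] at h2
      exact h2
    have hQn : Q.Normal := ⟨fun x hx y => hnormal Q hQinv x hx y⟩
    haveI : (Q.map (QuotientGroup.mk' M)).Normal :=
      hQn.map (QuotientGroup.mk' M) (QuotientGroup.mk'_surjective M)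
    have hne : Q.map (QuotientGroup.mk' M) ≠ ⊥ := by
      intro hbot
      have h1 : QuotientGroup.mk' M q ∈ Q.map (QuotientGroup.mk' M) :=
        ⟨q, (hQmem q).mpr ⟨hqP, hq⟩, rfl⟩
      rw [hbot, Subgroup.mem_bot] at h1
      exact hqC (hMC ((QuotientGroup.eq_one_iff q).mp h1))
    obtain ⟨z, ⟨x, hxQ, rfl⟩, hz1, hzp, hzc⟩ :=
      crit_normal_center p (hP.to_quotient M) (Q.map (QuotientGroup.mk' M)) hne
    have hxQ' := (hQmem x).mp hxQ
    have hxC : x ∈ C := by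
      rw [hCmem]
      refine ⟨?_, fun y => ?_, ?_⟩
      · rw [hHmem]
        exact ⟨hxQ'.1, fun a ha => hxQ'.2 a (hMC ha)⟩
      · rw [← QuotientGroup.eq_one_iff]
        have e : ((x * y * x⁻¹ * y⁻¹ : P) : P ⧸ M) =
            (QuotientGroup.mk' M x) * (QuotientGroup.mk' M y) * (QuotientGroup.mk' M x)⁻¹ *
              (QuotientGroup.mk' M y)⁻¹ := rfl
        rw [e, hzc (QuotientGroup.mk' M y)]
        group
      · rw [← QuotientGroup.eq_one_iff]
        exact hzp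
    have hxM : x ∈ M := hZ x hxC (fun a ha => hxQ'.2 a ha)
    exact hz1 ((QuotientGroup.eq_one_iff x).mpr hxM)
  -- the power map on `C`
  obtain ⟨e, he⟩ : ∃ e : ℕ, e = (if p = 2 then 4 else p) := ⟨_, rfl⟩
  have hTe : ∃ t, e * (e - 1) / 2 = p * t := by
    by_cases h2 : p = 2
    · exact ⟨3, by rw [he, if_pos h2, h2]⟩
    · rw [he, if_neg h2]
      obtain ⟨k, hk⟩ := hp.odd_of_ne_two h2
      refine ⟨k, ?_⟩
      have h1 : p * (p - 1) = 2 * (p * k) := by
        rw [show p - 1 = 2 * k by omega]; ring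
      rw [h1, Nat.mul_div_cancel_left _ (by norm_num : 0 < 2)]
  have hmul : ∀ a ∈ C, ∀ b ∈ C, (a * b) ^ e = a ^ e * b ^ e := by
    intro a ha b hb
    obtain ⟨c, hc⟩ : ∃ c : P, c = b⁻¹ * a⁻¹ * b * a := ⟨_, rfl⟩
    have hcM : c ∈ M := by
      have h1 := ((hCmem _).mp (C.inv_mem hb)).2.1 a⁻¹
      rw [inv_inv, inv_inv] at h1
      rw [hc]; exact h1
    have h1 : b * a = a * b * c := by rw [hc]; group
    have h2 : c * a = a * c := (hcentM c hcM a ha).symm
    have h3 : c * b = b * c := (hcentM c hcM b hb).symm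
    have hbp : b ^ p ∈ M := ((hCmem b).mp hb).2.2
    have h4 := (cop_class2 a b c h1 h2 h3 p).1
    have h5 : a * b ^ p = b ^ p * a := hcentM _ hbp a ha
    have hcp : c ^ p = 1 := by
      rw [← h5] at h4
      exact mul_eq_left.mp h4.symm
    obtain ⟨t, ht⟩ := hTe
    rw [(cop_class2 a b c h1 h2 h3 e).2, ht, pow_mul, hcp, one_pow, mul_one]
  obtain ⟨D, hDdef⟩ : ∃ D : Subgroup P, D = Subgroup.closure {x : P | x ∈ C ∧ x ^ e = 1} :=
    ⟨_, rfl⟩
  have hDmem : ∀ x ∈ D, x ∈ C ∧ x ^ e = 1 := by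
    intro x hx
    rw [hDdef] at hx
    refine Subgroup.closure_induction (p := fun r _ => r ∈ C ∧ r ^ e = 1) ?_ ?_ ?_ ?_ hx
    · intro y hy; exact hy
    · exact ⟨C.one_mem, one_pow _⟩
    · intro x y _ _ hx hy
      refine ⟨C.mul_mem hx.1 hy.1, ?_⟩
      rw [hmul x hx.1 y hy.1, hx.2, hy.2, one_mul]
    · intro x _ hx
      refine ⟨C.inv_mem hx.1, ?_⟩
      rw [inv_pow, hx.2, inv_one]
  have hDgen : ∀ x ∈ C, x ^ e = 1 → x ∈ D := by
    intro x hx hxe
    rw [hDdef]; exact Subgroup.subset_closure ⟨hx, hxe⟩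
  have hDinv : ∀ α ∈ G, ∀ x ∈ D, α x ∈ D := by
    intro α hα x hx
    have h1 := hDmem x hx
    apply hDgen _ (hCinv α hα x h1.1)
    rw [← map_pow, h1.2, map_one]
  have hDnormal : ∀ x ∈ D, ∀ y : P, y * x * y⁻¹ ∈ D := hnormal D hDinv
  -- faithfulness
  have hfaith : ∀ β ∈ G, ∀ m : ℕ, Nat.Coprime m p → β ^ m = 1 → (∀ d ∈ D, β d = d) → β = 1 := by
    intro β hβG m hm hβ hfix
    have hCfix : ∀ g ∈ C, β g = g := by
      apply cop_fix' p β m hm hβ C (hP.to_subgroup C) (hCinv β hβG)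
      intro g hg hcond
      apply hfix
      apply hDgen g hg
      rw [he]
      rcases hcond with h | ⟨h2, h⟩
      · by_cases h2 : p = 2
        · rw [if_pos h2]
          rw [h2] at h
          rw [show 4 = 2 * 2 by norm_num, pow_mul, h, one_pow]
        · rw [if_neg h2]; exact h
      · rw [if_pos h2]; exact h
    have hP₁fix : ∀ x ∈ P₁, β x = x := by
      intro x hx
      obtain ⟨k, hk⟩ := hP (x⁻¹ * β x)
      apply cop_fix_of_comm p β m hm hβ x k hk
      apply hCfix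
      apply hself _ (P₁.mul_mem (P₁.inv_mem hx) (hP₁inv β hβG x hx))
      intro z hz
      have h1 : β (x * z * x⁻¹) = x * z * x⁻¹ := hCfix _ (hCnormal z hz x)
      rw [map_mul, map_mul, map_inv, hCfix z hz] at h1
      calc z * (x⁻¹ * β x) = x⁻¹ * (x * z * x⁻¹) * β x := by group
        _ = x⁻¹ * (β x * z * (β x)⁻¹) * β x := by rw [h1]
        _ = x⁻¹ * β x * z := by group
    have hres : (⟨β, hβG⟩ : G) ∈ Cfsg.pResidual p ↥G := by
      apply Subgroup.subset_closure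
      show Nat.Coprime (orderOf (⟨β, hβG⟩ : G)) p
      have hdvd : orderOf (⟨β, hβG⟩ : G) ∣ m :=
        orderOf_dvd_of_pow_eq_one (Subtype.ext (by simpa using hβ))
      exact Nat.Coprime.coprime_dvd_left hdvd hm
    apply MulEquiv.ext
    intro x
    obtain ⟨k, hk⟩ := hP (x⁻¹ * β x)
    apply cop_fix_of_comm p β m hm hβ x k hk
    apply hP₁fix
    rw [hP₁def]
    exact Subgroup.subset_closure ⟨⟨β, hβG⟩, hres, x, rfl⟩
  refine ⟨D, ?_, ?_, ?_, ?_, ?_, ?_⟩
  · intro α hα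
    ext d
    constructor
    · rintro ⟨x, hx, rfl⟩
      exact hDinv α hα x hx
    · intro hd
      exact ⟨α⁻¹ d, hDinv α⁻¹ (inv_mem hα) d hd, MulEquiv.apply_symm_apply α d⟩
  · rw [← hP₁def]
    exact fun x hx => hCP₁ (hDmem x hx).1
  · intro d hd
    have h1 := (hDmem d hd).2
    rw [he] at h1
    by_cases h2 : p = 2
    · rw [if_pos h2] at h1
      exact Or.inr ⟨h2, h1⟩
    · rw [if_neg h2] at h1
      exact Or.inl h1
  · rw [Subgroup.commutator_le]
    intro g₁ hg₁ g₂ _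
    have hg₁C := (hDmem g₁ hg₁).1
    refine Subgroup.mem_inf.mpr ⟨?_, Subgroup.mem_centralizer_iff.mpr ?_⟩
    · have e1 : ⁅g₁, g₂⁆ = g₁ * (g₂ * g₁⁻¹ * g₂⁻¹) := by
        rw [commutatorElement_def]; group
      rw [e1]
      exact D.mul_mem hg₁ (hDnormal _ (D.inv_mem hg₁) g₂)
    · intro h hh
      have hcM : ⁅g₁, g₂⁆ ∈ M := by
        rw [commutatorElement_def]
        exact ((hCmem g₁).mp hg₁C).2.1 g₂
      exact hcentM _ hcM h (hDmem h hh).1
  · intro α hα hcop hfix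
    exact hfaith α hα (orderOf α) hcop (pow_orderOf_eq_one α) hfix
  · intro A hAD hAc hAmax
    have hAcomm : ∀ a ∈ A, ∀ b ∈ A, a * b = b * a := fun a ha b hb =>
      setLike_mul_comm ha hb
    -- `A` is self-centralizing in `D`
    have hCDA : ∀ x ∈ D, (∀ a ∈ A, a * x = x * a) → x ∈ A := by
      intro x hxD hx
      have hcomm : ∀ u ∈ ((A : Set P) ∪ {x}), ∀ v ∈ ((A : Set P) ∪ {x}), u * v = v * u := by
        rintro u (hu | hu) v (hv | hv)
        · exact hAcomm u hu v hv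
        · rw [Set.mem_singleton_iff] at hv
          rw [hv]; exact hx u hu
        · rw [Set.mem_singleton_iff] at hu
          rw [hu]; exact (hx v hv).symm
        · rw [Set.mem_singleton_iff] at hu hv
          rw [hu, hv]
      have hB := hAmax (Subgroup.closure ((A : Set P) ∪ {x}))
        (fun a ha => Subgroup.subset_closure (Or.inl ha))
        ((Subgroup.closure_le _).mpr (by
          rintro u (hu | hu)
          · exact hAD hu
          · rw [Set.mem_singleton_iff] at hu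
            rw [hu]; exact hxD))
        (Subgroup.isMulCommutative_closure hcomm)
      rw [← hB]
      exact Subgroup.subset_closure (Or.inr rfl)
    have hAnormal : ∀ a ∈ A, ∀ y : P, y * a * y⁻¹ ∈ A := by
      intro a ha y
      have haD := hAD ha
      have haC := (hDmem a haD).1
      -- the commutator lies in `M ∩ D` and centralizes `D`
      have hcM : y * a * y⁻¹ * a⁻¹ ∈ M := by
        have h1 := ((hCmem _).mp (C.inv_mem haC)).2.1 y
        rw [inv_inv] at h1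
        have h2 := M.inv_mem h1
        have e1 : (a⁻¹ * y * a * y⁻¹)⁻¹ = y * a⁻¹ * y⁻¹ * a := by group
        rw [e1] at h2
        have h3 := hMn.conj_mem _ h2 a
        have e2 : a * (y * a⁻¹ * y⁻¹ * a) * a⁻¹ = a * y * a⁻¹ * y⁻¹ := by group
        rw [e2] at h3
        have h4 := M.inv_mem h3
        have e3 : (a * y * a⁻¹ * y⁻¹)⁻¹ = y * a * y⁻¹ * a⁻¹ := by group
        rw [e3] at h4
        exact h4
      have hcD : y * a * y⁻¹ * a⁻¹ ∈ D := D.mul_mem (hDnormal a haD y) (D.inv_mem haD)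
      have hcA : y * a * y⁻¹ * a⁻¹ ∈ A :=
        hCDA _ hcD (fun b hb => hcentM _ hcM b (hDmem b (hAD hb)).1)
      have e4 : y * a * y⁻¹ = (y * a * y⁻¹ * a⁻¹) * a := by group
      rw [e4]; exact A.mul_mem hcA ha
    refine ⟨⟨fun a ha y => hAnormal a ha y⟩, ?_⟩
    intro α hα hαA
    haveI : Finite (MulAut P) := inferInstance
    have hn : 0 < orderOf α := orderOf_pos_iff.mpr (isOfFinOrder_of_finite α)
    obtain ⟨a, m, hm, hnm⟩ := Nat.exists_eq_pow_mul_and_not_dvd hn.ne' p hp.ne_one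
    have hcop : Nat.Coprime m p := ((Nat.Prime.coprime_iff_not_dvd hp).mpr hm).symm
    obtain ⟨β, hβdef⟩ : ∃ β : MulAut P, β = α ^ (p ^ a) := ⟨_, rfl⟩
    have hβm : β ^ m = 1 := by rw [hβdef, ← pow_mul, ← hnm]; exact pow_orderOf_eq_one α
    have hβG : β ∈ G := by rw [hβdef]; exact pow_mem hα _
    have hβA : ∀ x ∈ A, β x = x := by
      intro x hx
      rw [hβdef]; exact cop_pow_fix α x (hαA x hx) _
    have hβ1 : β = 1 := by
      apply hfaith β hβG m hcop hβm
      intro d hd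
      obtain ⟨k, hk⟩ := hP (d⁻¹ * β d)
      apply cop_fix_of_comm p β m hcop hβm d k hk
      apply hβA
      apply hCDA _ (D.mul_mem (D.inv_mem hd) (hDinv β hβG d hd))
      intro z hz
      have h1 : β (d * z * d⁻¹) = d * z * d⁻¹ := hβA _ (hAnormal z hz d)
      rw [map_mul, map_mul, map_inv, hβA z hz] at h1
      calc z * (d⁻¹ * β d) = d⁻¹ * (d * z * d⁻¹) * β d := by group
        _ = d⁻¹ * (β d * z * (β d)⁻¹) * β d := by rw [h1]
        _ = d⁻¹ * β d * z := by group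
    have hdvd : orderOf α ∣ p ^ a := orderOf_dvd_of_pow_eq_one (by rw [← hβdef]; exact hβ1)
    obtain ⟨k, _, hk⟩ := (Nat.dvd_prime_pow hp).mp hdvd
    exact ⟨k, hk⟩

end Cfsg.Agent.S1949
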