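import Cfsg.Statements.S1956
import Cfsg.Agent.Lib.Helper2.SylowAux
import Cfsg.Agent.Lib.Helper2.Hall
-- import your own Cfsg.Agent.* helpers here

set_option autoImplicit false
open Cfsg

namespace Cfsg.Agent.S1956

open Cfsg.Agent.Lib.Helper2

/-- Let P be a Sylow p-subgroup of the finite group G such that every element of P of order dividing p (dividing 4 when p = 2) is central in P. Then the fusion of these elements is controlled by N_G(P): if such an element a of P has g a g⁻¹ in P, then g = n c with n normalizing P and c commuting with a. -/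
theorem result {G : Type*} [Group G] [Finite G] {p : ℕ} [Fact p.Prime] (P : Sylow p G)
    (hcen : ∀ a ∈ (P : Subgroup G), (a ^ p = 1 ∨ (p = 2 ∧ a ^ 4 = 1)) → ∀ y ∈ (P : Subgroup G), a * y = y * a) :
    ∀ a ∈ (P : Subgroup G), (a ^ p = 1 ∨ (p = 2 ∧ a ^ 4 = 1)) → ∀ g : G, g * a * g⁻¹ ∈ (P : Subgroup G) →
      ∃ n ∈ Subgroup.normalizer ((P : Subgroup G) : Set G), ∃ c : G, c * a = a * c ∧ g = n * c := by
  intro a haP ha g hg
  have hb : (g * a * g⁻¹) ^ p = 1 ∨ (p = 2 ∧ (g * a * g⁻¹) ^ 4 = 1) := by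
    rcases ha with h | ⟨h2, h4⟩
    · left; rw [conj_pow, h]; group
    · right; refine ⟨h2, ?_⟩; rw [conj_pow, h4]; group
  have hacen := hcen a haP ha
  have hbcen := hcen _ hg hb
  have hP : (P : Subgroup G) ≤ Subgroup.centralizer ({g * a * g⁻¹} : Set G) := by
    intro y hy
    rw [mem_centralizer_singleton_iff']
    exact hbcen y hy
  have hgP : ((g • P : Sylow p G) : Subgroup G) ≤ Subgroup.centralizer ({g * a * g⁻¹} : Set G) := by
    intro x hx
    rw [mem_sylow_smul_iff] at hx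
    rw [mem_centralizer_singleton_iff']
    have h1 := hacen _ hx
    have h2 : g * a * g⁻¹ * x = g * (a * (g⁻¹ * x * g)) * g⁻¹ := by group
    have h3 : x * (g * a * g⁻¹) = g * (g⁻¹ * x * g * a) * g⁻¹ := by group
    rw [h2, h3, h1]
  obtain ⟨c, hcC, hc⟩ := exists_mem_smul_eq_of_le (g • P) P _ hgP hP
  rw [← mul_smul] at hc
  have hn : c * g ∈ Subgroup.normalizer ((P : Subgroup G) : Set G) :=
    Sylow.smul_eq_iff_mem_normalizer.mp hc
  rw [mem_centralizer_singleton_iff'] at hcC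
  refine ⟨c * g, hn, g⁻¹ * c⁻¹ * g, ?_, by group⟩
  have h4 : g⁻¹ * c⁻¹ * g * a = g⁻¹ * (c⁻¹ * (g * a * g⁻¹ * c) * c⁻¹) * g := by group
  have h5 : a * (g⁻¹ * c⁻¹ * g) = g⁻¹ * (c⁻¹ * (c * (g * a * g⁻¹)) * c⁻¹) * g := by group
  rw [h4, h5, hcC]

end Cfsg.Agent.S1956
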