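import Cfsg.Statements.S2580
import Mathlib
-- import your own Cfsg.Agent.* helpers here

set_option autoImplicit false
open Cfsg

namespace Cfsg.Agent.S2580

open Polynomial in
theorem smul_eq_mk_mul {F : Type*} [Field F] (x : F[X]) (r : F[X]) (q : F[X] ⧸ F[X] ∙ x) :
    r • q = (Submodule.Quotient.mk r : F[X] ⧸ F[X] ∙ x) * q := by
  induction q using Submodule.Quotient.induction_on with
  | _ s => rfl

open Polynomial in
theorem csmul_eq_mk_mul {F : Type*} [Field F] (x : F[X]) (c : F) (q : F[X] ⧸ F[X] ∙ x) :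
    c • q = (Submodule.Quotient.mk (C c) : F[X] ⧸ F[X] ∙ x) * q := by
  induction q using Submodule.Quotient.induction_on with
  | _ s =>
    rw [← Submodule.Quotient.mk_smul, Polynomial.smul_eq_C_mul]; rfl

open Polynomial in
theorem exists_frob {F : Type*} [Field F] (p : F[X]) (hp : Irreducible p) (e : ℕ) :
    ∃ l : (F[X] ⧸ F[X] ∙ p ^ e) →ₗ[F] F,
      ∀ a : F[X] ⧸ F[X] ∙ p ^ e, a ≠ 0 → ∃ b, l (b * a) ≠ 0 := by
  rcases Nat.eq_zero_or_pos e with he | he
  · subst he
    refine ⟨0, fun a ha => absurd ?_ ha⟩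
    induction a using Submodule.Quotient.induction_on with
    | _ s =>
      rw [Submodule.Quotient.mk_eq_zero, pow_zero]
      exact Submodule.mem_span_singleton.mpr ⟨s, by simp⟩
  · have hs0 : (Submodule.Quotient.mk (p ^ (e - 1)) : F[X] ⧸ F[X] ∙ p ^ e) ≠ 0 := by
      rw [Ne, Submodule.Quotient.mk_eq_zero, Submodule.mem_span_singleton]
      rintro ⟨c, hc⟩
      have h1 : p ^ e ∣ p ^ (e - 1) := ⟨c, by rw [← hc, smul_eq_mul, mul_comm]⟩
      have h2 : p ^ (e - 1) * p ∣ p ^ (e - 1) * 1 := by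
        rw [← pow_succ, Nat.sub_add_cancel he, mul_one]; exact h1
      have h3 : p ∣ 1 := (mul_dvd_mul_iff_left (pow_ne_zero _ hp.ne_zero)).mp h2
      exact hp.not_isUnit (isUnit_of_dvd_one h3)
    obtain ⟨l, hl⟩ : ∃ l : Module.Dual F (F[X] ⧸ F[X] ∙ p ^ e),
        l (Submodule.Quotient.mk (p ^ (e - 1))) ≠ 0 := by
      by_contra hcon
      push Not at hcon
      exact hs0 ((Module.forall_dual_apply_eq_zero_iff F _).mp hcon)
    refine ⟨l, fun a ha => ?_⟩
    induction a using Submodule.Quotient.induction_on with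
    | _ g =>
      have hg : ¬ p ^ e ∣ g := by
        intro hd
        apply ha
        rw [Submodule.Quotient.mk_eq_zero, Submodule.mem_span_singleton]
        obtain ⟨c, hc⟩ := hd
        exact ⟨c, by rw [hc, smul_eq_mul, mul_comm]⟩
      have hg0 : g ≠ 0 := by rintro rfl; exact hg (dvd_zero _)
      obtain ⟨j, g', hg', hgeq⟩ := WfDvdMonoid.max_power_factor hg0 hp
      have hj : j < e := by
        by_contra hje
        push Not at hje
        apply hg
        rw [hgeq]
        exact Dvd.dvd.mul_right (pow_dvd_pow p hje) g'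
      have hcop : IsCoprime g' (p ^ e) :=
        ((Irreducible.coprime_iff_not_dvd hp).mpr hg').symm.pow_right
      obtain ⟨u, w, huw⟩ := hcop
      refine ⟨Submodule.Quotient.mk (u * p ^ (e - 1 - j)), ?_⟩
      have key : (Submodule.Quotient.mk (u * p ^ (e - 1 - j)) : F[X] ⧸ F[X] ∙ p ^ e) *
          Submodule.Quotient.mk g = Submodule.Quotient.mk (p ^ (e - 1)) := by
        show (Submodule.Quotient.mk (u * p ^ (e - 1 - j) * g) : F[X] ⧸ F[X] ∙ p ^ e) = _
        rw [Submodule.Quotient.eq, Submodule.mem_span_singleton]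
        refine ⟨- (w * p ^ (e - 1)), ?_⟩
        have hpow : p ^ (e - 1 - j) * p ^ j = p ^ (e - 1) := by
          rw [← pow_add]; congr 1; omega
        have h1 : u * g' = 1 - w * p ^ e := by rw [← huw]; ring
        rw [hgeq, smul_eq_mul]
        calc -(w * p ^ (e - 1)) * p ^ e = p ^ (e - 1) * (1 - w * p ^ e) - p ^ (e - 1) := by ring
          _ = p ^ (e - 1) * (u * g') - p ^ (e - 1) := by rw [h1]
          _ = u * p ^ (e - 1 - j) * (p ^ j * g') - p ^ (e - 1) := by rw [← hpow]; ring
      rw [key]; exact hl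

open Polynomial in
theorem exists_form {F : Type*} [Field F] {n : ℕ} (A : Matrix (Fin n) (Fin n) F) :
    ∃ B : (Fin n → F) →ₗ[F] (Fin n → F) →ₗ[F] F,
      (∀ u v, B (A.mulVec u) v = B u (A.mulVec v)) ∧ (∀ v, (∀ u, B u v = 0) → v = 0) := by
  classical
  obtain ⟨φ, hφ⟩ : ∃ φ : Module.End F (Fin n → F), φ = Matrix.toLin' A := ⟨_, rfl⟩
  have htors : Module.IsTorsion F[X] (Module.AEval' φ) :=
    Module.AEval.isTorsion_of_finiteDimensional F (Fin n → F) φ
  obtain ⟨ι, _, p, hp, e, ⟨E⟩⟩ := Module.equiv_directSum_of_isTorsion htors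
  choose l hl using fun i => exists_frob (p i) (hp i) (e i)
  obtain ⟨T, hT⟩ : ∃ T : (Fin n → F) → (DirectSum ι fun i => F[X] ⧸ F[X] ∙ p i ^ e i),
      T = fun u => E (Module.AEval'.of φ u) := ⟨_, rfl⟩
  have hTadd : ∀ u v, T (u + v) = T u + T v := fun u v => by rw [hT]; simp
  have hTsmul : ∀ (c : F) u, T (c • u) = (C c : F[X]) • T u := by
    intro c u
    rw [hT]
    show E (Module.AEval'.of φ (c • u)) = (C c : F[X]) • E (Module.AEval'.of φ u)
    rw [← map_smul E, map_smul (Module.AEval'.of φ) c u]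
    congr 1
    rw [← Polynomial.algebraMap_eq]
    exact (algebraMap_smul F[X] c _).symm
  have hTX : ∀ u, T (A.mulVec u) = (X : F[X]) • T u := by
    intro u
    rw [hT]
    show E (Module.AEval'.of φ (A.mulVec u)) = (X : F[X]) • E (Module.AEval'.of φ u)
    have hφu : φ u = A.mulVec u := by rw [hφ, Matrix.toLin'_apply]
    rw [← map_smul E, Module.AEval'.X_smul_of, hφu]
  have hTinj : ∀ v, T v = 0 → v = 0 := by
    intro v hv
    rw [hT] at hv
    have h1 : Module.AEval'.of φ v = 0 := by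
      apply E.injective; rw [map_zero]; exact hv
    exact (Module.AEval'.of φ).injective (by rw [map_zero]; exact h1)
  have hTsurj : ∀ y, ∃ u, T u = y := by
    intro y
    refine ⟨(Module.AEval'.of φ).symm (E.symm y), ?_⟩
    rw [hT]; simp
  have hcomp_smul : ∀ (r : F[X]) (y : DirectSum ι fun i => F[X] ⧸ F[X] ∙ p i ^ e i) (i : ι),
      (r • y) i = (Submodule.Quotient.mk r : F[X] ⧸ F[X] ∙ p i ^ e i) * y i := by
    intro r y i
    rw [DirectSum.smul_apply, Cfsg.Agent.S2580.smul_eq_mk_mul]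
  refine ⟨LinearMap.mk₂ F (fun u v => ∑ i, l i (T u i * T v i)) ?_ ?_ ?_ ?_, ?_, ?_⟩
  · intro u u' v
    rw [hTadd, ← Finset.sum_add_distrib]
    refine Finset.sum_congr rfl fun i _ => ?_
    rw [DirectSum.add_apply, add_mul, map_add]
  · intro c u v
    rw [hTsmul, smul_eq_mul, Finset.mul_sum]
    refine Finset.sum_congr rfl fun i _ => ?_
    rw [hcomp_smul, mul_assoc, ← Cfsg.Agent.S2580.csmul_eq_mk_mul, map_smul, smul_eq_mul]
  · intro u v v'
    rw [hTadd, ← Finset.sum_add_distrib]
    refine Finset.sum_congr rfl fun i _ => ?_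
    rw [DirectSum.add_apply, mul_add, map_add]
  · intro c u v
    rw [hTsmul, smul_eq_mul, Finset.mul_sum]
    refine Finset.sum_congr rfl fun i _ => ?_
    rw [hcomp_smul, mul_left_comm, ← Cfsg.Agent.S2580.csmul_eq_mk_mul, map_smul, smul_eq_mul]
  · intro u v
    rw [LinearMap.mk₂_apply, LinearMap.mk₂_apply, hTX, hTX]
    refine Finset.sum_congr rfl fun i _ => ?_
    rw [hcomp_smul, hcomp_smul]
    congr 1
    ring
  · intro v hv
    by_contra hv0
    have hTv : T v ≠ 0 := fun h => hv0 (hTinj v h)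
    obtain ⟨i₀, hi₀⟩ : ∃ i₀, T v i₀ ≠ 0 := by
      by_contra hcon
      push Not at hcon
      exact hTv (DFinsupp.ext hcon)
    obtain ⟨b, hb⟩ := hl i₀ (T v i₀) hi₀
    obtain ⟨u, hu⟩ := hTsurj (DirectSum.of (fun i => F[X] ⧸ F[X] ∙ p i ^ e i) i₀ b)
    have := hv u
    rw [LinearMap.mk₂_apply, hu, Finset.sum_eq_single i₀] at this
    · rw [DirectSum.of_eq_same] at this
      exact hb this
    · intro j _ hj
      rw [DirectSum.of_eq_of_ne _ _ _ hj, zero_mul, map_zero]
    · intro h; exact absurd (Finset.mem_univ _) h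

/-- Over a finite field, a square matrix is similar to its transpose: for every n × n matrix A there is an invertible matrix P with P A P⁻¹ = Aᵀ (stated as conjugacy in the monoid of matrices, whose units are the invertible matrices). -/
theorem result {F : Type*} [Field F] [Finite F] {n : ℕ} (A : Matrix (Fin n) (Fin n) F) : IsConj A A.transpose := by
  classical
  obtain ⟨B, hB1, hB2⟩ := Cfsg.Agent.S2580.exists_form A
  obtain ⟨S, hS⟩ : ∃ S : Matrix (Fin n) (Fin n) F, S = LinearMap.BilinForm.toMatrix' B := ⟨_, rfl⟩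
  have hBS : ∀ u v, B u v = u ⬝ᵥ S.mulVec v := by
    intro u v
    rw [hS, ← Matrix.toBilin'_apply', Matrix.toBilin'_toMatrix']
  have hSA : S * A = A.transpose * S := by
    apply Matrix.toBilin'.injective
    refine LinearMap.ext₂ fun u v => ?_
    rw [Matrix.toBilin'_apply', Matrix.toBilin'_apply', ← Matrix.mulVec_mulVec, ← Matrix.mulVec_mulVec,
      ← hBS, Matrix.dotProduct_mulVec, Matrix.vecMul_transpose, ← hBS, hB1]
  have hinj : Function.Injective S.mulVec := by
    have : Function.Injective (Matrix.mulVecLin S) := by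
      rw [injective_iff_map_eq_zero]
      intro v hv
      apply hB2
      intro u
      rw [hBS]
      have : S.mulVec v = 0 := hv
      rw [this, dotProduct_zero]
    exact this
  have hunit : IsUnit S := Matrix.mulVec_injective_iff_isUnit.mp hinj
  obtain ⟨c, hc⟩ := hunit
  refine ⟨c, ?_⟩
  show (c : Matrix (Fin n) (Fin n) F) * A = A.transpose * c
  rw [hc]; exact hSA

end Cfsg.Agent.S2580
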