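import Cfsg.Statements.S2162
import Mathlib
import Cfsg.Agent.S2580
-- import your own Cfsg.Agent.* helpers here

set_option autoImplicit false
open Cfsg

namespace Cfsg.Agent.S2162

theorem normal_basis {F : Type*} [Field F] {n : ℕ} (N : (Fin n → F) →ₗ[F] (Fin n → F))
    (hN : ∀ v, N (N v) = 0) :
    ∃ (r k : ℕ) (w : Fin r → (Fin n → F)) (u : Fin k → (Fin n → F)),
      r = Module.finrank F (LinearMap.range N) ∧ (∀ j, N (u j) = 0) ∧
      LinearIndependent F (Sum.elim w (Sum.elim (N ∘ w) u)) ∧ r + (r + k) = n := by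
  classical
  have hRK : LinearMap.range N ≤ LinearMap.ker N := by
    rintro _ ⟨y, rfl⟩
    exact hN y
  have hch : ∀ i : Fin (Module.finrank F (LinearMap.range N)),
      ∃ y, N y = ((Module.finBasis F (LinearMap.range N)) i : Fin n → F) :=
    fun i => ((Module.finBasis F (LinearMap.range N)) i).2
  choose w hw using hch
  have hNwfun : N ∘ w = (LinearMap.range N).subtype ∘ (Module.finBasis F (LinearMap.range N)) := by
    funext i; exact hw i
  have hNw : LinearIndependent F (N ∘ w) := by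
    rw [hNwfun]
    exact (Module.finBasis F (LinearMap.range N)).linearIndependent.map' _ (Submodule.ker_subtype _)
  have hspanNw : Submodule.span F (Set.range (N ∘ w)) = LinearMap.range N := by
    rw [hNwfun, Set.range_comp, ← Submodule.map_span, Module.Basis.span_eq, Submodule.map_subtype_top]
  obtain ⟨U', hU'⟩ := Submodule.exists_isCompl ((LinearMap.range N).comap (LinearMap.ker N).subtype)
  obtain ⟨U, hUdef⟩ : ∃ U : Submodule F (Fin n → F), U = U'.map (LinearMap.ker N).subtype := ⟨_, rfl⟩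
  have hUK : U ≤ LinearMap.ker N := by
    rw [hUdef]; rintro _ ⟨y, _, rfl⟩; exact y.2
  have hdisj : Disjoint (LinearMap.range N) U := by
    rw [Submodule.disjoint_def]
    intro x hxR hxU
    rw [hUdef] at hxU
    obtain ⟨y, hy, rfl⟩ := hxU
    have hy0 : y ∈ ((LinearMap.range N).comap (LinearMap.ker N).subtype) ⊓ U' := ⟨hxR, hy⟩
    rw [hU'.inf_eq_bot] at hy0
    rw [(Submodule.mem_bot F).mp hy0]; rfl
  have hfU : Module.finrank F (LinearMap.range N) + Module.finrank F U =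
      Module.finrank F (LinearMap.ker N) := by
    have h1 := Submodule.finrank_add_eq_of_isCompl hU'
    have h2 : Module.finrank F ((LinearMap.range N).comap (LinearMap.ker N).subtype) =
        Module.finrank F (LinearMap.range N) := by
      rw [← Submodule.finrank_map_subtype_eq (LinearMap.ker N), Submodule.map_comap_subtype,
        inf_eq_right.mpr hRK]
    rw [hUdef, Submodule.finrank_map_subtype_eq, ← h2]
    exact h1
  obtain ⟨u, hudef⟩ : ∃ u : Fin (Module.finrank F U) → (Fin n → F),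
      u = U.subtype ∘ (Module.finBasis F U) := ⟨_, rfl⟩
  have hu : LinearIndependent F u := by
    rw [hudef]
    exact (Module.finBasis F U).linearIndependent.map' _ (Submodule.ker_subtype _)
  have hspanu : Submodule.span F (Set.range u) = U := by
    rw [hudef, Set.range_comp, ← Submodule.map_span, Module.Basis.span_eq, Submodule.map_subtype_top]
  have huK : ∀ j, N (u j) = 0 := by
    intro j
    have : u j ∈ U := by rw [← hspanu]; exact Submodule.subset_span ⟨j, rfl⟩
    exact hUK this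
  have hinner : LinearIndependent F (Sum.elim (N ∘ w) u) := by
    apply LinearIndependent.sum_type hNw hu
    rw [hspanNw, hspanu]; exact hdisj
  have hwli : LinearIndependent F w := LinearIndependent.of_comp N hNw
  have houter : LinearIndependent F (Sum.elim w (Sum.elim (N ∘ w) u)) := by
    apply LinearIndependent.sum_type hwli hinner
    rw [Submodule.disjoint_def]
    intro x hx1 hx2
    have hNx : N x = 0 := by
      have hle : Submodule.span F (Set.range (Sum.elim (N ∘ w) u)) ≤ LinearMap.ker N := by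
        rw [Submodule.span_le]
        rintro _ ⟨(i | j), rfl⟩
        · exact hN (w i)
        · exact huK j
      exact hle hx2
    obtain ⟨c, rfl⟩ := (Submodule.mem_span_range_iff_exists_fun F).mp hx1
    have h0 : ∑ i, c i • (N ∘ w) i = 0 := by
      rw [map_sum] at hNx
      rw [← hNx]
      refine Finset.sum_congr rfl fun i _ => ?_
      rw [map_smul]; rfl
    have hc := (Fintype.linearIndependent_iff.mp hNw) c h0
    refine Finset.sum_eq_zero fun i _ => ?_
    rw [hc i, zero_smul]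
  refine ⟨_, _, w, u, rfl, huK, houter, ?_⟩
  have hrn := LinearMap.finrank_range_add_finrank_ker N
  rw [Module.finrank_fin_fun] at hrn
  omega

theorem conj_of_rank {F : Type*} [Field F] {n : ℕ} (hn : 0 < n)
    (N N' : (Fin n → F) →ₗ[F] (Fin n → F))
    (hN : ∀ v, N (N v) = 0) (hN' : ∀ v, N' (N' v) = 0)
    (hr : Module.finrank F (LinearMap.range N) = Module.finrank F (LinearMap.range N')) :
    ∃ P : (Fin n → F) ≃ₗ[F] (Fin n → F), ∀ v, P (N v) = N' (P v) := by
  classical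
  obtain ⟨r, k, w, u, hr1, hu, hli, hcount⟩ := Cfsg.Agent.S2162.normal_basis N hN
  obtain ⟨r', k', w', u', hr1', hu', hli', hcount'⟩ := Cfsg.Agent.S2162.normal_basis N' hN'
  obtain rfl : r = r' := by omega
  obtain rfl : k = k' := by omega
  haveI : Nonempty (Fin r ⊕ (Fin r ⊕ Fin k)) := by
    rcases Nat.eq_zero_or_pos r with h | h
    · exact ⟨Sum.inr (Sum.inr ⟨0, by omega⟩)⟩
    · exact ⟨Sum.inl ⟨0, h⟩⟩
  have hcard : Fintype.card (Fin r ⊕ (Fin r ⊕ Fin k)) = Module.finrank F (Fin n → F) := by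
    rw [Module.finrank_fin_fun]; simp; omega
  obtain ⟨b, hb⟩ : ∃ b : Module.Basis (Fin r ⊕ (Fin r ⊕ Fin k)) F (Fin n → F),
      ⇑b = Sum.elim w (Sum.elim (N ∘ w) u) :=
    ⟨basisOfLinearIndependentOfCardEqFinrank hli hcard,
      coe_basisOfLinearIndependentOfCardEqFinrank hli hcard⟩
  obtain ⟨b', hb'⟩ : ∃ b' : Module.Basis (Fin r ⊕ (Fin r ⊕ Fin k)) F (Fin n → F),
      ⇑b' = Sum.elim w' (Sum.elim (N' ∘ w') u') :=
    ⟨basisOfLinearIndependentOfCardEqFinrank hli' hcard,
      coe_basisOfLinearIndependentOfCardEqFinrank hli' hcard⟩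
  refine ⟨b.equiv b' (Equiv.refl _), ?_⟩
  have hPb : ∀ i, (b.equiv b' (Equiv.refl _)) (b i) = b' i := fun i => by
    rw [Module.Basis.equiv_apply]; rfl
  have key : ((b.equiv b' (Equiv.refl _)) : (Fin n → F) →ₗ[F] (Fin n → F)) ∘ₗ N =
      N' ∘ₗ ((b.equiv b' (Equiv.refl _)) : (Fin n → F) →ₗ[F] (Fin n → F)) := by
    apply b.ext
    intro i
    rw [LinearMap.comp_apply, LinearMap.comp_apply, LinearEquiv.coe_coe, hPb]
    rcases i with i | i | j
    · have h1 : N (b (Sum.inl i)) = b (Sum.inr (Sum.inl i)) := by rw [hb]; rfl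
      have h2 : N' (b' (Sum.inl i)) = b' (Sum.inr (Sum.inl i)) := by rw [hb']; rfl
      rw [h1, hPb, h2]
    · have h1 : N (b (Sum.inr (Sum.inl i))) = 0 := by rw [hb]; exact hN (w i)
      have h2 : N' (b' (Sum.inr (Sum.inl i))) = 0 := by rw [hb']; exact hN' (w' i)
      rw [h1, h2, map_zero]
    · have h1 : N (b (Sum.inr (Sum.inr j))) = 0 := by rw [hb]; exact hu j
      have h2 : N' (b' (Sum.inr (Sum.inr j))) = 0 := by rw [hb']; exact hu' j
      rw [h1, h2, map_zero]
  intro v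
  exact LinearMap.congr_fun key v

open Polynomial in
theorem cent_det2 {F : Type*} [Field F] [Finite F] [CharP F 2] {n : ℕ} (hn : 0 < n)
    (X₀ : Matrix (Fin n) (Fin n) F) (hXk : X₀ ^ 2 = 1) (c : F) :
    ∃ z : Matrix (Fin n) (Fin n) F, z * X₀ = X₀ * z ∧ z.det = c := by
  classical
  obtain ⟨φ, hφ⟩ : ∃ φ : Module.End F (Fin n → F), φ = Matrix.toLin' X₀ := ⟨_, rfl⟩
  have htors : Module.IsTorsion F[X] (Module.AEval' φ) :=
    Module.AEval.isTorsion_of_finiteDimensional F (Fin n → F) φ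
  obtain ⟨ι, _, p, hp, e, ⟨E⟩⟩ := Module.equiv_directSum_of_isTorsion htors
  obtain ⟨T, hT⟩ : ∃ T : (Fin n → F) ≃ₗ[F] (DirectSum ι fun i => F[X] ⧸ F[X] ∙ p i ^ e i),
      ∀ u, T u = E (Module.AEval'.of φ u) :=
    ⟨(Module.AEval'.of φ).trans (E.restrictScalars F), fun u => rfl⟩
  have hTX : ∀ u, T (φ u) = (X : F[X]) • T u := by
    intro u; rw [hT, hT, ← map_smul E, Module.AEval'.X_smul_of]
  have hφk : φ ^ 2 = 1 := by
    rw [hφ, ← Matrix.toLin'_pow, hXk, Matrix.toLin'_one]; rfl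
  have hann : ∀ y : DirectSum ι fun i => F[X] ⧸ F[X] ∙ p i ^ e i, (X ^ 2 - C 1 : F[X]) • y = 0 := by
    intro y
    obtain ⟨u, rfl⟩ := T.surjective y
    rw [hT, ← map_smul E, sub_smul, map_one, one_smul, Module.AEval'.X_pow_smul_of, hφk, one_smul,
      sub_self, map_zero]
  obtain ⟨i₀, q₀, hq₀⟩ : ∃ i₀, ∃ q : F[X] ⧸ F[X] ∙ p i₀ ^ e i₀, q ≠ 0 := by
    have hu : T (Pi.single ⟨0, hn⟩ 1) ≠ 0 := by
      intro h
      have h1 := T.injective (h.trans (map_zero T).symm)
      have h2 := congrFun h1 ⟨0, hn⟩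
      simp at h2
    by_contra hcon
    push Not at hcon
    exact hu (DFinsupp.ext fun i => hcon i _)
  have hdvd : p i₀ ^ e i₀ ∣ X ^ 2 - C 1 := by
    have h1 := hann (DirectSum.of (fun i => F[X] ⧸ F[X] ∙ p i ^ e i) i₀ 1)
    have h2 := congrArg (fun y => y i₀) h1
    simp only [DirectSum.smul_apply, DirectSum.of_eq_same, DirectSum.zero_apply] at h2
    rw [Cfsg.Agent.S2580.smul_eq_mk_mul, mul_one, Submodule.Quotient.mk_eq_zero,
      Submodule.mem_span_singleton] at h2
    obtain ⟨c', hc'⟩ := h2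
    exact ⟨c', by rw [← hc', smul_eq_mul, mul_comm]⟩
  obtain ⟨α, hα⟩ : ∃ α : F[X] ⧸ F[X] ∙ p i₀ ^ e i₀, Algebra.norm F α = c := by
    have hg0 : p i₀ ^ e i₀ ≠ 0 := pow_ne_zero _ (hp i₀).ne_zero
    have hne : (X ^ 2 - C 1 : F[X]) ≠ 0 := by
      intro h0
      have := congrArg Polynomial.natDegree h0
      rw [Polynomial.natDegree_X_pow_sub_C] at this
      simp at this
    have hdeg : (p i₀ ^ e i₀).natDegree ≤ 2 := by
      have h := Polynomial.natDegree_le_of_dvd hdvd hne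
      rw [Polynomial.natDegree_X_pow_sub_C] at h
      exact h
    have hfr : Module.finrank F (F[X] ⧸ F[X] ∙ p i₀ ^ e i₀) = (p i₀ ^ e i₀).natDegree := by
      have h := (AdjoinRoot.powerBasis hg0).finrank
      rw [AdjoinRoot.powerBasis_dim] at h
      exact h
    have hpos : 0 < Module.finrank F (F[X] ⧸ F[X] ∙ p i₀ ^ e i₀) := by
      haveI : Nontrivial (F[X] ⧸ F[X] ∙ p i₀ ^ e i₀) := ⟨⟨q₀, 0, hq₀⟩⟩
      haveI : Module.Finite F (F[X] ⧸ F[X] ∙ p i₀ ^ e i₀) := (AdjoinRoot.powerBasis hg0).finite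
      exact Module.finrank_pos
    obtain ⟨s, hs⟩ : ∃ s : F, s ^ Module.finrank F (F[X] ⧸ F[X] ∙ p i₀ ^ e i₀) = c := by
      have hd : Module.finrank F (F[X] ⧸ F[X] ∙ p i₀ ^ e i₀) = 1 ∨
          Module.finrank F (F[X] ⧸ F[X] ∙ p i₀ ^ e i₀) = 2 := by omega
      rcases hd with hd | hd
      · exact ⟨c, by rw [hd, pow_one]⟩
      · obtain ⟨s, hs⟩ := FiniteField.isSquare_of_char_two (ringChar.eq F 2) c
        exact ⟨s, by rw [hd, pow_two, hs]⟩
    exact ⟨algebraMap F _ s, by rw [Algebra.norm_algebraMap, hs]⟩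
  have hfinQ : Module.Finite F (F[X] ⧸ F[X] ∙ p i₀ ^ e i₀) := by
    haveI : Module.Finite F (DirectSum ι fun i => F[X] ⧸ F[X] ∙ p i ^ e i) := Module.Finite.equiv T
    exact Module.Finite.of_surjective (DirectSum.component F ι (fun i => F[X] ⧸ F[X] ∙ p i ^ e i) i₀)
      (fun q => ⟨DirectSum.lof F ι _ i₀ q,
        DirectSum.component.lof_self F (M := fun i => F[X] ⧸ F[X] ∙ p i ^ e i) i₀ q⟩)
  obtain ⟨A', hA'⟩ : ∃ A' : (F[X] ⧸ F[X] ∙ p i₀ ^ e i₀) →ₗ[F] (Fin n → F),
      A' = (T.symm : _ →ₗ[F] _) ∘ₗ (DirectSum.lof F ι (fun i => F[X] ⧸ F[X] ∙ p i ^ e i) i₀) :=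
    ⟨_, rfl⟩
  obtain ⟨B', hB'⟩ : ∃ B' : (Fin n → F) →ₗ[F] (F[X] ⧸ F[X] ∙ p i₀ ^ e i₀),
      B' = (Algebra.lmul F _ (α - 1)) ∘ₗ
        ((DirectSum.component F ι (fun i => F[X] ⧸ F[X] ∙ p i ^ e i) i₀) ∘ₗ (T : _ →ₗ[F] _)) :=
    ⟨_, rfl⟩
  obtain ⟨z, hz⟩ : ∃ z : (Fin n → F) →ₗ[F] (Fin n → F), z = LinearMap.id + A' ∘ₗ B' := ⟨_, rfl⟩
  have hBA : (LinearMap.id + B' ∘ₗ A' :
      (F[X] ⧸ F[X] ∙ p i₀ ^ e i₀) →ₗ[F] (F[X] ⧸ F[X] ∙ p i₀ ^ e i₀)) = Algebra.lmul F _ α := by
    refine LinearMap.ext fun q => ?_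
    rw [hA', hB']
    simp only [LinearMap.add_apply, LinearMap.id_apply, LinearMap.comp_apply, LinearEquiv.coe_coe,
      LinearEquiv.apply_symm_apply, DirectSum.component.lof_self]
    rw [map_sub, map_one, LinearMap.sub_apply, Module.End.one_apply, add_sub_cancel]
  have hzdet : LinearMap.det z = c := by
    rw [← LinearMap.det_toMatrix (Pi.basisFun F (Fin n)), hz, map_add, LinearMap.toMatrix_id,
      LinearMap.toMatrix_comp _ (Module.Free.chooseBasis F (F[X] ⧸ F[X] ∙ p i₀ ^ e i₀)) _,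
      Matrix.det_one_add_mul_comm, ← LinearMap.toMatrix_comp _ _ _,
      ← LinearMap.toMatrix_id (Module.Free.chooseBasis F (F[X] ⧸ F[X] ∙ p i₀ ^ e i₀)), ← map_add,
      LinearMap.det_toMatrix, hBA, ← Algebra.norm_apply]
    exact hα
  have hTz : ∀ w, T (z w) = T w + DirectSum.of (fun i => F[X] ⧸ F[X] ∙ p i ^ e i) i₀
      ((α - 1) * (T w) i₀) := by
    intro w
    rw [hz, hA', hB']
    simp only [LinearMap.add_apply, LinearMap.id_apply, LinearMap.comp_apply, LinearEquiv.coe_coe,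
      map_add, LinearEquiv.apply_symm_apply]
    rw [DirectSum.lof_eq_of, ← DirectSum.apply_eq_component, Algebra.coe_lmul_eq_mul,
      LinearMap.mul_apply']
  have hzφ : z ∘ₗ φ = φ ∘ₗ z := by
    refine LinearMap.ext fun u => ?_
    apply T.injective
    rw [LinearMap.comp_apply, LinearMap.comp_apply, hTX, hTz, hTz, hTX, smul_add]
    congr 1
    rw [← DirectSum.lof_eq_of F[X], ← DirectSum.lof_eq_of F[X],
      ← (DirectSum.lof F[X] ι (fun i => F[X] ⧸ F[X] ∙ p i ^ e i) i₀).map_smul]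
    congr 1
    rw [DirectSum.smul_apply, Cfsg.Agent.S2580.smul_eq_mk_mul, Cfsg.Agent.S2580.smul_eq_mk_mul]
    ring
  refine ⟨LinearMap.toMatrix' z, ?_, ?_⟩
  · have hX : X₀ = LinearMap.toMatrix' φ := by rw [hφ, LinearMap.toMatrix'_toLin']
    rw [hX, ← LinearMap.toMatrix'_comp, ← LinearMap.toMatrix'_comp, hzφ]
  · rw [LinearMap.det_toMatrix', hzdet]

/-- Conjugacy of involutions in the special linear group over a finite field of characteristic two, in dimension at least 3: two elements of order 2 of SL_n(F) are conjugate in SL_n(F) exactly when the matrices a − 1 and b − 1 have the same rank (the rank of a − 1 is the dimension of the commutator space [V, a]). -/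
theorem result {F : Type*} [Field F] [Fintype F] [CharP F 2] {n : ℕ} (hn : 3 ≤ n) (a b : Matrix.SpecialLinearGroup (Fin n) F) (ha : orderOf a = 2) (hb : orderOf b = 2) :
    IsConj a b ↔ ((a : Matrix (Fin n) (Fin n) F) - 1).rank = ((b : Matrix (Fin n) (Fin n) F) - 1).rank := by
  classical
  have hn0 : 0 < n := by omega
  have hsq : ∀ c : Matrix.SpecialLinearGroup (Fin n) F, orderOf c = 2 →
      (c : Matrix (Fin n) (Fin n) F) ^ 2 = 1 := by
    intro c hc
    have h1 := pow_orderOf_eq_one c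
    rw [hc] at h1
    have h2 := congrArg (fun y : Matrix.SpecialLinearGroup (Fin n) F => (y : Matrix (Fin n) (Fin n) F)) h1
    simpa using h2
  have hMM : ∀ M : Matrix (Fin n) (Fin n) F, M + M = 0 := by
    intro M; ext i j; exact CharTwo.add_self_eq_zero _
  have hNN : ∀ M : Matrix (Fin n) (Fin n) F, M ^ 2 = 1 → (M - 1) * (M - 1) = 0 := by
    intro M hM
    have : (M - 1) * (M - 1) = M ^ 2 - (M + M) + 1 := by noncomm_ring
    rw [this, hM, hMM M, sub_zero, hMM]
  constructor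
  · intro h
    obtain ⟨c, hc⟩ := isConj_iff.mp h
    have h1 : c * a = b * c := by rw [← hc]; group
    have h2 : (c : Matrix (Fin n) (Fin n) F) * (a : Matrix (Fin n) (Fin n) F) =
        (b : Matrix (Fin n) (Fin n) F) * (c : Matrix (Fin n) (Fin n) F) := by
      rw [← Matrix.SpecialLinearGroup.coe_mul, ← Matrix.SpecialLinearGroup.coe_mul, h1]
    have h3 : (c : Matrix (Fin n) (Fin n) F) * ((a : Matrix (Fin n) (Fin n) F) - 1) =
        ((b : Matrix (Fin n) (Fin n) F) - 1) * (c : Matrix (Fin n) (Fin n) F) := by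
      rw [mul_sub, sub_mul, h2, mul_one, one_mul]
    have hu : IsUnit (c : Matrix (Fin n) (Fin n) F).det := by rw [c.2]; exact isUnit_one
    rw [← Matrix.rank_mul_eq_right_of_isUnit_det _ ((a : Matrix (Fin n) (Fin n) F) - 1) hu, h3,
      Matrix.rank_mul_eq_left_of_isUnit_det _ _ hu]
  · intro h
    have ha2 := hsq a ha
    have hb2 := hsq b hb
    obtain ⟨P, hP⟩ := Cfsg.Agent.S2162.conj_of_rank hn0
      (((a : Matrix (Fin n) (Fin n) F) - 1).mulVecLin) (((b : Matrix (Fin n) (Fin n) F) - 1).mulVecLin)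
      (fun v => by
        show ((a : Matrix (Fin n) (Fin n) F) - 1).mulVec (((a : Matrix (Fin n) (Fin n) F) - 1).mulVec v) = 0
        rw [Matrix.mulVec_mulVec, hNN _ ha2, Matrix.zero_mulVec])
      (fun v => by
        show ((b : Matrix (Fin n) (Fin n) F) - 1).mulVec (((b : Matrix (Fin n) (Fin n) F) - 1).mulVec v) = 0
        rw [Matrix.mulVec_mulVec, hNN _ hb2, Matrix.zero_mulVec])
      h
    obtain ⟨Pm, hPm⟩ : ∃ Pm : Matrix (Fin n) (Fin n) F, Pm = LinearMap.toMatrix' (P : (Fin n → F) →ₗ[F] (Fin n → F)) :=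
      ⟨_, rfl⟩
    have hPdet : Pm.det ≠ 0 := by
      rw [hPm, LinearMap.det_toMatrix']
      exact (LinearEquiv.isUnit_det' P).ne_zero
    have hPN : Pm * ((a : Matrix (Fin n) (Fin n) F) - 1) = ((b : Matrix (Fin n) (Fin n) F) - 1) * Pm := by
      have e1 : ((a : Matrix (Fin n) (Fin n) F) - 1) = LinearMap.toMatrix' (((a : Matrix (Fin n) (Fin n) F) - 1).mulVecLin) := by
        rw [← Matrix.toLin'_apply', LinearMap.toMatrix'_toLin']
      have e2 : ((b : Matrix (Fin n) (Fin n) F) - 1) = LinearMap.toMatrix' (((b : Matrix (Fin n) (Fin n) F) - 1).mulVecLin) := by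
        rw [← Matrix.toLin'_apply', LinearMap.toMatrix'_toLin']
      rw [e1, e2, hPm, ← LinearMap.toMatrix'_comp, ← LinearMap.toMatrix'_comp]
      congr 1
      refine LinearMap.ext fun v => ?_
      exact hP v
    have hPA : Pm * (a : Matrix (Fin n) (Fin n) F) = (b : Matrix (Fin n) (Fin n) F) * Pm := by
      have := hPN
      rw [mul_sub, sub_mul, mul_one, one_mul] at this
      exact sub_left_injective this
    obtain ⟨z, hzc, hzd⟩ := Cfsg.Agent.S2162.cent_det2 hn0 (a : Matrix (Fin n) (Fin n) F) ha2 (Pm.det)⁻¹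
    have hdet : (Pm * z).det = 1 := by rw [Matrix.det_mul, hzd, mul_inv_cancel₀ hPdet]
    obtain ⟨cS, hcS⟩ : ∃ cS : Matrix.SpecialLinearGroup (Fin n) F,
        (cS : Matrix (Fin n) (Fin n) F) = Pm * z := ⟨⟨Pm * z, hdet⟩, rfl⟩
    have hc : cS * a = b * cS := by
      apply Subtype.ext
      show (cS : Matrix (Fin n) (Fin n) F) * (a : Matrix (Fin n) (Fin n) F) =
        (b : Matrix (Fin n) (Fin n) F) * (cS : Matrix (Fin n) (Fin n) F)
      rw [hcS, Matrix.mul_assoc, hzc, ← Matrix.mul_assoc, hPA, Matrix.mul_assoc]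
    exact isConj_iff.mpr ⟨cS, by rw [hc, mul_inv_cancel_right]⟩

end Cfsg.Agent.S2162
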