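import Mathlib
import Cfsg.Statements.S2163

set_option autoImplicit false
open Cfsg

namespace Cfsg.Agent.S2163

/-- the rank of a "partial permutation" matrix `E` with `E * D = E` and `Eᵀ * E = D`, `D` diagonal 0/1 -/
theorem rank_of_diag {F : Type*} [Field F] {n : ℕ} (ℓ : ℕ) (hℓ : ℓ ≤ n) (E : Matrix (Fin n) (Fin n) F)
    (h1 : E * Matrix.diagonal (fun j : Fin n => if j.val < ℓ then (1 : F) else 0) = E)
    (h2 : E.transpose * E = Matrix.diagonal (fun j : Fin n => if j.val < ℓ then (1 : F) else 0)) :
    E.rank = ℓ := by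
  classical
  have hD : (Matrix.diagonal (fun j : Fin n => if j.val < ℓ then (1 : F) else 0)).rank = ℓ := by
    rw [Matrix.rank_diagonal]
    have e : {i : Fin n // (if i.val < ℓ then (1 : F) else 0) ≠ 0} ≃ Fin ℓ :=
      { toFun := fun i => ⟨i.1.val, by
          have := i.2
          by_contra hc
          simp [hc] at this⟩
        invFun := fun k => ⟨⟨k.val, lt_of_lt_of_le k.2 hℓ⟩, by simp⟩
        left_inv := fun i => by simp
        right_inv := fun k => by simp }
    rw [Fintype.card_congr e, Fintype.card_fin]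
  apply le_antisymm
  · calc E.rank = (E * Matrix.diagonal (fun j : Fin n => if j.val < ℓ then (1 : F) else 0)).rank := by
          rw [h1]
      _ ≤ (Matrix.diagonal (fun j : Fin n => if j.val < ℓ then (1 : F) else 0)).rank :=
          Matrix.rank_mul_le_right _ _
      _ = ℓ := hD
  · calc ℓ = (E.transpose * E).rank := by rw [h2, hD]
      _ ≤ E.rank := Matrix.rank_mul_le_right _ _

/-- Over a finite field of characteristic two and for n ≥ 3: for every ℓ with 1 ≤ ℓ and 2ℓ ≤ n, the matrix j_ℓ that is the identity plus the entries 1 in positions (n − ℓ + i, i) for i < ℓ (an identity block of size ℓ in the lower left corner) lies in SL_n(F), has order 2, and j_ℓ − 1 has rank ℓ. Together with the conjugacy criterion by rank, these matrices represent the conjugacy classes of involutions of SL_n(F). -/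
theorem result {F : Type*} [Field F] [Fintype F] [CharP F 2] {n : ℕ} (hn : 3 ≤ n) (ℓ : ℕ) (h1 : 1 ≤ ℓ) (h2 : 2 * ℓ ≤ n) :
    ∃ a : Matrix.SpecialLinearGroup (Fin n) F, (a : Matrix (Fin n) (Fin n) F) = 1 + Matrix.of (fun i j : Fin n => if j.val < ℓ ∧ i.val = j.val + (n - ℓ) then (1 : F) else 0) ∧ orderOf a = 2 ∧ ((a : Matrix (Fin n) (Fin n) F) - 1).rank = ℓ := by
  classical
  obtain ⟨E, hE⟩ : ∃ E : Matrix (Fin n) (Fin n) F,
      E = Matrix.of (fun i j : Fin n => if j.val < ℓ ∧ i.val = j.val + (n - ℓ) then (1 : F) else 0) :=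
    ⟨_, rfl⟩
  have hEa : ∀ i j : Fin n, E i j = if j.val < ℓ ∧ i.val = j.val + (n - ℓ) then (1 : F) else 0 := by
    intro i j; rw [hE]; rfl
  rw [← hE]
  -- E * E = 0
  have hEE : E * E = 0 := by
    ext i j
    rw [Matrix.mul_apply]
    apply Finset.sum_eq_zero
    intro k _
    rw [hEa i k, hEa k j]
    by_cases hk : k.val < ℓ ∧ i.val = k.val + (n - ℓ)
    · have : ¬ (j.val < ℓ ∧ k.val = j.val + (n - ℓ)) := by
        rintro ⟨h3, h4⟩
        omega
      rw [if_neg this, mul_zero]
    · rw [if_neg hk, zero_mul]
  have hdet : (1 + E).det = 1 := by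
    rw [Matrix.det_of_isLowerTriangular]
    · apply Finset.prod_eq_one
      intro i _
      rw [Matrix.add_apply, Matrix.one_apply_eq, hEa]
      have : ¬ (i.val < ℓ ∧ i.val = i.val + (n - ℓ)) := by
        rintro ⟨h3, h4⟩
        omega
      rw [if_neg this, add_zero]
    · intro i j hij
      have hij' : i < j := hij
      rw [Matrix.add_apply, Matrix.one_apply_ne (ne_of_lt hij'), hEa]
      have : ¬ (j.val < ℓ ∧ i.val = j.val + (n - ℓ)) := by
        rintro ⟨h3, h4⟩
        have : i.val < j.val := hij'
        omega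
      rw [if_neg this, add_zero]
  obtain ⟨a, ha⟩ : ∃ a : Matrix.SpecialLinearGroup (Fin n) F,
      (a : Matrix (Fin n) (Fin n) F) = 1 + E := ⟨⟨1 + E, hdet⟩, rfl⟩
  refine ⟨a, ha, ?_, ?_⟩
  · haveI : Fact (Nat.Prime 2) := ⟨Nat.prime_two⟩
    apply orderOf_eq_prime
    · have h3 : ((a ^ 2 : Matrix.SpecialLinearGroup (Fin n) F) : Matrix (Fin n) (Fin n) F) =
          ((1 : Matrix.SpecialLinearGroup (Fin n) F) : Matrix (Fin n) (Fin n) F) := by
        rw [Matrix.SpecialLinearGroup.coe_pow, Matrix.SpecialLinearGroup.coe_one, ha]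
        rw [pow_two, mul_add, add_mul, add_mul, one_mul, mul_one, one_mul, hEE, add_zero]
        have hE2 : E + E = 0 := by
          ext i j
          simp [CharTwo.add_self_eq_zero]
        rw [add_assoc, hE2, add_zero]
      exact Subtype.ext h3
    · intro h
      have h3 : (1 + E) = (1 : Matrix (Fin n) (Fin n) F) := by
        rw [← ha, h, Matrix.SpecialLinearGroup.coe_one]
      have h4 := congrFun (congrFun h3 ⟨n - ℓ, by omega⟩) ⟨0, by omega⟩
      rw [Matrix.add_apply, hEa] at h4
      have h5 : (⟨n - ℓ, by omega⟩ : Fin n) ≠ ⟨0, by omega⟩ := by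
        intro h6
        have := congrArg Fin.val h6
        simp at this
        omega
      rw [Matrix.one_apply_ne h5] at h4
      simp at h4
      omega
  · rw [ha, add_sub_cancel_left]
    apply rank_of_diag ℓ (by omega) E
    · ext i j
      rw [Matrix.mul_diagonal, hEa]
      by_cases hj : j.val < ℓ
      · simp [hj]
      · simp [hj]
    · ext i j
      rw [Matrix.mul_apply]
      simp only [Matrix.transpose_apply, hEa]
      by_cases hij : i = j
      · subst hij
        by_cases hi : i.val < ℓ
        · rw [Matrix.diagonal_apply_eq, if_pos hi]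
          rw [Finset.sum_eq_single (⟨i.val + (n - ℓ), by omega⟩ : Fin n)]
          · simp [hi]
          · intro b _ hb
            have : ¬ (i.val < ℓ ∧ b.val = i.val + (n - ℓ)) := by
              rintro ⟨_, h4⟩
              apply hb
              exact Fin.ext h4
            rw [if_neg this, mul_zero]
          · intro h; exact absurd (Finset.mem_univ _) h
        · rw [Matrix.diagonal_apply_eq, if_neg hi]
          apply Finset.sum_eq_zero
          intro b _
          have : ¬ (i.val < ℓ ∧ b.val = i.val + (n - ℓ)) := fun h => hi h.1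
          rw [if_neg this, mul_zero]
      · rw [Matrix.diagonal_apply_ne _ hij]
        apply Finset.sum_eq_zero
        intro b _
        by_cases hb : i.val < ℓ ∧ b.val = i.val + (n - ℓ)
        · have : ¬ (j.val < ℓ ∧ b.val = j.val + (n - ℓ)) := by
            rintro ⟨_, h4⟩
            apply hij
            apply Fin.ext
            omega
          rw [if_neg this, mul_zero]
        · rw [if_neg hb, zero_mul]

end Cfsg.Agent.S2163
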