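import Mathlib
import Cfsg.Statements.S2165

set_option autoImplicit false
open Cfsg

namespace Cfsg.Agent.S2165

theorem rank_diag01 {F : Type*} [Field F] {n : ℕ} (ℓ : ℕ) (hℓ : ℓ ≤ n) :
    (Matrix.diagonal (fun j : Fin n => if j.val < ℓ then (1 : F) else 0)).rank = ℓ := by
  classical
  rw [Matrix.rank_diagonal]
  have e : {i : Fin n // (if i.val < ℓ then (1 : F) else 0) ≠ 0} ≃ Fin ℓ :=
    { toFun := fun i => ⟨i.1.val, by
        have := i.2
        by_contra hc
        simp [hc] at this⟩
      invFun := fun k => ⟨⟨k.val, lt_of_lt_of_le k.2 hℓ⟩, by simp⟩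
      left_inv := fun i => by simp
      right_inv := fun k => by simp }
  rw [Fintype.card_congr e, Fintype.card_fin]

/-- In SU_n(q), q even, n ≥ 3 (matrices of determinant 1 over the field with q² elements preserving Σ u_i v_i^q): for every ℓ with 1 ≤ ℓ and 2ℓ ≤ n, the permutation matrix of the involution of {0, …, n−1} exchanging i and n − ℓ + i for each i < ℓ lies in SU_n(q), has order 2, and differs from the identity by a matrix of rank ℓ. So every rank between 1 and n/2 occurs for involutions of SU_n(q). -/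
theorem result {F : Type*} [Field F] [Fintype F] [CharP F 2] {n q : ℕ} (hF : Fintype.card F = q ^ 2) (hn : 3 ≤ n) (ℓ : ℕ) (h1 : 1 ≤ ℓ) (h2 : 2 * ℓ ≤ n) :
    ∃ a : ↥(Cfsg.SU n F q), (((a : Matrix.SpecialLinearGroup (Fin n) F) : Matrix (Fin n) (Fin n) F) = Matrix.of (fun i j : Fin n => if (j.val < ℓ ∧ i.val = j.val + (n - ℓ)) ∨ (i.val < ℓ ∧ j.val = i.val + (n - ℓ)) ∨ (i = j ∧ ℓ ≤ i.val ∧ i.val < n - ℓ) then (1 : F) else 0)) ∧ orderOf a = 2 ∧ ((((a : Matrix.SpecialLinearGroup (Fin n) F) : Matrix (Fin n) (Fin n) F)) - 1).rank = ℓ := by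
  classical
  obtain ⟨P, hP⟩ : ∃ P : Matrix (Fin n) (Fin n) F, P = Matrix.of (fun i j : Fin n =>
      if (j.val < ℓ ∧ i.val = j.val + (n - ℓ)) ∨ (i.val < ℓ ∧ j.val = i.val + (n - ℓ)) ∨
        (i = j ∧ ℓ ≤ i.val ∧ i.val < n - ℓ) then (1 : F) else 0) := ⟨_, rfl⟩
  rw [← hP]
  -- the involution π
  let π : Fin n → Fin n := fun i =>
    if h : i.val < ℓ then ⟨i.val + (n - ℓ), by omega⟩
    else if h' : n - ℓ ≤ i.val then ⟨i.val - (n - ℓ), by omega⟩ else i
  have hπ1 : ∀ i : Fin n, i.val < ℓ → (π i).val = i.val + (n - ℓ) := by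
    intro i h
    simp only [π, dif_pos h]
  have hπ2 : ∀ i : Fin n, n - ℓ ≤ i.val → (π i).val = i.val - (n - ℓ) := by
    intro i h
    have h' : ¬ i.val < ℓ := by omega
    simp only [π, dif_neg h', dif_pos h]
  have hπ3 : ∀ i : Fin n, ℓ ≤ i.val → i.val < n - ℓ → π i = i := by
    intro i h h'
    have h1' : ¬ i.val < ℓ := by omega
    have h2' : ¬ n - ℓ ≤ i.val := by omega
    simp only [π, dif_neg h1', dif_neg h2']
  have hππ : Function.Involutive π := by
    intro i
    apply Fin.ext
    rcases lt_or_ge i.val ℓ with h | h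
    · have := hπ1 i h
      have h3 := hπ2 (π i) (by omega)
      omega
    · rcases lt_or_ge i.val (n - ℓ) with h' | h'
      · rw [hπ3 i h h', hπ3 i h h']
      · have := hπ2 i h'
        have h3 := hπ1 (π i) (by have := i.2; omega)
        omega
  have hPa : ∀ i j : Fin n, P i j = if j = π i then (1 : F) else 0 := by
    intro i j
    rw [hP]
    show (if (j.val < ℓ ∧ i.val = j.val + (n - ℓ)) ∨ (i.val < ℓ ∧ j.val = i.val + (n - ℓ)) ∨
        (i = j ∧ ℓ ≤ i.val ∧ i.val < n - ℓ) then (1 : F) else 0) = _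
    have hiff : ((j.val < ℓ ∧ i.val = j.val + (n - ℓ)) ∨ (i.val < ℓ ∧ j.val = i.val + (n - ℓ)) ∨
        (i = j ∧ ℓ ≤ i.val ∧ i.val < n - ℓ)) ↔ j = π i := by
      rw [Fin.ext_iff (a := j), Fin.ext_iff (a := i)]
      rcases lt_or_ge i.val ℓ with h | h
      · have := hπ1 i h
        omega
      · rcases lt_or_ge i.val (n - ℓ) with h' | h'
        · rw [hπ3 i h h']
          omega
        · have := hπ2 i h'
          have := i.2
          omega
    by_cases hc : j = π i
    · rw [if_pos hc, if_pos (hiff.mpr hc)]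
    · rw [if_neg hc, if_neg (fun h => hc (hiff.mp h))]
  have hmulVec : ∀ (u : Fin n → F) (i : Fin n), (P.mulVec u) i = u (π i) := by
    intro u i
    rw [Matrix.mulVec, dotProduct]
    simp only [hPa]
    rw [Finset.sum_eq_single (π i)]
    · simp
    · intro b _ hb
      rw [if_neg hb, zero_mul]
    · intro h; exact absurd (Finset.mem_univ _) h
  have hPP : P * P = 1 := by
    ext i j
    rw [Matrix.mul_apply]
    simp only [hPa]
    rw [Finset.sum_eq_single (π i)]
    · rw [if_pos rfl, one_mul, hππ i, Matrix.one_apply]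
      by_cases hij : i = j
      · rw [if_pos hij, if_pos hij.symm]
      · rw [if_neg hij, if_neg (fun h => hij h.symm)]
    · intro b _ hb
      rw [if_neg hb, zero_mul]
    · intro h; exact absurd (Finset.mem_univ _) h
  have hdet : P.det = 1 := by
    have h3 : P.det * P.det = 1 := by rw [← Matrix.det_mul, hPP, Matrix.det_one]
    have h4 : (P.det - 1) * (P.det - 1) = 0 := by
      have h5 : (P.det - 1) * (P.det - 1) = P.det * P.det - (P.det + P.det) + 1 := by ring
      rw [h5, h3, CharTwo.add_self_eq_zero, sub_zero, CharTwo.add_self_eq_zero]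
    have h6 : P.det - 1 = 0 := by
      rcases mul_eq_zero.mp h4 with h | h <;> exact h
    exact sub_eq_zero.mp h6
  obtain ⟨s, hs⟩ : ∃ s : Matrix.SpecialLinearGroup (Fin n) F,
      (s : Matrix (Fin n) (Fin n) F) = P := ⟨⟨P, hdet⟩, rfl⟩
  have hsmem : s ∈ Cfsg.SU n F q := by
    intro u v
    have hmat : (Cfsg.slToMat n F) s = P := by
      rw [← hs]; rfl
    rw [hmat]
    unfold Cfsg.hermForm
    simp only [hmulVec]
    exact Equiv.sum_comp (Function.Involutive.toPerm π hππ) (fun i => u i * v i ^ q)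
  have hs2 : s * s = 1 := by
    apply Subtype.ext
    rw [Matrix.SpecialLinearGroup.coe_mul, Matrix.SpecialLinearGroup.coe_one, hs, hPP]
  have hs1 : s ≠ 1 := by
    intro h
    have h3 : P = 1 := by rw [← hs, h, Matrix.SpecialLinearGroup.coe_one]
    have h4 := congrFun (congrFun h3 ⟨0, by omega⟩) ⟨0, by omega⟩
    rw [hPa, Matrix.one_apply_eq] at h4
    have h5 : (⟨0, by omega⟩ : Fin n) ≠ π ⟨0, by omega⟩ := by
      intro h6
      have h7 := hπ1 ⟨0, by omega⟩ (by show 0 < ℓ; omega)
      have h8 := congrArg Fin.val h6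
      simp only at h8 h7
      omega
    rw [if_neg h5] at h4
    exact zero_ne_one h4
  refine ⟨⟨s, hsmem⟩, hs, ?_, ?_⟩
  · haveI : Fact (Nat.Prime 2) := ⟨Nat.prime_two⟩
    apply orderOf_eq_prime
    · rw [pow_two]
      exact Subtype.ext hs2
    · intro h
      exact hs1 (congrArg Subtype.val h)
  · show ((s : Matrix (Fin n) (Fin n) F) - 1).rank = ℓ
    rw [hs]
    -- P - 1 = (D + E) * (1 + Eᵀ) with E the lower-left block
    obtain ⟨E, hE⟩ : ∃ E : Matrix (Fin n) (Fin n) F,
        E = Matrix.of (fun i j : Fin n => if j.val < ℓ ∧ i.val = j.val + (n - ℓ) then (1 : F) else 0) :=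
      ⟨_, rfl⟩
    have hEa : ∀ i j : Fin n, E i j = if j.val < ℓ ∧ i.val = j.val + (n - ℓ) then (1 : F) else 0 := by
      intro i j; rw [hE]; rfl
    obtain ⟨D, hD⟩ : ∃ D : Matrix (Fin n) (Fin n) F,
        D = Matrix.diagonal (fun j : Fin n => if j.val < ℓ then (1 : F) else 0) := ⟨_, rfl⟩
    have hdetL : (1 + E).det = 1 := by
      rw [Matrix.det_of_isLowerTriangular]
      · apply Finset.prod_eq_one
        intro i _
        rw [Matrix.add_apply, Matrix.one_apply_eq, hEa]
        have : ¬ (i.val < ℓ ∧ i.val = i.val + (n - ℓ)) := by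
          rintro ⟨h3, h4⟩
          omega
        rw [if_neg this, add_zero]
      · intro i j hij
        have hij' : i < j := hij
        rw [Matrix.add_apply, Matrix.one_apply_ne (ne_of_lt hij'), hEa]
        have : ¬ (j.val < ℓ ∧ i.val = j.val + (n - ℓ)) := by
          rintro ⟨h3, h4⟩
          have : i.val < j.val := hij'
          omega
        rw [if_neg this, add_zero]
    have hED : E * D = E := by
      ext i j
      rw [hD, Matrix.mul_diagonal, hEa]
      by_cases hj : j.val < ℓ
      · simp [hj]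
      · simp [hj]
    have hDEt : D * E.transpose = E.transpose := by
      have h3 := congrArg Matrix.transpose hED
      rw [Matrix.transpose_mul] at h3
      rw [hD] at h3 ⊢
      rw [Matrix.diagonal_transpose] at h3
      exact h3
    have hEEt : ∀ i j : Fin n, (E * E.transpose) i j =
        if i = j ∧ n - ℓ ≤ i.val then (1 : F) else 0 := by
      intro i j
      rw [Matrix.mul_apply]
      simp only [Matrix.transpose_apply, hEa]
      by_cases hi : n - ℓ ≤ i.val
      · have hlt : i.val - (n - ℓ) < n := by omega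
        rw [Finset.sum_eq_single (⟨i.val - (n - ℓ), hlt⟩ : Fin n)]
        · have hi1 : ((⟨i.val - (n - ℓ), hlt⟩ : Fin n).val < ℓ ∧
              i.val = (⟨i.val - (n - ℓ), hlt⟩ : Fin n).val + (n - ℓ)) := by
            constructor
            · show i.val - (n - ℓ) < ℓ
              have := i.2
              omega
            · show i.val = i.val - (n - ℓ) + (n - ℓ)
              omega
          rw [if_pos hi1, one_mul]
          by_cases hij : i = j
          · subst hij
            rw [if_pos hi1, if_pos ⟨rfl, hi⟩]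
          · have h3 : ¬ ((⟨i.val - (n - ℓ), hlt⟩ : Fin n).val < ℓ ∧
                j.val = (⟨i.val - (n - ℓ), hlt⟩ : Fin n).val + (n - ℓ)) := by
              rintro ⟨_, h4⟩
              apply hij
              apply Fin.ext
              have h5 : (⟨i.val - (n - ℓ), hlt⟩ : Fin n).val = i.val - (n - ℓ) := rfl
              omega
            rw [if_neg h3, if_neg (fun h => hij h.1)]
        · intro b _ hb
          have h3 : ¬ (b.val < ℓ ∧ i.val = b.val + (n - ℓ)) := by
            rintro ⟨_, h4⟩
            apply hb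
            apply Fin.ext
            show b.val = i.val - (n - ℓ)
            omega
          rw [if_neg h3, zero_mul]
        · intro h; exact absurd (Finset.mem_univ _) h
      · rw [if_neg (fun h => hi h.2)]
        apply Finset.sum_eq_zero
        intro b _
        have h3 : ¬ (b.val < ℓ ∧ i.val = b.val + (n - ℓ)) := by
          rintro ⟨_, h4⟩
          omega
        rw [if_neg h3, zero_mul]
    have hexp : (1 + E) * D * (1 + E).transpose = D + E.transpose + E + E * E.transpose := by
      rw [Matrix.transpose_add, Matrix.transpose_one, Matrix.add_mul, Matrix.one_mul, hED,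
        Matrix.mul_add, Matrix.mul_one, Matrix.add_mul, hDEt]
      abel
    have hkey : P - 1 = (1 + E) * D * (1 + E).transpose := by
      rw [hexp]
      ext i j
      rw [Matrix.sub_apply, Matrix.add_apply, Matrix.add_apply, Matrix.add_apply, hEEt,
        Matrix.transpose_apply, hEa, hEa, hD]
      have hPij : P i j = if (j.val < ℓ ∧ i.val = j.val + (n - ℓ)) ∨
          (i.val < ℓ ∧ j.val = i.val + (n - ℓ)) ∨ (i = j ∧ ℓ ≤ i.val ∧ i.val < n - ℓ)
          then (1 : F) else 0 := by
        rw [hP]; rfl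
      rw [hPij]
      have hneg : (-1 : F) = 1 := CharTwo.neg_eq 1
      by_cases hij : i = j
      · have hv : i.val = j.val := congrArg Fin.val hij
        rw [Matrix.one_apply, Matrix.diagonal_apply, if_pos hij, if_pos hij]
        have hA : ¬ (j.val < ℓ ∧ i.val = j.val + (n - ℓ)) := by
          rintro ⟨_, h⟩
          omega
        have hB : ¬ (i.val < ℓ ∧ j.val = i.val + (n - ℓ)) := by
          rintro ⟨_, h⟩
          omega
        rcases lt_or_ge i.val ℓ with h | h
        · have h3 : ¬ ((j.val < ℓ ∧ i.val = j.val + (n - ℓ)) ∨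
              (i.val < ℓ ∧ j.val = i.val + (n - ℓ)) ∨ (i = j ∧ ℓ ≤ i.val ∧ i.val < n - ℓ)) := by
            rintro (⟨_, h⟩ | ⟨_, h⟩ | ⟨_, h, _⟩) <;> omega
          have h4 : ¬ (i = j ∧ n - ℓ ≤ i.val) := by
            rintro ⟨_, h⟩
            omega
          rw [if_neg h3, if_pos h, if_neg hB, if_neg hA, if_neg h4]
          simp [hneg]
        · rcases lt_or_ge i.val (n - ℓ) with h' | h'
          · have h3 : ((j.val < ℓ ∧ i.val = j.val + (n - ℓ)) ∨
                (i.val < ℓ ∧ j.val = i.val + (n - ℓ)) ∨ (i = j ∧ ℓ ≤ i.val ∧ i.val < n - ℓ)) :=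
              Or.inr (Or.inr ⟨hij, h, h'⟩)
            have h4 : ¬ (i = j ∧ n - ℓ ≤ i.val) := by
              rintro ⟨_, h⟩
              omega
            have h5 : ¬ i.val < ℓ := by omega
            rw [if_pos h3, if_neg h5, if_neg hB, if_neg hA, if_neg h4]
            simp
          · have h3 : ¬ ((j.val < ℓ ∧ i.val = j.val + (n - ℓ)) ∨
                (i.val < ℓ ∧ j.val = i.val + (n - ℓ)) ∨ (i = j ∧ ℓ ≤ i.val ∧ i.val < n - ℓ)) := by
              rintro (⟨_, h⟩ | ⟨_, h⟩ | ⟨_, _, h⟩) <;> omega
            have h4 : (i = j ∧ n - ℓ ≤ i.val) := ⟨hij, h'⟩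
            have h5 : ¬ i.val < ℓ := by omega
            rw [if_neg h3, if_neg h5, if_neg hB, if_neg hA, if_pos h4]
            simp [hneg]
      · rw [Matrix.one_apply_ne hij, Matrix.diagonal_apply_ne _ hij]
        have h4 : ¬ (i = j ∧ n - ℓ ≤ i.val) := fun h => hij h.1
        by_cases hA : j.val < ℓ ∧ i.val = j.val + (n - ℓ)
        · have hB : ¬ (i.val < ℓ ∧ j.val = i.val + (n - ℓ)) := by
            rintro ⟨_, h⟩
            omega
          have h3 : ((j.val < ℓ ∧ i.val = j.val + (n - ℓ)) ∨
                (i.val < ℓ ∧ j.val = i.val + (n - ℓ)) ∨ (i = j ∧ ℓ ≤ i.val ∧ i.val < n - ℓ)) :=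
            Or.inl hA
          rw [if_pos h3, if_neg hB, if_pos hA, if_neg h4]
          simp
        · by_cases hB : i.val < ℓ ∧ j.val = i.val + (n - ℓ)
          · have h3 : ((j.val < ℓ ∧ i.val = j.val + (n - ℓ)) ∨
                (i.val < ℓ ∧ j.val = i.val + (n - ℓ)) ∨ (i = j ∧ ℓ ≤ i.val ∧ i.val < n - ℓ)) :=
              Or.inr (Or.inl hB)
            rw [if_pos h3, if_pos hB, if_neg hA, if_neg h4]
            simp
          · have h3 : ¬ ((j.val < ℓ ∧ i.val = j.val + (n - ℓ)) ∨
                (i.val < ℓ ∧ j.val = i.val + (n - ℓ)) ∨ (i = j ∧ ℓ ≤ i.val ∧ i.val < n - ℓ)) := by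
              rintro (h | h | ⟨h, _⟩)
              · exact hA h
              · exact hB h
              · exact hij h
            rw [if_neg h3, if_neg hB, if_neg hA, if_neg h4]
            simp
    rw [hkey, Matrix.rank_mul_eq_left_of_isUnit_det _ _ (by rw [Matrix.det_transpose, hdetL]; exact isUnit_one),
      Matrix.rank_mul_eq_right_of_isUnit_det _ _ (by rw [hdetL]; exact isUnit_one), hD]
    exact rank_diag01 ℓ (by omega)

end Cfsg.Agent.S2165
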