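import Cfsg.Statements.S2167
import Mathlib
import Cfsg.Agent.S0752
import Cfsg.Agent.Lib.Helper5.Symp
-- import your own Cfsg.Agent.* helpers here

set_option autoImplicit false
open Cfsg

namespace Cfsg.Agent.S2167

theorem alt_rank_even {F : Type*} [Field F] (m : ℕ) (N : Matrix (Fin m ⊕ Fin m) (Fin m ⊕ Fin m) F)
    (hN : ∀ v, Cfsg.sympForm m F v (N.mulVec v) = 0) : Even N.rank := by
  classical
  obtain ⟨B, hBdef⟩ : ∃ B : LinearMap.BilinForm F (Fin m ⊕ Fin m → F),
      B = Matrix.toBilin' (Matrix.J (Fin m) F * N) := ⟨_, rfl⟩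
  have hB : ∀ u w, B u w = Cfsg.sympForm m F u (N.mulVec w) := by
    intro u w
    rw [hBdef, Matrix.toBilin'_apply', ← Matrix.mulVec_mulVec]; rfl
  have hA : B.IsAlt := fun v => by rw [hB]; exact hN v
  obtain ⟨m', k, b, h1, h2, h3, h4⟩ := Cfsg.Agent.S0752.result B hA
  have hskew : ∀ x y, B x y = - B y x := fun x y => (hA.neg_eq y x).symm
  have hker : LinearMap.ker N.mulVecLin = Submodule.span F (Set.range (b ∘ Sum.inr)) := by
    apply le_antisymm
    · intro w hw
      have hw0 : N.mulVec w = 0 := hw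
      have hBw : ∀ u, B u w = 0 := fun u => by
        rw [hB, hw0]; exact Cfsg.Agent.Lib.Helper5.sympForm_zero_right m u
      have hexp : ∀ u, B u w = ∑ x, b.repr w x * B u (b x) := by
        intro u
        conv_lhs => rw [← b.sum_repr w]
        rw [map_sum]
        refine Finset.sum_congr rfl fun x _ => ?_
        rw [map_smul, smul_eq_mul]
      have hc1 : ∀ i : Fin m', b.repr w (Sum.inl (Sum.inr i)) = 0 := by
        intro i
        have := hexp (b (Sum.inl (Sum.inl i)))
        rw [hBw, Fintype.sum_sum_type, Fintype.sum_sum_type] at this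
        simp only [h1, h2] at this
        have h5 : ∀ j : Fin k, B (b (Sum.inl (Sum.inl i))) (b (Sum.inr j)) = 0 := fun j => by
          rw [hskew, h4, neg_zero]
        simp only [h5, mul_zero, Finset.sum_const_zero, add_zero, zero_add, mul_ite, mul_one,
          Finset.sum_ite_eq, Finset.mem_univ, if_true] at this
        exact this.symm
      have hc2 : ∀ i : Fin m', b.repr w (Sum.inl (Sum.inl i)) = 0 := by
        intro i
        have := hexp (b (Sum.inl (Sum.inr i)))
        rw [hBw, Fintype.sum_sum_type, Fintype.sum_sum_type] at this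
        have h5 : ∀ j : Fin k, B (b (Sum.inl (Sum.inr i))) (b (Sum.inr j)) = 0 := fun j => by
          rw [hskew, h4, neg_zero]
        have h6 : ∀ j : Fin m', B (b (Sum.inl (Sum.inr i))) (b (Sum.inl (Sum.inl j))) =
            if j = i then -1 else 0 := fun j => by
          rw [hskew, h1]; split_ifs <;> simp
        simp only [h3, h5, h6, mul_zero, Finset.sum_const_zero, add_zero, mul_ite, mul_neg,
          mul_one, Finset.sum_ite_eq', Finset.mem_univ, if_true] at this
        exact neg_eq_zero.mp this.symm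
      rw [← b.sum_repr w, Fintype.sum_sum_type]
      apply Submodule.add_mem
      · have : ∑ x : Fin m' ⊕ Fin m', b.repr w (Sum.inl x) • b (Sum.inl x) = 0 := by
          refine Finset.sum_eq_zero fun x _ => ?_
          rcases x with i | i
          · rw [hc2, zero_smul]
          · rw [hc1, zero_smul]
        rw [this]; exact Submodule.zero_mem _
      · refine Submodule.sum_mem _ fun j _ => Submodule.smul_mem _ _ (Submodule.subset_span ⟨j, rfl⟩)
    · rw [Submodule.span_le]
      rintro _ ⟨j, rfl⟩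
      show N.mulVec (b (Sum.inr j)) = 0
      by_contra hne
      obtain ⟨a, ha⟩ := Cfsg.Agent.Lib.Helper5.exists_sympForm_ne_zero m _ hne
      apply ha
      rw [Cfsg.Agent.Lib.Helper5.sympForm_swap, ← hB, hskew, h4, neg_zero, neg_zero]
  have hfk : Module.finrank F (LinearMap.ker N.mulVecLin) = k := by
    rw [hker, finrank_span_eq_card (b.linearIndependent.comp _ Sum.inr_injective), Fintype.card_fin]
  have hrn := LinearMap.finrank_range_add_finrank_ker N.mulVecLin
  have hV : Module.finrank F (Fin m ⊕ Fin m → F) = m' + m' + k := by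
    rw [Module.finrank_eq_card_basis b]; simp
  have hr : N.rank = Module.finrank F (LinearMap.range N.mulVecLin) := rfl
  rw [hfk, hV] at hrn
  exact ⟨m', by omega⟩

/-- For an involution t of the symplectic group Sp_{2m}(F), m ≥ 2, F a finite field of characteristic two (matrices A with A J Aᵀ = J acting on column vectors, alternating form f(u, v) = u ⬝ (J v)): the set V(t) of vectors v with f(v, t v) = 0 has either q^{2m} or q^{2m−1} elements, q the order of F (it is a subspace of codimension at most 1), and if it is the whole space then t − 1 has even rank. -/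
theorem result {F : Type*} [Field F] [Fintype F] [CharP F 2] {m : ℕ} (hm : 2 ≤ m) (a : ↥(Matrix.symplecticGroup (Fin m) F)) (ha : orderOf a = 2) :
    (Nat.card {v : Fin m ⊕ Fin m → F // Cfsg.sympForm m F v (Matrix.mulVec ((a : ↥(Matrix.symplecticGroup (Fin m) F)) : Matrix (Fin m ⊕ Fin m) (Fin m ⊕ Fin m) F) v) = 0} = Fintype.card F ^ (2 * m) ∨ Nat.card {v : Fin m ⊕ Fin m → F // Cfsg.sympForm m F v (Matrix.mulVec ((a : ↥(Matrix.symplecticGroup (Fin m) F)) : Matrix (Fin m ⊕ Fin m) (Fin m ⊕ Fin m) F) v) = 0} * Fintype.card F = Fintype.card F ^ (2 * m)) ∧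
    ((∀ v : Fin m ⊕ Fin m → F, Cfsg.sympForm m F v (Matrix.mulVec ((a : ↥(Matrix.symplecticGroup (Fin m) F)) : Matrix (Fin m ⊕ Fin m) (Fin m ⊕ Fin m) F) v) = 0) → Even (((a : ↥(Matrix.symplecticGroup (Fin m) F)) : Matrix (Fin m ⊕ Fin m) (Fin m ⊕ Fin m) F) - 1).rank) := by
  classical
  obtain ⟨M, hM⟩ : ∃ M : Matrix (Fin m ⊕ Fin m) (Fin m ⊕ Fin m) F,
      M = ((a : ↥(Matrix.symplecticGroup (Fin m) F)) : Matrix (Fin m ⊕ Fin m) (Fin m ⊕ Fin m) F) := ⟨_, rfl⟩
  rw [← hM]
  have hMmem : M ∈ Matrix.symplecticGroup (Fin m) F := by rw [hM]; exact a.2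
  have hMM : M * M = 1 := by
    have h := pow_orderOf_eq_one a
    rw [ha, pow_two] at h
    have h2 := congrArg (fun x : ↥(Matrix.symplecticGroup (Fin m) F) =>
      (x : Matrix (Fin m ⊕ Fin m) (Fin m ⊕ Fin m) F)) h
    rw [hM]; exact h2
  have hMMv : ∀ v, M.mulVec (M.mulVec v) = v := fun v => by
    rw [Matrix.mulVec_mulVec, hMM, Matrix.one_mulVec]
  have hcross : ∀ v w, Cfsg.sympForm m F w (M.mulVec v) = - Cfsg.sympForm m F v (M.mulVec w) := by
    intro v w
    rw [← Cfsg.Agent.Lib.Helper5.sympForm_mulVec_of_mem m M hMmem w (M.mulVec v), hMMv,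
      Cfsg.Agent.Lib.Helper5.sympForm_swap]
  have hadd : ∀ v w, Cfsg.sympForm m F (v + w) (M.mulVec (v + w)) =
      Cfsg.sympForm m F v (M.mulVec v) + Cfsg.sympForm m F w (M.mulVec w) := by
    intro v w
    rw [Matrix.mulVec_add, Cfsg.Agent.Lib.Helper5.sympForm_add_left,
      Cfsg.Agent.Lib.Helper5.sympForm_add_right, Cfsg.Agent.Lib.Helper5.sympForm_add_right,
      hcross v w]
    ring
  have hsm : ∀ (c : F) v, Cfsg.sympForm m F (c • v) (M.mulVec (c • v)) =
      c * c * Cfsg.sympForm m F v (M.mulVec v) := by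
    intro c v
    rw [Matrix.mulVec_smul, Cfsg.Agent.Lib.Helper5.sympForm_smul_left,
      Cfsg.Agent.Lib.Helper5.sympForm_smul_right, mul_assoc]
  have hcardV : Nat.card (Fin m ⊕ Fin m → F) = Fintype.card F ^ (2 * m) := by
    rw [Nat.card_eq_fintype_card, Fintype.card_fun, Fintype.card_sum, Fintype.card_fin, two_mul]
  refine ⟨?_, ?_⟩
  · by_cases h : ∀ v : Fin m ⊕ Fin m → F, Cfsg.sympForm m F v (M.mulVec v) = 0
    · left
      rw [Nat.card_congr (Equiv.subtypeUnivEquiv h), hcardV]
    · right
      push Not at h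
      obtain ⟨v0, hv0⟩ := h
      obtain ⟨φ, hφ⟩ : ∃ φ : (Fin m ⊕ Fin m → F) →+ F,
          ∀ v, φ v = Cfsg.sympForm m F v (M.mulVec v) :=
        ⟨AddMonoidHom.mk' (fun v => Cfsg.sympForm m F v (M.mulVec v)) hadd, fun v => rfl⟩
      have hsurj : Function.Surjective φ := by
        intro s
        obtain ⟨c, hc⟩ := FiniteField.isSquare_of_char_two (ringChar.eq F 2)
          (s / Cfsg.sympForm m F v0 (M.mulVec v0))
        refine ⟨c • v0, ?_⟩
        rw [hφ, hsm, ← hc, div_mul_cancel₀ _ hv0]
      have h1 := AddSubgroup.card_mul_index φ.ker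
      have h2 : φ.ker.index = Fintype.card F := by
        rw [AddSubgroup.index_ker, AddMonoidHom.range_eq_top.mpr hsurj, AddSubgroup.card_top,
          Nat.card_eq_fintype_card]
      have h3 : Nat.card {v : Fin m ⊕ Fin m → F // Cfsg.sympForm m F v (M.mulVec v) = 0} =
          Nat.card φ.ker :=
        Nat.card_congr (Equiv.subtypeEquivRight fun v => by rw [AddMonoidHom.mem_ker, hφ])
      rw [h3, ← hcardV, ← h1, h2]
  · intro h
    apply Cfsg.Agent.S2167.alt_rank_even m (M - 1)
    intro v
    rw [Matrix.sub_mulVec, Matrix.one_mulVec, Cfsg.Agent.Lib.Helper5.sympForm_sub_right, h v,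
      Cfsg.Agent.Lib.Helper5.sympForm_self, sub_zero]

end Cfsg.Agent.S2167
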