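import Cfsg.Statements.S2241
import Cfsg.Agent.Lib.Helper2.Sz12
-- import your own Cfsg.Agent.* helpers here

set_option autoImplicit false
open Cfsg

namespace Cfsg.Agent.S2241

open Cfsg.Agent.Lib.Helper2.SzL

/-- Real 2-elements of the Suzuki group: with q = 2^(2m+1), m ≥ 1, and the group realised as the stabiliser in SL₄ of the Suzuki–Tits ovoid, a non-identity element of a Sylow 2-subgroup is conjugate to its inverse if and only if it is an involution; in particular no element of order 4 is conjugate to its inverse. -/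
theorem result {F : Type*} [Field F] [Fintype F] {m : ℕ} (hm : 1 ≤ m) (hF : Fintype.card F = 2 ^ (2 * m + 1)) (P : Sylow 2 ↥(Cfsg.Sz F m)) (g : ↥(Cfsg.Sz F m)) (hg : g ∈ (P : Subgroup ↥(Cfsg.Sz F m))) (h1 : g ≠ 1) :
    IsConj g g⁻¹ ↔ orderOf g = 2 := by
  haveI : Fact (Nat.Prime 2) := ⟨Nat.prime_two⟩
  constructor
  · intro hconj
    obtain ⟨x, hx⟩ := MulAction.exists_smul_eq (↥(Cfsg.Sz F m)) (QSyl hm hF) P
    have hmem : x⁻¹ * g * x ∈ QG (m := m) hF := by
      have h1 : g ∈ ((x • QSyl hm hF : Sylow 2 ↥(Cfsg.Sz F m)) : Subgroup ↥(Cfsg.Sz F m)) := by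
        rw [hx]; exact hg
      rw [Sylow.coe_subgroup_smul, Subgroup.mem_pointwise_smul_iff_inv_smul_mem] at h1
      have h2 : (MulAut.conj x)⁻¹ • g = x⁻¹ * g * x := by
        rw [← map_inv, MulAut.smul_def, MulAut.conj_apply, inv_inv]
      rw [h2] at h1
      exact h1
    obtain ⟨a, b, hab⟩ := hmem
    obtain ⟨c, hc⟩ := isConj_iff.mp hconj
    -- conjugate the conjugator
    have hc' : (x⁻¹ * c * x) * (x⁻¹ * g * x) * (x⁻¹ * c * x)⁻¹ = (x⁻¹ * g * x)⁻¹ := by
      have : (x⁻¹ * c * x) * (x⁻¹ * g * x) * (x⁻¹ * c * x)⁻¹ = x⁻¹ * (c * g * c⁻¹) * x := by group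
      rw [this, hc]; group
    have hc'' : ((x⁻¹ * c * x : ↥(Cfsg.Sz F m)) : Matrix.SpecialLinearGroup (Fin 4) F) * sS m a b *
        ((x⁻¹ * c * x : ↥(Cfsg.Sz F m)) : Matrix.SpecialLinearGroup (Fin 4) F)⁻¹ = (sS m a b)⁻¹ := by
      have := congrArg (Subtype.val) hc'
      rw [Subgroup.coe_mul, Subgroup.coe_mul, Subgroup.coe_inv, Subgroup.coe_inv, hab] at this
      exact this
    have ha : a = 0 := by
      by_contra ha
      exact not_conj_inv hm hF ha _ (x⁻¹ * c * x).2 hc''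
    subst ha
    have hsq : (x⁻¹ * g * x) ^ 2 = 1 := by
      apply Subtype.ext
      rw [Subgroup.coe_pow, hab, pow_two, sS_mul hF, Subgroup.coe_one, th_zero, zero_mul, add_zero,
        add_zero, add_self hF b, sS_zero]
    have hg2 : g ^ 2 = 1 := by
      have : g ^ 2 = x * (x⁻¹ * g * x) ^ 2 * x⁻¹ := by
        rw [pow_two, pow_two]; group
      rw [this, hsq]; group
    exact orderOf_eq_prime hg2 h1
  · intro h2
    have hg2 : g ^ 2 = 1 := by rw [← h2]; exact pow_orderOf_eq_one g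
    have : g⁻¹ = g := by
      rw [inv_eq_iff_mul_eq_one, ← pow_two]; exact hg2
    rw [this]

end Cfsg.Agent.S2241
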