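import Mathlib
import Cfsg.Statements.S2268
import Cfsg.Agent.Lib.Helper1.StronglyEmb

set_option autoImplicit false
open Cfsg

namespace Cfsg.Agent.S2268

/-- Let G be a finite group with an abelian Sylow p-subgroup P and let Q ≤ P. Then N_G(Q) = (N_G(Q) ∩ N_G(P))·C_G(Q), so that N_G(Q)/C_G(Q) is a homomorphic image of the subgroup (N_G(Q) ∩ N_G(P))/C_G(P) of N_G(P)/C_G(P); in particular the order of N_G(Q)/C_G(Q) divides the order of N_G(P)/C_G(P). -/
theorem result {G : Type*} [Group G] [Finite G] {p : ℕ} [Fact p.Prime]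
    (P : Sylow p G) (hP : IsMulCommutative (P : Subgroup G)) (Q : Subgroup G) (hQ : Q ≤ (P : Subgroup G)) :
    Subgroup.normalizer (Q : Set G) =
      (Subgroup.normalizer (Q : Set G) ⊓ Subgroup.normalizer ((P : Subgroup G) : Set G)) ⊔ Subgroup.centralizer (Q : Set G) ∧
    ((Subgroup.centralizer (Q : Set G)).subgroupOf (Subgroup.normalizer (Q : Set G))).index ∣ ((Subgroup.centralizer ((P : Subgroup G) : Set G)).subgroupOf (Subgroup.normalizer ((P : Subgroup G) : Set G))).index := by
  -- P ≤ C(Q)
  have hPC : (P : Subgroup G) ≤ Subgroup.centralizer (Q : Set G) := by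
    intro x hx
    rw [Subgroup.mem_centralizer_iff]
    intro y hy
    have := hP.is_comm.comm (⟨y, hQ hy⟩ : (P : Subgroup G)) ⟨x, hx⟩
    exact congrArg Subtype.val this
  have hCN : Subgroup.centralizer (Q : Set G) ≤ Subgroup.normalizer (Q : Set G) :=
    Subgroup.centralizer_le_normalizer (Q : Set G)
  have hNC : Subgroup.normalizer (Q : Set G) ≤
      Subgroup.normalizer ((Subgroup.centralizer (Q : Set G) : Subgroup G) : Set G) :=
    (Subgroup.normal_subgroupOf_iff_le_normalizer hCN).mp inferInstance
  have hidx : ¬ p ∣ (P : Subgroup G).relIndex (Subgroup.centralizer (Q : Set G)) := by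
    intro h
    exact P.not_dvd_index (dvd_trans h (Subgroup.relIndex_dvd_index_of_le hPC))
  have hfr := Cfsg.Agent.Lib.Helper1.frattini_rel hNC hPC P.isPGroup' hidx
  have part1 : Subgroup.normalizer (Q : Set G) =
      (Subgroup.normalizer (Q : Set G) ⊓ Subgroup.normalizer ((P : Subgroup G) : Set G)) ⊔
        Subgroup.centralizer (Q : Set G) := by
    apply le_antisymm
    · intro h hh
      obtain ⟨l, hl, hlh⟩ := hfr h hh
      have h1 : h = l⁻¹ * (l * h) := by group
      rw [h1]
      apply Subgroup.mul_mem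
      · exact Subgroup.mem_sup_right (Subgroup.inv_mem _ hl)
      · apply Subgroup.mem_sup_left
        exact ⟨Subgroup.mul_mem _ (hCN hl) hh, hlh⟩
    · exact sup_le inf_le_left hCN
  refine ⟨part1, ?_⟩
  -- index computation
  have hCPCQ : Subgroup.centralizer ((P : Subgroup G) : Set G) ≤ Subgroup.centralizer (Q : Set G) :=
    Subgroup.centralizer_le hQ
  have hCPNP : Subgroup.centralizer ((P : Subgroup G) : Set G) ≤
      Subgroup.normalizer ((P : Subgroup G) : Set G) :=
    Subgroup.centralizer_le_normalizer ((P : Subgroup G) : Set G)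
  have hCPA : Subgroup.centralizer ((P : Subgroup G) : Set G) ≤
      Subgroup.normalizer (Q : Set G) ⊓ Subgroup.normalizer ((P : Subgroup G) : Set G) :=
    le_inf (hCPCQ.trans hCN) hCPNP
  haveI : ((Subgroup.centralizer (Q : Set G)).subgroupOf (Subgroup.normalizer (Q : Set G))).Normal :=
    (Subgroup.normal_subgroupOf_iff_le_normalizer hCN).mpr hNC
  have h1 : ((Subgroup.centralizer (Q : Set G)).subgroupOf (Subgroup.normalizer (Q : Set G))).index =
      (Subgroup.centralizer (Q : Set G)).relIndex
        (Subgroup.normalizer (Q : Set G) ⊓ Subgroup.normalizer ((P : Subgroup G) : Set G)) := by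
    have h2 := Subgroup.relIndex_sup_right
      (H := (Subgroup.normalizer (Q : Set G) ⊓ Subgroup.normalizer ((P : Subgroup G) : Set G)).subgroupOf
        (Subgroup.normalizer (Q : Set G)))
      (K := (Subgroup.centralizer (Q : Set G)).subgroupOf (Subgroup.normalizer (Q : Set G)))
    rw [← Subgroup.subgroupOf_sup inf_le_left hCN, ← part1, Subgroup.subgroupOf_self,
      Subgroup.relIndex_top_right, Subgroup.relIndex_subgroupOf inf_le_left] at h2
    exact h2
  rw [h1]
  have h3 : (Subgroup.centralizer (Q : Set G)).relIndex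
        (Subgroup.normalizer (Q : Set G) ⊓ Subgroup.normalizer ((P : Subgroup G) : Set G)) ∣
      (Subgroup.centralizer ((P : Subgroup G) : Set G)).relIndex
        (Subgroup.normalizer (Q : Set G) ⊓ Subgroup.normalizer ((P : Subgroup G) : Set G)) :=
    Subgroup.relIndex_dvd_of_le_left _ hCPCQ
  have h4 : (Subgroup.centralizer ((P : Subgroup G) : Set G)).relIndex
        (Subgroup.normalizer (Q : Set G) ⊓ Subgroup.normalizer ((P : Subgroup G) : Set G)) ∣
      (Subgroup.centralizer ((P : Subgroup G) : Set G)).relIndex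
        (Subgroup.normalizer ((P : Subgroup G) : Set G)) :=
    Dvd.intro _ (Subgroup.relIndex_mul_relIndex _ _ _ hCPA inf_le_right)
  exact dvd_trans h3 h4

end Cfsg.Agent.S2268
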