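import Mathlib
import Cfsg.Statements.S2270

set_option autoImplicit false
open Cfsg

namespace Cfsg.Agent.S2270

/-- if an element `n` of `N(P)` inverts a nontrivial element of odd order of the abelian Sylow subgroup `P`,
then `N(P)/C(P)` has even order -/
theorem even_of_invert {G : Type*} [Group G] [Finite G] (P : Subgroup G) (x n : G) (hx : x ∈ P)
    (hn : n ∈ Subgroup.normalizer (P : Set G)) (hinv : n⁻¹ * x * n = x⁻¹) (hx2 : x * x ≠ 1) :
    2 ∣ ((Subgroup.centralizer (P : Set G)).subgroupOf (Subgroup.normalizer (P : Set G))).index := by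
  have hodd : ∀ i : ℕ, (n ^ (2 * i + 1))⁻¹ * x * n ^ (2 * i + 1) = x⁻¹ := by
    intro i
    induction i with
    | zero => simpa using hinv
    | succ i ih =>
      have h1 : n ^ (2 * (i + 1) + 1) = n ^ (2 * i + 1) * (n * n) := by
        have h0 : 2 * (i + 1) + 1 = (2 * i + 1) + 2 := by ring
        rw [h0, pow_add, pow_two]
      rw [h1]
      have h2 : (n ^ (2 * i + 1) * (n * n))⁻¹ * x * (n ^ (2 * i + 1) * (n * n)) =
          n⁻¹ * (n⁻¹ * ((n ^ (2 * i + 1))⁻¹ * x * n ^ (2 * i + 1)) * n) * n := by group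
      rw [h2, ih]
      have h3 : n⁻¹ * x⁻¹ * n = (n⁻¹ * x * n)⁻¹ := by group
      rw [h3, hinv, inv_inv, hinv]
  let q : (Subgroup.normalizer (P : Set G)) ⧸
      ((Subgroup.centralizer (P : Set G)).subgroupOf (Subgroup.normalizer (P : Set G))) :=
    QuotientGroup.mk (⟨n, hn⟩ : Subgroup.normalizer (P : Set G))
  have hdvd : orderOf q ∣ ((Subgroup.centralizer (P : Set G)).subgroupOf
      (Subgroup.normalizer (P : Set G))).index := orderOf_dvd_natCard q
  refine dvd_trans ?_ hdvd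
  rw [← even_iff_two_dvd]
  by_contra hne
  rw [Nat.not_even_iff_odd] at hne
  obtain ⟨i, hi⟩ := hne
  have h1 : q ^ (2 * i + 1) = 1 := by rw [← hi]; exact pow_orderOf_eq_one q
  have h2 : (⟨n, hn⟩ : Subgroup.normalizer (P : Set G)) ^ (2 * i + 1) ∈
      (Subgroup.centralizer (P : Set G)).subgroupOf (Subgroup.normalizer (P : Set G)) := by
    rw [← QuotientGroup.eq_one_iff, QuotientGroup.mk_pow]
    exact h1
  rw [Subgroup.mem_subgroupOf] at h2
  have h3 : n ^ (2 * i + 1) ∈ Subgroup.centralizer (P : Set G) := by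
    simpa using h2
  rw [Subgroup.mem_centralizer_iff] at h3
  have h4 := h3 x hx
  have h5 : (n ^ (2 * i + 1))⁻¹ * x * n ^ (2 * i + 1) = x := by
    rw [mul_assoc, h4]; group
  rw [hodd i] at h5
  apply hx2
  calc x * x = x⁻¹ * x := by rw [h5]
    _ = 1 := by group

/-- Let n ≥ 3, p an odd prime, and P an abelian Sylow p-subgroup of the symmetric group S_n (with p dividing n!, so that P ≠ 1). Then N(P)/C(P) has even order. -/
theorem result (n : ℕ) (hn : 3 ≤ n) {p : ℕ} [Fact p.Prime] (hp : p ≠ 2) (hpn : p ≤ n)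
    (P : Sylow p (Equiv.Perm (Fin n))) (hP : IsMulCommutative (P : Subgroup (Equiv.Perm (Fin n)))) :
    2 ∣ ((Subgroup.centralizer ((P : Subgroup (Equiv.Perm (Fin n))) : Set (Equiv.Perm (Fin n)))).subgroupOf (Subgroup.normalizer ((P : Subgroup (Equiv.Perm (Fin n))) : Set (Equiv.Perm (Fin n))))).index := by
  have hpp : p.Prime := Fact.out
  have hcard : p ∣ Nat.card (Equiv.Perm (Fin n)) := by
    rw [Nat.card_eq_fintype_card, Fintype.card_perm, Fintype.card_fin]
    exact Nat.dvd_factorial hpp.pos hpn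
  have hne : (P : Subgroup (Equiv.Perm (Fin n))) ≠ ⊥ := P.ne_bot_of_dvd_card hcard
  obtain ⟨x, hx1⟩ := (Subgroup.ne_bot_iff_exists_ne_one).mp hne
  obtain ⟨x, hxP, hx1⟩ : ∃ x : Equiv.Perm (Fin n), x ∈ (P : Subgroup (Equiv.Perm (Fin n))) ∧ x ≠ 1 := by
    refine ⟨x.1, x.2, ?_⟩
    intro h
    apply hx1
    exact Subtype.ext h
  have hconj : IsConj x x⁻¹ := by
    rw [Equiv.Perm.isConj_iff_cycleType_eq, Equiv.Perm.cycleType_inv]
  obtain ⟨g, hg⟩ := isConj_iff.mp hconj
  haveI : IsMulCommutative P := hP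
  obtain ⟨m, hm, hm2⟩ := P.conj_eq_normalizer_conj_of_mem x g⁻¹ hxP (by
    rw [inv_inv, hg]
    exact Subgroup.inv_mem _ hxP)
  rw [inv_inv, hg] at hm2
  apply even_of_invert (P : Subgroup (Equiv.Perm (Fin n))) x m hxP hm hm2.symm
  -- x * x ≠ 1
  intro h
  apply hx1
  obtain ⟨k, hk⟩ := P.isPGroup' ⟨x, hxP⟩
  have hk' : x ^ p ^ k = 1 := by
    have := congrArg Subtype.val hk
    simpa using this
  have h2 : x ^ 2 = 1 := by rw [pow_two]; exact h
  have h3 : x ^ Nat.gcd (p ^ k) 2 = 1 := pow_gcd_eq_one.mpr ⟨hk', h2⟩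
  have h4 : Nat.gcd (p ^ k) 2 = 1 :=
    ((Nat.coprime_primes hpp Nat.prime_two).mpr hp).pow_left k
  rw [h4, pow_one] at h3
  exact h3

end Cfsg.Agent.S2270
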