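import Mathlib
import Cfsg.Statements.S2471

set_option autoImplicit false
open Cfsg

namespace Cfsg.Agent.S2471

/-- Cayley–Hamilton for a `2 × 2` matrix of determinant one -/
theorem ch2 {F : Type*} [Field F] (A : Matrix (Fin 2) (Fin 2) F) (hdet : A.det = 1) :
    A * A + 1 = (A 0 0 + A 1 1) • A := by
  rw [Matrix.det_fin_two] at hdet
  ext i j
  fin_cases i <;> fin_cases j <;> simp [Matrix.mul_apply, Fin.sum_univ_two]
  · linear_combination (-1 : F) * hdet
  · ring
  · ring
  · linear_combination (-1 : F) * hdet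

/-- In PSL(2,q) with q odd, the characteristic p is isolated from 2 in the prime graph: for F a finite field of odd characteristic p with at least 5 elements, PSL(2,F) has no element of order 2p. -/
theorem result {F : Type*} [Field F] [Fintype F] (p : ℕ) [Fact p.Prime] [CharP F p] (hp : p ≠ 2) (h5 : 5 ≤ Fintype.card F) (g : Matrix.ProjectiveSpecialLinearGroup (Fin 2) F) :
    orderOf g ≠ 2 * p := by
  intro ho
  obtain ⟨g, rfl⟩ := QuotientGroup.mk_surjective g
  have hp2 : 2 ≤ p := (Fact.out : p.Prime).two_le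
  have hdet : (g : Matrix (Fin 2) (Fin 2) F).det = 1 := g.det_coe
  -- the three facts on powers
  have h1 : g ^ (2 * p) ∈ Subgroup.center (Matrix.SpecialLinearGroup (Fin 2) F) := by
    rw [← QuotientGroup.eq_one_iff, QuotientGroup.mk_pow, ← ho, pow_orderOf_eq_one]
  have h2 : g ^ 2 ∉ Subgroup.center (Matrix.SpecialLinearGroup (Fin 2) F) := by
    intro h
    rw [← QuotientGroup.eq_one_iff, QuotientGroup.mk_pow] at h
    have := orderOf_dvd_of_pow_eq_one h
    rw [ho] at this
    have := Nat.le_of_dvd (by norm_num) this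
    omega
  have h3 : g ^ p ∉ Subgroup.center (Matrix.SpecialLinearGroup (Fin 2) F) := by
    intro h
    rw [← QuotientGroup.eq_one_iff, QuotientGroup.mk_pow] at h
    have := orderOf_dvd_of_pow_eq_one h
    rw [ho] at this
    have := Nat.le_of_dvd (by omega) this
    omega
  rw [Matrix.SpecialLinearGroup.mem_center_iff] at h1 h2 h3
  obtain ⟨r, hr, hr2⟩ := h1
  have hr2' : (g : Matrix (Fin 2) (Fin 2) F) ^ (2 * p) = Matrix.scalar (Fin 2) r := by
    rw [← Matrix.SpecialLinearGroup.coe_pow, ← hr2]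
  have hch := ch2 (g : Matrix (Fin 2) (Fin 2) F) hdet
  obtain ⟨t, ht⟩ : ∃ t : F, t = (g : Matrix (Fin 2) (Fin 2) F) 0 0 + (g : Matrix (Fin 2) (Fin 2) F) 1 1 :=
    ⟨_, rfl⟩
  rw [← ht] at hch
  -- Frobenius
  have hfrob : (g : Matrix (Fin 2) (Fin 2) F) ^ (2 * p) + 1 = t ^ p • (g : Matrix (Fin 2) (Fin 2) F) ^ p := by
    have e1 : ((g : Matrix (Fin 2) (Fin 2) F) * (g : Matrix (Fin 2) (Fin 2) F) + 1) ^ p =
        ((g : Matrix (Fin 2) (Fin 2) F) * (g : Matrix (Fin 2) (Fin 2) F)) ^ p + 1 ^ p :=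
      add_pow_char_of_commute p (Commute.one_right _)
    rw [hch, smul_pow, one_pow, ← pow_two, ← pow_mul] at e1
    exact e1.symm
  by_cases ht0 : t = 0
  · -- g² = -1
    apply h2
    refine ⟨-1, by simp, ?_⟩
    rw [ht0, zero_smul] at hch
    rw [Matrix.SpecialLinearGroup.coe_pow, pow_two]
    have : (g : Matrix (Fin 2) (Fin 2) F) * (g : Matrix (Fin 2) (Fin 2) F) = -1 :=
      eq_neg_of_add_eq_zero_left hch
    rw [this]
    ext i j
    fin_cases i <;> fin_cases j <;> simp [Matrix.scalar]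
  · apply h3
    have hc : (g : Matrix (Fin 2) (Fin 2) F) ^ p = Matrix.scalar (Fin 2) ((r + 1) / t ^ p) := by
      have htp : t ^ p ≠ 0 := pow_ne_zero p ht0
      have e2 : (g : Matrix (Fin 2) (Fin 2) F) ^ p =
          (t ^ p)⁻¹ • (t ^ p • (g : Matrix (Fin 2) (Fin 2) F) ^ p) := by
        rw [smul_smul, inv_mul_cancel₀ htp, one_smul]
      rw [e2, ← hfrob, hr2']
      ext i j
      fin_cases i <;> fin_cases j <;> simp [Matrix.scalar] <;> field_simp
    refine ⟨(r + 1) / t ^ p, ?_, ?_⟩
    · -- from the determinant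
      have hd : ((g : Matrix (Fin 2) (Fin 2) F) ^ p).det = 1 := by
        rw [Matrix.det_pow, hdet, one_pow]
      rw [hc] at hd
      simp only [Fintype.card_fin]
      rw [Matrix.det_fin_two] at hd
      simp [Matrix.scalar] at hd
      rw [pow_two]
      exact hd
    · rw [Matrix.SpecialLinearGroup.coe_pow, hc]

end Cfsg.Agent.S2471
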