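import Cfsg.Statements.S2514
-- import your own Cfsg.Agent.* helpers here
import Mathlib

set_option autoImplicit false
open Cfsg

namespace Cfsg.Agent.S2514

section
variable {X : Type*} [Group X] [Finite X]

/-- maximal element orders under divisibility -/
def muSet (X : Type*) [Group X] : Set ℕ :=
  {n : ℕ | n ∈ Set.range (orderOf : X → ℕ) ∧ ∀ m ∈ Set.range (orderOf : X → ℕ), n ∣ m → m = n}

theorem exists_orderOf_eq_of_dvd (g : X) (m : ℕ) (h : m ∣ orderOf g) : ∃ g' : X, orderOf g' = m := by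
  have hpos : 0 < orderOf g := orderOf_pos g
  have hm : 0 < m := Nat.pos_of_dvd_of_pos h hpos
  refine ⟨g ^ (orderOf g / m), ?_⟩
  rw [orderOf_pow_of_dvd (Nat.div_pos (Nat.le_of_dvd hpos h) hm).ne' (Nat.div_dvd_of_dvd h),
    Nat.div_div_self h hpos.ne']

theorem exists_mu_above (n : ℕ) (hn : n ∈ Set.range (orderOf : X → ℕ)) :
    ∃ M ∈ muSet X, n ∣ M := by
  classical
  have hfin : (Set.range (orderOf : X → ℕ)).Finite := Set.finite_range _
  let s : Finset ℕ := hfin.toFinset.filter (fun m => n ∣ m)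
  have hne : s.Nonempty := ⟨n, by simp only [s, Finset.mem_filter, Set.Finite.mem_toFinset]; exact ⟨hn, dvd_rfl⟩⟩
  obtain ⟨M, hM, hmax⟩ := Finset.exists_max_image s id hne
  have hM' : M ∈ Set.range (orderOf : X → ℕ) ∧ n ∣ M := by
    simpa only [s, Finset.mem_filter, Set.Finite.mem_toFinset] using hM
  refine ⟨M, ⟨hM'.1, ?_⟩, hM'.2⟩
  intro m hm hMm
  have hms : m ∈ s := by
    simp only [s, Finset.mem_filter, Set.Finite.mem_toFinset]; exact ⟨hm, hM'.2.trans hMm⟩
  have h1 : m ≤ M := hmax m hms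
  obtain ⟨x, rfl⟩ := hm
  have h2 : M ≤ orderOf x := Nat.le_of_dvd (orderOf_pos x) hMm
  exact le_antisymm h1 h2

theorem pi_orderOf_dvd {k : ℕ} (x : Fin k → X) (N : ℕ) :
    orderOf x ∣ N ↔ ∀ i, orderOf (x i) ∣ N := by
  simp only [orderOf_dvd_iff_pow_eq_one]
  constructor
  · intro h i; have := congrFun h i; simpa using this
  · intro h; funext i; simpa using h i

theorem prod_orderOf_dvd {A B : Type*} [Monoid A] [Monoid B] (y : A × B) (N : ℕ) :
    orderOf y ∣ N ↔ orderOf y.1 ∣ N ∧ orderOf y.2 ∣ N := by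
  simp only [orderOf_dvd_iff_pow_eq_one, Prod.ext_iff, Prod.pow_fst, Prod.pow_snd, Prod.fst_one,
    Prod.snd_one]

theorem eq_of_dvd_iff {a b : ℕ} (h : ∀ N, a ∣ N ↔ b ∣ N) : a = b :=
  Nat.dvd_antisymm ((h b).mpr dvd_rfl) ((h a).mp dvd_rfl)
end

/-- For a finite group X write μ(X) for the set of element orders of X that are maximal under divisibility. Let G and H be finite groups and k ≥ 1 such that μ(H) ⊆ μ(G) and μ(G) has fewer than k elements outside μ(H). Then the direct product of k copies of G has the same set of element orders as the direct product of k − 1 copies of G with H. -/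
theorem result {G H : Type*} [Group G] [Finite G] [Group H] [Finite H] (k : ℕ) (hk : 1 ≤ k)
    (hsub : {n : ℕ | n ∈ Set.range (orderOf : H → ℕ) ∧ ∀ m ∈ Set.range (orderOf : H → ℕ), n ∣ m → m = n} ⊆ {n : ℕ | n ∈ Set.range (orderOf : G → ℕ) ∧ ∀ m ∈ Set.range (orderOf : G → ℕ), n ∣ m → m = n})
    (hfew : ({n : ℕ | n ∈ Set.range (orderOf : G → ℕ) ∧ ∀ m ∈ Set.range (orderOf : G → ℕ), n ∣ m → m = n} \ {n : ℕ | n ∈ Set.range (orderOf : H → ℕ) ∧ ∀ m ∈ Set.range (orderOf : H → ℕ), n ∣ m → m = n}).ncard < k) :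
    Set.range (orderOf : (Fin k → G) → ℕ) = Set.range (orderOf : (Fin (k - 1) → G) × H → ℕ) := by
  classical
  obtain ⟨k', rfl⟩ : ∃ k', k = k' + 1 := ⟨k - 1, by omega⟩
  change Set.range (orderOf : (Fin (k' + 1) → G) → ℕ) = Set.range (orderOf : (Fin k' → G) × H → ℕ)
  have hsub' : muSet H ⊆ muSet G := hsub
  have hfew' : (muSet G \ muSet H).ncard < k' + 1 := hfew
  have hHG : ∀ h : H, ∃ g : G, orderOf g = orderOf h := by
    intro h
    obtain ⟨M, hM, hdvd⟩ := exists_mu_above (X := H) (orderOf h) ⟨h, rfl⟩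
    obtain ⟨g, hg⟩ := (hsub' hM).1
    exact exists_orderOf_eq_of_dvd g _ (hg ▸ hdvd)
  apply Set.eq_of_subset_of_subset
  · rintro _ ⟨x, rfl⟩
    have hex : ∀ i, ∃ M ∈ muSet G, orderOf (x i) ∣ M := fun i => exists_mu_above _ ⟨x i, rfl⟩
    choose M hM hdvd using hex
    by_cases hcase : ∃ i, M i ∈ muSet H
    · obtain ⟨i, hi⟩ := hcase
      obtain ⟨h₀, hh₀⟩ := hi.1
      obtain ⟨h, hh⟩ := exists_orderOf_eq_of_dvd h₀ (orderOf (x i)) (hh₀ ▸ hdvd i)
      refine ⟨(fun j => x (i.succAbove j), h), ?_⟩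
      apply eq_of_dvd_iff
      intro N
      rw [prod_orderOf_dvd, pi_orderOf_dvd, pi_orderOf_dvd, Fin.forall_iff_succAbove i, hh]
      exact and_comm
    · simp only [not_exists] at hcase
      have hD : ∀ i, M i ∈ muSet G \ muSet H := fun i => ⟨hM i, hcase i⟩
      have hfinD : (muSet G \ muSet H).Finite :=
        (Set.finite_range (orderOf : G → ℕ)).subset (fun n hn => hn.1.1)
      have hcard : hfinD.toFinset.card < (Finset.univ : Finset (Fin (k'+1))).card := by
        rw [← Set.ncard_eq_toFinset_card _ hfinD]; simpa using hfew'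
      obtain ⟨i, -, j, -, hij, hMij⟩ := Finset.exists_ne_map_eq_of_card_lt_of_maps_to hcard (f := M)
        (fun a _ => by simpa using hD a)
      obtain ⟨g₁, hg₁⟩ := (hM i).1
      have hl : Nat.lcm (orderOf (x i)) (orderOf (x j)) ∣ orderOf g₁ := by
        rw [hg₁]; exact Nat.lcm_dvd (hdvd i) (hMij ▸ hdvd j)
      obtain ⟨g₀, hg₀⟩ := exists_orderOf_eq_of_dvd g₁ _ hl
      have hgi : orderOf (x i) ∣ orderOf g₀ := by rw [hg₀]; exact Nat.dvd_lcm_left _ _
      have hgj : orderOf (x j) ∣ orderOf g₀ := by rw [hg₀]; exact Nat.dvd_lcm_right _ _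
      refine ⟨(fun l => Function.update x j g₀ (i.succAbove l), 1), ?_⟩
      apply eq_of_dvd_iff
      intro N
      rw [prod_orderOf_dvd, pi_orderOf_dvd, pi_orderOf_dvd]
      simp only [orderOf_one, one_dvd, and_true]
      refine Iff.intro ?_ ?_
      rotate_left
      · intro hall l
        by_cases hlj : i.succAbove l = j
        · rw [hlj, Function.update_self, hg₀]
          exact Nat.lcm_dvd (hall i) (hall j)
        · rw [Function.update_of_ne hlj]; exact hall _
      · intro hall l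
        have hj : orderOf g₀ ∣ N := by
          obtain ⟨l', hl'⟩ := Fin.exists_succAbove_eq (Ne.symm hij)
          have := hall l'
          rwa [hl', Function.update_self] at this
        by_cases hli : l = i
        · rw [hli]; exact hgi.trans hj
        · by_cases hlj : l = j
          · rw [hlj]; exact hgj.trans hj
          · obtain ⟨l', hl'⟩ := Fin.exists_succAbove_eq hli
            have := hall l'
            rwa [hl', Function.update_of_ne hlj] at this
  · rintro _ ⟨⟨a, h⟩, rfl⟩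
    obtain ⟨g₀, hg₀⟩ := hHG h
    refine ⟨Fin.cons g₀ a, ?_⟩
    apply eq_of_dvd_iff
    intro N
    rw [prod_orderOf_dvd, pi_orderOf_dvd, pi_orderOf_dvd, Fin.forall_fin_succ]
    simp [hg₀, and_comm]

end Cfsg.Agent.S2514
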