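import Cfsg.Statements.S2516
-- import your own Cfsg.Agent.* helpers here
import Mathlib

set_option autoImplicit false
open Cfsg

namespace Cfsg.Agent.S2516

section
variable {F : Type*} [Field F] {V : Type*} [AddCommGroup V] [Module F V] {G : Type*} [Group G]
  (ρ : Representation F G V)

/-- the action of `G` on `Multiplicative V` -/
abbrev phi : G →* MulAut (Multiplicative V) :=
  (MulAutMultiplicative V).symm.toMonoidHom.comp
    ((DistribMulAction.toAddAut ((V →ₗ[F] V)ˣ) V).comp ρ.asGroupHom)

theorem phi_apply (g : G) (v : V) :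
    phi ρ g (Multiplicative.ofAdd v) = Multiplicative.ofAdd (ρ g v) := rfl

theorem pow_mk (v : V) (g : G) (n : ℕ) :
    ((⟨Multiplicative.ofAdd v, g⟩ : Multiplicative V ⋊[phi ρ] G) ^ n) =
      ⟨Multiplicative.ofAdd (∑ i ∈ Finset.range n, ((ρ g) ^ i) v), g ^ n⟩ := by
  induction n with
  | zero =>
    rw [pow_zero]
    apply SemidirectProduct.ext
    · simp [SemidirectProduct.one_left]
    · simp [SemidirectProduct.one_right]
  | succ n ih =>
    rw [pow_succ, ih]
    apply SemidirectProduct.ext
    · rw [SemidirectProduct.mul_left]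
      simp only
      rw [phi_apply, Finset.sum_range_succ, map_pow]
      rfl
    · rw [SemidirectProduct.mul_right, pow_succ]
end

/-- Let F be a field of characteristic p > 0, V a non-zero finite-dimensional F-vector space, G a finite group and ρ a representation of G on V; form the semidirect product V ⋊ G. For g ∈ G of order k, the coset Vg contains an element of order pk if and only if the minimal polynomial of ρ(g) does not divide 1 + X + ⋯ + X^(k−1). -/
theorem result {F : Type*} [Field F] (p : ℕ) [Fact p.Prime] [CharP F p] {V : Type*} [AddCommGroup V] [Module F V] [FiniteDimensional F V] [Nontrivial V]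
    {G : Type*} [Group G] [Finite G] (ρ : Representation F G V) (g : G) :
    (∃ x : Multiplicative V ⋊[(MulAutMultiplicative V).symm.toMonoidHom.comp
        ((DistribMulAction.toAddAut ((V →ₗ[F] V)ˣ) V).comp ρ.asGroupHom)] G,
        x.right = g ∧ orderOf x = p * orderOf g) ↔
      ¬ (minpoly F (ρ g) ∣ ∑ i ∈ Finset.range (orderOf g), (Polynomial.X : Polynomial F) ^ i) := by
  classical
  set k := orderOf g with hk
  have hkpos : 0 < k := orderOf_pos g
  have hp : p.Prime := Fact.out
  set Nm : V →ₗ[F] V := ∑ i ∈ Finset.range k, (ρ g) ^ i with hN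
  have haeval : Polynomial.aeval (ρ g) (∑ i ∈ Finset.range k, (Polynomial.X : Polynomial F) ^ i)
      = Nm := by
    simp [hN]
  rw [minpoly.dvd_iff, haeval]
  have hxk : ∀ v : V, ((⟨Multiplicative.ofAdd v, g⟩ : Multiplicative V ⋊[phi ρ] G) ^ k) =
      SemidirectProduct.inl (Multiplicative.ofAdd (Nm v)) := by
    intro v
    rw [pow_mk]
    apply SemidirectProduct.ext
    · simp [hN, LinearMap.sum_apply]
    · simp [hk, pow_orderOf_eq_one]
  constructor
  · rintro ⟨x, hxg, hxo⟩ hN0
    obtain ⟨a, g'⟩ := x
    simp only at hxg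
    subst hxg
    have h1 := hxk (Multiplicative.toAdd a)
    rw [hN0] at h1
    have h1' : (⟨a, g'⟩ : Multiplicative V ⋊[phi ρ] G) ^ k = 1 := by
      rw [show (⟨a, g'⟩ : Multiplicative V ⋊[phi ρ] G) = ⟨Multiplicative.ofAdd (Multiplicative.toAdd a), g'⟩ from rfl, h1]
      simp
    have h2 : orderOf (⟨a, g'⟩ : Multiplicative V ⋊[phi ρ] G) ∣ k := orderOf_dvd_of_pow_eq_one h1'
    rw [hxo] at h2
    have h3 := Nat.le_of_dvd hkpos h2
    have : 2 * k ≤ p * k := Nat.mul_le_mul_right k hp.two_le
    omega
  · intro hN0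
    obtain ⟨v, hv⟩ : ∃ v, Nm v ≠ 0 := by
      by_contra hcon
      simp only [not_exists, not_not] at hcon
      exact hN0 (LinearMap.ext hcon)
    refine ⟨⟨Multiplicative.ofAdd v, g⟩, rfl, ?_⟩
    have hxk' := hxk v
    have hpow := pow_mk ρ v g
    generalize (⟨Multiplicative.ofAdd v, g⟩ : Multiplicative V ⋊[phi ρ] G) = x at hxk' hpow ⊢
    have hord : orderOf (x ^ k) = p := by
      rw [hxk', orderOf_injective _ SemidirectProduct.inl_injective, orderOf_ofAdd_eq_addOrderOf]
      apply addOrderOf_eq_prime
      · rw [← Nat.cast_smul_eq_nsmul F, CharP.cast_eq_zero, zero_smul]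
      · exact hv
    apply Nat.dvd_antisymm
    · apply orderOf_dvd_of_pow_eq_one
      rw [mul_comm, pow_mul, ← hord, pow_orderOf_eq_one]
    · have hkd : k ∣ orderOf x := by
        rw [hk]; apply orderOf_dvd_of_pow_eq_one
        have h1 := congrArg SemidirectProduct.right (pow_orderOf_eq_one x)
        rw [hpow] at h1
        simpa using h1
      obtain ⟨m, hm⟩ := hkd
      have h2 : (x ^ k) ^ m = 1 := by rw [← pow_mul, ← hm, pow_orderOf_eq_one]
      have hpm : p ∣ m := by rw [← hord]; exact orderOf_dvd_of_pow_eq_one h2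
      rw [hm, mul_comm p k]; exact Nat.mul_dvd_mul_left k hpm

end Cfsg.Agent.S2516
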