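import Cfsg.Statements.S2521
import Mathlib

set_option autoImplicit false
open Cfsg

namespace Cfsg.Agent.S2521

/-- Let B be a finite group that is the semidirect product of a nilpotent normal subgroup U by an abelian subgroup T (U ∩ T = 1, UT = B), and let t ∈ T have centralizer exactly T. Then every element of the coset tU is conjugate to t in B: for each u ∈ U there is b ∈ B with b t b⁻¹ = t u. -/
theorem result {B : Type*} [Group B] [Finite B] (U T : Subgroup B) [U.Normal] (hU : Group.IsNilpotent ↥U) (hT : IsMulCommutative ↥T)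
    (hcompl : Subgroup.IsComplement' U T) (t : B) (ht : t ∈ T) (hreg : Subgroup.centralizer ({t} : Set B) = T) (u : B) (hu : u ∈ U) :
    ∃ b : B, b * t * b⁻¹ = t * u := by
  classical
  have hTU : ∀ x : B, x ∈ U → x ∈ T → x = 1 := by
    intro x hxU hxT
    have h := hcompl.disjoint
    exact Subgroup.disjoint_def.mp h hxU hxT
  have hUn : U.Normal := inferInstance
  let f : U → U := fun x => ⟨t⁻¹ * (x : B) * t * (x : B)⁻¹, by
    have h1 : t⁻¹ * (x : B) * t ∈ U := by
      have := hUn.conj_mem (x : B) x.2 t⁻¹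
      simpa using this
    exact U.mul_mem h1 (U.inv_mem x.2)⟩
  have hinj : Function.Injective f := by
    intro x y hxy
    have h1 : t⁻¹ * (x : B) * t * (x : B)⁻¹ = t⁻¹ * (y : B) * t * (y : B)⁻¹ := congrArg Subtype.val hxy
    have h2 : (y : B)⁻¹ * (x : B) ∈ Subgroup.centralizer ({t} : Set B) := by
      rw [Subgroup.mem_centralizer_iff]
      intro z hz
      rw [Set.mem_singleton_iff] at hz
      subst hz
      have h3 : (x : B) * z * (x : B)⁻¹ = (y : B) * z * (y : B)⁻¹ := by
        have : z * (z⁻¹ * (x : B) * z * (x : B)⁻¹) = z * (z⁻¹ * (y : B) * z * (y : B)⁻¹) := by rw [h1]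
        calc (x : B) * z * (x : B)⁻¹ = z * (z⁻¹ * (x : B) * z * (x : B)⁻¹) := by group
          _ = z * (z⁻¹ * (y : B) * z * (y : B)⁻¹) := this
          _ = (y : B) * z * (y : B)⁻¹ := by group
      calc z * ((y : B)⁻¹ * (x : B)) = (y : B)⁻¹ * ((y : B) * z * (y : B)⁻¹) * (x : B) := by group
        _ = (y : B)⁻¹ * ((x : B) * z * (x : B)⁻¹) * (x : B) := by rw [h3]
        _ = (y : B)⁻¹ * (x : B) * z := by group
    rw [hreg] at h2
    have h4 : (y : B)⁻¹ * (x : B) = 1 := hTU _ (U.mul_mem (U.inv_mem y.2) x.2) h2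
    apply Subtype.ext
    have : (x : B) = (y : B) * ((y : B)⁻¹ * (x : B)) := by group
    rw [this, h4, mul_one]
  have hsurj : Function.Surjective f := Finite.surjective_of_injective hinj
  obtain ⟨x, hx⟩ := hsurj ⟨u, hu⟩
  have hx' : t⁻¹ * (x : B) * t * (x : B)⁻¹ = u := congrArg Subtype.val hx
  refine ⟨(x : B), ?_⟩
  rw [← hx']
  group

end Cfsg.Agent.S2521
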