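import Mathlib
import Cfsg.Statements.S2634
import Cfsg.Agent.S2635

set_option autoImplicit false
open Cfsg

namespace Cfsg.Agent.S2634

open Matrix
open Cfsg.Agent.S0792 (Rf Rf_val)

/-- Over a finite field of characteristic two, Ω (the commutator subgroup of the orthogonal group of a quadratic form Q on F^n with non-degenerate polar form; excluding dimension 4 over the field of two elements) acts transitively on the non-singular 1-spaces: for u, v with Q(u) ≠ 0 and Q(v) ≠ 0 some element of Ω carries the line through u to the line through v. -/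
theorem result {F : Type*} [Field F] [Fintype F] [CharP F 2] {n : ℕ} (h : Fintype.card F ≠ 2 ∨ n ≠ 4) (Q : QuadraticForm F (Fin n → F)) (hQ : (QuadraticMap.polarBilin Q).Nondegenerate) (u v : Fin n → F) (hu : Q u ≠ 0) (hv : Q v ≠ 0) : ∃ g : ↥(Cfsg.isometryGroup F ⇑Q), g ∈ Cfsg.Omega F ⇑Q ∧ (F ∙ ((g : Matrix.GeneralLinearGroup (Fin n) F) : Matrix (Fin n) (Fin n) F).mulVec u) = F ∙ v := by
  have h2 : (2 : F) = 0 := by
    have h3 := CharP.cast_eq_zero F 2
    exact_mod_cast h3
  obtain ⟨h₀, c, hc0, hh, -⟩ := Cfsg.Agent.S2635.witt_line Q hQ u v hu hv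
  obtain ⟨l, hl, hprod⟩ := Cfsg.Agent.S2635.exists_list Q h2 hQ h h₀
  obtain ⟨k, hk | hk⟩ := Nat.even_or_odd' l.length
  · refine ⟨h₀, ?_, ?_⟩
    · rw [hprod]; exact Cfsg.Agent.S2635.even_mem Q hQ l hl k hk
    · rw [hh]; exact Submodule.span_singleton_smul_eq (IsUnit.mk0 c hc0) v
  · refine ⟨h₀ * Rf Q u, ?_, ?_⟩
    · have e : h₀ * Rf Q u = ((l ++ [u]).map (Rf Q)).prod := by
        rw [List.map_append, List.prod_append, List.map_singleton, List.prod_singleton, ← hprod]
      rw [e]
      refine Cfsg.Agent.S2635.even_mem Q hQ (l ++ [u]) ?_ (k + 1) ?_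
      · intro d hd
        rcases List.mem_append.1 hd with h | h
        · exact hl d h
        · rw [List.mem_singleton.1 h]; exact hu
      · simp only [List.length_append, List.length_singleton, hk]; omega
    · rw [Subgroup.coe_mul, Units.val_mul, Rf_val Q u hu, ← Matrix.mulVec_mulVec,
        (Cfsg.Agent.S0784.result Q u hu).2.1, Matrix.mulVec_neg, hh, ← neg_smul]
      exact Submodule.span_singleton_smul_eq (IsUnit.mk0 (-c) (neg_ne_zero.2 hc0)) v

end Cfsg.Agent.S2634
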