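import Cfsg.Statements.S2896
import Cfsg.Agent.Lib.Helper1.CharP
import Cfsg.Agent.Lib.Helper8.PGroupNormal

set_option autoImplicit false
open Cfsg

open Cfsg.Agent.Lib.Helper1 Cfsg.Agent.Lib.Helper7 Cfsg.Agent.Lib.Helper8

namespace Cfsg.Agent.S2896

theorem sylow_conj_mem {G : Type*} [Group G] [Finite G] {p : ℕ} [Fact p.Prime] (S T : Sylow p G) :
    ∃ g : G, ∀ x : G, x ∈ (T : Subgroup G) ↔ g⁻¹ * x * g ∈ (S : Subgroup G) := by
  obtain ⟨g, hg⟩ := MulAction.exists_smul_eq G S T
  refine ⟨g, fun x => ?_⟩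
  rw [← hg, Sylow.coe_subgroup_smul, Subgroup.mem_pointwise_smul_iff_inv_smul_mem, MulAut.smul_def]
  simp

theorem part_i {G : Type*} [Group G] [Finite G] {p : ℕ} [Fact p.Prime] (X : Subgroup G)
    (hXp : IsPGroup p X) (z : G) (hzX : z ∈ X) (hzc : ∀ x ∈ X, x * z = z * x)
    (h : Cfsg.generalizedFittingSubgroup ↥(Subgroup.centralizer ({z} : Set G))
      = Cfsg.pCore p ↥(Subgroup.centralizer ({z} : Set G))) :
    Cfsg.generalizedFittingSubgroup ↥(Subgroup.normalizer (X : Set G))
      = Cfsg.pCore p ↥(Subgroup.normalizer (X : Set G)) := by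
  refine genFitting_normalizer_eq_pCore' p h hXp ?_ ?_
  · intro x hx
    rw [Subgroup.mem_centralizer_iff]
    intro y hy
    rw [Set.mem_singleton_iff] at hy
    rw [hy]; exact (hzc x hx).symm
  · exact Subgroup.centralizer_le (Set.singleton_subset_iff.mpr hzX)

/-- A nontrivial `p`-subgroup `R` normalised by the Sylow `p`-subgroup `T` contains an element
of order `p` of the centre of `T`. -/
theorem exists_central_of_normalized {G : Type*} [Group G] [Finite G] {p : ℕ} [Fact p.Prime]
    (T : Sylow p G) (R : Subgroup G) (hRp : IsPGroup p R) (hR1 : R ≠ ⊥)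
    (hTR : (T : Subgroup G) ≤ Subgroup.normalizer (R : Set G)) :
    R ≤ (T : Subgroup G) ∧ ∃ z : G, orderOf z = p ∧ z ∈ R ∧ z ∈ (T : Subgroup G) ∧
      ∀ t ∈ (T : Subgroup G), t * z = z * t := by
  have hRT : R ≤ (T : Subgroup G) := by
    have h1 : IsPGroup p ↥((T : Subgroup G) ⊔ R) := T.isPGroup'.to_sup_of_normal_right' hRp hTR
    have h2 := T.is_maximal' h1 le_sup_left
    rw [← h2]; exact le_sup_right
  refine ⟨hRT, ?_⟩
  have hn : (R.subgroupOf (T : Subgroup G)).Normal :=
    (Subgroup.normal_subgroupOf_iff_le_normalizer hRT).mpr hTR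
  have hne : R.subgroupOf (T : Subgroup G) ≠ ⊥ := by
    intro h0
    apply hR1
    rw [Subgroup.subgroupOf_eq_bot] at h0
    rw [eq_bot_iff]
    intro x hx
    have : x ∈ R ⊓ (T : Subgroup G) := ⟨hx, hRT hx⟩
    rw [h0.eq_bot] at this
    exact this
  have hD := h8_normal_inf_center_ne_bot T.isPGroup' (R.subgroupOf (T : Subgroup G)) hne
  set D := R.subgroupOf (T : Subgroup G) ⊓ Subgroup.center ↥(T : Subgroup G) with hDdef
  have hDp : IsPGroup p ↥D := T.isPGroup'.to_subgroup D
  have hD2 : p ∣ Nat.card ↥D := by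
    obtain ⟨n, hn⟩ := IsPGroup.iff_card.mp hDp
    rw [hn]
    have hn0 : n ≠ 0 := by
      rintro rfl
      rw [pow_zero] at hn
      exact hD (Subgroup.card_eq_one.mp hn)
    exact dvd_pow_self p hn0
  obtain ⟨z, hz⟩ := exists_prime_orderOf_dvd_card' p hD2
  refine ⟨((z : ↥(T : Subgroup G)) : G), ?_, ?_, ?_, ?_⟩
  · rw [Subgroup.orderOf_coe, Subgroup.orderOf_coe]; exact hz
  · exact z.2.1
  · exact (z : ↥(T : Subgroup G)).2
  · intro t ht
    have := Subgroup.mem_center_iff.mp z.2.2 ⟨t, ht⟩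
    exact congrArg Subtype.val this

theorem centralizer_zpowers_eq {G : Type*} [Group G] (z : G) :
    Subgroup.centralizer ((Subgroup.zpowers z : Subgroup G) : Set G)
      = Subgroup.centralizer ({z} : Set G) := by
  apply le_antisymm
  · exact Subgroup.centralizer_le (Set.singleton_subset_iff.mpr (Subgroup.mem_zpowers z))
  · intro x hx
    rw [Subgroup.mem_centralizer_iff]
    intro y hy
    obtain ⟨n, rfl⟩ := Subgroup.mem_zpowers_iff.mp hy
    have hc : Commute z x := Subgroup.mem_centralizer_iff.mp hx z rfl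
    exact hc.zpow_left n

/-- transport of the hypothesis along a Sylow conjugation -/
theorem transport_hyp {G : Type*} [Group G] [Finite G] {p : ℕ} [Fact p.Prime] (g z : G)
    (h : Cfsg.generalizedFittingSubgroup ↥(Subgroup.centralizer ({g⁻¹ * z * g} : Set G))
      = Cfsg.pCore p ↥(Subgroup.centralizer ({g⁻¹ * z * g} : Set G))) :
    Cfsg.generalizedFittingSubgroup ↥(Subgroup.centralizer ({z} : Set G))
      = Cfsg.pCore p ↥(Subgroup.centralizer ({z} : Set G)) := by
  have h1 := genFitting_centralizer_conj p g (g⁻¹ * z * g) h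
  have h2 : g * (g⁻¹ * z * g) * g⁻¹ = z := by group
  rw [h2] at h1
  exact h1


/-- Let p be a prime dividing the order of the finite group G, S a Sylow p-subgroup of G and X a subgroup of S. (i) If some nontrivial element z of the centre of X has F*(C_G(z)) = O_p(C_G(z)), then F*(N_G(X)) = O_p(N_G(X)). (ii) G has parabolic characteristic p if and only if F*(C_G(z)) = O_p(C_G(z)) for every nontrivial z ∈ Ω₁(Z(S)). (iii) If F*(C_G(z)) = O_p(C_G(z)) for every element z of S of order p, then G has local characteristic p. -/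
theorem result {G : Type*} [Group G] [Finite G] {p : ℕ} [Fact p.Prime] (hdiv : p ∣ Nat.card G) (S : Sylow p G) (X : Subgroup G) (hX : X ≤ (S : Subgroup G)) : (∀ z : G, z ≠ 1 → z ∈ X → (∀ x ∈ X, x * z = z * x) → Cfsg.generalizedFittingSubgroup ↥(Subgroup.centralizer ({z} : Set G)) = Cfsg.pCore p ↥(Subgroup.centralizer ({z} : Set G)) → Cfsg.generalizedFittingSubgroup ↥(Subgroup.normalizer (X : Set G)) = Cfsg.pCore p ↥(Subgroup.normalizer (X : Set G))) ∧ (Cfsg.IsOfParabolicCharacteristic p G ↔ ∀ z : G, z ≠ 1 → z ∈ Cfsg.omegaOne p ((S : Subgroup G) ⊓ Subgroup.centralizer ((S : Subgroup G) : Set G)) → Cfsg.generalizedFittingSubgroup ↥(Subgroup.centralizer ({z} : Set G)) = Cfsg.pCore p ↥(Subgroup.centralizer ({z} : Set G))) ∧ ((∀ z : G, z ∈ (S : Subgroup G) → orderOf z = p → Cfsg.generalizedFittingSubgroup ↥(Subgroup.centralizer ({z} : Set G)) = Cfsg.pCore p ↥(Subgroup.centralizer ({z} : Set G))) → Cfsg.IsOfLocalCharacteristic p G) := by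
  refine ⟨?_, ⟨?_, ?_⟩, ?_⟩
  · intro z _ hzX hzc h
    exact part_i X (S.isPGroup'.to_le hX) z hzX hzc h
  · intro hpar z hz1 hzO
    have hzS : z ∈ (S : Subgroup G) ⊓ Subgroup.centralizer ((S : Subgroup G) : Set G) := by
      have hle : Cfsg.omegaOne p ((S : Subgroup G) ⊓ Subgroup.centralizer ((S : Subgroup G) : Set G))
          ≤ (S : Subgroup G) ⊓ Subgroup.centralizer ((S : Subgroup G) : Set G) := by
        unfold Cfsg.omegaOne
        rw [Subgroup.closure_le]
        intro x hx
        exact hx.1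
      exact hle hzO
    have hRp : IsPGroup p ↥(Subgroup.zpowers z) :=
      S.isPGroup'.to_le (by rw [Subgroup.zpowers_le]; exact hzS.1)
    have hR1 : Subgroup.zpowers z ≠ ⊥ := by
      rw [Ne, Subgroup.zpowers_eq_bot]; exact hz1
    have hCN : Subgroup.centralizer ({z} : Set G)
        ≤ Subgroup.normalizer ((Subgroup.zpowers z : Subgroup G) : Set G) := by
      rw [← centralizer_zpowers_eq]; exact Subgroup.centralizer_le_normalizer _
    have hSC : (S : Subgroup G) ≤ Subgroup.centralizer ({z} : Set G) := by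
      intro s hs
      rw [Subgroup.mem_centralizer_iff]
      intro y hy
      rw [Set.mem_singleton_iff] at hy
      rw [hy]
      exact (Subgroup.mem_centralizer_iff.mp hzS.2 s hs).symm
    have hcent := hpar (Subgroup.zpowers z) hRp hR1 ⟨S, hSC.trans hCN⟩
    have hN := genFitting_eq_pCore_of_centralizer_le p _ hcent
    have hn : ((Subgroup.centralizer ((Subgroup.zpowers z : Subgroup G) : Set G)).subgroupOf
        (Subgroup.normalizer ((Subgroup.zpowers z : Subgroup G) : Set G))).Normal := inferInstance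
    rw [centralizer_zpowers_eq] at hn
    exact genFitting_eq_pCore_of_subnormal_subgroupOf p hCN hn.isSubnormal hN
  · intro hyp R hRp hR1 hparab
    obtain ⟨T, hT⟩ := hparab
    apply centralizer_pCore_le_of_genFitting_eq
    obtain ⟨hRT, z, hzo, hzR, hzT, hzc⟩ := exists_central_of_normalized T R hRp hR1 hT
    obtain ⟨g, hg⟩ := sylow_conj_mem S T
    have hz1 : z ≠ 1 := by
      rintro rfl
      rw [orderOf_one] at hzo
      exact (Fact.out : p.Prime).one_lt.ne hzo
    have hw1 : g⁻¹ * z * g ≠ 1 := by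
      intro h0
      apply hz1
      have : z = g * (g⁻¹ * z * g) * g⁻¹ := by group
      rw [this, h0]; group
    have hwO : g⁻¹ * z * g ∈ Cfsg.omegaOne p
        ((S : Subgroup G) ⊓ Subgroup.centralizer ((S : Subgroup G) : Set G)) := by
      unfold Cfsg.omegaOne
      apply Subgroup.subset_closure
      refine ⟨Subgroup.mem_inf.mpr ⟨(hg z).mp hzT, ?_⟩, ?_⟩
      · rw [Subgroup.mem_centralizer_iff]
        intro s hs
        have hs' : g * s * g⁻¹ ∈ (T : Subgroup G) := by
          rw [hg]
          have : g⁻¹ * (g * s * g⁻¹) * g = s := by group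
          rw [this]; exact hs
        have h3 := hzc _ hs'
        calc s * (g⁻¹ * z * g) = g⁻¹ * ((g * s * g⁻¹) * z) * g := by group
          _ = g⁻¹ * (z * (g * s * g⁻¹)) * g := by rw [h3]
          _ = g⁻¹ * z * g * s := by group
      · have : (g⁻¹ * z * g) ^ p = g⁻¹ * z ^ p * g := by
          rw [show g⁻¹ * z * g = g⁻¹ * z * g⁻¹⁻¹ by group, conj_pow]; group
        rw [this, ← hzo, pow_orderOf_eq_one]; group
    have h4 := transport_hyp g z (hyp _ hw1 hwO)
    exact part_i R hRp z hzR (fun x hx => hzc x (hRT hx)) h4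
  · intro hyp
    refine ⟨hdiv, ?_⟩
    intro T hTp hT1
    apply centralizer_pCore_le_of_genFitting_eq
    obtain ⟨T', hT'⟩ := hTp.exists_le_sylow
    obtain ⟨g, hg⟩ := sylow_conj_mem S T'
    have : Nontrivial ↥T := (Subgroup.nontrivial_iff_ne_bot T).mpr hT1
    have hZ : Nontrivial ↥(Subgroup.center ↥T) := hTp.center_nontrivial
    have hZ2 : p ∣ Nat.card ↥(Subgroup.center ↥T) := by
      have hZp : IsPGroup p ↥(Subgroup.center ↥T) := hTp.to_subgroup _
      obtain ⟨n, hn⟩ := IsPGroup.iff_card.mp hZp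
      rw [hn]
      have hn0 : n ≠ 0 := by
        rintro rfl
        rw [pow_zero] at hn
        have hs : Subsingleton ↥(Subgroup.center ↥T) := (Nat.card_eq_one_iff_unique.mp hn).1
        exact not_nontrivial _ hZ
      exact dvd_pow_self p hn0
    obtain ⟨z, hz⟩ := exists_prime_orderOf_dvd_card' p hZ2
    have hzo : orderOf (((z : ↥T) : G)) = p := by
      rw [Subgroup.orderOf_coe, Subgroup.orderOf_coe]; exact hz
    have hzT : ((z : ↥T) : G) ∈ T := (z : ↥T).2
    have hzc : ∀ x ∈ T, x * ((z : ↥T) : G) = ((z : ↥T) : G) * x := by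
      intro x hx
      have := Subgroup.mem_center_iff.mp z.2 ⟨x, hx⟩
      exact congrArg Subtype.val this
    have hwS : g⁻¹ * ((z : ↥T) : G) * g ∈ (S : Subgroup G) := (hg _).mp (hT' hzT)
    have hwo : orderOf (g⁻¹ * ((z : ↥T) : G) * g) = p := by
      have h5 := orderOf_injective (MulAut.conj g⁻¹).toMonoidHom (MulAut.conj g⁻¹).injective
        ((z : ↥T) : G)
      have h6 : (MulAut.conj g⁻¹).toMonoidHom ((z : ↥T) : G) = g⁻¹ * ((z : ↥T) : G) * g := by
        simp [MulAut.conj_apply]
      rw [h6] at h5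
      rw [h5]; exact hzo
    have h4 := transport_hyp g ((z : ↥T) : G) (hyp _ hwS hwo)
    exact part_i T hTp _ hzT hzc h4

end Cfsg.Agent.S2896
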