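import Cfsg.Statements.S2898
import Cfsg.Agent.Lib.Helper1.PConstr2
import Cfsg.Agent.S2896

set_option autoImplicit false
open Cfsg

open Cfsg.Agent.Lib.Helper1 Cfsg.Agent.Lib.Helper7

namespace Cfsg.Agent.S2898

/-- A fixed-point-free involution inverts. -/
theorem inverts_of_fixed_point_free {G : Type*} [Group G] [Finite G] (W : Subgroup G)
    [hW : W.Normal] (z : G) (hz : z * z = 1) (hfix : ∀ w ∈ W, z * w = w * z → w = 1) :
    ∀ u ∈ W, z * u * z⁻¹ = u⁻¹ := by
  have hzi : z⁻¹ = z := inv_eq_of_mul_eq_one_left hz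
  let f : ↥W → ↥W := fun w => ⟨(w : G)⁻¹ * (z * w * z⁻¹), W.mul_mem (W.inv_mem w.2) (hW.conj_mem _ w.2 z)⟩
  have hf : Function.Injective f := by
    intro w v hwv
    have h1 : (w : G)⁻¹ * (z * w * z⁻¹) = (v : G)⁻¹ * (z * v * z⁻¹) := congrArg Subtype.val hwv
    have h2 : z * ((v : G) * (w : G)⁻¹) = ((v : G) * (w : G)⁻¹) * z := by
      have h3 : z * (w : G) * z⁻¹ = (w : G) * (v : G)⁻¹ * (z * v * z⁻¹) := by
        rw [mul_assoc (w : G), ← h1]; group
      have h4 : z * ((v : G) * (w : G)⁻¹) = (z * v * z⁻¹) * (z * w * z⁻¹)⁻¹ * z := by group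
      rw [h4, h3]; group
    have h5 := hfix _ (W.mul_mem v.2 (W.inv_mem w.2)) h2
    apply Subtype.ext
    have : (v : G) = (w : G) := by
      have h6 : (v : G) = ((v : G) * (w : G)⁻¹) * w := by group
      rw [h6, h5, one_mul]
    exact this.symm
  have hs : Function.Surjective f := Finite.surjective_of_injective hf
  intro u hu
  obtain ⟨w, hw⟩ := hs ⟨u, hu⟩
  have h1 : u = (w : G)⁻¹ * (z * w * z⁻¹) := (congrArg Subtype.val hw).symm
  rw [h1, hzi]
  have h7 : z * ((w : G)⁻¹ * (z * ↑w * z)) * z = z * (w : G)⁻¹ * z * w * (z * z) := by group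
  have h8 : ((w : G)⁻¹ * (z * ↑w * z))⁻¹ = z⁻¹ * (w : G)⁻¹ * z⁻¹ * w := by group
  rw [h7, h8, hz, hzi, mul_one]


/-- Let G be a finite group of even order with parabolic characteristic 2. If the centre of G ⧸ O(G) is trivial, then O(G) = 1. -/
theorem result {G : Type*} [Group G] [Finite G] (h2 : 2 ∣ Nat.card G) (hG : Cfsg.IsOfParabolicCharacteristic 2 G) [hN : (Cfsg.oddCore G).Normal] (hZ : Subgroup.center (G ⧸ Cfsg.oddCore G) = ⊥) : Cfsg.oddCore G = ⊥ := by
  by_contra hW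
  haveI : Fact (Nat.Prime 2) := ⟨Nat.prime_two⟩
  have hWc : (Nat.card ↥(Cfsg.oddCore G)).Coprime 2 := pPrimeCore_coprime 2 G
  obtain ⟨S⟩ : Nonempty (Sylow 2 G) := inferInstance
  have hS1 : (S : Subgroup G) ≠ ⊥ := Sylow.ne_bot_of_dvd_card S h2
  -- normalizers of nontrivial subgroups normalised by `S` meet `O(G)` trivially
  have key : ∀ T : Subgroup G, T ≠ ⊥ → T ≤ (S : Subgroup G) →
      (S : Subgroup G) ≤ Subgroup.normalizer (T : Set G) →
      Cfsg.oddCore G ⊓ Subgroup.normalizer (T : Set G) = ⊥ := by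
    intro T hT1 hTS hSN
    have hc := hG T (S.isPGroup'.to_le hTS) hT1 ⟨S, hSN⟩
    have hO := pPrimeCore_eq_bot_of_centralizer_pCore_le 2 _ hc
    have hn : ((Cfsg.oddCore G).subgroupOf (Subgroup.normalizer (T : Set G))).Normal :=
      hN.subgroupOf _
    have hle := le_pPrimeCore hn
      (Nat.Coprime.coprime_dvd_left (card_subgroupOf_dvd' _ _) hWc)
    rw [hO] at hle
    exact (Subgroup.subgroupOf_eq_bot.mp (le_bot_iff.mp hle)).eq_bot
  -- a central involution of `S`
  have hSnt : Nontrivial ↥(S : Subgroup G) := (Subgroup.nontrivial_iff_ne_bot _).mpr hS1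
  have hZn : Nontrivial ↥(Subgroup.center ↥(S : Subgroup G)) := S.isPGroup'.center_nontrivial
  have hZ2 : 2 ∣ Nat.card ↥(Subgroup.center ↥(S : Subgroup G)) := by
    have hZp : IsPGroup 2 ↥(Subgroup.center ↥(S : Subgroup G)) := S.isPGroup'.to_subgroup _
    obtain ⟨n, hn⟩ := IsPGroup.iff_card.mp hZp
    rw [hn]
    have hn0 : n ≠ 0 := by
      rintro rfl
      rw [pow_zero] at hn
      have hs : Subsingleton ↥(Subgroup.center ↥(S : Subgroup G)) :=
        (Nat.card_eq_one_iff_unique.mp hn).1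
      exact not_nontrivial _ hZn
    exact dvd_pow_self 2 hn0
  obtain ⟨z', hz'⟩ := exists_prime_orderOf_dvd_card' 2 hZ2
  obtain ⟨z, hzdef⟩ : ∃ z : G, z = ((z' : ↥(S : Subgroup G)) : G) := ⟨_, rfl⟩
  have hzo : orderOf z = 2 := by
    rw [hzdef, Subgroup.orderOf_coe, Subgroup.orderOf_coe]; exact hz'
  have hzS : z ∈ (S : Subgroup G) := by rw [hzdef]; exact (z' : ↥(S : Subgroup G)).2
  have hzc : ∀ s ∈ (S : Subgroup G), s * z = z * s := by
    intro s hs
    have := Subgroup.mem_center_iff.mp z'.2 ⟨s, hs⟩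
    rw [hzdef]
    exact congrArg Subtype.val this
  have hzz : z * z = 1 := by rw [← pow_two, ← hzo, pow_orderOf_eq_one]
  have hz1 : z ≠ 1 := by
    rintro rfl
    rw [orderOf_one] at hzo
    omega
  -- `z` acts fixed-point-freely on `O(G)`, hence inverts it
  have hT1 : Subgroup.zpowers z ≠ ⊥ := by
    rw [Ne, Subgroup.zpowers_eq_bot]; exact hz1
  have hCN : Subgroup.centralizer ({z} : Set G)
      ≤ Subgroup.normalizer ((Subgroup.zpowers z : Subgroup G) : Set G) := by
    rw [← Cfsg.Agent.S2896.centralizer_zpowers_eq]; exact Subgroup.centralizer_le_normalizer _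
  have hSC : (S : Subgroup G) ≤ Subgroup.centralizer ({z} : Set G) := by
    intro s hs
    rw [Subgroup.mem_centralizer_iff]
    intro y hy
    rw [Set.mem_singleton_iff] at hy
    rw [hy]
    exact (hzc s hs).symm
  have hk1 := key (Subgroup.zpowers z) hT1 (by rw [Subgroup.zpowers_le]; exact hzS)
    (hSC.trans hCN)
  have hfix : ∀ w ∈ Cfsg.oddCore G, z * w = w * z → w = 1 := by
    intro w hw hzw
    have hwC : w ∈ Subgroup.centralizer ({z} : Set G) := by
      rw [Subgroup.mem_centralizer_iff]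
      intro y hy
      rw [Set.mem_singleton_iff] at hy
      rw [hy]; exact hzw
    have : w ∈ Cfsg.oddCore G ⊓ Subgroup.normalizer ((Subgroup.zpowers z : Subgroup G) : Set G) :=
      ⟨hw, hCN hwC⟩
    rw [hk1] at this
    exact this
  have hinv := inverts_of_fixed_point_free (Cfsg.oddCore G) z hzz hfix
  have hinv' : ∀ u ∈ Cfsg.oddCore G, z⁻¹ * u * z = u⁻¹ := by
    intro u hu
    have h1 := hinv u⁻¹ (inv_mem hu)
    rw [inv_inv] at h1
    calc z⁻¹ * u * z = z⁻¹ * (z * u⁻¹ * z⁻¹) * z := by rw [h1]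
      _ = u⁻¹ := by group
  -- `C_G(O(G)) ≤ O(G)`
  have hMn : (Subgroup.centralizer ((Cfsg.oddCore G : Subgroup G) : Set G)).Normal :=
    Subgroup.normal_centralizer
  have hSM : (S : Subgroup G) ⊓ Subgroup.centralizer ((Cfsg.oddCore G : Subgroup G) : Set G) = ⊥ := by
    by_contra hne
    have hSnorm : (S : Subgroup G) ≤ Subgroup.normalizer
        (((S : Subgroup G) ⊓ Subgroup.centralizer ((Cfsg.oddCore G : Subgroup G) : Set G)
          : Subgroup G) : Set G) :=
      Cfsg.Agent.Lib.Helper8.h8_le_normalizer_inf Subgroup.le_normalizer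
        (by rw [Subgroup.normalizer_eq_top_iff.mpr hMn]; exact le_top)
    have hk2 := key _ hne inf_le_left hSnorm
    have hWle : Cfsg.oddCore G ≤ Subgroup.centralizer
        (((S : Subgroup G) ⊓ Subgroup.centralizer ((Cfsg.oddCore G : Subgroup G) : Set G)
          : Subgroup G) : Set G) :=
      Subgroup.le_centralizer_iff.mp inf_le_right
    apply hW
    rw [eq_bot_iff, ← hk2]
    exact le_inf le_rfl (hWle.trans (Subgroup.centralizer_le_normalizer _))
  have hMc : (Nat.card ↥(Subgroup.centralizer ((Cfsg.oddCore G : Subgroup G) : Set G))).Coprime 2 := by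
    apply Nat.Coprime.symm
    rw [Nat.Prime.coprime_iff_not_dvd Nat.prime_two]
    intro hdvd
    obtain ⟨m, hm⟩ := exists_prime_orderOf_dvd_card' 2 hdvd
    have hmo : orderOf (m : G) = 2 := by rw [Subgroup.orderOf_coe]; exact hm
    have hmp : IsPGroup 2 ↥(Subgroup.zpowers (m : G)) := by
      apply IsPGroup.of_card (n := 1)
      rw [Nat.card_zpowers, hmo, pow_one]
    obtain ⟨Q, hQ⟩ := hmp.exists_le_sylow
    obtain ⟨g, hg⟩ := Cfsg.Agent.S2896.sylow_conj_mem S Q
    have h1 : g⁻¹ * (m : G) * g ∈ (S : Subgroup G) := (hg _).mp (hQ (Subgroup.mem_zpowers _))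
    have h2 : g⁻¹ * (m : G) * g ∈ Subgroup.centralizer ((Cfsg.oddCore G : Subgroup G) : Set G) := by
      have := hMn.conj_mem _ m.2 g⁻¹
      rwa [inv_inv] at this
    have h3 : g⁻¹ * (m : G) * g ∈ (S : Subgroup G) ⊓
        Subgroup.centralizer ((Cfsg.oddCore G : Subgroup G) : Set G) := ⟨h1, h2⟩
    rw [hSM] at h3
    have h4 : (m : G) = 1 := by
      have h5 : (m : G) = g * (g⁻¹ * (m : G) * g) * g⁻¹ := by group
      rw [h5, (Subgroup.mem_bot.mp h3)]; group
    rw [h4, orderOf_one] at hmo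
    omega
  have hMW : Subgroup.centralizer ((Cfsg.oddCore G : Subgroup G) : Set G) ≤ Cfsg.oddCore G :=
    le_pPrimeCore hMn hMc
  -- the image of `z` is central in `G / O(G)`
  have hcen : (QuotientGroup.mk' (Cfsg.oddCore G)) z ∈ Subgroup.center (G ⧸ Cfsg.oddCore G) := by
    rw [Subgroup.mem_center_iff]
    intro x
    obtain ⟨g, rfl⟩ := QuotientGroup.mk'_surjective (Cfsg.oddCore G) x
    have hc : z * g * z⁻¹ * g⁻¹ ∈ Cfsg.oddCore G := by
      apply hMW
      rw [Subgroup.mem_centralizer_iff]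
      intro w hw
      have hw1 : g⁻¹ * w * g ∈ Cfsg.oddCore G := by
        have := hN.conj_mem _ hw g⁻¹
        rwa [inv_inv] at this
      have e1 := hinv' _ hw1
      have e2 := hinv _ (inv_mem hw)
      rw [inv_inv] at e2
      have e3 : (z * g * z⁻¹ * g⁻¹) * w * (z * g * z⁻¹ * g⁻¹)⁻¹
          = z * (g * (z⁻¹ * (g⁻¹ * w * g) * z) * g⁻¹) * z⁻¹ := by group
      have e4 : (z * g * z⁻¹ * g⁻¹) * w * (z * g * z⁻¹ * g⁻¹)⁻¹ = w := by
        rw [e3, e1]
        have e5 : g * (g⁻¹ * w * g)⁻¹ * g⁻¹ = w⁻¹ := by group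
        rw [e5, e2]
      calc w * (z * g * z⁻¹ * g⁻¹)
          = ((z * g * z⁻¹ * g⁻¹) * w * (z * g * z⁻¹ * g⁻¹)⁻¹) * (z * g * z⁻¹ * g⁻¹) := by rw [e4]
        _ = (z * g * z⁻¹ * g⁻¹) * w := by group
    have h1 : (QuotientGroup.mk' (Cfsg.oddCore G)) (z * g * z⁻¹ * g⁻¹) = 1 := by
      rw [← MonoidHom.mem_ker, QuotientGroup.ker_mk']; exact hc
    rw [map_mul, map_mul, map_mul, map_inv, map_inv] at h1
    have h2 : (QuotientGroup.mk' (Cfsg.oddCore G)) z * (QuotientGroup.mk' (Cfsg.oddCore G)) g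
        = (QuotientGroup.mk' (Cfsg.oddCore G)) g * (QuotientGroup.mk' (Cfsg.oddCore G)) z := by
      have h3 := congrArg (fun t => t * ((QuotientGroup.mk' (Cfsg.oddCore G)) g *
        (QuotientGroup.mk' (Cfsg.oddCore G)) z)) h1
      simp only [one_mul] at h3
      rw [← h3]; group
    exact h2.symm
  rw [hZ, Subgroup.mem_bot, ← MonoidHom.mem_ker, QuotientGroup.ker_mk'] at hcen
  have hdvd : 2 ∣ Nat.card ↥(Cfsg.oddCore G) := by
    have h1 : Subgroup.zpowers z ≤ Cfsg.oddCore G := by rw [Subgroup.zpowers_le]; exact hcen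
    have h2 := Subgroup.card_dvd_of_le h1
    rwa [Nat.card_zpowers, hzo] at h2
  exact (Nat.Prime.coprime_iff_not_dvd Nat.prime_two).mp hWc.symm hdvd

end Cfsg.Agent.S2898
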