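import Mathlib
import Cfsg.Statements.S2907

set_option autoImplicit false
open Cfsg
open scoped commutatorElement

namespace Cfsg.Agent.S2907

/-- Let X be a finite semi-extraspecial p-group and x an element of X outside the centre. Then the index of C_X(x) in X equals the order of Z(X), and the commutators [x, y], y ∈ X, form exactly the centre Z(X). -/
theorem result {X : Type*} [Group X] [Finite X] {p : ℕ} [Fact p.Prime] (hX : Cfsg.IsSemiExtraspecial p X) (x : X) (hx : x ∉ Subgroup.center X) : (Subgroup.centralizer ({x} : Set X)).index = Nat.card ↥(Subgroup.center X) ∧ {z : X | ∃ y : X, z = x * y * x⁻¹ * y⁻¹} = (Subgroup.center X : Set X) := by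
  obtain ⟨⟨hXp, hfr, hcomm⟩, hext⟩ := hX
  have hcen : ∀ y : X, x * y * x⁻¹ * y⁻¹ ∈ Subgroup.center X := by
    intro y
    rw [← hcomm]
    have := Subgroup.commutator_mem_commutator (Subgroup.mem_top x) (Subgroup.mem_top y)
    rw [commutatorElement_def] at this
    exact this
  obtain ⟨f, hf⟩ : ∃ f : X →* X, ∀ y, f y = x * y * x⁻¹ * y⁻¹ := by
    refine ⟨MonoidHom.mk' (fun y => x * y * x⁻¹ * y⁻¹) ?_, fun _ => rfl⟩
    intro y z
    have hz := Subgroup.mem_center_iff.mp (hcen z) y⁻¹
    calc x * (y * z) * x⁻¹ * (y * z)⁻¹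
        = x * y * x⁻¹ * ((x * z * x⁻¹ * z⁻¹) * y⁻¹) := by group
      _ = x * y * x⁻¹ * (y⁻¹ * (x * z * x⁻¹ * z⁻¹)) := by rw [← hz]
      _ = x * y * x⁻¹ * y⁻¹ * (x * z * x⁻¹ * z⁻¹) := by group
  have hker : f.ker = Subgroup.centralizer ({x} : Set X) := by
    ext y
    rw [MonoidHom.mem_ker, hf, Subgroup.mem_centralizer_iff]
    constructor
    · intro h z hz
      rw [Set.mem_singleton_iff] at hz
      rw [hz]
      calc x * y = (x * y * x⁻¹ * y⁻¹) * (y * x) := by group
        _ = y * x := by rw [h, one_mul]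
    · intro h
      have h1 := h x rfl
      calc x * y * x⁻¹ * y⁻¹ = (x * y) * x⁻¹ * y⁻¹ := by group
        _ = (y * x) * x⁻¹ * y⁻¹ := by rw [h1]
        _ = 1 := by group
  have hrange_le : f.range ≤ Subgroup.center X := by
    rintro _ ⟨y, rfl⟩
    rw [hf]; exact hcen y
  have hrange : f.range = Subgroup.center X := by
    by_contra hne
    have hne' : f.range.subgroupOf (Subgroup.center X) ≠ ⊤ := by
      intro h
      rw [Subgroup.subgroupOf_eq_top] at h
      exact hne (le_antisymm hrange_le h)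
    obtain ⟨Y', hY'co, hY'⟩ := (eq_top_or_exists_le_coatom _).resolve_left hne'
    obtain ⟨Y, hY⟩ : ∃ Y : Subgroup X, Y = Y'.map (Subgroup.center X).subtype := ⟨_, rfl⟩
    have hYc : Y ≤ Subgroup.center X := by rw [hY]; exact Subgroup.map_subtype_le _
    have hYsub : Y.subgroupOf (Subgroup.center X) = Y' := by
      rw [hY]
      exact Subgroup.comap_map_eq_self_of_injective (Subgroup.subtype_injective _) Y'
    have hIY : f.range ≤ Y := by
      intro z hz
      rw [hY]
      exact ⟨⟨z, hrange_le hz⟩, hY' (Subgroup.mem_subgroupOf.mpr hz), rfl⟩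
    obtain ⟨hYn, hes⟩ := hext Y hYc (by rw [hYsub]; exact hY'co)
    haveI := hYn
    obtain ⟨-, hcard⟩ := hes
    have hxc : QuotientGroup.mk' Y x ∈ Subgroup.center (X ⧸ Y) := by
      rw [Subgroup.mem_center_iff]
      intro q
      obtain ⟨y, rfl⟩ := QuotientGroup.mk'_surjective Y q
      rw [← map_mul, ← map_mul]
      symm
      show ((x * y : X) : X ⧸ Y) = ((y * x : X) : X ⧸ Y)
      rw [QuotientGroup.eq_iff_div_mem]
      have h1 : x * y / (y * x) = f y := by rw [hf, div_eq_mul_inv]; group
      rw [h1]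
      exact hIY ⟨y, rfl⟩
    have hle : (Subgroup.center X).map (QuotientGroup.mk' Y) ≤ Subgroup.center (X ⧸ Y) := by
      rintro _ ⟨z, hz, rfl⟩
      rw [Subgroup.mem_center_iff]
      intro q
      obtain ⟨y, rfl⟩ := QuotientGroup.mk'_surjective Y q
      rw [← map_mul, ← map_mul, Subgroup.mem_center_iff.mp hz y]
    have hne1 : Nat.card ↥((Subgroup.center X).map (QuotientGroup.mk' Y)) ≠ 1 := by
      intro h1
      have h1' := Subgroup.eq_bot_of_card_eq _ h1
      apply hY'co.1
      rw [← hYsub, Subgroup.subgroupOf_eq_top]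
      intro z hz
      have : QuotientGroup.mk' Y z ∈ (Subgroup.center X).map (QuotientGroup.mk' Y) :=
        ⟨z, hz, rfl⟩
      rw [h1', Subgroup.mem_bot] at this
      exact (QuotientGroup.eq_one_iff z).mp this
    have hdvd : Nat.card ↥((Subgroup.center X).map (QuotientGroup.mk' Y)) ∣ p := by
      rw [← hcard]; exact Subgroup.card_dvd_of_le hle
    have hp : p.Prime := Fact.out
    have hcardeq : Nat.card ↥((Subgroup.center X).map (QuotientGroup.mk' Y)) = p := by
      rcases (Nat.dvd_prime hp).mp hdvd with h | h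
      · exact absurd h hne1
      · exact h
    have heq : (Subgroup.center X).map (QuotientGroup.mk' Y) = Subgroup.center (X ⧸ Y) := by
      apply Subgroup.eq_of_le_of_card_ge hle
      rw [hcardeq, hcard]
    rw [← heq] at hxc
    obtain ⟨z, hz, hzx⟩ := hxc
    apply hx
    have h2 : z⁻¹ * x ∈ Y := (QuotientGroup.eq (s := Y)).mp hzx
    have h3 : x = z * (z⁻¹ * x) := by group
    rw [h3]
    exact Subgroup.mul_mem _ hz (hYc h2)
  constructor
  · rw [← hker, Subgroup.index_ker, hrange]
  · ext z
    rw [← hrange]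
    constructor
    · rintro ⟨y, rfl⟩
      exact ⟨y, hf y⟩
    · rintro ⟨y, rfl⟩
      exact ⟨y, hf y⟩

end Cfsg.Agent.S2907
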