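import Cfsg.Statements.S2909
import Mathlib
import Cfsg.Agent.S0058
import Cfsg.Agent.S2908
import Cfsg.Agent.Lib.Helper7.PQ
import Cfsg.Agent.Lib.Helper3.EA

set_option autoImplicit false
open Cfsg

namespace Cfsg.Agent.S2909

open Cfsg.Agent.Lib.Helper3
open scoped commutatorElement

universe u

/-- `{x | ∀ y ∈ U, ⁅x,y⁆ ∈ C}` for normal `C`. -/
def commStab {G : Type u} [Group G] (C U : Subgroup G) [hC : C.Normal] : Subgroup G where
  carrier := {x | ∀ y ∈ U, ⁅x, y⁆ ∈ C}
  one_mem' := by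
    intro y _
    have h3 : ⁅(1 : G), y⁆ = 1 := by simp only [commutatorElement_def]; group
    rw [h3]; exact C.one_mem
  mul_mem' := by
    intro x x' hx hx' y hy
    have h1 := hx y hy
    have h2 := hx' y hy
    have h3 : ⁅x * x', y⁆ = x * ⁅x', y⁆ * x⁻¹ * ⁅x, y⁆ := by
      simp only [commutatorElement_def]; group
    rw [h3]
    exact C.mul_mem (hC.conj_mem _ h2 x) h1
  inv_mem' := by
    intro x hx y hy
    have h1 := hx y hy
    have h3 : ⁅x⁻¹, y⁆ = x⁻¹ * ⁅x, y⁆⁻¹ * x⁻¹⁻¹ := by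
      simp only [commutatorElement_def]; group
    rw [h3]
    exact hC.conj_mem _ (C.inv_mem h1) x⁻¹

theorem mem_commStab {G : Type u} [Group G] (C U : Subgroup G) [hC : C.Normal] (x : G) :
    x ∈ commStab C U ↔ ∀ y ∈ U, ⁅x, y⁆ ∈ C := Iff.rfl

/-- elements of `N(D)` acting trivially on `E/D`. -/
def trivStab {G : Type u} [Group G] (E D : Subgroup G) : Subgroup G where
  carrier := {g | g ∈ Subgroup.normalizer (D : Set G) ∧ ∀ e ∈ E, ⁅e, g⁆ ∈ D}
  one_mem' := by
    refine ⟨Subgroup.one_mem _, fun e _ => ?_⟩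
    have h3 : ⁅e, (1 : G)⁆ = 1 := by simp only [commutatorElement_def]; group
    rw [h3]; exact D.one_mem
  mul_mem' := by
    rintro g h ⟨hg, hg'⟩ ⟨hh, hh'⟩
    refine ⟨Subgroup.mul_mem _ hg hh, fun e he => ?_⟩
    have h3 : ⁅e, g * h⁆ = ⁅e, g⁆ * (g * ⁅e, h⁆ * g⁻¹) := by
      simp only [commutatorElement_def]; group
    rw [h3]
    exact D.mul_mem (hg' e he) ((Subgroup.mem_normalizer_iff.mp hg _).mp (hh' e he))
  inv_mem' := by
    rintro g ⟨hg, hg'⟩
    refine ⟨Subgroup.inv_mem _ hg, fun e he => ?_⟩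
    have h3 : ⁅e, g⁻¹⁆ = g⁻¹ * ⁅e, g⁆⁻¹ * g⁻¹⁻¹ := by
      simp only [commutatorElement_def]; group
    rw [h3]
    exact (Subgroup.mem_normalizer_iff.mp (Subgroup.inv_mem _ hg) _).mp (D.inv_mem (hg' e he))

theorem mem_trivStab {G : Type u} [Group G] (E D : Subgroup G) (g : G) :
    g ∈ trivStab E D ↔ g ∈ Subgroup.normalizer (D : Set G) ∧ ∀ e ∈ E, ⁅e, g⁆ ∈ D := Iff.rfl

theorem trivStab_conj {G : Type u} [Group G] (E D : Subgroup G) [hE : E.Normal] {x g : G}
    (hx : x ∈ Subgroup.normalizer (D : Set G)) (hg : g ∈ trivStab E D) :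
    x * g * x⁻¹ ∈ trivStab E D := by
  obtain ⟨hg1, hg2⟩ := (mem_trivStab E D g).mp hg
  refine (mem_trivStab E D _).mpr
    ⟨Subgroup.mul_mem _ (Subgroup.mul_mem _ hx hg1) (Subgroup.inv_mem _ hx), fun e he => ?_⟩
  have h3 : ⁅e, x * g * x⁻¹⁆ = x * ⁅x⁻¹ * e * x⁻¹⁻¹, g⁆ * x⁻¹ := by
    simp only [commutatorElement_def]; group
  rw [h3]
  exact (Subgroup.mem_normalizer_iff.mp hx _).mp (hg2 _ (hE.conj_mem e he x⁻¹))

theorem key {G : Type u} [Group G] [Finite G] {p : ℕ} [Fact p.Prime] (E : Subgroup G) [E.Normal]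
    (hE : IsPGroup p ↥E) (U : Subgroup G) (hU : Cfsg.IsElementaryAbelian p U)
    (hcond : (∀ u ∈ U, u ≠ 1 → E ⊓ Subgroup.centralizer (U : Set G) = E ⊓ Subgroup.centralizer ({u} : Set G)) ∨ (∀ u ∈ U, u ≠ 1 → ⁅E, U⁆ = ⁅E, Subgroup.zpowers u⁆))
    (R : Subgroup G) (hR : ¬ p ∣ Nat.card ↥R) (hRU : U ≤ Subgroup.normalizer (R : Set G))
    (a : G) (haU : a ∈ U) (ha1 : a ≠ 1) :
    ⁅R ⊓ Subgroup.centralizer ({a} : Set G), U⁆ ≤ Subgroup.centralizer (E : Set G) := by
  classical
  have hp : p.Prime := Fact.out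
  obtain ⟨hUc, hUp⟩ := isEA_iff.mp hU
  have hUP : IsPGroup p U := isPGroup_of_isEA hU
  set X : Subgroup G := R ⊓ Subgroup.centralizer ({a} : Set G) with hX
  have hXa : ∀ x ∈ X, Commute x a := fun x hx =>
    Subgroup.mem_centralizer_singleton_iff.mp (Subgroup.mem_inf.mp hx).2
  -- U normalizes X
  have hUX : ∀ y ∈ U, ∀ x ∈ X, y * x * y⁻¹ ∈ X := by
    intro y hy x hx
    refine Subgroup.mem_inf.mpr
      ⟨(Subgroup.mem_normalizer_iff.mp (hRU hy) x).mp (Subgroup.mem_inf.mp hx).1, ?_⟩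
    rw [Subgroup.mem_centralizer_singleton_iff]
    have hya : Commute y a := hUc y hy a haU
    exact ((hya.mul_left (hXa x hx)).mul_left hya.inv_left).eq
  set Q : Subgroup G := ⁅X, U⁆ with hQ
  have hQX : Q ≤ X := by
    rw [hQ, Subgroup.commutator_le]
    intro x hx y hy
    have h3 : ⁅x, y⁆ = x * (y * x⁻¹ * y⁻¹) := by simp only [commutatorElement_def]; group
    rw [h3]
    exact X.mul_mem hx (hUX y hy _ (X.inv_mem hx))
  have hQR : Q ≤ R := hQX.trans inf_le_left
  have hQa : ∀ q ∈ Q, q * a = a * q := fun q hq => (hXa q (hQX hq)).eq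
  have hQcard : ¬ p ∣ Nat.card Q := fun h => hR (h.trans (Subgroup.card_dvd_of_le hQR))
  have hNE : Subgroup.normalizer (E : Set G) = ⊤ := Subgroup.normalizer_eq_top E
  have haP : IsPGroup p (Subgroup.zpowers a) := hUP.to_le (Subgroup.zpowers_le.mpr haU)
  have hzQ : Subgroup.zpowers a ≤ Subgroup.centralizer (Q : Set G) := by
    rw [Subgroup.zpowers_le, Subgroup.mem_centralizer_iff]
    intro q hq
    exact hQa q hq
  rcases hcond with hc | hc
  · -- case (a)
    have hF := hc a haU ha1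
    have hQF : Q ≤ Subgroup.centralizer
        ((E ⊓ Subgroup.centralizer (U : Set G) : Subgroup G) : Set G) := by
      rw [hQ, Subgroup.commutator_le]
      intro x hx y hy
      rw [Subgroup.mem_centralizer_iff]
      intro f hf
      have hf2 := hf
      rw [hF] at hf2
      have hfa : Commute f a :=
        Subgroup.mem_centralizer_singleton_iff.mp (Subgroup.mem_inf.mp hf2).2
      have h1 : y * f = f * y :=
        Subgroup.mem_centralizer_iff.mp (Subgroup.mem_inf.mp hf).2 y hy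
      have hg : x⁻¹ * f * x ∈ E ⊓ Subgroup.centralizer (U : Set G) := by
        rw [hF]
        refine Subgroup.mem_inf.mpr ⟨?_, ?_⟩
        · have := ‹E.Normal›.conj_mem f (Subgroup.mem_inf.mp hf).1 x⁻¹
          rwa [inv_inv] at this
        · rw [Subgroup.mem_centralizer_singleton_iff]
          exact (((hXa x hx).inv_left.mul_left hfa).mul_left (hXa x hx)).eq
      have h2 : y * (x⁻¹ * f * x) = (x⁻¹ * f * x) * y :=
        Subgroup.mem_centralizer_iff.mp (Subgroup.mem_inf.mp hg).2 y hy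
      have h1' : y⁻¹ * f = f * y⁻¹ := (Commute.inv_left (show Commute y f from h1)).eq
      calc f * ⁅x, y⁆ = x * ((x⁻¹ * f * x) * y) * x⁻¹ * y⁻¹ := by
            simp only [commutatorElement_def]; group
        _ = x * (y * (x⁻¹ * f * x)) * x⁻¹ * y⁻¹ := by rw [← h2]
        _ = x * y * x⁻¹ * (f * y⁻¹) := by group
        _ = x * y * x⁻¹ * (y⁻¹ * f) := by rw [h1']
        _ = ⁅x, y⁆ * f := by simp only [commutatorElement_def]; group
    refine Cfsg.Agent.Lib.Helper7.pxq_lemma p (Subgroup.zpowers a) Q E haP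
      (Nat.Coprime.symm ((Nat.Prime.coprime_iff_not_dvd hp).mpr hQcard)) hE hzQ
      (by rw [hNE]; exact le_top) (by rw [hNE]; exact le_top) ?_
    intro f hf
    have hfa : f ∈ E ⊓ Subgroup.centralizer ({a} : Set G) := by
      refine Subgroup.mem_inf.mpr ⟨(Subgroup.mem_inf.mp hf).1, ?_⟩
      rw [Subgroup.mem_centralizer_singleton_iff]
      exact (Subgroup.mem_centralizer_iff.mp (Subgroup.mem_inf.mp hf).2 a
        (Subgroup.mem_zpowers a)).symm
    rw [← hF] at hfa
    rw [Subgroup.mem_centralizer_iff]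
    intro q hq
    exact (Subgroup.mem_centralizer_iff.mp (hQF hq) f hfa).symm
  · -- case (b)
    have hD := hc a haU ha1
    have hUD : U ≤ Subgroup.normalizer ((⁅E, U⁆ : Subgroup G) : Set G) := by
      intro y hy
      exact Cfsg.Agent.S2908.mem_normalizer_comm (by rw [hNE]; exact Subgroup.mem_top _)
        (Subgroup.le_normalizer hy)
    have hXD : X ≤ Subgroup.normalizer ((⁅E, U⁆ : Subgroup G) : Set G) := by
      intro x hx
      rw [hD]
      refine Cfsg.Agent.S2908.mem_normalizer_comm (by rw [hNE]; exact Subgroup.mem_top _) ?_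
      refine Cfsg.Agent.S2908.mem_normalizer_of_commute (Subgroup.zpowers a) x ?_
      intro z hz
      obtain ⟨k, rfl⟩ := Subgroup.mem_zpowers_iff.mp hz
      exact ((hXa x hx).zpow_right k).eq
    have hUK : U ≤ trivStab E ⁅E, U⁆ := by
      intro y hy
      exact (mem_trivStab _ _ _).mpr
        ⟨hUD hy, fun e he => Subgroup.commutator_mem_commutator he hy⟩
    have hQK : Q ≤ trivStab E ⁅E, U⁆ := by
      rw [hQ, Subgroup.commutator_le]
      intro x hx y hy
      have h3 : ⁅x, y⁆ = (x * y * x⁻¹) * y⁻¹ := by simp only [commutatorElement_def]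
      rw [h3]
      exact Subgroup.mul_mem _ (trivStab_conj E _ (hXD hx) (hUK hy)) (Subgroup.inv_mem _ (hUK hy))
    have hcomm : ⁅E, Q⁆ ≤ ⁅E, Subgroup.zpowers a⁆ := by
      rw [← hD, Subgroup.commutator_le]
      intro e he q hq
      exact ((mem_trivStab _ _ _).mp (hQK hq)).2 e he
    have hbot := Cfsg.Agent.S2908.result E (Subgroup.zpowers a) Q hE haP hQcard
      (by rw [hNE]; exact le_top) (by rw [hNE]; exact le_top)
      ((Subgroup.commutator_eq_bot_iff_le_centralizer).mpr hzQ) hcomm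
    rw [Subgroup.commutator_eq_bot_iff_le_centralizer] at hbot
    exact Subgroup.le_centralizer_iff.mp hbot


/-- Let p be a prime, E a normal p-subgroup of the finite group G, and U a non-cyclic elementary abelian p-subgroup of G such that either C_E(U) = C_E(u) for every nontrivial u ∈ U, or [E, U] = [E, ⟨u⟩] for every nontrivial u ∈ U. If R is a subgroup of order prime to p normalized by U, then [R, U] centralizes E. -/
theorem result {G : Type*} [Group G] [Finite G] {p : ℕ} [Fact p.Prime] (E : Subgroup G) [E.Normal] (hE : IsPGroup p ↥E) (U : Subgroup G) (hU : Cfsg.IsElementaryAbelian p U) (hnc : ¬ IsCyclic ↥U) (hcond : (∀ u ∈ U, u ≠ 1 → E ⊓ Subgroup.centralizer (U : Set G) = E ⊓ Subgroup.centralizer ({u} : Set G)) ∨ (∀ u ∈ U, u ≠ 1 → ⁅E, U⁆ = ⁅E, Subgroup.zpowers u⁆)) (R : Subgroup G) (hR : ¬ p ∣ Nat.card ↥R) (hRU : U ≤ Subgroup.normalizer (R : Set G)) : ⁅R, U⁆ ≤ Subgroup.centralizer (E : Set G) := by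
  classical
  have hp : p.Prime := Fact.out
  have : IsMulCommutative U := hU.1
  have hUP : IsPGroup p U := isPGroup_of_isEA hU
  have hcop : (Nat.card U).Coprime (Nat.card R) := by
    obtain ⟨n, hn⟩ := IsPGroup.iff_card.mp hUP
    rw [hn]
    exact Nat.Coprime.pow_left n ((Nat.Prime.coprime_iff_not_dvd hp).mpr hR)
  have hgen := Cfsg.Agent.S0058.result U R hnc hRU hcop
  have hRT : R ≤ commStab (Subgroup.centralizer (E : Set G)) U := by
    refine hgen.symm.le.trans (iSup₂_le ?_)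
    intro a ha
    obtain ⟨haU, ha1⟩ := ha
    intro x hx
    rw [mem_commStab]
    intro y hy
    exact key E hE U hU hcond R hR hRU a haU ha1 (Subgroup.commutator_mem_commutator hx hy)
  rw [Subgroup.commutator_le]
  intro r hr y hy
  exact (mem_commStab _ _ _).mp (hRT hr) y hy

end Cfsg.Agent.S2909
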