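import Cfsg.Statements.S2910
import Cfsg.Agent.Lib.Helper9.FrobOmega
import Cfsg.Agent.Lib.Helper9.ConjLemmas

set_option autoImplicit false
open Cfsg

namespace Cfsg.Agent.S2910


open Cfsg.Agent.Lib.Helper9 Cfsg.Agent.Lib.Helper2
open scoped Pointwise

universe u

theorem main {G : Type u} [Group G] [Finite G] {p : ℕ} [Fact p.Prime] (hp : p ≠ 2)
    (hdiv : p ∣ Nat.card G) (P : Sylow p G)
    (hZ : Cfsg.omegaOne p (P : Subgroup G) ≤ Subgroup.center G) :
    Cfsg.HasNormalPComplement p G ∧ ¬ Cfsg.IsQuasisimple G := by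
  have hpp := (Fact.out : p.Prime)
  have hch : p ∣ p.choose 2 := by
    obtain ⟨e, -, hch, he1, -⟩ := exists_omega_exp p
    rw [he1 hp] at hch
    exact hch
  have hnpc : Cfsg.HasNormalPComplement p G := by
    apply Cfsg.Agent.Lib.Helper2.frobenius
    apply frobCond_of_omega p p dvd_rfl hch
    intro Q hQ g hg hgp x hx hxe
    obtain ⟨R, hR⟩ := hQ.exists_le_sylow
    obtain ⟨h₀, rfl⟩ := MulAction.exists_smul_eq G P R
    have hx' : x ∈ MulAut.conj h₀ • (P : Subgroup G) := hR hx
    rw [Cfsg.Agent.Lib.Helper9.mem_conj_smul_iff] at hx'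
    have h1 : h₀⁻¹ * x * h₀ ∈ Cfsg.omegaOne p (P : Subgroup G) := by
      apply Subgroup.subset_closure
      refine ⟨hx', ?_⟩
      have h6 : (h₀⁻¹ * x * h₀) ^ p = h₀⁻¹ * x ^ p * h₀ := by
        have := conj_pow (a := h₀⁻¹) (b := x) (i := p)
        simpa using this
      rw [h6, hxe]; group
    have h2 := hZ h1
    rw [Subgroup.mem_center_iff] at h2
    have h4 := h2 (h₀⁻¹ * g * h₀)
    have h5 : h₀⁻¹ * (g * x) * h₀ = h₀⁻¹ * (x * g) * h₀ := by
      calc h₀⁻¹ * (g * x) * h₀ = (h₀⁻¹ * g * h₀) * (h₀⁻¹ * x * h₀) := by group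
        _ = (h₀⁻¹ * x * h₀) * (h₀⁻¹ * g * h₀) := h4
        _ = h₀⁻¹ * (x * g) * h₀ := by group
    exact mul_left_cancel (mul_right_cancel h5)
  refine ⟨hnpc, ?_⟩
  rintro ⟨hperf, -⟩
  rw [hasNormalPComplement_iff] at hnpc
  obtain ⟨K, hKn, hKp, a, hKa⟩ := hnpc
  have hcard : Nat.card (G ⧸ K) = p ^ a := by rw [← Subgroup.index_eq_card]; exact hKa
  have ha : a ≠ 0 := by
    intro h0
    rw [h0, pow_zero] at hKa
    have h1 : K = ⊤ := Subgroup.index_eq_one.mp hKa
    rw [h1, Subgroup.card_top] at hKp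
    exact hpp.one_lt.ne' (Nat.Coprime.eq_one_of_dvd hKp.symm hdiv)
  have hnt : Nontrivial (G ⧸ K) := by
    rw [← Finite.one_lt_card_iff_nontrivial, hcard]
    exact Nat.one_lt_pow ha hpp.one_lt
  have hpg : IsPGroup p (G ⧸ K) := IsPGroup.of_card hcard
  have hnil : Group.IsNilpotent (G ⧸ K) := hpg.isNilpotent
  have hlt := Group.IsSolvable.commutator_lt_top_of_nontrivial (G ⧸ K)
  apply hlt.ne
  have h1 : commutator G = ⊤ := Group.isPerfect_def.mp hperf
  have h2 : (commutator G).map (QuotientGroup.mk' K) = commutator (G ⧸ K) := by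
    rw [commutator_def, Subgroup.map_commutator,
      Subgroup.map_top_of_surjective _ (QuotientGroup.mk'_surjective K), commutator_def]
  rw [← h2, h1, Subgroup.map_top_of_surjective _ (QuotientGroup.mk'_surjective K)]


/-- Let p be an odd prime dividing the order of the finite group G and P a Sylow p-subgroup of G. If Ω₁(P) (generated by the elements of order dividing p) is contained in the centre of G, then G has a normal p-complement. In particular, if G is quasisimple then Ω₁(P) is not central in G. -/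
theorem result {G : Type*} [Group G] [Finite G] {p : ℕ} [Fact p.Prime] (hp : p ≠ 2) (hdiv : p ∣ Nat.card G) (P : Sylow p G) (hZ : Cfsg.omegaOne p (P : Subgroup G) ≤ Subgroup.center G) : Cfsg.HasNormalPComplement p G ∧ ¬ Cfsg.IsQuasisimple G := by
  exact main hp hdiv P hZ

end Cfsg.Agent.S2910
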