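import Mathlib
import Cfsg.Statements.S2963

set_option autoImplicit false
open Cfsg

namespace Cfsg.Agent.S2963

open scoped Pointwise

theorem main (n : ℕ) (hn : Odd n) (P : Subgroup (Equiv.Perm (Fin n))) (hP : IsPGroup 2 P)
    (hM : ∃! M : Subgroup (Equiv.Perm (Fin n)), IsCoatom M ∧ P ≤ M) : ∃ m : ℕ, n = 2 ^ m + 1 := by
  haveI : Fact (Nat.Prime 2) := ⟨Nat.prime_two⟩
  obtain ⟨M, ⟨hMc, hPM⟩, hMu⟩ := hM
  -- a fixed point
  have hnd : ¬ 2 ∣ Nat.card (Fin n) := by
    rw [Nat.card_fin]; exact hn.not_two_dvd_nat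
  obtain ⟨x, hx⟩ := hP.nonempty_fixed_point_of_prime_not_dvd_card (Fin n) hnd
  have hx' : ∀ g ∈ P, g x = x := fun g hg => hx ⟨g, hg⟩
  by_cases h1 : n = 1
  · exfalso
    subst h1
    exact hMc.1 (Subsingleton.elim _ _)
  have hn3 : 3 ≤ n := by
    obtain ⟨t, ht⟩ := hn
    omega
  -- the stabilizer of `x`
  have hc0 : IsCoatom (MulAction.stabilizer (Equiv.Perm (Fin n)) ({x} : Set (Fin n))) := by
    apply Equiv.Perm.isCoatom_stabilizer (Set.singleton_nonempty x)
    · haveI : Nontrivial (Fin n) := Fin.nontrivial_iff_two_le.2 (by omega)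
      obtain ⟨y, hy⟩ := exists_ne x
      exact ⟨y, hy⟩
    · rw [Nat.card_fin, Set.ncard_singleton]
      obtain ⟨t, ht⟩ := hn
      omega
  have hP0 : P ≤ MulAction.stabilizer (Equiv.Perm (Fin n)) ({x} : Set (Fin n)) := by
    intro g hg
    rw [MulAction.mem_stabilizer_iff, Set.smul_set_singleton, Equiv.Perm.smul_def, hx' g hg]
  have hM0 := hMu _ ⟨hc0, hP0⟩
  -- another point
  obtain ⟨y, hy⟩ : ∃ y : Fin n, y ≠ x := by
    haveI : Nontrivial (Fin n) := Fin.nontrivial_iff_two_le.2 (by omega)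
    exact exists_ne x
  have hxO : x ∉ MulAction.orbit P y := by
    rintro ⟨h, hh⟩
    apply hy
    have e1 : (h.1 : Equiv.Perm (Fin n)) y = x := hh
    have e2 : (h.1 : Equiv.Perm (Fin n)) x = x := hx' h.1 h.2
    exact h.1.injective (e1.trans e2.symm)
  have hc1 : IsCoatom (MulAction.stabilizer (Equiv.Perm (Fin n)) (MulAction.orbit P y)) := by
    apply Equiv.Perm.isCoatom_stabilizer (MulAction.nonempty_orbit y) ⟨x, hxO⟩
    rw [Nat.card_fin]
    obtain ⟨t, ht⟩ := hn
    omega
  have hP1 : P ≤ MulAction.stabilizer (Equiv.Perm (Fin n)) (MulAction.orbit P y) := by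
    intro g hg
    rw [MulAction.mem_stabilizer_iff]
    ext z
    rw [Set.mem_smul_set_iff_inv_smul_mem]
    constructor
    · rintro ⟨h, hh⟩
      refine ⟨⟨g, hg⟩ * h, ?_⟩
      show (⟨g, hg⟩ * h : ↥P) • y = z
      have hh' : h • y = g⁻¹ • z := hh
      rw [mul_smul, hh']
      show g • (g⁻¹ • z) = z
      rw [smul_inv_smul]
    · rintro ⟨h, hh⟩
      refine ⟨⟨g, hg⟩⁻¹ * h, ?_⟩
      show ((⟨g, hg⟩ : ↥P)⁻¹ * h : ↥P) • y = g⁻¹ • z
      have hh' : h • y = z := hh
      rw [mul_smul, hh']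
      rfl
  have hM1 := hMu _ ⟨hc1, hP1⟩
  -- the orbit is everything but `x`
  have hO : MulAction.orbit P y = ({x}ᶜ : Set (Fin n)) := by
    ext z
    constructor
    · intro hz
      rw [Set.mem_compl_iff, Set.mem_singleton_iff]
      rintro rfl
      exact hxO hz
    · intro hz
      rw [Set.mem_compl_iff, Set.mem_singleton_iff] at hz
      by_contra hzO
      have hsw : Equiv.swap x z ∈
          MulAction.stabilizer (Equiv.Perm (Fin n)) (MulAction.orbit P y) := by
        rw [MulAction.mem_stabilizer_iff]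
        ext w
        rw [Set.mem_smul_set_iff_inv_smul_mem, Equiv.swap_inv, Equiv.Perm.smul_def]
        by_cases hwx : w = x
        · subst hwx
          rw [Equiv.swap_apply_left]
          exact ⟨fun h => absurd h hzO, fun h => absurd h hxO⟩
        · by_cases hwz : w = z
          · subst hwz
            rw [Equiv.swap_apply_right]
            exact ⟨fun h => absurd h hxO, fun h => absurd h hzO⟩
          · rw [Equiv.swap_apply_of_ne_of_ne hwx hwz]
      rw [hM1, ← hM0, MulAction.mem_stabilizer_iff, Set.smul_set_singleton, Equiv.Perm.smul_def,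
        Equiv.swap_apply_left, Set.singleton_eq_singleton_iff] at hsw
      exact hz hsw
  obtain ⟨m, hm⟩ := hP.card_orbit (α := Fin n) y
  refine ⟨m, ?_⟩
  rw [Nat.card_coe_set_eq, hO] at hm
  have h2 := Set.ncard_add_ncard_compl ({x} : Set (Fin n))
  rw [Set.ncard_singleton, Nat.card_fin, hm] at h2
  omega

/-- Let n be odd. If the symmetric group of degree n is a minimal parabolic group for the prime 2, that is, a Sylow 2-subgroup is not normal and lies in exactly one maximal subgroup, then n = 2^m + 1 for some natural number m. -/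
theorem result (n : ℕ) (hn : Odd n) (h : Cfsg.IsPMinimal 2 (Equiv.Perm (Fin n))) : ∃ m : ℕ, n = 2 ^ m + 1 := by
  haveI : Fact (Nat.Prime 2) := ⟨Nat.prime_two⟩
  obtain ⟨S⟩ := (inferInstance : Nonempty (Sylow 2 (Equiv.Perm (Fin n))))
  exact main n hn S S.isPGroup' (h S).2

end Cfsg.Agent.S2963
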