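import Mathlib
import Cfsg.Statements.S3003
import Cfsg.Agent.S1324

set_option autoImplicit false
open Cfsg

namespace Cfsg.Agent.S3003

theorem coatom_of_prime_index {U : Type*} [Group U] [Finite U] (H : Subgroup U) {p : ℕ}
    (hp : p.Prime) (h : H.index = p) : IsCoatom H := by
  constructor
  · intro htop
    rw [htop, Subgroup.index_top] at h
    exact hp.one_lt.ne h
  · intro K hHK
    have h1 : H.relIndex K * K.index = H.index := Subgroup.relIndex_mul_index hHK.le
    rw [h] at h1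
    have h2 : H.relIndex K ≠ 1 := by
      intro h3
      exact (not_le_of_gt hHK) (Subgroup.relIndex_eq_one.mp h3)
    have h3 : H.relIndex K ∣ p := Dvd.intro _ h1
    rcases (Nat.dvd_prime hp).mp h3 with h4 | h4
    · exact absurd h4 h2
    · rw [h4] at h1
      have h5 : K.index = 1 := by
        have : p * K.index = p * 1 := by rw [h1, mul_one]
        exact Nat.eq_of_mul_eq_mul_left hp.pos this
      exact Subgroup.index_eq_one.mp h5

theorem part1 {G : Type*} [Group G] [Finite G] {p : ℕ} [Fact p.Prime] (Q : Subgroup G)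
    (hQp : IsPGroup p ↥Q) (hlarge : Cfsg.IsLarge Q) (G₁ : Subgroup G) (hQG : Q ≤ G₁)
    (R : Subgroup G) (hR : (Nat.card ↥R).Coprime p)
    (hGR : G₁ ≤ Subgroup.normalizer (R : Set G)) (B : Subgroup G)
    (hex : ∃ x ∈ B, x ≠ 1 ∧ ∃ g ∈ G₁, g * x * g⁻¹ ∈ Q ⊓ Subgroup.centralizer (Q : Set G)) :
    R ⊓ Subgroup.centralizer (B : Set G) = ⊥ := by
  have hp : p.Prime := Fact.out
  have hRQ : ∀ c : G, c ∈ R → c ∈ Q → c = 1 := by
    intro c hcR hcQ
    obtain ⟨k, hk⟩ := hQp ⟨c, hcQ⟩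
    have hk' : c ^ (p ^ k) = 1 := by
      have := congrArg Subtype.val hk
      simpa using this
    have h2 : c ^ Nat.card R = 1 := by
      have h3 : (⟨c, hcR⟩ : R) ^ Nat.card R = 1 := pow_card_eq_one'
      have h4 : ((⟨c, hcR⟩ : R) : G) ^ Nat.card R = 1 := by
        rw [← Subgroup.coe_pow, h3]; rfl
      exact h4
    have h4 : orderOf c ∣ Nat.gcd (Nat.card R) (p ^ k) :=
      Nat.dvd_gcd (orderOf_dvd_of_pow_eq_one h2) (orderOf_dvd_of_pow_eq_one hk')
    have h5 : Nat.Coprime (Nat.card R) (p ^ k) := Nat.Coprime.pow_right k hR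
    rw [h5.gcd_eq_one, Nat.dvd_one] at h4
    exact orderOf_eq_one_iff.mp h4
  obtain ⟨x, hxB, hx1, g, hg, hz⟩ := hex
  rw [eq_bot_iff]
  intro r hr
  obtain ⟨hrR, hrC⟩ := hr
  rw [Subgroup.mem_bot]
  have hrx : x * r = r * x := by
    have hrC' : r ∈ Subgroup.centralizer (B : Set G) := hrC
    rw [Subgroup.mem_centralizer_iff] at hrC'
    exact hrC' x hxB
  obtain ⟨z, hzdef⟩ : ∃ z : G, z = g * x * g⁻¹ := ⟨_, rfl⟩
  rw [← hzdef] at hz
  obtain ⟨r', hr'⟩ : ∃ r' : G, r' = g * r * g⁻¹ := ⟨_, rfl⟩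
  have hz1 : z ≠ 1 := by
    intro h
    apply hx1
    have h4 : x = g⁻¹ * z * g := by rw [hzdef]; group
    rw [h4, h]; group
  have hr'R : r' ∈ R := by
    rw [hr']
    exact (Subgroup.mem_normalizer_iff.mp (hGR hg) r).mp hrR
  have hr'z : r' * z = z * r' := by
    rw [hr', hzdef]
    calc g * r * g⁻¹ * (g * x * g⁻¹) = g * (r * x) * g⁻¹ := by group
      _ = g * (x * r) * g⁻¹ := by rw [hrx]
      _ = g * x * g⁻¹ * (g * r * g⁻¹) := by group
  have hr'N : r' ∈ Subgroup.normalizer (Q : Set G) := by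
    apply hlarge.2 (Subgroup.zpowers z)
    · rw [Subgroup.zpowers_le]; exact hz.2
    · intro h
      have : z ∈ (⊥ : Subgroup G) := by rw [← h]; exact Subgroup.mem_zpowers z
      exact hz1 (Subgroup.mem_bot.mp this)
    · rw [Subgroup.mem_normalizer_iff]
      intro y
      have hc : Commute r' z := hr'z
      constructor
      · intro hy
        obtain ⟨k, rfl⟩ := Subgroup.mem_zpowers_iff.mp hy
        have : r' * z ^ k * r'⁻¹ = z ^ k := by
          rw [(hc.zpow_right k).eq]; group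
        rw [this]; exact hy
      · intro hy
        obtain ⟨k, hk⟩ := Subgroup.mem_zpowers_iff.mp hy
        have : y = z ^ k := by
          have h5 : y = r'⁻¹ * (r' * y * r'⁻¹) * r' := by group
          have c2 : r' * z ^ k = z ^ k * r' := (hc.zpow_right k).eq
          rw [h5, ← hk]
          calc r'⁻¹ * z ^ k * r' = r'⁻¹ * (z ^ k * r') := by group
            _ = r'⁻¹ * (r' * z ^ k) := by rw [c2]
            _ = z ^ k := by group
        rw [this]; exact Subgroup.zpow_mem_zpowers z k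
  have hr'C : r' ∈ Subgroup.centralizer (Q : Set G) := by
    rw [Subgroup.mem_centralizer_iff]
    intro q hq
    have h1 : r' * q * r'⁻¹ * q⁻¹ ∈ Q :=
      mul_mem ((Subgroup.mem_normalizer_iff.mp hr'N q).mp hq) (inv_mem hq)
    have h2 : r' * q * r'⁻¹ * q⁻¹ ∈ R := by
      have h3 : q * r'⁻¹ * q⁻¹ ∈ R :=
        (Subgroup.mem_normalizer_iff.mp (hGR (hQG hq)) r'⁻¹).mp (inv_mem hr'R)
      have h4 : r' * q * r'⁻¹ * q⁻¹ = r' * (q * r'⁻¹ * q⁻¹) := by group
      rw [h4]; exact mul_mem hr'R h3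
    have h5 := hRQ _ h2 h1
    have h6 : r' * q = q * r' := by
      calc r' * q = (r' * q * r'⁻¹ * q⁻¹) * (q * r') := by group
        _ = q * r' := by rw [h5, one_mul]
    exact h6.symm
  have hr'1 : r' = 1 := hRQ r' hr'R (hlarge.1 hr'C)
  have h7 : r = g⁻¹ * r' * g := by rw [hr']; group
  rw [h7, hr'1]; group

/-- Let G be a finite group, p a prime and Q a large p-subgroup of G: C_G(Q) ≤ Q and N_G(U) ≤ N_G(Q) for every nontrivial subgroup U of C_G(Q). Let Q ≤ G₁ ≤ G, let R be a subgroup of order prime to p normalized by G₁, and let U ≤ G₁ be a p-subgroup. If U contains a nontrivial element which is G₁-conjugate to an element of Z(Q), then C_R(U) = 1. In particular, if U is elementary abelian of order at least p² and every maximal subgroup of U contains a nontrivial element G₁-conjugate into Z(Q), then R = 1. -/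
theorem result {G : Type*} [Group G] [Finite G] {p : ℕ} [Fact p.Prime] (Q : Subgroup G) (hQp : IsPGroup p ↥Q) (hlarge : Cfsg.IsLarge Q) (G₁ : Subgroup G) (hQG : Q ≤ G₁) (R : Subgroup G) (hR : (Nat.card ↥R).Coprime p) (hGR : G₁ ≤ Subgroup.normalizer (R : Set G)) (U : Subgroup G) (hUG : U ≤ G₁) (hUp : IsPGroup p ↥U) : ((∃ x ∈ U, x ≠ 1 ∧ ∃ g ∈ G₁, g * x * g⁻¹ ∈ Q ⊓ Subgroup.centralizer (Q : Set G)) → R ⊓ Subgroup.centralizer (U : Set G) = ⊥) ∧ (Cfsg.IsElementaryAbelian p U → p ^ 2 ≤ Nat.card ↥U → (∀ U₀ : Subgroup G, U₀ ≤ U → IsCoatom (U₀.subgroupOf U) → ∃ x ∈ U₀, x ≠ 1 ∧ ∃ g ∈ G₁, g * x * g⁻¹ ∈ Q ⊓ Subgroup.centralizer (Q : Set G)) → R = ⊥) := by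
  classical
  have hp : p.Prime := Fact.out
  refine ⟨fun hex => part1 Q hQp hlarge G₁ hQG R hR hGR U hex, ?_⟩
  intro hEA hU2 hall
  have hRp : ¬ p ∣ Nat.card ↥R := by
    intro h
    have := Nat.Coprime.eq_one_of_dvd hR.symm h
    exact hp.one_lt.ne' this
  have hgen := S1324.result p U R hEA hU2 hRp (hUG.trans hGR)
  rw [hgen]
  apply iSup_eq_bot.mpr
  rintro ⟨B, hBU, hBidx⟩
  show R ⊓ Subgroup.centralizer (B : Set G) = ⊥
  apply part1 Q hQp hlarge G₁ hQG R hR hGR B
  obtain ⟨n, hn⟩ := IsPGroup.iff_card.mp hUp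
  have hdvd : B.relIndex U ∣ p ^ n := by rw [← hn]; exact Subgroup.relIndex_dvd_card B U
  obtain ⟨j, -, hj⟩ := (Nat.dvd_prime_pow hp).1 hdvd
  have hj1 : j ≤ 1 := by
    by_contra hcon
    push_neg at hcon
    have h1 : p ^ 2 ≤ p ^ j := Nat.pow_le_pow_right hp.pos hcon
    rw [← hj] at h1
    have h2 : p < p ^ 2 := by
      rw [sq]; nlinarith [hp.one_lt]
    omega
  interval_cases j
  · -- B = U
    rw [pow_zero] at hj
    have hUB : U ≤ B := Subgroup.relIndex_eq_one.mp hj
    haveI : Nontrivial ↥U := by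
      rw [← Finite.one_lt_card_iff_nontrivial]
      have : 1 < p ^ 2 := by
        have := hp.one_lt
        nlinarith
      omega
    have hne : (⊥ : Subgroup ↥U) ≠ ⊤ := bot_ne_top
    rcases eq_top_or_exists_le_coatom (⊥ : Subgroup ↥U) with h | ⟨M, hM, -⟩
    · exact absurd h hne
    · have hTM : (M.map U.subtype).subgroupOf U = M := by
        ext y
        rw [Subgroup.mem_subgroupOf]
        constructor
        · rintro ⟨m, hm, hmy⟩
          have : m = y := Subtype.ext hmy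
          rw [← this]; exact hm
        · intro hy
          exact ⟨y, hy, rfl⟩
      obtain ⟨x, hx, hx1, hrest⟩ := hall (M.map U.subtype) (Subgroup.map_subtype_le M)
        (by rw [hTM]; exact hM)
      exact ⟨x, hUB (Subgroup.map_subtype_le M hx), hx1, hrest⟩
  · rw [pow_one] at hj
    exact hall B hBU (coatom_of_prime_index _ hp hj)

end Cfsg.Agent.S3003
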