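import Cfsg.Statements.S3014
import Cfsg.Agent.Lib.Helper2.WellPlaced
import Mathlib.GroupTheory.Transfer
-- import your own Cfsg.Agent.* helpers here

set_option autoImplicit false
open Cfsg

namespace Cfsg.Agent.S3014

open Cfsg.Agent.Lib.Helper2

theorem eq_or_eq_of_coatom {G : Type*} [Group G] {H M K : Subgroup G}
    (hmaxH : IsCoatom (H.subgroupOf M)) (hHK : H ≤ K) (hKM : K ≤ M) : K = H ∨ K = M := by
  by_cases h : K.subgroupOf M = H.subgroupOf M
  · left
    rw [Subgroup.subgroupOf_inj] at h
    rw [inf_eq_left.mpr hKM, inf_eq_left.mpr (hHK.trans hKM)] at h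
    exact h
  · right
    have hle : H.subgroupOf M ≤ K.subgroupOf M := Subgroup.comap_mono hHK
    have := hmaxH.2 (K.subgroupOf M) (lt_of_le_of_ne hle (Ne.symm h))
    exact le_antisymm hKM (Subgroup.subgroupOf_eq_top.mp this)

theorem quot_comm_of_coatom {K : Type*} [Group K] (N : Subgroup K) [N.Normal] (hN : IsCoatom N)
    (a b : K ⧸ N) : a * b = b * a := by
  induction a using QuotientGroup.induction_on with | _ m₁ => ?_
  induction b using QuotientGroup.induction_on with | _ m₂ => ?_
  by_cases h1 : m₁ ∈ N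
  · have : (m₁ : K ⧸ N) = 1 := (QuotientGroup.eq_one_iff m₁).mpr h1
    rw [this, one_mul, mul_one]
  · have htop : N ⊔ Subgroup.zpowers m₁ = ⊤ := by
      apply hN.2
      refine lt_of_le_of_ne le_sup_left ?_
      intro h
      apply h1
      rw [h]
      exact (le_sup_right : Subgroup.zpowers m₁ ≤ _) (Subgroup.mem_zpowers m₁)
    have hm₂ : m₂ ∈ ((N ⊔ Subgroup.zpowers m₁ : Subgroup K) : Set K) := by rw [htop]; trivial
    rw [Subgroup.normal_mul] at hm₂
    obtain ⟨h, hh, z, hz, rfl⟩ := Set.mem_mul.mp hm₂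
    obtain ⟨k, rfl⟩ := Subgroup.mem_zpowers_iff.mp hz
    have e1 : ((h * m₁ ^ k : K) : K ⧸ N) = (m₁ : K ⧸ N) ^ k := by
      rw [QuotientGroup.mk_mul, (QuotientGroup.eq_one_iff h).mpr hh, one_mul, QuotientGroup.mk_zpow]
    rw [e1]
    exact ((Commute.refl (m₁ : K ⧸ N)).zpow_right k).eq

/-- Let G be a finite group and H ≤ M ≤ G subgroups such that for every g ∈ G the subgroup generated by H and g H g⁻¹ meets M exactly in H. If H is a maximal subgroup of M and M is a maximal subgroup of G, then the normal closure of H in G meets M exactly in H. -/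
theorem result {G : Type*} [Group G] [Finite G] (H M : Subgroup G) (hHM : H ≤ M) (hcl : ∀ g : G, (H ⊔ H.map (MulAut.conj g).toMonoidHom) ⊓ M = H) (hmaxH : IsCoatom (H.subgroupOf M)) (hmaxM : IsCoatom M) : Subgroup.normalClosure (H : Set G) ⊓ M = H := by
  classical
  apply le_antisymm _ (le_inf Subgroup.le_normalClosure hHM)
  have hconj : ∀ x ∈ M, ∀ h ∈ H, x * h * x⁻¹ ∈ H := by
    intro x hx h hh
    have h1 : H ⊔ H.map (MulAut.conj x).toMonoidHom ≤ M := by
      refine sup_le hHM ?_
      rintro _ ⟨h', hh', rfl⟩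
      exact mul_mem (mul_mem hx (hHM hh')) (inv_mem hx)
    have h2 := hcl x
    rw [inf_eq_left.mpr h1] at h2
    have h3 : x * h * x⁻¹ ∈ H.map (MulAut.conj x).toMonoidHom := ⟨h, hh, rfl⟩
    have h4 : x * h * x⁻¹ ∈ H ⊔ H.map (MulAut.conj x).toMonoidHom := (le_sup_right : _ ≤ H ⊔ _) h3
    rw [h2] at h4
    exact h4
  have hMN : M ≤ Subgroup.normalizer (H : Set G) := by
    intro x hx
    rw [Subgroup.mem_normalizer_iff]
    intro h
    constructor
    · exact hconj x hx h
    · intro hh
      have := hconj x⁻¹ (inv_mem hx) _ hh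
      have e : x⁻¹ * (x * h * x⁻¹) * x⁻¹⁻¹ = h := by group
      rwa [e] at this
  by_cases hN : Subgroup.normalizer (H : Set G) = ⊤
  · haveI : H.Normal := Subgroup.normalizer_eq_top_iff.mp hN
    rw [Subgroup.normalClosure_eq_self]; exact inf_le_left
  have hNM : Subgroup.normalizer (H : Set G) = M := by
    by_contra hne
    exact hN (hmaxM.2 _ (lt_of_le_of_ne hMN (Ne.symm hne)))
  by_cases hcase : ∃ g : G, g ∉ M ∧ ¬ (M ⊓ M.map (MulAut.conj g).toMonoidHom ≤ H)
  · obtain ⟨g, hgM, hD⟩ := hcase
    have hLM : (H ⊔ H.map (MulAut.conj g).toMonoidHom) ⊓ M = H := hcl g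
    have hDN : M ⊓ M.map (MulAut.conj g).toMonoidHom ≤
        Subgroup.normalizer ((H ⊔ H.map (MulAut.conj g).toMonoidHom : Subgroup G) : Set G) := by
      intro d hd
      rw [mem_normalizer_iff_map_conj', Subgroup.map_sup]
      have h1 : H.map (MulAut.conj d).toMonoidHom = H := mem_normalizer_iff_map_conj'.mp (hMN hd.1)
      have h2 : (H.map (MulAut.conj g).toMonoidHom).map (MulAut.conj d).toMonoidHom =
          H.map (MulAut.conj g).toMonoidHom := by
        apply mem_normalizer_iff_map_conj'.mp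
        rw [normalizer_map_conj]
        exact Subgroup.map_mono hMN hd.2
      rw [h1, h2]
    have hHD : H ⊔ (M ⊓ M.map (MulAut.conj g).toMonoidHom) = M := by
      rcases eq_or_eq_of_coatom hmaxH
        (le_sup_left : H ≤ H ⊔ (M ⊓ M.map (MulAut.conj g).toMonoidHom))
        (sup_le hHM inf_le_left) with h | h
      · exfalso; apply hD; rw [← h]; exact le_sup_right
      · exact h
    have hLD : (H ⊔ H.map (MulAut.conj g).toMonoidHom) ⊔ (M ⊓ M.map (MulAut.conj g).toMonoidHom) = ⊤ := by
      have hM_le : M ≤ (H ⊔ H.map (MulAut.conj g).toMonoidHom) ⊔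
          (M ⊓ M.map (MulAut.conj g).toMonoidHom) := by
        calc M = H ⊔ (M ⊓ M.map (MulAut.conj g).toMonoidHom) := hHD.symm
          _ ≤ _ := sup_le_sup_right le_sup_left _
      by_contra hne
      have hEq : (H ⊔ H.map (MulAut.conj g).toMonoidHom) ⊔
          (M ⊓ M.map (MulAut.conj g).toMonoidHom) = M := by
        by_contra hne2
        exact hne (hmaxM.2 _ (lt_of_le_of_ne hM_le (Ne.symm hne2)))
      have hLleM : H ⊔ H.map (MulAut.conj g).toMonoidHom ≤ M := by
        calc H ⊔ H.map (MulAut.conj g).toMonoidHom ≤ _ := le_sup_left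
          _ = M := hEq
      have hLH : H ⊔ H.map (MulAut.conj g).toMonoidHom = H := by
        rw [inf_eq_left.mpr hLleM] at hLM
        exact hLM
      have hle : H.map (MulAut.conj g).toMonoidHom ≤ H := by
        calc H.map (MulAut.conj g).toMonoidHom ≤ H ⊔ H.map (MulAut.conj g).toMonoidHom := le_sup_right
          _ = H := hLH
      have hgN : g ∈ Subgroup.normalizer (H : Set G) := by
        rw [mem_normalizer_iff_map_conj']
        exact Subgroup.eq_of_le_of_card_ge hle
          (by rw [Subgroup.card_map_of_injective (MulAut.conj g).injective])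
      rw [hNM] at hgN
      exact hgM hgN
    haveI hLnormal : (H ⊔ H.map (MulAut.conj g).toMonoidHom).Normal := by
      rw [← Subgroup.normalizer_eq_top_iff]
      apply top_le_iff.mp
      rw [← hLD]
      exact sup_le Subgroup.le_normalizer hDN
    have hcl' : Subgroup.normalClosure (H : Set G) ≤ H ⊔ H.map (MulAut.conj g).toMonoidHom :=
      Subgroup.normalClosure_le_normal (fun h hh => (le_sup_left : H ≤ _) hh)
    calc Subgroup.normalClosure (H : Set G) ⊓ M ≤ (H ⊔ H.map (MulAut.conj g).toMonoidHom) ⊓ M :=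
          inf_le_inf_right _ hcl'
      _ = H := hLM
  · push Not at hcase
    haveI hH'n : (H.subgroupOf M).Normal := (Subgroup.normal_subgroupOf_iff_le_normalizer hHM).mpr hMN
    letI instC : CommGroup (↥M ⧸ H.subgroupOf M) :=
      { (inferInstance : Group (↥M ⧸ H.subgroupOf M)) with
        mul_comm := quot_comm_of_coatom _ hmaxH }
    set ϕ : ↥M →* ↥M ⧸ H.subgroupOf M := QuotientGroup.mk' (H.subgroupOf M) with hϕ
    have hkey : ∀ k : G, k ∉ M → ∀ y ∈ M, k * y * k⁻¹ ∈ M → y ∈ H := by
      intro k hk y hy hky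
      have hk' : k⁻¹ ∉ M := fun h => hk (by simpa using inv_mem h)
      apply hcase k⁻¹ hk'
      refine Subgroup.mem_inf.mpr ⟨hy, ?_⟩
      refine ⟨k * y * k⁻¹, hky, ?_⟩
      show k⁻¹ * (k * y * k⁻¹) * k⁻¹⁻¹ = y
      group
    have hfac : ∀ (x : G) (hx : x ∈ M)
        (q : Quotient (MulAction.orbitRel (Subgroup.zpowers x) (G ⧸ M))), q.out.out ∉ M →
        ϕ ⟨q.out.out⁻¹ * x ^ Function.minimalPeriod (x • ·) q.out * q.out.out,
          QuotientGroup.out_conj_pow_minimalPeriod_mem M x q.out⟩ = 1 := by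
      intro x hx q hq
      rw [hϕ, QuotientGroup.mk'_apply, QuotientGroup.eq_one_iff, Subgroup.mem_subgroupOf]
      apply hkey q.out.out hq _ (QuotientGroup.out_conj_pow_minimalPeriod_mem M x q.out)
      have e : q.out.out * (q.out.out⁻¹ * x ^ Function.minimalPeriod (x • ·) q.out * q.out.out) *
          q.out.out⁻¹ = x ^ Function.minimalPeriod (x • ·) q.out := by group
      rw [e]; exact pow_mem hx _
    have hV1 : ∀ h ∈ H, MonoidHom.transfer ϕ h = 1 := by
      intro h hh
      haveI : Fintype (Quotient (MulAction.orbitRel (Subgroup.zpowers h) (G ⧸ M))) :=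
        Fintype.ofFinite _
      rw [MonoidHom.transfer_eq_prod_quotient_orbitRel_zpowers_quot]
      apply Finset.prod_eq_one
      intro q _
      by_cases hq : q.out.out ∈ M
      · rw [hϕ, QuotientGroup.mk'_apply, QuotientGroup.eq_one_iff, Subgroup.mem_subgroupOf]
        have := hconj q.out.out⁻¹ (inv_mem hq) (h ^ Function.minimalPeriod (h • ·) q.out)
          (pow_mem hh _)
        rw [inv_inv] at this
        exact this
      · exact hfac h (hHM hh) q hq
    have hV2 : ∀ x ∈ M, x ∉ H → MonoidHom.transfer ϕ x ≠ 1 := by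
      intro x hx hxH
      haveI : Fintype (Quotient (MulAction.orbitRel (Subgroup.zpowers x) (G ⧸ M))) :=
        Fintype.ofFinite _
      rw [MonoidHom.transfer_eq_prod_quotient_orbitRel_zpowers_quot]
      set q₀ : Quotient (MulAction.orbitRel (Subgroup.zpowers x) (G ⧸ M)) :=
        Quotient.mk _ ((1 : G) : G ⧸ M) with hq₀
      have huniq : ∀ q : Quotient (MulAction.orbitRel (Subgroup.zpowers x) (G ⧸ M)),
          q.out.out ∈ M → q = q₀ := by
        intro q hq
        have h1 : q.out = ((1 : G) : G ⧸ M) := by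
          rw [← QuotientGroup.out_eq' q.out, QuotientGroup.eq]
          simpa using hq
        rw [hq₀, ← h1, Quotient.out_eq]
      have hq₀M : q₀.out.out ∈ M := by
        have h1 : q₀.out ∈ MulAction.orbit (Subgroup.zpowers x) ((1 : G) : G ⧸ M) :=
          Quotient.mk_out (s := MulAction.orbitRel (Subgroup.zpowers x) (G ⧸ M)) ((1 : G) : G ⧸ M)
        obtain ⟨⟨z, hz⟩, hz2⟩ := h1
        have hzM : z ∈ M := (Subgroup.zpowers_le.mpr hx) hz
        have h2 : q₀.out = ((z : G) : G ⧸ M) := by
          rw [← hz2]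
          show z • ((1 : G) : G ⧸ M) = _
          rw [MulAction.Quotient.smul_mk, smul_eq_mul, mul_one]
        have h3 : ((q₀.out.out : G) : G ⧸ M) = ((z : G) : G ⧸ M) := by
          rw [QuotientGroup.out_eq']; exact h2
        rw [QuotientGroup.eq] at h3
        have := mul_mem hzM (inv_mem h3)
        have e : z * (q₀.out.out⁻¹ * z)⁻¹ = q₀.out.out := by group
        rwa [e] at this
      rw [Finset.prod_eq_single q₀]
      · rw [hϕ, QuotientGroup.mk'_apply, Ne, QuotientGroup.eq_one_iff, Subgroup.mem_subgroupOf]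
        intro hmem
        have hfix : Function.IsFixedPt (x • ·) q₀.out := by
          show x • q₀.out = q₀.out
          rw [← QuotientGroup.out_eq' q₀.out, MulAction.Quotient.smul_mk, smul_eq_mul,
            QuotientGroup.eq]
          have e : (x * q₀.out.out)⁻¹ * q₀.out.out = q₀.out.out⁻¹ * x⁻¹ * q₀.out.out := by group
          rw [e]
          exact mul_mem (mul_mem (inv_mem hq₀M) (inv_mem hx)) hq₀M
        have hn : Function.minimalPeriod (x • ·) q₀.out = 1 :=
          Function.minimalPeriod_eq_one_iff_isFixedPt.mpr hfix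
        have hmem' : q₀.out.out⁻¹ * x ^ Function.minimalPeriod (x • ·) q₀.out * q₀.out.out ∈ H := hmem
        rw [hn, pow_one] at hmem'
        have := hconj q₀.out.out hq₀M _ hmem'
        apply hxH
        have e : q₀.out.out * (q₀.out.out⁻¹ * x * q₀.out.out) * q₀.out.out⁻¹ = x := by group
        rwa [e] at this
      · intro q _ hne
        exact hfac x hx q (fun hq => hne (huniq q hq))
      · intro h; exact absurd (Finset.mem_univ _) h
    intro x hx
    have hxN : x ∈ Subgroup.normalClosure (H : Set G) := hx.1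
    have hxM : x ∈ M := hx.2
    by_contra hxH
    apply hV2 x hxM hxH
    have hker : Subgroup.normalClosure (H : Set G) ≤ (MonoidHom.transfer ϕ).ker :=
      Subgroup.normalClosure_le_normal (fun h hh => MonoidHom.mem_ker.mpr (hV1 h hh))
    exact MonoidHom.mem_ker.mp (hker hxN)

end Cfsg.Agent.S3014
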