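import Cfsg.Statements.S3020
import Cfsg.Agent.Lib.Helper2.WellPlaced
import Cfsg.Agent.Lib.Helper7.PCore
import Mathlib.GroupTheory.Transfer
-- import your own Cfsg.Agent.* helpers here

set_option autoImplicit false
open Cfsg

namespace Cfsg.Agent.S3020

open Cfsg.Agent.Lib.Helper2

/-- Let G be a finite group, p a prime and H an abelian p-subgroup of G that is extremely closed (for every g, the subgroup generated by H and g H g⁻¹ meets N_G(H) exactly in H). Then for every g ∈ G, the subgroup T generated by H and g H g⁻¹ is the product of H with O_{p'}(T), and H meets O_{p'}(T) trivially; that is, O_{p'}(T) is a normal p-complement of H in T. -/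
theorem result {G : Type*} [Group G] [Finite G] {p : ℕ} [Fact p.Prime] (H : Subgroup G) (hHp : IsPGroup p H) (hHab : IsMulCommutative H) (hcl : Cfsg.IsExtremelyClosed H) (g : G) (T : Subgroup G) (hT : T = H ⊔ H.map (MulAut.conj g).toMonoidHom) : H ⊔ (Cfsg.pPrimeCore p ↥T).map T.subtype = T ∧ H ⊓ (Cfsg.pPrimeCore p ↥T).map T.subtype = ⊥ := by
  subst hT
  have hHT : H ≤ H ⊔ H.map (MulAut.conj g).toMonoidHom := le_sup_left
  have hTN : (H ⊔ H.map (MulAut.conj g).toMonoidHom) ⊓ Subgroup.normalizer (H : Set G) = H := hcl g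
  have hH'p : IsPGroup p (H.subgroupOf (H ⊔ H.map (MulAut.conj g).toMonoidHom)) := hHp.comap_subtype
  have hN' : Subgroup.normalizer
      ((H.subgroupOf (H ⊔ H.map (MulAut.conj g).toMonoidHom) :
        Subgroup ↥(H ⊔ H.map (MulAut.conj g).toMonoidHom)) :
        Set ↥(H ⊔ H.map (MulAut.conj g).toMonoidHom)) =
      H.subgroupOf (H ⊔ H.map (MulAut.conj g).toMonoidHom) := by
    rw [← Subgroup.subgroupOf_normalizer_eq hHT, Subgroup.subgroupOf_inj, inf_comm, hTN,
      inf_eq_left.mpr hHT]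
  obtain ⟨P, hP⟩ := hH'p.exists_le_sylow
  have hPeq : (P : Subgroup ↥(H ⊔ H.map (MulAut.conj g).toMonoidHom)) =
      H.subgroupOf (H ⊔ H.map (MulAut.conj g).toMonoidHom) := by
    by_contra hne
    have hlt := card_lt_card_inf_normalizer P.2 hP (Ne.symm hne)
    rw [hN'] at hlt
    have := Subgroup.card_le_of_le (inf_le_right :
      (P : Subgroup ↥(H ⊔ H.map (MulAut.conj g).toMonoidHom)) ⊓
        H.subgroupOf (H ⊔ H.map (MulAut.conj g).toMonoidHom) ≤ _)
    omega
  have hab : ∀ a ∈ H.subgroupOf (H ⊔ H.map (MulAut.conj g).toMonoidHom),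
      ∀ b ∈ H.subgroupOf (H ⊔ H.map (MulAut.conj g).toMonoidHom), a * b = b * a := by
    intro a ha b hb
    apply Subtype.ext
    have := hHab.is_comm.comm ⟨(a : G), ha⟩ ⟨(b : G), hb⟩
    show (a : G) * (b : G) = (b : G) * (a : G)
    exact congrArg (Subtype.val : ↥H → G) this
  have hNC : Subgroup.normalizer ((P : Subgroup ↥(H ⊔ H.map (MulAut.conj g).toMonoidHom)) :
        Set ↥(H ⊔ H.map (MulAut.conj g).toMonoidHom)) ≤
      Subgroup.centralizer ((P : Subgroup ↥(H ⊔ H.map (MulAut.conj g).toMonoidHom)) :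
        Set ↥(H ⊔ H.map (MulAut.conj g).toMonoidHom)) := by
    rw [hPeq, hN']
    intro a ha
    rw [Subgroup.mem_centralizer_iff]
    intro b hb
    exact hab b hb a ha
  have hcompl := MonoidHom.ker_transferSylow_isComplement' P hNC
  have hKn : ((MonoidHom.transferSylow P hNC).ker).Normal := MonoidHom.normal_ker _
  have hp : p.Prime := Fact.out
  have hKcop : (Nat.card (MonoidHom.transferSylow P hNC).ker).Coprime p := by
    have h1 := hcompl.index_eq_card
    rw [← h1]
    exact Nat.Coprime.symm ((Nat.Prime.coprime_iff_not_dvd hp).mpr P.not_dvd_index)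
  have hKle : (MonoidHom.transferSylow P hNC).ker ≤
      Cfsg.pPrimeCore p ↥(H ⊔ H.map (MulAut.conj g).toMonoidHom) := le_sSup ⟨hKn, hKcop⟩
  have hOcop := Cfsg.Agent.Lib.Helper7.pPrimeCore_coprime p ↥(H ⊔ H.map (MulAut.conj g).toMonoidHom)
  have hsup : H.subgroupOf (H ⊔ H.map (MulAut.conj g).toMonoidHom) ⊔
      Cfsg.pPrimeCore p ↥(H ⊔ H.map (MulAut.conj g).toMonoidHom) = ⊤ := by
    apply top_le_iff.mp
    have h1 := hcompl.sup_eq_top
    rw [← h1]
    exact sup_le (hKle.trans le_sup_right) (hPeq.le.trans le_sup_left)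
  have hinf : H.subgroupOf (H ⊔ H.map (MulAut.conj g).toMonoidHom) ⊓
      Cfsg.pPrimeCore p ↥(H ⊔ H.map (MulAut.conj g).toMonoidHom) = ⊥ := by
    obtain ⟨k, hk⟩ := hH'p.exists_card_eq
    apply Subgroup.inf_eq_bot_of_coprime
    rw [hk]
    exact Nat.Coprime.pow_left k (Nat.Coprime.symm hOcop)
  have hmapH : (H.subgroupOf (H ⊔ H.map (MulAut.conj g).toMonoidHom)).map
      (H ⊔ H.map (MulAut.conj g).toMonoidHom).subtype = H := by
    rw [Subgroup.subgroupOf_map_subtype, inf_eq_left.mpr hHT]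
  constructor
  · have h1 := congrArg (Subgroup.map (H ⊔ H.map (MulAut.conj g).toMonoidHom).subtype) hsup
    rw [Subgroup.map_sup, hmapH, ← MonoidHom.range_eq_map, Subgroup.range_subtype] at h1
    exact h1
  · have h1 := congrArg (Subgroup.map (H ⊔ H.map (MulAut.conj g).toMonoidHom).subtype) hinf
    rw [Subgroup.map_inf _ _ _ (Subgroup.subtype_injective _), hmapH, Subgroup.map_bot] at h1
    exact h1

end Cfsg.Agent.S3020
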