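import Cfsg.Statements.S3021
import Cfsg.Agent.Lib.Helper2.WellPlaced
-- import your own Cfsg.Agent.* helpers here

set_option autoImplicit false
open Cfsg

namespace Cfsg.Agent.S3021

open Cfsg.Agent.Lib.Helper2

/-- Let G be a finite group, p a prime and H a p-subgroup of G that is extremely closed (for every g, the subgroup generated by H and g H g⁻¹ meets N_G(H) exactly in H). Then every p-subgroup Q of G containing H has N_G(Q) ≤ N_G(H); in particular every Sylow p-subgroup P of G containing H normalizes H, and H is strongly closed in P with respect to G. -/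
theorem result {G : Type*} [Group G] [Finite G] {p : ℕ} [Fact p.Prime] (H : Subgroup G) (hHp : IsPGroup p H) (hcl : Cfsg.IsExtremelyClosed H) : (∀ Q : Subgroup G, IsPGroup p Q → H ≤ Q → Subgroup.normalizer (Q : Set G) ≤ Subgroup.normalizer (H : Set G)) ∧ ∀ P : Sylow p G, H ≤ (P : Subgroup G) → (P : Subgroup G) ≤ Subgroup.normalizer (H : Set G) ∧ Cfsg.IsStronglyClosed H (P : Subgroup G) := by
  have stepA : ∀ g : G, H.map (MulAut.conj g).toMonoidHom ≤ Subgroup.normalizer (H : Set G) →
      g ∈ Subgroup.normalizer (H : Set G) := by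
    intro g hg
    have h1 : H ⊔ H.map (MulAut.conj g).toMonoidHom ≤ Subgroup.normalizer (H : Set G) :=
      sup_le Subgroup.le_normalizer hg
    have h2 := hcl g
    rw [inf_eq_left.mpr h1] at h2
    have h3 : H.map (MulAut.conj g).toMonoidHom ≤ H := by
      calc H.map (MulAut.conj g).toMonoidHom ≤ H ⊔ H.map (MulAut.conj g).toMonoidHom := le_sup_right
        _ = H := h2
    rw [mem_normalizer_iff_map_conj']
    exact Subgroup.eq_of_le_of_card_ge h3
      (by rw [Subgroup.card_map_of_injective (MulAut.conj g).injective])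
  have stepB : ∀ Q : Subgroup G, IsPGroup p Q → H ≤ Q → Q ≤ Subgroup.normalizer (H : Set G) := by
    intro Q hQ hHQ
    by_contra hcon
    have hne : Q ⊓ Subgroup.normalizer (H : Set G) ≠ Q := by
      intro h
      exact hcon (inf_eq_left.mp h)
    have hlt := card_lt_card_inf_normalizer hQ (inf_le_left : Q ⊓ Subgroup.normalizer (H : Set G) ≤ Q) hne
    have hex : ∃ x, x ∈ Q ⊓ Subgroup.normalizer ((Q ⊓ Subgroup.normalizer (H : Set G) : Subgroup G) : Set G) ∧
        x ∉ Q ⊓ Subgroup.normalizer (H : Set G) := by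
      by_contra hno
      push Not at hno
      have := Subgroup.card_le_of_le (fun x hx => hno x hx :
        Q ⊓ Subgroup.normalizer ((Q ⊓ Subgroup.normalizer (H : Set G) : Subgroup G) : Set G) ≤
          Q ⊓ Subgroup.normalizer (H : Set G))
      omega
    obtain ⟨x, hx, hxK⟩ := hex
    have hxQ : x ∈ Q := (Subgroup.mem_inf.mp hx).1
    have hxN : x ∈ Subgroup.normalizer ((Q ⊓ Subgroup.normalizer (H : Set G) : Subgroup G) : Set G) :=
      (Subgroup.mem_inf.mp hx).2
    apply hxK
    refine Subgroup.mem_inf.mpr ⟨hxQ, stepA x ?_⟩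
    have h1 : H.map (MulAut.conj x).toMonoidHom ≤
        (Q ⊓ Subgroup.normalizer (H : Set G)).map (MulAut.conj x).toMonoidHom :=
      Subgroup.map_mono (le_inf hHQ Subgroup.le_normalizer)
    rw [mem_normalizer_iff_map_conj'.mp hxN] at h1
    exact h1.trans inf_le_right
  refine ⟨?_, ?_⟩
  · intro Q hQ hHQ g hg
    apply stepA
    have h1 : H.map (MulAut.conj g).toMonoidHom ≤ Q.map (MulAut.conj g).toMonoidHom :=
      Subgroup.map_mono hHQ
    rw [mem_normalizer_iff_map_conj'.mp hg] at h1
    exact h1.trans (stepB Q hQ hHQ)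
  · intro P hHP
    have hPN := stepB (P : Subgroup G) P.2 hHP
    refine ⟨hPN, hHP, ?_⟩
    intro x hx g hgP
    have h1 : g * x * g⁻¹ ∈ H.map (MulAut.conj g).toMonoidHom := ⟨x, hx, rfl⟩
    have h2 : g * x * g⁻¹ ∈ (H ⊔ H.map (MulAut.conj g).toMonoidHom) ⊓ Subgroup.normalizer (H : Set G) :=
      Subgroup.mem_inf.mpr ⟨(le_sup_right : _ ≤ H ⊔ _) h1, hPN hgP⟩
    rw [hcl g] at h2
    exact h2

end Cfsg.Agent.S3021
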