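import Cfsg.Statements.S3025
import Cfsg.Agent.S0016

set_option autoImplicit false
open Cfsg

namespace Cfsg.Agent.S3025

/-- Let F be a finite group and H a nontrivial subgroup of F that is contained in every nontrivial subgroup of F which H normalizes. Then F has a nontrivial normal subgroup N contained in every nontrivial normal subgroup of F (a unique minimal normal subgroup), N is simple, and one of the following holds: C_F(N) = 1; or H = N has prime order p, C_F(N) is cyclic of order a power of p, and F/C_F(N) is cyclic of order dividing p − 1; or H = N has order 2, N is central in F, and F is a generalized quaternion group. -/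
theorem result {F : Type*} [Group F] [Finite F] (H : Subgroup F) (hH : H ≠ ⊥)
    (hmin : ∀ R : Subgroup F, R ≠ ⊥ → H ≤ Subgroup.normalizer (R : Set F) → H ≤ R) :
    ∃ N : Subgroup F, N.Normal ∧ N ≠ ⊥ ∧ (∀ M : Subgroup F, M.Normal → M ≠ ⊥ → N ≤ M) ∧ IsSimpleGroup ↥N ∧
      (Subgroup.centralizer (N : Set F) = ⊥ ∨
       (H = N ∧ (Nat.card N).Prime ∧ IsCyclic ↥(Subgroup.centralizer (N : Set F)) ∧
          (∃ k : ℕ, 1 ≤ k ∧ Nat.card ↥(Subgroup.centralizer (N : Set F)) = Nat.card N ^ k) ∧
          (∃ g : F, Subgroup.centralizer (N : Set F) ⊔ Subgroup.zpowers g = ⊤) ∧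
          (Subgroup.centralizer (N : Set F)).index ∣ Nat.card N - 1) ∨
       (H = N ∧ Nat.card N = 2 ∧ Subgroup.centralizer (N : Set F) = ⊤ ∧
          ∃ k : ℕ, 1 ≤ k ∧ Nonempty (F ≃* QuaternionGroup (2 ^ k)))) := by
  classical
  obtain ⟨N, hNdef⟩ : ∃ N : Subgroup F, N = Subgroup.normalClosure (H : Set F) := ⟨_, rfl⟩
  have hNn : N.Normal := by rw [hNdef]; exact Subgroup.normalClosure_normal
  have hHN : H ≤ N := by rw [hNdef]; exact Subgroup.le_normalClosure
  have hN1 : N ≠ ⊥ := by
    intro h
    apply hH
    rw [eq_bot_iff, ← h]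
    exact hHN
  have hHM : ∀ M : Subgroup F, M.Normal → M ≠ ⊥ → H ≤ M := by
    intro M hM hM1
    apply hmin M hM1
    rw [Subgroup.normalizer_eq_top_iff.mpr hM]
    exact le_top
  have hNmin : ∀ M : Subgroup F, M.Normal → M ≠ ⊥ → N ≤ M := by
    intro M hM hM1
    rw [hNdef]
    exact Subgroup.normalClosure_le_normal (SetLike.coe_subset_coe.mpr (hHM M hM hM1))
  have hNsimple : IsSimpleGroup ↥N := by
    have hnt : Nontrivial ↥N := (Subgroup.nontrivial_iff_ne_bot N).mpr hN1
    refine { toNontrivial := hnt, eq_bot_or_eq_top_of_normal := ?_ }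
    intro K hK
    by_cases hK1 : K = ⊥
    · exact Or.inl hK1
    · right
      obtain ⟨k, hk, hk1⟩ : ∃ k ∈ K, k ≠ 1 := by
        by_contra hcon
        apply hK1
        rw [Subgroup.eq_bot_iff_forall]
        intro x hx
        by_contra hx1
        exact hcon ⟨x, hx, hx1⟩
      have hconjK : ∀ n ∈ N, ∀ y ∈ K.map N.subtype, n * y * n⁻¹ ∈ K.map N.subtype := by
        rintro n hn _ ⟨y, hy, rfl⟩
        exact Subgroup.mem_map.mpr ⟨⟨n, hn⟩ * y * ⟨n, hn⟩⁻¹, hK.conj_mem y hy _, rfl⟩
      have hall : ∀ c : F, ∀ h ∈ H, c * h * c⁻¹ ∈ K.map N.subtype := by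
        intro c
        have hR1 : (K.map N.subtype).comap (MulAut.conj c).toMonoidHom ≠ ⊥ := by
          intro hbot
          have h1 : c⁻¹ * (k : F) * c ∈ (K.map N.subtype).comap (MulAut.conj c).toMonoidHom := by
            rw [Subgroup.mem_comap]
            show c * (c⁻¹ * (k : F) * c) * c⁻¹ ∈ K.map N.subtype
            have e : c * (c⁻¹ * (k : F) * c) * c⁻¹ = (k : F) := by group
            rw [e]
            exact Subgroup.mem_map.mpr ⟨k, hk, rfl⟩
          rw [hbot, Subgroup.mem_bot] at h1
          apply hk1
          have h2 : (k : F) = 1 := by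
            have e : (k : F) = c * (c⁻¹ * (k : F) * c) * c⁻¹ := by group
            rw [e, h1]; group
          exact Subtype.ext h2
        have hRn : H ≤ Subgroup.normalizer
            (((K.map N.subtype).comap (MulAut.conj c).toMonoidHom : Subgroup F) : Set F) := by
          rw [Subgroup.le_normalizer_iff]
          intro h hh x hx
          have hx' : c * x * c⁻¹ ∈ K.map N.subtype := hx
          show c * (h * x * h⁻¹) * c⁻¹ ∈ K.map N.subtype
          have e : c * (h * x * h⁻¹) * c⁻¹ = (c * h * c⁻¹) * (c * x * c⁻¹) * (c * h * c⁻¹)⁻¹ := by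
            group
          rw [e]
          exact hconjK _ (hNn.conj_mem h (hHN hh) c) _ hx'
        intro h hh
        have h3 := hmin _ hR1 hRn hh
        exact h3
      have hNK' : Subgroup.normalClosure (H : Set F) ≤ K.map N.subtype := by
        rw [Subgroup.normalClosure, Subgroup.closure_le]
        intro a ha
        rw [Group.mem_conjugatesOfSet_iff] at ha
        obtain ⟨b, hb, hba⟩ := ha
        obtain ⟨c, hc⟩ := isConj_iff.mp hba
        rw [← hc]
        exact hall c b hb
      have hNK : N ≤ K.map N.subtype := hNdef.le.trans hNK'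
      rw [eq_top_iff]
      intro x _
      obtain ⟨y, hy, hyx⟩ := Subgroup.mem_map.mp (hNK x.2)
      have h2 : y = x := Subtype.ext hyx
      rw [← h2]; exact hy
  refine ⟨N, hNn, hN1, hNmin, hNsimple, ?_⟩
  by_cases hC : Subgroup.centralizer (N : Set F) = ⊥
  · exact Or.inl hC
  · right
    have hCn : (Subgroup.centralizer (N : Set F)).Normal := inferInstance
    have hNC : N ≤ Subgroup.centralizer (N : Set F) := hNmin _ hCn hC
    have hab : ∀ a b : ↥N, a * b = b * a := by
      intro a b
      apply Subtype.ext
      exact Subgroup.mem_centralizer_iff.mp (hNC b.2) a.1 a.2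
    have hallnormal : ∀ K : Subgroup ↥N, K.Normal := by
      intro K
      constructor
      intro n hn g
      have e : g * n * g⁻¹ = n := by rw [hab g n, mul_inv_cancel_right]
      rw [e]; exact hn
    have hdich : ∀ K : Subgroup ↥N, K = ⊥ ∨ K = ⊤ :=
      fun K => hNsimple.eq_bot_or_eq_top_of_normal K (hallnormal K)
    have hHeq : H = N := by
      rcases hdich (H.subgroupOf N) with h0 | h0
      · exfalso
        apply hH
        rw [Subgroup.subgroupOf_eq_bot] at h0
        exact (inf_eq_left.mpr hHN).symm.trans (disjoint_iff.mp h0)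
      · exact le_antisymm hHN (Subgroup.subgroupOf_eq_top.mp h0)
    have hp : (Nat.card ↥N).Prime := by
      have hne1 : Nat.card ↥N ≠ 1 := by
        intro h1
        exact hN1 (Subgroup.card_eq_one.mp h1)
      obtain ⟨q, hq, hqd⟩ := Nat.exists_prime_and_dvd hne1
      haveI : Fact q.Prime := ⟨hq⟩
      obtain ⟨x, hx⟩ := exists_prime_orderOf_dvd_card' (G := ↥N) q hqd
      rcases hdich (Subgroup.zpowers x) with h0 | h0
      · exfalso
        have h1 : x ∈ Subgroup.zpowers x := Subgroup.mem_zpowers x
        rw [h0, Subgroup.mem_bot] at h1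
        rw [h1, orderOf_one] at hx
        exact hq.one_lt.ne hx
      · have h1 : Nat.card (Subgroup.zpowers x) = q := by rw [Nat.card_zpowers, hx]
        rw [h0, Subgroup.card_top] at h1
        rw [h1]; exact hq
    haveI hpF : Fact (Nat.card ↥N).Prime := ⟨hp⟩
    have hKF : ∀ R : Subgroup F, R ≤ Subgroup.centralizer (N : Set F) → R ≠ ⊥ → N ≤ R := by
      intro R hRC hR1
      rw [← hHeq]
      apply hmin R hR1
      rw [hHeq, Subgroup.le_normalizer_iff]
      intro n hn r hr
      have h1 : n * r = r * n := Subgroup.mem_centralizer_iff.mp (hRC hr) n hn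
      rw [h1, mul_inv_cancel_right]
      exact hr
    have hCcard : ∃ k : ℕ, 1 ≤ k ∧
        Nat.card ↥(Subgroup.centralizer (N : Set F)) = Nat.card ↥N ^ k := by
      have hpos : Nat.card ↥(Subgroup.centralizer (N : Set F)) ≠ 0 := Nat.card_pos.ne'
      have huniqp : ∀ {d : ℕ}, d.Prime →
          d ∣ Nat.card ↥(Subgroup.centralizer (N : Set F)) → d = Nat.card ↥N := by
        intro q hq hqd
        haveI : Fact q.Prime := ⟨hq⟩
        obtain ⟨c, hc⟩ := exists_prime_orderOf_dvd_card'
          (G := ↥(Subgroup.centralizer (N : Set F))) q hqd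
        have hR1 : (Subgroup.zpowers c).map (Subgroup.centralizer (N : Set F)).subtype ≠ ⊥ := by
          intro hbot
          have h1 : (c : F) ∈ (Subgroup.zpowers c).map
              (Subgroup.centralizer (N : Set F)).subtype :=
            Subgroup.mem_map.mpr ⟨c, Subgroup.mem_zpowers c, rfl⟩
          rw [hbot, Subgroup.mem_bot] at h1
          have h2 : c = 1 := Subtype.ext h1
          rw [h2, orderOf_one] at hc
          exact hq.one_lt.ne hc
        have hNR := hKF _ (Subgroup.map_subtype_le _) hR1
        have hcardR : Nat.card ↥((Subgroup.zpowers c).map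
            (Subgroup.centralizer (N : Set F)).subtype) = q := by
          rw [Subgroup.card_map_of_injective (Subgroup.subtype_injective _), Nat.card_zpowers, hc]
        have hdvd := Subgroup.card_dvd_of_le hNR
        rw [hcardR] at hdvd
        exact ((Nat.prime_dvd_prime_iff_eq hp hq).mp hdvd).symm
      have h1 := Nat.eq_prime_pow_of_unique_prime_dvd hpos huniqp
      refine ⟨_, ?_, h1⟩
      by_contra hk
      push Not at hk
      have hk0 : (Nat.card ↥(Subgroup.centralizer (N : Set F))).primeFactorsList.length = 0 := by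
        omega
      rw [hk0, pow_zero] at h1
      exact hC (Subgroup.card_eq_one.mp h1)
    obtain ⟨k, hk1, hCk⟩ := hCcard
    have hCp : IsPGroup (Nat.card ↥N) ↥(Subgroup.centralizer (N : Set F)) := IsPGroup.of_card hCk
    have huniq : ∀ A B : Subgroup ↥(Subgroup.centralizer (N : Set F)),
        Nat.card A = Nat.card ↥N → Nat.card B = Nat.card ↥N → A = B := by
      have haux : ∀ A : Subgroup ↥(Subgroup.centralizer (N : Set F)), Nat.card A = Nat.card ↥N →
          A.map (Subgroup.centralizer (N : Set F)).subtype = N := by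
        intro A hA
        have hA1 : A.map (Subgroup.centralizer (N : Set F)).subtype ≠ ⊥ := by
          intro hbot
          have h1 : Nat.card ↥(A.map (Subgroup.centralizer (N : Set F)).subtype)
              = Nat.card ↥N := by
            rw [Subgroup.card_map_of_injective (Subgroup.subtype_injective _), hA]
          rw [hbot, Subgroup.card_bot] at h1
          exact hp.one_lt.ne h1
        have hle := hKF _ (Subgroup.map_subtype_le _) hA1
        have hcard : Nat.card ↥(A.map (Subgroup.centralizer (N : Set F)).subtype)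
            ≤ Nat.card ↥N := by
          rw [Subgroup.card_map_of_injective (Subgroup.subtype_injective _), hA]
        exact (Subgroup.eq_of_le_of_card_ge hle hcard).symm
      intro A B hA hB
      apply Subgroup.map_injective (Subgroup.subtype_injective _)
      rw [haux A hA, haux B hB]
    have hS16 := Cfsg.Agent.S0016.result (Nat.card ↥N) hCp huniq
    have hNcyc : IsCyclic ↥N := isCyclic_of_prime_card rfl
    have hker : (MulAut.conjNormal (H := N)).ker = Subgroup.centralizer (N : Set F) := by
      ext g
      rw [MonoidHom.mem_ker, Subgroup.mem_centralizer_iff]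
      constructor
      · intro hg n hn
        have h1 : ((MulAut.conjNormal g : MulAut ↥N) ⟨n, hn⟩ : F) = g * n * g⁻¹ :=
          MulAut.conjNormal_apply g ⟨n, hn⟩
        rw [hg] at h1
        have h2 : n = g * n * g⁻¹ := h1
        exact eq_mul_inv_iff_mul_eq.mp h2
      · intro hg
        ext n
        rw [MulAut.conjNormal_apply]
        show g * (n : F) * g⁻¹ = (n : F)
        rw [← hg n.1 n.2, mul_inv_cancel_right]
    have hindex : (Subgroup.centralizer (N : Set F)).index ∣ Nat.card ↥N - 1 := by
      rw [← hker, Subgroup.index_ker]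
      have h1 : Nat.card (MulAut ↥N) = Nat.card ↥N - 1 := by
        rw [IsCyclic.card_mulAut, Nat.totient_prime hp]
      rw [← h1]
      exact Subgroup.card_subgroup_dvd_card _
    have hcase2 : IsCyclic ↥(Subgroup.centralizer (N : Set F)) →
        (H = N ∧ (Nat.card N).Prime ∧ IsCyclic ↥(Subgroup.centralizer (N : Set F)) ∧
          (∃ k : ℕ, 1 ≤ k ∧ Nat.card ↥(Subgroup.centralizer (N : Set F)) = Nat.card N ^ k) ∧
          (∃ g : F, Subgroup.centralizer (N : Set F) ⊔ Subgroup.zpowers g = ⊤) ∧
          (Subgroup.centralizer (N : Set F)).index ∣ Nat.card N - 1) := by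
      intro hcyc
      refine ⟨hHeq, hp, hcyc, ⟨k, hk1, hCk⟩, ?_, hindex⟩
      haveI : IsCyclic (MulAut ↥N) :=
        isCyclic_of_surjective (IsCyclic.mulAutMulEquiv ↥N).symm
          (IsCyclic.mulAutMulEquiv ↥N).symm.surjective
      obtain ⟨⟨γ, hγ⟩, hgen⟩ := IsCyclic.exists_generator
        (α := (MulAut.conjNormal (H := N)).range)
      obtain ⟨g₀, hg₀⟩ := MonoidHom.mem_range.mp hγ
      refine ⟨g₀, ?_⟩
      rw [eq_top_iff]
      intro f _
      have h1 := hgen ⟨MulAut.conjNormal f, MonoidHom.mem_range.mpr ⟨f, rfl⟩⟩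
      obtain ⟨i, hi⟩ := Subgroup.mem_zpowers_iff.mp h1
      have hi' : γ ^ i = MulAut.conjNormal f := by
        have h2 := congrArg Subtype.val hi
        simpa using h2
      have h2 : f * g₀ ^ (-i) ∈ Subgroup.centralizer (N : Set F) := by
        rw [← hker, MonoidHom.mem_ker, map_mul, map_zpow, hg₀, ← hi', ← zpow_add,
          add_neg_cancel, zpow_zero]
      have e : f = (f * g₀ ^ (-i)) * g₀ ^ i := by
        rw [mul_assoc, ← zpow_add, neg_add_cancel, zpow_zero, mul_one]
      rw [e]
      exact Subgroup.mul_mem _ (Subgroup.mem_sup_left h2)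
        (Subgroup.mem_sup_right (Subgroup.zpow_mem _ (Subgroup.mem_zpowers g₀) i))
    rcases hS16 with hcyc | ⟨hp2, n, ⟨e⟩⟩
    · exact Or.inl (hcase2 hcyc)
    · rcases Nat.eq_zero_or_pos n with hn0 | hnpos
      · left
        apply hcase2
        subst hn0
        have e' : ↥(Subgroup.centralizer (N : Set F)) ≃* QuaternionGroup 1 := e
        haveI := QuaternionGroup.quaternionGroup_one_isCyclic
        exact isCyclic_of_surjective e'.symm e'.symm.surjective
      · right
        have hidx1 : (Subgroup.centralizer (N : Set F)).index ∣ 1 := by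
          rw [hp2] at hindex
          exact hindex
        have hCtop : Subgroup.centralizer (N : Set F) = ⊤ :=
          Subgroup.index_eq_one.mp (Nat.dvd_one.mp hidx1)
        refine ⟨hHeq, hp2, hCtop, n, hnpos, ⟨?_⟩⟩
        exact ((MulEquiv.subgroupCongr hCtop).trans Subgroup.topEquiv).symm.trans e

end Cfsg.Agent.S3025
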