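import Cfsg.Statements.S3027
import Cfsg.Agent.Lib.Helper9.ConjLemmas
import Cfsg.Agent.Lib.Helper9.Carter

set_option autoImplicit false
open Cfsg

namespace Cfsg.Agent.S3027


open Cfsg.Agent.Lib.Helper9
open scoped Pointwise
open scoped commutatorElement

universe u

theorem comm_sup {G : Type u} [Group G] (D : Subgroup G) [D.Normal]
    (hperf : ⁅(⊤ : Subgroup G), (⊤ : Subgroup G)⁆ ⊔ D = ⊤) (X₁ X₂ : Subgroup G)
    (h1 : X₁ ⊔ D = ⊤) (h2 : X₂ ⊔ D = ⊤) : ⁅X₁, X₂⁆ ⊔ D = ⊤ := by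
  have hmap : ∀ X : Subgroup G, X ⊔ D = ⊤ → X.map (QuotientGroup.mk' D) = ⊤ := by
    intro X hX
    have h := congrArg (Subgroup.map (QuotientGroup.mk' D)) hX
    rw [Subgroup.map_sup, Subgroup.map_top_of_surjective _ (QuotientGroup.mk'_surjective D)] at h
    have hD : D.map (QuotientGroup.mk' D) = ⊥ := by
      rw [Subgroup.map_eq_bot_iff, QuotientGroup.ker_mk']
    rw [hD, sup_bot_eq] at h
    exact h
  have h3 : (⁅X₁, X₂⁆).map (QuotientGroup.mk' D) = ⊤ := by
    rw [Subgroup.map_commutator, hmap X₁ h1, hmap X₂ h2]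
    have h4 := hmap _ hperf
    rw [Subgroup.map_commutator,
      Subgroup.map_top_of_surjective _ (QuotientGroup.mk'_surjective D)] at h4
    exact h4
  have h5 := congrArg (Subgroup.comap (QuotientGroup.mk' D)) h3
  rw [Subgroup.comap_map_eq, QuotientGroup.ker_mk', Subgroup.comap_top] at h5
  exact h5

theorem inf_sup {G : Type u} [Group G] (D : Subgroup G) [D.Normal]
    (hperf : ⁅(⊤ : Subgroup G), (⊤ : Subgroup G)⁆ ⊔ D = ⊤) (X₁ X₂ : Subgroup G)
    (h1 : X₁ ⊔ D = ⊤) (h2 : X₂ ⊔ D = ⊤) (n1 : X₁ ≤ Subgroup.normalizer (X₂ : Set G))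
    (n2 : X₂ ≤ Subgroup.normalizer (X₁ : Set G)) : (X₁ ⊓ X₂) ⊔ D = ⊤ := by
  have h := comm_sup D hperf X₁ X₂ h1 h2
  have hle : ⁅X₁, X₂⁆ ≤ X₁ ⊓ X₂ := by
    rw [Subgroup.commutator_le]
    intro g₁ hg₁ g₂ hg₂
    refine ⟨?_, ?_⟩
    · have h3 : g₂ * g₁⁻¹ * g₂⁻¹ ∈ X₁ :=
        (Subgroup.mem_normalizer_iff.mp (n2 hg₂) g₁⁻¹).mp (X₁.inv_mem hg₁)
      have h4 : ⁅g₁, g₂⁆ = g₁ * (g₂ * g₁⁻¹ * g₂⁻¹) := by rw [commutatorElement_def]; group
      rw [h4]; exact X₁.mul_mem hg₁ h3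
    · have h3 : g₁ * g₂ * g₁⁻¹ ∈ X₂ := (Subgroup.mem_normalizer_iff.mp (n1 hg₁) g₂).mp hg₂
      have h4 : ⁅g₁, g₂⁆ = (g₁ * g₂ * g₁⁻¹) * g₂⁻¹ := by rw [commutatorElement_def]
      rw [h4]; exact X₂.mul_mem h3 (X₂.inv_mem hg₂)
  rw [eq_top_iff, ← h]
  exact sup_le_sup_right hle D

theorem main {G : Type u} [Group G] [Finite G] (D : Subgroup G) [D.Normal]
    (hperf : ⁅(⊤ : Subgroup G), (⊤ : Subgroup G)⁆ ⊔ D = ⊤) :
    ∃ B : Subgroup G, B.Normal ∧ B ⊔ D = ⊤ ∧
      ∀ B' : Subgroup G, B'.IsSubnormal → B' ⊔ D = ⊤ → B ≤ B' := by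
  obtain ⟨B, -, hBmin⟩ := Finite.exists_le_minimal
    (p := fun K : Subgroup G => K.Normal ∧ K ⊔ D = ⊤) (a := ⊤) ⟨inferInstance, top_sup_eq _⟩
  have hBn : B.Normal := hBmin.prop.1
  have hBD : B ⊔ D = ⊤ := hBmin.prop.2
  have hleast : ∀ Y : Subgroup G, Y.Normal → Y ⊔ D = ⊤ → B ≤ Y := by
    intro Y hYn hYD
    have h1 : (B ⊓ Y).Normal := inferInstance
    have h2 : (B ⊓ Y) ⊔ D = ⊤ := inf_sup D hperf B Y hBD hYD
      (by rw [Subgroup.normalizer_eq_top]; exact le_top)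
      (by rw [Subgroup.normalizer_eq_top]; exact le_top)
    exact (hBmin.le_of_le ⟨h1, h2⟩ inf_le_left).trans inf_le_right
  refine ⟨B, hBn, hBD, ?_⟩
  intro B' hB'
  induction hB' with
  | top => intro _; exact le_top
  | step H K h_le hSubn hN ih =>
    intro hHD
    have hKD : K ⊔ D = ⊤ := eq_top_iff.mpr (hHD ▸ sup_le_sup_right h_le D)
    have hBK : B ≤ K := ih hKD
    have hKH : K ≤ Subgroup.normalizer (H : Set G) :=
      (Subgroup.normal_subgroupOf_iff_le_normalizer h_le).mp hN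
    have hBH : B ≤ Subgroup.normalizer (H : Set G) := hBK.trans hKH
    obtain ⟨Y, hYB, hYmin⟩ := Finite.exists_le_minimal
      (p := fun Y : Subgroup G => Y ≤ B ∧ B ≤ Subgroup.normalizer (Y : Set G) ∧ Y ⊔ D = ⊤)
      (a := B) ⟨le_rfl, Subgroup.le_normalizer, hBD⟩
    obtain ⟨hY1, hY2, hY3⟩ := hYmin.prop
    have hYleast : ∀ X : Subgroup G, X ≤ B → B ≤ Subgroup.normalizer (X : Set G) →
        X ⊔ D = ⊤ → Y ≤ X := by
      intro X hX1 hX2 hX3
      have h1 : Y ⊓ X ≤ B := inf_le_left.trans hY1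
      have h2 : B ≤ Subgroup.normalizer ((Y ⊓ X : Subgroup G) : Set G) := by
        intro b hb
        have hbY := hY2 hb
        have hbX := hX2 hb
        rw [Subgroup.mem_normalizer_iff] at hbY hbX ⊢
        intro x
        rw [Subgroup.mem_inf, Subgroup.mem_inf, hbY x, hbX x]
      have h3 : (Y ⊓ X) ⊔ D = ⊤ :=
        inf_sup D hperf Y X hY3 hX3 (hY1.trans hX2) (hX1.trans hY2)
      exact (hYmin.le_of_le ⟨h1, h2, h3⟩ inf_le_left).trans inf_le_right
    have hYn : Y.Normal := by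
      constructor
      intro y hy g
      have h1 : Y ≤ MulAut.conj g⁻¹ • Y := by
        apply hYleast
        · intro x hx
          rw [mem_conj_smul_iff] at hx
          have := hBn.conj_mem _ (hY1 hx) g⁻¹
          simpa [mul_assoc] using this
        · rw [normalizer_conj_smul]
          intro b hb
          rw [mem_conj_smul_iff]
          exact hY2 (by simpa using hBn.conj_mem b hb g)
        · rw [eq_top_iff]
          intro x _
          have hx : g * x * g⁻¹ ∈ Y ⊔ D := by rw [hY3]; trivial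
          have h2 : x ∈ MulAut.conj g⁻¹ • (Y ⊔ D) := by
            rw [mem_conj_smul_iff]; simpa using hx
          rw [Subgroup.smul_sup, Subgroup.Normal.conj_smul_eq_self g⁻¹ D] at h2
          exact h2
      have h2 := h1 hy
      rw [mem_conj_smul_iff] at h2
      simpa using h2
    have hBY : B ≤ Y := hleast Y hYn hY3
    have hX : Y ≤ H ⊓ B := by
      apply hYleast
      · exact inf_le_right
      · intro b hb
        have hbH := hBH hb
        rw [Subgroup.mem_normalizer_iff] at hbH ⊢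
        intro x
        rw [Subgroup.mem_inf, Subgroup.mem_inf, hbH x]
        constructor
        · rintro ⟨h1, h2⟩; exact ⟨h1, hBn.conj_mem x h2 b⟩
        · rintro ⟨h1, h2⟩
          refine ⟨h1, ?_⟩
          have := hBn.conj_mem _ h2 b⁻¹
          simpa [mul_assoc] using this
      · exact inf_sup D hperf H B hHD hBD (by rw [Subgroup.normalizer_eq_top]; exact le_top) hBH
    exact hBY.trans (hX.trans inf_le_left)


/-- Let G be a finite group and D a normal subgroup of G such that G/D is perfect (that is, G = G′D). Then among the subnormal subgroups B of G with BD = G there is a least one, and it is normal in G. -/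
theorem result {G : Type*} [Group G] [Finite G] (D : Subgroup G) [D.Normal] (hperf : ⁅(⊤ : Subgroup G), (⊤ : Subgroup G)⁆ ⊔ D = ⊤) :
    ∃ B : Subgroup G, B.Normal ∧ B ⊔ D = ⊤ ∧ ∀ B' : Subgroup G, B'.IsSubnormal → B' ⊔ D = ⊤ → B ≤ B' := by
  exact main D hperf

end Cfsg.Agent.S3027
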