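import Mathlib
import Cfsg.Statements.S3053
import Cfsg.Agent.S0099
import Cfsg.Agent.S3763

set_option autoImplicit false

namespace Cfsg.Agent.S3053

open scoped commutatorElement Pointwise
open Cfsg.Agent.S0099

universe u

section abstract

variable {E : Type u} [Group E] [Finite E] {p : ℕ} [Fact p.Prime]

theorem central_pow (hZ : Nat.card (Subgroup.center E) = p) (z : E)
    (hz : z ∈ Subgroup.center E) : z ^ p = 1 := by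
  have h1 : (⟨z, hz⟩ : ↥(Subgroup.center E)) ^ Nat.card ↥(Subgroup.center E) = 1 :=
    pow_card_eq_one'
  rw [hZ] at h1
  exact congrArg Subtype.val h1

theorem comm_zpow (hcl : ∀ a b : E, ⁅a, b⁆ ∈ Subgroup.center E) (x y : E) (t : ℤ) :
    ⁅x ^ t, y⁆ = ⁅x, y⁆ ^ t :=
  congrArg Subtype.val (map_zpow (kap hcl y) x t)

theorem comm_pow (hcl : ∀ a b : E, ⁅a, b⁆ ∈ Subgroup.center E) (x y : E) (n : ℕ) :
    ⁅x ^ n, y⁆ = ⁅x, y⁆ ^ n :=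
  congrArg Subtype.val (map_pow (kap hcl y) x n)

theorem pow_central (hcl : ∀ a b : E, ⁅a, b⁆ ∈ Subgroup.center E)
    (hZ : Nat.card (Subgroup.center E) = p) (x : E) : x ^ p ∈ Subgroup.center E := by
  rw [Subgroup.mem_center_iff]
  intro y
  have h1 : ⁅x ^ p, y⁆ = 1 := by
    rw [comm_pow hcl x y p]
    exact central_pow hZ _ (hcl x y)
  exact ((commutatorElement_eq_one_iff_commute.1 h1).eq).symm

theorem mul_pow_class2 (hcl : ∀ a b : E, ⁅a, b⁆ ∈ Subgroup.center E) (x y : E) (n : ℕ) :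
    (x * y) ^ n = ⁅y, x⁆ ^ (∑ i ∈ Finset.range n, i) * x ^ n * y ^ n := by
  induction n with
  | zero => simp
  | succ n ih =>
    have hcT : ∀ (k : ℕ) (g : E), g * ⁅y, x⁆ ^ k = ⁅y, x⁆ ^ k * g := fun k g =>
      (Subgroup.mem_center_iff.1 (Subgroup.pow_mem _ (hcl y x) k)) g
    have h1 : ⁅y ^ n, x⁆ = ⁅y, x⁆ ^ n := comm_pow hcl y x n
    have h2 : y ^ n * x = ⁅y, x⁆ ^ n * x * y ^ n := by
      rw [← h1]; simp only [commutatorElement_def]; group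
    have h3 : x ^ n * ⁅y, x⁆ ^ n = ⁅y, x⁆ ^ n * x ^ n := hcT n (x ^ n)
    rw [pow_succ, ih, Finset.sum_range_succ]
    calc ⁅y, x⁆ ^ (∑ i ∈ Finset.range n, i) * x ^ n * y ^ n * (x * y)
        = ⁅y, x⁆ ^ (∑ i ∈ Finset.range n, i) * x ^ n * (y ^ n * x) * y := by
          simp only [mul_assoc]
      _ = ⁅y, x⁆ ^ (∑ i ∈ Finset.range n, i) * x ^ n * (⁅y, x⁆ ^ n * x * y ^ n) * y := by
          rw [h2]
      _ = ⁅y, x⁆ ^ (∑ i ∈ Finset.range n, i) * (x ^ n * ⁅y, x⁆ ^ n) * x * y ^ n * y := by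
          simp only [mul_assoc]
      _ = ⁅y, x⁆ ^ (∑ i ∈ Finset.range n, i) * (⁅y, x⁆ ^ n * x ^ n) * x * y ^ n * y := by
          rw [h3]
      _ = ⁅y, x⁆ ^ (∑ i ∈ Finset.range n, i + n) * x ^ (n + 1) * y ^ (n + 1) := by
          rw [pow_add, pow_succ, pow_succ]; simp only [mul_assoc]

theorem sum_range_dvd (hp2 : p ≠ 2) : p ∣ ∑ i ∈ Finset.range p, i := by
  have hp : p.Prime := Fact.out
  have h1 : (∑ i ∈ Finset.range p, i) * 2 = p * (p - 1) := Finset.sum_range_id_mul_two p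
  have h2 : p ∣ (∑ i ∈ Finset.range p, i) * 2 := by rw [h1]; exact dvd_mul_right _ _
  exact Nat.Coprime.dvd_of_dvd_mul_right ((Nat.coprime_primes hp Nat.prime_two).2 hp2) h2

theorem mul_pow_p (hcl : ∀ a b : E, ⁅a, b⁆ ∈ Subgroup.center E)
    (hZ : Nat.card (Subgroup.center E) = p) (hp2 : p ≠ 2) (x y : E) :
    (x * y) ^ p = x ^ p * y ^ p := by
  rw [mul_pow_class2 hcl x y p]
  obtain ⟨k, hk⟩ := sum_range_dvd (p := p) hp2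
  rw [hk, pow_mul, central_pow hZ _ (hcl y x), one_pow, one_mul]

noncomputable def powHom (hcl : ∀ a b : E, ⁅a, b⁆ ∈ Subgroup.center E)
    (hZ : Nat.card (Subgroup.center E) = p) (hp2 : p ≠ 2) : E →* E :=
  MonoidHom.mk' (fun x => x ^ p) (fun a b => mul_pow_p hcl hZ hp2 a b)

theorem mem_ker_powHom (hcl : ∀ a b : E, ⁅a, b⁆ ∈ Subgroup.center E)
    (hZ : Nat.card (Subgroup.center E) = p) (hp2 : p ≠ 2) (x : E) :
    x ∈ (powHom hcl hZ hp2).ker ↔ x ^ p = 1 :=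
  MonoidHom.mem_ker

theorem card_ker_powHom (hcl : ∀ a b : E, ⁅a, b⁆ ∈ Subgroup.center E)
    (hZ : Nat.card (Subgroup.center E) = p) (hp2 : p ≠ 2) (hcard : Nat.card E = p ^ 3)
    (hex : ∃ x : E, x ^ p ≠ 1) : Nat.card (powHom hcl hZ hp2).ker = p ^ 2 := by
  have hp : p.Prime := Fact.out
  have hle : (powHom hcl hZ hp2).range ≤ Subgroup.center E := by
    rintro _ ⟨x, rfl⟩
    exact pow_central hcl hZ x
  have hdvd : Nat.card (powHom hcl hZ hp2).range ∣ p :=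
    (Subgroup.card_dvd_of_le hle).trans (dvd_of_eq hZ)
  have hne : Nat.card (powHom hcl hZ hp2).range ≠ 1 := by
    intro h1
    obtain ⟨x, hx⟩ := hex
    have h2 : (powHom hcl hZ hp2).range = ⊥ := Subgroup.eq_bot_of_card_eq _ h1
    have h3 : x ^ p ∈ (powHom hcl hZ hp2).range := ⟨x, rfl⟩
    rw [h2, Subgroup.mem_bot] at h3
    exact hx h3
  have hr : Nat.card (powHom hcl hZ hp2).range = p := by
    rcases (Nat.dvd_prime hp).1 hdvd with h | h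
    · exact absurd h hne
    · exact h
  have h4 := Subgroup.card_mul_index (powHom hcl hZ hp2).ker
  rw [Subgroup.index_ker, hr, hcard] at h4
  have h5 : p ^ 3 = p ^ 2 * p := by ring
  rw [h5] at h4
  exact Nat.eq_of_mul_eq_mul_right hp.pos h4

theorem ker_comm (hcl : ∀ a b : E, ⁅a, b⁆ ∈ Subgroup.center E)
    (hZ : Nat.card (Subgroup.center E) = p) (hp2 : p ≠ 2) (hcard : Nat.card E = p ^ 3)
    (hex : ∃ x : E, x ^ p ≠ 1) (a b : E) (ha : a ^ p = 1) (hb : b ^ p = 1) :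
    a * b = b * a := by
  have h := (IsPGroup.isMulCommutative_of_card_eq_prime_sq (p := p)
    (card_ker_powHom hcl hZ hp2 hcard hex)).is_comm.comm
    ⟨a, (mem_ker_powHom hcl hZ hp2 a).2 ha⟩ ⟨b, (mem_ker_powHom hcl hZ hp2 b).2 hb⟩
  exact congrArg Subtype.val h

theorem comm_ne_one (hcl : ∀ a b : E, ⁅a, b⁆ ∈ Subgroup.center E)
    (hZ : Nat.card (Subgroup.center E) = p) (hp2 : p ≠ 2) (hcard : Nat.card E = p ^ 3)
    (hex : ∃ x : E, x ^ p ≠ 1) (x w : E) (hx : x ^ p ≠ 1) (hw : w ^ p = 1)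
    (hwZ : w ∉ Subgroup.center E) : ⁅x, w⁆ ≠ 1 := by
  have hp : p.Prime := Fact.out
  intro hc
  have hle : (powHom hcl hZ hp2).ker ≤ (kap hcl w).ker := by
    intro a ha
    exact (Cfsg.Agent.S3763.mem_ker_kap hcl w a).2
      (ker_comm hcl hZ hp2 hcard hex a w ((mem_ker_powHom hcl hZ hp2 a).1 ha) hw)
  have hne : (kap hcl w).ker ≠ ⊤ := by
    intro htop
    apply hwZ
    rw [Subgroup.mem_center_iff]
    intro g
    have hg : g ∈ (kap hcl w).ker := by rw [htop]; exact Subgroup.mem_top g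
    exact (Cfsg.Agent.S3763.mem_ker_kap hcl w g).1 hg
  have hdvd : (kap hcl w).ker.index ∣ p := by
    rw [Subgroup.index_ker]
    exact (Subgroup.card_subgroup_dvd_card _).trans (dvd_of_eq hZ)
  have hidx : (kap hcl w).ker.index = p := by
    rcases (Nat.dvd_prime hp).1 hdvd with h | h
    · exact absurd (Subgroup.index_eq_one.1 h) hne
    · exact h
  have h4 := Subgroup.card_mul_index (kap hcl w).ker
  rw [hidx, hcard] at h4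
  have h5 : p ^ 3 = p ^ 2 * p := by ring
  rw [h5] at h4
  have h6 : Nat.card (kap hcl w).ker = p ^ 2 := Nat.eq_of_mul_eq_mul_right hp.pos h4
  have h7 : (powHom hcl hZ hp2).ker = (kap hcl w).ker :=
    Subgroup.eq_of_le_of_card_ge hle (by rw [h6, card_ker_powHom hcl hZ hp2 hcard hex])
  have h8 : x ∈ (kap hcl w).ker :=
    (Cfsg.Agent.S3763.mem_ker_kap hcl w x).2 (commutatorElement_eq_one_iff_commute.1 hc).eq
  rw [← h7] at h8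
  exact hx ((mem_ker_powHom hcl hZ hp2 x).1 h8)

theorem eq_ker_of (hcl : ∀ a b : E, ⁅a, b⁆ ∈ Subgroup.center E)
    (hZ : Nat.card (Subgroup.center E) = p) (hp2 : p ≠ 2) (hcard : Nat.card E = p ^ 3)
    (hex : ∃ x : E, x ^ p ≠ 1) (B : Subgroup E) (hB : B ≤ (powHom hcl hZ hp2).ker)
    (hZB : Subgroup.center E ≤ B) (w : E) (hw : w ∈ B) (hwZ : w ∉ Subgroup.center E) :
    B = (powHom hcl hZ hp2).ker := by
  have hp : p.Prime := Fact.out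
  have h1 := Cfsg.Agent.S3763.two_mul_card_le_of_lt (Subgroup.center E) B hZB ⟨w, hw, hwZ⟩
  rw [hZ] at h1
  have h2 : Nat.card B ∣ p ^ 2 := by
    rw [← card_ker_powHom hcl hZ hp2 hcard hex]; exact Subgroup.card_dvd_of_le hB
  obtain ⟨k, hk, hk2⟩ := (Nat.dvd_prime_pow hp).1 h2
  have hk' : k = 2 := by
    interval_cases k
    · rw [hk2, pow_zero] at h1
      have := hp.two_le
      omega
    · rw [hk2, pow_one] at h1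
      have := hp.pos
      omega
    · rfl
  rw [hk'] at hk2
  exact Subgroup.eq_of_le_of_card_ge hB (by rw [hk2, card_ker_powHom hcl hZ hp2 hcard hex])

theorem center_gen (hZ : Nat.card (Subgroup.center E) = p) (ζ z : E)
    (hζ : ζ ∈ Subgroup.center E) (hz : z ∈ Subgroup.center E) (hζ1 : ζ ≠ 1) :
    ∃ t : ℤ, ζ ^ t = z := by
  have h := mem_zpowers_of_prime_card (g := (⟨ζ, hζ⟩ : ↥(Subgroup.center E)))
    (g' := ⟨z, hz⟩) hZ (fun h => hζ1 (congrArg Subtype.val h))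
  obtain ⟨t, ht⟩ := Subgroup.mem_zpowers_iff.1 h
  exact ⟨t, congrArg Subtype.val ht⟩

theorem final_E (hcl : ∀ a b : E, ⁅a, b⁆ ∈ Subgroup.center E)
    (hZ : Nat.card (Subgroup.center E) = p) (hp2 : p ≠ 2) (hcard : Nat.card E = p ^ 3)
    (hex : ∃ x : E, x ^ p ≠ 1) (x₀ x₂ w u : E) (hw : w ^ p = 1)
    (hx₂ : x₂ ^ p = (x₀ ^ p)⁻¹) (hc : ⁅x₂, (u * w * u⁻¹)⁻¹⁆ = ⁅x₀, w⁆⁻¹) : ⁅x₀, w⁆ = 1 := by
  have hp : p.Prime := Fact.out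
  have hw₂p : ((u * w * u⁻¹)⁻¹) ^ p = 1 := by
    rw [inv_pow, conj_pow, hw]; group
  have ha₀ : (x₂ * x₀) ^ p = 1 := by
    rw [mul_pow_p hcl hZ hp2, hx₂, inv_mul_cancel]
  have h1 : ⁅x₂ * x₀, (u * w * u⁻¹)⁻¹⁆ = 1 :=
    commutatorElement_eq_one_iff_commute.2 (ker_comm hcl hZ hp2 hcard hex _ _ ha₀ hw₂p)
  have h2 : ⁅x₂ * x₀, (u * w * u⁻¹)⁻¹⁆ = ⁅x₂, (u * w * u⁻¹)⁻¹⁆ * ⁅x₀, (u * w * u⁻¹)⁻¹⁆ :=
    comm_mul hcl x₂ x₀ _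
  have h3 : ⁅(u * w * u⁻¹)⁻¹, x₀⁆ = ⁅w, x₀⁆⁻¹ := by
    have e : kap hcl x₀ ((u * w * u⁻¹)⁻¹) = (kap hcl x₀ w)⁻¹ := by
      have hcomm : kap hcl x₀ u * kap hcl x₀ w = kap hcl x₀ w * kap hcl x₀ u :=
        Subtype.ext ((Subgroup.mem_center_iff.1 (kap hcl x₀ w).2) (kap hcl x₀ u).1)
      rw [map_inv, map_mul, map_mul, map_inv, hcomm, mul_assoc, mul_inv_cancel, mul_one]
    exact congrArg Subtype.val e
  have h4 : ⁅x₀, (u * w * u⁻¹)⁻¹⁆ = ⁅x₀, w⁆⁻¹ := by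
    rw [← commutatorElement_inv ((u * w * u⁻¹)⁻¹) x₀, h3, inv_inv, commutatorElement_inv]
  rw [h2, hc, h4] at h1
  have hc2 : ⁅x₀, w⁆ ^ 2 = 1 := by
    have h5 : (⁅x₀, w⁆ ^ 2)⁻¹ = 1 := by rw [pow_two, mul_inv_rev]; exact h1
    exact inv_eq_one.1 h5
  have hcp : ⁅x₀, w⁆ ^ p = 1 := central_pow hZ _ (hcl x₀ w)
  obtain ⟨k, hk⟩ := hp.odd_of_ne_two hp2
  rw [hk, pow_succ, pow_mul, hc2, one_pow, one_mul] at hcp
  exact hcp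

end abstract

theorem mem_smul_sylow' {G : Type*} [Group G] {p : ℕ} (P : Sylow p G) (g x : G) :
    x ∈ ((g • P : Sylow p G) : Subgroup G) ↔ g⁻¹ * x * g ∈ (P : Subgroup G) := by
  rw [Sylow.coe_subgroup_smul, Subgroup.mem_pointwise_smul_iff_inv_smul_mem]
  have h : (MulAut.conj g)⁻¹ • x = g⁻¹ * x * g := by simp [MulAut.smul_def]
  rw [h]

theorem exists_conj_le {G : Type*} [Group G] [Finite G] {p : ℕ} [Fact p.Prime] (Q : Sylow p G)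
    (H : Subgroup G) (hQ : (Q : Subgroup G) ≤ H) (A : Subgroup G) (hA : IsPGroup p A)
    (hAH : A ≤ H) : ∃ c ∈ H, ∀ a ∈ A, c⁻¹ * a * c ∈ (Q : Subgroup G) := by
  obtain ⟨R, hR⟩ := (hA.comap_subtype (K := H)).exists_le_sylow
  obtain ⟨c, hc⟩ := MulAction.exists_smul_eq ↥H (Q.subtype hQ) R
  refine ⟨c.1, c.2, fun a ha => ?_⟩
  have h1 : (⟨a, hAH ha⟩ : ↥H) ∈ (R : Subgroup ↥H) := hR (Subgroup.mem_subgroupOf.2 ha)
  rw [← hc, mem_smul_sylow', Sylow.coe_subtype, Subgroup.mem_subgroupOf] at h1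
  exact h1

theorem conj_mem_of_inv_conj_mem {G : Type*} [Group G] (A : Subgroup G) [Finite A] (g : G)
    (h : ∀ a ∈ A, g⁻¹ * a * g ∈ A) : ∀ a ∈ A, g * a * g⁻¹ ∈ A := by
  have hinj : Function.Injective (fun a : ↥A => (⟨g⁻¹ * a.1 * g, h a.1 a.2⟩ : ↥A)) := by
    intro a b hab
    have h1 : g⁻¹ * a.1 * g = g⁻¹ * b.1 * g := congrArg Subtype.val hab
    exact Subtype.ext (mul_left_cancel (mul_right_cancel h1))
  have hsurj := Finite.injective_iff_surjective.1 hinj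
  intro a ha
  obtain ⟨b, hb⟩ := hsurj ⟨a, ha⟩
  have h1 : g⁻¹ * b.1 * g = a := congrArg Subtype.val hb
  have h2 : g * a * g⁻¹ = b.1 := by rw [← h1]; group
  rw [h2]; exact b.2

/-- elements of `A` inverted by `g₂` -/
def invSub {G : Type*} [Group G] (A : Subgroup G) (g₂ : G)
    (hcomm : ∀ a ∈ A, ∀ b ∈ A, a * b = b * a) : Subgroup G where
  carrier := {a | a ∈ A ∧ g₂ * a * g₂⁻¹ = a⁻¹}
  one_mem' := ⟨A.one_mem, by group⟩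
  mul_mem' := by
    rintro a b ⟨ha, ha'⟩ ⟨hb, hb'⟩
    refine ⟨A.mul_mem ha hb, ?_⟩
    have hab : a * b = b * a := hcomm a ha b hb
    calc g₂ * (a * b) * g₂⁻¹ = (g₂ * a * g₂⁻¹) * (g₂ * b * g₂⁻¹) := by group
      _ = a⁻¹ * b⁻¹ := by rw [ha', hb']
      _ = (b * a)⁻¹ := by group
      _ = (a * b)⁻¹ := by rw [hab]
  inv_mem' := by
    rintro a ⟨ha, ha'⟩
    refine ⟨A.inv_mem ha, ?_⟩
    calc g₂ * a⁻¹ * g₂⁻¹ = (g₂ * a * g₂⁻¹)⁻¹ := by group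
      _ = (a⁻¹)⁻¹ := by rw [ha']

theorem mem_invSub {G : Type*} [Group G] (A : Subgroup G) (g₂ : G)
    (hcomm : ∀ a ∈ A, ∀ b ∈ A, a * b = b * a) (a : G) :
    a ∈ invSub A g₂ hcomm ↔ a ∈ A ∧ g₂ * a * g₂⁻¹ = a⁻¹ := Iff.rfl

/-- elements acting on the `p`-torsion of `S` like some element of `S` -/
def actSub {G : Type*} [Group G] (S : Subgroup G) (p : ℕ) : Subgroup G where
  carrier := {k | ∃ u ∈ S, ∀ a ∈ S, a ^ p = 1 → k * a * k⁻¹ = u * a * u⁻¹}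
  one_mem' := ⟨1, S.one_mem, fun a _ _ => rfl⟩
  mul_mem' := by
    rintro k₁ k₂ ⟨u₁, hu₁, h₁⟩ ⟨u₂, hu₂, h₂⟩
    refine ⟨u₁ * u₂, S.mul_mem hu₁ hu₂, fun a ha hap => ?_⟩
    have hb : u₂ * a * u₂⁻¹ ∈ S := S.mul_mem (S.mul_mem hu₂ ha) (S.inv_mem hu₂)
    have hbp : (u₂ * a * u₂⁻¹) ^ p = 1 := by rw [conj_pow, hap]; group
    calc k₁ * k₂ * a * (k₁ * k₂)⁻¹ = k₁ * (k₂ * a * k₂⁻¹) * k₁⁻¹ := by group
      _ = k₁ * (u₂ * a * u₂⁻¹) * k₁⁻¹ := by rw [h₂ a ha hap]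
      _ = u₁ * (u₂ * a * u₂⁻¹) * u₁⁻¹ := h₁ _ hb hbp
      _ = u₁ * u₂ * a * (u₁ * u₂)⁻¹ := by group
  inv_mem' := by
    rintro k ⟨u, hu, h⟩
    refine ⟨u⁻¹, S.inv_mem hu, fun a ha hap => ?_⟩
    have hb : u⁻¹ * a * u ∈ S := S.mul_mem (S.mul_mem (S.inv_mem hu) ha) hu
    have hbp : (u⁻¹ * a * u) ^ p = 1 := by
      have e : u⁻¹ * a * u = u⁻¹ * a * (u⁻¹)⁻¹ := by rw [inv_inv]
      rw [e, conj_pow, hap]; group
    have h1 := h _ hb hbp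
    calc k⁻¹ * a * k⁻¹⁻¹ = k⁻¹ * (u * (u⁻¹ * a * u) * u⁻¹) * k := by group
      _ = k⁻¹ * (k * (u⁻¹ * a * u) * k⁻¹) * k := by rw [h1]
      _ = u⁻¹ * a * u⁻¹⁻¹ := by group

theorem core {G : Type*} [Group G] [Finite G] {p : ℕ} [Fact p.Prime]
    (P : Sylow p G) (Zs : Subgroup G)
    (H1 : Zs ≤ (P : Subgroup G))
    (H2 : ∀ z ∈ Zs, ∀ s ∈ (P : Subgroup G), s * z = z * s)
    (H3 : ∀ z ∈ Zs, z ^ p = 1)
    (H4 : ∀ x ∈ (P : Subgroup G), x ^ p ∈ Zs)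
    (H5 : ∀ a ∈ (P : Subgroup G), ∀ b ∈ (P : Subgroup G), a ^ p = 1 → b ^ p = 1 →
      a * b = b * a)
    (H6 : ∀ x ∈ (P : Subgroup G), ∀ w ∈ (P : Subgroup G), x ^ p ≠ 1 → w ^ p = 1 → w ∉ Zs →
      ⁅x, w⁆ ≠ 1)
    (H7 : ∀ ζ ∈ Zs, ∀ z ∈ Zs, ζ ≠ 1 → ∃ t : ℤ, ζ ^ t = z)
    (H8 : ∀ x ∈ (P : Subgroup G), ∀ v ∈ (P : Subgroup G), ∀ t : ℤ, ⁅x ^ t, v⁆ = ⁅x, v⁆ ^ t)
    (H9 : ∀ a ∈ (P : Subgroup G), ∀ b ∈ (P : Subgroup G), ⁅a, b⁆ ∈ Zs)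
    (H10 : ∃ x ∈ (P : Subgroup G), x ^ p ≠ 1)
    (H11 : ∀ B : Subgroup G, (∀ b ∈ B, b ∈ (P : Subgroup G) ∧ b ^ p = 1) → Zs ≤ B →
      (∃ w ∈ B, w ∉ Zs) → ∀ a ∈ (P : Subgroup G), a ^ p = 1 → a ∈ B)
    (H12 : ∀ x₀ ∈ (P : Subgroup G), ∀ x₂ ∈ (P : Subgroup G), ∀ w ∈ (P : Subgroup G),
      ∀ u ∈ (P : Subgroup G), w ^ p = 1 → x₂ ^ p = (x₀ ^ p)⁻¹ →
      ⁅x₂, (u * w * u⁻¹)⁻¹⁆ = ⁅x₀, w⁆⁻¹ → ⁅x₀, w⁆ = 1)
    (A : Subgroup G) (hAp : IsPGroup p A)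
    (hA : ∀ a, a ∈ A ↔ a ∈ (P : Subgroup G) ∧ a ^ p = 1)
    (z : G) (hz : z ∈ Zs) (g₀ : G) (hw : g₀ * z * g₀⁻¹ ∈ (P : Subgroup G)) :
    g₀ * z * g₀⁻¹ ∈ Zs := by
  by_contra hwZ
  obtain ⟨w, hwdef⟩ : ∃ w, w = g₀ * z * g₀⁻¹ := ⟨_, rfl⟩
  rw [← hwdef] at hw hwZ
  have hwp : w ^ p = 1 := by rw [hwdef, conj_pow, H3 z hz]; group
  have hwA : w ∈ A := (hA w).2 ⟨hw, hwp⟩
  have hQH : ((g₀ • P : Sylow p G) : Subgroup G) ≤ Subgroup.centralizer ({w} : Set G) := by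
    intro x hx
    rw [mem_smul_sylow'] at hx
    rw [Subgroup.mem_centralizer_iff]
    intro h hh
    rw [Set.mem_singleton_iff.1 hh]
    have h1 := H2 z hz _ hx
    rw [hwdef]
    have h2 : g₀ * z * g₀⁻¹ * x = g₀ * (z * (g₀⁻¹ * x * g₀)) * g₀⁻¹ := by group
    have h3 : x * (g₀ * z * g₀⁻¹) = g₀ * ((g₀⁻¹ * x * g₀) * z) * g₀⁻¹ := by group
    rw [h2, h3, h1]
  have hAH : A ≤ Subgroup.centralizer ({w} : Set G) := by
    intro a ha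
    rw [Subgroup.mem_centralizer_iff]
    intro h hh
    rw [Set.mem_singleton_iff.1 hh]
    exact H5 w hw a ((hA a).1 ha).1 hwp ((hA a).1 ha).2
  obtain ⟨c, hc, hcA⟩ := exists_conj_le (g₀ • P) _ hQH A hAp hAH
  obtain ⟨g, hgdef⟩ : ∃ g, g = c * g₀ := ⟨_, rfl⟩
  have hgz : g * z * g⁻¹ = w := by
    have h1 : w * c = c * w := (Subgroup.mem_centralizer_iff.1 hc) w rfl
    rw [hgdef]
    calc c * g₀ * z * (c * g₀)⁻¹ = c * (g₀ * z * g₀⁻¹) * c⁻¹ := by group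
      _ = c * w * c⁻¹ := by rw [hwdef]
      _ = w * c * c⁻¹ := by rw [h1]
      _ = w := by group
  have hgA : ∀ a ∈ A, g⁻¹ * a * g ∈ A := by
    intro a ha
    have h1 := hcA a ha
    rw [mem_smul_sylow'] at h1
    have h2 : g⁻¹ * a * g = g₀⁻¹ * (c⁻¹ * a * c) * g₀ := by rw [hgdef]; group
    have h3 : (g⁻¹ * a * g) ^ p = 1 := by
      have e : g⁻¹ * a * g = g⁻¹ * a * (g⁻¹)⁻¹ := by rw [inv_inv]
      rw [e, conj_pow, ((hA a).1 ha).2]; group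
    refine (hA _).2 ⟨?_, h3⟩
    rw [h2]; exact h1
  have hgA' : ∀ a ∈ A, g * a * g⁻¹ ∈ A := conj_mem_of_inv_conj_mem A g hgA
  obtain ⟨x₀, hx₀, hx₀p⟩ := H10
  obtain ⟨z', hz'def⟩ : ∃ z', z' = ⁅x₀, w⁆ := ⟨_, rfl⟩
  have hz'Z : z' ∈ Zs := by rw [hz'def]; exact H9 x₀ hx₀ w hw
  have hz'1 : z' ≠ 1 := by rw [hz'def]; exact H6 x₀ hx₀ w hw hx₀p hwp hwZ
  have hz'A : z' ∈ A := (hA z').2 ⟨H1 hz'Z, H3 z' hz'Z⟩
  obtain ⟨v, hvdef⟩ : ∃ v, v = g⁻¹ * z' * g := ⟨_, rfl⟩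
  have hvA : v ∈ A := by rw [hvdef]; exact hgA z' hz'A
  have hvS := ((hA v).1 hvA).1
  have hvp := ((hA v).1 hvA).2
  have hgv : g * v * g⁻¹ = z' := by rw [hvdef]; group
  have hvZ : v ∉ Zs := by
    intro hv
    have hv1 : v ≠ 1 := by
      intro h
      rw [h] at hgv
      apply hz'1
      rw [← hgv]; group
    obtain ⟨t, ht⟩ := H7 v hv z hz hv1
    apply hwZ
    have h1 : w = z' ^ t := by
      rw [← hgz, ← ht, ← hgv, conj_zpow]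
    rw [h1]; exact Zs.zpow_mem hz'Z t
  obtain ⟨ζ, hζdef⟩ : ∃ ζ, ζ = ⁅x₀, v⁆ := ⟨_, rfl⟩
  have hζZ : ζ ∈ Zs := by rw [hζdef]; exact H9 x₀ hx₀ v hvS
  have hζ1 : ζ ≠ 1 := by rw [hζdef]; exact H6 x₀ hx₀ v hvS hx₀p hvp hvZ
  obtain ⟨t, ht⟩ := H7 ζ hζZ z⁻¹ (Zs.inv_mem hz) hζ1
  obtain ⟨x₁, hx₁def⟩ : ∃ x₁, x₁ = x₀ ^ t := ⟨_, rfl⟩
  have hx₁S : x₁ ∈ (P : Subgroup G) := by rw [hx₁def]; exact Subgroup.zpow_mem _ hx₀ t
  have hx₁v : ⁅x₁, v⁆ = z⁻¹ := by rw [hx₁def, H8 x₀ hx₀ v hvS t, ← hζdef, ht]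
  obtain ⟨y, hydef⟩ : ∃ y, y = g * x₁ * g⁻¹ := ⟨_, rfl⟩
  have R1 : x₀ * w * x₀⁻¹ = z' * w := by rw [hz'def, commutatorElement_def]; group
  have R2 : x₀ * z' * x₀⁻¹ = z' := by
    have h := H2 z' hz'Z x₀ hx₀
    rw [h]; group
  have hgw : g⁻¹ * w * g = z := by rw [← hgz]; group
  have R3 : y * w * y⁻¹ = w := by
    have h := H2 z hz x₁ hx₁S
    calc y * w * y⁻¹ = g * (x₁ * (g⁻¹ * w * g) * x₁⁻¹) * g⁻¹ := by rw [hydef]; group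
      _ = g * (x₁ * z * x₁⁻¹) * g⁻¹ := by rw [hgw]
      _ = g * (z * x₁ * x₁⁻¹) * g⁻¹ := by rw [h]
      _ = g * z * g⁻¹ := by group
      _ = w := hgz
  have R4 : y * z' * y⁻¹ = w⁻¹ * z' := by
    have h1 : x₁ * v * x₁⁻¹ = z⁻¹ * v := by rw [← hx₁v, commutatorElement_def]; group
    calc y * z' * y⁻¹ = g * (x₁ * (g⁻¹ * z' * g) * x₁⁻¹) * g⁻¹ := by rw [hydef]; group
      _ = g * (x₁ * v * x₁⁻¹) * g⁻¹ := by rw [hvdef]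
      _ = g * (z⁻¹ * v) * g⁻¹ := by rw [h1]
      _ = (g * z * g⁻¹)⁻¹ * (g * v * g⁻¹) := by group
      _ = w⁻¹ * z' := by rw [hgz, hgv]
  have R5 : z' * w = w * z' := H5 z' (H1 hz'Z) w hw (H3 z' hz'Z) hwp
  obtain ⟨m, hmdef⟩ : ∃ m, m = x₀ * y * x₀ := ⟨_, rfl⟩
  have M1 : m * z' * m⁻¹ = w⁻¹ := by
    calc m * z' * m⁻¹ = x₀ * (y * (x₀ * z' * x₀⁻¹) * y⁻¹) * x₀⁻¹ := by rw [hmdef]; group
      _ = x₀ * (y * z' * y⁻¹) * x₀⁻¹ := by rw [R2]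
      _ = x₀ * (w⁻¹ * z') * x₀⁻¹ := by rw [R4]
      _ = (x₀ * w * x₀⁻¹)⁻¹ * (x₀ * z' * x₀⁻¹) := by group
      _ = (z' * w)⁻¹ * z' := by rw [R1, R2]
      _ = w⁻¹ := by group
  have M2 : m * w * m⁻¹ = z' := by
    calc m * w * m⁻¹ = x₀ * (y * (x₀ * w * x₀⁻¹) * y⁻¹) * x₀⁻¹ := by rw [hmdef]; group
      _ = x₀ * (y * (z' * w) * y⁻¹) * x₀⁻¹ := by rw [R1]
      _ = x₀ * ((y * z' * y⁻¹) * (y * w * y⁻¹)) * x₀⁻¹ := by group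
      _ = x₀ * ((w⁻¹ * z') * w) * x₀⁻¹ := by rw [R4, R3]
      _ = x₀ * (w⁻¹ * (z' * w)) * x₀⁻¹ := by group
      _ = x₀ * (w⁻¹ * (w * z')) * x₀⁻¹ := by rw [R5]
      _ = x₀ * z' * x₀⁻¹ := by group
      _ = z' := R2
  obtain ⟨g₂, hg₂def⟩ : ∃ g₂, g₂ = m * m := ⟨_, rfl⟩
  have G1 : g₂ * z' * g₂⁻¹ = z'⁻¹ := by
    calc g₂ * z' * g₂⁻¹ = m * (m * z' * m⁻¹) * m⁻¹ := by rw [hg₂def]; group
      _ = m * w⁻¹ * m⁻¹ := by rw [M1]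
      _ = (m * w * m⁻¹)⁻¹ := by group
      _ = z'⁻¹ := by rw [M2]
  have G2 : g₂ * w * g₂⁻¹ = w⁻¹ := by
    calc g₂ * w * g₂⁻¹ = m * (m * w * m⁻¹) * m⁻¹ := by rw [hg₂def]; group
      _ = m * z' * m⁻¹ := by rw [M2]
      _ = w⁻¹ := M1
  have hAcomm : ∀ a ∈ A, ∀ b ∈ A, a * b = b * a := fun a ha b hb =>
    H5 a ((hA a).1 ha).1 b ((hA b).1 hb).1 ((hA a).1 ha).2 ((hA b).1 hb).2
  have hZB : Zs ≤ invSub A g₂ hAcomm := by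
    intro ζ' hζ'
    obtain ⟨s, hs⟩ := H7 z' hz'Z ζ' hζ' hz'1
    rw [mem_invSub]
    refine ⟨(hA ζ').2 ⟨H1 hζ', H3 ζ' hζ'⟩, ?_⟩
    rw [← hs, ← conj_zpow, G1, inv_zpow]
  have hinv : ∀ a ∈ (P : Subgroup G), a ^ p = 1 → g₂ * a * g₂⁻¹ = a⁻¹ := by
    intro a ha hap
    have h := H11 (invSub A g₂ hAcomm)
      (fun b hb => (hA b).1 ((mem_invSub A g₂ hAcomm b).1 hb).1) hZB
      ⟨w, (mem_invSub A g₂ hAcomm w).2 ⟨hwA, G2⟩, hwZ⟩ a ha hap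
    exact ((mem_invSub A g₂ hAcomm a).1 h).2
  have hinv' : ∀ a ∈ (P : Subgroup G), a ^ p = 1 → g₂⁻¹ * a * g₂ = a⁻¹ := by
    intro a ha hap
    have h := hinv a⁻¹ (inv_mem ha) (by rw [inv_pow, hap, inv_one])
    calc g₂⁻¹ * a * g₂ = g₂⁻¹ * (g₂ * a⁻¹ * g₂⁻¹) * g₂ := by rw [h, inv_inv]
      _ = a⁻¹ := by group
  have hSK : (P : Subgroup G) ≤ actSub (P : Subgroup G) p :=
    fun k hk => ⟨k, hk, fun a _ _ => rfl⟩
  have hQK : ((g₂ • P : Sylow p G) : Subgroup G) ≤ actSub (P : Subgroup G) p := by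
    intro x hx
    rw [mem_smul_sylow'] at hx
    refine ⟨g₂⁻¹ * x * g₂, hx, fun a ha hap => ?_⟩
    have h1 : g₂⁻¹ * a * g₂ = a⁻¹ := hinv' a ha hap
    have hb : (g₂⁻¹ * x * g₂) * a⁻¹ * (g₂⁻¹ * x * g₂)⁻¹ ∈ (P : Subgroup G) :=
      mul_mem (mul_mem hx (inv_mem ha)) (inv_mem hx)
    have hbp : ((g₂⁻¹ * x * g₂) * a⁻¹ * (g₂⁻¹ * x * g₂)⁻¹) ^ p = 1 := by
      rw [conj_pow, inv_pow, hap]; group
    have h2 := hinv _ hb hbp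
    calc x * a * x⁻¹
        = g₂ * ((g₂⁻¹ * x * g₂) * (g₂⁻¹ * a * g₂) * (g₂⁻¹ * x * g₂)⁻¹) * g₂⁻¹ := by group
      _ = g₂ * ((g₂⁻¹ * x * g₂) * a⁻¹ * (g₂⁻¹ * x * g₂)⁻¹) * g₂⁻¹ := by rw [h1]
      _ = ((g₂⁻¹ * x * g₂) * a⁻¹ * (g₂⁻¹ * x * g₂)⁻¹)⁻¹ := h2
      _ = (g₂⁻¹ * x * g₂) * a * (g₂⁻¹ * x * g₂)⁻¹ := by group
  obtain ⟨k, hkK, hkS⟩ := exists_conj_le (g₂ • P) _ hQK (P : Subgroup G) P.isPGroup' hSK
  obtain ⟨u', hu'S, hu'⟩ := (actSub (P : Subgroup G) p).inv_mem hkK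
  obtain ⟨ν, hνdef⟩ : ∃ ν, ν = g₂⁻¹ * k⁻¹ := ⟨_, rfl⟩
  have hνS : ∀ s ∈ (P : Subgroup G), ν * s * ν⁻¹ ∈ (P : Subgroup G) := by
    intro s hs
    have h1 := hkS s hs
    rw [mem_smul_sylow'] at h1
    have h2 : ν * s * ν⁻¹ = g₂⁻¹ * (k⁻¹ * s * k) * g₂ := by rw [hνdef]; group
    rw [h2]; exact h1
  have hνA : ∀ a ∈ (P : Subgroup G), a ^ p = 1 → ν * a * ν⁻¹ = (u' * a * u'⁻¹)⁻¹ := by
    intro a ha hap
    have h1 := hu' a ha hap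
    rw [inv_inv] at h1
    have hb : u' * a * u'⁻¹ ∈ (P : Subgroup G) := mul_mem (mul_mem hu'S ha) (inv_mem hu'S)
    have hbp : (u' * a * u'⁻¹) ^ p = 1 := by rw [conj_pow, hap]; group
    calc ν * a * ν⁻¹ = g₂⁻¹ * (k⁻¹ * a * k) * g₂ := by rw [hνdef]; group
      _ = g₂⁻¹ * (u' * a * u'⁻¹) * g₂ := by rw [h1]
      _ = (u' * a * u'⁻¹)⁻¹ := hinv' _ hb hbp
  have hνZ : ∀ ζ' ∈ Zs, ν * ζ' * ν⁻¹ = ζ'⁻¹ := by
    intro ζ' hζ'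
    rw [hνA ζ' (H1 hζ') (H3 ζ' hζ')]
    have h := H2 ζ' hζ' u' hu'S
    rw [h]; group
  have hx₂S := hνS x₀ hx₀
  have hx₂p : (ν * x₀ * ν⁻¹) ^ p = (x₀ ^ p)⁻¹ := by
    rw [conj_pow]; exact hνZ _ (H4 x₀ hx₀)
  have hc : ⁅ν * x₀ * ν⁻¹, (u' * w * u'⁻¹)⁻¹⁆ = ⁅x₀, w⁆⁻¹ := by
    rw [← hνA w hw hwp]
    calc ⁅ν * x₀ * ν⁻¹, ν * w * ν⁻¹⁆ = ν * ⁅x₀, w⁆ * ν⁻¹ := by
          simp only [commutatorElement_def]; group
      _ = ⁅x₀, w⁆⁻¹ := hνZ _ (H9 x₀ hx₀ w hw)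
  have hfin := H12 x₀ hx₀ _ hx₂S w hw u' hu'S hwp hx₂p hc
  exact H6 x₀ hx₀ w hw hx₀p hwp hwZ hfin

/-- Let p be an odd prime and G a finite group with a Sylow p-subgroup P that is extraspecial of order p³ and exponent p². Then the centre of P is strongly closed in P with respect to G: a G-conjugate of an element of Z(P) that lies in P already lies in Z(P). In particular a nontrivial central element of P is conjugate in G to no noncentral element of P. -/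
theorem result {G : Type*} [Group G] [Finite G]
    {p : ℕ} [Fact p.Prime] (hp : p ≠ 2) (P : Sylow p G) (hE : Cfsg.IsExtraspecial p ↥P)
    (hcard : Nat.card P = p ^ 3) (hexp : Monoid.exponent ↥P = p ^ 2) :
    Cfsg.IsStronglyClosed ((Subgroup.center ↥P).map (P : Subgroup G).subtype) (P : Subgroup G) := by
  classical
  have hpp : p.Prime := Fact.out
  have hcl : ∀ a b : ↥(P : Subgroup G), ⁅a, b⁆ ∈ Subgroup.center ↥(P : Subgroup G) := by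
    intro a b
    have h1 : ⁅a, b⁆ ∈ commutator ↥(P : Subgroup G) :=
      Subgroup.commutator_mem_commutator (Subgroup.mem_top a) (Subgroup.mem_top b)
    have h2 : commutator ↥(P : Subgroup G) = Subgroup.center ↥(P : Subgroup G) := hE.1.2.2
    rw [h2] at h1
    exact h1
  have hZ : Nat.card (Subgroup.center ↥(P : Subgroup G)) = p := hE.2
  have hcard' : Nat.card ↥(P : Subgroup G) = p ^ 3 := hcard
  have hex : ∃ x : ↥(P : Subgroup G), x ^ p ≠ 1 := by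
    by_contra hcon
    push Not at hcon
    have h1 : Monoid.exponent ↥(P : Subgroup G) ∣ p :=
      Monoid.exponent_dvd_of_forall_pow_eq_one hcon
    have h2 : Monoid.exponent ↥(P : Subgroup G) = p ^ 2 := hexp
    rw [h2] at h1
    have h3 := Nat.le_of_dvd hpp.pos h1
    nlinarith [hpp.two_le]
  refine ⟨Subgroup.map_subtype_le _, ?_⟩
  intro z hz g hw
  have H2 : ∀ z ∈ (Subgroup.center ↥(P : Subgroup G)).map (P : Subgroup G).subtype,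
      ∀ s ∈ (P : Subgroup G), s * z = z * s := by
    rintro _ ⟨y, hy, rfl⟩ s hs
    exact congrArg Subtype.val ((Subgroup.mem_center_iff.1 hy) ⟨s, hs⟩)
  have H3 : ∀ z ∈ (Subgroup.center ↥(P : Subgroup G)).map (P : Subgroup G).subtype,
      z ^ p = 1 := by
    rintro _ ⟨y, hy, rfl⟩
    exact congrArg Subtype.val (central_pow hZ y hy)
  have H4 : ∀ x ∈ (P : Subgroup G),
      x ^ p ∈ (Subgroup.center ↥(P : Subgroup G)).map (P : Subgroup G).subtype :=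
    fun x hx => ⟨⟨x, hx⟩ ^ p, pow_central hcl hZ ⟨x, hx⟩, rfl⟩
  have H5 : ∀ a ∈ (P : Subgroup G), ∀ b ∈ (P : Subgroup G), a ^ p = 1 → b ^ p = 1 →
      a * b = b * a := fun a ha b hb hap hbp =>
    congrArg Subtype.val (ker_comm hcl hZ hp hcard' hex ⟨a, ha⟩ ⟨b, hb⟩
      (Subtype.ext hap) (Subtype.ext hbp))
  have H6 : ∀ x ∈ (P : Subgroup G), ∀ w ∈ (P : Subgroup G), x ^ p ≠ 1 → w ^ p = 1 →
      w ∉ (Subgroup.center ↥(P : Subgroup G)).map (P : Subgroup G).subtype → ⁅x, w⁆ ≠ 1 :=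
    fun x hx w hw hxp hwp hwZ hc =>
      comm_ne_one hcl hZ hp hcard' hex ⟨x, hx⟩ ⟨w, hw⟩
        (fun h => hxp (congrArg Subtype.val h)) (Subtype.ext hwp)
        (fun h => hwZ ⟨⟨w, hw⟩, h, rfl⟩) (Subtype.ext hc)
  have H7 : ∀ ζ ∈ (Subgroup.center ↥(P : Subgroup G)).map (P : Subgroup G).subtype,
      ∀ z ∈ (Subgroup.center ↥(P : Subgroup G)).map (P : Subgroup G).subtype, ζ ≠ 1 →
      ∃ t : ℤ, ζ ^ t = z := by
    rintro _ ⟨ζ, hζ, rfl⟩ _ ⟨z, hz, rfl⟩ h1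
    obtain ⟨t, ht⟩ := center_gen hZ ζ z hζ hz (fun h => h1 (congrArg Subtype.val h))
    exact ⟨t, congrArg Subtype.val ht⟩
  have H8 : ∀ x ∈ (P : Subgroup G), ∀ v ∈ (P : Subgroup G), ∀ t : ℤ,
      ⁅x ^ t, v⁆ = ⁅x, v⁆ ^ t := fun x hx v hv t =>
    congrArg Subtype.val (comm_zpow hcl ⟨x, hx⟩ ⟨v, hv⟩ t)
  have H9 : ∀ a ∈ (P : Subgroup G), ∀ b ∈ (P : Subgroup G),
      ⁅a, b⁆ ∈ (Subgroup.center ↥(P : Subgroup G)).map (P : Subgroup G).subtype :=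
    fun a ha b hb => ⟨⁅(⟨a, ha⟩ : ↥(P : Subgroup G)), ⟨b, hb⟩⁆, hcl _ _, rfl⟩
  have H10 : ∃ x ∈ (P : Subgroup G), x ^ p ≠ 1 := by
    obtain ⟨x, hx⟩ := hex
    exact ⟨x.1, x.2, fun h => hx (Subtype.ext h)⟩
  have H11 : ∀ B : Subgroup G, (∀ b ∈ B, b ∈ (P : Subgroup G) ∧ b ^ p = 1) →
      (Subgroup.center ↥(P : Subgroup G)).map (P : Subgroup G).subtype ≤ B →
      (∃ w ∈ B, w ∉ (Subgroup.center ↥(P : Subgroup G)).map (P : Subgroup G).subtype) →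
      ∀ a ∈ (P : Subgroup G), a ^ p = 1 → a ∈ B := by
    rintro B hB hZB ⟨w, hwB, hwZ⟩ a ha hap
    have hwS := (hB w hwB).1
    have h := eq_ker_of hcl hZ hp hcard' hex (B.comap (P : Subgroup G).subtype)
      (fun b hb => (mem_ker_powHom hcl hZ hp b).2 (Subtype.ext (hB b.1 hb).2))
      (fun y hy => hZB ⟨y, hy, rfl⟩) ⟨w, hwS⟩ hwB (fun h => hwZ ⟨⟨w, hwS⟩, h, rfl⟩)
    have h2 : (⟨a, ha⟩ : ↥(P : Subgroup G)) ∈ B.comap (P : Subgroup G).subtype := by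
      rw [h]; exact (mem_ker_powHom hcl hZ hp _).2 (Subtype.ext hap)
    exact h2
  have H12 : ∀ x₀ ∈ (P : Subgroup G), ∀ x₂ ∈ (P : Subgroup G), ∀ w ∈ (P : Subgroup G),
      ∀ u ∈ (P : Subgroup G), w ^ p = 1 → x₂ ^ p = (x₀ ^ p)⁻¹ →
      ⁅x₂, (u * w * u⁻¹)⁻¹⁆ = ⁅x₀, w⁆⁻¹ → ⁅x₀, w⁆ = 1 := by
    intro x₀ hx₀ x₂ hx₂ w hw u hu hwp hx₂p hc
    have h := final_E hcl hZ hp hcard' hex ⟨x₀, hx₀⟩ ⟨x₂, hx₂⟩ ⟨w, hw⟩ ⟨u, hu⟩
      (Subtype.ext hwp) (Subtype.ext hx₂p) (Subtype.ext hc)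
    exact congrArg Subtype.val h
  have hA : ∀ a, a ∈ (powHom hcl hZ hp).ker.map (P : Subgroup G).subtype ↔
      a ∈ (P : Subgroup G) ∧ a ^ p = 1 := by
    intro a
    constructor
    · rintro ⟨y, hy, rfl⟩
      exact ⟨y.2, congrArg Subtype.val ((mem_ker_powHom hcl hZ hp y).1 hy)⟩
    · rintro ⟨h, hap⟩
      exact ⟨⟨a, h⟩, (mem_ker_powHom hcl hZ hp _).2 (Subtype.ext hap), rfl⟩
  exact core P _ (Subgroup.map_subtype_le _) H2 H3 H4 H5 H6 H7 H8 H9 H10 H11 H12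
    ((powHom hcl hZ hp).ker.map (P : Subgroup G).subtype)
    (P.isPGroup'.to_le (Subgroup.map_subtype_le _)) hA z hz g hw

end Cfsg.Agent.S3053
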