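import Cfsg.Statements.S3059
import Cfsg.Agent.Lib.Helper2.CDM
import Cfsg.Agent.Lib.Helper2.Frobenius
import Cfsg.Agent.Lib.Helper7.PCore
-- import your own Cfsg.Agent.* helpers here

set_option autoImplicit false
open Cfsg

namespace Cfsg.Agent.S3059

open Cfsg.Agent.Lib.Helper2

theorem p_dvd_card_of_ne_bot {G : Type*} [Group G] [Finite G] {p : ℕ} [Fact p.Prime]
    {Q : Subgroup G} (hQ : IsPGroup p Q) (hne : Q ≠ ⊥) : p ∣ Nat.card Q := by
  obtain ⟨k, hk⟩ := hQ.exists_card_eq
  rw [hk]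
  have hk0 : k ≠ 0 := by
    rintro rfl
    apply hne
    exact Subgroup.eq_bot_of_card_eq Q (by rw [hk]; simp)
  exact dvd_pow_self p hk0

theorem normalizer_le_of_strongly_embedded {G : Type*} [Group G] [Finite G] {p : ℕ} [Fact p.Prime]
    (H : Subgroup G)
    (hse : ∀ g : G, g ∉ H → ¬ p ∣ Nat.card ↥(H ⊓ H.map (MulAut.conj g).toMonoidHom))
    (Q : Subgroup G) (hQH : Q ≤ H) (hQ : IsPGroup p Q) (hne : Q ≠ ⊥) :
    Subgroup.normalizer (Q : Set G) ≤ H := by
  intro g hg
  by_contra hgH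
  apply hse g hgH
  have h1 : Q ≤ H ⊓ H.map (MulAut.conj g).toMonoidHom := by
    refine le_inf hQH ?_
    have h2 : Q.map (MulAut.conj g).toMonoidHom ≤ H.map (MulAut.conj g).toMonoidHom :=
      Subgroup.map_mono hQH
    rwa [mem_normalizer_iff_map_conj'.mp hg] at h2
  exact (p_dvd_card_of_ne_bot hQ hne).trans (Subgroup.card_dvd_of_le h1)

theorem exists_sylow_le_of_strongly_embedded {G : Type*} [Group G] [Finite G] {p : ℕ}
    [Fact p.Prime] (H : Subgroup G) (hpH : p ∣ Nat.card H)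
    (hse : ∀ g : G, g ∉ H → ¬ p ∣ Nat.card ↥(H ⊓ H.map (MulAut.conj g).toMonoidHom)) :
    ∃ P : Sylow p G, (P : Subgroup G) ≤ H := by
  classical
  haveI : Nonempty {Q : Subgroup G // Q ≤ H ∧ IsPGroup p Q} := ⟨⟨⊥, bot_le, IsPGroup.of_bot⟩⟩
  obtain ⟨⟨Q, hQH, hQ⟩, hQmax⟩ := Finite.exists_max
    (fun Q : {Q : Subgroup G // Q ≤ H ∧ IsPGroup p Q} => Nat.card (Q : Subgroup G))
  have hQne : Q ≠ ⊥ := by
    intro hbot
    obtain ⟨h, hh⟩ := exists_prime_orderOf_dvd_card' (G := ↥H) p hpH
    have h1 : IsPGroup p (Subgroup.zpowers (h : G)) := by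
      rw [IsPGroup.iff_card]
      refine ⟨1, ?_⟩
      rw [Nat.card_zpowers, Subgroup.orderOf_coe, hh, pow_one]
    have h2 := hQmax ⟨Subgroup.zpowers (h : G), Subgroup.zpowers_le.mpr h.2, h1⟩
    have h3 : Nat.card (Subgroup.zpowers (h : G)) = p := by
      rw [Nat.card_zpowers, Subgroup.orderOf_coe, hh]
    have h4 : Nat.card (Q : Subgroup G) = 1 := by rw [hbot]; simp
    have hp : p.Prime := Fact.out
    have h5 : Nat.card (Subgroup.zpowers (h : G)) ≤ Nat.card Q := h2
    have := hp.two_le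
    omega
  obtain ⟨P, hQP⟩ := hQ.exists_le_sylow
  refine ⟨P, ?_⟩
  have hPQ : Q = (P : Subgroup G) := by
    by_contra hne
    have hlt := card_lt_card_inf_normalizer P.2 hQP hne
    have hle : (P : Subgroup G) ⊓ Subgroup.normalizer (Q : Set G) ≤ H :=
      inf_le_right.trans (normalizer_le_of_strongly_embedded H hse Q hQH hQ hQne)
    have h2 := hQmax ⟨(P : Subgroup G) ⊓ Subgroup.normalizer (Q : Set G), hle, P.2.to_le inf_le_left⟩
    have h3 : Nat.card ((P : Subgroup G) ⊓ Subgroup.normalizer (Q : Set G) : Subgroup G) ≤ Nat.card Q := h2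
    omega
  rw [← hPQ]; exact hQH

theorem sylow_inf_normal_not_dvd {G : Type*} [Group G] [Finite G] {p : ℕ} [Fact p.Prime]
    (P : Sylow p G) (N : Subgroup G) [N.Normal] :
    ¬ p ∣ (((P : Subgroup G) ⊓ N).subgroupOf N).index := by
  have h1 := card_sup_mul_card_inf_of_coe_eq (P : Subgroup G) N (Subgroup.mul_normal _ N)
  have h2 := Cfsg.Agent.Lib.Helper7.card_mul_relIndex_of_le (inf_le_right : (P : Subgroup G) ⊓ N ≤ N)
  have h3 := Cfsg.Agent.Lib.Helper7.card_mul_relIndex_of_le
    (le_sup_left : (P : Subgroup G) ≤ (P : Subgroup G) ⊔ N)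
  have h4 : ((P : Subgroup G) ⊓ N).relIndex N = (P : Subgroup G).relIndex ((P : Subgroup G) ⊔ N) := by
    have hpos1 : 0 < Nat.card (P : Subgroup G) := Nat.card_pos
    have hpos2 : 0 < Nat.card ((P : Subgroup G) ⊓ N : Subgroup G) := Nat.card_pos
    have e : Nat.card (P : Subgroup G) * Nat.card ((P : Subgroup G) ⊓ N : Subgroup G) *
        ((P : Subgroup G) ⊓ N).relIndex N = Nat.card (P : Subgroup G) *
        Nat.card ((P : Subgroup G) ⊓ N : Subgroup G) *
        (P : Subgroup G).relIndex ((P : Subgroup G) ⊔ N) := by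
      calc Nat.card (P : Subgroup G) * Nat.card ((P : Subgroup G) ⊓ N : Subgroup G) *
            ((P : Subgroup G) ⊓ N).relIndex N
          = Nat.card (P : Subgroup G) * (Nat.card ((P : Subgroup G) ⊓ N : Subgroup G) *
            ((P : Subgroup G) ⊓ N).relIndex N) := by ring
        _ = Nat.card (P : Subgroup G) * Nat.card N := by rw [h2]
        _ = Nat.card ((P : Subgroup G) ⊔ N : Subgroup G) *
            Nat.card ((P : Subgroup G) ⊓ N : Subgroup G) := h1.symm
        _ = (Nat.card (P : Subgroup G) * (P : Subgroup G).relIndex ((P : Subgroup G) ⊔ N)) *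
            Nat.card ((P : Subgroup G) ⊓ N : Subgroup G) := by rw [h3]
        _ = _ := by ring
    exact Nat.eq_of_mul_eq_mul_left (Nat.mul_pos hpos1 hpos2) e
  show ¬ p ∣ ((P : Subgroup G) ⊓ N).relIndex N
  rw [h4]
  intro hdvd
  exact P.not_dvd_index (hdvd.trans (Subgroup.relIndex_dvd_index_of_le le_sup_left))

/-- Let p be a prime and H a strongly p-embedded subgroup of the finite group G in the classical sense: H is proper, p divides the order of H, and H ∩ gHg⁻¹ has order prime to p for every g outside H. Then for every normal subgroup N of G of order divisible by p, G = H · O^p(N), where O^p(N) is the subgroup generated by the elements of N of order prime to p. -/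
theorem result {G : Type*} [Group G] [Finite G]
    (p : ℕ) [Fact p.Prime] (H : Subgroup G) (hH : H ≠ ⊤) (hpH : p ∣ Nat.card H)
    (hse : ∀ g : G, g ∉ H → ¬ p ∣ Nat.card ↥(H ⊓ H.map (MulAut.conj g).toMonoidHom))
    (N : Subgroup G) [N.Normal] (hN : p ∣ Nat.card N) :
    H ⊔ Subgroup.closure {g : G | g ∈ N ∧ (orderOf g).Coprime p} = ⊤ := by
  classical
  obtain ⟨P, hPH⟩ := exists_sylow_le_of_strongly_embedded H hpH hse
  have hpg : IsPGroup p (((P : Subgroup G) ⊓ N).subgroupOf N) :=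
    (P.2.to_le inf_le_left).comap_subtype
  have hidx := sylow_inf_normal_not_dvd P N
  set S : Sylow p ↥N := hpg.toSylow hidx with hS
  have hScoe : (S : Subgroup ↥N) = ((P : Subgroup G) ⊓ N).subgroupOf N := IsPGroup.toSylow_coe hpg hidx
  have hmap : (S : Subgroup ↥N).map N.subtype = (P : Subgroup G) ⊓ N := by
    rw [hScoe, Subgroup.subgroupOf_map_subtype, inf_assoc, inf_idem]
  have hfr := Sylow.normalizer_sup_eq_top S
  rw [hmap] at hfr
  have hne : (P : Subgroup G) ⊓ N ≠ ⊥ := by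
    intro hbot
    have h1 : Nat.card (((P : Subgroup G) ⊓ N).subgroupOf N) = 1 := by
      rw [hbot]; simp
    have h2 := (((P : Subgroup G) ⊓ N).subgroupOf N).card_mul_index
    rw [h1, one_mul] at h2
    rw [h2] at hidx
    exact hidx hN
  have hNle : Subgroup.normalizer (((P : Subgroup G) ⊓ N : Subgroup G) : Set G) ≤ H :=
    normalizer_le_of_strongly_embedded H hse _ (inf_le_left.trans hPH) (P.2.to_le inf_le_left) hne
  have hHN : H ⊔ N = ⊤ := by
    apply top_le_iff.mp
    rw [← hfr]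
    exact sup_le_sup_right hNle N
  have hres := sylow_sup_pResidual_eq_top S
  have hres' := congrArg (Subgroup.map N.subtype) hres
  rw [Subgroup.map_sup, hmap, ← MonoidHom.range_eq_map, Subgroup.range_subtype] at hres'
  have hcl : (Cfsg.pResidual p ↥N).map N.subtype =
      Subgroup.closure {g : G | g ∈ N ∧ (orderOf g).Coprime p} := by
    unfold Cfsg.pResidual
    rw [MonoidHom.map_closure]
    congr 1
    ext g
    constructor
    · rintro ⟨⟨g', hg'⟩, hc, rfl⟩
      refine ⟨hg', ?_⟩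
      have : Nat.Coprime (orderOf (⟨g', hg'⟩ : ↥N)) p := hc
      rwa [Subgroup.orderOf_mk] at this
    · rintro ⟨hg, hc⟩
      refine ⟨⟨g, hg⟩, ?_, rfl⟩
      show Nat.Coprime (orderOf (⟨g, hg⟩ : ↥N)) p
      rw [Subgroup.orderOf_mk]; exact hc
  rw [hcl] at hres'
  have hNle2 : N ≤ H ⊔ Subgroup.closure {g : G | g ∈ N ∧ (orderOf g).Coprime p} := by
    have h1 : (P : Subgroup G) ⊓ N ⊔ Subgroup.closure {g : G | g ∈ N ∧ (orderOf g).Coprime p} ≤
        H ⊔ Subgroup.closure {g : G | g ∈ N ∧ (orderOf g).Coprime p} :=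
      sup_le ((inf_le_left.trans hPH).trans le_sup_left) le_sup_right
    exact hres'.ge.trans h1
  apply top_le_iff.mp
  calc (⊤ : Subgroup G) = H ⊔ N := hHN.symm
    _ ≤ H ⊔ Subgroup.closure {g : G | g ∈ N ∧ (orderOf g).Coprime p} := sup_le le_sup_left hNle2

end Cfsg.Agent.S3059
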