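import Mathlib
import Cfsg.Statements.S3074
import Cfsg.Agent.Lib.Helper6.QdFree
import Cfsg.Agent.Lib.Helper6.Frattini
import Cfsg.Agent.Lib.Helper2.PGroup

set_option autoImplicit false
open Cfsg

namespace Cfsg.Agent.S3074

open Matrix
open scoped commutatorElement

theorem es_of_pcube {P : Type*} [Group P] [Finite P] {p : ℕ} [hp : Fact p.Prime]
    (hcard : Nat.card P = p ^ 3) (hnc : ∃ a b : P, a * b ≠ b * a) (hexp : ∀ x : P, x ^ p = 1) :
    Cfsg.IsExtraspecial p P ∧ Monoid.exponent P = p := by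
  have hpp := hp.out
  have hP : IsPGroup p P := IsPGroup.of_card hcard
  haveI : Nontrivial P := by
    rw [← Finite.one_lt_card_iff_nontrivial, hcard]
    exact Nat.one_lt_pow (by norm_num) hpp.one_lt
  have hZdvd : Nat.card (Subgroup.center P) ∣ p ^ 3 := hcard ▸ Subgroup.card_subgroup_dvd_card _
  obtain ⟨i, hi, hZi⟩ := (Nat.dvd_prime_pow hpp).mp hZdvd
  have hZ : Nat.card (Subgroup.center P) = p := by
    have hne1 : Nat.card (Subgroup.center P) ≠ 1 := by
      intro h1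
      have hnt := hP.center_nontrivial
      exact (Finite.one_lt_card_iff_nontrivial.mpr hnt).ne' h1
    have hne3 : i ≠ 3 := by
      rintro rfl
      have htop : Subgroup.center P = ⊤ := Subgroup.eq_top_of_card_eq _ (by rw [hZi, hcard])
      obtain ⟨a, b, hab⟩ := hnc
      have hb : b ∈ Subgroup.center P := htop ▸ Subgroup.mem_top b
      exact hab (Subgroup.mem_center_iff.mp hb a)
    have hne2 : i ≠ 2 := by
      rintro rfl
      have hq : Nat.card (P ⧸ Subgroup.center P) = p := by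
        have e := Subgroup.card_eq_card_quotient_mul_card_subgroup (Subgroup.center P)
        rw [hcard, hZi] at e
        have hpos : 0 < p ^ 2 := pow_pos hpp.pos 2
        apply Nat.eq_of_mul_eq_mul_right hpos
        rw [← e]; ring
      haveI : IsCyclic (P ⧸ Subgroup.center P) := isCyclic_of_prime_card hq
      obtain ⟨a, b, hab⟩ := hnc
      exact hab (commutative_of_cyclic_center_quotient (QuotientGroup.mk' (Subgroup.center P))
        (by rw [QuotientGroup.ker_mk']) a b)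
    interval_cases i
    · rw [pow_zero] at hZi; exact absurd hZi hne1
    · rw [pow_one] at hZi; exact hZi
    · exact absurd rfl hne2
    · exact absurd rfl hne3
  have hqcard : Nat.card (P ⧸ Subgroup.center P) = p ^ 2 := by
    have e := Subgroup.card_eq_card_quotient_mul_card_subgroup (Subgroup.center P)
    rw [hcard, hZ] at e
    apply Nat.eq_of_mul_eq_mul_right hpp.pos
    rw [← e]; ring
  have hcommZ : ∀ a b : P, a * b * a⁻¹ * b⁻¹ ∈ Subgroup.center P := by
    intro a b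
    have hc : ∀ u v : P ⧸ Subgroup.center P, u * v = v * u :=
      IsPGroup.commutative_of_card_eq_prime_sq hqcard
    rw [← QuotientGroup.eq_one_iff]
    have e := hc (a : P ⧸ Subgroup.center P) (b : P ⧸ Subgroup.center P)
    simp only [QuotientGroup.mk_mul, QuotientGroup.mk_inv]
    rw [e]; group
  have hcomm_le : commutator P ≤ Subgroup.center P := by
    rw [commutator_def, Subgroup.commutator_le]
    intro a _ b _
    rw [commutatorElement_def]
    exact hcommZ a b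
  have hcomm_ne : commutator P ≠ ⊥ := by
    intro h
    obtain ⟨a, b, hab⟩ := hnc
    have hmem : ⁅a, b⁆ ∈ commutator P := by
      rw [commutator_def]
      exact Subgroup.commutator_mem_commutator (Subgroup.mem_top a) (Subgroup.mem_top b)
    rw [h, Subgroup.mem_bot, commutatorElement_eq_one_iff_mul_comm] at hmem
    exact hab hmem
  have hcomm_eq : commutator P = Subgroup.center P := by
    have hd : Nat.card (commutator P) ∣ p := hZ ▸ Subgroup.card_dvd_of_le hcomm_le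
    rcases (Nat.dvd_prime hpp).mp hd with h1 | h1
    · exact absurd (Subgroup.card_eq_one.mp h1) hcomm_ne
    · exact Subgroup.eq_of_le_of_card_ge hcomm_le (by rw [h1, hZ])
  have hfr : frattini P = Subgroup.center P := by
    apply le_antisymm
    · exact Cfsg.Agent.Lib.Helper6.fr_le_of_elem_quotient (p := p) _ hcommZ
        (fun a => by rw [hexp a]; exact Subgroup.one_mem _)
    · rw [← hcomm_eq]; exact Cfsg.Agent.Lib.Helper2.commutator_le_frattini_of_pGroup hP
  refine ⟨⟨⟨hP, hfr, hcomm_eq⟩, hZ⟩, ?_⟩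
  have hd : Monoid.exponent P ∣ p := Monoid.exponent_dvd_of_forall_pow_eq_one hexp
  rcases (Nat.dvd_prime hpp).mp hd with h1 | h1
  · exfalso
    have hss := Monoid.exp_eq_one_iff.mp h1
    exact not_subsingleton P hss
  · exact h1

theorem gl_card_not_dvd (p : ℕ) [hp : Fact p.Prime] :
    ¬ p ^ 4 ∣ Nat.card (GL (Fin 3) (ZMod p)) := by
  have hpp := hp.out
  rw [Matrix.card_GL_field, ZMod.card, Fin.prod_univ_three]
  simp only [Fin.val_zero, Fin.val_one, Fin.val_two, pow_zero, pow_one]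
  have e1 : p ^ 3 - p = p * (p ^ 2 - 1) := by rw [Nat.mul_sub]; ring_nf
  have e2 : p ^ 3 - p ^ 2 = p ^ 2 * (p - 1) := by rw [Nat.mul_sub]; ring_nf
  rw [e1, e2]
  intro hdvd
  have e3 : (p ^ 3 - 1) * (p * (p ^ 2 - 1)) * (p ^ 2 * (p - 1))
      = p ^ 3 * ((p ^ 3 - 1) * (p ^ 2 - 1) * (p - 1)) := by ring
  rw [e3, show p ^ 4 = p ^ 3 * p by ring] at hdvd
  have h4 : p ∣ (p ^ 3 - 1) * (p ^ 2 - 1) * (p - 1) :=
    (Nat.mul_dvd_mul_iff_left (pow_pos hpp.pos 3)).mp hdvd
  have hk : ∀ k : ℕ, 1 ≤ k → ¬ p ∣ p ^ k - 1 := by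
    intro k hk hd
    have h1 : p ∣ p ^ k := dvd_pow_self p (by omega)
    have h2 : p ∣ p ^ k - (p ^ k - 1) := Nat.dvd_sub h1 hd
    have h3 : p ^ k - (p ^ k - 1) = 1 := by
      have := Nat.one_le_pow k p hpp.pos
      omega
    rw [h3] at h2
    exact hpp.one_lt.ne' (Nat.dvd_one.mp h2)
  rcases (Nat.Prime.dvd_mul hpp).mp h4 with h5 | h5
  · rcases (Nat.Prime.dvd_mul hpp).mp h5 with h6 | h6
    · exact hk 3 (by norm_num) h6
    · exact hk 2 (by norm_num) h6
  · exact hk 1 (by norm_num) (by rwa [pow_one])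

theorem qd_card_dvd (p : ℕ) [Fact p.Prime] :
    Nat.card ↥(Cfsg.qd p) ∣ Nat.card (GL (Fin 3) (ZMod p)) := by
  apply Subgroup.card_dvd_of_injective
    ((Matrix.SpecialLinearGroup.toGL).comp (Cfsg.qd p).subtype)
  intro a b hab
  apply Subtype.ext
  apply Subtype.ext
  have e := congrArg (fun g : GL (Fin 3) (ZMod p) => (g : Matrix (Fin 3) (Fin 3) (ZMod p))) hab
  simpa using e

/-- Let p be an odd prime. A Sylow p-subgroup of Qd(p), the split extension of an elementary abelian group of order p² by SL₂(p) acting naturally, is extraspecial of order p³ and exponent p. -/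
theorem result (p : ℕ) [Fact p.Prime] (hp : p ≠ 2) (P : Sylow p ↥(Cfsg.qd p)) :
    Cfsg.IsExtraspecial p ↥P ∧ Nat.card P = p ^ 3 ∧ Monoid.exponent ↥P = p := by
  have hpp := (Fact.out : p.Prime)
  obtain ⟨U, hU⟩ : ∃ U : Subgroup ↥(Cfsg.qd p),
      U = (Cfsg.Agent.Lib.Helper6.qfT p hp).subgroupOf (Cfsg.qd p) := ⟨_, rfl⟩
  have hUmem : ∀ g : ↥(Cfsg.qd p), g ∈ U ↔ g.1 ∈ Cfsg.Agent.Lib.Helper6.qfT p hp := by
    intro g; rw [hU, Subgroup.mem_subgroupOf]
  have hUp : IsPGroup p U := by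
    intro g
    refine ⟨1, ?_⟩
    rw [pow_one]
    apply Subtype.ext
    apply Subtype.ext
    apply Subtype.ext
    have e := Cfsg.Agent.Lib.Helper6.qf_pow hp g.1.1.1 ((hUmem g.1).mp g.2)
    simpa using e
  have hUcard : p ^ 3 ≤ Nat.card U := by
    have hmem : ∀ t : ZMod p × ZMod p × ZMod p, ∃ g : U,
        g.1.1.1 = !![1, t.1, t.2.2; 0, 1, t.2.1; 0, 0, 1] := by
      intro t
      have hq : (⟨!![1, t.1, t.2.2; 0, 1, t.2.1; 0, 0, 1], by simp [Matrix.det_fin_three]⟩ :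
          SpecialLinearGroup (Fin 3) (ZMod p)) ∈ Cfsg.qd p :=
        Subgroup.subset_closure ⟨by simp, by simp, by simp⟩
      refine ⟨⟨⟨_, hq⟩, ?_⟩, rfl⟩
      rw [hUmem]
      show _ ∧ _ ∧ _ ∧ _ ∧ _ ∧ _
      simp
    choose φ hφ using hmem
    have hinj : Function.Injective φ := by
      intro s t hst
      have e := hφ s
      rw [hst, hφ t] at e
      have e01 := congrFun (congrFun e 0) 1
      have e12 := congrFun (congrFun e 1) 2
      have e02 := congrFun (congrFun e 0) 2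
      simp at e01 e12 e02
      exact Prod.ext e01.symm (Prod.ext e12.symm e02.symm)
    have hc : Nat.card (ZMod p × ZMod p × ZMod p) = p ^ 3 := by
      rw [Nat.card_prod, Nat.card_prod, Nat.card_zmod]; ring
    have hle := Nat.card_le_card_of_injective φ hinj
    rwa [hc] at hle
  obtain ⟨Q, hQ⟩ := hUp.exists_le_sylow
  have hcardQ := Q.card_eq_multiplicity
  have hcardP := P.card_eq_multiplicity
  obtain ⟨v, hv⟩ : ∃ v, v = (Nat.card ↥(Cfsg.qd p)).factorization p := ⟨_, rfl⟩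
  rw [← hv] at hcardQ hcardP
  have hv3 : v ≤ 3 := by
    by_contra hlt
    push_neg at hlt
    have h1 : p ^ 4 ∣ p ^ v := Nat.pow_dvd_pow p hlt
    have h2 : p ^ v ∣ Nat.card ↥(Cfsg.qd p) := hcardQ ▸ Subgroup.card_subgroup_dvd_card _
    exact Cfsg.Agent.S3074.gl_card_not_dvd p
      (dvd_trans h1 (dvd_trans h2 (Cfsg.Agent.S3074.qd_card_dvd p)))
  have hQU : Nat.card U ≤ Nat.card Q :=
    Nat.card_le_card_of_injective (Subgroup.inclusion hQ) (Subgroup.inclusion_injective hQ)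
  have hv3' : v = 3 := by
    have h1 : p ^ 3 ≤ p ^ v := by rw [← hcardQ]; exact le_trans hUcard hQU
    have h2 := (Nat.pow_le_pow_iff_right hpp.one_lt).mp h1
    omega
  rw [hv3'] at hcardQ hcardP
  have hUQ : U = (Q : Subgroup ↥(Cfsg.qd p)) :=
    Subgroup.eq_of_le_of_card_ge hQ (by rw [hcardQ]; exact hUcard)
  obtain ⟨g, hg⟩ := MulAction.exists_smul_eq ↥(Cfsg.qd p) P Q
  have hgU : ((g • P : Sylow p ↥(Cfsg.qd p)) : Subgroup ↥(Cfsg.qd p)) = U := by rw [hg, hUQ]
  obtain ⟨e⟩ : Nonempty (↥P ≃* ↥(g • P : Sylow p ↥(Cfsg.qd p))) := ⟨Sylow.equivSMul P g⟩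
  have hexp : ∀ x : ↥P, x ^ p = 1 := by
    intro x
    apply e.injective
    rw [map_pow, map_one]
    apply Subtype.ext
    apply Subtype.ext
    apply Subtype.ext
    have hx' : (e x).1 ∈ U := by rw [← hgU]; exact (e x).2
    have e1 := Cfsg.Agent.Lib.Helper6.qf_pow hp (e x).1.1.1 ((hUmem _).mp hx')
    simpa using e1
  have hnc : ∃ a b : ↥P, a * b ≠ b * a := by
    have hx : ∃ g0 : ↥(Cfsg.qd p), g0 ∈ U ∧ g0.1.1 = !![1, 1, 0; 0, 1, 0; 0, 0, 1] := by
      have hq : (⟨!![1, 1, 0; 0, 1, 0; 0, 0, 1], by simp [Matrix.det_fin_three]⟩ :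
          SpecialLinearGroup (Fin 3) (ZMod p)) ∈ Cfsg.qd p :=
        Subgroup.subset_closure ⟨by simp, by simp, by simp⟩
      refine ⟨⟨_, hq⟩, ?_, rfl⟩
      rw [hUmem]
      show _ ∧ _ ∧ _ ∧ _ ∧ _ ∧ _
      simp
    have hy : ∃ g0 : ↥(Cfsg.qd p), g0 ∈ U ∧ g0.1.1 = !![1, 0, 0; 0, 1, 1; 0, 0, 1] := by
      have hq : (⟨!![1, 0, 0; 0, 1, 1; 0, 0, 1], by simp [Matrix.det_fin_three]⟩ :
          SpecialLinearGroup (Fin 3) (ZMod p)) ∈ Cfsg.qd p :=
        Subgroup.subset_closure ⟨by simp, by simp, by simp⟩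
      refine ⟨⟨_, hq⟩, ?_, rfl⟩
      rw [hUmem]
      show _ ∧ _ ∧ _ ∧ _ ∧ _ ∧ _
      simp
    obtain ⟨x0, hx0U, hx0⟩ := hx
    obtain ⟨y0, hy0U, hy0⟩ := hy
    have hx0P : x0 ∈ ((g • P : Sylow p ↥(Cfsg.qd p)) : Subgroup ↥(Cfsg.qd p)) := by
      rw [hgU]; exact hx0U
    have hy0P : y0 ∈ ((g • P : Sylow p ↥(Cfsg.qd p)) : Subgroup ↥(Cfsg.qd p)) := by
      rw [hgU]; exact hy0U
    refine ⟨e.symm ⟨x0, hx0P⟩, e.symm ⟨y0, hy0P⟩, ?_⟩
    intro hab
    have h1 := congrArg e hab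
    rw [map_mul, map_mul, MulEquiv.apply_symm_apply, MulEquiv.apply_symm_apply] at h1
    have key2 : x0.1.1 * y0.1.1 = y0.1.1 * x0.1.1 := by
      have e2 := congrArg (fun z : ↥(g • P : Sylow p ↥(Cfsg.qd p)) =>
        (z.1.1.1 : Matrix (Fin 3) (Fin 3) (ZMod p))) h1
      simpa using e2
    have key3 := congrFun (congrFun key2 0) 2
    rw [hx0, hy0] at key3
    simp [Matrix.mul_apply, Fin.sum_univ_three] at key3
  have hPcard : Nat.card ↥P = p ^ 3 := hcardP
  obtain ⟨hes, hexpo⟩ := Cfsg.Agent.S3074.es_of_pcube hPcard hnc hexp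
  exact ⟨hes, hPcard, hexpo⟩

end Cfsg.Agent.S3074
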