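import Mathlib
import Cfsg.Statements.S3076

set_option autoImplicit false
set_option linter.unusedSectionVars false
set_option linter.style.haveILetI false

open Cfsg

namespace Cfsg.Agent.S3076

theorem pcore_le_sylow {Y : Type*} [Group Y] [Finite Y] {p : ℕ} [Fact p.Prime] (S : Sylow p Y) :
    Cfsg.pCore p Y ≤ S := by
  show sSup {N : Subgroup Y | N.Normal ∧ IsPGroup p N} ≤ S
  apply sSup_le
  rintro N ⟨hN1, hN2⟩
  haveI := hN1
  exact hN2.le_sylow_of_normal S

theorem pcore_isP {Y : Type*} [Group Y] [Finite Y] {p : ℕ} [Fact p.Prime] :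
    IsPGroup p (Cfsg.pCore p Y) := by
  obtain ⟨S⟩ : Nonempty (Sylow p Y) := inferInstance
  exact S.isPGroup'.to_le (pcore_le_sylow S)

theorem le_pcore {Y : Type*} [Group Y] {p : ℕ} (N : Subgroup Y) (h1 : N.Normal) (h2 : IsPGroup p N) :
    N ≤ Cfsg.pCore p Y :=
  le_sSup (show N ∈ {N : Subgroup Y | N.Normal ∧ IsPGroup p N} from ⟨h1, h2⟩)

theorem sylow_inf {X : Type*} [Group X] [Finite X] {p : ℕ} [Fact p.Prime] (S : Sylow p X)
    (C0 : Subgroup X) [C0.Normal] : ¬ p ∣ ((S : Subgroup X) ⊓ C0).relIndex C0 := by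
  have e1 : Nat.card ↥((S : Subgroup X) ⊓ C0) * ((S : Subgroup X) ⊓ C0).relIndex C0 = Nat.card C0 := by
    have := Subgroup.relIndex_mul_relIndex (⊥ : Subgroup X) ((S : Subgroup X) ⊓ C0) C0 bot_le inf_le_right
    rwa [Subgroup.relIndex_bot_left, Subgroup.relIndex_bot_left] at this
  have e2 : Nat.card ↥((S : Subgroup X) ⊓ C0) * ((S : Subgroup X) ⊓ C0).relIndex (S : Subgroup X)
      = Nat.card (S : Subgroup X) := by
    have := Subgroup.relIndex_mul_relIndex (⊥ : Subgroup X) ((S : Subgroup X) ⊓ C0) (S : Subgroup X)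
      bot_le inf_le_left
    rwa [Subgroup.relIndex_bot_left, Subgroup.relIndex_bot_left] at this
  have e3 : Nat.card C0 * C0.relIndex ((S : Subgroup X) ⊔ C0) = Nat.card ↥((S : Subgroup X) ⊔ C0) := by
    have := Subgroup.relIndex_mul_relIndex (⊥ : Subgroup X) C0 ((S : Subgroup X) ⊔ C0) bot_le le_sup_right
    rwa [Subgroup.relIndex_bot_left, Subgroup.relIndex_bot_left] at this
  have e4 : Nat.card (S : Subgroup X) * (S : Subgroup X).relIndex ((S : Subgroup X) ⊔ C0)
      = Nat.card ↥((S : Subgroup X) ⊔ C0) := by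
    have := Subgroup.relIndex_mul_relIndex (⊥ : Subgroup X) (S : Subgroup X) ((S : Subgroup X) ⊔ C0)
      bot_le le_sup_left
    rwa [Subgroup.relIndex_bot_left, Subgroup.relIndex_bot_left] at this
  have e5 : C0.relIndex ((S : Subgroup X) ⊔ C0) = C0.relIndex (S : Subgroup X) :=
    Subgroup.relIndex_sup_right (S : Subgroup X) C0
  have e6 : ((S : Subgroup X) ⊓ C0).relIndex (S : Subgroup X) = C0.relIndex (S : Subgroup X) :=
    Subgroup.inf_relIndex_left (S : Subgroup X) C0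
  have hpos : 0 < Nat.card (S : Subgroup X) := Nat.card_pos
  have key : (Nat.card (S : Subgroup X)) * ((S : Subgroup X) ⊓ C0).relIndex C0
      = (Nat.card (S : Subgroup X)) * (S : Subgroup X).relIndex ((S : Subgroup X) ⊔ C0) := by
    rw [e4, ← e3, e5, ← e6, ← e1, ← e2]; ring
  have heq := Nat.eq_of_mul_eq_mul_left hpos key
  intro hdvd
  rw [heq] at hdvd
  exact S.not_dvd_index (hdvd.trans (Subgroup.relIndex_dvd_index_of_le le_sup_left))

theorem pcompl {X : Type*} [Group X] [Finite X] {p : ℕ} [Fact p.Prime] (C0 Z : Subgroup X)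
    [C0.Normal] [Z.Normal] (hcen : ∀ z ∈ Z, ∀ c ∈ C0, z * c = c * z)
    (hZp : IsPGroup p Z) (hidx : ¬ p ∣ Z.relIndex C0) :
    ∃ Q : Subgroup X, Q.Normal ∧ (Nat.card Q).Coprime p ∧ ∀ c ∈ C0, ∃ z ∈ Z, ∃ q ∈ Q, c = z * q := by
  classical
  have hp : p.Prime := Fact.out
  haveI : (Z.subgroupOf C0).Normal := inferInstance
  have hZ'p : IsPGroup p (Z.subgroupOf C0) := hZp.comap_subtype
  obtain ⟨n, hn⟩ := IsPGroup.iff_card.mp hZ'p
  have hcopm : p.Coprime (Z.relIndex C0) := (Nat.Prime.coprime_iff_not_dvd hp).mpr hidx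
  have hcop : Nat.Coprime (Nat.card (Z.subgroupOf C0)) (Z.subgroupOf C0).index := by
    rw [hn]; exact Nat.Coprime.pow_left n hcopm
  obtain ⟨Q0, hQ0⟩ := Subgroup.exists_right_complement'_of_coprime hcop
  have hcard : Nat.card Q0 = Z.relIndex C0 := by
    have h1 := hQ0.card_mul_card
    have h2 := (Z.subgroupOf C0).card_mul_index
    have hpos : 0 < Nat.card (Z.subgroupOf C0) := Nat.card_pos
    exact Nat.eq_of_mul_eq_mul_left hpos (h1.trans h2.symm)
  have hQpow : ∀ q : ↥C0, q ∈ Q0 → q ^ (Z.relIndex C0) = 1 := by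
    intro q hq
    have : (⟨q, hq⟩ : ↥Q0) ^ Nat.card ↥Q0 = 1 := pow_card_eq_one'
    rw [hcard] at this
    simpa using congrArg Subtype.val this
  have hchar : ∀ c : ↥C0, c ^ (Z.relIndex C0) = 1 → c ∈ Q0 := by
    intro c hc
    obtain ⟨⟨⟨z, hz⟩, ⟨q, hq⟩⟩, hzq, -⟩ := Subgroup.isComplement_iff_existsUnique.mp hQ0 c
    simp only at hzq
    have hcomm : Commute z q := by
      have := hcen (z : X) (Subgroup.mem_subgroupOf.mp hz) (q : X) q.2
      exact Subtype.ext this
    have hq1 : q ^ (Z.relIndex C0) = 1 := hQpow q hq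
    have hz1 : z ^ (Z.relIndex C0) = 1 := by
      rw [← hzq, hcomm.mul_pow, hq1, mul_one] at hc
      exact hc
    obtain ⟨k, hk⟩ := hZ'p ⟨z, hz⟩
    have hk' : z ^ (p ^ k) = 1 := by simpa using congrArg Subtype.val hk
    have hd1 : orderOf z ∣ Z.relIndex C0 := orderOf_dvd_of_pow_eq_one hz1
    have hd2 : orderOf z ∣ p ^ k := orderOf_dvd_of_pow_eq_one hk'
    have hone : orderOf z = 1 :=
      Nat.Coprime.eq_one_of_dvd (Nat.Coprime.coprime_dvd_left hd1 (Nat.Coprime.pow_left k hcopm).symm) hd2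
    rw [orderOf_eq_one_iff] at hone
    rw [← hzq, hone, one_mul]
    exact hq
  refine ⟨Q0.map C0.subtype, ⟨?_⟩, ?_, ?_⟩
  · rintro _ ⟨c, hc, rfl⟩ g
    have hgc : g * (c : X) * g⁻¹ ∈ C0 := (inferInstance : C0.Normal).conj_mem _ c.2 g
    refine ⟨⟨g * (c : X) * g⁻¹, hgc⟩, ?_, rfl⟩
    apply hchar
    apply Subtype.ext
    have h1 : (c : X) ^ (Z.relIndex C0) = 1 := by
      have := hQpow c hc
      simpa using congrArg Subtype.val this
    show (g * (c : X) * g⁻¹) ^ (Z.relIndex C0) = 1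
    rw [conj_pow, h1, mul_one, mul_inv_cancel]
  · rw [Subgroup.card_map_of_injective (Subgroup.subtype_injective C0), hcard]
    exact hcopm.symm
  · intro c hc
    obtain ⟨⟨⟨z, hz⟩, ⟨q, hq⟩⟩, hzq, -⟩ := Subgroup.isComplement_iff_existsUnique.mp hQ0 ⟨c, hc⟩
    simp only at hzq
    refine ⟨(z : X), Subgroup.mem_subgroupOf.mp hz, (q : X), ⟨q, hq, rfl⟩, ?_⟩
    exact (congrArg Subtype.val hzq).symm

theorem abs {X : Type*} [Group X] [Finite X] {p : ℕ} [Fact p.Prime] (S : Sylow p X)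
    (H0 C0 : Subgroup X) [hH : H0.Normal] [hC : C0.Normal] (hHS : H0 ≤ S)
    (hCdef : ∀ x : X, x ∈ C0 ↔ ∀ h ∈ H0, h * x = x * h) :
    (H0 ≤ (Cfsg.pCore p (X ⧸ C0)).comap (QuotientGroup.mk' C0) ∧
      ¬ p ∣ H0.relIndex ((Cfsg.pCore p (X ⧸ C0)).comap (QuotientGroup.mk' C0))) ↔
    ((S : Subgroup X) ⊓ C0 ≤ H0 ∧ Cfsg.pPrimePCore p X = H0 ⊔ C0) := by
  classical
  have hp : p.Prime := Fact.out
  set M : Subgroup X := (Cfsg.pCore p (X ⧸ C0)).comap (QuotientGroup.mk' C0) with hM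
  have hH0p : IsPGroup p H0 := S.isPGroup'.to_le hHS
  have hMn : M.Normal := (inferInstance : (Cfsg.pCore p (X ⧸ C0)).Normal).comap _
  have hC0M : C0 ≤ M := by
    intro c hc
    rw [hM, Subgroup.mem_comap]
    have : QuotientGroup.mk' C0 c = 1 := (QuotientGroup.eq_one_iff c).mpr hc
    rw [this]; exact Subgroup.one_mem _
  have hH0M : H0 ≤ M := by
    rw [hM, ← Subgroup.map_le_iff_le_comap]
    exact le_pcore _ (hH.map _ (QuotientGroup.mk'_surjective C0)) (hH0p.map _)
  have hHCM : H0 ⊔ C0 ≤ M := sup_le hH0M hC0M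
  have hM2 : ∃ k : ℕ, C0.relIndex M = p ^ k := by
    have h1 : C0.relIndex M = Nat.card (M.map (QuotientGroup.mk' C0)) := by
      have := Subgroup.relIndex_ker (K := M) (f := QuotientGroup.mk' C0)
      rwa [QuotientGroup.ker_mk'] at this
    have h2 : M.map (QuotientGroup.mk' C0) = Cfsg.pCore p (X ⧸ C0) :=
      Subgroup.map_comap_eq_self_of_surjective (QuotientGroup.mk'_surjective C0) _
    rw [h1, h2]
    exact IsPGroup.iff_card.mp pcore_isP
  have hMpow : ∀ x ∈ M, ∃ k : ℕ, x ^ (p ^ k) ∈ C0 := by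
    intro x hx
    have hx' : QuotientGroup.mk' C0 x ∈ Cfsg.pCore p (X ⧸ C0) := hx
    obtain ⟨k, hk⟩ := (pcore_isP (p := p) (Y := X ⧸ C0)) ⟨_, hx'⟩
    refine ⟨k, ?_⟩
    have hk' : (QuotientGroup.mk' C0 x) ^ (p ^ k) = 1 := by simpa using congrArg Subtype.val hk
    rw [← map_pow] at hk'
    exact (QuotientGroup.eq_one_iff _).mp hk'
  have hKC : Cfsg.pPrimeCore p X ≤ C0 := by
    show sSup {N : Subgroup X | N.Normal ∧ (Nat.card N).Coprime p} ≤ C0
    apply sSup_le
    rintro N ⟨hN1, hN2⟩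
    intro x hx
    rw [hCdef]
    intro h hh
    have hdisj : Disjoint H0 N := by
      apply Subgroup.disjoint_of_coprime_natCard
      obtain ⟨n, hn⟩ := IsPGroup.iff_card.mp hH0p
      rw [hn]; exact (Nat.Coprime.pow_right n hN2).symm
    exact (Subgroup.commute_of_normal_of_disjoint H0 N hH hN1 hdisj h x hh hx).eq
  have hLdef : Cfsg.pPrimePCore p X = (Cfsg.pCore p (X ⧸ Cfsg.pPrimeCore p X)).comap
      (QuotientGroup.mk' (Cfsg.pPrimeCore p X)) := rfl
  have hKL : Cfsg.pPrimeCore p X ≤ Cfsg.pPrimePCore p X := by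
    intro c hc
    rw [hLdef, Subgroup.mem_comap]
    have : QuotientGroup.mk' (Cfsg.pPrimeCore p X) c = 1 := (QuotientGroup.eq_one_iff c).mpr hc
    rw [this]; exact Subgroup.one_mem _
  have hLn : (Cfsg.pPrimePCore p X).Normal := by
    rw [hLdef]
    exact (inferInstance : (Cfsg.pCore p (X ⧸ Cfsg.pPrimeCore p X)).Normal).comap _
  have hH0L : H0 ≤ Cfsg.pPrimePCore p X := by
    rw [hLdef, ← Subgroup.map_le_iff_le_comap]
    exact le_pcore _ (hH.map _ (QuotientGroup.mk'_surjective _)) (hH0p.map _)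
  have hLM : Cfsg.pPrimePCore p X ≤ M := by
    rw [hM, ← Subgroup.map_le_iff_le_comap]
    apply le_pcore _ (hLn.map _ (QuotientGroup.mk'_surjective C0))
    rintro ⟨_, x, hx, rfl⟩
    have hx' : QuotientGroup.mk' (Cfsg.pPrimeCore p X) x ∈ Cfsg.pCore p (X ⧸ Cfsg.pPrimeCore p X) := hx
    obtain ⟨k, hk⟩ := (pcore_isP (p := p) (Y := X ⧸ Cfsg.pPrimeCore p X)) ⟨_, hx'⟩
    have hk' : (QuotientGroup.mk' (Cfsg.pPrimeCore p X) x) ^ (p ^ k) = 1 := by
      simpa using congrArg Subtype.val hk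
    rw [← map_pow] at hk'
    have hxK : x ^ (p ^ k) ∈ Cfsg.pPrimeCore p X := (QuotientGroup.eq_one_iff _).mp hk'
    refine ⟨k, Subtype.ext ?_⟩
    show (QuotientGroup.mk' C0 x) ^ (p ^ k) = 1
    rw [← map_pow]
    exact (QuotientGroup.eq_one_iff _).mpr (hKC hxK)
  have hZcen : ∀ z ∈ H0 ⊓ C0, ∀ c ∈ C0, z * c = c * z := by
    intro z hz c hc
    exact (hCdef c).mp hc z hz.1
  have hZp : IsPGroup p ↥(H0 ⊓ C0) := hH0p.to_le inf_le_left
  have hrel : H0.relIndex (H0 ⊔ C0) = (H0 ⊓ C0).relIndex C0 := by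
    rw [sup_comm H0 C0, Subgroup.relIndex_sup_right C0 H0, Subgroup.inf_relIndex_right]
  have withQ : ¬ p ∣ (H0 ⊓ C0).relIndex C0 → (C0 ≤ Cfsg.pPrimePCore p X ∧ M ≤ Cfsg.pPrimePCore p X) := by
    intro hidx
    obtain ⟨Q, hQn, hQc, hQd⟩ := pcompl C0 (H0 ⊓ C0) hZcen hZp hidx
    have hQK : Q ≤ Cfsg.pPrimeCore p X :=
      le_sSup (show Q ∈ {N : Subgroup X | N.Normal ∧ (Nat.card N).Coprime p} from ⟨hQn, hQc⟩)
    have hC0L : C0 ≤ Cfsg.pPrimePCore p X := by
      intro c hc
      obtain ⟨z, hz, q, hq, hzq⟩ := hQd c hc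
      rw [hzq]
      exact (Cfsg.pPrimePCore p X).mul_mem (hH0L hz.1) (hKL (hQK hq))
    refine ⟨hC0L, ?_⟩
    rw [hLdef, ← Subgroup.map_le_iff_le_comap]
    apply le_pcore _ (hMn.map _ (QuotientGroup.mk'_surjective _))
    rintro ⟨_, x, hx, rfl⟩
    obtain ⟨k, hk⟩ := hMpow x hx
    obtain ⟨z, hz, q, hq, hzq⟩ := hQd _ hk
    obtain ⟨j, hj⟩ := hH0p ⟨z, hz.1⟩
    have hj' : z ^ (p ^ j) = 1 := by simpa using congrArg Subtype.val hj
    refine ⟨k + j, Subtype.ext ?_⟩
    show (QuotientGroup.mk' (Cfsg.pPrimeCore p X) x) ^ (p ^ (k + j)) = 1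
    have h1 : (QuotientGroup.mk' (Cfsg.pPrimeCore p X) x) ^ (p ^ k)
        = QuotientGroup.mk' (Cfsg.pPrimeCore p X) z := by
      rw [← map_pow, hzq, map_mul]
      have : QuotientGroup.mk' (Cfsg.pPrimeCore p X) q = 1 := (QuotientGroup.eq_one_iff q).mpr (hQK hq)
      rw [this, mul_one]
    rw [pow_add, pow_mul, h1, ← map_pow, hj', map_one]
  constructor
  · rintro ⟨-, hA⟩
    have hMle : M ≤ H0 ⊔ C0 := by
      rw [← Subgroup.relIndex_eq_one]
      obtain ⟨k, hk⟩ := hM2
      have d1 : (H0 ⊔ C0).relIndex M ∣ p ^ k := by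
        rw [← hk]; exact Subgroup.relIndex_dvd_of_le_left M le_sup_right
      have d2 : (H0 ⊔ C0).relIndex M ∣ H0.relIndex M := Subgroup.relIndex_dvd_of_le_left M le_sup_left
      obtain ⟨j, -, hj⟩ := (Nat.dvd_prime_pow hp).mp d1
      rcases j with _ | j
      · simpa using hj
      · exfalso
        apply hA
        refine dvd_trans ?_ d2
        rw [hj]; exact dvd_pow_self p (Nat.succ_ne_zero j)
    have hidx : ¬ p ∣ (H0 ⊓ C0).relIndex C0 := by
      rw [← hrel]
      intro hd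
      apply hA
      have := Subgroup.relIndex_mul_relIndex H0 (H0 ⊔ C0) M le_sup_left hHCM
      rw [← this]; exact dvd_mul_of_dvd_left hd _
    obtain ⟨hC0L, -⟩ := withQ hidx
    refine ⟨?_, le_antisymm (hLM.trans hMle) (sup_le hH0L hC0L)⟩
    have hle : H0 ⊓ C0 ≤ (S : Subgroup X) ⊓ C0 := inf_le_inf_right _ hHS
    have d3 : (H0 ⊓ C0).relIndex ((S : Subgroup X) ⊓ C0) ∣ (H0 ⊓ C0).relIndex C0 := by
      have := Subgroup.relIndex_mul_relIndex (H0 ⊓ C0) ((S : Subgroup X) ⊓ C0) C0 hle inf_le_right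
      rw [← this]; exact dvd_mul_right _ _
    have hSp : IsPGroup p ↥((S : Subgroup X) ⊓ C0) := S.isPGroup'.to_le inf_le_left
    obtain ⟨n, hn⟩ := IsPGroup.iff_card.mp hSp
    have d4 : (H0 ⊓ C0).relIndex ((S : Subgroup X) ⊓ C0) ∣ p ^ n := by
      rw [← hn]; exact Subgroup.relIndex_dvd_card _ _
    obtain ⟨j, -, hj⟩ := (Nat.dvd_prime_pow hp).mp d4
    have h1 : (H0 ⊓ C0).relIndex ((S : Subgroup X) ⊓ C0) = 1 := by
      rcases j with _ | j
      · simpa using hj
      · exfalso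
        apply hidx
        refine dvd_trans ?_ d3
        rw [hj]; exact dvd_pow_self p (Nat.succ_ne_zero j)
    exact (Subgroup.relIndex_eq_one.mp h1).trans inf_le_left
  · rintro ⟨hi, hii⟩
    have hZeq : (S : Subgroup X) ⊓ C0 = H0 ⊓ C0 :=
      le_antisymm (le_inf hi inf_le_right) (inf_le_inf_right _ hHS)
    have hidx : ¬ p ∣ (H0 ⊓ C0).relIndex C0 := by
      rw [← hZeq]; exact sylow_inf S C0
    obtain ⟨-, hML⟩ := withQ hidx
    have hMeq : M = H0 ⊔ C0 := le_antisymm (hML.trans hii.le) hHCM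
    refine ⟨hH0M, ?_⟩
    rw [hMeq, hrel]
    exact hidx

/-- Let P be a Sylow p-subgroup of the finite group G and H ≤ P a subgroup with N_P(H) a Sylow p-subgroup of N_G(H). Let N be the preimage in N_G(H) of O_p(N_G(H)/C_G(H)). Then H is a Sylow p-subgroup of N if and only if C_P(H) ≤ H and O_{p',p}(N_G(H)) = H·C_G(H). -/
theorem result {G : Type*} [Group G] [Finite G] {p : ℕ} [Fact p.Prime]
    (P : Sylow p G) (H : Subgroup G) (hHP : H ≤ (P : Subgroup G))
    (hSyl : ¬ p ∣ ((P : Subgroup G) ⊓ Subgroup.normalizer (H : Set G)).relIndex (Subgroup.normalizer (H : Set G)))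
    [hC : ((Subgroup.centralizer (H : Set G)).subgroupOf (Subgroup.normalizer (H : Set G))).Normal] :
    (H ≤ ((Cfsg.pCore p (↥(Subgroup.normalizer (H : Set G)) ⧸
              (Subgroup.centralizer (H : Set G)).subgroupOf (Subgroup.normalizer (H : Set G)))).comap
            (QuotientGroup.mk' _)).map (Subgroup.normalizer (H : Set G)).subtype ∧
      ¬ p ∣ H.relIndex (((Cfsg.pCore p (↥(Subgroup.normalizer (H : Set G)) ⧸
              (Subgroup.centralizer (H : Set G)).subgroupOf (Subgroup.normalizer (H : Set G)))).comap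
            (QuotientGroup.mk' _)).map (Subgroup.normalizer (H : Set G)).subtype)) ↔
    ((P : Subgroup G) ⊓ Subgroup.centralizer (H : Set G) ≤ H ∧
      (Cfsg.pPrimePCore p ↥(Subgroup.normalizer (H : Set G))).map (Subgroup.normalizer (H : Set G)).subtype =
        H ⊔ Subgroup.centralizer (H : Set G)) := by
  classical
  have hHN : H ≤ Subgroup.normalizer (H : Set G) := Subgroup.le_normalizer
  have hCN : Subgroup.centralizer (H : Set G) ≤ Subgroup.normalizer (H : Set G) :=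
    Subgroup.centralizer_le_normalizer _
  haveI hH0n : (H.subgroupOf (Subgroup.normalizer (H : Set G))).Normal := Subgroup.normal_in_normalizer
  have hPp : IsPGroup p ((P : Subgroup G).subgroupOf (Subgroup.normalizer (H : Set G))) :=
    P.isPGroup'.comap_subtype
  have hPidx : ¬ p ∣ ((P : Subgroup G).subgroupOf (Subgroup.normalizer (H : Set G))).index := by
    intro h
    apply hSyl
    rw [Subgroup.inf_relIndex_right]
    exact h
  have hSmem : ∀ x : ↥(Subgroup.normalizer (H : Set G)),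
      x ∈ ((hPp.toSylow hPidx : Sylow p ↥(Subgroup.normalizer (H : Set G))) :
        Subgroup ↥(Subgroup.normalizer (H : Set G))) ↔ (x : G) ∈ (P : Subgroup G) := fun x => Iff.rfl
  have hHS : H.subgroupOf (Subgroup.normalizer (H : Set G)) ≤
      ((hPp.toSylow hPidx : Sylow p ↥(Subgroup.normalizer (H : Set G))) :
        Subgroup ↥(Subgroup.normalizer (H : Set G))) := by
    intro x hx
    exact (hSmem x).mpr (hHP (Subgroup.mem_subgroupOf.mp hx))
  have hCdef : ∀ x : ↥(Subgroup.normalizer (H : Set G)),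
      x ∈ (Subgroup.centralizer (H : Set G)).subgroupOf (Subgroup.normalizer (H : Set G)) ↔
      ∀ h ∈ H.subgroupOf (Subgroup.normalizer (H : Set G)), h * x = x * h := by
    intro x
    rw [Subgroup.mem_subgroupOf, Subgroup.mem_centralizer_iff]
    constructor
    · intro hx h hh
      exact Subtype.ext (hx (h : G) (Subgroup.mem_subgroupOf.mp hh))
    · intro hx h hh
      have := hx ⟨h, hHN hh⟩ (Subgroup.mem_subgroupOf.mpr hh)
      exact congrArg Subtype.val this
  have key := abs (hPp.toSylow hPidx) (H.subgroupOf (Subgroup.normalizer (H : Set G)))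
    ((Subgroup.centralizer (H : Set G)).subgroupOf (Subgroup.normalizer (H : Set G))) hHS hCdef
  have h1 : ∀ M' : Subgroup ↥(Subgroup.normalizer (H : Set G)),
      (H ≤ M'.map (Subgroup.normalizer (H : Set G)).subtype ↔
        H.subgroupOf (Subgroup.normalizer (H : Set G)) ≤ M') := by
    intro M'
    constructor
    · intro h x hx
      obtain ⟨y, hy, hyx⟩ := h (Subgroup.mem_subgroupOf.mp hx)
      have : y = x := Subtype.ext hyx
      rw [← this]; exact hy
    · intro h g hg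
      exact ⟨⟨g, hHN hg⟩, h (Subgroup.mem_subgroupOf.mpr hg), rfl⟩
  have h2 : ∀ M' : Subgroup ↥(Subgroup.normalizer (H : Set G)),
      H.relIndex (M'.map (Subgroup.normalizer (H : Set G)).subtype) =
        (H.subgroupOf (Subgroup.normalizer (H : Set G))).relIndex M' := by
    intro M'
    have e := Subgroup.relIndex_subgroupOf (H := H)
      (K := M'.map (Subgroup.normalizer (H : Set G)).subtype)
      (L := Subgroup.normalizer (H : Set G)) (Subgroup.map_subtype_le M')
    have e2 : (M'.map (Subgroup.normalizer (H : Set G)).subtype).subgroupOf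
        (Subgroup.normalizer (H : Set G)) = M' :=
      Subgroup.comap_map_eq_self_of_injective (Subgroup.subtype_injective _) M'
    rw [e2] at e
    exact e.symm
  have h3 : ((P : Subgroup G) ⊓ Subgroup.centralizer (H : Set G) ≤ H) ↔
      (((hPp.toSylow hPidx : Sylow p ↥(Subgroup.normalizer (H : Set G))) :
        Subgroup ↥(Subgroup.normalizer (H : Set G))) ⊓
        (Subgroup.centralizer (H : Set G)).subgroupOf (Subgroup.normalizer (H : Set G)) ≤
        H.subgroupOf (Subgroup.normalizer (H : Set G))) := by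
    constructor
    · intro h x hx
      exact Subgroup.mem_subgroupOf.mpr (h ⟨(hSmem x).mp hx.1, Subgroup.mem_subgroupOf.mp hx.2⟩)
    · intro h g hg
      have hgN : g ∈ Subgroup.normalizer (H : Set G) := hCN hg.2
      have := h (show (⟨g, hgN⟩ : ↥(Subgroup.normalizer (H : Set G))) ∈ _ from
        ⟨(hSmem _).mpr hg.1, Subgroup.mem_subgroupOf.mpr hg.2⟩)
      exact Subgroup.mem_subgroupOf.mp this
  have h4 : ((Cfsg.pPrimePCore p ↥(Subgroup.normalizer (H : Set G))).map
        (Subgroup.normalizer (H : Set G)).subtype = H ⊔ Subgroup.centralizer (H : Set G)) ↔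
      (Cfsg.pPrimePCore p ↥(Subgroup.normalizer (H : Set G)) =
        H.subgroupOf (Subgroup.normalizer (H : Set G)) ⊔
        (Subgroup.centralizer (H : Set G)).subgroupOf (Subgroup.normalizer (H : Set G))) := by
    constructor
    · intro h
      have e2 : ((Cfsg.pPrimePCore p ↥(Subgroup.normalizer (H : Set G))).map
          (Subgroup.normalizer (H : Set G)).subtype).subgroupOf (Subgroup.normalizer (H : Set G))
          = Cfsg.pPrimePCore p ↥(Subgroup.normalizer (H : Set G)) :=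
        Subgroup.comap_map_eq_self_of_injective (Subgroup.subtype_injective _) _
      rw [← e2, h, Subgroup.subgroupOf_sup hHN hCN]
    · intro h
      rw [h, Subgroup.map_sup, Subgroup.map_subgroupOf_eq_of_le hHN, Subgroup.map_subgroupOf_eq_of_le hCN]
  constructor
  · rintro ⟨a1, a2⟩
    have := key.mp ⟨(h1 _).mp a1, by rw [← h2]; exact a2⟩
    exact ⟨h3.mpr this.1, h4.mpr this.2⟩
  · rintro ⟨b1, b2⟩
    have := key.mpr ⟨h3.mp b1, h4.mp b2⟩
    exact ⟨(h1 _).mpr this.1, by rw [h2]; exact this.2⟩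

end Cfsg.Agent.S3076
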