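import Cfsg.Statements.S3087
import Cfsg.Agent.Lib.Helper2.CD
-- import your own Cfsg.Agent.* helpers here

set_option autoImplicit false
open Cfsg

namespace Cfsg.Agent.S3087

open Cfsg.Agent.Lib.Helper2

/-- Let p be a prime, G a finite group acting linearly on a finite vector space V over the field with p elements, W a G-invariant subspace, and A a subgroup of G with |A|·|C_V(A)| ≥ |B|·|C_V(B)| for every subgroup B of A. Then |A|·|C_W(A)| ≥ |B|·|C_W(B)| for every subgroup B of A that contains C_A(W); that is, the image of A in the group induced on W satisfies the same maximality condition. -/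
theorem result {G V : Type*} [Group G] [Finite G] [AddCommGroup V] [Finite V] (p : ℕ) [Fact p.Prime] [Module (ZMod p) V]
    (ρ : Representation (ZMod p) G V) (W : Submodule (ZMod p) V) (hW : ∀ g : G, ∀ w ∈ W, ρ g w ∈ W)
    (A : Subgroup G)
    (hP : ∀ B : Subgroup G, B ≤ A →
      Nat.card ↥B * Nat.card {v : V // ∀ b ∈ B, ρ b v = v} ≤ Nat.card ↥A * Nat.card {v : V // ∀ a ∈ A, ρ a v = v})
    (B : Subgroup G) (hBA : B ≤ A) (hCB : ∀ a ∈ A, (∀ w ∈ W, ρ a w = w) → a ∈ B) :
    Nat.card ↥B * Nat.card {w : W // ∀ b ∈ B, ρ b w = w} ≤ Nat.card ↥A * Nat.card {w : W // ∀ a ∈ A, ρ a w = w} := by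
  classical
  let fix : Subgroup G → Subgroup (Multiplicative V) := fun B =>
    { carrier := {v | ∀ b ∈ B, ρ b (Multiplicative.toAdd v) = Multiplicative.toAdd v}
      one_mem' := by intro b _; simp
      mul_mem' := by
        intro x y hx hy b hb
        simp only [toAdd_mul, map_add]
        rw [hx b hb, hy b hb]
      inv_mem' := by
        intro x hx b hb
        simp only [toAdd_inv, map_neg]
        rw [hx b hb] }
  let W' : Subgroup (Multiplicative V) := AddSubgroup.toSubgroup W.toAddSubgroup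
  have c1 : ∀ B : Subgroup G, Nat.card {v : V // ∀ b ∈ B, ρ b v = v} = Nat.card ↥(fix B) :=
    fun B => rfl
  have c2 : ∀ B : Subgroup G, Nat.card {w : W // ∀ b ∈ B, ρ b w = w} = Nat.card ↥(W' ⊓ fix B) :=
    fun B => Nat.card_congr (Equiv.subtypeSubtypeEquivSubtypeInter (fun v : V => v ∈ W)
      (fun v : V => ∀ b ∈ B, ρ b v = v))
  rw [c2 B, c2 A]
  have h1 := hP B hBA
  rw [c1 B, c1 A] at h1
  have hmono : fix A ≤ fix B := fun v hv b hb => hv b (hBA hb)
  have p1 := card_mul_le_card_sup_mul_card_inf (W' ⊓ fix B) (fix A)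
  have hsup : (W' ⊓ fix B) ⊔ fix A ≤ fix B := sup_le inf_le_right hmono
  have hinf : (W' ⊓ fix B) ⊓ fix A = W' ⊓ fix A := by rw [inf_assoc, inf_eq_right.mpr hmono]
  rw [hinf] at p1
  have p2 := Subgroup.card_le_of_le hsup
  have hpos : 0 < Nat.card (fix A) := Nat.card_pos
  apply Nat.le_of_mul_le_mul_right _ hpos
  calc Nat.card B * Nat.card ↥(W' ⊓ fix B) * Nat.card (fix A)
      = Nat.card B * (Nat.card ↥(W' ⊓ fix B) * Nat.card (fix A)) := by ring
    _ ≤ Nat.card B * (Nat.card ↥((W' ⊓ fix B) ⊔ fix A) * Nat.card ↥(W' ⊓ fix A)) :=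
        Nat.mul_le_mul_left _ p1
    _ ≤ Nat.card B * (Nat.card (fix B) * Nat.card ↥(W' ⊓ fix A)) :=
        Nat.mul_le_mul_left _ (Nat.mul_le_mul_right _ p2)
    _ = (Nat.card B * Nat.card (fix B)) * Nat.card ↥(W' ⊓ fix A) := by ring
    _ ≤ (Nat.card A * Nat.card (fix A)) * Nat.card ↥(W' ⊓ fix A) := Nat.mul_le_mul_right _ h1
    _ = Nat.card A * Nat.card ↥(W' ⊓ fix A) * Nat.card (fix A) := by ring

end Cfsg.Agent.S3087
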