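import Cfsg.Statements.S3116
import Mathlib
import Cfsg.Agent.Lib.Helper1.AutCyc

set_option autoImplicit false
open Cfsg

namespace Cfsg.Agent.S3116

/-- The automorphism group of a dihedral 2-group of order at least 8, or of a quasi-dihedral (semidihedral) 2-group of order at least 16, is a 2-group. -/
theorem result {X : Type*} [Group X] [Finite X] (h2 : IsPGroup 2 X)
    (h : (∃ n : ℕ, 4 ≤ n ∧ Nonempty (X ≃* DihedralGroup n)) ∨ Cfsg.IsQuasiDihedral X) : IsPGroup 2 (MulAut X) := by
  classical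
  haveI : Fact (Nat.Prime 2) := ⟨Nat.prime_two⟩
  rcases h with ⟨n, hn4, ⟨e⟩⟩ | ⟨n, hn3, hcard, x, y, hx, hy, hrel⟩
  · haveI : NeZero n := ⟨by omega⟩
    obtain ⟨K, hK⟩ := IsPGroup.iff_card.mp h2
    have hcardX : Nat.card X = 2 * n := by
      rw [Nat.card_congr e.toEquiv, DihedralGroup.nat_card]
    have hK1 : 1 ≤ K := by
      by_contra h
      have : K = 0 := by omega
      rw [this] at hK
      omega
    obtain ⟨M, rfl⟩ : ∃ M, K = M + 1 := ⟨K - 1, by omega⟩
    have hn : n = 2 ^ M := by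
      rw [hK, pow_succ] at hcardX
      omega
    have hM : 2 ≤ M := by
      by_contra h
      have : M = 0 ∨ M = 1 := by omega
      rcases this with rfl | rfl <;> simp at hn <;> omega
    have hc : orderOf (e.symm (DihedralGroup.r 1)) = 2 ^ M := by
      rw [MulEquiv.orderOf_eq, DihedralGroup.orderOf_r_one, hn]
    refine Cfsg.Agent.Lib.Helper1.aut_pgroup_of_cyc_max M (by omega) (e.symm (DihedralGroup.r 1)) hc ?_ ?_
    · have h1 := (Subgroup.zpowers (e.symm (DihedralGroup.r 1))).card_mul_index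
      rw [Nat.card_zpowers, hc, hK, pow_succ] at h1
      exact Nat.eq_of_mul_eq_mul_left (by positivity) h1
    · intro g hg
      rcases hg' : e g with i | i
      · have h1 : g = e.symm (DihedralGroup.r 1) ^ i.val := by
          rw [← map_pow, DihedralGroup.r_one_pow, ZMod.natCast_zmod_val, ← hg', e.symm_apply_apply]
        rw [h1]
        exact Subgroup.pow_mem _ (Subgroup.mem_zpowers _) _
      · exfalso
        have h1 : orderOf (e g) = orderOf g := MulEquiv.orderOf_eq e g
        rw [hg', DihedralGroup.orderOf_sr, hg] at h1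
        have : 2 ^ 2 ≤ 2 ^ M := Nat.pow_le_pow_right (by norm_num) hM
        omega
  · have hxn : x ^ 2 ^ n = 1 := by rw [← hx]; exact pow_orderOf_eq_one x
    have hy2 : y ^ 2 = 1 := by
      have := pow_orderOf_eq_one y
      rwa [hy] at this
    have hidx : (Subgroup.zpowers x).index = 2 := by
      have h1 := (Subgroup.zpowers x).card_mul_index
      rw [Nat.card_zpowers, hx, hcard, pow_succ] at h1
      exact Nat.eq_of_mul_eq_mul_left (by positivity) h1
    have h2n : 2 ^ 3 ≤ 2 ^ n := Nat.pow_le_pow_right (by norm_num) hn3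
    have e2 : 2 ^ n = 2 ^ (n - 1) * 2 := by
      rw [← pow_succ]; congr 1; omega
    have hyA : y ∉ Subgroup.zpowers x := by
      intro hyA
      obtain ⟨j, hj⟩ := Subgroup.mem_zpowers_iff.mp hyA
      have h1 : y * x * y⁻¹ = x := by
        rw [← hj]
        have : Commute (x ^ j) x := (Commute.refl x).zpow_left j
        rw [this.eq]; group
      rw [h1] at hrel
      have h3 : x ^ 1 = x ^ (2 ^ (n - 1) - 1) := by rw [pow_one]; exact hrel
      have h4 := pow_eq_pow_iff_modEq.mp h3
      rw [hx] at h4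
      have h5 : 1 % 2 ^ n = (2 ^ (n - 1) - 1) % 2 ^ n := h4
      have h6 : 2 ^ 2 ≤ 2 ^ (n - 1) := Nat.pow_le_pow_right (by norm_num) (by omega)
      rw [Nat.mod_eq_of_lt (by omega), Nat.mod_eq_of_lt (by omega)] at h5
      omega
    have hyinv : y⁻¹ ∉ Subgroup.zpowers x := fun h => hyA (by simpa using Subgroup.inv_mem _ h)
    refine Cfsg.Agent.Lib.Helper1.aut_pgroup_of_cyc_max n (by omega) x hx hidx ?_
    intro g hg
    by_contra hgA
    have h1 : y⁻¹ * g ∈ Subgroup.zpowers x :=
      (Subgroup.mul_mem_iff_of_index_two hidx).mpr (iff_of_false hyinv hgA)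
    rw [← mem_powers_iff_mem_zpowers, Submonoid.mem_powers_iff] at h1
    obtain ⟨j, hj⟩ := h1
    have hgj : g = y * x ^ j := by rw [hj]; group
    have hconj : y * x ^ j * y⁻¹ = x ^ ((2 ^ (n - 1) - 1) * j) := by
      rw [← conj_pow, hrel, ← pow_mul]
    have hg2 : g ^ 2 = x ^ (2 ^ (n - 1) * j) := by
      have h3 : g ^ 2 = (y * x ^ j * y⁻¹) * y ^ 2 * x ^ j := by
        rw [hgj, pow_two, pow_two]; group
      rw [h3, hconj, hy2, mul_one, ← pow_add]
      congr 1
      have : 1 ≤ 2 ^ (n - 1) := Nat.one_le_two_pow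
      have h4 : (2 ^ (n - 1) - 1) * j + j = (2 ^ (n - 1) - 1 + 1) * j := by ring
      rw [h4, Nat.sub_add_cancel this]
    have hg4 : g ^ 4 = 1 := by
      have : g ^ 4 = (g ^ 2) ^ 2 := by rw [← pow_mul]
      rw [this, hg2, ← pow_mul, show 2 ^ (n - 1) * j * 2 = 2 ^ n * j from by rw [e2]; ring, pow_mul,
        hxn, one_pow]
    have h5 : orderOf g ∣ 4 := orderOf_dvd_of_pow_eq_one hg4
    rw [hg] at h5
    have := Nat.le_of_dvd (by norm_num) h5
    omega

end Cfsg.Agent.S3116
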