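import Cfsg.Statements.S3155
import Mathlib

set_option autoImplicit false
open Cfsg

namespace Cfsg.Agent.S3155

theorem no_sqrt_neg (φ : (ZMod 4 × ZMod 4 × ZMod 4) →+ (ZMod 4 × ZMod 4 × ZMod 4))
    (h : ∀ v, φ (φ v) = -v) : False := by
  haveI : Fact (1 < 4) := ⟨by norm_num⟩
  set L := φ.toZModLinearMap 4 with hL
  have h1 : L ∘ₗ L = (-1 : ZMod 4) • LinearMap.id := by
    apply LinearMap.ext
    intro v
    simp [hL, h]
  have h2 := congrArg LinearMap.det h1
  rw [LinearMap.det_comp, LinearMap.det_smul, LinearMap.det_id] at h2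
  have h3 : Module.finrank (ZMod 4) (ZMod 4 × ZMod 4 × ZMod 4) = 3 := by
    rw [Module.finrank_prod, Module.finrank_prod, Module.finrank_self]
  rw [h3] at h2
  have : ∀ d : ZMod 4, d * d ≠ (-1)^3 * 1 := by decide
  exact this _ h2

/-- Let B be the direct product of three cyclic groups of order 4. Then the automorphism of B inverting every element is not the square of any automorphism of B. -/
theorem result {B : Type*} [CommGroup B] [Finite B] (hB : Nonempty (B ≃* Multiplicative (ZMod 4 × ZMod 4 × ZMod 4)))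
    (τ : B ≃* B) : τ.trans τ ≠ MulEquiv.inv B := by
  classical
  obtain ⟨e⟩ := hB
  intro h
  let ψ : Multiplicative (ZMod 4 × ZMod 4 × ZMod 4) →* Multiplicative (ZMod 4 × ZMod 4 × ZMod 4) :=
    e.toMonoidHom.comp (τ.toMonoidHom.comp e.symm.toMonoidHom)
  have h1 : ∀ x, ψ (ψ x) = x⁻¹ := by
    intro x
    show e (τ (e.symm (e (τ (e.symm x))))) = x⁻¹
    rw [e.symm_apply_apply]
    have h2 : τ (τ (e.symm x)) = (e.symm x)⁻¹ := by
      have := DFunLike.congr_fun h (e.symm x)
      simpa using this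
    rw [h2, map_inv, e.apply_symm_apply]
  apply no_sqrt_neg (AddMonoidHom.toMultiplicative.symm ψ)
  intro v
  show Multiplicative.toAdd (ψ (ψ (Multiplicative.ofAdd v))) = -v
  rw [h1]
  rfl

end Cfsg.Agent.S3155
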