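import Cfsg.Statements.S3180
import Mathlib
import Cfsg.Agent.Lib.Helper1.StronglyEmb3
import Cfsg.Agent.Lib.Helper1.StronglyEmb2
import Cfsg.Agent.Lib.Helper8.CoprimeSylow
import Cfsg.Agent.Lib.Helper6.FixedPts

set_option autoImplicit false
open Cfsg

namespace Cfsg.Agent.S3180

/-- Let P be a Sylow p-subgroup of a finite group J and P₁ a subgroup of P that is weakly closed in P with respect to J. If J acts on a set and two points, each fixed by every element of P₁, lie in one J-orbit, then they lie in one orbit of the normalizer of P₁ in J. -/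
theorem result {J : Type*} [Group J] [Finite J]
    {p : ℕ} [Fact p.Prime] (P : Sylow p J) (P₁ : Subgroup J) (hW : Cfsg.IsWeaklyClosed P₁ (P : Subgroup J))
    {Ω : Type*} [MulAction J Ω] (x y : Ω) (hx : ∀ g ∈ P₁, g • x = x) (hy : ∀ g ∈ P₁, g • y = y)
    (hc : ∃ g : J, g • x = y) :
    ∃ g ∈ Subgroup.normalizer (P₁ : Set J), g • x = y := by
  open Cfsg.Agent.Lib.Helper1 Cfsg.Agent.Lib.Helper8 in
  classical
  obtain ⟨g, hg⟩ := hc
  obtain ⟨hP1P, hW2⟩ := hW
  have hP1p : IsPGroup p P₁ := P.isPGroup'.to_le hP1P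
  have hP1x : P₁ ≤ MulAction.stabilizer J x := fun a ha => MulAction.mem_stabilizer_iff.mpr (hx a ha)
  have hQx : P₁.map (MulAut.conj g⁻¹).toMonoidHom ≤ MulAction.stabilizer J x := by
    rintro _ ⟨a, ha, rfl⟩
    rw [MulAction.mem_stabilizer_iff]
    show (g⁻¹ * a * g⁻¹⁻¹) • x = x
    rw [inv_inv, mul_smul, mul_smul, hg, hy a ha, ← hg, inv_smul_smul]
  have hQp : IsPGroup p (P₁.map (MulAut.conj g⁻¹).toMonoidHom) := hP1p.map _
  obtain ⟨R, hP1R, hRJx, hRp, hRidx⟩ := exists_rel_sylow_ge hP1x hP1p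
  obtain ⟨h, hhJx, hle⟩ := h8_exists_conj_le_of_relIndex hRJx hQx hRp hQp hRidx
  have hidx : ¬ p ∣ (P : Subgroup J).relIndex ⊤ := by
    rw [Subgroup.relIndex_top_right]; exact P.not_dvd_index
  obtain ⟨l, -, hl⟩ := h8_exists_conj_le_of_relIndex (le_top : (P : Subgroup J) ≤ ⊤)
    (le_top : R ≤ ⊤) P.isPGroup' hRp hidx
  have e1 : P₁.map (MulAut.conj l).toMonoidHom = P₁ :=
    hW2 l ((Subgroup.map_mono hP1R).trans hl)
  have e2 : P₁.map (MulAut.conj (l * h * g⁻¹)).toMonoidHom = P₁ := by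
    apply hW2
    rintro _ ⟨a, ha, rfl⟩
    have h1 : (MulAut.conj h) ((MulAut.conj g⁻¹) a) ∈ R := hle ⟨_, ⟨a, ha, rfl⟩, rfl⟩
    have h2 : (MulAut.conj l) ((MulAut.conj h) ((MulAut.conj g⁻¹) a)) ∈ (P : Subgroup J) :=
      hl ⟨_, h1, rfl⟩
    simpa [MulAut.conj_apply, mul_assoc] using h2
  have n1 : l ∈ Subgroup.normalizer (P₁ : Set J) := by
    apply Cfsg.Agent.Lib.Helper6.sy_mem_normalizer_of_conj_le
    intro a ha
    have : (MulAut.conj l) a ∈ P₁.map (MulAut.conj l).toMonoidHom := ⟨a, ha, rfl⟩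
    rw [e1] at this
    exact this
  have n2 : l * h * g⁻¹ ∈ Subgroup.normalizer (P₁ : Set J) := by
    apply Cfsg.Agent.Lib.Helper6.sy_mem_normalizer_of_conj_le
    intro a ha
    have : (MulAut.conj (l * h * g⁻¹)) a ∈ P₁.map (MulAut.conj (l * h * g⁻¹)).toMonoidHom :=
      ⟨a, ha, rfl⟩
    rw [e2] at this
    exact this
  refine ⟨(l * h * g⁻¹)⁻¹ * l, Subgroup.mul_mem _ (Subgroup.inv_mem _ n2) n1, ?_⟩
  have e3 : (l * h * g⁻¹)⁻¹ * l = g * h⁻¹ := by group
  rw [e3, mul_smul]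
  have hh : h • x = x := MulAction.mem_stabilizer_iff.mp hhJx
  have hh' : h⁻¹ • x = x := by
    rw [inv_smul_eq_iff]; exact hh.symm
  rw [hh', hg]

end Cfsg.Agent.S3180
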