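import Cfsg.Statements.S3195
import Mathlib
import Cfsg.Agent.S0199

set_option autoImplicit false
open Cfsg

namespace Cfsg.Agent.S3195

/-- if `y` commutes with `v^2` and `v` has odd order, `y` commutes with `v` -/
theorem comm_of_comm_sq {G : Type*} [Group G] (y v : G) (p : ℕ) (hp : Odd p) (hv : v ^ p = 1)
    (h : Commute y (v ^ 2)) : Commute y v := by
  obtain ⟨k, rfl⟩ := hp
  have h1 : v = (v ^ 2) ^ (k + 1) := by
    rw [← pow_mul]
    have h2 : 2 * (k + 1) = (2 * k + 1) + 1 := by ring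
    rw [h2, pow_succ, hv, one_mul]
  rw [h1]
  exact h.pow_right _

theorem conj_comm {G : Type*} [Group G] (d e y : G) (h : Commute e (d⁻¹ * y * d)) :
    Commute (d * e * d⁻¹) y := by
  have h1 : e * (d⁻¹ * y * d) = (d⁻¹ * y * d) * e := h.eq
  show d * e * d⁻¹ * y = y * (d * e * d⁻¹)
  calc d * e * d⁻¹ * y = d * (e * (d⁻¹ * y * d)) * d⁻¹ := by group
    _ = d * ((d⁻¹ * y * d) * e) * d⁻¹ := by rw [h1]
    _ = y * (d * e * d⁻¹) := by group

/-- an element of odd order that equals its inverse is trivial -/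
theorem eq_one_of_inv_eq {G : Type*} [Group G] (v : G) (p : ℕ) (hp : Odd p) (hv : v ^ p = 1)
    (h : v⁻¹ = v) : v = 1 := by
  have h2 : v ^ 2 = 1 := by
    rw [pow_two]
    nth_rewrite 1 [← h]
    exact inv_mul_cancel v
  have h3 : orderOf v ∣ 2 := orderOf_dvd_of_pow_eq_one h2
  have h4 : orderOf v ∣ p := orderOf_dvd_of_pow_eq_one hv
  have h5 : orderOf v ∣ Nat.gcd 2 p := Nat.dvd_gcd h3 h4
  have h6 : Nat.gcd 2 p = 1 := Nat.coprime_two_left.mpr hp
  rw [h6, Nat.dvd_one] at h5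
  exact orderOf_eq_one_iff.mp h5

/-- the setting: `a` inverts `v` (odd order), `b` centralizes `v`; conjugates of involutions of
`A = {1,a,b,ab}` not commuting with `b` centralize `v` -/
theorem key1 {G : Type*} [Group G] (A : Subgroup G)
    (h : ∀ s ∈ A, s ≠ 1 → ∀ g : G, ∃ e ∈ A, e ≠ 1 ∧ Commute e (g * s * g⁻¹))
    (a b : G)
    (hAall : ∀ e ∈ A, e = 1 ∨ e = a ∨ e = b ∨ e = a * b)
    (hcomm : Commute a b) (ha2 : a * a = 1) (hb2 : b * b = 1)
    (v : G) (p : ℕ) (hp : Odd p) (hv : v ^ p = 1) (hav : a * v * a = v⁻¹) (hbv : Commute b v)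
    (y : G) (hy : ∃ s ∈ A, s ≠ 1 ∧ ∃ g : G, y = g * s * g⁻¹) :
    Commute y b ∨ Commute y v := by
  by_cases hyb : Commute y b
  · exact Or.inl hyb
  right
  have hT : ∀ d : G, Commute b d →
      Commute y (d * a * d⁻¹) ∨ Commute y (d * a * d⁻¹ * b) := by
    intro d hbd
    obtain ⟨s, hs, hs1, g, rfl⟩ := hy
    obtain ⟨e, he, he1, hec⟩ := h s hs hs1 (d⁻¹ * g)
    have hec' : Commute e (d⁻¹ * (g * s * g⁻¹) * d) := by
      have : d⁻¹ * (g * s * g⁻¹) * d = d⁻¹ * g * s * (d⁻¹ * g)⁻¹ := by group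
      rw [this]; exact hec
    have hc := conj_comm d e _ hec'
    rcases hAall e he with rfl | rfl | rfl | rfl
    · exact absurd rfl he1
    · exact Or.inl hc.symm
    · exfalso
      apply hyb
      have : d * e * d⁻¹ = e := by
        rw [← hbd.eq, mul_assoc, mul_inv_cancel, mul_one]
      rw [this] at hc
      exact hc.symm
    · right
      have : d * (a * b) * d⁻¹ = d * a * d⁻¹ * b := by
        have hbd' : b * d⁻¹ = d⁻¹ * b := (hbd.inv_right).eq
        calc d * (a * b) * d⁻¹ = d * a * (b * d⁻¹) := by group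
          _ = d * a * (d⁻¹ * b) := by rw [hbd']
          _ = d * a * d⁻¹ * b := by group
      rw [this] at hc
      exact hc.symm
  have hbb : ∀ r : G, Commute b r → ∀ r' : G, Commute b r' → (r * b) * (r' * b) = r * r' := by
    intro r hr r' hr'
    calc (r * b) * (r' * b) = r * (b * r') * b := by group
      _ = r * (r' * b) * b := by rw [hr'.eq]
      _ = r * r' * (b * b) := by group
      _ = r * r' := by rw [hb2, mul_one]
  have hba : Commute b a := hcomm.symm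
  have hbr : ∀ d : G, Commute b d → Commute b (d * a * d⁻¹) := fun d hd =>
    (hd.mul_right hba).mul_right hd.inv_right
  have hpair : ∀ d d' : G, Commute b d → Commute b d' →
      (Commute y (d * a * d⁻¹) ∧ Commute y (d' * a * d'⁻¹)) ∨
      (Commute y (d * a * d⁻¹ * b) ∧ Commute y (d' * a * d'⁻¹ * b)) →
      Commute y ((d * a * d⁻¹) * (d' * a * d'⁻¹)) := by
    intro d d' hd hd' hh
    rcases hh with ⟨h1, h2⟩ | ⟨h1, h2⟩
    · exact h1.mul_right h2
    · have := h1.mul_right h2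
      rwa [hbb _ (hbr d hd) _ (hbr d' hd')] at this
  have hb1 : Commute b (1 : G) := Commute.one_right b
  have hbv2 : Commute b (v ^ 2) := hbv.pow_right 2
  -- the three products
  have e01 : ((1 : G) * a * (1 : G)⁻¹) * (v * a * v⁻¹) = (v ^ 2)⁻¹ := by
    calc ((1 : G) * a * (1 : G)⁻¹) * (v * a * v⁻¹) = (a * v * a) * v⁻¹ := by group
      _ = (v ^ 2)⁻¹ := by rw [hav]; group
  have e12 : (v * a * v⁻¹) * (v ^ 2 * a * (v ^ 2)⁻¹) = (v ^ 2)⁻¹ := by
    calc (v * a * v⁻¹) * (v ^ 2 * a * (v ^ 2)⁻¹) = v * (a * v * a) * (v ^ 2)⁻¹ := by group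
      _ = (v ^ 2)⁻¹ := by rw [hav]; group
  have e02 : ((1 : G) * a * (1 : G)⁻¹) * (v ^ 2 * a * (v ^ 2)⁻¹) = ((v ^ 2) ^ 2)⁻¹ := by
    calc ((1 : G) * a * (1 : G)⁻¹) * (v ^ 2 * a * (v ^ 2)⁻¹)
        = (a * v * a) * (a * a)⁻¹ * (a * v * a) * (v ^ 2)⁻¹ := by simp only [pow_two]; group
      _ = ((v ^ 2) ^ 2)⁻¹ := by rw [hav, ha2]; group
  have fin2 : Commute y (v ^ 2)⁻¹ → Commute y v := fun hh =>
    comm_of_comm_sq y v p hp hv (by simpa using hh.inv_right)
  have fin4 : Commute y ((v ^ 2) ^ 2)⁻¹ → Commute y v := fun hh => by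
    have h1 : Commute y ((v ^ 2) ^ 2) := by simpa using hh.inv_right
    have hv2 : (v ^ 2) ^ p = 1 := by rw [← pow_mul, mul_comm, pow_mul, hv, one_pow]
    exact comm_of_comm_sq y v p hp hv (comm_of_comm_sq y (v ^ 2) p hp hv2 h1)
  have T0 := hT 1 hb1
  have T1 := hT v hbv
  have T2 := hT (v ^ 2) hbv2
  rcases T0 with h0 | h0 <;> rcases T1 with h1 | h1 <;> rcases T2 with h2 | h2
  · exact fin2 (e01 ▸ hpair 1 v hb1 hbv (Or.inl ⟨h0, h1⟩))
  · exact fin2 (e01 ▸ hpair 1 v hb1 hbv (Or.inl ⟨h0, h1⟩))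
  · exact fin4 (e02 ▸ hpair 1 (v ^ 2) hb1 hbv2 (Or.inl ⟨h0, h2⟩))
  · exact fin2 (e12 ▸ hpair v (v ^ 2) hbv hbv2 (Or.inr ⟨h1, h2⟩))
  · exact fin2 (e12 ▸ hpair v (v ^ 2) hbv hbv2 (Or.inl ⟨h1, h2⟩))
  · exact fin4 (e02 ▸ hpair 1 (v ^ 2) hb1 hbv2 (Or.inr ⟨h0, h2⟩))
  · exact fin2 (e01 ▸ hpair 1 v hb1 hbv (Or.inr ⟨h0, h1⟩))
  · exact fin2 (e01 ▸ hpair 1 v hb1 hbv (Or.inr ⟨h0, h1⟩))

/-- an involution `s` of `A` inverting `v` commutes with `x b x⁻¹` for every conjugate `x` of an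
involution of `A` -/
theorem key2 {G : Type*} [Group G] (A : Subgroup G)
    (h : ∀ s ∈ A, s ≠ 1 → ∀ g : G, ∃ e ∈ A, e ≠ 1 ∧ Commute e (g * s * g⁻¹))
    (a b : G)
    (hAall : ∀ e ∈ A, e = 1 ∨ e = a ∨ e = b ∨ e = a * b)
    (hcomm : Commute a b) (ha2 : a * a = 1) (hb2 : b * b = 1)
    (v : G) (p : ℕ) (hp : Odd p) (hv : v ^ p = 1) (hav : a * v * a = v⁻¹) (hbv : Commute b v)
    (hv1 : v ≠ 1)
    (s : G) (hs : s ∈ A) (hs1 : s ≠ 1) (hsv : s * v * s⁻¹ = v⁻¹) (hsb : Commute s b)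
    (x : G) (hx : ∃ t ∈ A, t ≠ 1 ∧ ∃ g : G, x = g * t * g⁻¹) : Commute s (x * b * x⁻¹) := by
  rcases key1 A h a b hAall hcomm ha2 hb2 v p hp hv hav hbv x hx with hxb | hxv
  · have : x * b * x⁻¹ = b := by rw [hxb.eq, mul_assoc, mul_inv_cancel, mul_one]
    rw [this]; exact hsb
  · have hy : ∃ t ∈ A, t ≠ 1 ∧ ∃ g : G, x⁻¹ * s * x = g * t * g⁻¹ :=
      ⟨s, hs, hs1, x⁻¹, by rw [inv_inv]⟩
    rcases key1 A h a b hAall hcomm ha2 hb2 v p hp hv hav hbv (x⁻¹ * s * x) hy with hyb | hyv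
    · -- Commute (x⁻¹ s x) b → Commute s (x b x⁻¹)
      have h1 : Commute b (x⁻¹ * s * x) := hyb.symm
      have := conj_comm x b s h1
      exact this.symm
    · exfalso
      have h1 : Commute v (x⁻¹ * s * x) := hyv.symm
      have h2 := conj_comm x v s h1
      have h3 : x * v * x⁻¹ = v := by rw [hxv.eq, mul_assoc, mul_inv_cancel, mul_one]
      rw [h3] at h2
      -- s v = v s, so v⁻¹ = v
      have h4 : v⁻¹ = v := by
        rw [← hsv, ← h2.eq, mul_assoc, mul_inv_cancel, mul_one]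
      exact hv1 (eq_one_of_inv_eq v p hp hv h4)

theorem isPGroup_zpowers_two {G : Type*} [Group G] (u : G) (k : ℕ) (h : u ^ (2 ^ k) = 1) :
    IsPGroup 2 (Subgroup.zpowers u) := by
  rintro ⟨y, hy⟩
  obtain ⟨j, rfl⟩ := Subgroup.mem_zpowers_iff.mp hy
  refine ⟨k, Subtype.ext ?_⟩
  show (u ^ j) ^ (2 ^ k) = 1
  rw [← zpow_natCast, ← zpow_mul, mul_comm, zpow_mul, zpow_natCast, h, one_zpow]

/-- Baer–Suzuki for an involution -/
theorem bs_invol {G : Type*} [Group G] [Finite G] (t : G) (ht : t * t = 1)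
    (hgood : ∀ g : G, ∃ k : ℕ, orderOf (t * (g * t * g⁻¹)) = 2 ^ k) : t ∈ Cfsg.pCore 2 G := by
  haveI : Fact (Nat.Prime 2) := ⟨Nat.prime_two⟩
  have htinv : t⁻¹ = t := inv_eq_of_mul_eq_one_left ht
  have hX : IsPGroup 2 (Subgroup.zpowers t) :=
    isPGroup_zpowers_two t 1 (by rw [pow_one, pow_two, ht])
  have hsup : ∀ g : G, IsPGroup 2
      ↥(Subgroup.zpowers t ⊔ (Subgroup.zpowers t).map (MulAut.conj g).toMonoidHom) := by
    intro g
    obtain ⟨k, hk⟩ := hgood g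
    set u := t * (g * t * g⁻¹) with hu
    have hK : IsPGroup 2 (Subgroup.zpowers u) :=
      isPGroup_zpowers_two u k (by rw [← hk]; exact pow_orderOf_eq_one u)
    have htu : t * u * t⁻¹ = u⁻¹ := by
      rw [hu, htinv]
      have : (t * (g * t * g⁻¹))⁻¹ = g * t⁻¹ * g⁻¹ * t⁻¹ := by group
      rw [this, htinv]
      calc t * (t * (g * t * g⁻¹)) * t = (t * t) * g * t * g⁻¹ * t := by group
        _ = g * t * g⁻¹ * t := by rw [ht, one_mul]
    have hconj : ∀ x ∈ Subgroup.zpowers u, t * x * t⁻¹ ∈ Subgroup.zpowers u := by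
      intro x hx
      obtain ⟨j, rfl⟩ := Subgroup.mem_zpowers_iff.mp hx
      have : t * u ^ j * t⁻¹ = (u⁻¹) ^ j := by
        rw [← htu]
        exact (MulAut.conj t).toMonoidHom.map_zpow u j
      rw [this]
      exact Subgroup.zpow_mem _ (Subgroup.inv_mem _ (Subgroup.mem_zpowers u)) j
    have hN : Subgroup.zpowers t ≤ Subgroup.normalizer (Subgroup.zpowers u : Set G) := by
      rw [Subgroup.zpowers_le]
      rw [Subgroup.mem_normalizer_iff]
      intro x
      constructor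
      · exact hconj x
      · intro hx
        have := hconj _ hx
        have e : t * (t * x * t⁻¹) * t⁻¹ = x := by
          rw [htinv]
          calc t * (t * x * t) * t = (t * t) * x * (t * t) := by group
            _ = x := by rw [ht, one_mul, mul_one]
        rwa [e] at this
    have hsupK := IsPGroup.to_sup_of_normal_right' hX hK hN
    apply hsupK.to_le
    apply sup_le le_sup_left
    rw [MonoidHom.map_zpowers, Subgroup.zpowers_le]
    have : (MulAut.conj g).toMonoidHom t = t⁻¹ * u := by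
      rw [hu]
      show g * t * g⁻¹ = t⁻¹ * (t * (g * t * g⁻¹))
      group
    rw [this]
    exact Subgroup.mul_mem _ (le_sup_left (a := Subgroup.zpowers t)
      (Subgroup.inv_mem _ (Subgroup.mem_zpowers t)))
      (le_sup_right (b := Subgroup.zpowers u) (Subgroup.mem_zpowers u))
  obtain ⟨N, hNn, hNp, hXN⟩ := Cfsg.Agent.S0199.result (p := 2) (Subgroup.zpowers t) hX hsup
  have hle : N ≤ Cfsg.pCore 2 G := le_sSup ⟨hNn, hNp⟩
  exact hle (hXN (Subgroup.mem_zpowers t))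

/-- if `t` is an involution and `t * (g t g⁻¹)` does not have 2-power order, there is an element
`w` of odd prime order inverted by `t` -/
theorem exists_odd_inverted {G : Type*} [Group G] [Finite G] (t : G) (ht : t * t = 1) (g : G)
    (hbad : ¬ ∃ k : ℕ, orderOf (t * (g * t * g⁻¹)) = 2 ^ k) :
    ∃ (w : G) (p : ℕ), Odd p ∧ w ^ p = 1 ∧ w ≠ 1 ∧ t * w * t = w⁻¹ := by
  have htinv : t⁻¹ = t := inv_eq_of_mul_eq_one_left ht
  set u := t * (g * t * g⁻¹) with hu
  rcases Nat.eq_two_pow_or_exists_odd_prime_and_dvd (orderOf u) with hk | ⟨p, hp, hpd, hodd⟩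
  · exact absurd hk hbad
  have hn0 : orderOf u ≠ 0 := (orderOf_pos u).ne'
  have hw : orderOf (u ^ (orderOf u / p)) = p := orderOf_pow_orderOf_div hn0 hpd
  refine ⟨u ^ (orderOf u / p), p, hodd, ?_, ?_, ?_⟩
  · have h0 := pow_orderOf_eq_one (u ^ (orderOf u / p))
    rwa [hw] at h0
  · intro h1
    rw [h1, orderOf_one (G := G)] at hw
    exact hp.one_lt.ne hw
  · have htu : t * u * t⁻¹ = u⁻¹ := by
      rw [hu, htinv]
      have : (t * (g * t * g⁻¹))⁻¹ = g * t⁻¹ * g⁻¹ * t⁻¹ := by group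
      rw [this, htinv]
      calc t * (t * (g * t * g⁻¹)) * t = (t * t) * g * t * g⁻¹ * t := by group
        _ = g * t * g⁻¹ * t := by rw [ht, one_mul]
    have : t * u ^ (orderOf u / p) * t⁻¹ = (u⁻¹) ^ (orderOf u / p) := by
      rw [← htu]
      exact (MulAut.conj t).toMonoidHom.map_pow u _
    rw [htinv] at this
    rw [this, inv_pow]

/-- Let A be a Klein four-subgroup of a finite group G. If every G-conjugate of every involution of A commutes with some involution of A (its centralizer meets A nontrivially), then A meets the largest normal 2-subgroup O₂(G) nontrivially. -/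
theorem result {G : Type*} [Group G] [Finite G]
    (A : Subgroup G) (hA : IsKleinFour ↥A)
    (h : ∀ a ∈ A, a ≠ 1 → ∀ g : G, A ⊓ Subgroup.centralizer ({g * a * g⁻¹} : Set G) ≠ ⊥) :
    A ⊓ Cfsg.pCore 2 G ≠ ⊥ := by
  classical
  intro hbot
  haveI : Finite ↥A := inferInstance
  have hAcomm : ∀ e ∈ A, ∀ f ∈ A, Commute e f := by
    intro e he f hf
    have := (IsKleinFour.isMulCommutative (G := ↥A)).is_comm.comm ⟨e, he⟩ ⟨f, hf⟩
    exact congrArg Subtype.val this
  have hAsq : ∀ e ∈ A, e * e = 1 := by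
    intro e he
    exact congrArg Subtype.val (IsKleinFour.mul_self (⟨e, he⟩ : ↥A))
  have hnotcore : ∀ e ∈ A, e ≠ 1 → e ∉ Cfsg.pCore 2 G := by
    intro e he he1 hc
    have : e ∈ A ⊓ Cfsg.pCore 2 G := ⟨he, hc⟩
    rw [hbot, Subgroup.mem_bot] at this
    exact he1 this
  have h' : ∀ s ∈ A, s ≠ 1 → ∀ g : G, ∃ e ∈ A, e ≠ 1 ∧ Commute e (g * s * g⁻¹) := by
    intro s hs hs1 g
    obtain ⟨⟨e, he⟩, he1⟩ := (Subgroup.ne_bot_iff_exists_ne_one (H := A ⊓ Subgroup.centralizer ({g * s * g⁻¹} : Set G))).mp (h s hs hs1 g)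
    refine ⟨e, he.1, fun h1 => he1 (Subtype.ext h1), ?_⟩
    exact Subgroup.mem_centralizer_singleton_iff.mp he.2
  -- pick a nonidentity element of A
  haveI : Nontrivial ↥A := by
    rw [← Finite.one_lt_card_iff_nontrivial, IsKleinFour.card_four]; norm_num
  obtain ⟨⟨a, ha⟩, ha1'⟩ := exists_ne (1 : ↥A)
  have ha1 : a ≠ 1 := fun h1 => ha1' (Subtype.ext h1)
  have ha2 : a * a = 1 := hAsq a ha
  have hainv : a⁻¹ = a := inv_eq_of_mul_eq_one_left ha2
  -- a is not in the core, so Baer-Suzuki gives an odd-order w inverted by a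
  have hbad : ¬ ∀ g : G, ∃ k : ℕ, orderOf (a * (g * a * g⁻¹)) = 2 ^ k := fun hg =>
    hnotcore a ha ha1 (bs_invol a ha2 hg)
  push_neg at hbad
  obtain ⟨g, hg⟩ := hbad
  obtain ⟨w, p, hp, hwp, hw1, haw⟩ := exists_odd_inverted a ha2 g (by push_neg; exact hg)
  -- the conjugate w a w⁻¹ commutes with some e ∈ A
  obtain ⟨e, he, he1, hec⟩ := h' a ha ha1 w
  have hwa : w * a * w⁻¹ = w ^ 2 * a := by
    have h1 : a * w⁻¹ = w * a := by
      have : a * w⁻¹ * a = w := by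
        have h2 : (a * w * a)⁻¹ = a⁻¹ * w⁻¹ * a⁻¹ := by group
        rw [haw, inv_inv, hainv] at h2
        exact h2.symm
      calc a * w⁻¹ = (a * w⁻¹ * a) * a⁻¹ := by group
        _ = w * a := by rw [this, hainv]
    calc w * a * w⁻¹ = w * (a * w⁻¹) := by group
      _ = w * (w * a) := by rw [h1]
      _ = w ^ 2 * a := by rw [pow_two, mul_assoc]
  rw [hwa] at hec
  have hea : Commute e a := hAcomm e he a ha
  have hew2 : Commute e (w ^ 2) := by
    have h1 : Commute e (w ^ 2 * a * a⁻¹) := hec.mul_right hea.inv_right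
    rwa [mul_assoc, mul_inv_cancel, mul_one] at h1
  have hew : Commute e w := comm_of_comm_sq e w p hp hwp hew2
  have hea' : e ≠ a := by
    rintro rfl
    -- e w e = w⁻¹ and e w = w e
    have h1 : w⁻¹ = w := by
      rw [← haw, hew.eq, mul_assoc, ha2, mul_one]
    exact hw1 (eq_one_of_inv_eq w p hp hwp h1)
  have he2 : e * e = 1 := hAsq e he
  have hAall : ∀ x ∈ A, x = 1 ∨ x = a ∨ x = e ∨ x = a * e := by
    intro x hx
    by_cases hx1 : x = 1
    · exact Or.inl hx1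
    by_cases hxa : x = a
    · exact Or.inr (Or.inl hxa)
    by_cases hxe : x = e
    · exact Or.inr (Or.inr (Or.inl hxe))
    right; right; right
    have := IsKleinFour.eq_mul_of_ne_all (G := ↥A) (x := ⟨a, ha⟩) (y := ⟨e, he⟩) (z := ⟨x, hx⟩)
      (fun h1 => ha1 (congrArg Subtype.val h1)) (fun h1 => he1 (congrArg Subtype.val h1))
      (fun h1 => hea' (congrArg Subtype.val h1).symm) (fun h1 => hx1 (congrArg Subtype.val h1))
      (fun h1 => hxa (congrArg Subtype.val h1)) (fun h1 => hxe (congrArg Subtype.val h1))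
    exact congrArg Subtype.val this
  have hae : Commute a e := hea.symm
  -- e commutes with all its X-conjugates
  have hc_mem : a * e ∈ A := A.mul_mem ha he
  have hc1 : a * e ≠ 1 := by
    intro h1
    apply hea'
    have : e = a⁻¹ := eq_inv_of_mul_eq_one_right h1
    rw [this, hainv]
  have hcw : (a * e) * w * (a * e)⁻¹ = w⁻¹ := by
    have : (a * e) * w * (a * e)⁻¹ = a * (e * w * e⁻¹) * a⁻¹ := by group
    rw [this, hew.eq, mul_assoc w, mul_inv_cancel, mul_one, hainv, haw]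
  have haw' : a * w * a⁻¹ = w⁻¹ := by rw [hainv, haw]
  have key3 : ∀ x : G, (∃ t ∈ A, t ≠ 1 ∧ ∃ g : G, x = g * t * g⁻¹) → Commute e (x * e * x⁻¹) := by
    intro x hx
    have k1 := key2 A h' a e hAall hae ha2 he2 w p hp hwp haw hew hw1 a ha ha1 haw' hae x hx
    have k2 := key2 A h' a e hAall hae ha2 he2 w p hp hwp haw hew hw1 (a * e) hc_mem hc1 hcw
      (hAcomm _ hc_mem e he) x hx
    have k3 : Commute (a⁻¹ * (a * e)) (x * e * x⁻¹) := k1.inv_left.mul_left k2
    rwa [inv_mul_cancel_left] at k3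
  -- hence e is good
  apply hnotcore e he he1
  apply bs_invol e he2
  intro g'
  by_contra hbad'
  obtain ⟨w', q, hq, hwq, hw'1, hew'⟩ := exists_odd_inverted e he2 g' hbad'
  have heinv : e⁻¹ = e := inv_eq_of_mul_eq_one_left he2
  have hF : ∀ n : ℕ, e * (w' ^ n)⁻¹ = w' ^ n * e := by
    intro n
    have h1 : e * w' ^ n * e⁻¹ = (w'⁻¹) ^ n := by
      have : e * w' * e⁻¹ = w'⁻¹ := by rw [heinv, hew']
      rw [← this]
      exact (MulAut.conj e).toMonoidHom.map_pow w' n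
    have h2 : (e * w' ^ n * e⁻¹)⁻¹ = e * (w' ^ n)⁻¹ * e⁻¹ := by group
    rw [h1, inv_pow, inv_inv] at h2
    calc e * (w' ^ n)⁻¹ = (e * (w' ^ n)⁻¹ * e⁻¹) * e := by group
      _ = w' ^ n * e := by rw [← h2]
  have hx : ∃ t ∈ A, t ≠ 1 ∧ ∃ g : G, w' * e * w'⁻¹ = g * t * g⁻¹ := ⟨e, he, he1, w', rfl⟩
  have hk := key3 (w' * e * w'⁻¹) hx
  have hx2 : w' * e * w'⁻¹ = w' ^ 2 * e := by
    have := hF 1
    rw [pow_one] at this
    calc w' * e * w'⁻¹ = w' * (e * w'⁻¹) := by group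
      _ = w' * (w' * e) := by rw [this]
      _ = w' ^ 2 * e := by rw [pow_two, mul_assoc]
  have hx4 : (w' * e * w'⁻¹) * e * (w' * e * w'⁻¹)⁻¹ = (w' ^ 2) ^ 2 * e := by
    rw [hx2]
    have hF2 := hF 2
    generalize w' ^ 2 = W at hF2 ⊢
    calc W * e * e * (W * e)⁻¹ = W * (e * W⁻¹) := by group
      _ = W * (W * e) := by rw [hF2]
      _ = W ^ 2 * e := by rw [pow_two, mul_assoc]
  rw [hx4] at hk
  have hk2 : Commute e ((w' ^ 2) ^ 2) := by
    have h1 : Commute e ((w' ^ 2) ^ 2 * e * e⁻¹) := hk.mul_right (Commute.refl e).inv_right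
    rwa [mul_assoc, mul_inv_cancel, mul_one] at h1
  have hw2q : (w' ^ 2) ^ q = 1 := by rw [← pow_mul, mul_comm, pow_mul, hwq, one_pow]
  have hk1 : Commute e w' :=
    comm_of_comm_sq e w' q hq hwq (comm_of_comm_sq e (w' ^ 2) q hq hw2q hk2)
  have h1 : w'⁻¹ = w' := by
    rw [← hew', hk1.eq, mul_assoc, he2, mul_one]
  exact hw'1 (eq_one_of_inv_eq w' q hq hwq h1)

end Cfsg.Agent.S3195
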