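import Cfsg.Statements.S3196
import Cfsg.Agent.Lib.Helper3.PolarFam
import Cfsg.Agent.Lib.Helper7.PCore

set_option autoImplicit false
open Cfsg

namespace Cfsg.Agent.S3196

open Cfsg.Agent.Lib.Helper3

/-- Let p be a prime and K a set of subgroups of order p of a finite group G, closed under conjugation, such that at least two distinct members of K commute elementwise, and whenever two distinct members X, Y of K commute: every subgroup of order p of the group XY they generate belongs to K, and every member W of K has centralizer meeting XY nontrivially. Then some member V of K commutes elementwise with every member of K and lies in O_p(G); in particular G is not simple. -/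
theorem result {G : Type*} [Group G] [Finite G]
    {p : ℕ} (hp : p.Prime) (K : Set (Subgroup G)) (hK : ∀ X ∈ K, Nat.card ↥X = p)
    (hKc : ∀ X ∈ K, ∀ g : G, X.map (MulAut.conj g).toMonoidHom ∈ K)
    (hex : ∃ X ∈ K, ∃ Y ∈ K, X ≠ Y ∧ ∀ x ∈ X, ∀ y ∈ Y, x * y = y * x)
    (ha : ∀ X ∈ K, ∀ Y ∈ K, X ≠ Y → (∀ x ∈ X, ∀ y ∈ Y, x * y = y * x) →
      ∀ Z : Subgroup G, Z ≤ X ⊔ Y → Nat.card ↥Z = p → Z ∈ K)
    (hb : ∀ X ∈ K, ∀ Y ∈ K, X ≠ Y → (∀ x ∈ X, ∀ y ∈ Y, x * y = y * x) →
      ∀ W ∈ K, (X ⊔ Y) ⊓ Subgroup.centralizer (W : Set G) ≠ ⊥) :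
    (∃ V ∈ K, (∀ W ∈ K, ∀ v ∈ V, ∀ w ∈ W, v * w = w * v) ∧ V ≤ Cfsg.pCore p G) ∧ ¬ IsSimpleGroup G := by
  classical
  have hFact := Fact.mk hp
  obtain ⟨D, hDdef⟩ : ∃ D : Set G, D = {d : G | d ≠ 1 ∧ Subgroup.zpowers d ∈ K} := ⟨_, rfl⟩
  have hDmem : ∀ d : G, d ∈ D ↔ d ≠ 1 ∧ Subgroup.zpowers d ∈ K := by
    intro d; rw [hDdef]; rfl
  -- F1: a nontrivial element of a member generates it
  have F1 : ∀ X ∈ K, ∀ x ∈ X, x ≠ 1 → Subgroup.zpowers x = X := by
    intro X hX x hx hx1
    have hle : Subgroup.zpowers x ≤ X := by rw [Subgroup.zpowers_le]; exact hx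
    have hdvd : Nat.card (Subgroup.zpowers x) ∣ p := hK X hX ▸ Subgroup.card_dvd_of_le hle
    have hne : Nat.card (Subgroup.zpowers x) ≠ 1 := by
      rw [Nat.card_zpowers]; intro h; exact hx1 (orderOf_eq_one_iff.mp h)
    have heq : Nat.card (Subgroup.zpowers x) = p := ((Nat.dvd_prime hp).mp hdvd).resolve_left hne
    exact Subgroup.eq_of_le_of_card_ge hle (by rw [heq, hK X hX])
  have F2 : ∀ d ∈ D, d ^ p = 1 := by
    intro d hd
    have h1 := hK _ ((hDmem d).mp hd).2
    rw [Nat.card_zpowers] at h1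
    rw [← h1]; exact pow_orderOf_eq_one d
  have F3 : ∀ X ∈ K, ∀ x ∈ X, x ≠ 1 → x ∈ D := by
    intro X hX x hx hx1
    rw [hDmem]; exact ⟨hx1, (F1 X hX x hx hx1).symm ▸ hX⟩
  have hPF : PolarFam p D := by
    refine ⟨fun d hd => ((hDmem d).mp hd).1, F2, ?_, ?_, ?_, ?_⟩
    · intro d hd x hx hx1
      exact F3 _ ((hDmem d).mp hd).2 x hx hx1
    · intro a haD b hbD hab hba x hx y hy hxy1
      have hXK := ((hDmem a).mp haD).2
      have hYK := ((hDmem b).mp hbD).2
      have hXY : Subgroup.zpowers a ≠ Subgroup.zpowers b := by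
        intro h; apply hba; rw [h]; exact Subgroup.mem_zpowers b
      have hcomm : ∀ x ∈ Subgroup.zpowers a, ∀ y ∈ Subgroup.zpowers b, x * y = y * x :=
        fun x hx y hy => (polar_comm hx (polar_comm hy hab.symm).symm).eq
      have hxp : x ^ p = 1 := by
        obtain ⟨k, rfl⟩ := Subgroup.mem_zpowers_iff.mp hx
        rw [← zpow_natCast, ← zpow_mul, mul_comm, zpow_mul, zpow_natCast, F2 a haD, one_zpow]
      have hyp : y ^ p = 1 := by
        obtain ⟨k, rfl⟩ := Subgroup.mem_zpowers_iff.mp hy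
        rw [← zpow_natCast, ← zpow_mul, mul_comm, zpow_mul, zpow_natCast, F2 b hbD, one_zpow]
      have hxyp : (x * y) ^ p = 1 := by
        have hc : Commute x y := hcomm x hx y hy
        rw [hc.mul_pow, hxp, hyp, one_mul]
      have hord : orderOf (x * y) = p := orderOf_eq_prime hxyp hxy1
      have hZ : Subgroup.zpowers (x * y) ∈ K := by
        refine ha _ hXK _ hYK hXY hcomm _ ?_ (by rw [Nat.card_zpowers, hord])
        rw [Subgroup.zpowers_le]
        exact Subgroup.mul_mem _ (Subgroup.mem_sup_left hx) (Subgroup.mem_sup_right hy)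
      rw [hDmem]; exact ⟨hxy1, hZ⟩
    · intro a haD b hbD hab hba w hwD
      have hXK := ((hDmem a).mp haD).2
      have hYK := ((hDmem b).mp hbD).2
      have hWK := ((hDmem w).mp hwD).2
      have hXY : Subgroup.zpowers a ≠ Subgroup.zpowers b := by
        intro h; apply hba; rw [h]; exact Subgroup.mem_zpowers b
      have hcomm : ∀ x ∈ Subgroup.zpowers a, ∀ y ∈ Subgroup.zpowers b, x * y = y * x :=
        fun x hx y hy => (polar_comm hx (polar_comm hy hab.symm).symm).eq
      have hne := hb _ hXK _ hYK hXY hcomm _ hWK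
      obtain ⟨g, hg1⟩ := (Subgroup.ne_bot_iff_exists_ne_one).mp hne
      have hgmem : (g : G) ∈ (Subgroup.zpowers a ⊔ Subgroup.zpowers b) ⊓
          Subgroup.centralizer ((Subgroup.zpowers w : Subgroup G) : Set G) := g.2
      obtain ⟨hg2, hg3⟩ := Subgroup.mem_inf.mp hgmem
      obtain ⟨x, hx, y, hy, hxy⟩ := polar_sup_mul _ _ (fun x hx y hy => hcomm x hx y hy) hg2
      refine ⟨x, hx, y, hy, ?_, ?_⟩
      · rw [← hxy]; intro h; exact hg1 (Subtype.ext h)
      · rw [← hxy]
        exact ((Subgroup.mem_centralizer_iff.mp hg3) w (Subgroup.mem_zpowers w)).symm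
    · intro d hd g
      have hdK := ((hDmem d).mp hd).2
      have h1 := hKc _ hdK g⁻¹
      rw [MonoidHom.map_zpowers] at h1
      have h2 : (MulAut.conj g⁻¹).toMonoidHom d = g⁻¹ * d * g := by
        simp
      rw [h2] at h1
      rw [hDmem]
      refine ⟨?_, h1⟩
      intro h
      apply ((hDmem d).mp hd).1
      have h3 : d = g * (g⁻¹ * d * g) * g⁻¹ := by group
      rw [h3, h]; group
  obtain ⟨X, hX, Y, hY, hXY, hcomm⟩ := hex
  have hXne : ∃ a ∈ X, a ≠ 1 := by
    by_contra hcon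
    push Not at hcon
    have hbot : X = ⊥ := (Subgroup.eq_bot_iff_forall X).mpr hcon
    have h1 := hK X hX
    rw [hbot, Subgroup.card_bot] at h1
    exact hp.one_lt.ne h1
  have hYne : ∃ b ∈ Y, b ≠ 1 := by
    by_contra hcon
    push Not at hcon
    have hbot : Y = ⊥ := (Subgroup.eq_bot_iff_forall Y).mpr hcon
    have h1 := hK Y hY
    rw [hbot, Subgroup.card_bot] at h1
    exact hp.one_lt.ne h1
  obtain ⟨a, haX, ha1⟩ := hXne
  obtain ⟨b, hbY, hb1⟩ := hYne
  have hex' : ∃ a ∈ D, ∃ b ∈ D, Commute a b ∧ b ∉ Subgroup.zpowers a := by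
    refine ⟨a, F3 X hX a haX ha1, b, F3 Y hY b hbY hb1, hcomm a haX b hbY, ?_⟩
    intro h
    apply hXY
    rw [F1 X hX a haX ha1] at h
    rw [← F1 X hX b h hb1, F1 Y hY b hbY hb1]
  obtain ⟨v, hvD, hv⟩ := polar_central hp hPF hex'
  have hV : Subgroup.zpowers v ∈ K := ((hDmem v).mp hvD).2
  have hv1 : v ≠ 1 := ((hDmem v).mp hvD).1
  have hcomK : ∀ W ∈ K, ∀ v' ∈ Subgroup.zpowers v, ∀ w ∈ W, v' * w = w * v' := by
    intro W hW v' hv' w hw
    by_cases hw1 : w = 1
    · subst hw1; simp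
    · exact (polar_comm hv' (hv w (F3 W hW w hw hw1))).eq
  -- the normal abelian p-subgroup T
  obtain ⟨L, hL⟩ : ∃ L : Subgroup G, L = Subgroup.closure D := ⟨_, rfl⟩
  have hLn : L.Normal := by
    constructor
    intro n hn g
    have hle : L.map (MulAut.conj g).toMonoidHom ≤ L := by
      rw [hL, MonoidHom.map_closure]
      apply Subgroup.closure_mono
      rintro _ ⟨x, hx, rfl⟩
      have h1 := hPF.conj x hx g⁻¹
      rw [inv_inv] at h1
      simpa [MulAut.conj_apply] using h1
    exact hle ⟨n, hn, rfl⟩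
  have hCn : (Subgroup.centralizer (L : Set G)).Normal := inferInstance
  let T : Subgroup G :=
    { carrier := {z | z ∈ L ∧ z ∈ Subgroup.centralizer (L : Set G) ∧ z ^ p = 1}
      mul_mem' := by
        rintro z z' ⟨h1, h2, h3⟩ ⟨h1', h2', h3'⟩
        refine ⟨L.mul_mem h1 h1', Subgroup.mul_mem _ h2 h2', ?_⟩
        have hc : Commute z z' := ((Subgroup.mem_centralizer_iff.mp h2) z' h1').symm
        rw [hc.mul_pow, h3, h3', one_mul]
      one_mem' := ⟨L.one_mem, Subgroup.one_mem _, one_pow p⟩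
      inv_mem' := by
        rintro z ⟨h1, h2, h3⟩
        exact ⟨L.inv_mem h1, Subgroup.inv_mem _ h2, by rw [inv_pow, h3, inv_one]⟩ }
  have hTmem : ∀ z : G, z ∈ T ↔ z ∈ L ∧ z ∈ Subgroup.centralizer (L : Set G) ∧ z ^ p = 1 :=
    fun z => Iff.rfl
  have hTn : T.Normal := by
    constructor
    intro n hn g
    obtain ⟨h1, h2, h3⟩ := (hTmem n).mp hn
    refine (hTmem _).mpr ⟨hLn.conj_mem n h1 g, hCn.conj_mem n h2 g, ?_⟩
    rw [conj_pow, h3]; group
  have hTp : IsPGroup p T := by
    intro t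
    refine ⟨1, ?_⟩
    have h3 := ((hTmem t).mp t.2).2.2
    apply Subtype.ext
    rw [pow_one]
    simpa using h3
  have hvT : v ∈ T := by
    refine (hTmem v).mpr ⟨hL ▸ Subgroup.subset_closure hvD, ?_, F2 v hvD⟩
    have hle : L ≤ Subgroup.centralizer ({v} : Set G) := by
      rw [hL, Subgroup.closure_le]
      intro w hw
      rw [SetLike.mem_coe, Subgroup.mem_centralizer_iff]
      intro s hs
      rw [Set.mem_singleton_iff] at hs
      subst hs
      exact (hv w hw).eq
    rw [Subgroup.mem_centralizer_iff]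
    intro h hh
    exact ((Subgroup.mem_centralizer_iff.mp (hle hh)) v rfl).symm
  have hTle : T ≤ Cfsg.pCore p G := Cfsg.Agent.Lib.Helper7.le_pCore hTn hTp
  refine ⟨⟨Subgroup.zpowers v, hV, hcomK, ?_⟩, ?_⟩
  · rw [Subgroup.zpowers_le]; exact hTle hvT
  · intro hs
    have hTtop : T = ⊤ := by
      rcases hs.eq_bot_or_eq_top_of_normal T hTn with h | h
      · exfalso; apply hv1
        have : v ∈ (⊥ : Subgroup G) := h ▸ hvT
        exact Subgroup.mem_bot.mp this
      · exact h
    have hab : ∀ x y : G, x * y = y * x := by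
      intro x y
      have hx : x ∈ T := hTtop ▸ Subgroup.mem_top x
      have hy : y ∈ T := hTtop ▸ Subgroup.mem_top y
      exact ((Subgroup.mem_centralizer_iff.mp ((hTmem x).mp hx).2.1) y ((hTmem y).mp hy).1).symm
    have hnorm : ∀ Z : Subgroup G, Z.Normal := by
      intro Z
      constructor
      intro n hn g
      rw [hab g n, mul_inv_cancel_right]; exact hn
    have htop : ∀ Z ∈ K, Z = ⊤ := by
      intro Z hZ
      rcases hs.eq_bot_or_eq_top_of_normal Z (hnorm Z) with h | h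
      · exfalso
        have h1 := hK Z hZ
        rw [h, Subgroup.card_bot] at h1
        exact hp.one_lt.ne h1
      · exact h
    exact hXY ((htop X hX).trans (htop Y hY).symm)

end Cfsg.Agent.S3196
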