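import Cfsg.Statements.S3201
import Mathlib
import Cfsg.Agent.Lib.Helper1.QuatQuot3

set_option autoImplicit false
open Cfsg

namespace Cfsg.Agent.S3201

/-- Let S be a finite 2-group whose centre Z(S) has n ≥ 2 distinct maximal subgroups C₁, …, Cₙ with trivial intersection such that each quotient S/Cᵢ is a non-abelian group with exactly one involution (a generalized quaternion group). Then S is the internal direct product of an elementary abelian subgroup and a non-abelian subgroup with exactly one involution. -/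
theorem result {S : Type*} [Group S] [Finite S]
    (hS : IsPGroup 2 S) (n : ℕ) (hn : 2 ≤ n) (C : Fin n → Subgroup ↥(Subgroup.center S))
    (hCmax : ∀ i, IsCoatom (C i)) (hCinj : Function.Injective C) (hCint : ⨅ i, C i = ⊥)
    (hCq : ∀ i, ∃ (_ : ((C i).map (Subgroup.center S).subtype).Normal),
      ¬ IsMulCommutative (S ⧸ (C i).map (Subgroup.center S).subtype) ∧
      ∃! x : S ⧸ (C i).map (Subgroup.center S).subtype, orderOf x = 2) :
    ∃ E Q : Subgroup S, Cfsg.IsInternalDirectProduct E Q ⊤ ∧ Cfsg.IsElementaryAbelian 2 E ∧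
      ¬ IsMulCommutative ↥Q ∧ ∃! x : ↥Q, orderOf x = 2 := by
  open Cfsg.Agent.Lib.Helper1 in
  classical
  have hZp : IsPGroup 2 ↥(Subgroup.center S) := hS.to_subgroup _
  have hZc : ∀ x y : ↥(Subgroup.center S), x * y = y * x := fun x y =>
    Subtype.ext (Subgroup.mem_center_iff.mp y.2 x)
  have hZ2 : ∀ d ∈ Subgroup.center S, d ^ 2 = 1 := by
    intro d hd
    have h1 : (⟨d, hd⟩ : ↥(Subgroup.center S)) ^ 2 ∈ ⨅ i, C i := by
      rw [Subgroup.mem_iInf]
      intro i
      exact qq_coatom_sq' hZc hZp (C i) (hCmax i) ⟨d, hd⟩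
    rw [hCint, Subgroup.mem_bot] at h1
    have h2 := congrArg Subtype.val h1
    simpa using h2
  have hidx : ∀ i, ((C i).map (Subgroup.center S).subtype).index = 2 * (Subgroup.center S).index := by
    intro i
    rw [Subgroup.index_map_subtype, qq_coatom_index' hZc hZp (C i) (hCmax i)]
  refine qq_main hS (fun i => (C i).map (Subgroup.center S).subtype)
    (fun i => Subgroup.map_subtype_le _) ?_ (fun i j => by rw [hidx i, hidx j]) hZ2 hCq
    ⟨0, by omega⟩
  intro d hd
  obtain ⟨c, hc, rfl⟩ := Subgroup.mem_map.mp (hd ⟨0, by omega⟩)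
  have h1 : c ∈ ⨅ i, C i := by
    rw [Subgroup.mem_iInf]
    intro i
    obtain ⟨c', hc', h⟩ := Subgroup.mem_map.mp (hd i)
    have : c' = c := Subtype.ext h
    rw [← this]; exact hc'
  rw [hCint, Subgroup.mem_bot] at h1
  rw [h1]; rfl

end Cfsg.Agent.S3201
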