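import Cfsg.Statements.S3202
import Mathlib
import Cfsg.Agent.Lib.Helper1.QuatQuot
import Cfsg.Agent.Lib.Helper1.UniqueInv

set_option autoImplicit false
open Cfsg

namespace Cfsg.Agent.S3202

/-- Let S be a finite 2-group of 2-rank exactly 2 and D a maximal subgroup of the centre of S such that S/D is a non-abelian group with exactly one involution (a generalized quaternion group). Then S has a nontrivial cyclic characteristic subgroup. -/
theorem result {S : Type*} [Group S]
    [Finite S] (hS : IsPGroup 2 S) (hr2 : Cfsg.PRankLE 2 2 S) (hr1 : ¬ Cfsg.PRankLE 2 1 S)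
    (D : Subgroup ↥(Subgroup.center S)) (hD : IsCoatom D)
    (hq : ∃ (_ : (D.map (Subgroup.center S).subtype).Normal),
      ¬ IsMulCommutative (S ⧸ D.map (Subgroup.center S).subtype) ∧
      ∃! x : S ⧸ D.map (Subgroup.center S).subtype, orderOf x = 2) :
    ∃ C : Subgroup S, C ≠ ⊥ ∧ IsCyclic ↥C ∧ C.Characteristic := by
  open Cfsg.Agent.Lib.Helper1 in
  classical
  obtain ⟨hNn, hna, z, hz, hzu⟩ := hq
  have hNZ : D.map (Subgroup.center S).subtype ≤ Subgroup.center S := Subgroup.map_subtype_le _
  rcases ui_cyclic_or_quat (hS.to_quotient (D.map (Subgroup.center S).subtype)) z hz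
    (fun y hy => hzu y hy) with hcyc | ⟨n, -, ⟨e⟩⟩
  · exfalso
    apply hna
    exact ⟨⟨fun x y => (IsCyclic.commGroup (α := S ⧸ D.map (Subgroup.center S).subtype)).mul_comm x y⟩⟩
  · obtain ⟨c, hc⟩ := qq_commutator_le_zpowers (D.map (Subgroup.center S).subtype) hNZ (2 ^ n) e
    refine ⟨commutator S, ?_, ?_, inferInstance⟩
    · intro hbot
      apply hna
      refine ⟨⟨fun x y => ?_⟩⟩
      obtain ⟨x, rfl⟩ := QuotientGroup.mk_surjective x
      obtain ⟨y, rfl⟩ := QuotientGroup.mk_surjective y
      have h1 : x * y * x⁻¹ * y⁻¹ ∈ commutator S := by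
        rw [commutator_def]
        exact Subgroup.commutator_mem_commutator (Subgroup.mem_top x) (Subgroup.mem_top y)
      rw [hbot, Subgroup.mem_bot] at h1
      have h2 : x * y = y * x := by
        calc x * y = (x * y * x⁻¹ * y⁻¹) * (y * x) := by group
          _ = y * x := by rw [h1, one_mul]
      show (QuotientGroup.mk x : S ⧸ D.map (Subgroup.center S).subtype) * QuotientGroup.mk y =
        QuotientGroup.mk y * QuotientGroup.mk x
      rw [← QuotientGroup.mk_mul, ← QuotientGroup.mk_mul, h2]
    · haveI : IsCyclic ↥((commutator S).subgroupOf (Subgroup.zpowers c)) := Subgroup.isCyclic _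
      exact (Subgroup.subgroupOfEquivOfLe hc).isCyclic.mp this

end Cfsg.Agent.S3202
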