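import Cfsg.Statements.S3208
import Mathlib
import Cfsg.Agent.Lib.Helper1.StronglyEmb3
import Cfsg.Agent.Lib.Helper1.StronglyEmb2
import Cfsg.Agent.Lib.Helper1.Layer
import Cfsg.Agent.Lib.Helper8.Basic

set_option autoImplicit false
open Cfsg

namespace Cfsg.Agent.S3208

/-- Let j be an involution of a finite group G, H a subgroup of G, and T a Sylow 2-subgroup of H ∩ C_G(j) containing j such that ⟨j⟩ is a characteristic subgroup of T. Then T is a Sylow 2-subgroup of H. -/
theorem result {G : Type*} [Group G] [Finite G]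
    (j : G) (hj : orderOf j = 2) (H T : Subgroup G) (hT : T ≤ H ⊓ Subgroup.centralizer ({j} : Set G)) (h2 : IsPGroup 2 ↥T)
    (hSyl : ¬ 2 ∣ T.relIndex (H ⊓ Subgroup.centralizer ({j} : Set G))) (hjT : j ∈ T)
    (hchar : ((Subgroup.zpowers j).subgroupOf T).Characteristic) :
    ¬ 2 ∣ T.relIndex H := by
  open Cfsg.Agent.Lib.Helper1 Cfsg.Agent.Lib.Helper8 in
  classical
  haveI : Fact (Nat.Prime 2) := ⟨Nat.prime_two⟩
  intro hdvd
  have hTH : T ≤ H := hT.trans inf_le_left
  obtain ⟨S, hTS, hSH, hSp, hSidx⟩ := exists_rel_sylow_ge hTH h2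
  have hne : T ≠ S := by
    intro h
    rw [h] at hdvd
    exact hSidx hdvd
  obtain ⟨n, hnS, hnN, hnT⟩ := h8_normalizer_growth hSp hTS hne
  have hnH : n ∈ H := hSH hnS
  haveI := hchar
  have hnz : n ∈ Subgroup.normalizer
      ((((Subgroup.zpowers j).subgroupOf T).map T.subtype : Subgroup G) : Set G) :=
    le_normalizer_map_subtype_of_characteristic (K := Subgroup.zpowers n)
      (Subgroup.zpowers_le.mpr hnN) _ (Subgroup.mem_zpowers n)
  rw [Subgroup.map_subgroupOf_eq_of_le (Subgroup.zpowers_le.mpr hjT)] at hnz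
  have h1 : n * j * n⁻¹ ∈ Subgroup.zpowers j :=
    (Subgroup.mem_normalizer_iff.mp hnz j).mp (Subgroup.mem_zpowers j)
  have hj2 : j ^ 2 = 1 := by
    have := pow_orderOf_eq_one j
    rw [hj] at this
    exact this
  have hj1 : j ≠ 1 := by
    intro h
    rw [h, orderOf_one] at hj
    omega
  have h3 : n * j * n⁻¹ = j := by
    obtain ⟨k, hk⟩ := Subgroup.mem_zpowers_iff.mp h1
    have h4 : j ^ k = j ^ (k % 2) := by
      have := zpow_mod_orderOf j k
      rw [hj] at this
      exact_mod_cast this.symm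
    have h5 : k % 2 = 0 ∨ k % 2 = 1 := by omega
    rcases h5 with h5 | h5
    · rw [h5, zpow_zero] at h4
      rw [h4] at hk
      exfalso
      apply hj1
      have : n * j * n⁻¹ = 1 := hk.symm
      have h6 : j = n⁻¹ * (n * j * n⁻¹) * n := by group
      rw [h6, this]; group
    · rw [h5, zpow_one] at h4
      rw [← hk, h4]
  have hnC : n ∈ Subgroup.centralizer ({j} : Set G) := by
    rw [Subgroup.mem_centralizer_singleton_iff]
    have : n * j = (n * j * n⁻¹) * n := by group
    rw [this, h3]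
  exact hnT (mem_rel_sylow_of_normalizes hT h2 hSyl (Subgroup.mem_inf.mpr ⟨hnH, hnC⟩) hnN
    (hSp.to_le (Subgroup.zpowers_le.mpr hnS)))

end Cfsg.Agent.S3208
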