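import Cfsg.Statements.S3225
import Cfsg.Agent.Lib.Helper8.Transfer

set_option autoImplicit false
open Cfsg

open Cfsg.Agent.Lib.Helper8

namespace Cfsg.Agent.S3225

/-- Let G be a finite group of even order with no subgroup of index 2, S a Sylow 2-subgroup of G and M a subgroup of index 2 in S such that, for some n ≥ 1, every element of S outside M has order greater than 2^(n−1). Then every element of S of order 2ⁿ is conjugate in G to an element of M. -/
theorem result {G : Type*} [Group G] [Finite G] (hev : Even (Nat.card G))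
    (hG : ∀ H : Subgroup G, H.index ≠ 2) (S : Sylow 2 G) (M : Subgroup G) (hMS : M ≤ (S : Subgroup G)) (hM : M.relIndex (S : Subgroup G) = 2)
    (n : ℕ) (hn : 1 ≤ n) (hord : ∀ y ∈ (S : Subgroup G), y ∉ M → 2 ^ (n - 1) < orderOf y)
    (x : G) (hx : x ∈ (S : Subgroup G)) (hxn : orderOf x = 2 ^ n) :
    ∃ g : G, g * x * g⁻¹ ∈ M := by
  classical
  haveI : Fact (Nat.Prime 2) := ⟨Nat.prime_two⟩
  by_contra hno
  push Not at hno
  have hxM : x ∉ M := by
    have h1 := hno 1
    simpa using h1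
  set M' : Subgroup (S : Subgroup G) := M.subgroupOf (S : Subgroup G) with hM'
  have hidx : M'.index = 2 := hM
  let ϕ : (S : Subgroup G) →* ℤˣ :=
    { toFun := fun s => if s ∈ M' then 1 else -1
      map_one' := by simp [M'.one_mem]
      map_mul' := by
        intro a b
        have h1 := Subgroup.mul_mem_iff_of_index_two hidx (a := a) (b := b)
        by_cases ha : a ∈ M' <;> by_cases hb : b ∈ M' <;> simp [h1, ha, hb] }
  have hϕ : ∀ s : (S : Subgroup G), ϕ s = if s ∈ M' then 1 else -1 := fun s => rfl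
  have hϕx : ϕ ⟨x, hx⟩ = -1 := by
    rw [hϕ, if_neg]
    exact hxM
  have key : ∀ (k : ℕ) (g₀ : G) (hk : g₀⁻¹ * x ^ k * g₀ ∈ (S : Subgroup G)),
      ϕ ⟨g₀⁻¹ * x ^ k * g₀, hk⟩ = ϕ ⟨x, hx⟩ ^ k := by
    intro k g₀ hk
    rw [hϕx, hϕ]
    rcases Nat.even_or_odd k with hev' | hodd
    · rw [hev'.neg_one_pow, if_pos]
      show g₀⁻¹ * x ^ k * g₀ ∈ M
      by_contra hnm
      have h1 := hord _ hk hnm
      obtain ⟨j, hj⟩ := hev'
      have hxk : (x ^ k) ^ 2 ^ (n - 1) = 1 := by
        rw [← pow_mul, hj]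
        have e1 : 2 ^ n = 2 * 2 ^ (n - 1) := by rw [← pow_succ']; congr 1; omega
        have e2 : (j + j) * 2 ^ (n - 1) = 2 ^ n * j := by rw [e1]; ring
        rw [e2, pow_mul, ← hxn, pow_orderOf_eq_one, one_pow]
      have h2 : (g₀⁻¹ * x ^ k * g₀) ^ 2 ^ (n - 1) = 1 := by
        have h3 : g₀⁻¹ * x ^ k * g₀ = g₀⁻¹ * x ^ k * g₀⁻¹⁻¹ := by rw [inv_inv]
        rw [h3, conj_pow, hxk]
        simp
      have h4 := orderOf_le_of_pow_eq_one (pow_pos (by norm_num : 0 < 2) (n - 1)) h2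
      omega
    · rw [hodd.neg_one_pow, if_neg]
      show g₀⁻¹ * x ^ k * g₀ ∉ M
      intro hmem
      have hcop : Nat.Coprime k (orderOf x) := by
        rw [hxn]
        exact Nat.Coprime.pow_right _
          ((Nat.Prime.coprime_iff_not_dvd Nat.prime_two).mpr hodd.not_two_dvd_nat).symm
      obtain ⟨m, hm⟩ := exists_pow_eq_self_of_coprime hcop
      apply hno g₀⁻¹
      have h1 : g₀⁻¹ * x * g₀⁻¹⁻¹ = (g₀⁻¹ * x ^ k * g₀) ^ m := by
        have h3 : g₀⁻¹ * x ^ k * g₀ = g₀⁻¹ * x ^ k * g₀⁻¹⁻¹ := by rw [inv_inv]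
        rw [h3, conj_pow, hm]
      rw [h1]
      exact M.pow_mem hmem m
  have h1 := h8_transfer_eq_pow_of_congr ϕ x hx key
  have hodd : Odd (S : Subgroup G).index := by
    rw [← Nat.not_even_iff_odd, even_iff_two_dvd]
    exact S.not_dvd_index
  rw [hϕx, hodd.neg_one_pow] at h1
  have hA : IsPGroup 2 ℤˣ := by
    apply IsPGroup.of_card (n := 1)
    rw [Nat.card_eq_fintype_card]
    rfl
  have h2 := h8_hom_to_two_group_trivial hG hA (MonoidHom.transfer ϕ) x
  rw [h2] at h1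
  exact absurd h1 (by decide)

end Cfsg.Agent.S3225
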