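import Cfsg.Statements.S3247
import Cfsg.Agent.Lib.Helper1.PConstr2

set_option autoImplicit false
open Cfsg

open Cfsg.Agent.Lib.Helper1 Cfsg.Agent.Lib.Helper7

namespace Cfsg.Agent.S3247

/-- Let G be a finite group and p a prime; here a p-local subgroup means the normalizer of a nontrivial p-subgroup, other than G itself. If every p-local subgroup of G that is maximal among p-local subgroups is p-constrained, or if the centralizer of every element of order p of G is p-constrained, then every p-local subgroup of G is p-constrained. -/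
theorem result {G : Type*} [Group G] [Finite G] (p : ℕ) [hp : Fact p.Prime]
    (h : (∀ M : Subgroup G, (∃ T : Subgroup G, IsPGroup p ↥T ∧ T ≠ ⊥ ∧ M = Subgroup.normalizer (T : Set G)) → M ≠ ⊤ →
        (∀ M' : Subgroup G, (∃ T' : Subgroup G, IsPGroup p ↥T' ∧ T' ≠ ⊥ ∧ M' = Subgroup.normalizer (T' : Set G)) → M' ≠ ⊤ → M ≤ M' → M = M') →
        Cfsg.IsPConstrained p ↥M) ∨
      (∀ x : G, orderOf x = p → Cfsg.IsPConstrained p ↥(Subgroup.centralizer ({x} : Set G))))
    (T : Subgroup G) (hT : IsPGroup p ↥T) (hT1 : T ≠ ⊥) (hTG : Subgroup.normalizer (T : Set G) ≠ ⊤) :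
    Cfsg.IsPConstrained p ↥(Subgroup.normalizer (T : Set G)) := by
  rw [isPConstrained_iff_pLayer_eq_bot]
  rcases h with h1 | h2
  · obtain ⟨M, hM⟩ := (Set.toFinite {M : Subgroup G | (∃ T' : Subgroup G, IsPGroup p ↥T' ∧
        T' ≠ ⊥ ∧ M = Subgroup.normalizer (T' : Set G)) ∧ M ≠ ⊤ ∧
        Subgroup.normalizer (T : Set G) ≤ M}).exists_maximal
      ⟨_, ⟨T, hT, hT1, rfl⟩, hTG, le_rfl⟩
    obtain ⟨⟨hM1, hM2, hM3⟩, hmax⟩ := hM
    have hMc := h1 M hM1 hM2 (fun M' hM' hM'top hle =>
      le_antisymm hle (hmax ⟨hM', hM'top, hM3.trans hle⟩ hle))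
    rw [isPConstrained_iff_pLayer_eq_bot] at hMc
    exact pLayer_normalizer_of_le p hMc T hT hM3
  · have : Nontrivial ↥T := (Subgroup.nontrivial_iff_ne_bot T).mpr hT1
    have hZ : Nontrivial ↥(Subgroup.center ↥T) := hT.center_nontrivial
    have hZ2 : p ∣ Nat.card ↥(Subgroup.center ↥T) := by
      have hZp : IsPGroup p ↥(Subgroup.center ↥T) := hT.to_subgroup _
      obtain ⟨n, hn⟩ := IsPGroup.iff_card.mp hZp
      rw [hn]
      have hn0 : n ≠ 0 := by
        rintro rfl
        rw [pow_zero] at hn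
        have hs : Subsingleton ↥(Subgroup.center ↥T) := (Nat.card_eq_one_iff_unique.mp hn).1
        exact not_nontrivial _ hZ
      exact dvd_pow_self p hn0
    obtain ⟨z, hz⟩ := exists_prime_orderOf_dvd_card' p hZ2
    have hzo : orderOf (((z : ↥T) : G)) = p := by
      rw [Subgroup.orderOf_coe, Subgroup.orderOf_coe]; exact hz
    have hzT : ((z : ↥T) : G) ∈ T := (z : ↥T).2
    have hzc : ∀ x ∈ T, x * ((z : ↥T) : G) = ((z : ↥T) : G) * x := by
      intro x hx
      have := Subgroup.mem_center_iff.mp z.2 ⟨x, hx⟩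
      exact congrArg Subtype.val this
    have h3 := h2 _ hzo
    rw [isPConstrained_iff_pLayer_eq_bot] at h3
    exact pLayer_normalizer_of_centralizer p h3 T hT hzT hzc

end Cfsg.Agent.S3247
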