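import Mathlib
import Cfsg.Statements.S3276
import Cfsg.Agent.S0208
import Cfsg.Agent.S0209
import Cfsg.Agent.Lib.Helper5.Invol

set_option autoImplicit false
open Cfsg

namespace Cfsg.Agent.S3276

open Cfsg.Agent.Lib.Helper5

theorem conj_comm {G : Type*} [Group G] [Finite G] (x y : G) (hx : orderOf x = 2)
    (hy : orderOf y = 2) (hnc : ¬ IsConj x y)
    (hstar : ∀ u : G, orderOf u = 2 → Commute u x → ∀ g : G, Commute (g * y * g⁻¹) u →
      Commute (g * y * g⁻¹) y)
    (g : G) : Commute (g * y * g⁻¹) y := by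
  have hy' : orderOf (g * y * g⁻¹) = 2 := by
    rw [← hy]; exact MulEquiv.orderOf_eq (MulAut.conj g) y
  by_cases hodd : Odd (orderOf (x * (g * y * g⁻¹)))
  · exfalso
    obtain ⟨d, -, hd⟩ := Cfsg.Agent.S0208.result x (g * y * g⁻¹) hx hy' hodd
    apply hnc
    rw [isConj_iff]
    refine ⟨g⁻¹ * d, ?_⟩
    have : g⁻¹ * d * x * (g⁻¹ * d)⁻¹ = g⁻¹ * (d * x * d⁻¹) * g := by group
    rw [this, hd]; group
  · have heven : Even (orderOf (x * (g * y * g⁻¹))) := Nat.not_odd_iff_even.mp hodd
    obtain ⟨h1, h2, h3⟩ := Cfsg.Agent.S0209.result x (g * y * g⁻¹) hx hy' heven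
    exact hstar _ h1 h2 g h3.symm

theorem conj_comm2 {G : Type*} [Group G] [Finite G] (x y : G) (hx : orderOf x = 2)
    (hy : orderOf y = 2) (hnc : ¬ IsConj x y)
    (hstar : ∀ u : G, orderOf u = 2 → Commute u x → ∀ g : G, Commute (g * y * g⁻¹) u →
      Commute (g * y * g⁻¹) y)
    (g h : G) : Commute (g * y * g⁻¹) (h * y * h⁻¹) := by
  have h1 := conj_comm x y hx hy hnc hstar (h⁻¹ * g)
  have h2 : h * ((h⁻¹ * g) * y * (h⁻¹ * g)⁻¹ * y) * h⁻¹ = h * (y * ((h⁻¹ * g) * y * (h⁻¹ * g)⁻¹)) * h⁻¹ := by
    rw [h1.eq]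
  show g * y * g⁻¹ * (h * y * h⁻¹) = h * y * h⁻¹ * (g * y * g⁻¹)
  have e1 : g * y * g⁻¹ * (h * y * h⁻¹) = h * ((h⁻¹ * g) * y * (h⁻¹ * g)⁻¹ * y) * h⁻¹ := by group
  have e2 : h * y * h⁻¹ * (g * y * g⁻¹) = h * (y * ((h⁻¹ * g) * y * (h⁻¹ * g)⁻¹)) * h⁻¹ := by group
  rw [e1, e2, h2]

/-- Let x and y be commuting, non-conjugate involutions of a finite group G, and suppose that for every involution u commuting with x, each conjugate of y that commutes with u also commutes with y. Then the normal closure of y is a proper, normal, elementary abelian 2-subgroup of G; and if y is the only involution of that normal closure commuting with x, it has order at most 4. -/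
theorem result {G : Type*} [Group G] [Finite G] (x y : G) (hx : orderOf x = 2) (hy : orderOf y = 2)
    (hxy : Commute x y) (hnc : ¬ IsConj x y)
    (hstar : ∀ u : G, orderOf u = 2 → Commute u x → ∀ g : G, Commute (g * y * g⁻¹) u → Commute (g * y * g⁻¹) y) :
    Subgroup.normalClosure ({y} : Set G) ≠ ⊤ ∧ Cfsg.IsElementaryAbelian 2 (Subgroup.normalClosure ({y} : Set G)) ∧
      ((∀ u ∈ Subgroup.normalClosure ({y} : Set G), orderOf u = 2 → Commute u x → u = y) →
        Nat.card ↥(Subgroup.normalClosure ({y} : Set G)) ≤ 4) := by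
  classical
  have hgen : ∀ c ∈ Group.conjugatesOfSet ({y} : Set G), ∃ g : G, c = g * y * g⁻¹ := by
    intro c hc
    rw [Group.mem_conjugatesOfSet_iff] at hc
    obtain ⟨a, ha, hac⟩ := hc
    rw [Set.mem_singleton_iff] at ha
    subst ha
    rw [isConj_iff] at hac
    obtain ⟨g, hg⟩ := hac
    exact ⟨g, hg.symm⟩
  have hpair : ∀ a ∈ Group.conjugatesOfSet ({y} : Set G), ∀ b ∈ Group.conjugatesOfSet ({y} : Set G),
      a * b = b * a := by
    intro a ha b hb
    obtain ⟨g, rfl⟩ := hgen a ha
    obtain ⟨h, rfl⟩ := hgen b hb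
    exact (conj_comm2 x y hx hy hnc hstar g h).eq
  set Y := Subgroup.normalClosure ({y} : Set G) with hY
  have hYdef : Y = Subgroup.closure (Group.conjugatesOfSet ({y} : Set G)) := rfl
  have h1 : Y ≤ Subgroup.centralizer (Group.conjugatesOfSet ({y} : Set G)) := by
    rw [hYdef, Subgroup.closure_le]
    intro a ha
    rw [SetLike.mem_coe, Subgroup.mem_centralizer_iff]
    intro b hb
    exact hpair b hb a ha
  have h2 : Y ≤ Subgroup.centralizer (Y : Set G) := by
    rw [hYdef, Subgroup.closure_le]
    intro a ha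
    rw [SetLike.mem_coe, Subgroup.mem_centralizer_iff]
    intro b hb
    have := h1 hb
    rw [Subgroup.mem_centralizer_iff] at this
    exact (this a ha).symm
  have hcomm : ∀ a ∈ Y, ∀ b ∈ Y, a * b = b * a := by
    intro a ha b hb
    have := h2 ha
    rw [Subgroup.mem_centralizer_iff] at this
    exact (this b hb).symm
  have hsq : ∀ a ∈ Y, a * a = 1 := by
    intro a ha
    rw [hYdef] at ha
    induction ha using Subgroup.closure_induction with
    | mem c hc =>
      obtain ⟨g, rfl⟩ := hgen c hc
      have : g * y * g⁻¹ * (g * y * g⁻¹) = g * (y * y) * g⁻¹ := by group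
      rw [this, sq_of_order_two hy]; group
    | one => simp
    | mul a b ha hb iha ihb =>
      have hab := hcomm a ha b hb
      calc a * b * (a * b) = a * (b * a) * b := by group
        _ = a * (a * b) * b := by rw [hab]
        _ = (a * a) * (b * b) := by group
        _ = 1 := by rw [iha, ihb, one_mul]
    | inv a ha iha =>
      have : a⁻¹ * a⁻¹ = (a * a)⁻¹ := by group
      rw [this, iha, inv_one]
  have hyY : y ∈ Y := Subgroup.subset_normalClosure (Set.mem_singleton y)
  have hYn : Y.Normal := Subgroup.normalClosure_normal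
  have hx1 : x ≠ 1 := ne_one_of_order_two hx
  have hy1 : y ≠ 1 := ne_one_of_order_two hy
  refine ⟨?_, ⟨⟨⟨fun a b => Subtype.ext (hcomm a a.2 b b.2)⟩⟩, fun a ha => by
    rw [pow_two]; exact hsq a ha⟩, ?_⟩
  · intro htop
    have hall : ∀ a b : G, a * b = b * a := by
      intro a b
      exact hcomm a (htop ▸ Subgroup.mem_top a) b (htop ▸ Subgroup.mem_top b)
    -- then Y = {1, y}
    have hYle : Y ≤ Subgroup.zpowers y := by
      rw [hYdef, Subgroup.closure_le]
      intro c hc
      obtain ⟨g, rfl⟩ := hgen c hc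
      have : g * y * g⁻¹ = y := by rw [hall g y]; group
      rw [this]
      exact Subgroup.mem_zpowers y
    have hxz : x ∈ Subgroup.zpowers y := hYle (htop ▸ Subgroup.mem_top x)
    have hcard : Nat.card (Subgroup.zpowers y) = 2 := by rw [Nat.card_zpowers, hy]
    -- elements of zpowers y are 1 or y
    obtain ⟨k, hk⟩ := Subgroup.mem_zpowers_iff.mp hxz
    have hk2 : x = 1 ∨ x = y := by
      rcases Int.emod_two_eq_zero_or_one k with h | h
      · left
        have : k = 2 * (k / 2) := by omega
        rw [← hk, this, zpow_mul, zpow_ofNat, pow_two, sq_of_order_two hy, one_zpow]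
      · right
        have : k = 2 * (k / 2) + 1 := by omega
        rw [← hk, this, zpow_add, zpow_mul, zpow_ofNat, pow_two, sq_of_order_two hy, one_zpow,
          one_mul, zpow_one]
    rcases hk2 with h | h
    · exact hx1 h
    · exact hnc (h ▸ IsConj.refl x)
  · intro huniq
    let φ : Y →* Y :=
      { toFun := fun v => ⟨(v : G) * (x * v * x⁻¹), Y.mul_mem v.2 (hYn.conj_mem _ v.2 x)⟩
        map_one' := by ext; simp
        map_mul' := by
          intro a b
          ext
          simp only [Subgroup.coe_mul]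
          have hc : (b : G) * (x * a * x⁻¹) = (x * a * x⁻¹) * b :=
            hcomm _ b.2 _ (hYn.conj_mem _ a.2 x)
          calc (a:G) * b * (x * (a * b) * x⁻¹) = a * (b * (x * a * x⁻¹)) * (x * b * x⁻¹) := by group
            _ = a * ((x * a * x⁻¹) * b) * (x * b * x⁻¹) := by rw [hc]
            _ = _ := by group }
    have hφ : ∀ v : Y, ((φ v : Y) : G) = (v : G) * (x * v * x⁻¹) := fun v => rfl
    set y' : Y := ⟨y, hyY⟩ with hy'
    have hZ : Nat.card (Subgroup.zpowers y') = 2 := by
      rw [Nat.card_zpowers, hy', Subgroup.orderOf_mk, hy]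
    have key : ∀ w : Y, Commute (w : G) x → w ∈ Subgroup.zpowers y' := by
      intro w hw
      by_cases hw1 : (w : G) = 1
      · have : w = 1 := Subtype.ext hw1
        rw [this]; exact Subgroup.one_mem _
      · have := huniq w w.2 (order_two_of_sq hw1 (hsq w w.2)) hw
        have : w = y' := Subtype.ext this
        rw [this]; exact Subgroup.mem_zpowers y'
    have hxx : x * x = 1 := sq_of_order_two hx
    have hxi : x⁻¹ = x := inv_of_order_two hx
    have hker : φ.ker ≤ Subgroup.zpowers y' := by
      intro v hv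
      apply key
      rw [MonoidHom.mem_ker] at hv
      have h3 := congrArg Subtype.val hv
      rw [hφ] at h3
      simp only [Subgroup.coe_one] at h3
      have hvv := hsq v v.2
      -- x v x⁻¹ = v⁻¹ = v
      have h4 : x * v * x⁻¹ = (v : G) := by
        have : x * v * x⁻¹ = (v : G)⁻¹ := by
          rw [eq_inv_iff_mul_eq_one, ← h3]
          exact (hcomm _ (hYn.conj_mem _ v.2 x) _ v.2)
        rw [this]
        exact inv_eq_of_mul_eq_one_left hvv
      show (v : G) * x = x * v
      calc (v : G) * x = (x * v * x⁻¹) * x := by rw [h4]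
        _ = x * v := by group
    have hrange : φ.range ≤ Subgroup.zpowers y' := by
      rintro w ⟨v, rfl⟩
      apply key
      show ((φ v : Y) : G) * x = x * ((φ v : Y) : G)
      rw [hφ]
      have hc : (v : G) * (x * v * x⁻¹) = (x * v * x⁻¹) * v :=
        hcomm _ v.2 _ (hYn.conj_mem _ v.2 x)
      rw [hxi] at hc ⊢
      calc (v : G) * (x * v * x) * x = (v : G) * (x * v) * (x * x) := by group
        _ = (v : G) * (x * v) := by rw [hxx, mul_one]
        _ = (x * x) * ((v : G) * (x * v)) := by rw [hxx, one_mul]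
        _ = x * ((x * v * x) * v) := by group
        _ = x * (↑v * (x * ↑v * x)) := by rw [hc]
    have hc1 := Subgroup.card_le_of_le hker
    have hc2 := Subgroup.card_le_of_le hrange
    rw [hZ] at hc1 hc2
    have h5 := Subgroup.card_mul_index φ.ker
    rw [Subgroup.index_ker] at h5
    rw [← h5]
    calc Nat.card φ.ker * Nat.card φ.range ≤ 2 * 2 := Nat.mul_le_mul hc1 hc2
      _ = 4 := by norm_num

end Cfsg.Agent.S3276
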