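import Mathlib
import Cfsg.Statements.S3303
import Cfsg.Agent.S3305
import Cfsg.Agent.Lib.Helper1.UpperP
import Cfsg.Agent.Lib.Helper1.PCore2
import Cfsg.Agent.Lib.Helper8.PSolvOfSolv
import Cfsg.Agent.Lib.Helper7.PCore

set_option autoImplicit false
open Cfsg

namespace Cfsg.Agent.S3303

/-- a group with a cyclic normal self-centralizing `2`-subgroup is a `2`-group -/
theorem two_group_of_cyclic {K : Type*} [Group K] [Finite K] (Q : Subgroup K) [Q.Normal]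
    [IsCyclic Q] (hQ : IsPGroup 2 Q) (hcent : Subgroup.centralizer (Q : Set K) ≤ Q) :
    IsPGroup 2 K := by
  haveI : Fact (Nat.Prime 2) := ⟨Nat.prime_two⟩
  obtain ⟨k, hk⟩ := IsPGroup.iff_card.mp hQ
  have hA : ∃ j : ℕ, Nat.card (MulAut Q) = 2 ^ j := by
    rw [IsCyclic.card_mulAut, hk]
    rcases Nat.eq_zero_or_pos k with h0 | h0
    · exact ⟨0, by rw [h0]; simp⟩
    · exact ⟨k - 1, by rw [Nat.totient_prime_pow Nat.prime_two h0]; simp⟩
  obtain ⟨j, hj⟩ := hA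
  intro g
  have h1 : (MulAut.conjNormal (H := Q) g) ^ (2 ^ j) = 1 := by
    rw [← hj]; exact pow_card_eq_one'
  rw [← map_pow] at h1
  have h2 : g ^ (2 ^ j) ∈ Subgroup.centralizer (Q : Set K) := by
    rw [Subgroup.mem_centralizer_iff]
    intro q hq
    have h3 := congrArg (fun φ : MulAut Q => ((φ ⟨q, hq⟩ : Q) : K)) h1
    simp only [MulAut.conjNormal_apply, MulAut.one_apply] at h3
    exact (mul_inv_eq_iff_eq_mul.mp h3).symm
  have h4 := hcent h2
  obtain ⟨i, hi⟩ := hQ ⟨g ^ (2 ^ j), h4⟩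
  refine ⟨j + i, ?_⟩
  have h5 := congrArg Subtype.val hi
  simp only [Subgroup.coe_pow, Subgroup.coe_one] at h5
  rw [pow_add, pow_mul]
  exact h5

/-- Let G be a finite solvable group in which the intersection of any two distinct Sylow 2-subgroups is cyclic. Then G/O(G) has a normal Sylow 2-subgroup, where O(G) is the largest normal subgroup of odd order. -/
theorem result {G : Type*} [Group G] [Finite G] (hs : Group.IsSolvable G)
    (hC : ∀ S T : Sylow 2 G, S ≠ T → IsCyclic ↥((S : Subgroup G) ⊓ (T : Subgroup G))) :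
    ∃ P : Sylow 2 (G ⧸ Cfsg.oddCore G), (P : Subgroup (G ⧸ Cfsg.oddCore G)).Normal := by
  classical
  haveI : Fact (Nat.Prime 2) := ⟨Nat.prime_two⟩
  have hCq := Cfsg.Agent.S3305.result hC (Cfsg.oddCore G)
  have hsq : Group.IsSolvable (G ⧸ Cfsg.oddCore G) := inferInstance
  have hps : Cfsg.IsPSolvable 2 (G ⧸ Cfsg.oddCore G) :=
    Cfsg.Agent.Lib.Helper8.h8_isPSolvable_of_isSolvable 2 hsq
  have hO : Cfsg.pPrimeCore 2 (G ⧸ Cfsg.oddCore G) = ⊥ :=
    Cfsg.Agent.Lib.Helper1.pPrimeCore_quotient_eq_bot 2 G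
  have hcent := Cfsg.Agent.Lib.Helper1.centralizer_pCore_le_of_isPSolvable 2
    (G ⧸ Cfsg.oddCore G) hps hO
  obtain ⟨P⟩ := (inferInstance : Nonempty (Sylow 2 (G ⧸ Cfsg.oddCore G)))
  refine ⟨P, ?_⟩
  by_cases hex : ∃ T : Sylow 2 (G ⧸ Cfsg.oddCore G), T ≠ P
  · obtain ⟨T, hT⟩ := hex
    haveI hQcyc := hCq T P hT
    have hQp : IsPGroup 2 (Cfsg.pCore 2 (G ⧸ Cfsg.oddCore G)) :=
      Cfsg.Agent.Lib.Helper7.pCore_isPGroup 2 _
    have hQle : ∀ S : Sylow 2 (G ⧸ Cfsg.oddCore G),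
        Cfsg.pCore 2 (G ⧸ Cfsg.oddCore G) ≤ S := fun S => hQp.le_sylow_of_normal S
    haveI : IsCyclic (Cfsg.pCore 2 (G ⧸ Cfsg.oddCore G)) :=
      Subgroup.isCyclic_of_le (le_inf (hQle T) (hQle P))
    have h2 : IsPGroup 2 (G ⧸ Cfsg.oddCore G) :=
      two_group_of_cyclic (Cfsg.pCore 2 (G ⧸ Cfsg.oddCore G)) hQp hcent
    rw [Cfsg.Agent.S3305.sylow_top h2 P]
    infer_instance
  · push_neg at hex
    haveI : Subsingleton (Sylow 2 (G ⧸ Cfsg.oddCore G)) :=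
      ⟨fun a b => (hex a).trans (hex b).symm⟩
    exact Sylow.normal_of_subsingleton P

end Cfsg.Agent.S3303
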