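import Mathlib
import Cfsg.Statements.S3349

set_option autoImplicit false
open Cfsg

namespace Cfsg.Agent.S3349

open scoped commutatorElement

/-- Let Q be a finite extraspecial p-group and α an automorphism of Q fixing every element of some maximal abelian subgroup of Q. Then the order of α is a power of p. -/
theorem result {Q : Type*} [Group Q] [Finite Q]
    (p : ℕ) [Fact p.Prime] (hQ : Cfsg.IsExtraspecial p Q) (α : MulAut Q)
    (A : Subgroup Q) (hA : IsMulCommutative A) (hmax : ∀ B : Subgroup Q, A ≤ B → IsMulCommutative B → B = A)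
    (hfix : ∀ a ∈ A, α a = a) :
    ∃ k : ℕ, orderOf α = p ^ k := by
  haveI := hA
  have hCA : ∀ w : Q, (∀ a ∈ A, w * a = a * w) → w ∈ A := by
    intro w hw
    have hcomm : ∀ x ∈ (A : Set Q) ∪ {w}, ∀ y ∈ (A : Set Q) ∪ {w}, x * y = y * x := by
      rintro x (hx | hx) y (hy | hy)
      · exact setLike_mul_comm hx hy
      · rw [Set.mem_singleton_iff] at hy; rw [hy]; exact (hw x hx).symm
      · rw [Set.mem_singleton_iff] at hx; rw [hx]; exact hw y hy
      · rw [Set.mem_singleton_iff] at hx hy; rw [hx, hy]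
    have hB := hmax (Subgroup.closure ((A : Set Q) ∪ {w}))
      (fun a ha => Subgroup.subset_closure (Or.inl ha)) (Subgroup.isMulCommutative_closure hcomm)
    rw [← hB]
    exact Subgroup.subset_closure (Or.inr rfl)
  have hkey : ∀ x : Q, x⁻¹ * α x ∈ A := by
    intro x
    apply hCA
    intro a ha
    have hc : x * a * x⁻¹ * a⁻¹ ∈ Subgroup.center Q := by
      rw [← hQ.1.2.2, commutator_def, ← commutatorElement_def]
      exact Subgroup.commutator_mem_commutator (Subgroup.mem_top _) (Subgroup.mem_top _)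
    have hcA : x * a * x⁻¹ * a⁻¹ ∈ A := by
      apply hCA
      intro b _
      exact (Subgroup.mem_center_iff.mp hc b).symm
    have h1 := hfix _ hcA
    rw [map_mul, map_mul, map_mul, map_inv, map_inv, hfix a ha] at h1
    have h2 : α x * a * (α x)⁻¹ = x * a * x⁻¹ := by
      have := congrArg (· * a) h1
      simpa using this
    calc x⁻¹ * α x * a = x⁻¹ * (α x * a * (α x)⁻¹) * α x := by group
      _ = x⁻¹ * (x * a * x⁻¹) * α x := by rw [h2]
      _ = a * (x⁻¹ * α x) := by group
  have hpowA : ∀ n : ℕ, ∀ a ∈ A, (α ^ n) a = a := by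
    intro n
    induction n with
    | zero => intro a _; simp
    | succ n ih => intro a ha; rw [pow_succ, MulAut.mul_apply, hfix a ha, ih a ha]
  have hpow : ∀ n : ℕ, ∀ x : Q, (α ^ n) x = x * (x⁻¹ * α x) ^ n := by
    intro n
    induction n with
    | zero => intro x; simp
    | succ n ih =>
      intro x
      obtain ⟨w, hw⟩ : ∃ w, w = x⁻¹ * α x := ⟨_, rfl⟩
      have hwA : w ∈ A := hw ▸ hkey x
      have e : α x = x * w := by rw [hw]; group
      rw [← hw, pow_succ, MulAut.mul_apply, e, map_mul, hpowA n w hwA, ih x, ← hw, pow_succ, mul_assoc]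
  obtain ⟨m, hm⟩ := IsPGroup.iff_card.mp hQ.1.1
  have hα : α ^ (p ^ m) = 1 := by
    ext x
    rw [hpow, MulAut.one_apply, ← hm]
    have : (x⁻¹ * α x) ^ Nat.card Q = 1 := pow_card_eq_one'
    rw [this, mul_one]
  have hdvd := orderOf_dvd_of_pow_eq_one hα
  obtain ⟨k, -, hk⟩ := (Nat.dvd_prime_pow (Fact.out)).mp hdvd
  exact ⟨k, hk⟩

end Cfsg.Agent.S3349
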