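import Cfsg.Statements.S3389
import Mathlib
import Cfsg.Agent.Lib.Helper2.OddReal
-- import your own Cfsg.Agent.* helpers here

set_option autoImplicit false
open Cfsg

namespace Cfsg.Agent.S3389

theorem pelt_fix {G : Type*} [Group G] {Ω : Type*} [MulAction G Ω] [DecidableEq Ω]
    (p : ℕ) (hp : p.Prime) (x : G) (e : ℕ) (hx : x ^ (p ^ e) = 1) (S : Finset Ω)
    (hS : ∀ ω ∈ S, x • ω ∈ S) (hcard : S.card < p) : ∀ ω ∈ S, x • ω = ω := by
  intro ω hω
  have hmem : ∀ i : ℕ, x ^ i • ω ∈ S := by
    intro i
    induction i with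
    | zero => simpa using hω
    | succ i ih =>
      rw [pow_succ', mul_smul]
      exact hS _ ih
  have hc : S.card < (Finset.range p).card := by rw [Finset.card_range]; exact hcard
  obtain ⟨i, hi, j, hj, hij, hfij⟩ := Finset.exists_ne_map_eq_of_card_lt_of_maps_to hc
    (f := fun i : ℕ => x ^ i • ω) (fun i _ => hmem i)
  rw [Finset.mem_range] at hi hj
  -- wlog i < j
  have key : ∀ i j : ℕ, i < j → j < p → x ^ i • ω = x ^ j • ω → x • ω = ω := by
    intro i j hij hj hf
    have hd : x ^ (j - i) • ω = ω := by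
      have e1 : x ^ j = x ^ i * x ^ (j - i) := by
        rw [← pow_add]
        congr 1
        omega
      rw [e1, mul_smul] at hf
      exact (smul_left_cancel _ hf).symm
    have hcop : Nat.Coprime (j - i) (orderOf x) := by
      have h1 : Nat.Coprime (j - i) p :=
        Nat.Coprime.symm ((Nat.Prime.coprime_iff_not_dvd hp).mpr
          (Nat.not_dvd_of_pos_of_lt (by omega) (by omega)))
      exact Nat.Coprime.coprime_dvd_right (orderOf_dvd_of_pow_eq_one hx) (Nat.Coprime.pow_right e h1)
    obtain ⟨m, hm⟩ := exists_pow_eq_self_of_coprime hcop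
    have h2 : x ^ (j - i) ∈ MulAction.stabilizer G ω := hd
    have h3 : (x ^ (j - i)) ^ m ∈ MulAction.stabilizer G ω := pow_mem h2 m
    rw [hm] at h3
    exact h3
  rcases Nat.lt_or_gt_of_ne hij with h | h
  · exact key i j h hj hfij
  · exact key j i h hi hfij.symm

theorem sylow_fix {G : Type*} [Group G] [Finite G] {Ω : Type*} [Fintype Ω] [MulAction G Ω]
    [DecidableEq Ω] (k : ℕ)
    (hfix : ∀ g : G, g ≠ 1 → (Finset.univ.filter fun ω : Ω => g • ω = ω).card ≤ k)
    (p : ℕ) [Fact p.Prime] (hkp : k < p) (P : Sylow p G) (y : G) (hyP : y ∈ P) (hy1 : y ≠ 1)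
    (α : Ω) (hyα : y • α = α) : ∀ x ∈ P, x • α = α := by
  have hp : p.Prime := Fact.out
  haveI : Nontrivial ↥(P : Subgroup G) := by
    refine ⟨⟨⟨y, hyP⟩, 1, ?_⟩⟩
    intro h
    exact hy1 (congrArg Subtype.val h)
  haveI := IsPGroup.center_nontrivial P.isPGroup'
  obtain ⟨z', hz'⟩ := exists_ne (1 : Subgroup.center ↥(P : Subgroup G))
  have hz1 : ((z'.1 : ↥(P : Subgroup G)) : G) ≠ 1 := by
    intro h
    apply hz'
    apply Subtype.ext
    apply Subtype.ext
    exact h
  have hzc : ∀ x ∈ (P : Subgroup G), x * ((z'.1 : ↥(P : Subgroup G)) : G)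
      = ((z'.1 : ↥(P : Subgroup G)) : G) * x := by
    intro x hx
    have := (Subgroup.mem_center_iff.mp z'.2) ⟨x, hx⟩
    exact congrArg Subtype.val this
  set z : G := ((z'.1 : ↥(P : Subgroup G)) : G) with hz
  have hzP : z ∈ (P : Subgroup G) := (z'.1).2
  have hpow : ∀ x ∈ (P : Subgroup G), ∃ e : ℕ, x ^ (p ^ e) = 1 := by
    intro x hx
    obtain ⟨e, he⟩ := P.isPGroup' ⟨x, hx⟩
    exact ⟨e, congrArg Subtype.val he⟩
  -- z fixes α
  have hzα : z • α = α := by
    obtain ⟨e, he⟩ := hpow z hzP
    apply pelt_fix p hp z e he (Finset.univ.filter fun ω : Ω => y • ω = ω) ?_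
      (lt_of_le_of_lt (hfix y hy1) hkp) α (by simp [hyα])
    intro ω hω
    simp only [Finset.mem_filter, Finset.mem_univ, true_and] at hω ⊢
    rw [← mul_smul, hzc y hyP, mul_smul, hω]
  intro x hx
  obtain ⟨e, he⟩ := hpow x hx
  apply pelt_fix p hp x e he (Finset.univ.filter fun ω : Ω => z • ω = ω) ?_
    (lt_of_le_of_lt (hfix z hz1) hkp) α (by simp [hzα])
  intro ω hω
  simp only [Finset.mem_filter, Finset.mem_univ, true_and] at hω ⊢
  rw [← mul_smul, ← hzc x hx, mul_smul, hω]

/-- Let G be a finite group acting faithfully and transitively on a finite set Ω with fixity k ≥ 1: every non-identity element fixes at most k points and some non-identity element fixes exactly k points. Then |Z(G)| divides k; if k = 2 then |G| is even; and for every prime p > k dividing |G| and every point α, either p does not divide |G_α| or G_α contains a Sylow p-subgroup of G. -/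
theorem result {G : Type*} [Group G] [Finite G] {Ω : Type*} [Fintype Ω] [MulAction G Ω] [FaithfulSMul G Ω]
    (htr : MulAction.IsPretransitive G Ω) (k : ℕ) (hk : 1 ≤ k)
    (hfix : ∀ g : G, g ≠ 1 → Nat.card (MulAction.fixedBy Ω g) ≤ k) (hex : ∃ g : G, g ≠ 1 ∧ Nat.card (MulAction.fixedBy Ω g) = k) :
    Nat.card (Subgroup.center G) ∣ k ∧ (k = 2 → 2 ∣ Nat.card G) ∧
      ∀ (p : ℕ), p.Prime → k < p → p ∣ Nat.card G → ∀ α : Ω,
        ¬ p ∣ Nat.card (MulAction.stabilizer G α) ∨ ¬ p ∣ (MulAction.stabilizer G α).index := by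
  classical
  have hcardfix : ∀ g : G, Nat.card (MulAction.fixedBy Ω g)
      = (Finset.univ.filter fun ω : Ω => g • ω = ω).card := by
    intro g
    rw [Nat.card_eq_fintype_card]
    exact Fintype.card_of_subtype _ (by simp [MulAction.mem_fixedBy])
  have hfix' : ∀ g : G, g ≠ 1 → (Finset.univ.filter fun ω : Ω => g • ω = ω).card ≤ k := by
    intro g hg
    rw [← hcardfix]
    exact hfix g hg
  have hcentral : ∀ z ∈ Subgroup.center G, ∀ ω : Ω, z • ω = ω → z = 1 := by
    intro z hz ω hω
    apply FaithfulSMul.eq_of_smul_eq_smul (α := Ω)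
    intro ω'
    obtain ⟨h, rfl⟩ := MulAction.exists_smul_eq G ω ω'
    rw [one_smul, ← mul_smul, ← (Subgroup.mem_center_iff.mp hz) h, mul_smul, hω]
  refine ⟨?_, ?_, ?_⟩
  · -- centre
    obtain ⟨g, hg1, hgk⟩ := hex
    haveI := Fintype.ofFinite (Subgroup.center G)
    have hb := Cfsg.Agent.Lib.Helper2.OddReal.burnside (G := Subgroup.center G)
      (Y := {ω : Ω // g • ω = ω})
      (fun z y => ⟨(z : G) • y.1, by
        rw [← mul_smul, (Subgroup.mem_center_iff.mp z.2) g, mul_smul, y.2]⟩)
      (fun y => Subtype.ext (one_smul _ _))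
      (fun a b y => Subtype.ext (mul_smul _ _ _))
    rw [Finset.sum_eq_single 1] at hb
    · have hY : Nat.card {y : {ω : Ω // g • ω = ω} //
          (⟨((1 : Subgroup.center G) : G) • y.1, by simp [y.2]⟩ : {ω : Ω // g • ω = ω}) = y}
          = k := by
        rw [← hgk]
        apply Nat.card_congr
        exact
          { toFun := fun y => ⟨y.1.1, y.1.2⟩
            invFun := fun y => ⟨⟨y.1, y.2⟩, Subtype.ext (one_smul _ _)⟩
            left_inv := fun y => rfl
            right_inv := fun y => rfl }
      rw [hY] at hb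
      exact Dvd.intro_left _ hb
    · intro z _ hz1
      rw [Nat.card_eq_zero]
      left
      refine ⟨fun y => ?_⟩
      have h1 := congrArg Subtype.val y.2
      apply hz1
      apply Subtype.ext
      exact hcentral z.1 z.2 y.1.1 h1
    · intro h
      exact absurd (Finset.mem_univ _) h
  · -- k = 2
    intro hk2
    by_contra hodd
    obtain ⟨g, hg1, hgk⟩ := hex
    rw [hcardfix, hk2] at hgk
    obtain ⟨p, hp, hpg⟩ := Nat.exists_prime_and_dvd (n := orderOf g) (by
      intro h
      exact hg1 (orderOf_eq_one_iff.mp h))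
    haveI : Fact p.Prime := ⟨hp⟩
    have hp2 : 2 < p := by
      have h2 : p ≠ 2 := by
        intro h
        apply hodd
        rw [← h]
        exact hpg.trans (orderOf_dvd_natCard g)
      have := hp.two_le
      omega
    obtain ⟨m, hm⟩ := hpg
    have hg0 : 0 < orderOf g := orderOf_pos g
    have hm0 : 0 < m := by
      rcases Nat.eq_zero_or_pos m with h | h
      · rw [h, mul_zero] at hm; omega
      · exact h
    have hg'ord : orderOf (g ^ m) = p := by
      rw [orderOf_pow' g (by omega), hm, Nat.gcd_mul_left_left, Nat.mul_div_cancel _ hm0]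
    have hg'1 : g ^ m ≠ 1 := by
      intro h
      rw [h, orderOf_one] at hg'ord
      exact hp.one_lt.ne hg'ord
    have hsub : (Finset.univ.filter fun ω : Ω => g • ω = ω)
        ⊆ (Finset.univ.filter fun ω : Ω => (g ^ m) • ω = ω) := by
      intro ω hω
      simp only [Finset.mem_filter, Finset.mem_univ, true_and] at hω ⊢
      have h2 : g ∈ MulAction.stabilizer G ω := hω
      exact pow_mem h2 m
    have heq : (Finset.univ.filter fun ω : Ω => g • ω = ω)
        = (Finset.univ.filter fun ω : Ω => (g ^ m) • ω = ω) := by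
      apply Finset.eq_of_subset_of_card_le hsub
      rw [hgk, ← hk2]
      exact hfix' _ hg'1
    obtain ⟨α, β, hαβ, hab⟩ := Finset.card_eq_two.mp hgk
    have hfixg' : ∀ ω : Ω, (g ^ m) • ω = ω ↔ ω = α ∨ ω = β := by
      intro ω
      have : ω ∈ (Finset.univ.filter fun ω : Ω => (g ^ m) • ω = ω) ↔ ω ∈ ({α, β} : Finset Ω) := by
        rw [← heq, hab]
      simpa using this
    have hg'α : (g ^ m) • α = α := (hfixg' α).mpr (Or.inl rfl)
    have hg'β : (g ^ m) • β = β := (hfixg' β).mpr (Or.inr rfl)
    have hzp : IsPGroup p (Subgroup.zpowers (g ^ m)) := by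
      apply IsPGroup.of_card (n := 1)
      rw [Nat.card_zpowers, hg'ord, pow_one]
    obtain ⟨P, hP⟩ := hzp.exists_le_sylow
    have hg'P : g ^ m ∈ P := hP (Subgroup.mem_zpowers _)
    have hk2p : k < p := by omega
    have hPα := Cfsg.Agent.S3389.sylow_fix k hfix' p hk2p P (g ^ m) hg'P hg'1 α hg'α
    have hPβ := Cfsg.Agent.S3389.sylow_fix k hfix' p hk2p P (g ^ m) hg'P hg'1 β hg'β
    obtain ⟨h, hh⟩ := MulAction.exists_smul_eq G α β
    have h1 : (P : Subgroup G) ≤ MulAction.stabilizer G β := fun x hx => hPβ x hx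
    have h2 : ((h • P : Sylow p G) : Subgroup G) ≤ MulAction.stabilizer G β := by
      intro x hx
      obtain ⟨z, hz, rfl⟩ := hx
      have h3 := hPα z hz
      change (h * z * h⁻¹) • β = β
      rw [← hh, ← mul_smul, inv_mul_cancel_right, mul_smul, h3]
    obtain ⟨c, hc⟩ := MulAction.exists_smul_eq (MulAction.stabilizer G β)
      ((h • P).subtype h2) (P.subtype h1)
    simp_rw [Sylow.smul_subtype, Subgroup.smul_def, smul_smul] at hc
    have hn : (c : G) * h ∈ Subgroup.normalizer ((P : Subgroup G) : Set G) :=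
      Sylow.smul_eq_iff_mem_normalizer.mp (Sylow.subtype_injective hc)
    have hnα : ((c : G) * h) • α = β := by
      rw [mul_smul, hh]
      exact c.2
    have hnβ : ((c : G) * h) • β = α := by
      have hconj : ((c : G) * h) * (g ^ m) * ((c : G) * h)⁻¹ ∈ (P : Subgroup G) :=
        (Subgroup.mem_normalizer_iff.mp hn (g ^ m)).mp hg'P
      have hconj1 : ((c : G) * h) * (g ^ m) * ((c : G) * h)⁻¹ ≠ 1 := by
        intro h0
        apply hg'1
        have : g ^ m = ((c : G) * h)⁻¹ * (((c : G) * h) * (g ^ m) * ((c : G) * h)⁻¹) * ((c : G) * h) := by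
          group
        rw [this, h0]
        group
      have hfixc : (((c : G) * h) * (g ^ m) * ((c : G) * h)⁻¹) • (((c : G) * h) • β)
          = ((c : G) * h) • β := by
        rw [← mul_smul, inv_mul_cancel_right, mul_smul, hg'β]
      -- fixed set of the conjugate is {α, β}
      have hcard3 : ∀ ω : Ω, (((c : G) * h) * (g ^ m) * ((c : G) * h)⁻¹) • ω = ω →
          ω = α ∨ ω = β := by
        intro ω hω
        by_contra hne
        push Not at hne
        have hsub3 : ({α, β, ω} : Finset Ω) ⊆ (Finset.univ.filter fun ω : Ω =>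
            (((c : G) * h) * (g ^ m) * ((c : G) * h)⁻¹) • ω = ω) := by
          intro u hu
          simp only [Finset.mem_insert, Finset.mem_singleton] at hu
          simp only [Finset.mem_filter, Finset.mem_univ, true_and]
          rcases hu with rfl | rfl | rfl
          · exact hPα _ hconj
          · exact hPβ _ hconj
          · exact hω
        have hc3 : ({α, β, ω} : Finset Ω).card = 3 := by
          rw [Finset.card_insert_of_notMem, Finset.card_insert_of_notMem, Finset.card_singleton]
          · simp only [Finset.mem_singleton]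
            exact fun h => hne.2 h.symm
          · simp only [Finset.mem_insert, Finset.mem_singleton, not_or]
            exact ⟨hαβ, fun h => hne.1 h.symm⟩
        have := Finset.card_le_card hsub3
        have := hfix' _ hconj1
        omega
      rcases hcard3 _ hfixc with h5 | h5
      · exact h5
      · exfalso
        have h6 : ((c : G) * h) • β = ((c : G) * h) • α := h5.trans hnα.symm
        exact hαβ (smul_left_cancel _ h6).symm
    -- odd powers of n swap
    have key2 : ∀ n : G, n • α = β → n • β = α → ¬ 2 ∣ orderOf n → False := by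
      intro n hna hnb hordn
      have hpow : ∀ j : ℕ, n ^ (2 * j + 1) • α = β := by
        intro j
        induction j with
        | zero => simpa using hna
        | succ j ih =>
          rw [show 2 * (j + 1) + 1 = (2 * j + 1) + 1 + 1 by ring, pow_succ', pow_succ', mul_smul,
            mul_smul, ih, hnb, hna]
      obtain ⟨j, hj⟩ : ∃ j, orderOf n = 2 * j + 1 := by
        refine ⟨orderOf n / 2, ?_⟩
        omega
      have := hpow j
      rw [← hj, pow_orderOf_eq_one, one_smul] at this
      exact hαβ this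
    exact key2 _ hnα hnβ (fun h2 => hodd (h2.trans (orderOf_dvd_natCard _)))
  · intro p hp hkp hpG α
    haveI : Fact p.Prime := ⟨hp⟩
    by_contra hcon
    push Not at hcon
    obtain ⟨hpα, hpidx⟩ := hcon
    obtain ⟨y', hy'⟩ := exists_prime_orderOf_dvd_card' (G := MulAction.stabilizer G α) p hpα
    have hyord : orderOf (y' : G) = p := by
      rw [Subgroup.orderOf_coe]
      exact hy'
    have hy1 : (y' : G) ≠ 1 := by
      intro h
      rw [h, orderOf_one] at hyord
      exact hp.one_lt.ne hyord
    have hzp : IsPGroup p (Subgroup.zpowers (y' : G)) := by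
      apply IsPGroup.of_card (n := 1)
      rw [Nat.card_zpowers, hyord, pow_one]
    obtain ⟨P, hP⟩ := hzp.exists_le_sylow
    have hyP : (y' : G) ∈ P := hP (Subgroup.mem_zpowers _)
    have hPα := Cfsg.Agent.S3389.sylow_fix k hfix' p hkp P (y' : G) hyP hy1 α y'.2
    have hle : (P : Subgroup G) ≤ MulAction.stabilizer G α := fun x hx => hPα x hx
    exact P.not_dvd_index (hpidx.trans (Subgroup.index_dvd_of_le hle))

end Cfsg.Agent.S3389
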