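import Mathlib
import Cfsg.Statements.S3488

set_option autoImplicit false
open Cfsg

namespace Cfsg.Agent.S3488

open Polynomial in
theorem charpoly_aff {F : Type*} [Field F] (A : Matrix (Fin 3) (Fin 3) F)
    (h20 : A 2 0 = 0) (h21 : A 2 1 = 0) (h22 : A 2 2 = 1) (hdet : A.det = 1) :
    A.charpoly = (X - 1) * (X ^ 2 - C (A 0 0 + A 1 1) * X + 1) := by
  have hd : A 0 0 * A 1 1 - A 0 1 * A 1 0 = 1 := by
    rw [Matrix.det_fin_three] at hdet
    simp only [h20, h21, h22] at hdet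
    linear_combination hdet
  have hd' : (C (A 0 0) * C (A 1 1) - C (A 0 1) * C (A 1 0) : F[X]) = 1 := by
    rw [← C_mul, ← C_mul, ← C_sub, hd, C_1]
  rw [Matrix.charpoly, Matrix.det_fin_three]
  simp only [Matrix.charmatrix_apply, Matrix.diagonal_apply, h20, h21, h22]
  simp
  linear_combination (X - 1) * hd'

open Polynomial in
theorem pow_of_trace {F : Type*} [Field F] (h2 : (2 : F) = 0) (A : Matrix (Fin 3) (Fin 3) F)
    (h20 : A 2 0 = 0) (h21 : A 2 1 = 0) (h22 : A 2 2 = 1) (hdet : A.det = 1) :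
    (A 0 0 + A 1 1 = 0 → A ^ 4 = 1) ∧ (A 0 0 + A 1 1 = 1 → A ^ 3 = 1) ∧
    ((A 0 0 + A 1 1) ^ 2 + (A 0 0 + A 1 1) + 1 = 0 → A ^ 5 = 1) := by
  have hch := charpoly_aff A h20 h21 h22 hdet
  have hCH := Matrix.aeval_self_charpoly A
  rw [hch] at hCH
  have h2' : (2 : F[X]) = 0 := by
    rw [← map_ofNat (C : F →+* F[X]) 2, h2, map_zero]
  obtain ⟨t, ht⟩ : ∃ t, t = A 0 0 + A 1 1 := ⟨_, rfl⟩
  rw [← ht] at hCH ⊢
  refine ⟨?_, ?_, ?_⟩
  · intro h0
    rw [h0] at hCH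
    have hpoly : (X ^ 4 - 1 : F[X]) = ((X - 1) * (X ^ 2 - C 0 * X + 1)) * (X + 1) := by
      simp only [C_0, zero_mul, sub_zero]
      ring
    have h3 := congrArg (aeval A) hpoly
    rw [map_mul, hCH, zero_mul] at h3
    simp only [map_sub, map_pow, aeval_X, map_one] at h3
    exact sub_eq_zero.mp h3
  · intro h1
    rw [h1] at hCH
    have hpoly : (X ^ 3 - 1 : F[X]) = ((X - 1) * (X ^ 2 - C 1 * X + 1)) := by
      simp only [C_1, one_mul]
      linear_combination (X ^ 2 - X) * h2'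
    have h3 := congrArg (aeval A) hpoly
    rw [hCH] at h3
    simp only [map_sub, map_pow, aeval_X, map_one] at h3
    exact sub_eq_zero.mp h3
  · intro hq
    have hT : (C t) ^ 2 + C t + 1 = (0 : F[X]) := by
      have := congrArg (C : F → F[X]) hq
      simpa using this
    have hpoly : (X ^ 5 - 1 : F[X]) =
        ((X - 1) * (X ^ 2 - C t * X + 1)) * (X ^ 2 - C t ^ 2 * X + 1) := by
      linear_combination (X - 1) * (X ^ 3 - (C t - 1) * X ^ 2 + X) * hT + (X ^ 2 - X ^ 3) * h2'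
    have h3 := congrArg (aeval A) hpoly
    rw [map_mul, hCH, zero_mul] at h3
    simp only [map_sub, map_pow, aeval_X, map_one] at h3
    exact sub_eq_zero.mp h3

theorem two_eq_zero_of_card {F : Type*} [Field F] [Fintype F] (hF : Fintype.card F = 4) : (2 : F) = 0 := by
  have h4 : ((Fintype.card F : ℕ) : F) = 0 := Nat.cast_card_eq_zero F
  rw [hF] at h4
  have h5 : (2 : F) * 2 = 0 := by
    rw [← h4]
    norm_num
  exact mul_self_eq_zero.mp h5

theorem trace_cases {F : Type*} [Field F] [Fintype F] (hF : Fintype.card F = 4) (t : F) :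
    t = 0 ∨ t = 1 ∨ t ^ 2 + t + 1 = 0 := by
  have ht4 : t ^ 4 = t := by
    have := FiniteField.pow_card t
    rwa [hF] at this
  have h : t * ((t - 1) * (t ^ 2 + t + 1)) = 0 := by linear_combination ht4
  rcases mul_eq_zero.mp h with h | h
  · exact Or.inl h
  · rcases mul_eq_zero.mp h with h | h
    · exact Or.inr (Or.inl (sub_eq_zero.mp h))
    · exact Or.inr (Or.inr h)

theorem sl_pow {F : Type*} [Field F] [Fintype F] (hF : Fintype.card F = 4)
    (M : Matrix.SpecialLinearGroup (Fin 3) F)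
    (h20 : (M : Matrix (Fin 3) (Fin 3) F) 2 0 = 0) (h21 : (M : Matrix (Fin 3) (Fin 3) F) 2 1 = 0)
    (h22 : (M : Matrix (Fin 3) (Fin 3) F) 2 2 = 1) :
    ((M : Matrix (Fin 3) (Fin 3) F) 0 0 + (M : Matrix (Fin 3) (Fin 3) F) 1 1 = 0 → M ^ 4 = 1) ∧
    ((M : Matrix (Fin 3) (Fin 3) F) 0 0 + (M : Matrix (Fin 3) (Fin 3) F) 1 1 = 1 → M ^ 3 = 1) ∧
    (((M : Matrix (Fin 3) (Fin 3) F) 0 0 + (M : Matrix (Fin 3) (Fin 3) F) 1 1) ^ 2 +
      ((M : Matrix (Fin 3) (Fin 3) F) 0 0 + (M : Matrix (Fin 3) (Fin 3) F) 1 1) + 1 = 0 → M ^ 5 = 1) := by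
  obtain ⟨e1, e2, e3⟩ := pow_of_trace (two_eq_zero_of_card hF) (M : Matrix (Fin 3) (Fin 3) F) h20 h21 h22 M.2
  refine ⟨fun h => ?_, fun h => ?_, fun h => ?_⟩
  · apply Subtype.ext
    rw [Matrix.SpecialLinearGroup.coe_pow]
    exact e1 h
  · apply Subtype.ext
    rw [Matrix.SpecialLinearGroup.coe_pow]
    exact e2 h
  · apply Subtype.ext
    rw [Matrix.SpecialLinearGroup.coe_pow]
    exact e3 h

theorem sl_pow_cases {F : Type*} [Field F] [Fintype F] (hF : Fintype.card F = 4)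
    (M : Matrix.SpecialLinearGroup (Fin 3) F)
    (h20 : (M : Matrix (Fin 3) (Fin 3) F) 2 0 = 0) (h21 : (M : Matrix (Fin 3) (Fin 3) F) 2 1 = 0)
    (h22 : (M : Matrix (Fin 3) (Fin 3) F) 2 2 = 1) : M ^ 4 = 1 ∨ M ^ 3 = 1 ∨ M ^ 5 = 1 := by
  obtain ⟨e1, e2, e3⟩ := sl_pow hF M h20 h21 h22
  rcases trace_cases hF ((M : Matrix (Fin 3) (Fin 3) F) 0 0 + (M : Matrix (Fin 3) (Fin 3) F) 1 1) with h | h | h
  · exact Or.inl (e1 h)
  · exact Or.inr (Or.inl (e2 h))
  · exact Or.inr (Or.inr (e3 h))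

theorem closure_prop {F : Type*} [Field F] (x : Matrix.SpecialLinearGroup (Fin 3) F)
    (hx : x ∈ Subgroup.closure {M : Matrix.SpecialLinearGroup (Fin 3) F |
        (M : Matrix (Fin 3) (Fin 3) F) 2 0 = 0 ∧ (M : Matrix (Fin 3) (Fin 3) F) 2 1 = 0 ∧
          (M : Matrix (Fin 3) (Fin 3) F) 2 2 = 1}) :
    (x : Matrix (Fin 3) (Fin 3) F) 2 0 = 0 ∧ (x : Matrix (Fin 3) (Fin 3) F) 2 1 = 0 ∧
      (x : Matrix (Fin 3) (Fin 3) F) 2 2 = 1 := by
  induction hx using Subgroup.closure_induction with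
  | mem M hM => exact hM
  | one => simp
  | mul M N _ _ hM hN =>
    obtain ⟨a1, a2, a3⟩ := hM
    obtain ⟨b1, b2, b3⟩ := hN
    simp [Matrix.mul_apply, Fin.sum_univ_three, a1, a2, a3, b1, b2, b3]
  | inv M _ hM =>
    obtain ⟨a1, a2, a3⟩ := hM
    have hdet := M.2
    rw [Matrix.det_fin_three] at hdet
    simp only [a1, a2, a3] at hdet
    rw [Matrix.SpecialLinearGroup.coe_inv, Matrix.adjugate_fin_three]
    simp [a1, a2, a3]
    linear_combination hdet

theorem exists_omega {F : Type*} [Field F] [Fintype F] (hF : Fintype.card F = 4) :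
    ∃ ω : F, ω ^ 2 + ω + 1 = 0 := by
  classical
  have hex : ∃ ω : F, ω ≠ 0 ∧ ω ≠ 1 := by
    by_contra hcon
    push Not at hcon
    have hsub : (Finset.univ : Finset F) ⊆ {0, 1} := by
      intro x _
      by_cases h : x = 0
      · simp [h]
      · simp [hcon x h]
    have h3 := Finset.card_le_card hsub
    rw [Finset.card_univ, hF] at h3
    have h4 : ({0, 1} : Finset F).card ≤ 2 := Finset.card_le_two
    omega
  obtain ⟨ω, h0, h1⟩ := hex
  rcases trace_cases hF ω with h | h | h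
  · exact absurd h h0
  · exact absurd h h1
  · exact ⟨ω, h⟩

theorem order_of_trace {F : Type*} [Field F] [Fintype F] (hF : Fintype.card F = 4)
    (M : Matrix.SpecialLinearGroup (Fin 3) F)
    (h20 : (M : Matrix (Fin 3) (Fin 3) F) 2 0 = 0) (h21 : (M : Matrix (Fin 3) (Fin 3) F) 2 1 = 0)
    (h22 : (M : Matrix (Fin 3) (Fin 3) F) 2 2 = 1) (hne : M ≠ 1) :
    ((M : Matrix (Fin 3) (Fin 3) F) 0 0 + (M : Matrix (Fin 3) (Fin 3) F) 1 1 = 1 → orderOf M = 3) ∧
    (((M : Matrix (Fin 3) (Fin 3) F) 0 0 + (M : Matrix (Fin 3) (Fin 3) F) 1 1) ^ 2 +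
      ((M : Matrix (Fin 3) (Fin 3) F) 0 0 + (M : Matrix (Fin 3) (Fin 3) F) 1 1) + 1 = 0 →
      orderOf M = 5) := by
  obtain ⟨e1, e2, e3⟩ := sl_pow hF M h20 h21 h22
  refine ⟨fun h => ?_, fun h => ?_⟩
  · haveI : Fact (Nat.Prime 3) := ⟨Nat.prime_three⟩
    exact orderOf_eq_prime (e2 h) hne
  · haveI : Fact (Nat.Prime 5) := ⟨Nat.prime_five⟩
    exact orderOf_eq_prime (e3 h) hne

theorem aff_witnesses {F : Type*} [Field F] [Fintype F] (hF : Fintype.card F = 4) (n : ℕ)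
    (hn : n ∈ ({1, 2, 3, 4, 5} : Set ℕ)) :
    ∃ M : Matrix.SpecialLinearGroup (Fin 3) F,
      ((M : Matrix (Fin 3) (Fin 3) F) 2 0 = 0 ∧ (M : Matrix (Fin 3) (Fin 3) F) 2 1 = 0 ∧
        (M : Matrix (Fin 3) (Fin 3) F) 2 2 = 1) ∧ orderOf M = n := by
  have h2 := two_eq_zero_of_card hF
  have h11 : (1 : F) + 1 = 0 := by rw [one_add_one_eq_two]; exact h2
  have hm1 : (-1 : F) = 1 := by linear_combination (-1 : F) * h2
  simp only [Set.mem_insert_iff, Set.mem_singleton_iff] at hn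
  rcases hn with rfl | rfl | rfl | rfl | rfl
  · exact ⟨1, by simp, orderOf_one⟩
  · have hdet : (!![1, 0, 1; 0, 1, 0; 0, 0, 1] : Matrix (Fin 3) (Fin 3) F).det = 1 := by
      simp [Matrix.det_fin_three]
    obtain ⟨M, hM⟩ : ∃ M : Matrix.SpecialLinearGroup (Fin 3) F,
        (M : Matrix (Fin 3) (Fin 3) F) = !![1, 0, 1; 0, 1, 0; 0, 0, 1] := ⟨⟨_, hdet⟩, rfl⟩
    refine ⟨M, by simp [hM], ?_⟩
    haveI : Fact (Nat.Prime 2) := ⟨Nat.prime_two⟩
    apply orderOf_eq_prime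
    · have hmat : (M : Matrix (Fin 3) (Fin 3) F) ^ 2 = 1 := by
        rw [hM]
        ext i j
        fin_cases i <;> fin_cases j <;> simp [pow_two, Matrix.mul_apply, Fin.sum_univ_three, h11]
      apply Subtype.ext
      rw [Matrix.SpecialLinearGroup.coe_pow, hmat]
      rfl
    · intro h
      have h3 := congrArg (fun N : Matrix.SpecialLinearGroup (Fin 3) F => (N : Matrix (Fin 3) (Fin 3) F) 0 2) h
      simp [hM] at h3
  · have hdet : (!![0, 1, 0; 1, 1, 0; 0, 0, 1] : Matrix (Fin 3) (Fin 3) F).det = 1 := by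
      simp [Matrix.det_fin_three, hm1]
    obtain ⟨M, hM⟩ : ∃ M : Matrix.SpecialLinearGroup (Fin 3) F,
        (M : Matrix (Fin 3) (Fin 3) F) = !![0, 1, 0; 1, 1, 0; 0, 0, 1] := ⟨⟨_, hdet⟩, rfl⟩
    refine ⟨M, by simp [hM], ?_⟩
    refine (order_of_trace hF M (by simp [hM]) (by simp [hM]) (by simp [hM]) ?_).1 (by simp [hM])
    intro h
    have h3 := congrArg (fun N : Matrix.SpecialLinearGroup (Fin 3) F => (N : Matrix (Fin 3) (Fin 3) F) 0 0) h
    simp [hM] at h3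
  · have hdet : (!![1, 1, 0; 0, 1, 1; 0, 0, 1] : Matrix (Fin 3) (Fin 3) F).det = 1 := by
      simp [Matrix.det_fin_three]
    obtain ⟨M, hM⟩ : ∃ M : Matrix.SpecialLinearGroup (Fin 3) F,
        (M : Matrix (Fin 3) (Fin 3) F) = !![1, 1, 0; 0, 1, 1; 0, 0, 1] := ⟨⟨_, hdet⟩, rfl⟩
    refine ⟨M, by simp [hM], ?_⟩
    haveI : Fact (Nat.Prime 2) := ⟨Nat.prime_two⟩
    obtain ⟨e1, -, -⟩ := sl_pow hF M (by simp [hM]) (by simp [hM]) (by simp [hM])
    have h4 : M ^ 2 ^ (1 + 1) = 1 := e1 (by simp [hM, h11])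
    have h2' : ¬ M ^ 2 ^ 1 = 1 := by
      intro h
      have h3 := congrArg (fun N : Matrix.SpecialLinearGroup (Fin 3) F => (N : Matrix (Fin 3) (Fin 3) F) 0 2) h
      simp [hM, pow_two, Matrix.mul_apply, Fin.sum_univ_three] at h3
    exact orderOf_eq_prime_pow h2' h4
  · obtain ⟨ω, hω⟩ := exists_omega hF
    have hdet : (!![0, 1, 0; 1, ω, 0; 0, 0, 1] : Matrix (Fin 3) (Fin 3) F).det = 1 := by
      simp [Matrix.det_fin_three, hm1]
    obtain ⟨M, hM⟩ : ∃ M : Matrix.SpecialLinearGroup (Fin 3) F,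
        (M : Matrix (Fin 3) (Fin 3) F) = !![0, 1, 0; 1, ω, 0; 0, 0, 1] := ⟨⟨_, hdet⟩, rfl⟩
    refine ⟨M, by simp [hM], ?_⟩
    refine (order_of_trace hF M (by simp [hM]) (by simp [hM]) (by simp [hM]) ?_).2 (by simpa [hM] using hω)
    intro h
    have h3 := congrArg (fun N : Matrix.SpecialLinearGroup (Fin 3) F => (N : Matrix (Fin 3) (Fin 3) F) 0 0) h
    simp [hM] at h3

theorem aff_range {F : Type*} [Field F] [Fintype F] (hF : Fintype.card F = 4) :
    Set.range (orderOf : Subgroup.closure {M : Matrix.SpecialLinearGroup (Fin 3) F |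
        (M : Matrix (Fin 3) (Fin 3) F) 2 0 = 0 ∧ (M : Matrix (Fin 3) (Fin 3) F) 2 1 = 0 ∧ (M : Matrix (Fin 3) (Fin 3) F) 2 2 = 1} → ℕ) =
      {1, 2, 3, 4, 5} := by
  ext n
  constructor
  · rintro ⟨x, rfl⟩
    obtain ⟨h20, h21, h22⟩ := closure_prop x.1 x.2
    rw [← Subgroup.orderOf_coe]
    rcases sl_pow_cases hF x.1 h20 h21 h22 with h | h | h
    · have h3 : orderOf (x : Matrix.SpecialLinearGroup (Fin 3) F) ∣ 2 ^ 2 := orderOf_dvd_of_pow_eq_one h
      obtain ⟨k, hk, hk'⟩ := (Nat.dvd_prime_pow Nat.prime_two).mp h3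
      rw [hk']
      interval_cases k <;> simp
    · have h3 : orderOf (x : Matrix.SpecialLinearGroup (Fin 3) F) ∣ 3 := orderOf_dvd_of_pow_eq_one h
      rcases (Nat.dvd_prime Nat.prime_three).mp h3 with h4 | h4 <;> rw [h4] <;> simp
    · have h3 : orderOf (x : Matrix.SpecialLinearGroup (Fin 3) F) ∣ 5 := orderOf_dvd_of_pow_eq_one h
      rcases (Nat.dvd_prime Nat.prime_five).mp h3 with h4 | h4 <;> rw [h4] <;> simp
  · intro hn
    obtain ⟨M, hM, hord⟩ := aff_witnesses hF n hn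
    exact ⟨⟨M, Subgroup.subset_closure hM⟩, by rw [← Subgroup.orderOf_coe]; exact hord⟩

set_option maxRecDepth 1000000 in
theorem a6_pow : ∀ σ : Equiv.Perm (Fin 6), Equiv.Perm.sign σ = 1 →
    (σ ^ 4 = 1 ∨ σ ^ 3 = 1 ∨ σ ^ 5 = 1) := by
  decide +kernel

theorem a6_range : Set.range (orderOf : alternatingGroup (Fin 6) → ℕ) = {1, 2, 3, 4, 5} := by
  ext n
  constructor
  · rintro ⟨x, rfl⟩
    rw [← Subgroup.orderOf_coe]
    rcases a6_pow x.1 (Equiv.Perm.mem_alternatingGroup.mp x.2) with h | h | h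
    · have h3 : orderOf (x : Equiv.Perm (Fin 6)) ∣ 2 ^ 2 := orderOf_dvd_of_pow_eq_one h
      obtain ⟨k, hk, hk'⟩ := (Nat.dvd_prime_pow Nat.prime_two).mp h3
      rw [hk']
      interval_cases k <;> simp
    · have h3 : orderOf (x : Equiv.Perm (Fin 6)) ∣ 3 := orderOf_dvd_of_pow_eq_one h
      rcases (Nat.dvd_prime Nat.prime_three).mp h3 with h4 | h4 <;> rw [h4] <;> simp
    · have h3 : orderOf (x : Equiv.Perm (Fin 6)) ∣ 5 := orderOf_dvd_of_pow_eq_one h
      rcases (Nat.dvd_prime Nat.prime_five).mp h3 with h4 | h4 <;> rw [h4] <;> simp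
  · intro hn
    simp only [Set.mem_insert_iff, Set.mem_singleton_iff] at hn
    rcases hn with rfl | rfl | rfl | rfl | rfl
    · exact ⟨1, orderOf_one⟩
    · haveI : Fact (Nat.Prime 2) := ⟨Nat.prime_two⟩
      refine ⟨⟨Equiv.swap 0 1 * Equiv.swap 2 3, Equiv.Perm.mem_alternatingGroup.mpr (by decide)⟩, ?_⟩
      rw [← Subgroup.orderOf_coe]
      exact orderOf_eq_prime (by decide) (by decide)
    · haveI : Fact (Nat.Prime 3) := ⟨Nat.prime_three⟩
      refine ⟨⟨Equiv.swap 0 1 * Equiv.swap 1 2, Equiv.Perm.mem_alternatingGroup.mpr (by decide)⟩, ?_⟩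
      rw [← Subgroup.orderOf_coe]
      exact orderOf_eq_prime (by decide) (by decide)
    · haveI : Fact (Nat.Prime 2) := ⟨Nat.prime_two⟩
      refine ⟨⟨Equiv.swap 0 1 * Equiv.swap 1 2 * Equiv.swap 2 3 * Equiv.swap 4 5,
        Equiv.Perm.mem_alternatingGroup.mpr (by decide)⟩, ?_⟩
      rw [← Subgroup.orderOf_coe]
      have h4 : (Equiv.swap (0 : Fin 6) 1 * Equiv.swap 1 2 * Equiv.swap 2 3 * Equiv.swap 4 5) ^ 2 ^ (1 + 1) = 1 := by decide
      have h2' : ¬ (Equiv.swap (0 : Fin 6) 1 * Equiv.swap 1 2 * Equiv.swap 2 3 * Equiv.swap 4 5) ^ 2 ^ 1 = 1 := by decide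
      exact orderOf_eq_prime_pow h2' h4
    · haveI : Fact (Nat.Prime 5) := ⟨Nat.prime_five⟩
      refine ⟨⟨Equiv.swap 0 1 * Equiv.swap 1 2 * Equiv.swap 2 3 * Equiv.swap 3 4,
        Equiv.Perm.mem_alternatingGroup.mpr (by decide)⟩, ?_⟩
      rw [← Subgroup.orderOf_coe]
      exact orderOf_eq_prime (by decide) (by decide)

/-- Let F be the field with four elements. The affine group F² ⋊ SL(2,F), realised as the subgroup of SL(3,F) of matrices with last row (0, 0, 1), has exactly the same set of element orders as the alternating group of degree 6 (namely {1, 2, 3, 4, 5}); so the alternating group of degree 6 is not determined by its element orders. -/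
theorem result {F : Type*} [Field F] [Fintype F] (hF : Fintype.card F = 4) :
    Set.range (orderOf : Subgroup.closure {M : Matrix.SpecialLinearGroup (Fin 3) F |
        (M : Matrix (Fin 3) (Fin 3) F) 2 0 = 0 ∧ (M : Matrix (Fin 3) (Fin 3) F) 2 1 = 0 ∧ (M : Matrix (Fin 3) (Fin 3) F) 2 2 = 1} → ℕ) =
      Set.range (orderOf : alternatingGroup (Fin 6) → ℕ) := by
  rw [aff_range hF, a6_range]

end Cfsg.Agent.S3488
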