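import Mathlib
import Cfsg.Statements.S3498
import Cfsg.Agent.Lib.Helper5.AS
import Cfsg.Agent.Lib.Helper8.Invol

set_option autoImplicit false
open Cfsg

namespace Cfsg.Agent.S3498

open Cfsg.Agent.Lib.Helper5 Cfsg.Agent.Lib.Helper8

/-- A maximal subgroup of a finite almost simple group does not have prime order. Here G is almost simple in the sense that it has a non-abelian simple normal subgroup T with trivial centralizer. -/
theorem result {G : Type*} [Group G] [Finite G] (T : Subgroup G) [T.Normal] (hT : IsSimpleGroup T) (hTc : ¬ IsMulCommutative T)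
    (hC : Subgroup.centralizer (T : Set G) = ⊥) (H : Subgroup G) (hmax : IsCoatom H) : ¬ (Nat.card H).Prime := by
  classical
  intro hprime
  obtain ⟨p, hp⟩ : ∃ p, p = Nat.card H := ⟨_, rfl⟩
  rw [← hp] at hprime
  haveI : Fact p.Prime := ⟨hprime⟩
  have hHp : IsPGroup p H := IsPGroup.of_card (n := 1) (by rw [pow_one, hp])
  have hnotp : ∀ (r : ℕ) [Fact r.Prime] (K : Subgroup G), T ≤ K → ¬ IsPGroup r K :=
    fun r _ K hK hKp => not_isPGroup_of_simple_nonabelian hT hTc r (hKp.to_le hK)
  have hH1 : H ≠ ⊥ := by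
    intro h
    rw [h, Subgroup.card_bot] at hp
    exact hprime.one_lt.ne' hp
  obtain ⟨P, hP⟩ := hHp.exists_le_sylow
  have hPH : (P : Subgroup G) = H := by
    by_contra hne
    have hlt : H < (P : Subgroup G) := lt_of_le_of_ne hP (Ne.symm hne)
    have htop := hmax.2 _ hlt
    exact hnotp p _ (htop ▸ le_top) P.isPGroup'
  have hTH : ¬ T ≤ H := fun h => hnotp p H h hHp
  have hsup : H ⊔ T = ⊤ := by
    apply hmax.2
    exact lt_of_le_of_ne le_sup_left (fun h => hTH (h ▸ le_sup_right))
  have hinf : H ⊓ T = ⊥ ∨ H ≤ T := by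
    have hdvd : Nat.card ↥(H ⊓ T) ∣ p := hp ▸ Subgroup.card_dvd_of_le inf_le_left
    rcases (Nat.dvd_prime hprime).1 hdvd with h1 | h1
    · left; exact Subgroup.card_eq_one.1 h1
    · right
      have : H ⊓ T = H := Subgroup.eq_of_le_of_card_ge inf_le_left (by rw [h1, hp])
      rw [← this]; exact inf_le_right
  have hTs := hT
  rcases hinf with hinf | hle
  · -- H ∩ T = 1
    have hTcard : Nat.card T ≠ 1 := by
      intro h
      have : T = ⊥ := Subgroup.card_eq_one.1 h
      exact hTH (this ▸ bot_le)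
    obtain ⟨q, hq, hqd⟩ := Nat.exists_prime_and_dvd hTcard
    haveI : Fact q.Prime := ⟨hq⟩
    obtain ⟨Q⟩ : Nonempty (Sylow q T) := inferInstance
    have hfr := Sylow.normalizer_sup_eq_top Q
    have hQ1 : (Q : Subgroup T) ≠ ⊥ := Q.ne_bot_of_dvd_card hqd
    obtain ⟨Q', hQ'⟩ : ∃ Q' : Subgroup G, Q' = (Q : Subgroup T).map T.subtype := ⟨_, rfl⟩
    rw [← hQ'] at hfr
    have hQ'T : Q' ≤ T := by rw [hQ']; exact Subgroup.map_subtype_le _
    have hQ'q : IsPGroup q Q' := by rw [hQ']; exact Q.isPGroup'.map _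
    have hQ'1 : Q' ≠ ⊥ := by
      intro h
      rw [hQ'] at h
      exact hQ1 ((Subgroup.map_eq_bot_iff_of_injective _ (Subgroup.subtype_injective T)).1 h)
    -- index of T is p
    have hidx : T.index = p := by
      rw [← Subgroup.relIndex_top_right, ← hsup, Subgroup.relIndex_sup_right]
      have h1 : T.subgroupOf H = ⊥ := by
        rw [Subgroup.subgroupOf_eq_bot, disjoint_iff, inf_comm]; exact hinf
      show (T.subgroupOf H).index = p
      rw [h1, Subgroup.index_bot, hp]
    have hpN : p ∣ Nat.card (Subgroup.normalizer (Q' : Set G)) := by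
      have h1 := Subgroup.relIndex_sup_right (Subgroup.normalizer (Q' : Set G)) T
      rw [hfr, Subgroup.relIndex_top_right, hidx] at h1
      rw [h1]
      exact Subgroup.relIndex_dvd_card _ _
    obtain ⟨x, hx⟩ := exists_prime_orderOf_dvd_card' (G := Subgroup.normalizer (Q' : Set G)) p hpN
    have hxp : IsPGroup p (Subgroup.zpowers (x : G)) :=
      IsPGroup.of_card (n := 1) (by rw [pow_one, Nat.card_zpowers, Subgroup.orderOf_coe, hx])
    obtain ⟨g, hg⟩ := h8_exists_conj_sylow_ge P hxp
    have hh₀ : g⁻¹ * (x : G) * g ∈ H := by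
      rw [← hPH]; exact hg _ (Subgroup.mem_zpowers _)
    have hx1 : (x : G) ≠ 1 := by
      intro h
      have : x = 1 := Subtype.ext h
      rw [this, orderOf_one] at hx
      exact hprime.one_lt.ne hx
    have hh₀1 : g⁻¹ * (x : G) * g ≠ 1 := by
      intro h
      apply hx1
      have e : (x : G) = g * (g⁻¹ * (x : G) * g) * g⁻¹ := by group
      rw [e, h]; group
    obtain ⟨Q'', hQ''⟩ : ∃ Q'' : Subgroup G, Q'' = Q'.map (MulAut.conj g⁻¹).toMonoidHom := ⟨_, rfl⟩
    have hmemQ'' : ∀ y : G, y ∈ Q'' ↔ g * y * g⁻¹ ∈ Q' := by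
      intro y
      rw [hQ'', h8_mem_map_conj, inv_inv]
    have hQ''T : Q'' ≤ T := by
      intro y hy
      rw [hmemQ''] at hy
      have h1 := hQ'T hy
      have h2 := (inferInstance : T.Normal).conj_mem _ h1 g⁻¹
      have e : g⁻¹ * (g * y * g⁻¹) * g⁻¹⁻¹ = y := by group
      rwa [e] at h2
    have hQ''q : IsPGroup q Q'' := by rw [hQ'']; exact h8_isPGroup_map_conj _ hQ'q
    have hQ''1 : Q'' ≠ ⊥ := by
      intro h
      apply hQ'1
      rw [Subgroup.eq_bot_iff_forall] at h ⊢
      intro y hy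
      have h1 : g⁻¹ * y * g ∈ Q'' := by
        rw [hmemQ'']
        have e : g * (g⁻¹ * y * g) * g⁻¹ = y := by group
        rwa [e]
      have h2 := h _ h1
      have e : y = g * (g⁻¹ * y * g) * g⁻¹ := by group
      rw [e, h2]; group
    have hh₀N : g⁻¹ * (x : G) * g ∈ Subgroup.normalizer (Q'' : Set G) := by
      apply h8_mem_normalizer_of_conj_mem
      intro y hy
      rw [hmemQ''] at hy ⊢
      have hxN := x.2
      rw [Subgroup.mem_normalizer_iff] at hxN
      have h1 := (hxN _).1 hy
      have e : g * (g⁻¹ * (x : G) * g * y * (g⁻¹ * (x : G) * g)⁻¹) * g⁻¹ =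
          (x : G) * (g * y * g⁻¹) * (x : G)⁻¹ := by group
      rw [e]; exact h1
    have hHN : H ≤ Subgroup.normalizer (Q'' : Set G) := by
      intro y hy
      have hz := zpowers_eq_top_of_prime_card (G := H) hp.symm
        (g := ⟨g⁻¹ * (x : G) * g, hh₀⟩) (fun h => hh₀1 (congrArg Subtype.val h))
      have hym : (⟨y, hy⟩ : H) ∈ Subgroup.zpowers (⟨g⁻¹ * (x : G) * g, hh₀⟩ : H) := by
        rw [hz]; trivial
      obtain ⟨i, hi⟩ := Subgroup.mem_zpowers_iff.1 hym
      have hi' : (g⁻¹ * (x : G) * g) ^ i = y := by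
        have h5 := congrArg Subtype.val hi
        rw [Subgroup.coe_zpow] at h5
        exact h5
      rw [← hi']
      exact Subgroup.zpow_mem _ hh₀N i
    have hK : Q'' ⊔ H = ⊤ := by
      apply hmax.2
      refine lt_of_le_of_ne le_sup_right (fun h => hQ''1 ?_)
      have h1 : Q'' ≤ H := h ▸ le_sup_left
      rw [← le_bot_iff, ← hinf]
      exact le_inf h1 hQ''T
    have hTQ : T ≤ Q'' := by
      intro t ht
      have htK : t ∈ Q'' ⊔ H := by rw [hK]; trivial
      obtain ⟨a, ha, b, hb, hab⟩ := h8_mem_sup_of_le_normalizer hHN htK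
      have hbT : b ∈ T := by
        have e : b = a⁻¹ * t := by rw [← hab]; group
        rw [e]; exact T.mul_mem (T.inv_mem (hQ''T ha)) ht
      have hb1 : b ∈ H ⊓ T := ⟨hb, hbT⟩
      rw [hinf, Subgroup.mem_bot] at hb1
      rw [← hab, hb1, mul_one]; exact ha
    exact hnotp q Q'' hTQ hQ''q
  · -- H ≤ T, so T = ⊤
    have hTtop : T = ⊤ := by rw [← hsup]; exact (sup_eq_right.2 hle).symm
    have hN : Subgroup.normalizer (H : Set G) = H := by
      by_contra hne
      have hlt : H < Subgroup.normalizer (H : Set G) :=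
        lt_of_le_of_ne Subgroup.le_normalizer (Ne.symm hne)
      have htop := hmax.2 _ hlt
      have hn : H.Normal := Subgroup.normalizer_eq_top_iff.1 htop
      have hn' : (H.subgroupOf T).Normal := hn.subgroupOf T
      rcases hn'.eq_bot_or_eq_top with h | h
      · rw [Subgroup.subgroupOf_eq_bot] at h
        exact hH1 (le_bot_iff.1 (h le_rfl hle))
      · rw [Subgroup.subgroupOf_eq_top] at h
        exact hTH h
    have hHab : H ≤ Subgroup.centralizer (H : Set G) := by
      have hcyc : IsCyclic H := isCyclic_of_prime_card hp.symm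
      intro a ha
      rw [Subgroup.mem_centralizer_iff]
      intro b hb
      obtain ⟨c, hc⟩ := hcyc.exists_generator
      obtain ⟨i, hi⟩ := Subgroup.mem_zpowers_iff.1 (hc ⟨a, ha⟩)
      obtain ⟨j, hj⟩ := Subgroup.mem_zpowers_iff.1 (hc ⟨b, hb⟩)
      have ha' : a = ((c : G)) ^ i := by rw [← Subgroup.coe_zpow, hi]
      have hb' : b = ((c : G)) ^ j := by rw [← Subgroup.coe_zpow, hj]
      rw [ha', hb', ← zpow_add, ← zpow_add, add_comm]
    have hNC : Subgroup.normalizer ((P : Subgroup G) : Set G) ≤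
        Subgroup.centralizer ((P : Subgroup G) : Set G) := by
      rw [hPH, hN]; exact hHab
    obtain ⟨K, hKn, hcompl⟩ : ∃ K : Subgroup G, K.Normal ∧ K.IsComplement' (P : Subgroup G) :=
      ⟨_, MonoidHom.normal_ker _, MonoidHom.ker_transferSylow_isComplement' P hNC⟩
    have hK' : (K.subgroupOf T).Normal := hKn.subgroupOf T
    have hcard := hcompl.card_mul_card
    rcases hK'.eq_bot_or_eq_top with h | h
    · have hKb : K = ⊥ := by
        rw [Subgroup.subgroupOf_eq_bot, hTtop] at h
        exact le_bot_iff.1 (h le_rfl le_top)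
      rw [hKb, Subgroup.card_bot, one_mul] at hcard
      have h2 : (P : Subgroup G) = ⊤ := (Subgroup.card_eq_iff_eq_top _).1 hcard
      exact hnotp p _ (h2 ▸ le_top) P.isPGroup'
    · rw [Subgroup.subgroupOf_eq_top, hTtop] at h
      have hKt : K = ⊤ := top_le_iff.1 h
      rw [hKt, Subgroup.card_top] at hcard
      have h1 : Nat.card (P : Subgroup G) = 1 := by
        have hpos : 0 < Nat.card G := Nat.card_pos
        exact Nat.eq_of_mul_eq_mul_left hpos (by rw [hcard, mul_one])
      rw [hPH, ← hp] at h1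
      exact hprime.one_lt.ne' h1

end Cfsg.Agent.S3498
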