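import Mathlib
import Cfsg.Statements.S3504

set_option autoImplicit false
open Cfsg

namespace Cfsg.Agent.S3504

theorem fpf_prime_cycleType (n : ℕ) (g : Equiv.Perm (Fin n)) (hp : (orderOf g).Prime)
    (hfix : ∀ i : Fin n, g i ≠ i) :
    orderOf g ∣ n ∧ g.cycleType = Multiset.replicate (n / orderOf g) (orderOf g) := by
  obtain ⟨k, hk⟩ := Equiv.Perm.cycleType_prime_order hp
  have hsum := Equiv.Perm.sum_cycleType g
  have hsupp : g.support = Finset.univ := by
    ext i; simp [Equiv.Perm.mem_support, hfix i]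
  rw [hk, Multiset.sum_replicate, hsupp, Finset.card_univ, Fintype.card_fin, smul_eq_mul] at hsum
  constructor
  · exact ⟨k + 1, by rw [mul_comm]; exact hsum.symm⟩
  · have e := Nat.mul_div_cancel (k + 1) hp.pos
    rw [hsum] at e
    rw [hk, e]

theorem exists_fpf_of_prime_dvd (n p : ℕ) (hp : p.Prime) (hpn : p ∣ n) (hn : 0 < n) :
    ∃ g : Equiv.Perm (Fin n), orderOf g = p ∧ ∀ i : Fin n, g i ≠ i := by
  have hex : ∃ g : Equiv.Perm (Fin n), g.cycleType = Multiset.replicate (n / p) p := by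
    rw [Equiv.Perm.exists_with_cycleType_iff]
    constructor
    · rw [Multiset.sum_replicate, smul_eq_mul, Fintype.card_fin, Nat.div_mul_cancel hpn]
    · intro a ha
      rw [Multiset.eq_of_mem_replicate ha]
      exact hp.two_le
  obtain ⟨g, hg⟩ := hex
  have hk : 0 < n / p := Nat.div_pos (Nat.le_of_dvd hn hpn) hp.pos
  have hl : ∀ m : ℕ, (Multiset.replicate (m + 1) p).lcm = p := by
    intro m
    induction m with
    | zero => simp
    | succ m ih => rw [Multiset.replicate_succ, Multiset.lcm_cons, ih]; simp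
  have hord : orderOf g = p := by
    rw [← Equiv.Perm.lcm_cycleType, hg]
    obtain ⟨m, hm⟩ := Nat.exists_eq_succ_of_ne_zero hk.ne'
    rw [hm]
    exact hl m
  refine ⟨g, hord, ?_⟩
  intro i
  rw [← Equiv.Perm.mem_support]
  have hcard : g.support.card = n := by
    rw [← Equiv.Perm.sum_cycleType, hg, Multiset.sum_replicate, smul_eq_mul, Nat.div_mul_cancel hpn]
  have h1 : g.support = Finset.univ := Finset.eq_univ_of_card _ (by rw [hcard, Fintype.card_fin])
  rw [h1]; exact Finset.mem_univ i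

/-- For n ≥ 5, the fixed-point-free permutations of prime order in the symmetric group of degree n form a single conjugacy class if and only if n is a prime power. -/
theorem result (n : ℕ) (hn : 5 ≤ n) :
    Nat.card {c : ConjClasses (Equiv.Perm (Fin n)) // ∃ g : Equiv.Perm (Fin n), ConjClasses.mk g = c ∧ (orderOf g).Prime ∧ ∀ i : Fin n, g i ≠ i} = 1 ↔ IsPrimePow n := by
  classical
  have hn0 : 0 < n := by omega
  rw [isPrimePow_iff_card_primeFactors_eq_one]
  have hcard : Nat.card {c : ConjClasses (Equiv.Perm (Fin n)) // ∃ g : Equiv.Perm (Fin n),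
      ConjClasses.mk g = c ∧ (orderOf g).Prime ∧ ∀ i : Fin n, g i ≠ i} = n.primeFactors.card := by
    rw [← Nat.subtype_card (p := fun p : ℕ => p.Prime ∧ p ∣ n) n.primeFactors (by
      intro p
      rw [Nat.mem_primeFactors]
      constructor
      · rintro ⟨h1, h2, -⟩; exact ⟨h1, h2⟩
      · rintro ⟨h1, h2⟩; exact ⟨h1, h2, by omega⟩)]
    have hrep : ∀ c : {c : ConjClasses (Equiv.Perm (Fin n)) // ∃ g : Equiv.Perm (Fin n),
        ConjClasses.mk g = c ∧ (orderOf g).Prime ∧ ∀ i : Fin n, g i ≠ i},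
        ∃ g : Equiv.Perm (Fin n), ConjClasses.mk g = c.1 ∧ (orderOf g).Prime ∧ ∀ i : Fin n, g i ≠ i :=
      fun c => c.2
    choose rep hrep1 hrep2 hrep3 using hrep
    apply Nat.card_congr
    refine Equiv.ofBijective (fun c => ⟨orderOf (rep c), hrep2 c,
      (fpf_prime_cycleType n _ (hrep2 c) (hrep3 c)).1⟩) ⟨?_, ?_⟩
    · intro c c' h
      have h' : orderOf (rep c) = orderOf (rep c') := congrArg Subtype.val h
      have t1 := (fpf_prime_cycleType n _ (hrep2 c) (hrep3 c)).2
      have t2 := (fpf_prime_cycleType n _ (hrep2 c') (hrep3 c')).2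
      apply Subtype.ext
      rw [← hrep1 c, ← hrep1 c', ConjClasses.mk_eq_mk_iff_isConj,
        Equiv.Perm.isConj_iff_cycleType_eq, t1, t2, h']
    · rintro ⟨p, hp, hpn⟩
      obtain ⟨g, hg, hfix⟩ := exists_fpf_of_prime_dvd n p hp hpn hn0
      refine ⟨⟨ConjClasses.mk g, g, rfl, hg ▸ hp, hfix⟩, ?_⟩
      apply Subtype.ext
      have hconj := hrep1 ⟨ConjClasses.mk g, g, rfl, hg ▸ hp, hfix⟩
      rw [ConjClasses.mk_eq_mk_iff_isConj, Equiv.Perm.isConj_iff_cycleType_eq] at hconj
      show orderOf (rep ⟨ConjClasses.mk g, g, rfl, hg ▸ hp, hfix⟩) = p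
      rw [← Equiv.Perm.lcm_cycleType, hconj, Equiv.Perm.lcm_cycleType, hg]
  rw [hcard]

end Cfsg.Agent.S3504
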