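import Cfsg.Statements.S3508
import Mathlib
-- import your own Cfsg.Agent.* helpers here

set_option autoImplicit false
open Cfsg

namespace Cfsg.Agent.S3508

theorem affine_pow {G : Type*} [Group G] [Finite G] {Ω : Type*} [MulAction G Ω] (p : ℕ)
    [Fact p.Prime] (N : Subgroup G) [hNn : N.Normal] (hNc : ∀ a b : N, a * b = b * a)
    (hNp : ∀ n ∈ N, n ^ p = 1) (m : ℕ) (hNcard : Nat.card N = p ^ m) (g : G) (r : ℕ)
    (hg : g ^ (p ^ r) = 1) (s : ℕ) (hs : m < p ^ s) (α : Ω) (v : G) (hv : v ∈ N)
    (hgα : g • α = v • α) : g ^ (p ^ s) • α = α := by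
  classical
  have hp : p.Prime := Fact.out
  letI : CommGroup ↥N := { (inferInstance : Group ↥N) with mul_comm := hNc }
  have hpV : ∀ x : Additive ↥N, p • x = 0 := by
    intro x
    have h1 : (Additive.toMul x) ^ p = 1 := by
      apply Subtype.ext
      rw [Subgroup.coe_pow]
      exact hNp _ (Additive.toMul x).2
    exact congrArg Additive.ofMul h1
  haveI : Module (ZMod p) (Additive ↥N) := AddCommGroup.zmodModule hpV
  let cj : ↥N →* ↥N :=
    { toFun := fun n => ⟨g * n.1 * g⁻¹, hNn.conj_mem n.1 n.2 g⟩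
      map_one' := by apply Subtype.ext; simp
      map_mul' := fun a b => by apply Subtype.ext; simp }
  let A : Module.End (ZMod p) (Additive ↥N) :=
    AddMonoidHom.toZModLinearMap p (MonoidHom.toAdditive cj)
  have hA : ∀ w : Additive ↥N, ((Additive.toMul (A w) : ↥N) : G)
      = g * ((Additive.toMul w : ↥N) : G) * g⁻¹ := fun w => rfl
  have hApow : ∀ (i : ℕ) (w : Additive ↥N), ((Additive.toMul ((A ^ i) w) : ↥N) : G)
      = g ^ i * ((Additive.toMul w : ↥N) : G) * (g ^ i)⁻¹ := by
    intro i
    induction i with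
    | zero => intro w; simp
    | succ i ih =>
      intro w
      rw [pow_succ', Module.End.mul_apply, hA, ih]
      group
  have hApr : A ^ (p ^ r) = 1 := by
    apply LinearMap.ext
    intro w
    have := hApow (p ^ r) w
    rw [hg] at this
    simp only [one_mul, inv_one, mul_one] at this
    rw [Module.End.one_apply]
    exact Additive.toMul.injective (Subtype.ext this)
  -- polynomial identities
  have hpoly1 : ∀ t : ℕ, (Polynomial.X - 1 : Polynomial (ZMod p)) ^ (p ^ t)
      = Polynomial.X ^ (p ^ t) - 1 := by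
    intro t
    rw [sub_pow_char_pow, one_pow]
  have hpoly2 : ∀ t : ℕ, ∑ j ∈ Finset.range (p ^ t), (Polynomial.X : Polynomial (ZMod p)) ^ j
      = (Polynomial.X - 1) ^ (p ^ t - 1) := by
    intro t
    have h1 := geom_sum_mul (Polynomial.X : Polynomial (ZMod p)) (p ^ t)
    rw [← hpoly1 t] at h1
    have hX : (Polynomial.X - 1 : Polynomial (ZMod p)) ≠ 0 := by
      intro h
      have := congrArg Polynomial.natDegree h
      rw [← Polynomial.C_1, Polynomial.natDegree_X_sub_C] at this
      simp at this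
    apply mul_right_cancel₀ hX
    rw [h1, ← pow_succ]
    congr 1
    have : 0 < p ^ t := pos_of_ne_zero (pow_ne_zero _ hp.ne_zero)
    omega
  have hnil0 : (A - 1) ^ (p ^ r) = 0 := by
    have := congrArg (Polynomial.aeval A) (hpoly1 r)
    simp only [map_pow, map_sub, Polynomial.aeval_X, map_one] at this
    rw [this, hApr, sub_self]
  have hsum : ∑ j ∈ Finset.range (p ^ s), A ^ j = (A - 1) ^ (p ^ s - 1) := by
    have := congrArg (Polynomial.aeval A) (hpoly2 s)
    simp only [map_pow, map_sub, Polynomial.aeval_X, map_one, map_sum] at this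
    exact this
  have hfin : Module.finrank (ZMod p) (Additive ↥N) = m := by
    have h1 := Module.natCard_eq_pow_finrank (K := ZMod p) (V := Additive ↥N)
    rw [Nat.card_zmod] at h1
    have h2 : Nat.card (Additive ↥N) = p ^ m := hNcard
    rw [h2] at h1
    exact (Nat.pow_right_injective hp.two_le h1).symm
  have hnil : (A - 1) ^ m = 0 := by
    have h1 : (A - 1) ^ (max m (p ^ r)) = 0 := pow_eq_zero_of_le (le_max_right _ _) hnil0
    have h2 := Module.End.ker_pow_eq_ker_pow_finrank_of_le (f := A - 1)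
      (m := max m (p ^ r)) (by rw [hfin]; exact le_max_left _ _)
    rw [h1, LinearMap.ker_zero, hfin] at h2
    exact LinearMap.ker_eq_top.mp h2.symm
  have hzero : (A - 1) ^ (p ^ s - 1) = 0 := pow_eq_zero_of_le (by omega) hnil
  -- orbit computation
  have horb : ∀ i : ℕ, g ^ i • α
      = ((Additive.toMul (∑ j ∈ Finset.range i, (A ^ j) (Additive.ofMul ⟨v, hv⟩)) : ↥N) : G) • α := by
    intro i
    induction i with
    | zero => simp
    | succ i ih =>
      rw [pow_succ', mul_smul, ih, Finset.sum_range_succ']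
      have e1 : ∑ j ∈ Finset.range i, (A ^ (j + 1)) (Additive.ofMul (⟨v, hv⟩ : ↥N))
          = A (∑ j ∈ Finset.range i, (A ^ j) (Additive.ofMul ⟨v, hv⟩)) := by
        rw [map_sum]
        refine Finset.sum_congr rfl fun j _ => ?_
        rw [pow_succ', Module.End.mul_apply]
      rw [e1, pow_zero, Module.End.one_apply]
      set w := ∑ j ∈ Finset.range i, (A ^ j) (Additive.ofMul (⟨v, hv⟩ : ↥N)) with hw
      have e2 : ((Additive.toMul (A w + Additive.ofMul (⟨v, hv⟩ : ↥N)) : ↥N) : G)
          = (g * ((Additive.toMul w : ↥N) : G) * g⁻¹) * v := rfl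
      rw [e2, mul_smul, ← hgα]
      simp only [mul_smul, inv_smul_smul]
  have := horb (p ^ s)
  rw [this]
  have e3 : ∑ j ∈ Finset.range (p ^ s), (A ^ j) (Additive.ofMul (⟨v, hv⟩ : ↥N))
      = (∑ j ∈ Finset.range (p ^ s), A ^ j) (Additive.ofMul (⟨v, hv⟩ : ↥N)) := by
    rw [LinearMap.sum_apply]
  rw [e3, hsum, hzero]
  simp

/-- Let a finite group G act faithfully on a set Ω with p ^ m points (p prime) and have an elementary abelian normal p-subgroup N acting regularly on Ω (so G is a group of affine transformations of an m-dimensional space over the field with p elements). If G contains an element of order p ^ r with r ≥ 1, then p ^ (r − 1) ≤ m. In particular an element of order p ^ m forces m ≤ 2, and m ≤ 1 when p is odd. -/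
theorem result {G : Type*} [Group G] [Finite G] {Ω : Type*} [Fintype Ω] [MulAction G Ω] [FaithfulSMul G Ω] (p m : ℕ) (hp : p.Prime) (hcard : Fintype.card Ω = p ^ m)
    (N : Subgroup G) [N.Normal] (hNc : IsMulCommutative N) (hNp : ∀ n ∈ N, n ^ p = 1)
    (hNtr : MulAction.IsPretransitive N Ω) (hNreg : ∀ ω : Ω, MulAction.stabilizer N ω = ⊥)
    (g : G) (r : ℕ) (hr : 1 ≤ r) (hg : orderOf g = p ^ r) :
    p ^ (r - 1) ≤ m ∧ (r = m → m ≤ 2 ∧ (2 < p → m ≤ 1)) := by
  classical
  haveI : Fact p.Prime := ⟨hp⟩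
  have hNcard : Nat.card N = p ^ m := by
    have hne : Nonempty Ω := by
      rw [← Fintype.card_pos_iff, hcard]
      exact pos_of_ne_zero (pow_ne_zero _ hp.ne_zero)
    obtain ⟨ω⟩ := hne
    have h1 := MulAction.index_stabilizer_of_transitive (G := N) (X := Ω) (x := ω)
    rw [hNreg ω, Subgroup.index_bot, Nat.card_eq_fintype_card (α := Ω), hcard] at h1
    exact h1
  have hmain : p ^ (r - 1) ≤ m := by
    by_contra hlt
    push Not at hlt
    have hfixall : ∀ α : Ω, g ^ (p ^ (r - 1)) • α = α := by
      intro α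
      obtain ⟨v, hv⟩ := MulAction.exists_smul_eq N α (g • α)
      exact Cfsg.Agent.S3508.affine_pow p N (fun a b => mul_comm' a b) hNp m hNcard g r
        (by rw [← hg]; exact pow_orderOf_eq_one g) (r - 1) hlt α v.1 v.2 hv.symm
    have h1 : g ^ (p ^ (r - 1)) = 1 := by
      apply FaithfulSMul.eq_of_smul_eq_smul (α := Ω)
      intro α
      rw [hfixall α, one_smul]
    have h2 := orderOf_dvd_of_pow_eq_one h1
    rw [hg] at h2
    have h3 := Nat.le_of_dvd (pos_of_ne_zero (pow_ne_zero _ hp.ne_zero)) h2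
    have h4 : p ^ (r - 1) < p ^ r := Nat.pow_lt_pow_right hp.one_lt (by omega)
    omega
  refine ⟨hmain, fun hrm => ?_⟩
  rw [hrm] at hmain
  have hA : ∀ n : ℕ, n + 3 < 2 ^ (n + 2) := by
    intro n
    induction n with
    | zero => norm_num
    | succ n ih => rw [show n + 1 + 2 = (n + 2) + 1 by ring, pow_succ]; omega
  have hB : ∀ n : ℕ, n + 2 < 3 ^ (n + 1) := by
    intro n
    induction n with
    | zero => norm_num
    | succ n ih => rw [show n + 1 + 1 = (n + 1) + 1 by ring, pow_succ]; omega
  refine ⟨?_, fun hp2 => ?_⟩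
  · by_contra hm3
    push Not at hm3
    have h1 := hA (m - 3)
    have h2 : 2 ^ (m - 1) ≤ p ^ (m - 1) := Nat.pow_le_pow_left hp.two_le _
    rw [show m - 3 + 3 = m by omega, show m - 3 + 2 = m - 1 by omega] at h1
    omega
  · by_contra hm2
    push Not at hm2
    have h1 := hB (m - 2)
    have h2 : 3 ^ (m - 1) ≤ p ^ (m - 1) := Nat.pow_le_pow_left (by omega) _
    rw [show m - 2 + 2 = m by omega, show m - 2 + 1 = m - 1 by omega] at h1
    omega

end Cfsg.Agent.S3508
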