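import Mathlib
import Cfsg.Statements.S3511

set_option autoImplicit false
open Cfsg

namespace Cfsg.Agent.S3511

/-- Let a finite group G act faithfully on a set Ω. If every element of G of square-free order has a regular cycle (an orbit of the cyclic group it generates with trivial stabilizer), then every element of G has a regular cycle. -/
theorem result {G : Type*} [Group G] [Finite G] {Ω : Type*} [MulAction G Ω] [FaithfulSMul G Ω]
    (h : ∀ g : G, Squarefree (orderOf g) → ∃ ω : Ω, MulAction.stabilizer (Subgroup.zpowers g) ω = ⊥) (g : G) :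
    ∃ ω : Ω, MulAction.stabilizer (Subgroup.zpowers g) ω = ⊥ := by
-----
  have key : ∀ n : ℕ, ∀ g : G, orderOf g = n →
      ∃ ω : Ω, MulAction.stabilizer (Subgroup.zpowers g) ω = ⊥ := by
    intro n
    induction n using Nat.strong_induction_on with
    | _ n ih =>
      intro g hg
      by_cases hsq : Squarefree n
      · exact h g (hg ▸ hsq)
      · rw [Nat.squarefree_iff_prime_squarefree] at hsq
        simp only [not_forall, not_not] at hsq
        obtain ⟨q, hq, hqq⟩ := hsq
        have hn0 : 0 < n := hg ▸ orderOf_pos g
        have hqn : q ∣ n := dvd_trans (dvd_mul_left q q) hqq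
        have hord : orderOf (g ^ q) = n / q := by
          rw [orderOf_pow_of_dvd hq.ne_zero (hg ▸ hqn), hg]
        have hlt : n / q < n := Nat.div_lt_self hn0 hq.one_lt
        obtain ⟨ω, hω⟩ := ih (n / q) hlt (g ^ q) hord
        refine ⟨ω, ?_⟩
        rw [Subgroup.eq_bot_iff_forall]
        rintro ⟨x, hx⟩ hfix
        rw [MulAction.mem_stabilizer_iff] at hfix
        have hfix' : x • ω = ω := hfix
        obtain ⟨i, rfl⟩ := Subgroup.mem_zpowers_iff.1 hx
        have hstab : ∀ j : ℤ, ((g ^ q) ^ j) • ω = ω → (g ^ q) ^ j = 1 := by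
          intro j hj
          have hmem : (⟨(g ^ q) ^ j, Subgroup.zpow_mem _ (Subgroup.mem_zpowers _) j⟩ :
              Subgroup.zpowers (g ^ q)) ∈ MulAction.stabilizer (Subgroup.zpowers (g ^ q)) ω := by
            rw [MulAction.mem_stabilizer_iff]; exact hj
          rw [hω, Subgroup.mem_bot] at hmem
          exact congrArg Subtype.val hmem
        have h1 : (g ^ q) ^ i = 1 := by
          apply hstab
          have e : (g ^ q) ^ i = (g ^ i) ^ q := by
            rw [← zpow_natCast g q, ← zpow_mul, mul_comm, zpow_mul, zpow_natCast]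
          rw [e]
          have hmem : g ^ i ∈ MulAction.stabilizer G ω := hfix'
          exact Subgroup.pow_mem _ hmem q
        have h2 : (n : ℤ) ∣ q * i := by
          rw [← hg]
          apply (orderOf_dvd_iff_zpow_eq_one).2
          rw [zpow_mul, zpow_natCast]; exact h1
        obtain ⟨m, hm⟩ := hqq
        have h3 : (q : ℤ) ∣ i := by
          rw [hm] at h2
          push_cast at h2
          have hq0 : (q : ℤ) ≠ 0 := by exact_mod_cast hq.ne_zero
          have h4 : (q : ℤ) * ((q : ℤ) * m) ∣ q * i := by rw [← mul_assoc]; exact h2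
          have h5 := (mul_dvd_mul_iff_left hq0).1 h4
          exact dvd_trans (dvd_mul_right _ _) h5
        obtain ⟨j, rfl⟩ := h3
        apply Subtype.ext
        show g ^ ((q : ℤ) * j) = 1
        have e : g ^ ((q : ℤ) * j) = (g ^ q) ^ j := by rw [zpow_mul, zpow_natCast]
        rw [e]
        apply hstab
        rw [← e]; exact hfix'
  exact key _ g rfl

end Cfsg.Agent.S3511
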