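import Mathlib
import Cfsg.Statements.S3514
import Cfsg.Agent.Lib.Helper5.AS
import Cfsg.Agent.Lib.Helper8.DirectFactor

set_option autoImplicit false
open Cfsg

namespace Cfsg.Agent.S3514

open Cfsg.Agent.Lib.Helper5 Cfsg.Agent.Lib.Helper8

theorem orbit_card {p : ℕ} {V : Type*} [AddCommGroup V] [Module (ZMod p) V]
    (X : Subgroup (V ≃ₗ[ZMod p] V)) (v : V) :
    Nat.card {u : V | ∃ x ∈ X, x v = u} =
      (MulAction.stabilizer (V ≃ₗ[ZMod p] V) v).relIndex X := by
  have h1 : {u : V | ∃ x ∈ X, x v = u} = MulAction.orbit X v := by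
    ext u
    constructor
    · rintro ⟨x, hx, rfl⟩
      exact ⟨⟨x, hx⟩, rfl⟩
    · rintro ⟨x, rfl⟩
      exact ⟨x.1, x.2, rfl⟩
  have h2 : MulAction.stabilizer X v =
      (MulAction.stabilizer (V ≃ₗ[ZMod p] V) v).subgroupOf X := by
    ext x
    rw [Subgroup.mem_subgroupOf, MulAction.mem_stabilizer_iff, MulAction.mem_stabilizer_iff]
    rfl
  rw [h1, Nat.card_coe_set_eq, ← MulAction.index_stabilizer, h2]
  rfl

theorem relIndex_sup_dvd_card {G : Type*} [Group G] [Finite G] (N H : Subgroup G)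
    (hHN : H ≤ Subgroup.normalizer (N : Set G)) : H.relIndex (N ⊔ H) ∣ Nat.card N := by
  have hle : N ⊔ H ≤ Subgroup.normalizer (N : Set G) := sup_le Subgroup.le_normalizer hHN
  haveI : (N.subgroupOf (N ⊔ H)).Normal :=
    (Subgroup.normal_subgroupOf_iff_le_normalizer le_sup_left).2 hle
  have h1 := Subgroup.relIndex_sup_right (H.subgroupOf (N ⊔ H)) (N.subgroupOf (N ⊔ H))
  have htop : H.subgroupOf (N ⊔ H) ⊔ N.subgroupOf (N ⊔ H) = ⊤ := by
    rw [← Subgroup.subgroupOf_sup le_sup_right le_sup_left, sup_comm H N, Subgroup.subgroupOf_self]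
  rw [htop, Subgroup.relIndex_top_right, Subgroup.relIndex_subgroupOf le_sup_right] at h1
  have h1' : N.relIndex (N ⊔ H) = N.relIndex H := h1
  have c1 := Subgroup.relIndex_mul_relIndex ⊥ N (N ⊔ H) bot_le le_sup_left
  have c2 := Subgroup.relIndex_mul_relIndex ⊥ H (N ⊔ H) bot_le le_sup_right
  rw [Subgroup.relIndex_bot_left, Subgroup.relIndex_bot_left] at c1 c2
  obtain ⟨c, hc⟩ := Subgroup.relIndex_dvd_card N H
  have hr : 0 < N.relIndex H := by
    rcases Nat.eq_zero_or_pos (N.relIndex H) with h0 | h0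
    · rw [h0, zero_mul] at hc
      have : 0 < Nat.card H := Nat.card_pos
      omega
    · exact h0
  rw [h1'] at c1
  refine ⟨c, ?_⟩
  have h3 : N.relIndex H * Nat.card N = N.relIndex H * (H.relIndex (N ⊔ H) * c) := by
    calc N.relIndex H * Nat.card N = Nat.card N * N.relIndex H := mul_comm _ _
      _ = Nat.card ↥(N ⊔ H) := c1
      _ = Nat.card H * H.relIndex (N ⊔ H) := c2.symm
      _ = N.relIndex H * c * H.relIndex (N ⊔ H) := by rw [hc]
      _ = N.relIndex H * (H.relIndex (N ⊔ H) * c) := by ring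
  exact Nat.eq_of_mul_eq_mul_left hr h3

/-- Let p be a prime, V a finite vector space over the field with p elements, and H a group of linear transformations of V all of whose orbits on V have size coprime to p. (i) Every normal subgroup K of H has all its orbits on V of size coprime to p. (ii) If N is a group of linear transformations of V of order coprime to p that is normalized by H, then the group generated by N and H has all its orbits on V of size coprime to p. -/
theorem result (p : ℕ) [Fact p.Prime] {V : Type*} [AddCommGroup V] [Module (ZMod p) V] [Finite V]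
    (H : Subgroup (V ≃ₗ[ZMod p] V)) (hH : ∀ v : V, ¬ p ∣ Nat.card {u : V | ∃ h ∈ H, h v = u}) :
    (∀ K : Subgroup (V ≃ₗ[ZMod p] V), K ≤ H → H ≤ Subgroup.normalizer (K : Set (V ≃ₗ[ZMod p] V)) →
        ∀ v : V, ¬ p ∣ Nat.card {u : V | ∃ k ∈ K, k v = u}) ∧
    (∀ N : Subgroup (V ≃ₗ[ZMod p] V), ¬ p ∣ Nat.card N → H ≤ Subgroup.normalizer (N : Set (V ≃ₗ[ZMod p] V)) →
        ∀ v : V, ¬ p ∣ Nat.card {u : V | ∃ x ∈ N ⊔ H, x v = u}) := by
  haveI : Finite (V ≃ₗ[ZMod p] V) :=
    Finite.of_injective (fun f => (f : V → V)) DFunLike.coe_injective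
  have hp : p.Prime := Fact.out
  constructor
  · intro K hKH hHK v
    rw [orbit_card]
    have hv := hH v
    rw [orbit_card] at hv
    obtain ⟨P, hP⟩ := h8_exists_sylow_le_of_not_dvd_index
      ((MulAction.stabilizer (V ≃ₗ[ZMod p] V) v).subgroupOf H) hv
    haveI : (K.subgroupOf H).Normal := (Subgroup.normal_subgroupOf_iff_le_normalizer hKH).2 hHK
    have h1 := sylow_inf_normal_relIndex (K.subgroupOf H) P
    have h2 : ((MulAction.stabilizer (V ≃ₗ[ZMod p] V) v).subgroupOf H).relIndex (K.subgroupOf H) ∣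
        ((P : Subgroup H) ⊓ K.subgroupOf H).relIndex (K.subgroupOf H) := by
      rw [← Subgroup.inf_relIndex_right ((MulAction.stabilizer (V ≃ₗ[ZMod p] V) v).subgroupOf H)
        (K.subgroupOf H)]
      exact Subgroup.relIndex_dvd_of_le_left _ (inf_le_inf_right _ hP)
    rw [Subgroup.relIndex_subgroupOf hKH] at h2
    exact fun h => h1 (dvd_trans h h2)
  · intro N hN hHN v
    rw [orbit_card]
    have hv := hH v
    rw [orbit_card] at hv
    have h1 : (MulAction.stabilizer (V ≃ₗ[ZMod p] V) v).relIndex (N ⊔ H) ∣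
        (MulAction.stabilizer (V ≃ₗ[ZMod p] V) v ⊓ H).relIndex (N ⊔ H) :=
      Subgroup.relIndex_dvd_of_le_left _ inf_le_left
    have h2 := Subgroup.relIndex_mul_relIndex (MulAction.stabilizer (V ≃ₗ[ZMod p] V) v ⊓ H) H
      (N ⊔ H) inf_le_right le_sup_right
    rw [Subgroup.inf_relIndex_right] at h2
    have h3 : H.relIndex (N ⊔ H) ∣ Nat.card N := relIndex_sup_dvd_card N H hHN
    intro hdvd
    have h4 : p ∣ (MulAction.stabilizer (V ≃ₗ[ZMod p] V) v).relIndex H * H.relIndex (N ⊔ H) :=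
      h2 ▸ dvd_trans hdvd h1
    rcases hp.dvd_mul.1 h4 with h5 | h5
    · exact hv h5
    · exact hN (dvd_trans h5 h3)

end Cfsg.Agent.S3514
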