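import Mathlib
import Cfsg.Statements.S3516

set_option autoImplicit false
open Cfsg

namespace Cfsg.Agent.S3516

theorem forward (p : ℕ) [Fact p.Prime] (hp : p ≠ 2) (d : ℕ) (σ : Equiv.Perm (Fin d → ZMod p))
    (hP : ∀ (x y : Fin d → ZMod p) (c : ZMod p),
      σ ((1 - c) • x + c • y) = (1 - c) • σ x + c • σ y) :
    ∃ (A : (Fin d → ZMod p) ≃ₗ[ZMod p] (Fin d → ZMod p)) (b : Fin d → ZMod p),
      ∀ x, σ x = A x + b := by
  have h2 : (2 : ZMod p) ≠ 0 := by
    intro h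
    have h' : ((2 : ℕ) : ZMod p) = 0 := by exact_mod_cast h
    rw [ZMod.natCast_eq_zero_iff] at h'
    have hp' : p.Prime := Fact.out
    exact hp ((Nat.prime_dvd_prime_iff_eq hp' Nat.prime_two).1 h')
  have hhom : ∀ (c : ZMod p) (y : Fin d → ZMod p), σ (c • y) = (1 - c) • σ 0 + c • σ y := by
    intro c y
    have := hP 0 y c
    rwa [smul_zero, zero_add] at this
  have hadd : ∀ x y : Fin d → ZMod p, σ (x + y) = σ x + σ y - σ 0 := by
    intro x y
    have h1 := hP ((2 : ZMod p) • x) ((2 : ZMod p) • y) (2⁻¹ : ZMod p)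
    have e : (1 - (2⁻¹ : ZMod p)) • (2 : ZMod p) • x + (2⁻¹ : ZMod p) • (2 : ZMod p) • y
        = x + y := by
      rw [smul_smul, smul_smul]
      have a1 : (1 - (2⁻¹ : ZMod p)) * 2 = 1 := by field_simp; ring
      have a2 : (2⁻¹ : ZMod p) * 2 = 1 := by field_simp
      rw [a1, a2, one_smul, one_smul]
    rw [e, hhom 2 x, hhom 2 y] at h1
    rw [h1]
    funext j
    simp only [Pi.add_apply, Pi.smul_apply, Pi.sub_apply, smul_eq_mul]
    field_simp
    ring
  obtain ⟨L, hL⟩ : ∃ L : (Fin d → ZMod p) →ₗ[ZMod p] (Fin d → ZMod p), ∀ x, L x = σ x - σ 0 := by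
    refine ⟨{ toFun := fun x => σ x - σ 0, map_add' := ?_, map_smul' := ?_ }, fun x => rfl⟩
    · intro x y
      show σ (x + y) - σ 0 = (σ x - σ 0) + (σ y - σ 0)
      rw [hadd]; abel
    · intro c x
      show σ (c • x) - σ 0 = c • (σ x - σ 0)
      rw [hhom]
      funext j
      simp only [Pi.add_apply, Pi.smul_apply, Pi.sub_apply, smul_eq_mul]
      ring
  have hbij : Function.Bijective L := by
    constructor
    · intro x y hxy
      rw [hL, hL] at hxy
      exact σ.injective (sub_left_injective hxy)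
    · intro y
      refine ⟨σ.symm (y + σ 0), ?_⟩
      rw [hL, Equiv.apply_symm_apply]; abel
  refine ⟨LinearEquiv.ofBijective L hbij, σ 0, fun x => ?_⟩
  rw [LinearEquiv.ofBijective_apply, hL]; abel

theorem backward (p : ℕ) [Fact p.Prime] (d : ℕ) (hd : 3 ≤ d)
    (A : (Fin d → ZMod p) ≃ₗ[ZMod p] (Fin d → ZMod p)) (u₁ u₂ : Fin d → ZMod p) :
    ∃ A' : (Fin d → ZMod p) ≃ₗ[ZMod p] (Fin d → ZMod p),
      LinearMap.det (A' : (Fin d → ZMod p) →ₗ[ZMod p] (Fin d → ZMod p)) = 1 ∧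
      A' u₁ = A u₁ ∧ A' u₂ = A u₂ := by
  classical
  obtain ⟨U, hU⟩ : ∃ U : Submodule (ZMod p) (Fin d → ZMod p),
      U = Submodule.span (ZMod p) ((({u₁, u₂} : Finset (Fin d → ZMod p)) : Set (Fin d → ZMod p))) :=
    ⟨_, rfl⟩
  have hu₁ : u₁ ∈ U := by rw [hU]; exact Submodule.subset_span (by simp)
  have hu₂ : u₂ ∈ U := by rw [hU]; exact Submodule.subset_span (by simp)
  have hfr : Module.finrank (ZMod p) U ≤ 2 := by
    rw [hU]
    exact (finrank_span_finset_le_card _).trans Finset.card_le_two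
  have hlt : U < ⊤ := by
    rw [lt_top_iff_ne_top]
    intro h
    rw [h, finrank_top, Module.finrank_fin_fun] at hfr
    omega
  obtain ⟨f, hf0, hfU⟩ := Submodule.exists_le_ker_of_lt_top U hlt
  obtain ⟨e, he⟩ : ∃ e, f e ≠ 0 := by
    by_contra hcon
    push Not at hcon
    exact hf0 (LinearMap.ext hcon)
  obtain ⟨δ, hδ⟩ : ∃ δ, δ = LinearMap.det (A : (Fin d → ZMod p) →ₗ[ZMod p] (Fin d → ZMod p)) :=
    ⟨_, rfl⟩
  have hδ0 : δ ≠ 0 := by
    rw [hδ]
    exact (LinearEquiv.isUnit_det' A).ne_zero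
  obtain ⟨v, hv⟩ : ∃ v : Fin d → ZMod p, 1 + f v = δ⁻¹ := by
    refine ⟨((δ⁻¹ - 1) / f e) • e, ?_⟩
    rw [map_smul, smul_eq_mul]
    field_simp
    ring
  have hunit : IsUnit (1 + f v) := by
    rw [hv]; exact (inv_ne_zero hδ0).isUnit
  refine ⟨(LinearEquiv.dilatransvection hunit).trans A, ?_, ?_, ?_⟩
  · have e1 : (((LinearEquiv.dilatransvection hunit).trans A : (Fin d → ZMod p) ≃ₗ[ZMod p]
        (Fin d → ZMod p)) : (Fin d → ZMod p) →ₗ[ZMod p] (Fin d → ZMod p)) =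
        (A : (Fin d → ZMod p) →ₗ[ZMod p] (Fin d → ZMod p)) ∘ₗ LinearMap.transvection f v := rfl
    rw [e1, LinearMap.det_comp, LinearMap.transvection.det, hv, ← hδ]
    exact mul_inv_cancel₀ hδ0
  · rw [LinearEquiv.trans_apply, LinearEquiv.dilatransvection.apply]
    have : f u₁ = 0 := hfU hu₁
    rw [this, zero_smul, add_zero]
  · rw [LinearEquiv.trans_apply, LinearEquiv.dilatransvection.apply]
    have : f u₂ = 0 := hfU hu₂
    rw [this, zero_smul, add_zero]

/-- Let p be an odd prime, d ≥ 3, and G a group of affine permutations x ↦ Ax + b of V = F_p^d containing all translations and all maps x ↦ Ax with A of determinant 1. Then the 3-closure of G is the full affine group: a permutation σ of V agrees on every triple of points with some element of G if and only if σ is an affine map. -/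
theorem result (p : ℕ) [Fact p.Prime] (hp : p ≠ 2) (d : ℕ) (hd : 3 ≤ d) (G : Subgroup (Equiv.Perm (Fin d → ZMod p)))
    (haff : (G : Set (Equiv.Perm (Fin d → ZMod p))) ⊆ {τ : Equiv.Perm (Fin d → ZMod p) | ∃ (A : (Fin d → ZMod p) ≃ₗ[ZMod p] (Fin d → ZMod p)) (b : Fin d → ZMod p), ∀ x, τ x = A x + b})
    (htrans : ∀ b : Fin d → ZMod p, ∃ g ∈ G, ∀ x, g x = x + b)
    (hsl : ∀ A : (Fin d → ZMod p) ≃ₗ[ZMod p] (Fin d → ZMod p), LinearMap.det (A : (Fin d → ZMod p) →ₗ[ZMod p] (Fin d → ZMod p)) = 1 → ∃ g ∈ G, ∀ x, g x = A x)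
    (σ : Equiv.Perm (Fin d → ZMod p)) :
    (∀ t : Fin 3 → (Fin d → ZMod p), ∃ g ∈ G, ∀ i, σ (t i) = g (t i)) ↔ σ ∈ {τ : Equiv.Perm (Fin d → ZMod p) | ∃ (A : (Fin d → ZMod p) ≃ₗ[ZMod p] (Fin d → ZMod p)) (b : Fin d → ZMod p), ∀ x, τ x = A x + b} := by
  constructor
  · intro hσ
    apply forward p hp d σ
    intro x y c
    obtain ⟨g, hg, hgi⟩ := hσ ![x, y, (1 - c) • x + c • y]
    obtain ⟨A, b, hA⟩ := haff hg
    have e0 : σ x = A x + b := by rw [← hA]; exact hgi 0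
    have e1 : σ y = A y + b := by rw [← hA]; exact hgi 1
    have e2 : σ ((1 - c) • x + c • y) = A ((1 - c) • x + c • y) + b := by rw [← hA]; exact hgi 2
    rw [e2, e0, e1, map_add, map_smul, map_smul]
    funext j
    simp only [Pi.add_apply, Pi.smul_apply, smul_eq_mul]
    ring
  · rintro ⟨A, b, hA⟩ t
    obtain ⟨A', hdet, h1, h2⟩ := backward p d hd A (t 1 - t 0) (t 2 - t 0)
    obtain ⟨g1, hg1, hg1x⟩ := hsl A' hdet
    obtain ⟨g2, hg2, hg2x⟩ := htrans (A (t 0) + b - A' (t 0))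
    refine ⟨g2 * g1, G.mul_mem hg2 hg1, fun i => ?_⟩
    rw [Equiv.Perm.mul_apply, hg1x, hg2x, hA]
    have key : A' (t i) - A' (t 0) = A (t i) - A (t 0) := by
      rw [← map_sub, ← map_sub]
      fin_cases i
      · simp
      · exact h1
      · exact h2
    calc A (t i) + b = (A (t i) - A (t 0)) + (A (t 0) + b) := by abel
      _ = (A' (t i) - A' (t 0)) + (A (t 0) + b) := by rw [key]
      _ = A' (t i) + (A (t 0) + b - A' (t 0)) := by abel

end Cfsg.Agent.S3516
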