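import Mathlib
import Cfsg.Statements.S3515
import Cfsg.Agent.S3516

set_option autoImplicit false
open Cfsg

namespace Cfsg.Agent.S3515

theorem perm_eq_of_three {V : Type*} [Fintype V] [DecidableEq V] (hV : Fintype.card V = 4)
    (σ g : Equiv.Perm V) (a b c : V) (hab : a ≠ b) (hac : a ≠ c) (hbc : b ≠ c)
    (ha : σ a = g a) (hb : σ b = g b) (hc : σ c = g c) : σ = g := by
  apply Equiv.ext
  intro x
  by_cases hx : x = a ∨ x = b ∨ x = c
  · rcases hx with rfl | rfl | rfl
    · exact ha
    · exact hb
    · exact hc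
  · push Not at hx
    obtain ⟨hxa, hxb, hxc⟩ := hx
    have hcard : ({a, b, c, x} : Finset V).card = 4 := by
      rw [Finset.card_insert_of_notMem (by simp [hab, hac, Ne.symm hxa]),
        Finset.card_insert_of_notMem (by simp [hbc, Ne.symm hxb]),
        Finset.card_pair (Ne.symm hxc)]
    have himg : (({a, b, c, x} : Finset V).image g) = Finset.univ := by
      apply Finset.eq_univ_of_card
      rw [Finset.card_image_of_injective _ g.injective, hcard, hV]
    have hmem : σ x ∈ (({a, b, c, x} : Finset V).image g) := by rw [himg]; exact Finset.mem_univ _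
    rw [Finset.mem_image] at hmem
    obtain ⟨y, hy, hyx⟩ := hmem
    simp only [Finset.mem_insert, Finset.mem_singleton] at hy
    rcases hy with rfl | rfl | rfl | rfl
    · exact absurd (σ.injective (hyx.symm.trans ha.symm)) hxa
    · exact absurd (σ.injective (hyx.symm.trans hb.symm)) hxb
    · exact absurd (σ.injective (hyx.symm.trans hc.symm)) hxc
    · exact hyx.symm

/-- Every primitive affine permutation group of degree p² is 3-closed. Let p be a prime and G a group of permutations of the plane V = F_p² consisting of affine maps x ↦ Ax + b, containing all translations, and acting primitively on V. Then any permutation σ of V that agrees on every triple of points with some element of G (σ preserves every G-orbit on ordered triples) already lies in G. -/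
theorem result (p : ℕ) [Fact p.Prime] (G : Subgroup (Equiv.Perm (Fin 2 → ZMod p)))
    (haff : (G : Set (Equiv.Perm (Fin 2 → ZMod p))) ⊆ {τ : Equiv.Perm (Fin 2 → ZMod p) | ∃ (A : (Fin 2 → ZMod p) ≃ₗ[ZMod p] (Fin 2 → ZMod p)) (b : Fin 2 → ZMod p), ∀ x, τ x = A x + b})
    (htrans : ∀ b : Fin 2 → ZMod p, ∃ g ∈ G, ∀ x, g x = x + b) (hprim : MulAction.IsPreprimitive G (Fin 2 → ZMod p))
    (σ : Equiv.Perm (Fin 2 → ZMod p)) (hσ : (∀ t : Fin 3 → (Fin 2 → ZMod p), ∃ g ∈ G, ∀ i, σ (t i) = g (t i))) : σ ∈ G := by
  classical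
  obtain ⟨g, hg, hgi⟩ := hσ ![0, Pi.single 0 1, Pi.single 1 1]
  have e0 : σ 0 = g 0 := hgi 0
  have e1 : σ (Pi.single 0 1) = g (Pi.single 0 1) := hgi 1
  have e2 : σ (Pi.single 1 1) = g (Pi.single 1 1) := hgi 2
  have hne1 : (Pi.single 0 1 : Fin 2 → ZMod p) ≠ 0 := by
    intro h
    have := congrFun h 0
    simp at this
  have hne2 : (Pi.single 1 1 : Fin 2 → ZMod p) ≠ 0 := by
    intro h
    have := congrFun h 1
    simp at this
  have hne3 : (Pi.single 0 1 : Fin 2 → ZMod p) ≠ Pi.single 1 1 := by
    intro h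
    have := congrFun h 0
    simp at this
  by_cases hp : p = 2
  · subst hp
    have hV : Fintype.card (Fin 2 → ZMod 2) = 4 := by simp [ZMod.card]
    have := perm_eq_of_three hV σ g 0 (Pi.single 0 1) (Pi.single 1 1) (Ne.symm hne1)
      (Ne.symm hne2) hne3 e0 e1 e2
    rw [this]; exact hg
  · have haffσ : ∃ (A : (Fin 2 → ZMod p) ≃ₗ[ZMod p] (Fin 2 → ZMod p)) (b : Fin 2 → ZMod p),
        ∀ x, σ x = A x + b := by
      apply S3516.forward p hp 2 σ
      intro x y c
      obtain ⟨g', hg', hgi'⟩ := hσ ![x, y, (1 - c) • x + c • y]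
      obtain ⟨A, b, hA⟩ := haff hg'
      have f0 : σ x = A x + b := by rw [← hA]; exact hgi' 0
      have f1 : σ y = A y + b := by rw [← hA]; exact hgi' 1
      have f2 : σ ((1 - c) • x + c • y) = A ((1 - c) • x + c • y) + b := by
        rw [← hA]; exact hgi' 2
      rw [f2, f0, f1, map_add, map_smul, map_smul]
      funext j
      simp only [Pi.add_apply, Pi.smul_apply, smul_eq_mul]
      ring
    obtain ⟨A, b, hA⟩ := haffσ
    obtain ⟨A', b', hA'⟩ := haff hg
    have hb : b' = b := by
      have h1 : σ 0 = b := by rw [hA 0, map_zero, zero_add]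
      have h2 : g 0 = b' := by rw [hA' 0, map_zero, zero_add]
      rw [← h1, ← h2, e0]
    have hAA : (A' : (Fin 2 → ZMod p) →ₗ[ZMod p] (Fin 2 → ZMod p)) =
        (A : (Fin 2 → ZMod p) →ₗ[ZMod p] (Fin 2 → ZMod p)) := by
      apply (Pi.basisFun (ZMod p) (Fin 2)).ext
      intro i
      rw [Pi.basisFun_apply]
      have key : ∀ w : Fin 2 → ZMod p, σ w = g w → A' w = A w := by
        intro w hw
        rw [hA, hA', hb] at hw
        exact (add_right_cancel hw).symm
      fin_cases i
      · exact key _ e1
      · exact key _ e2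
    have : σ = g := by
      apply Equiv.ext
      intro x
      rw [hA, hA', hb]
      have := congrArg (fun L : (Fin 2 → ZMod p) →ₗ[ZMod p] (Fin 2 → ZMod p) => L x) hAA
      simp only [LinearEquiv.coe_coe] at this
      rw [this]
    rw [this]; exact hg

end Cfsg.Agent.S3515
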