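import Mathlib
import Cfsg.Statements.S3517

set_option autoImplicit false
open Cfsg

namespace Cfsg.Agent.S3517

theorem exists_equiv_of_li {K V ι : Type*} [Field K] [AddCommGroup V] [Module K V]
    [FiniteDimensional K V] (u w : ι → V) (hu : LinearIndependent K u)
    (hw : LinearIndependent K w) : ∃ A : V ≃ₗ[K] V, ∀ i, A (u i) = w i := by
  classical
  obtain ⟨bU, hbU⟩ : ∃ bU : Module.Basis ι K (Submodule.span K (Set.range u)),
      ∀ i, ((bU i : Submodule.span K (Set.range u)) : V) = u i :=
    ⟨Module.Basis.span hu, fun i => congrArg Subtype.val (Module.Basis.span_apply hu i)⟩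
  obtain ⟨bW, hbW⟩ : ∃ bW : Module.Basis ι K (Submodule.span K (Set.range w)),
      ∀ i, ((bW i : Submodule.span K (Set.range w)) : V) = w i :=
    ⟨Module.Basis.span hw, fun i => congrArg Subtype.val (Module.Basis.span_apply hw i)⟩
  obtain ⟨φ, hφ⟩ : ∃ φ : Submodule.span K (Set.range u) ≃ₗ[K] Submodule.span K (Set.range w),
      ∀ i, φ (bU i) = bW i := ⟨bU.equiv bW (Equiv.refl ι), fun i => by simp⟩
  obtain ⟨U', hU'⟩ := Submodule.exists_isCompl (Submodule.span K (Set.range u))
  obtain ⟨W', hW'⟩ := Submodule.exists_isCompl (Submodule.span K (Set.range w))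
  have h1 := Submodule.finrank_add_eq_of_isCompl hU'
  have h2 := Submodule.finrank_add_eq_of_isCompl hW'
  have h3 : Module.finrank K (Submodule.span K (Set.range u)) =
      Module.finrank K (Submodule.span K (Set.range w)) := φ.finrank_eq
  have h4 : Module.finrank K U' = Module.finrank K W' := by omega
  obtain ⟨ψ⟩ : Nonempty (U' ≃ₗ[K] W') := FiniteDimensional.nonempty_linearEquiv_of_finrank_eq h4
  refine ⟨(Submodule.prodEquivOfIsCompl _ U' hU').symm ≪≫ₗ (φ.prodCongr ψ) ≪≫ₗ
    (Submodule.prodEquivOfIsCompl _ W' hW'), fun i => ?_⟩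
  have hmem : u i ∈ Submodule.span K (Set.range u) := Submodule.subset_span ⟨i, rfl⟩
  have e0 : (⟨u i, hmem⟩ : Submodule.span K (Set.range u)) = bU i :=
    Subtype.ext (hbU i).symm
  have e1 : (Submodule.prodEquivOfIsCompl _ U' hU').symm (u i) = (bU i, 0) := by
    rw [← e0]
    exact Submodule.prodEquivOfIsCompl_symm_apply_left _ _ hU' ⟨u i, hmem⟩
  rw [LinearEquiv.trans_apply, LinearEquiv.trans_apply, e1]
  simp only [LinearEquiv.prodCongr_apply, Prod.map_apply, map_zero, hφ,
    Submodule.coe_prodEquivOfIsCompl', Submodule.coe_zero, add_zero, hbW]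

theorem two_pts (d : ℕ) (a c a' c' : Fin d → ZMod 2) (hac : a ≠ c) (hac' : a' ≠ c') :
    ∃ (A : (Fin d → ZMod 2) ≃ₗ[ZMod 2] (Fin d → ZMod 2)) (b : Fin d → ZMod 2),
      a' = A a + b ∧ c' = A c + b := by
  have hu : LinearIndependent (ZMod 2) (fun _ : Unit => c - a) :=
    linearIndependent_unique_iff.2 (sub_ne_zero.2 (Ne.symm hac))
  have hw : LinearIndependent (ZMod 2) (fun _ : Unit => c' - a') :=
    linearIndependent_unique_iff.2 (sub_ne_zero.2 (Ne.symm hac'))
  obtain ⟨A, hA⟩ := exists_equiv_of_li _ _ hu hw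
  refine ⟨A, a' - A a, by abel, ?_⟩
  have h : A c - A a = c' - a' := by rw [← map_sub]; exact hA ()
  calc c' = (c' - a') + a' := by abel
    _ = (A c - A a) + a' := by rw [h]
    _ = A c + (a' - A a) := by abel

theorem li_pair (d : ℕ) (x y : Fin d → ZMod 2) (hx : x ≠ 0) (hy : y ≠ 0) (hxy : x ≠ y) :
    LinearIndependent (ZMod 2) ![x, y] := by
  rw [LinearIndependent.pair_iff]
  intro s t h
  have h01 : ∀ s : ZMod 2, s = 0 ∨ s = 1 := by decide
  have hz : ∀ a b : ZMod 2, a + b = 0 → a = b := by decide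
  rcases h01 s with rfl | rfl <;> rcases h01 t with rfl | rfl
  · exact ⟨rfl, rfl⟩
  · exfalso; apply hy; simpa using h
  · exfalso; apply hx; simpa using h
  · exfalso; apply hxy
    rw [one_smul, one_smul] at h
    funext j
    exact hz _ _ (congrFun h j)

theorem three_pts (d : ℕ) (a b c a' b' c' : Fin d → ZMod 2) (hab : a ≠ b) (hac : a ≠ c)
    (hbc : b ≠ c) (hab' : a' ≠ b') (hac' : a' ≠ c') (hbc' : b' ≠ c') :
    ∃ (A : (Fin d → ZMod 2) ≃ₗ[ZMod 2] (Fin d → ZMod 2)) (v : Fin d → ZMod 2),
      a' = A a + v ∧ b' = A b + v ∧ c' = A c + v := by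
  have hu := li_pair d (b - a) (c - a) (sub_ne_zero.2 (Ne.symm hab)) (sub_ne_zero.2 (Ne.symm hac))
    (fun h => hbc (sub_left_injective h))
  have hw := li_pair d (b' - a') (c' - a') (sub_ne_zero.2 (Ne.symm hab'))
    (sub_ne_zero.2 (Ne.symm hac')) (fun h => hbc' (sub_left_injective h))
  obtain ⟨A, hA⟩ := exists_equiv_of_li _ _ hu hw
  refine ⟨A, a' - A a, by abel, ?_, ?_⟩
  · have h : A b - A a = b' - a' := by rw [← map_sub]; exact hA 0
    calc b' = (b' - a') + a' := by abel
      _ = (A b - A a) + a' := by rw [h]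
      _ = A b + (a' - A a) := by abel
  · have h : A c - A a = c' - a' := by rw [← map_sub]; exact hA 1
    calc c' = (c' - a') + a' := by abel
      _ = (A c - A a) + a' := by rw [h]
      _ = A c + (a' - A a) := by abel

/-- For d ≥ 3, the 3-closure of the affine group AGL_d(2) acting on F_2^d is the full symmetric group: every permutation of F_2^d agrees on every ordered triple of points with some affine map (AGL_d(2) is 3-transitive). -/
theorem result (d : ℕ) (hd : 3 ≤ d) (σ : Equiv.Perm (Fin d → ZMod 2)) (t : Fin 3 → (Fin d → ZMod 2)) :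
    ∃ (A : (Fin d → ZMod 2) ≃ₗ[ZMod 2] (Fin d → ZMod 2)) (b : Fin d → ZMod 2), ∀ i, σ (t i) = A (t i) + b := by
  classical
  by_cases h01 : t 0 = t 1
  · by_cases h02 : t 0 = t 2
    · refine ⟨LinearEquiv.refl _ _, σ (t 0) - t 0, fun i => ?_⟩
      have : t i = t 0 := by
        fin_cases i
        · rfl
        · exact h01.symm
        · exact h02.symm
      rw [this]; simp
    · obtain ⟨A, b, e0, e2⟩ := two_pts d (t 0) (t 2) (σ (t 0)) (σ (t 2)) h02
        (fun h => h02 (σ.injective h))
      refine ⟨A, b, fun i => ?_⟩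
      fin_cases i
      · exact e0
      · show σ (t 1) = A (t 1) + b
        rw [← h01]; exact e0
      · exact e2
  · by_cases h02 : t 0 = t 2
    · obtain ⟨A, b, e0, e1⟩ := two_pts d (t 0) (t 1) (σ (t 0)) (σ (t 1)) h01
        (fun h => h01 (σ.injective h))
      refine ⟨A, b, fun i => ?_⟩
      fin_cases i
      · exact e0
      · exact e1
      · show σ (t 2) = A (t 2) + b
        rw [← h02]; exact e0
    · by_cases h12 : t 1 = t 2
      · obtain ⟨A, b, e0, e1⟩ := two_pts d (t 0) (t 1) (σ (t 0)) (σ (t 1)) h01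
          (fun h => h01 (σ.injective h))
        refine ⟨A, b, fun i => ?_⟩
        fin_cases i
        · exact e0
        · exact e1
        · show σ (t 2) = A (t 2) + b
          rw [← h12]; exact e1
      · obtain ⟨A, b, e0, e1, e2⟩ := three_pts d (t 0) (t 1) (t 2) (σ (t 0)) (σ (t 1)) (σ (t 2))
          h01 h02 h12 (fun h => h01 (σ.injective h)) (fun h => h02 (σ.injective h))
          (fun h => h12 (σ.injective h))
        refine ⟨A, b, fun i => ?_⟩
        fin_cases i
        · exact e0
        · exact e1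
        · exact e2

end Cfsg.Agent.S3517
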