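import Mathlib
import Cfsg.Statements.S3518

set_option autoImplicit false
open Cfsg
open Polynomial

namespace Cfsg.Agent.S3518

theorem arith (p e : ℕ) (hp : p.Prime) (he2 : 2 ≤ e) (hep : e ≤ p - 1) :
    ∃ i j : ℕ, 1 ≤ i ∧ i * e + j = p - 1 ∧ 2 * (i + j) + 1 ≤ p := by
  rcases hp.eq_two_or_odd' with h2 | hodd
  · omega
  · obtain ⟨h, hh⟩ := hodd
    by_cases hcase : h + 1 ≤ e
    · refine ⟨1, 2 * h - e, le_refl 1, ?_, ?_⟩ <;> omega
    · have hdm := Nat.div_add_mod (2 * h) e
      have hmod : 2 * h % e < e := Nat.mod_lt _ (by omega)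
      have hi2 : 2 ≤ 2 * h / e := by
        rw [Nat.le_div_iff_mul_le (by omega)]
        omega
      refine ⟨2 * h / e, 2 * h % e, by omega, ?_, ?_⟩
      · rw [mul_comm]
        omega
      · by_cases he3 : e = 2
        · subst he3
          omega
        · obtain ⟨i', hi'⟩ : ∃ i', 2 * h / e = i' + 2 := ⟨2 * h / e - 2, by omega⟩
          obtain ⟨e', he'⟩ : ∃ e', e = e' + 3 := ⟨e - 3, by omega⟩
          rw [hi'] at hdm ⊢
          subst he'
          nlinarith [Nat.zero_le (e' * i')]

section LS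

variable (p : ℕ) [Fact p.Prime]

theorem sum_pow_top : ∑ x : ZMod p, x ^ (p - 1) = -1 := by
  have hp := (Fact.out : p.Prime)
  have h1 : ∀ x : ZMod p, x ^ (p - 1) = 1 - (if x = 0 then 1 else 0) := by
    intro x
    by_cases hx : x = 0
    · rw [hx, if_pos rfl, zero_pow (by have := hp.two_le; omega), sub_self]
    · rw [if_neg hx, ZMod.pow_card_sub_one_eq_one hx, sub_zero]
  rw [Finset.sum_congr rfl (fun x _ => h1 x), Finset.sum_sub_distrib, Finset.sum_const,
    Finset.card_univ, ZMod.card, nsmul_eq_mul, Finset.sum_ite_eq']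
  simp

theorem sum_eval (g : (ZMod p)[X]) (hg : g.natDegree < p) :
    ∑ x : ZMod p, g.eval x = - g.coeff (p - 1) := by
  have hp := (Fact.out : p.Prime)
  have h1 : ∀ x : ZMod p, g.eval x = ∑ m ∈ Finset.range p, g.coeff m * x ^ m :=
    fun x => Polynomial.eval_eq_sum_range' hg x
  rw [Finset.sum_congr rfl (fun x _ => h1 x), Finset.sum_comm]
  rw [Finset.sum_eq_single (p - 1)]
  · rw [← Finset.mul_sum, sum_pow_top, mul_neg, mul_one]
  · intro m hm hne
    rw [← Finset.mul_sum]
    have hlt : m < p - 1 := by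
      have := Finset.mem_range.1 hm
      omega
    rw [FiniteField.sum_pow_lt_card_sub_one (K := ZMod p) m (by rw [ZMod.card]; exact hlt),
      mul_zero]
  · intro h
    exfalso
    apply h
    rw [Finset.mem_range]
    have := hp.two_le
    omega

theorem poly_vanish (a : ℕ → ZMod p) (k : ℕ) (U : Finset (ZMod p)) (hk : k < U.card)
    (h : ∀ c ∈ U, ∑ m ∈ Finset.range (k + 1), a m * c ^ m = 0) (m : ℕ) (hm : m ≤ k) :
    a m = 0 := by
  have hdeg : (∑ m ∈ Finset.range (k + 1), C (a m) * X ^ m : (ZMod p)[X]).natDegree ≤ k := by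
    apply Polynomial.natDegree_sum_le_of_forall_le
    intro i hi
    exact (Polynomial.natDegree_C_mul_X_pow_le (a i) i).trans
      (by have := Finset.mem_range.1 hi; omega)
  have heval : ∀ c ∈ U,
      (∑ m ∈ Finset.range (k + 1), C (a m) * X ^ m : (ZMod p)[X]).eval c = 0 := by
    intro c hc
    rw [Polynomial.eval_finsetSum]
    simpa using h c hc
  have hR0 : (∑ m ∈ Finset.range (k + 1), C (a m) * X ^ m : (ZMod p)[X]) = 0 :=
    Polynomial.eq_zero_of_natDegree_lt_card_of_eval_eq_zero' _ U heval (lt_of_le_of_lt hdeg hk)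
  have h2 : (∑ m ∈ Finset.range (k + 1), C (a m) * X ^ m : (ZMod p)[X]).coeff m = a m := by
    rw [Polynomial.finsetSum_coeff]
    simp only [Polynomial.coeff_C_mul_X_pow]
    rw [Finset.sum_ite_eq, if_pos (Finset.mem_range.2 (by omega))]
  rw [← h2, hR0, Polynomial.coeff_zero]

theorem mixed_sum_zero (f : ZMod p → ZMod p) (U : Finset (ZMod p))
    (hU : p + 1 ≤ 2 * U.card) (hinj : ∀ c ∈ U, Function.Injective (fun x => f x - c * x))
    (i j : ℕ) (hij : 2 * (i + j) + 1 ≤ p) : ∑ x : ZMod p, x ^ j * f x ^ i = 0 := by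
  have hp := (Fact.out : p.Prime)
  have hkU : i + j < U.card := by omega
  have hkp : i + j < p - 1 := by
    have := hp.two_le
    omega
  have L1 : ∀ c ∈ U, ∑ x : ZMod p, (f x - c * x) ^ (i + j) = 0 := by
    intro c hc
    have hbij : Function.Bijective (fun x => f x - c * x) :=
      (Finite.injective_iff_bijective).1 (hinj c hc)
    rw [Fintype.sum_bijective (fun x => f x - c * x) hbij (fun x => (f x - c * x) ^ (i + j))
      (fun t => t ^ (i + j)) (fun x => rfl)]
    exact FiniteField.sum_pow_lt_card_sub_one (K := ZMod p) (i + j)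
      (by rw [ZMod.card]; exact hkp)
  have hvan := poly_vanish p (fun m => ((Nat.choose (i + j) m : ℕ) : ZMod p) * (-1) ^ m *
    ∑ x : ZMod p, x ^ m * f x ^ (i + j - m)) (i + j) U hkU ?_ j (by omega)
  · beta_reduce at hvan
    rw [show i + j - j = i by omega] at hvan
    have hch : ((Nat.choose (i + j) j : ℕ) : ZMod p) ≠ 0 := by
      rw [Ne, ZMod.natCast_eq_zero_iff]
      intro hdvd
      have h1 : Nat.choose (i + j) j ∣ (i + j).factorial := by
        refine ⟨j.factorial * (i + j - j).factorial, ?_⟩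
        rw [← mul_assoc]
        exact (Nat.choose_mul_factorial_mul_factorial (by omega)).symm
      have h2 := (hp.dvd_factorial).1 (hdvd.trans h1)
      omega
    have hneg : ((-1 : ZMod p)) ^ j ≠ 0 := pow_ne_zero _ (neg_ne_zero.2 one_ne_zero)
    rcases mul_eq_zero.1 hvan with h | h
    · rcases mul_eq_zero.1 h with h | h
      · exact absurd h hch
      · exact absurd h hneg
    · exact h
  · intro c hc
    refine Eq.trans ?_ (L1 c hc)
    calc ∑ m ∈ Finset.range (i + j + 1), ((Nat.choose (i + j) m : ℕ) : ZMod p) * (-1) ^ m *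
          (∑ x : ZMod p, x ^ m * f x ^ (i + j - m)) * c ^ m
        = ∑ m ∈ Finset.range (i + j + 1), ∑ x : ZMod p,
            (-(c * x)) ^ m * f x ^ (i + j - m) * (Nat.choose (i + j) m : ℕ) := by
          refine Finset.sum_congr rfl (fun m _ => ?_)
          rw [Finset.mul_sum, Finset.sum_mul]
          refine Finset.sum_congr rfl (fun x _ => ?_)
          rw [neg_pow (c * x) m, mul_pow c x m]
          ring
      _ = ∑ x : ZMod p, ∑ m ∈ Finset.range (i + j + 1),
            (-(c * x)) ^ m * f x ^ (i + j - m) * (Nat.choose (i + j) m : ℕ) := Finset.sum_comm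
      _ = ∑ x : ZMod p, (f x - c * x) ^ (i + j) := by
          refine Finset.sum_congr rfl (fun x _ => ?_)
          rw [← add_pow, neg_add_eq_sub]

theorem ls_affine (f : ZMod p → ZMod p) (U : Finset (ZMod p))
    (hU : p + 1 ≤ 2 * U.card) (hinj : ∀ c ∈ U, Function.Injective (fun x => f x - c * x)) :
    ∃ a b : ZMod p, ∀ x, f x = a * x + b := by
  have hp := (Fact.out : p.Prime)
  have hPeval : ∀ x, (Lagrange.interpolate Finset.univ id f).eval x = f x := by
    intro x
    exact Lagrange.eval_interpolate_at_node (r := f) (v := id) (Function.injective_id.injOn)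
      (Finset.mem_univ x)
  have hPdeg : (Lagrange.interpolate Finset.univ id f).natDegree < p := by
    by_cases hP0 : Lagrange.interpolate Finset.univ id f = 0
    · rw [hP0, Polynomial.natDegree_zero]
      exact hp.pos
    · rw [Polynomial.natDegree_lt_iff_degree_lt hP0]
      have h1 := Lagrange.degree_interpolate_lt (s := Finset.univ) (v := id) (r := f)
        (Function.injective_id.injOn)
      rw [Finset.card_univ, ZMod.card] at h1
      exact h1
  generalize Lagrange.interpolate Finset.univ id f = P at hPeval hPdeg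
  by_cases he : P.natDegree ≤ 1
  · refine ⟨P.coeff 1, P.coeff 0, fun x => ?_⟩
    have h1 := Polynomial.eq_X_add_C_of_natDegree_le_one he
    have h2 := congrArg (Polynomial.eval x) h1
    rw [Polynomial.eval_add, Polynomial.eval_mul, Polynomial.eval_C, Polynomial.eval_X,
      Polynomial.eval_C, hPeval] at h2
    exact h2
  · exfalso
    push Not at he
    obtain ⟨i, j, hi1, hij, hle⟩ := arith p P.natDegree hp (by omega) (by omega)
    have hP0 : P ≠ 0 := by
      intro h
      rw [h, Polynomial.natDegree_zero] at he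
      omega
    have hS := mixed_sum_zero p f U hU hinj i j hle
    have hg : (X ^ j * P ^ i : (ZMod p)[X]).natDegree = p - 1 := by
      rw [Polynomial.natDegree_mul (pow_ne_zero j Polynomial.X_ne_zero) (pow_ne_zero i hP0),
        Polynomial.natDegree_X_pow, Polynomial.natDegree_pow]
      omega
    have hsum := sum_eval p (X ^ j * P ^ i) (by rw [hg]; have := hp.two_le; omega)
    have hev : ∀ x : ZMod p, (X ^ j * P ^ i : (ZMod p)[X]).eval x = x ^ j * f x ^ i := by
      intro x
      rw [Polynomial.eval_mul, Polynomial.eval_pow, Polynomial.eval_X, Polynomial.eval_pow,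
        hPeval]
    rw [Finset.sum_congr rfl (fun x _ => hev x), hS] at hsum
    have hlead : (X ^ j * P ^ i : (ZMod p)[X]).coeff (p - 1) ≠ 0 := by
      rw [← hg, Polynomial.coeff_natDegree, Polynomial.leadingCoeff_mul,
        Polynomial.leadingCoeff_X_pow, one_mul, Polynomial.leadingCoeff_pow]
      exact pow_ne_zero i (Polynomial.leadingCoeff_ne_zero.2 hP0)
    apply hlead
    exact neg_eq_zero.1 hsum.symm

/-- The affine permutation `x ↦ a x + b`. -/
def affPerm (a : (ZMod p)ˣ) (b : ZMod p) : Equiv.Perm (ZMod p) where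
  toFun x := (a : ZMod p) * x + b
  invFun y := ((a⁻¹ : (ZMod p)ˣ) : ZMod p) * (y - b)
  left_inv x := by
    change ((a⁻¹ : (ZMod p)ˣ) : ZMod p) * ((a : ZMod p) * x + b - b) = x
    rw [add_sub_cancel_right, ← mul_assoc, Units.inv_mul, one_mul]
  right_inv y := by
    change (a : ZMod p) * (((a⁻¹ : (ZMod p)ˣ) : ZMod p) * (y - b)) + b = y
    rw [← mul_assoc, Units.mul_inv, one_mul, sub_add_cancel]

theorem affPerm_mem (a : (ZMod p)ˣ) (b : ZMod p) : affPerm p a b ∈ Cfsg.affineGroup (ZMod p) :=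
  ⟨a, b, fun _ => rfl⟩

theorem part1 (G : Subgroup (Equiv.Perm (ZMod p))) (hG : G ≤ Cfsg.affineGroup (ZMod p))
    (htrans : ∀ b : ZMod p, ∃ g ∈ G, ∀ x, g x = x + b) (hne : G ≠ Cfsg.affineGroup (ZMod p))
    (σ : Equiv.Perm (ZMod p))
    (hσ : ∀ t : Fin 2 → ZMod p, ∃ g ∈ G, ∀ i, σ (t i) = g (t i)) : σ ∈ G := by
  classical
  have hp := (Fact.out : p.Prime)
  let A : Subgroup (ZMod p)ˣ :=
    { carrier := {a | ∃ g ∈ G, ∃ b : ZMod p, ∀ x, g x = (a : ZMod p) * x + b}
      one_mem' := ⟨1, G.one_mem, 0, fun x => by simp⟩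
      mul_mem' := by
        rintro a a' ⟨g, hg, b, hgb⟩ ⟨g', hg', b', hgb'⟩
        refine ⟨g * g', G.mul_mem hg hg', (a : ZMod p) * b' + b, fun x => ?_⟩
        rw [Equiv.Perm.mul_apply, hgb', hgb, Units.val_mul]
        ring
      inv_mem' := by
        rintro a ⟨g, hg, b, hgb⟩
        refine ⟨g⁻¹, G.inv_mem hg, -(((a⁻¹ : (ZMod p)ˣ) : ZMod p) * b), fun x => ?_⟩
        apply g.injective
        rw [Equiv.Perm.inv_def, Equiv.apply_symm_apply, hgb, mul_add, ← mul_assoc, Units.mul_inv,
          one_mul, mul_neg, ← mul_assoc, Units.mul_inv, one_mul]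
        ring }
  have hAmem : ∀ a : (ZMod p)ˣ, a ∈ A ↔ ∃ g ∈ G, ∃ b : ZMod p, ∀ x, g x = (a : ZMod p) * x + b :=
    fun a => Iff.rfl
  have hAne : A ≠ ⊤ := by
    intro hA
    apply hne
    apply le_antisymm hG
    rintro τ ⟨a, b, hτ⟩
    have ha : a ∈ A := by
      rw [hA]
      exact Subgroup.mem_top a
    obtain ⟨g, hg, b', hgb'⟩ := (hAmem a).1 ha
    obtain ⟨T, hT, hTx⟩ := htrans (b - b')
    have h1 : τ = T * g := by
      ext x
      rw [Equiv.Perm.mul_apply, hTx, hgb', hτ]
      ring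
    rw [h1]
    exact G.mul_mem hT hg
  have hAcard : 2 * Nat.card A ≤ p - 1 := by
    have h1 := Subgroup.card_mul_index A
    have h2 : Nat.card (ZMod p)ˣ = p - 1 := by
      rw [Nat.card_units, Nat.card_zmod]
    have h3 : A.index ≠ 1 := fun h => hAne (Subgroup.index_eq_one.1 h)
    have h4 : A.index ≠ 0 := Subgroup.index_ne_zero_of_finite
    rw [h2] at h1
    have h5 : 2 ≤ A.index := by omega
    calc 2 * Nat.card A ≤ A.index * Nat.card A := Nat.mul_le_mul_right _ h5
      _ = p - 1 := by rw [mul_comm]; exact h1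
  have hUcard : p + 1 ≤
      2 * (Finset.univ.filter (fun c : ZMod p => ∀ a ∈ A, (a : ZMod p) ≠ c)).card := by
    have h1 : (Finset.univ.filter (fun c : ZMod p => ¬ ∀ a ∈ A, (a : ZMod p) ≠ c)).card ≤
        Nat.card A := by
      rw [Nat.card_eq_fintype_card, ← Finset.card_univ (α := A)]
      apply Finset.card_le_card_of_surjOn (fun a : A => ((a : (ZMod p)ˣ) : ZMod p))
      intro c hc
      simp only [Finset.coe_filter, Finset.mem_univ, true_and, Set.mem_ofPred_eq] at hc
      push Not at hc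
      obtain ⟨a, ha, hac⟩ := hc
      exact ⟨⟨a, ha⟩, Finset.mem_coe.2 (Finset.mem_univ _), hac⟩
    have h2 := Finset.card_filter_add_card_filter_not (s := (Finset.univ : Finset (ZMod p)))
      (fun c : ZMod p => ∀ a ∈ A, (a : ZMod p) ≠ c)
    rw [Finset.card_univ, ZMod.card] at h2
    have := hp.two_le
    omega
  have hslope : ∀ x y : ZMod p, ∃ a ∈ A, σ x - σ y = (a : ZMod p) * (x - y) := by
    intro x y
    obtain ⟨g, hg, hgt⟩ := hσ ![x, y]
    obtain ⟨a, b, hab⟩ := hG hg
    refine ⟨a, (hAmem a).2 ⟨g, hg, b, hab⟩, ?_⟩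
    have h0 := hgt 0
    have h1 := hgt 1
    simp only [Matrix.cons_val_zero, Matrix.cons_val_one] at h0 h1
    rw [h0, h1, hab, hab]
    ring
  have hinj : ∀ c ∈ Finset.univ.filter (fun c : ZMod p => ∀ a ∈ A, (a : ZMod p) ≠ c),
      Function.Injective (fun x => σ x - c * x) := by
    intro c hc x y hxy
    by_contra hne'
    obtain ⟨a, ha, hs⟩ := hslope x y
    have hc' := (Finset.mem_filter.1 hc).2 a ha
    apply hc'
    have h1 : (a : ZMod p) * (x - y) = c * (x - y) := by
      rw [← hs]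
      have h2 : σ x - c * x = σ y - c * y := hxy
      linear_combination h2
    exact mul_right_cancel₀ (sub_ne_zero.2 hne') h1
  obtain ⟨a, b, hab⟩ := ls_affine p (⇑σ) _ hUcard hinj
  obtain ⟨g, hg, hgt⟩ := hσ ![0, 1]
  obtain ⟨a', b', hab'⟩ := hG hg
  have h0 := hgt 0
  have h1 := hgt 1
  simp only [Matrix.cons_val_zero, Matrix.cons_val_one] at h0 h1
  rw [hab, hab'] at h0 h1
  have hb : b = b' := by
    simpa using h0
  have ha : a = (a' : ZMod p) := by
    rw [hb] at h1
    simpa using h1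
  have h3 : σ = g := by
    ext x
    rw [hab, hab', ha, hb]
  rw [h3]
  exact hg

end LS

/-- Closures of subgroups of the one-dimensional affine group. Let p be a prime and G a group of permutations of F_p lying in the affine group AGL₁(p) = {x ↦ ax + b, a ≠ 0} and containing all translations. (1) If G is a proper subgroup of AGL₁(p), then G is 2-closed: a permutation of F_p agreeing on every ordered pair of points with some element of G lies in G. (2) Every permutation of F_p agrees on every ordered pair with some element of AGL₁(p) (the 2-closure of AGL₁(p) is the symmetric group). (3) AGL₁(p) is 3-closed: a permutation agreeing on every ordered triple with some affine map is affine. -/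
theorem result (p : ℕ) [Fact p.Prime] (G : Subgroup (Equiv.Perm (ZMod p))) (hG : G ≤ Cfsg.affineGroup (ZMod p))
    (htrans : ∀ b : ZMod p, ∃ g ∈ G, ∀ x, g x = x + b) :
    (G ≠ Cfsg.affineGroup (ZMod p) → ∀ σ : Equiv.Perm (ZMod p), (∀ t : Fin 2 → ZMod p, ∃ g ∈ G, ∀ i, σ (t i) = g (t i)) → σ ∈ G) ∧
    (∀ σ : Equiv.Perm (ZMod p), (∀ t : Fin 2 → ZMod p, ∃ g ∈ Cfsg.affineGroup (ZMod p), ∀ i, σ (t i) = g (t i))) ∧
    (∀ σ : Equiv.Perm (ZMod p), (∀ t : Fin 3 → ZMod p, ∃ g ∈ Cfsg.affineGroup (ZMod p), ∀ i, σ (t i) = g (t i)) → σ ∈ Cfsg.affineGroup (ZMod p)) := by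
  refine ⟨fun hne σ hσ => part1 p G hG htrans hne σ hσ, ?_, ?_⟩
  · intro σ t
    by_cases h : t 0 = t 1
    · refine ⟨affPerm p 1 (σ (t 0) - t 0), affPerm_mem p _ _, ?_⟩
      intro i
      have hi : t i = t 0 := by
        fin_cases i
        · rfl
        · exact h.symm
      rw [hi]
      change σ (t 0) = ((1 : (ZMod p)ˣ) : ZMod p) * t 0 + (σ (t 0) - t 0)
      simp
    · have hne : σ (t 1) - σ (t 0) ≠ 0 := sub_ne_zero.2 (fun h' => h (σ.injective h').symm)
      have hne2 : t 1 - t 0 ≠ 0 := sub_ne_zero.2 (fun h' => h h'.symm)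
      refine ⟨affPerm p (Units.mk0 ((σ (t 1) - σ (t 0)) / (t 1 - t 0)) (div_ne_zero hne hne2))
        (σ (t 0) - (σ (t 1) - σ (t 0)) / (t 1 - t 0) * t 0), affPerm_mem p _ _, ?_⟩
      intro i
      fin_cases i
      · change σ (t 0) = (σ (t 1) - σ (t 0)) / (t 1 - t 0) * t 0 +
          (σ (t 0) - (σ (t 1) - σ (t 0)) / (t 1 - t 0) * t 0)
        ring
      · change σ (t 1) = (σ (t 1) - σ (t 0)) / (t 1 - t 0) * t 1 +
          (σ (t 0) - (σ (t 1) - σ (t 0)) / (t 1 - t 0) * t 0)
        field_simp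
        ring
  · intro σ hσ
    have hne : σ 1 - σ 0 ≠ 0 := sub_ne_zero.2 (fun h' => one_ne_zero (σ.injective h'))
    refine ⟨Units.mk0 (σ 1 - σ 0) hne, σ 0, fun x => ?_⟩
    obtain ⟨g, ⟨a, b, hab⟩, hgt⟩ := hσ ![0, 1, x]
    have h0 := hgt 0
    have h1 := hgt 1
    have h2 := hgt 2
    simp only [Matrix.cons_val_zero, Matrix.cons_val_one, Matrix.cons_val_two,
      Matrix.tail_cons, Matrix.head_cons] at h0 h1 h2
    rw [hab] at h0 h1 h2
    rw [Units.val_mk0, h2, h1, h0]
    ring

end Cfsg.Agent.S3518
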