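import Mathlib
import Cfsg.Statements.S3548
import Cfsg.Agent.Lib.Helper8.SubgroupCount
import Cfsg.Agent.S3546

set_option autoImplicit false
open Cfsg

namespace Cfsg.Agent.S3548

open Cfsg.Agent.Lib.Helper8 MulAction

/-- Let G act faithfully and transitively on a finite set with n ≥ 2 points and let D be the subgroup generated by the derangements. Then the index of D in G divides n − 1, and if it equals n − 1 then n is a prime power. -/
theorem result {G Ω : Type*} [Group G] [Finite G] [MulAction G Ω] [FaithfulSMul G Ω] [Finite Ω]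
    (htrans : MulAction.IsPretransitive G Ω) (hΩ : 2 ≤ Nat.card Ω) :
    (Subgroup.closure {g : G | ∀ ω : Ω, g • ω ≠ ω}).index ∣ Nat.card Ω - 1 ∧
    ((Subgroup.closure {g : G | ∀ ω : Ω, g • ω ≠ ω}).index = Nat.card Ω - 1 → IsPrimePow (Nat.card Ω)) := by
  classical
  obtain ⟨hDtr, hDfix⟩ := Cfsg.Agent.S3546.result (G := G) (Ω := Ω) htrans
  obtain ⟨D, hDdef⟩ : ∃ D : Subgroup G, D = Subgroup.closure {g : G | ∀ ω : Ω, g • ω ≠ ω} :=
    ⟨_, rfl⟩
  rw [← hDdef] at hDtr hDfix ⊢
  have hDn : D.Normal := by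
    constructor
    intro n hn g
    have hle : D.map (MulAut.conj g).toMonoidHom ≤ D := by
      rw [hDdef, MonoidHom.map_closure]
      apply Subgroup.closure_mono
      rintro _ ⟨x, hx, rfl⟩
      intro ω hω
      apply hx (g⁻¹ • ω)
      have e : (MulAut.conj g).toMonoidHom x = g * x * g⁻¹ := rfl
      rw [e, mul_smul, mul_smul] at hω
      have h1 := congrArg (fun y => g⁻¹ • y) hω
      simpa using h1
    exact hle ⟨n, hn, rfl⟩
  haveI := hDn
  have hne : Nonempty Ω := by
    by_contra h
    rw [not_nonempty_iff] at h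
    have : Nat.card Ω = 0 := Nat.card_of_isEmpty
    omega
  obtain ⟨α⟩ := hne
  have hsup : stabilizer G α ⊔ D = ⊤ := by
    rw [eq_top_iff]
    intro g _
    obtain ⟨d, hd⟩ := MulAction.exists_smul_eq D α (g • α)
    have hd' : (d : G) • α = g • α := hd
    have hdg : (d : G)⁻¹ * g ∈ stabilizer G α := by
      rw [mem_stabilizer_iff, mul_smul, ← hd', inv_smul_smul]
    have e : g = (d : G) * ((d : G)⁻¹ * g) := by group
    rw [e]
    exact Subgroup.mul_mem _ (Subgroup.mem_sup_right d.2) (Subgroup.mem_sup_left hdg)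
  have hrel : D.relIndex (stabilizer G α) = D.index := by
    rw [← Subgroup.relIndex_sup_right (stabilizer G α) D, hsup, Subgroup.relIndex_top_right]
  have hstab : ∀ x : SubMulAction.ofStabilizer G α,
      stabilizer (stabilizer G α) x ≤ D.subgroupOf (stabilizer G α) := by
    intro x h hh
    rw [Subgroup.mem_subgroupOf]
    apply hDfix
    intro hcard
    rw [Nat.card_eq_one_iff_unique] at hcard
    obtain ⟨hsub, -⟩ := hcard
    have hα : (h : G) • α = α := h.2
    have hx : (h : G) • (x : Ω) = x := congrArg Subtype.val (mem_stabilizer_iff.1 hh)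
    have h1 : (⟨α, hα⟩ : fixedBy Ω (h : G)) = ⟨(x : Ω), hx⟩ := Subsingleton.elim _ _
    have h2 : α = (x : Ω) := congrArg Subtype.val h1
    exact (SubMulAction.mem_ofStabilizer_iff G α).1 x.2 h2.symm
  have hdvd : ∀ x : SubMulAction.ofStabilizer G α,
      D.index ∣ (stabilizer (stabilizer G α) x).index := by
    intro x
    rw [← hrel]
    exact Subgroup.index_dvd_of_le (hstab x)
  constructor
  · rw [← SubMulAction.nat_card_ofStabilizer_eq G α]
    exact h8_dvd_card_of_forall_dvd_index _ hdvd
  · intro hidx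
    have hXcard : Nat.card (SubMulAction.ofStabilizer G α) = D.index := by
      rw [SubMulAction.nat_card_ofStabilizer_eq, hidx]
    have hXpos : 0 < D.index := by rw [hidx]; omega
    have hstab_idx : ∀ x : SubMulAction.ofStabilizer G α,
        (stabilizer (stabilizer G α) x).index = D.index := by
      intro x
      have h1 : (stabilizer (stabilizer G α) x).index ≤ D.index := by
        rw [index_stabilizer, ← hXcard]
        exact Set.ncard_le_card _
      have h2 : 0 < (stabilizer (stabilizer G α) x).index :=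
        Nat.pos_of_ne_zero Subgroup.index_ne_zero_of_finite
      exact Nat.le_antisymm h1 (Nat.le_of_dvd h2 (hdvd x))
    have hstab_eq : ∀ x : SubMulAction.ofStabilizer G α,
        stabilizer (stabilizer G α) x = D.subgroupOf (stabilizer G α) := by
      intro x
      apply Subgroup.eq_of_le_of_card_ge (hstab x)
      have h1 := (stabilizer (stabilizer G α) x).card_mul_index
      have h2 := (D.subgroupOf (stabilizer G α)).card_mul_index
      have h3 : (D.subgroupOf (stabilizer G α)).index = D.index := hrel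
      rw [hstab_idx x] at h1
      rw [h3] at h2
      have h4 := Nat.eq_of_mul_eq_mul_right hXpos (h1.trans h2.symm)
      exact h4.symm.le
    have hDH : ∀ d ∈ D, d • α = α → d = 1 := by
      intro d hd hdα
      apply FaithfulSMul.eq_of_smul_eq_smul (α := Ω)
      intro β
      rw [one_smul]
      by_cases hβ : β = α
      · rw [hβ]; exact hdα
      · have hx : (⟨d, hdα⟩ : stabilizer G α) ∈ stabilizer (stabilizer G α)
            (⟨β, (SubMulAction.mem_ofStabilizer_iff G α).2 hβ⟩ : SubMulAction.ofStabilizer G α) := by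
          rw [hstab_eq, Subgroup.mem_subgroupOf]; exact hd
        exact congrArg Subtype.val (mem_stabilizer_iff.1 hx)
    have hHtr : ∀ x y : SubMulAction.ofStabilizer G α, ∃ h : stabilizer G α, h • x = y := by
      intro x y
      have h1 : (orbit (stabilizer G α) x).ncard = Nat.card (SubMulAction.ofStabilizer G α) := by
        rw [← index_stabilizer, hstab_idx, hXcard]
      have h2 : orbit (stabilizer G α) x = Set.univ := (Set.eq_univ_iff_ncard _).2 h1
      have h3 : y ∈ orbit (stabilizer G α) x := h2 ▸ Set.mem_univ y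
      exact h3
    have hconj : ∀ d₁ ∈ D, d₁ ≠ 1 → ∀ d₂ ∈ D, d₂ ≠ 1 → ∃ h : G, h * d₁ * h⁻¹ = d₂ := by
      intro d₁ hd₁ h1 d₂ hd₂ h2
      have hβ₁ : d₁ • α ≠ α := fun h => h1 (hDH d₁ hd₁ h)
      have hβ₂ : d₂ • α ≠ α := fun h => h2 (hDH d₂ hd₂ h)
      obtain ⟨h, hh⟩ := hHtr ⟨d₁ • α, (SubMulAction.mem_ofStabilizer_iff G α).2 hβ₁⟩
        ⟨d₂ • α, (SubMulAction.mem_ofStabilizer_iff G α).2 hβ₂⟩
      have hh' : (h : G) • d₁ • α = d₂ • α := congrArg Subtype.val hh
      refine ⟨(h : G), ?_⟩
      have hmem : d₂⁻¹ * ((h : G) * d₁ * (h : G)⁻¹) ∈ D :=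
        D.mul_mem (D.inv_mem hd₂) (hDn.conj_mem d₁ hd₁ h)
      have hfixα : (d₂⁻¹ * ((h : G) * d₁ * (h : G)⁻¹)) • α = α := by
        rw [mul_smul, mul_smul, mul_smul]
        have h3 : (h : G)⁻¹ • α = α := by
          have h4 : (h : G) • α = α := h.2
          rw [inv_smul_eq_iff, h4]
        rw [h3, hh', inv_smul_smul]
      have h5 := hDH _ hmem hfixα
      exact (inv_mul_eq_one.1 h5).symm
    have hcardD : Nat.card D = Nat.card Ω := by
      apply Nat.card_congr
      refine Equiv.ofBijective (fun d : D => (d : G) • α) ⟨?_, ?_⟩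
      · intro d₁ d₂ h
        have h' : (d₁ : G) • α = (d₂ : G) • α := h
        have hm : (d₂ : G)⁻¹ * (d₁ : G) ∈ D := D.mul_mem (D.inv_mem d₂.2) d₁.2
        have hf : ((d₂ : G)⁻¹ * (d₁ : G)) • α = α := by rw [mul_smul, h', inv_smul_smul]
        have h5 := hDH _ hm hf
        exact Subtype.ext (inv_mul_eq_one.1 h5).symm
      · intro β
        obtain ⟨d, hd⟩ := MulAction.exists_smul_eq D α β
        exact ⟨d, hd⟩
    have hD1 : Nat.card D ≠ 1 := by rw [hcardD]; omega
    obtain ⟨p, hp, hpd⟩ := Nat.exists_prime_and_dvd hD1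
    haveI : Fact p.Prime := ⟨hp⟩
    obtain ⟨d₀, hd₀⟩ := exists_prime_orderOf_dvd_card' (G := D) p hpd
    have hd₀1 : (d₀ : G) ≠ 1 := by
      intro h
      have h6 : d₀ = 1 := Subtype.ext h
      rw [h6, orderOf_one] at hd₀
      exact hp.one_lt.ne hd₀
    have hDp : IsPGroup p D := by
      intro d
      refine ⟨1, ?_⟩
      by_cases hd1 : (d : G) = 1
      · have h6 : d = 1 := Subtype.ext hd1
        rw [h6, one_pow]
      · obtain ⟨h, hh⟩ := hconj (d₀ : G) d₀.2 hd₀1 (d : G) d.2 hd1
        apply Subtype.ext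
        rw [Subgroup.coe_pow, Subgroup.coe_one, pow_one, ← hh, conj_pow]
        have h7 : (d₀ : G) ^ p = 1 := by
          rw [← hd₀, ← Subgroup.orderOf_coe, pow_orderOf_eq_one]
        rw [h7]; group
    obtain ⟨k, hk⟩ := (IsPGroup.iff_card).1 hDp
    rw [← hcardD, hk]
    have hk0 : k ≠ 0 := by
      rintro rfl
      rw [pow_zero] at hk
      exact hD1 hk
    exact ⟨p, k, hp.prime, Nat.pos_of_ne_zero hk0, rfl⟩

end Cfsg.Agent.S3548
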