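import Mathlib
import Cfsg.Statements.S3549
import Cfsg.Agent.Lib.Helper5.Derang2

set_option autoImplicit false
open Cfsg

namespace Cfsg.Agent.S3549

open Cfsg.Agent.Lib.Helper5 MulAction

/-- Let G act faithfully, transitively but imprimitively on a finite set with n points, and let D be the subgroup generated by the derangements. Then the index of D in G is at most √n − 1. -/
theorem result {G Ω : Type*} [Group G] [Finite G] [MulAction G Ω] [FaithfulSMul G Ω] [Finite Ω]
    (htrans : MulAction.IsPretransitive G Ω) (himp : ¬ MulAction.IsPreprimitive G Ω) :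
    ((Subgroup.closure {g : G | ∀ ω : Ω, g • ω ≠ ω}).index : ℝ) ≤ Real.sqrt (Nat.card Ω) - 1 := by
  classical
  obtain ⟨D, hDdef⟩ : ∃ D : Subgroup G, D = Subgroup.closure {g : G | ∀ ω : Ω, g • ω ≠ ω} :=
    ⟨_, rfl⟩
  rw [← hDdef]
  have hDsub : ∀ g : G, (∀ ω : Ω, g • ω ≠ ω) → g ∈ D :=
    fun g hg => hDdef ▸ Subgroup.subset_closure hg
  have hDn : D.Normal := by
    rw [hDdef]
    exact closure_normal_of_conj_invariant _ (fun g x hx => derangements_conj_invariant g x hx)
  haveI := hDn
  have hnt : Nontrivial Ω := by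
    by_contra h
    rw [not_nontrivial_iff_subsingleton] at h
    exact himp (MulAction.IsPreprimitive.of_subsingleton)
  obtain ⟨α⟩ : Nonempty Ω := inferInstance
  have hnc : ¬ IsCoatom (stabilizer G α) :=
    fun h => himp ((MulAction.isCoatom_stabilizer_iff_preprimitive G α).1 h)
  have hHtop : stabilizer G α ≠ ⊤ := by
    intro h
    obtain ⟨β, hβ⟩ := exists_ne α
    obtain ⟨g, hg⟩ := MulAction.exists_smul_eq G α β
    have h1 : g ∈ stabilizer G α := h ▸ Subgroup.mem_top g
    rw [mem_stabilizer_iff] at h1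
    exact hβ (hg ▸ h1)
  obtain ⟨K, hK1, hK2⟩ : ∃ K : Subgroup G, stabilizer G α < K ∧ K ≠ ⊤ := by
    by_contra hcon
    apply hnc
    refine ⟨hHtop, fun K hK => ?_⟩
    by_contra hKt
    exact hcon ⟨K, hK, hKt⟩
  have hfixΩ : ∀ g : G, g ∉ D → ∃ ω : Ω, g • ω = ω := by
    intro g hg
    by_contra hcon
    exact hg (hDsub g (fun ω h => hcon ⟨ω, h⟩))
  -- the action on cosets of K
  have hcoset : ∀ (g x : G), g • (x • α) = x • α → g • ((x : G) : G ⧸ K) = ((x : G) : G ⧸ K) := by
    intro g x hω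
    show ((g * x : G) : G ⧸ K) = (x : G ⧸ K)
    rw [QuotientGroup.eq]
    apply hK1.le
    rw [mem_stabilizer_iff, mul_smul, inv_smul_eq_iff, mul_smul, hω]
  have hDS : ∀ g : G, (∀ q : G ⧸ K, g • q ≠ q) → g ∈ D := by
    intro g hg
    by_contra hgD
    obtain ⟨ω, hω⟩ := hfixΩ g hgD
    obtain ⟨x, rfl⟩ := MulAction.exists_smul_eq G α ω
    exact hg (x : G ⧸ K) (hcoset g x hω)
  have htrS : IsPretransitive G (G ⧸ K) := inferInstance
  obtain ⟨hDtrS, honeS⟩ := derang_main htrS D hDS
  have hDtrS' : IsPretransitive D (G ⧸ K) :=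
    (pretransitive_iff_subsingleton_quotient _ _).2 (Finite.card_le_one_iff_subsingleton.1 hDtrS)
  have h1 : D.index ∣ Nat.card (G ⧸ K) - 1 :=
    index_dvd_card_sub_one D hDtrS' (fun g hg => by
      by_contra h
      exact hg (honeS g h)) ((1 : G) : G ⧸ K)
  rw [← Subgroup.index_eq_card] at h1
  -- K acting on the orbit of α
  have hDY : ∀ k : K, (∀ y : orbit K α, k • y ≠ y) → k ∈ D.subgroupOf K := by
    intro k hk
    rw [Subgroup.mem_subgroupOf]
    by_contra hkD
    obtain ⟨ω, hω⟩ := hfixΩ (k : G) hkD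
    obtain ⟨x, rfl⟩ := MulAction.exists_smul_eq G α ω
    have hq1 : (k : G) • ((x : G) : G ⧸ K) = (x : G ⧸ K) := hcoset (k : G) x hω
    have hq2 : (k : G) • ((1 : G) : G ⧸ K) = ((1 : G) : G ⧸ K) := by
      show (((k : G) * 1 : G) : G ⧸ K) = ((1 : G) : G ⧸ K)
      rw [QuotientGroup.eq]
      simp
    have hone := honeS (k : G) hkD
    rw [Nat.card_eq_one_iff_unique] at hone
    obtain ⟨hsub, -⟩ := hone
    have heq : (⟨(x : G ⧸ K), hq1⟩ : fixedBy (G ⧸ K) (k : G)) = ⟨((1 : G) : G ⧸ K), hq2⟩ :=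
      Subsingleton.elim _ _
    have heq' : ((x : G) : G ⧸ K) = ((1 : G) : G ⧸ K) := congrArg Subtype.val heq
    rw [QuotientGroup.eq] at heq'
    have hxK : x ∈ K := by simpa using K.inv_mem heq'
    apply hk ⟨x • α, ⟨⟨x, hxK⟩, rfl⟩⟩
    apply Subtype.ext
    exact hω
  have htrY : IsPretransitive K (orbit K α) := inferInstance
  haveI : (D.subgroupOf K).Normal := hDn.subgroupOf K
  obtain ⟨hDtrY, honeY⟩ := derang_main htrY (D.subgroupOf K) hDY
  have hDtrY' : IsPretransitive (D.subgroupOf K) (orbit K α) :=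
    (pretransitive_iff_subsingleton_quotient _ _).2 (Finite.card_le_one_iff_subsingleton.1 hDtrY)
  have h2 : (D.subgroupOf K).index ∣ Nat.card (orbit K α) - 1 :=
    index_dvd_card_sub_one (D.subgroupOf K) hDtrY' (fun k hk => by
      by_contra h
      exact hk (honeY k h)) ⟨α, mem_orbit_self α⟩
  have hsupD : K ⊔ D = ⊤ := by
    rw [eq_top_iff]
    intro g _
    obtain ⟨-, hDtrΩ⟩ := (⟨trivial, (derang_main htrans D hDsub).1⟩ : True ∧ _)
    have hDtrΩ' : IsPretransitive D Ω :=
      (pretransitive_iff_subsingleton_quotient _ _).2 (Finite.card_le_one_iff_subsingleton.1 hDtrΩ)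
    obtain ⟨d, hd⟩ := MulAction.exists_smul_eq D α (g • α)
    have hd' : (d : G) • α = g • α := hd
    have hdg : (d : G)⁻¹ * g ∈ stabilizer G α := by
      rw [mem_stabilizer_iff, mul_smul, ← hd', inv_smul_smul]
    have e : g = (d : G) * ((d : G)⁻¹ * g) := by group
    rw [e]
    exact Subgroup.mul_mem _ (Subgroup.mem_sup_right d.2) (Subgroup.mem_sup_left (hK1.le hdg))
  have hrelD : (D.subgroupOf K).index = D.index := by
    show D.relIndex K = D.index
    rw [← Subgroup.relIndex_sup_right K D, hsupD, Subgroup.relIndex_top_right]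
  have hcardY : Nat.card (orbit K α) = (stabilizer G α).relIndex K := by
    rw [Nat.card_coe_set_eq, ← index_stabilizer]
    have h3 : stabilizer K α = (stabilizer G α).subgroupOf K := by
      ext k
      rw [Subgroup.mem_subgroupOf, mem_stabilizer_iff, mem_stabilizer_iff]
      rfl
    rw [h3]
    rfl
  rw [hrelD, hcardY] at h2
  have hn : Nat.card Ω = (stabilizer G α).relIndex K * K.index := by
    rw [Subgroup.relIndex_mul_index hK1.le, index_stabilizer_of_transitive]
  have hb : 2 ≤ (stabilizer G α).relIndex K := by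
    have h0 : (stabilizer G α).relIndex K ≠ 0 := Subgroup.index_ne_zero_of_finite
    have h1' : (stabilizer G α).relIndex K ≠ 1 := by
      intro h
      rw [Subgroup.relIndex_eq_one] at h
      exact (not_le_of_gt hK1) h
    omega
  have hc : 2 ≤ K.index := by
    have h0 : K.index ≠ 0 := Subgroup.index_ne_zero_of_finite
    have h1' : K.index ≠ 1 := fun h => hK2 (Subgroup.index_eq_one.1 h)
    omega
  have hmb : D.index ≤ (stabilizer G α).relIndex K - 1 := Nat.le_of_dvd (by omega) h2
  have hmc : D.index ≤ K.index - 1 := Nat.le_of_dvd (by omega) h1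
  have hsq : (D.index + 1) * (D.index + 1) ≤ Nat.card Ω := by
    rw [hn]
    exact Nat.mul_le_mul (by omega) (by omega)
  have hreal : ((D.index : ℝ) + 1) ≤ Real.sqrt (Nat.card Ω) := by
    apply Real.le_sqrt_of_sq_le
    have h' : (((D.index + 1) * (D.index + 1) : ℕ) : ℝ) ≤ (Nat.card Ω : ℝ) := by
      exact_mod_cast hsq
    push_cast at h'
    rw [sq]
    exact h'
  linarith

end Cfsg.Agent.S3549
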