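import Mathlib
import Cfsg.Statements.S3560

set_option autoImplicit false
set_option linter.unusedSectionVars false
open Cfsg
open scoped Pointwise

namespace Cfsg.Agent.S3560

theorem exists_third (m : ℕ) (hm : 3 ≤ m) (a b : Fin m) : ∃ z : Fin m, z ≠ a ∧ z ≠ b := by
  by_contra h
  push Not at h
  have h1 : (Finset.univ : Finset (Fin m)) ⊆ {a, b} := by
    intro z _
    by_cases hz : z = a
    · simp [hz]
    · simp [h z hz]
  have h2 := Finset.card_le_card h1
  have h3 : ({a, b} : Finset (Fin m)).card ≤ 2 := Finset.card_le_two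
  simp only [Finset.card_univ, Fintype.card_fin] at h2
  omega

section Iso

variable {Ω ι : Type*} [Fintype ι] {m : ℕ}

/-- Hamming isometry group, in coordinates `c`. -/
def isoG (c : Ω ≃ (ι → Fin m)) : Subgroup (Equiv.Perm Ω) where
  carrier := {σ | ∀ x y, hammingDist (c (σ x)) (c (σ y)) = hammingDist (c x) (c y)}
  mul_mem' := by
    intro a b ha hb x y
    rw [Equiv.Perm.mul_apply, Equiv.Perm.mul_apply, ha, hb]
  one_mem' := by
    intro x y
    rfl
  inv_mem' := by
    intro a ha x y
    have h := ha (a⁻¹ x) (a⁻¹ y)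
    simp at h
    exact h.symm

theorem mem_isoG (c : Ω ≃ (ι → Fin m)) (σ : Equiv.Perm Ω) :
    σ ∈ isoG c ↔ ∀ x y, hammingDist (c (σ x)) (c (σ y)) = hammingDist (c x) (c y) := Iff.rfl

/-- The permutation of `Ω` induced by a permutation of the coordinate space. -/
def lift (c : Ω ≃ (ι → Fin m)) (τ : Equiv.Perm (ι → Fin m)) : Equiv.Perm Ω :=
  c.symm.permCongr τ

theorem lift_apply (c : Ω ≃ (ι → Fin m)) (τ : Equiv.Perm (ι → Fin m)) (x : Ω) :
    lift c τ x = c.symm (τ (c x)) := rfl

/-- Hamming isometries of the coordinate space. -/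
def IsIso (τ : Equiv.Perm (ι → Fin m)) : Prop :=
  ∀ x y, hammingDist (τ x) (τ y) = hammingDist x y

theorem lift_mem (c : Ω ≃ (ι → Fin m)) (τ : Equiv.Perm (ι → Fin m)) (hτ : IsIso τ) :
    lift c τ ∈ isoG c := by
  rw [mem_isoG]
  intro x y
  rw [lift_apply, lift_apply, Equiv.apply_symm_apply, Equiv.apply_symm_apply]
  exact hτ _ _

theorem IsIso.mul {τ τ' : Equiv.Perm (ι → Fin m)} (h : IsIso τ) (h' : IsIso τ') :
    IsIso (τ * τ') := by
  intro x y
  rw [Equiv.Perm.mul_apply, Equiv.Perm.mul_apply, h, h']

/-- Coordinatewise permutation. -/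
def cw (σ : ι → Equiv.Perm (Fin m)) : Equiv.Perm (ι → Fin m) := Equiv.piCongrRight σ

theorem cw_apply (σ : ι → Equiv.Perm (Fin m)) (v : ι → Fin m) (l : ι) :
    cw σ v l = σ l (v l) := rfl

theorem cw_iso (σ : ι → Equiv.Perm (Fin m)) : IsIso (cw σ) := by
  intro x y
  exact hammingDist_comp (fun l => ⇑(σ l)) (fun l => (σ l).injective)

/-- Coordinate permutation. -/
def cp (π : Equiv.Perm ι) : Equiv.Perm (ι → Fin m) := Equiv.arrowCongr π (Equiv.refl (Fin m))

theorem cp_apply (π : Equiv.Perm ι) (v : ι → Fin m) (l : ι) : cp π v l = v (π.symm l) := rfl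

theorem cp_iso (π : Equiv.Perm ι) : IsIso (cp (m := m) π) := by
  intro x y
  unfold hammingDist
  apply Finset.card_equiv π.symm
  intro l
  rw [Finset.mem_filter, Finset.mem_filter]
  simp [cp_apply]

theorem cw_single [DecidableEq ι] (i : ι) (σ : Equiv.Perm (Fin m)) (v : ι → Fin m) :
    cw (fun l => if l = i then σ else 1) v = Function.update v i (σ (v i)) := by
  funext l
  rw [cw_apply]
  by_cases hl : l = i
  · subst hl
    simp
  · simp [hl]

/-- Swap coordinates `i`, `j` and apply `σ` on both. -/
def tw [DecidableEq ι] (i j : ι) (σ : Equiv.Perm (Fin m)) : Equiv.Perm (ι → Fin m) :=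
  cw (fun l => if l = j then σ else 1) * (cw (fun l => if l = i then σ else 1) * cp (Equiv.swap i j))

theorem tw_iso [DecidableEq ι] (i j : ι) (σ : Equiv.Perm (Fin m)) : IsIso (tw i j σ) :=
  (cw_iso _).mul ((cw_iso _).mul (cp_iso _))

theorem tw_apply [DecidableEq ι] (i j : ι) (hji : j ≠ i) (σ : Equiv.Perm (Fin m))
    (v : ι → Fin m) (l : ι) :
    tw i j σ v l = if l = j then σ (v i) else if l = i then σ (v j) else v l := by
  unfold tw
  rw [Equiv.Perm.mul_apply, Equiv.Perm.mul_apply, cw_apply, cw_apply, cp_apply, Equiv.symm_swap]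
  by_cases hlj : l = j
  · simp [hlj, hji]
  · by_cases hli : l = i
    · simp [hli, hji.symm]
    · simp [hlj, hli, Equiv.swap_apply_of_ne_of_ne hli hlj]

theorem block_step (c : Ω ≃ (ι → Fin m)) {B : Set Ω} (hB : MulAction.IsBlock (isoG c) B)
    (τ : Equiv.Perm (ι → Fin m)) (hτ : IsIso τ) {x y : Ω} (hx : x ∈ B) (hfix : τ (c x) = c x)
    (hy : y ∈ B) : c.symm (τ (c y)) ∈ B := by
  have hgx : (⟨lift c τ, lift_mem c τ hτ⟩ : isoG c) • x = x := by
    change lift c τ x = x
    rw [lift_apply, hfix, Equiv.symm_apply_apply]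
  have hgB : (⟨lift c τ, lift_mem c τ hτ⟩ : isoG c) • B = B :=
    hB.smul_eq_of_mem hx (by rw [hgx]; exact hx)
  have h1 : (⟨lift c τ, lift_mem c τ hτ⟩ : isoG c) • y ∈
      (⟨lift c τ, lift_mem c τ hτ⟩ : isoG c) • B := Set.smul_mem_smul_set hy
  rw [hgB] at h1
  exact h1

theorem step1 [DecidableEq ι] (hm : 3 ≤ m) (c : Ω ≃ (ι → Fin m)) {B : Set Ω}
    (hB : MulAction.IsBlock (isoG c) B) {x y : Ω} (hx : x ∈ B) (hy : y ∈ B) (i : ι)
    (hi : c x i ≠ c y i) (w : Fin m) :
    c.symm (Function.update (c y) i w) ∈ B := by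
  obtain ⟨z, hzx, hzy⟩ := exists_third m hm (c x i) (c y i)
  have h1 : c.symm (Function.update (c y) i z) ∈ B := by
    have h2 := block_step c hB (cw (fun l => if l = i then Equiv.swap (c y i) z else 1))
      (cw_iso _) hx ?_ hy
    · rw [cw_single, Equiv.swap_apply_left] at h2
      exact h2
    · rw [cw_single, Equiv.swap_apply_of_ne_of_ne hi hzx.symm, Function.update_eq_self]
  by_cases hw : w = c y i
  · rw [hw, Function.update_eq_self, Equiv.symm_apply_apply]
    exact hy
  · have h2 := block_step c hB (cw (fun l => if l = i then Equiv.swap z w else 1))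
      (cw_iso _) hy ?_ h1
    · rw [Equiv.apply_symm_apply, cw_single, Function.update_self, Equiv.swap_apply_left,
        Function.update_idem] at h2
      exact h2
    · rw [cw_single, Equiv.swap_apply_of_ne_of_ne (Ne.symm hzy) (Ne.symm hw),
        Function.update_eq_self]

theorem step2 [DecidableEq ι] (hm : 3 ≤ m) (c : Ω ≃ (ι → Fin m)) {B : Set Ω}
    (hB : MulAction.IsBlock (isoG c) B) {x y : Ω} (hx : x ∈ B) (hy : y ∈ B) (hxy : x ≠ y)
    (j : ι) (w : Fin m) :
    c.symm (Function.update (c y) j w) ∈ B := by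
  have hne : c x ≠ c y := fun h => hxy (c.injective h)
  obtain ⟨i, hi⟩ := Function.ne_iff.1 hne
  by_cases hji : j = i
  · subst hji
    exact step1 hm c hB hx hy j hi w
  · have hij : i ≠ j := fun h => hji h.symm
    have hp : c.symm (Function.update (c y) i (c x i)) ∈ B := step1 hm c hB hx hy i hi (c x i)
    have hfix : tw i j (Equiv.swap (c y i) (c y j)) (c y) = c y := by
      funext l
      rw [tw_apply i j hji]
      by_cases hlj : l = j
      · simp [hlj]
      · by_cases hli : l = i
        · simp [hli, hij]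
        · simp [hlj, hli]
    have hmove : tw i j (Equiv.swap (c y i) (c y j)) (Function.update (c y) i (c x i)) =
        Function.update (c y) j (Equiv.swap (c y i) (c y j) (c x i)) := by
      funext l
      rw [tw_apply i j hji]
      by_cases hlj : l = j
      · simp [hlj]
      · by_cases hli : l = i
        · simp [hli, hij, hji]
        · simp [hlj, hli]
    have hq := block_step c hB (tw i j (Equiv.swap (c y i) (c y j))) (tw_iso _ _ _) hy hfix hp
    rw [Equiv.apply_symm_apply, hmove] at hq
    refine step1 hm c hB hq hy j ?_ w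
    rw [Equiv.apply_symm_apply, Function.update_self]
    intro h
    apply hi
    have h2 := congrArg (Equiv.swap (c y i) (c y j)) h
    rw [Equiv.swap_apply_self, Equiv.swap_apply_right] at h2
    exact h2

theorem block_univ [DecidableEq ι] (hm : 3 ≤ m) (c : Ω ≃ (ι → Fin m)) {B : Set Ω}
    (hB : MulAction.IsBlock (isoG c) B) (hns : ¬ B.Subsingleton) : B = Set.univ := by
  rw [Set.not_subsingleton_iff] at hns
  obtain ⟨x₁, hx₁, x₂, hx₂, hx₁₂⟩ := hns
  have hupd : ∀ y ∈ B, ∀ (j : ι) (w : Fin m), c.symm (Function.update (c y) j w) ∈ B := by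
    intro y hy j w
    by_cases h : x₁ = y
    · exact step2 hm c hB hx₂ hy (fun h' => hx₁₂ (h.trans h'.symm)) j w
    · exact step2 hm c hB hx₁ hy h j w
  rw [Set.eq_univ_iff_forall]
  intro ω
  have key : ∀ s : Finset ι, c.symm (fun l => if l ∈ s then c ω l else c x₁ l) ∈ B := by
    intro s
    induction s using Finset.induction_on with
    | empty =>
      have h0 : (fun l => if l ∈ (∅ : Finset ι) then c ω l else c x₁ l) = c x₁ := by
        funext l
        simp
      rw [h0, Equiv.symm_apply_apply]
      exact hx₁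
    | insert a s ha ih =>
      have h1 := hupd _ ih a (c ω a)
      rw [Equiv.apply_symm_apply] at h1
      have h2 : Function.update (fun l => if l ∈ s then c ω l else c x₁ l) a (c ω a) =
          fun l => if l ∈ insert a s then c ω l else c x₁ l := by
        funext l
        by_cases hl : l = a
        · subst hl
          simp
        · simp [hl]
      rw [h2] at h1
      exact h1
  have h3 := key Finset.univ
  have h4 : (fun l => if l ∈ (Finset.univ : Finset ι) then c ω l else c x₁ l) = c ω := by
    funext l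
    simp
  rw [h4, Equiv.symm_apply_apply] at h3
  exact h3

theorem isoG_trans (c : Ω ≃ (ι → Fin m)) : MulAction.IsPretransitive (isoG c) Ω := by
  constructor
  intro x y
  refine ⟨⟨lift c (cw (fun l => Equiv.swap (c x l) (c y l))), lift_mem c _ (cw_iso _)⟩, ?_⟩
  change lift c _ x = y
  rw [lift_apply]
  have h : cw (fun l => Equiv.swap (c x l) (c y l)) (c x) = c y := by
    funext l
    rw [cw_apply, Equiv.swap_apply_left]
  rw [h, Equiv.symm_apply_apply]

theorem isoG_prim (hm : 3 ≤ m) (c : Ω ≃ (ι → Fin m)) : MulAction.IsPreprimitive (isoG c) Ω := by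
  classical
  exact
    { toIsPretransitive := isoG_trans c
      isTrivialBlock_of_isBlock := fun {B} hB => by
        by_cases hs : B.Subsingleton
        · exact Or.inl hs
        · exact Or.inr (block_univ hm c hB hs) }

theorem isoG_not_two (hm : 2 ≤ m) (hι : 2 ≤ Fintype.card ι) (c : Ω ≃ (ι → Fin m)) :
    ¬ MulAction.IsMultiplyPretransitive (isoG c) Ω 2 := by
  classical
  intro h2
  rw [MulAction.is_two_pretransitive_iff] at h2
  obtain ⟨i₀, i₁, hi⟩ := Fintype.exists_pair_of_one_lt_card (lt_of_lt_of_le one_lt_two hι)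
  obtain ⟨z, o, hzo⟩ : ∃ z o : Fin m, z ≠ o := by
    refine ⟨⟨0, by omega⟩, ⟨1, by omega⟩, ?_⟩
    intro h
    have := congrArg Fin.val h
    simp at this
  have hab : c.symm (fun _ => z) ≠ c.symm (Function.update (fun _ => z) i₀ o) := by
    intro h
    have h' := c.symm.injective h
    have h3 := congrFun h' i₀
    rw [Function.update_self] at h3
    exact hzo h3
  have had : c.symm (fun _ => z) ≠
      c.symm (Function.update (Function.update (fun _ => z) i₀ o) i₁ o) := by
    intro h
    have h' := c.symm.injective h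
    have h3 := congrFun h' i₁
    rw [Function.update_self] at h3
    exact hzo h3
  obtain ⟨g, hga, hgb⟩ := h2 hab had
  have hg := (mem_isoG c _).1 g.2 (c.symm (fun _ => z)) (c.symm (Function.update (fun _ => z) i₀ o))
  have hga' : (g : Equiv.Perm Ω) (c.symm (fun _ => z)) = c.symm (fun _ => z) := hga
  have hgb' : (g : Equiv.Perm Ω) (c.symm (Function.update (fun _ => z) i₀ o)) =
      c.symm (Function.update (Function.update (fun _ => z) i₀ o) i₁ o) := hgb
  rw [hga', hgb'] at hg
  simp only [Equiv.apply_symm_apply] at hg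
  have h1 : hammingDist (fun _ : ι => z) (Function.update (fun _ => z) i₀ o) ≤ 1 := by
    unfold hammingDist
    apply Finset.card_le_one.2
    intro l hl l' hl'
    simp only [Finset.mem_filter, Finset.mem_univ, true_and] at hl hl'
    have e1 : l = i₀ := by
      by_contra hne
      exact hl (by rw [Function.update_of_ne hne])
    have e2 : l' = i₀ := by
      by_contra hne
      exact hl' (by rw [Function.update_of_ne hne])
    rw [e1, e2]
  have h2' : 2 ≤ hammingDist (fun _ : ι => z)
      (Function.update (Function.update (fun _ => z) i₀ o) i₁ o) := by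
    unfold hammingDist
    apply Finset.one_lt_card.2
    refine ⟨i₀, ?_, i₁, ?_, hi⟩
    · simp only [Finset.mem_filter, Finset.mem_univ, true_and]
      rw [Function.update_of_ne hi, Function.update_self]
      exact hzo
    · simp only [Finset.mem_filter, Finset.mem_univ, true_and]
      rw [Function.update_self]
      exact hzo
  omega

end Iso

/-- Let K be a finite group isomorphic to a direct product of r ≥ 2 groups all of the same order m ≥ 3. Then K is not a B-group: there is a primitive but not doubly transitive permutation group (on some finite set) containing a regular subgroup isomorphic to K. -/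
theorem result {K : Type*} [Group K] [Finite K] {ι : Type*} [Fintype ι] (F : ι → Type*) [∀ i, Group (F i)]
    (hr : 2 ≤ Fintype.card ι) (m : ℕ) (hm : 3 ≤ m) (hcard : ∀ i, Nat.card (F i) = m) (e : K ≃* (∀ i, F i)) :
    ∃ (n : ℕ) (G R : Subgroup (Equiv.Perm (Fin n))), R ≤ G ∧ Nonempty (↥R ≃* K) ∧
      MulAction.IsPretransitive ↥R (Fin n) ∧ (∀ a : Fin n, MulAction.stabilizer ↥R a = ⊥) ∧
      MulAction.IsPreprimitive ↥G (Fin n) ∧ ¬ MulAction.IsMultiplyPretransitive ↥G (Fin n) 2 := by
  classical
  have hfin : ∀ i, Finite (F i) := fun i =>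
    Nat.finite_of_card_ne_zero (by rw [hcard i]; omega)
  let b : ∀ i, F i ≃ Fin m := fun i => Finite.equivFinOfCardEq (hcard i)
  let c : Fin (Fintype.card (ι → Fin m)) ≃ (ι → Fin m) := (Fintype.equivFin (ι → Fin m)).symm
  let E : K ≃ Fin (Fintype.card (ι → Fin m)) :=
    (e.toEquiv.trans (Equiv.piCongrRight b)).trans c.symm
  let ρ : K →* Equiv.Perm (Fin (Fintype.card (ι → Fin m))) :=
    (E.permCongrHom).toMonoidHom.comp (MulAction.toPermHom K K)
  have hρ : ∀ k x, ρ k x = E (k * E.symm x) := fun k x => rfl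
  have hρinj : Function.Injective ρ := by
    intro k k' h
    have h1 := congrArg (fun σ => σ (E 1)) h
    simp only [hρ, Equiv.symm_apply_apply, mul_one] at h1
    exact E.injective h1
  refine ⟨Fintype.card (ι → Fin m), isoG c, ρ.range, ?_, ⟨(MonoidHom.ofInjective hρinj).symm⟩,
    ?_, ?_, isoG_prim hm c, isoG_not_two (by omega) hr c⟩
  · rintro _ ⟨k, rfl⟩
    rw [mem_isoG]
    intro x y
    have key : ∀ x, c (ρ k x) = fun i => b i ((e k) i * (b i).symm (c x i)) := by
      intro x
      rw [hρ]
      have h1 : E.symm x = e.symm (fun i => (b i).symm (c x i)) := rfl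
      have h2 : ∀ y : K, c (E y) = fun i => b i (e y i) := by
        intro y
        change c (c.symm _) = _
        rw [Equiv.apply_symm_apply]
        rfl
      rw [h2, h1, map_mul, MulEquiv.apply_symm_apply]
      rfl
    rw [key, key]
    exact hammingDist_comp (fun i t => b i ((e k) i * (b i).symm t)) (fun i => by
      intro t t' h
      have h1 := (b i).injective h
      exact (b i).symm.injective (mul_left_cancel h1))
  · constructor
    intro x y
    refine ⟨⟨ρ (E.symm y * (E.symm x)⁻¹), ⟨_, rfl⟩⟩, ?_⟩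
    change ρ (E.symm y * (E.symm x)⁻¹) x = y
    rw [hρ, inv_mul_cancel_right, Equiv.apply_symm_apply]
  · intro a
    rw [eq_bot_iff]
    rintro ⟨_, ⟨k, rfl⟩⟩ hk
    rw [Subgroup.mem_bot]
    have h1 : ρ k a = a := hk
    rw [hρ] at h1
    have h2 : k * E.symm a = E.symm a := by
      apply E.injective
      rw [h1, Equiv.apply_symm_apply]
    have h3 : k = 1 := mul_right_cancel (h2.trans (one_mul _).symm)
    subst h3
    apply Subtype.ext
    simp

end Cfsg.Agent.S3560
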