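import Cfsg.Statements.S3619
-- import your own Cfsg.Agent.* helpers here

set_option autoImplicit false
open Cfsg

namespace Cfsg.Agent.S3619

open Pointwise

/-- Let G act faithfully on a finite set in such a way that every non-trivial normal subgroup of G is transitive (G is quasiprimitive). Let Γ be a subset with more than one point and not the whole set, such that the pointwise stabilizer of the complement of Γ acts transitively on Γ (a Jordan set). If that pointwise stabilizer acts primitively on Γ, then G is k-fold transitive where k is one more than the number of points outside Γ (the Jordan set is a trivial one). -/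
theorem result {G Ω : Type*} [Group G] [Finite G] [MulAction G Ω] [FaithfulSMul G Ω] [Finite Ω]
    (hqp : ∀ N : Subgroup G, N.Normal → N ≠ ⊥ → MulAction.IsPretransitive ↥N Ω)
    (Γ : Set Ω) (hΓ1 : 1 < Γ.ncard) (hΓ2 : Γ.ncard < Nat.card Ω)
    (hJ : MulAction.IsPretransitive ↥(fixingSubgroup G Γᶜ) ↥(SubMulAction.ofFixingSubgroup G Γᶜ))
    (hJp : MulAction.IsPreprimitive ↥(fixingSubgroup G Γᶜ) ↥(SubMulAction.ofFixingSubgroup G Γᶜ)) :
    MulAction.IsMultiplyPretransitive G Ω (Nat.card Ω - Γ.ncard + 1) := by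
  classical
  have hΓne : Γ.Nonempty := by
    rw [← Set.ncard_pos]; omega
  obtain ⟨γ, hγ⟩ := hΓne
  obtain ⟨γ1, γ2, hγ1, hγ2, hne12⟩ := (Set.one_lt_ncard_iff (Set.toFinite Γ)).mp hΓ1
  have hmemΓ : ∀ a, a ∈ Γ → a ∈ SubMulAction.ofFixingSubgroup G Γᶜ := by
    intro a ha
    rw [SubMulAction.mem_ofFixingSubgroup_iff]; simpa using ha
  have hJt : ∀ a ∈ Γ, ∀ b ∈ Γ, ∃ j ∈ fixingSubgroup G Γᶜ, j • a = b := by
    intro a ha b hb
    obtain ⟨j, hj⟩ := hJ.exists_smul_eq ⟨a, hmemΓ a ha⟩ ⟨b, hmemΓ b hb⟩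
    exact ⟨j.1, j.2, congrArg Subtype.val hj⟩
  have hJfix : ∀ j ∈ fixingSubgroup G Γᶜ, ∀ x, x ∉ Γ → j • x = x := by
    intro j hj x hx
    exact (mem_fixingSubgroup_iff G).mp hj x (by simpa using hx)
  have hJΓ : ∀ j ∈ fixingSubgroup G Γᶜ, ∀ x ∈ Γ, j • x ∈ Γ := by
    intro j hj x hx
    by_contra h
    have h2 := hJfix j⁻¹ (inv_mem hj) _ h
    rw [inv_smul_smul] at h2
    exact h (h2 ▸ hx)
  obtain ⟨j0, hj0, hj0'⟩ := hJt γ1 hγ1 γ2 hγ2
  have hj0ne : j0 ≠ 1 := by
    rintro rfl
    exact hne12 (by simpa using hj0')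
  have hGt : MulAction.IsPretransitive G Ω := by
    have htop : (⊤ : Subgroup G) ≠ ⊥ := by
      intro h
      have h2 : j0 ∈ (⊥ : Subgroup G) := h ▸ Subgroup.mem_top j0
      exact hj0ne (Subgroup.mem_bot.mp h2)
    have h3 := hqp ⊤ inferInstance htop
    constructor
    intro x y
    obtain ⟨g, hg⟩ := h3.exists_smul_eq x y
    exact ⟨g.1, hg⟩
  have hprim : MulAction.IsPreprimitive G Ω := by
    refine { toIsPretransitive := hGt, isTrivialBlock_of_isBlock := ?_ }
    intro B hB
    by_cases hsub : B.Subsingleton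
    · exact Or.inl hsub
    right
    rw [Set.not_subsingleton_iff] at hsub
    obtain ⟨x, hx, y, hy, hxy⟩ := hsub
    obtain ⟨g, hg⟩ := hGt.exists_smul_eq x γ
    suffices h : g • B = Set.univ by
      have h2 : B = g⁻¹ • (g • B) := by rw [inv_smul_smul]
      rw [h2, h]; simp
    have hB1 : MulAction.IsBlock G (g • B) := hB.translate g
    have hγB : γ ∈ g • B := hg ▸ Set.smul_mem_smul_set hx
    have hδB : g • y ∈ g • B := Set.smul_mem_smul_set hy
    have hδγ : g • y ≠ γ := by
      intro h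
      apply hxy
      have h2 : g • x = g • y := by rw [hg, h]
      exact MulAction.injective g h2
    generalize g • y = δ at hδB hδγ
    generalize g • B = B1 at hB1 hγB hδB ⊢
    have hΓB : Γ ⊆ B1 := by
      by_cases hδΓ : δ ∈ Γ
      · have hblk : MulAction.IsBlock (fixingSubgroup G Γᶜ)
            (Subtype.val ⁻¹' B1 : Set (SubMulAction.ofFixingSubgroup G Γᶜ)) :=
          (hB1.subgroup).subtype_val_preimage
        rcases hJp.isTrivialBlock_of_isBlock hblk with h | h
        · exfalso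
          have h2 := @h ⟨γ, hmemΓ γ hγ⟩ hγB ⟨δ, hmemΓ δ hδΓ⟩ hδB
          exact hδγ (congrArg Subtype.val h2).symm
        · intro z hz
          have h2 : (⟨z, hmemΓ z hz⟩ : SubMulAction.ofFixingSubgroup G Γᶜ) ∈
              (Subtype.val ⁻¹' B1 : Set (SubMulAction.ofFixingSubgroup G Γᶜ)) := by
            rw [h]; trivial
          exact h2
      · intro z hz
        obtain ⟨j, hj, hjz⟩ := hJt γ hγ z hz
        have h2 : j • B1 = B1 :=
          hB1.smul_eq_of_mem hδB (by rw [hJfix j hj δ hδΓ]; exact hδB)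
        rw [← h2, ← hjz]; exact Set.smul_mem_smul_set hγB
    have hJB : ∀ j ∈ fixingSubgroup G Γᶜ, ∀ h : G, j • h • B1 = h • B1 := by
      intro j hj h
      rcases hB1.smul_eq_or_disjoint h with e | d
      · rw [e]; exact hB1.smul_eq_of_mem hγB (hΓB (hJΓ j hj γ hγ))
      · ext z
        constructor
        · rintro ⟨w, hw, rfl⟩
          have hwΓ : w ∉ Γ := fun hwΓ => Set.disjoint_left.mp d hw (hΓB hwΓ)
          show j • w ∈ h • B1
          rw [hJfix j hj w hwΓ]; exact hw
        · intro hz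
          have hzΓ : z ∉ Γ := fun hzΓ => Set.disjoint_left.mp d hz (hΓB hzΓ)
          exact ⟨z, hz, hJfix j hj z hzΓ⟩
    let N : Subgroup G :=
      { carrier := {n | ∀ h : G, n • h • B1 = h • B1}
        one_mem' := fun h => one_smul _ _
        mul_mem' := fun {a b} ha hb h => by rw [mul_smul, hb h, ha h]
        inv_mem' := fun {a} ha h => by rw [inv_smul_eq_iff, ha h] }
    have hNn : N.Normal := by
      constructor
      intro n hn g' h
      show (g' * n * g'⁻¹) • h • B1 = h • B1
      have h2 := hn (g'⁻¹ * h)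
      rw [mul_smul, mul_smul, ← mul_smul g'⁻¹ h, h2, mul_smul, smul_inv_smul]
    have hNne : N ≠ ⊥ := by
      intro h
      have h2 : j0 ∈ N := hJB j0 hj0
      rw [h] at h2
      exact hj0ne (Subgroup.mem_bot.mp h2)
    have hNt := hqp N hNn hNne
    ext ω
    simp only [Set.mem_univ, iff_true]
    obtain ⟨n, hn⟩ := hNt.exists_smul_eq γ ω
    have h1 : (n : G) • B1 = B1 := by
      have h2 := n.2 1
      simpa using h2
    rw [← h1, ← hn]; exact Set.smul_mem_smul_set hγB
  have hfin : Γᶜ.ncard = (Nat.card Ω - Γ.ncard - 1) + 1 := by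
    rw [Set.ncard_compl]; omega
  have hlt : (Nat.card Ω - Γ.ncard - 1) + 2 < Nat.card Ω := by omega
  have h3 := hprim.isMultiplyPreprimitive hfin hlt hJp
  have h2 : Nat.card Ω - Γ.ncard - 1 + 2 = Nat.card Ω - Γ.ncard + 1 := by omega
  rw [h2] at h3
  infer_instance

end Cfsg.Agent.S3619
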