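import Cfsg.Statements.S3622
-- import your own Cfsg.Agent.* helpers here

set_option autoImplicit false
open Cfsg

namespace Cfsg.Agent.S3622

/-- Let G be a group of permutations of a finite set, m ≥ 2, and α a point. Say a permutation σ is k-approximated by a set S of permutations if for every k points there is a member of S agreeing with σ at those points. Suppose every permutation that is (m-1)-approximated by the stabilizer of α in G lies in that stabilizer (the stabilizer is (m-1)-closed). Then every permutation that is m-approximated by G lies in G (G is m-closed). -/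
theorem result {Ω : Type*} [Finite Ω] (G : Subgroup (Equiv.Perm Ω)) (m : ℕ) (hm : 2 ≤ m) (α : Ω)
    (hclosed : ∀ σ : Equiv.Perm Ω,
      (∀ t : Fin (m - 1) → Ω, ∃ g ∈ MulAction.stabilizer ↥G α, ∀ i, (g : Equiv.Perm Ω) (t i) = σ (t i)) →
      σ ∈ G ∧ σ α = α) :
    ∀ σ : Equiv.Perm Ω, (∀ t : Fin m → Ω, ∃ g ∈ G, ∀ i, g (t i) = σ (t i)) → σ ∈ G := by
  intro σ hσ
  obtain ⟨g0, hg0, hg0α⟩ := hσ (fun _ => α)
  have h0 : g0 α = σ α := hg0α ⟨0, by omega⟩
  have hτ : (g0⁻¹ * σ) ∈ G ∧ (g0⁻¹ * σ) α = α := by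
    apply hclosed
    intro t
    obtain ⟨g, hg, hgt⟩ := hσ (fun i : Fin m =>
      if h : (i : ℕ) = 0 then α else t ⟨(i : ℕ) - 1, by have := i.2; omega⟩)
    have hgα : g α = σ α := by
      have := hgt ⟨0, by omega⟩
      simpa using this
    refine ⟨⟨g0⁻¹ * g, G.mul_mem (G.inv_mem hg0) hg⟩, ?_, ?_⟩
    · rw [MulAction.mem_stabilizer_iff]
      show (g0⁻¹ * g) α = α
      rw [Equiv.Perm.mul_apply, hgα, ← h0]; simp
    · intro i
      have := hgt ⟨(i : ℕ) + 1, by have := i.2; omega⟩
      simp at this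
      show (g0⁻¹ * g) (t i) = (g0⁻¹ * σ) (t i)
      rw [Equiv.Perm.mul_apply, Equiv.Perm.mul_apply, this]
  have e : σ = g0 * (g0⁻¹ * σ) := by group
  rw [e]
  exact G.mul_mem hg0 hτ.1

end Cfsg.Agent.S3622
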