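import Mathlib
import Cfsg.Statements.S3683

set_option autoImplicit false
open Cfsg

namespace Cfsg.Agent.S3683

/-- Let a finite group G act faithfully and primitively on a set Ω, and suppose the stabilizer of a point a fixes a second point b ≠ a (a suborbit of length 1 other than {a}). Then the stabilizer of a is trivial and G is cyclic of prime order. -/
theorem result {G Ω : Type*} [Group G] [Finite G] [MulAction G Ω] [FaithfulSMul G Ω] [Finite Ω]
    (hprim : MulAction.IsPreprimitive G Ω) (a b : Ω) (hab : a ≠ b) (hfix : ∀ g : G, g • a = a → g • b = b) :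
    MulAction.stabilizer G a = ⊥ ∧ IsCyclic G ∧ (Nat.card G).Prime := by
-----
  haveI := hprim
  haveI : Nontrivial Ω := ⟨⟨a, b, hab⟩⟩
  haveI : MulAction.IsPretransitive G Ω := hprim.toIsPretransitive
  have hca : IsCoatom (MulAction.stabilizer G a) :=
    (MulAction.isCoatom_stabilizer_iff_preprimitive G a).mpr hprim
  have hcb : IsCoatom (MulAction.stabilizer G b) :=
    (MulAction.isCoatom_stabilizer_iff_preprimitive G b).mpr hprim
  have hle : MulAction.stabilizer G a ≤ MulAction.stabilizer G b := fun g hg => hfix g hg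
  have heq : MulAction.stabilizer G a = MulAction.stabilizer G b := by
    rcases eq_or_lt_of_le hle with h | h
    · exact h
    · exact absurd (hca.2 _ h) hcb.1
  obtain ⟨g, hg⟩ := MulAction.exists_smul_eq G a b
  have hnorm : ∀ x ∈ MulAction.stabilizer G a, g * x * g⁻¹ ∈ MulAction.stabilizer G a := by
    intro x hx
    rw [heq, MulAction.mem_stabilizer_iff, ← hg, mul_smul, mul_smul, inv_smul_smul,
      MulAction.mem_stabilizer_iff.mp hx]
  have hnorm' : ∀ x ∈ MulAction.stabilizer G a, g⁻¹ * x * g ∈ MulAction.stabilizer G a := by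
    intro x hx
    rw [heq] at hx
    rw [MulAction.mem_stabilizer_iff, mul_smul, mul_smul, hg, MulAction.mem_stabilizer_iff.mp hx,
      ← hg, inv_smul_smul]
  have hgN : g ∈ Subgroup.normalizer (MulAction.stabilizer G a : Set G) := by
    rw [Subgroup.mem_set_normalizer_iff]
    intro x
    constructor
    · exact hnorm x
    · intro hx
      have := hnorm' _ hx
      have e : g⁻¹ * (g * x * g⁻¹) * g = x := by group
      rwa [e] at this
  have hgS : g ∉ MulAction.stabilizer G a := by
    intro h
    rw [MulAction.mem_stabilizer_iff, hg] at h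
    exact hab h.symm
  have hNtop : Subgroup.normalizer (MulAction.stabilizer G a : Set G) = ⊤ := by
    apply hca.2
    exact lt_of_le_of_ne Subgroup.le_normalizer (fun h => hgS (h ▸ hgN))
  have hnormal : (MulAction.stabilizer G a).Normal := Subgroup.normalizer_eq_top_iff.mp hNtop
  have hbot : MulAction.stabilizer G a = ⊥ := by
    rw [eq_bot_iff]
    intro x hx
    rw [Subgroup.mem_bot]
    apply FaithfulSMul.eq_of_smul_eq_smul (α := Ω)
    intro c
    rw [one_smul]
    obtain ⟨k, rfl⟩ := MulAction.exists_smul_eq G a c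
    have h1 : k⁻¹ * x * k ∈ MulAction.stabilizer G a := by
      have := hnormal.conj_mem x hx k⁻¹
      simpa using this
    rw [MulAction.mem_stabilizer_iff, mul_smul, mul_smul] at h1
    have h2 := congrArg (fun y => k • y) h1
    simpa using h2
  refine ⟨hbot, ?_⟩
  rw [hbot] at hca
  have hz : ∀ x : G, x ≠ 1 → Subgroup.zpowers x = ⊤ := by
    intro x hx
    apply hca.2
    rw [bot_lt_iff_ne_bot]
    intro h
    exact hx (Subgroup.zpowers_eq_bot.mp h)
  haveI : Nontrivial G := by
    by_contra hnt
    rw [not_nontrivial_iff_subsingleton] at hnt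
    exact hca.1 (Subsingleton.elim _ _)
  obtain ⟨x, hx⟩ := exists_ne (1 : G)
  have hcyc : IsCyclic G := ⟨⟨x, fun y => by
    have : y ∈ Subgroup.zpowers x := by rw [hz x hx]; exact Subgroup.mem_top y
    exact this⟩⟩
  refine ⟨hcyc, ?_⟩
  have hcard : 1 < Nat.card G := Finite.one_lt_card
  obtain ⟨p, hp, hpd⟩ := Nat.exists_prime_and_dvd (ne_of_gt hcard)
  haveI := Fact.mk hp
  obtain ⟨y, hy⟩ := exists_prime_orderOf_dvd_card' p hpd
  have hy1 : y ≠ 1 := by
    rintro rfl
    rw [orderOf_one] at hy
    exact hp.one_lt.ne hy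
  have : Nat.card G = p := by
    rw [← hy, ← Nat.card_zpowers, hz y hy1, Subgroup.card_top]
  rw [this]; exact hp

end Cfsg.Agent.S3683
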