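import Cfsg.Statements.S3684
import Mathlib
import Cfsg.Agent.S0206
-- import your own Cfsg.Agent.* helpers here

set_option autoImplicit false
open Cfsg

namespace Cfsg.Agent.S3684

/-- Let a finite group G act faithfully and primitively on a set Ω, and suppose the stabilizer of a point a has an orbit of length 2. Then the stabilizer of a has order 2 and G is isomorphic to the dihedral group of order 2p for some prime p. -/
theorem result {G Ω : Type*} [Group G] [Finite G] [MulAction G Ω] [FaithfulSMul G Ω] [Finite Ω]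
    (hprim : MulAction.IsPreprimitive G Ω) (a b : Ω) (h2 : Nat.card (MulAction.orbit (MulAction.stabilizer G a) b) = 2) :
    Nat.card (MulAction.stabilizer G a) = 2 ∧ ∃ p : ℕ, p.Prime ∧ Nonempty (G ≃* DihedralGroup p) := by
  classical
  haveI := hprim.toIsPretransitive
  -- Ω is nontrivial
  haveI hΩnt : Nontrivial Ω := by
    have h1 : 1 < Nat.card (MulAction.orbit (MulAction.stabilizer G a) b) := by rw [h2]; norm_num
    rw [Finite.one_lt_card_iff_nontrivial] at h1
    obtain ⟨x, y, hxy⟩ := h1
    exact ⟨⟨x.1, y.1, fun h => hxy (Subtype.ext h)⟩⟩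
  have hco : IsCoatom (MulAction.stabilizer G a) :=
    (MulAction.isCoatom_stabilizer_iff_preprimitive G a).mpr hprim
  have hN0 : 0 < Nat.card Ω := Nat.card_pos
  have hidxa : (MulAction.stabilizer G a).index = Nat.card Ω :=
    MulAction.index_stabilizer_of_transitive G a
  have hidxb : (MulAction.stabilizer G b).index = Nat.card Ω :=
    MulAction.index_stabilizer_of_transitive G b
  have hstab : MulAction.stabilizer (↥(MulAction.stabilizer G a)) b
      = (MulAction.stabilizer G b).subgroupOf (MulAction.stabilizer G a) := by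
    ext g
    rw [Subgroup.mem_subgroupOf, MulAction.mem_stabilizer_iff, MulAction.mem_stabilizer_iff]
    rfl
  have hrel : (MulAction.stabilizer G b).relIndex (MulAction.stabilizer G a) = 2 := by
    have h1 := MulAction.index_stabilizer (G := ↥(MulAction.stabilizer G a)) (x := b)
    rw [hstab, ← Nat.card_coe_set_eq, h2] at h1
    exact h1
  set T := MulAction.stabilizer G a ⊓ MulAction.stabilizer G b with hT
  have hTa : T.relIndex (MulAction.stabilizer G a) = 2 := by
    rw [hT, Subgroup.inf_relIndex_left, hrel]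
  have hTidx : T.index = 2 * Nat.card Ω := by
    rw [← Subgroup.relIndex_mul_index (inf_le_left : T ≤ MulAction.stabilizer G a), hTa, hidxa]
  have hTb : T.relIndex (MulAction.stabilizer G b) = 2 := by
    have h1 := Subgroup.relIndex_mul_index (inf_le_right : T ≤ MulAction.stabilizer G b)
    rw [hTidx, hidxb] at h1
    exact Nat.eq_of_mul_eq_mul_right hN0 h1
  have hna : MulAction.stabilizer G a ≤ Subgroup.normalizer (T : Set G) := by
    rw [← Subgroup.normal_subgroupOf_iff_le_normalizer inf_le_left]
    exact Subgroup.normal_of_index_eq_two hTa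
  have hnb : MulAction.stabilizer G b ≤ Subgroup.normalizer (T : Set G) := by
    rw [← Subgroup.normal_subgroupOf_iff_le_normalizer inf_le_right]
    exact Subgroup.normal_of_index_eq_two hTb
  have hnle : ¬ MulAction.stabilizer G b ≤ MulAction.stabilizer G a := by
    intro hle
    have h1 := Subgroup.relIndex_mul_index hle
    rw [hrel, hidxa, hidxb] at h1
    omega
  have hsup : MulAction.stabilizer G a ⊔ MulAction.stabilizer G b = ⊤ := by
    apply hco.2
    apply lt_of_le_of_ne le_sup_left
    intro h
    apply hnle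
    rw [h]
    exact le_sup_right
  have hTnorm : ∀ x ∈ T, ∀ g : G, g * x * g⁻¹ ∈ T := by
    intro x hx g
    have hg : g ∈ Subgroup.normalizer (T : Set G) := by
      have : (⊤ : Subgroup G) ≤ Subgroup.normalizer (T : Set G) := by
        rw [← hsup]
        exact sup_le hna hnb
      exact this (Subgroup.mem_top g)
    exact (Subgroup.mem_normalizer_iff.mp hg x).mp hx
  have hTbot : T = ⊥ := by
    rw [Subgroup.eq_bot_iff_forall]
    intro x hx
    apply FaithfulSMul.eq_of_smul_eq_smul (α := Ω)
    intro ω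
    obtain ⟨g, rfl⟩ := MulAction.exists_smul_eq G a ω
    have h1 := hTnorm x hx g⁻¹
    have h2 : (g⁻¹ * x * g⁻¹⁻¹) • a = a := (inf_le_left : T ≤ MulAction.stabilizer G a) h1
    rw [inv_inv, mul_smul, mul_smul] at h2
    have h3 := congrArg (fun ω => g • ω) h2
    simp only [smul_inv_smul] at h3
    rw [one_smul]
    exact h3
  have hcard2 : Nat.card (MulAction.stabilizer G a) = 2 := by
    rw [hTbot, Subgroup.relIndex_bot_left] at hTa
    exact hTa
  refine ⟨hcard2, ?_⟩
  -- the involution
  haveI : Nontrivial ↥(MulAction.stabilizer G a) := by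
    rw [← Finite.one_lt_card_iff_nontrivial, hcard2]
    norm_num
  obtain ⟨t, ht1⟩ := exists_ne (1 : ↥(MulAction.stabilizer G a))
  have htmem : ∀ x ∈ MulAction.stabilizer G a, x = 1 ∨ x = (t : G) := by
    intro x hx
    by_cases hx1 : x = 1
    · left; exact hx1
    · right
      obtain ⟨y, -, hy⟩ := (Nat.card_eq_two_iff' (1 : ↥(MulAction.stabilizer G a))).mp hcard2
      have e1 := hy ⟨x, hx⟩ (fun h => hx1 (congrArg Subtype.val h))
      have e2 := hy t ht1
      have := congrArg Subtype.val (e1.trans e2.symm)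
      exact this
  have ht1' : (t : G) ≠ 1 := fun h => ht1 (Subtype.ext h)
  have htsq : (t : G) ^ 2 = 1 := by
    have h1 : (t : G) ^ 2 ∈ MulAction.stabilizer G a := pow_mem t.2 2
    rcases htmem _ h1 with h | h
    · exact h
    · exfalso
      apply ht1'
      have : (t : G) * (t : G) = (t : G) := by rw [← pow_two]; exact h
      exact mul_eq_left.mp this
  have htord : orderOf (t : G) = 2 := orderOf_eq_prime htsq ht1'
  have htt : (t : G) * (t : G) = 1 := by rw [← pow_two]; exact htsq
  have htt' : ∀ x : G, (t : G) * ((t : G) * x) = x := fun x => by rw [← mul_assoc, htt, one_mul]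
  have htinv : (t : G)⁻¹ = (t : G) := inv_eq_of_mul_eq_one_left htt
  -- a conjugate different from t
  have hconj : ∃ g : G, g * (t : G) * g⁻¹ ≠ (t : G) := by
    by_contra hc
    push Not at hc
    apply ht1'
    apply FaithfulSMul.eq_of_smul_eq_smul (α := Ω)
    intro ω
    obtain ⟨g, rfl⟩ := MulAction.exists_smul_eq G a ω
    have h1 := hc g
    have h2 : (t : G) * g = g * (t : G) := by
      calc (t : G) * g = (g * (t : G) * g⁻¹) * g := by rw [h1]
        _ = g * (t : G) := by rw [inv_mul_cancel_right]
    rw [one_smul, ← mul_smul, h2, mul_smul]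
    congr 1
    exact t.2
  obtain ⟨g, hg⟩ := hconj
  set t' := g * (t : G) * g⁻¹ with ht'
  have ht'sq : t' ^ 2 = 1 := by
    rw [ht', pow_two]
    simp [mul_assoc, htt']
  have ht'1 : t' ≠ 1 := by
    intro h
    apply ht1'
    have : (t : G) = g⁻¹ * t' * g := by rw [ht']; simp [mul_assoc]
    rw [this, h]
    simp
  have ht'ord : orderOf t' = 2 := orderOf_eq_prime ht'sq ht'1
  have ht'inv : t'⁻¹ = t' := by
    rw [inv_eq_iff_mul_eq_one, ← pow_two]
    exact ht'sq
  have ht'notin : t' ∉ MulAction.stabilizer G a := by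
    intro h
    rcases htmem _ h with h | h
    · exact ht'1 h
    · exact hg h
  have hne : (t : G) ≠ t' := fun h => hg h.symm
  obtain ⟨e₁⟩ := Cfsg.Agent.S0206.result (t : G) t' htord ht'ord hne
  have key : ∀ H : Subgroup G, (t : G) ∈ H → (∃ x ∈ H, x ∉ MulAction.stabilizer G a) → H = ⊤ := by
    intro H htH ⟨x, hxH, hxn⟩
    apply hco.2
    refine lt_of_le_of_ne ?_ ?_
    · intro y hy
      rcases htmem y hy with h | h
      · rw [h]; exact H.one_mem
      · rw [h]; exact htH
    · intro h
      apply hxn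
      rw [h]
      exact hxH
  have htop : Subgroup.closure ({(t : G), t'} : Set G) = ⊤ :=
    key _ (Subgroup.subset_closure (by simp)) ⟨t', Subgroup.subset_closure (by simp), ht'notin⟩
  obtain ⟨ρ, hρ⟩ : ∃ ρ : G, ρ = (t : G) * t' := ⟨_, rfl⟩
  rw [← hρ] at e₁
  have eG : G ≃* DihedralGroup (orderOf ρ) :=
    (Subgroup.topEquiv.symm.trans (MulEquiv.subgroupCongr htop.symm)).trans e₁
  set n := orderOf ρ with hn
  have hcardG : Nat.card G = 2 * n := by
    rw [Nat.card_congr eG.toEquiv, DihedralGroup.nat_card]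
  have hρ1 : ρ ≠ 1 := by
    intro h
    apply hne
    rw [hρ] at h
    have e := eq_inv_of_mul_eq_one_right h
    rw [htinv] at e
    exact e.symm
  have hn0 : 0 < n := orderOf_pos _
  have hn1 : n ≠ 1 := by
    intro h
    exact hρ1 (orderOf_eq_one_iff.mp h)
  refine ⟨n, ?_, ⟨eG⟩⟩
  by_contra hnp
  obtain ⟨d, hdn, hd2, hdlt⟩ := Nat.exists_dvd_of_not_prime2 (by omega) hnp
  have hconjρ : (t : G) * ρ * (t : G) = ρ⁻¹ := by
    rw [hρ, mul_inv_rev, ht'inv, htinv, ← mul_assoc (t : G) (t : G) t', htt, one_mul]
  have hconjpow : ∀ k : ℕ, (t : G) * ρ ^ k * (t : G) = (ρ ^ k)⁻¹ := by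
    intro k
    induction k with
    | zero => simp [← pow_two, htsq]
    | succ k ih =>
      have : (t : G) * ρ ^ (k + 1) * (t : G)
          = ((t : G) * ρ ^ k * (t : G)) * ((t : G) * ρ * (t : G)) := by
        rw [pow_succ]
        simp only [mul_assoc, htt']
      rw [this, ih, hconjρ, pow_succ, mul_inv_rev]
      have hc : Commute (ρ ^ k)⁻¹ ρ⁻¹ := ((Commute.refl ρ).pow_left k).inv_inv
      exact hc.eq
  set u := (t : G) * ρ ^ d with hu
  have hρd1 : ρ ^ d ≠ 1 := pow_ne_one_of_lt_orderOf (by omega) hdlt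
  have husq : u ^ 2 = 1 := by
    rw [hu, pow_two]
    have : (t : G) * ρ ^ d * ((t : G) * ρ ^ d) = ((t : G) * ρ ^ d * (t : G)) * ρ ^ d := by
      simp only [mul_assoc]
    rw [this, hconjpow d, inv_mul_cancel]
  have hn3 : 3 ≤ n := by omega
  have hu1 : u ≠ 1 := by
    intro h
    -- ρ^d = t, so t commutes with ρ, so ρ^2 = 1
    have h1 : ρ ^ d = (t : G) := by
      have : ρ ^ d = (t : G)⁻¹ * u := by rw [hu, inv_mul_cancel_left]
      rw [this, h, mul_one, htinv]
    have hcomm : (t : G) * ρ = ρ * (t : G) := by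
      rw [← h1, ← pow_succ, ← pow_succ']
    have h2 : ρ ^ 2 = 1 := by
      have h3 : ρ⁻¹ = ρ := by
        rw [← hconjρ, hcomm, mul_assoc, ← pow_two, htsq, mul_one]
      rw [pow_two]
      nth_rw 1 [← h3]
      exact inv_mul_cancel ρ
    have h4 := orderOf_dvd_of_pow_eq_one h2
    have h5 := Nat.le_of_dvd (by norm_num) h4
    omega
  have huord : orderOf u = 2 := orderOf_eq_prime husq hu1
  have hune : (t : G) ≠ u := by
    intro h
    apply hρd1
    have : ρ ^ d = (t : G)⁻¹ * u := by rw [hu, inv_mul_cancel_left]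
    rw [this, ← h, inv_mul_cancel]
  obtain ⟨e₂⟩ := Cfsg.Agent.S0206.result (t : G) u htord huord hune
  have htu : (t : G) * u = ρ ^ d := by
    rw [hu, ← mul_assoc, ← pow_two, htsq, one_mul]
  have hord2 : orderOf ((t : G) * u) = n / d := by
    rw [htu, orderOf_pow_of_dvd (by omega) hdn]
  have hcardH : Nat.card (Subgroup.closure ({(t : G), u} : Set G)) = 2 * (n / d) := by
    rw [Nat.card_congr e₂.toEquiv, DihedralGroup.nat_card, hord2]
  obtain ⟨c, hc⟩ := hdn
  have hnd : n / d = c := by rw [hc]; exact Nat.mul_div_cancel_left c (by omega)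
  have hc2 : 2 ≤ c := by
    by_contra h
    push Not at h
    have : c = 0 ∨ c = 1 := by omega
    rcases this with h | h
    · rw [h, mul_zero] at hc; omega
    · rw [h, mul_one] at hc; omega
  have hunotin : u ∉ MulAction.stabilizer G a := by
    intro h
    rcases htmem _ h with h | h
    · exact hu1 h
    · exact hune h.symm
  have htop2 : Subgroup.closure ({(t : G), u} : Set G) = ⊤ :=
    key _ (Subgroup.subset_closure (by simp)) ⟨u, Subgroup.subset_closure (by simp), hunotin⟩
  rw [htop2, Subgroup.card_top, hcardG, hnd, hc] at hcardH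
  have : c < d * c := by nlinarith
  omega

end Cfsg.Agent.S3684
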