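import Cfsg.Statements.S3802
import Cfsg.Agent.Lib.Helper8.Subnormal

set_option autoImplicit false
open Cfsg
open Cfsg.Agent.Lib.Helper8

namespace Cfsg.Agent.S3802

/-- Let G be a finite group, M a maximal subgroup of G and N a subnormal subgroup of G contained in M. Then N is contained in every conjugate of M, that is, N lies in the core of M in G. -/
theorem result {G : Type*} [Group G] [Finite G] (M N : Subgroup G) (hM : IsCoatom M) (hN : N.IsSubnormal) (hNM : N ≤ M) :
    N ≤ Subgroup.normalCore M := by
  obtain ⟨S, hS, hSM, hMS, hmax, htop⟩ := h8_exists_max_subnormal M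
  have hNS := hmax N hN hNM
  by_cases h : Subgroup.normalizer (S : Set G) = ⊤
  · have hn : S.Normal := Subgroup.normalizer_eq_top_iff.1 h
    exact hNS.trans (Subgroup.normal_le_normalCore.2 hSM)
  · have h1 : Subgroup.normalizer (S : Set G) = M := by
      by_contra hne
      exact h (hM.2 _ (lt_of_le_of_ne hMS (Ne.symm hne)))
    have hST := htop h1.le
    rw [hST] at hSM
    exact absurd (top_le_iff.1 hSM) hM.1

end Cfsg.Agent.S3802
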