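import Mathlib
import Cfsg.Statements.S3815

set_option autoImplicit false
open Cfsg

namespace Cfsg.Agent.S3815

theorem orderOf_conj_eq {G : Type*} [Group G] (g x : G) : orderOf (g * x * g⁻¹) = orderOf x := by
  have : orderOf ((MulAut.conj g) x) = orderOf x := MulEquiv.orderOf_eq _ _
  rw [MulAut.conj_apply] at this
  exact this

/-- Let G be a finite group, p a prime and d ∈ G an element of order prime to p. If dg has order prime to p for every element g ∈ G of order prime to p, then d ∈ O_{p'}(G). -/
theorem result {G : Type*} [Group G] [Finite G] {p : ℕ} [Fact p.Prime]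
    (d : G) (hd : (orderOf d).Coprime p)
    (h : ∀ g : G, (orderOf g).Coprime p → (orderOf (d * g)).Coprime p) :
    d ∈ Cfsg.pPrimeCore p G := by
  classical
  have hp := (Fact.out : p.Prime)
  let D : Subgroup G :=
    { carrier := {d | ∀ g : G, (orderOf g).Coprime p → (orderOf (d * g)).Coprime p}
      mul_mem' := by
        intro a b ha hb g hg
        rw [mul_assoc]
        exact ha _ (hb g hg)
      one_mem' := by
        intro g hg
        rw [one_mul]; exact hg
      inv_mem' := by
        intro a ha
        have hpow : ∀ n : ℕ, ∀ g : G, (orderOf g).Coprime p → (orderOf (a ^ n * g)).Coprime p := by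
          intro n
          induction n with
          | zero => intro g hg; rw [pow_zero, one_mul]; exact hg
          | succ n ih =>
            intro g hg
            rw [pow_succ, mul_assoc]
            exact ih _ (ha g hg)
        have hinv : a⁻¹ = a ^ (orderOf a - 1) := by
          have hpos : 0 < orderOf a := orderOf_pos a
          apply inv_eq_of_mul_eq_one_left
          rw [← pow_succ, Nat.sub_add_cancel hpos, pow_orderOf_eq_one]
        intro g hg
        rw [hinv]
        exact hpow _ g hg }
  have hDmem : ∀ x : G, x ∈ D ↔ ∀ g : G, (orderOf g).Coprime p → (orderOf (x * g)).Coprime p :=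
    fun x => Iff.rfl
  have hDn : D.Normal := by
    constructor
    intro n hn x
    rw [hDmem] at hn ⊢
    intro g hg
    have e : x * n * x⁻¹ * g = x * (n * (x⁻¹ * g * x)) * x⁻¹ := by group
    rw [e, orderOf_conj_eq]
    apply hn
    have e2 : x⁻¹ * g * x = x⁻¹ * g * x⁻¹⁻¹ := by group
    rw [e2, orderOf_conj_eq]
    exact hg
  have hDc : (Nat.card D).Coprime p := by
    rw [Nat.coprime_comm, hp.coprime_iff_not_dvd]
    intro hdvd
    obtain ⟨⟨x, hx⟩, hxo⟩ := exists_prime_orderOf_dvd_card' p hdvd
    rw [Subgroup.orderOf_mk] at hxo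
    have h1 := (hDmem x).mp hx 1 (by rw [orderOf_one]; exact Nat.coprime_one_left p)
    rw [mul_one, hxo] at h1
    exact hp.one_lt.ne' ((Nat.coprime_self p).mp h1)
  have hdD : d ∈ D := (hDmem d).mpr h
  exact (le_sSup (show D ∈ {N : Subgroup G | N.Normal ∧ (Nat.card N).Coprime p} from ⟨hDn, hDc⟩)) hdD

end Cfsg.Agent.S3815
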