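import Mathlib
import Cfsg.Statements.S3820
import Cfsg.Agent.Lib.Helper8.Basic

set_option autoImplicit false
open Cfsg

namespace Cfsg.Agent.S3820

open Cfsg.Agent.Lib.Helper8

/-- Call a subgroup H of G pronormal if H and gHg⁻¹ are conjugate inside ⟨H, gHg⁻¹⟩ for every g ∈ G. Let S ≤ H ≤ G be subgroups of a finite group with S pronormal in G (for instance S a Sylow subgroup). Then H is pronormal in G if and only if H and gHg⁻¹ are conjugate inside ⟨H, gHg⁻¹⟩ for every g ∈ N_G(S). In particular H is pronormal whenever N_G(S) ≤ H. -/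
theorem result {G : Type*} [Group G] [Finite G] (S H : Subgroup G) (hSH : S ≤ H)
    (hS : Cfsg.IsPronormal S) :
    Cfsg.IsPronormal H ↔
      ∀ g ∈ Subgroup.normalizer (S : Set G), ∃ w ∈ H ⊔ H.map (MulAut.conj g).toMonoidHom,
        H.map (MulAut.conj g).toMonoidHom = H.map (MulAut.conj w).toMonoidHom := by
  constructor
  · intro hH g _; exact hH g
  · intro hyp g
    obtain ⟨x, hx, hSx⟩ := hS g
    have hn : x⁻¹ * g ∈ Subgroup.normalizer (S : Set G) := by
      apply h8_mem_normalizer_of_map_conj_eq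
      rw [h8_map_conj_mul, hSx, ← h8_map_conj_mul, inv_mul_cancel, h8_map_conj_one]
    obtain ⟨w, hw, hHw⟩ := hyp _ hn
    have hxJ : x ∈ H ⊔ H.map (MulAut.conj g).toMonoidHom :=
      (sup_le_sup hSH (Subgroup.map_mono hSH)) hx
    have hHn : H.map (MulAut.conj (x⁻¹ * g)).toMonoidHom ≤
        H ⊔ H.map (MulAut.conj g).toMonoidHom := by
      intro y hy
      rw [h8_mem_map_conj] at hy
      have e : y = x⁻¹ * (g * ((x⁻¹ * g)⁻¹ * y * (x⁻¹ * g)) * g⁻¹) * x := by group
      rw [e]
      exact Subgroup.mul_mem _ (Subgroup.mul_mem _ (Subgroup.inv_mem _ hxJ)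
        ((le_sup_right : H.map (MulAut.conj g).toMonoidHom ≤ _) (h8_conj_mem_map_conj g H hy))) hxJ
    have hwJ : w ∈ H ⊔ H.map (MulAut.conj g).toMonoidHom := (sup_le le_sup_left hHn) hw
    refine ⟨x * w, Subgroup.mul_mem _ hxJ hwJ, ?_⟩
    have e : g = x * (x⁻¹ * g) := by group
    conv_lhs => rw [e]
    rw [h8_map_conj_mul, hHw, ← h8_map_conj_mul]

end Cfsg.Agent.S3820
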