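import Mathlib
import Cfsg.Statements.S3821
import Cfsg.Agent.Lib.Helper8.Basic

set_option autoImplicit false
open Cfsg

namespace Cfsg.Agent.S3821

open Cfsg.Agent.Lib.Helper8

theorem transport {G : Type*} [Group G] (A H : Subgroup G) (a : A) :
    (H.subgroupOf A).map (MulAut.conj a).toMonoidHom =
      (H.map (MulAut.conj (a : G)).toMonoidHom).subgroupOf A := by
  ext y
  rw [h8_mem_map_conj, Subgroup.mem_subgroupOf, Subgroup.mem_subgroupOf, h8_mem_map_conj]
  simp

theorem map_conj_le {G : Type*} [Group G] (A H : Subgroup G) [A.Normal] (hHA : H ≤ A) (g : G) :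
    H.map (MulAut.conj g).toMonoidHom ≤ A := by
  intro y hy
  rw [h8_mem_map_conj] at hy
  have h1 := hHA hy
  have h2 := (inferInstance : A.Normal).conj_mem _ h1 g
  have e : g * (g⁻¹ * y * g) * g⁻¹ = y := by group
  rwa [e] at h2

/-- Let A be a normal subgroup of the finite group G and H a subgroup of A. Then H is pronormal in G (H and gHg⁻¹ conjugate inside ⟨H, gHg⁻¹⟩ for every g ∈ G) if and only if H is pronormal in A and G = A · N_G(H). -/
theorem result {G : Type*} [Group G] [Finite G] (A H : Subgroup G) [A.Normal] (hHA : H ≤ A) :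
    Cfsg.IsPronormal H ↔ (Cfsg.IsPronormal (H.subgroupOf A) ∧ A ⊔ Subgroup.normalizer (H : Set G) = ⊤) := by
  constructor
  · intro hH
    constructor
    · intro a
      obtain ⟨x, hx, hHx⟩ := hH (a : G)
      have hle : H ⊔ H.map (MulAut.conj (a : G)).toMonoidHom ≤ A :=
        sup_le hHA (map_conj_le A H hHA _)
      have hxA : x ∈ A := hle hx
      refine ⟨⟨x, hxA⟩, ?_, ?_⟩
      · rw [transport, ← Subgroup.subgroupOf_sup hHA (map_conj_le A H hHA _),
          Subgroup.mem_subgroupOf]
        exact hx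
      · rw [transport, transport]
        simp only []
        rw [hHx]
    · rw [eq_top_iff]
      intro g _
      obtain ⟨x, hx, hHx⟩ := hH g
      have hle : H ⊔ H.map (MulAut.conj g).toMonoidHom ≤ A :=
        sup_le hHA (map_conj_le A H hHA _)
      have hxA : x ∈ A := hle hx
      have hn : x⁻¹ * g ∈ Subgroup.normalizer (H : Set G) := by
        apply h8_mem_normalizer_of_map_conj_eq
        rw [h8_map_conj_mul, hHx, ← h8_map_conj_mul, inv_mul_cancel, h8_map_conj_one]
      have e : g = x * (x⁻¹ * g) := by group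
      rw [e]
      exact Subgroup.mul_mem _ ((le_sup_left : A ≤ _) hxA) ((le_sup_right : _ ≤ A ⊔ _) hn)
  · rintro ⟨hHA', htop⟩ g
    have hg : g ∈ A ⊔ Subgroup.normalizer (H : Set G) := by rw [htop]; trivial
    have hN : Subgroup.normalizer (H : Set G) ≤ Subgroup.normalizer (A : Set G) := by
      have hA : Subgroup.normalizer (A : Set G) = ⊤ := Subgroup.normalizer_eq_top A
      rw [hA]; exact le_top
    obtain ⟨a, ha, n, hn, rfl⟩ := h8_mem_sup_of_le_normalizer hN hg
    have hg' : H.map (MulAut.conj (a * n)).toMonoidHom = H.map (MulAut.conj a).toMonoidHom := by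
      rw [h8_map_conj_mul, h8_map_conj_eq_of_mem_normalizer hn]
    obtain ⟨x, hx, hHx⟩ := hHA' ⟨a, ha⟩
    rw [transport, ← Subgroup.subgroupOf_sup hHA (map_conj_le A H hHA _),
      Subgroup.mem_subgroupOf] at hx
    rw [transport, transport, Subgroup.subgroupOf_inj] at hHx
    simp only [] at hx hHx
    rw [inf_eq_left.2 (map_conj_le A H hHA _), inf_eq_left.2 (map_conj_le A H hHA _)] at hHx
    refine ⟨(x : G), ?_, ?_⟩
    · rw [hg']; exact hx
    · rw [hg']; exact hHx

end Cfsg.Agent.S3821
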