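import Mathlib
import Cfsg.Statements.S3825

set_option autoImplicit false
open Cfsg
open scoped commutatorElement

namespace Cfsg.Agent.S3825

/-- an involutory endomorphism of a finite group without non-identity fixed points inverts
every element -/
theorem invol_hom_inverts {E : Type*} [Group E] [Finite E] (σ : E →* E)
    (hσ : ∀ x, σ (σ x) = x) (hfix : ∀ t, σ t = t → t = 1) : ∀ t, σ t = t⁻¹ := by
  have hinj : Function.Injective (fun y : E => y⁻¹ * σ y) := by
    intro y y' hyy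
    have h1 : y⁻¹ * σ y = y'⁻¹ * σ y' := hyy
    have h2 : σ (y' * y⁻¹) = y' * y⁻¹ := by
      rw [map_mul, map_inv]
      have h3 : σ y' = y' * (y⁻¹ * σ y) := by rw [h1]; group
      rw [h3]; group
    have h4 := hfix _ h2
    exact (mul_inv_eq_one.mp h4).symm
  have hsurj := Finite.surjective_of_injective hinj
  intro t
  obtain ⟨y, hy⟩ := hsurj t
  have hy' : y⁻¹ * σ y = t := hy
  rw [← hy', map_mul, map_inv, hσ]
  group

/-- Let U be a subgroup of a finite group H and w an involution of H normalizing U and commuting with exactly two elements of U, the identity and y. If V is a non-cyclic elementary abelian 2-subgroup of U containing y which is normal in U and invariant under w, then V is a Sylow 2-subgroup of U, V has order 4, and U/V is abelian. -/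
theorem result {H : Type*} [Group H] [Finite H] (U : Subgroup H) (w : H) (hw : orderOf w = 2)
    (hwU : w ∈ Subgroup.normalizer (U : Set H)) (y : H) (hy : y ≠ 1) (hyU : y ∈ U)
    (hfix : ∀ u ∈ U, w * u * w⁻¹ = u ↔ (u = 1 ∨ u = y))
    (V : Subgroup H) (hVU : V ≤ U) (hVn : (V.subgroupOf U).Normal) (hVw : ∀ v ∈ V, w * v * w⁻¹ ∈ V)
    (hVe : Cfsg.IsElementaryAbelian 2 V) (hVc : ¬ IsCyclic ↥V) (hyV : y ∈ V) :
    ¬ 2 ∣ V.relIndex U ∧ Nat.card ↥V = 4 ∧ ⁅U, U⁆ ≤ V := by
  classical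
  have hw2 : w * w = 1 := by
    have h0 := pow_orderOf_eq_one w
    rw [hw, pow_two] at h0
    exact h0
  have hwi : w⁻¹ = w := inv_eq_of_mul_eq_one_left hw2
  have hVcomm : ∀ a ∈ V, ∀ b ∈ V, a * b = b * a := by
    intro a ha b hb
    exact Subgroup.le_centralizer_iff_isMulCommutative.mpr hVe.1 hb a ha
  have hV2 : ∀ v ∈ V, v * v = 1 := fun v hv => by rw [← pow_two]; exact hVe.2 v hv
  have hVinv : ∀ v ∈ V, v⁻¹ = v := fun v hv => inv_eq_of_mul_eq_one_left (hV2 v hv)
  have hc : ∀ x ∈ U, x⁻¹ * (w * x * w⁻¹) ∈ V →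
      (x⁻¹ * (w * x * w⁻¹) = 1 ∨ x⁻¹ * (w * x * w⁻¹) = y) := by
    intro x hx hcV
    apply (hfix _ (hVU hcV)).mp
    have e1 : w * (x⁻¹ * (w * x * w⁻¹)) * w⁻¹ = (x⁻¹ * (w * x * w⁻¹))⁻¹ := by
      rw [hwi]
      calc w * (x⁻¹ * (w * x * w)) * w = (w * x⁻¹ * w) * x * (w * w) := by group
        _ = (w * x⁻¹ * w) * x := by rw [hw2, mul_one]
        _ = (w⁻¹ * x⁻¹ * w⁻¹) * x := by rw [hwi]
        _ = (x⁻¹ * (w * x * w))⁻¹ := by group
    rw [e1, hVinv _ hcV]
  have hfixed : ∀ x ∈ U, x⁻¹ * (w * x * w⁻¹) = 1 → x ∈ V := by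
    intro x hx h
    have h1 : w * x * w⁻¹ = x := by
      calc w * x * w⁻¹ = x * (x⁻¹ * (w * x * w⁻¹)) := by group
        _ = x := by rw [h, mul_one]
    rcases (hfix x hx).mp h1 with h2 | h2
    · rw [h2]; exact V.one_mem
    · rw [h2]; exact hyV
  have hex : ∃ v₁ ∈ V, v₁ ≠ 1 ∧ v₁ ≠ y := by
    by_contra hcon
    push_neg at hcon
    apply hVc
    refine isCyclic_iff_exists_zpowers_eq_top.mpr ⟨⟨y, hyV⟩, ?_⟩
    rw [eq_top_iff]
    intro v _
    by_cases hv1 : (v : H) = 1
    · have : v = 1 := Subtype.ext hv1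
      rw [this]; exact Subgroup.one_mem _
    · have hvy : (v : H) = y := hcon v v.2 hv1
      have : v = ⟨y, hyV⟩ := Subtype.ext hvy
      rw [this]; exact Subgroup.mem_zpowers _
  obtain ⟨v₁, hv₁V, hv₁1, hv₁y⟩ := hex
  have hv₁ : v₁⁻¹ * (w * v₁ * w⁻¹) = y := by
    rcases hc v₁ (hVU hv₁V) (V.mul_mem (V.inv_mem hv₁V) (hVw v₁ hv₁V)) with h | h
    · exfalso
      have h1 : w * v₁ * w⁻¹ = v₁ := by
        calc w * v₁ * w⁻¹ = v₁ * (v₁⁻¹ * (w * v₁ * w⁻¹)) := by group
          _ = v₁ := by rw [h, mul_one]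
      rcases (hfix v₁ (hVU hv₁V)).mp h1 with h2 | h2
      · exact hv₁1 h2
      · exact hv₁y h2
    · exact h
  -- if `u⁻¹ u^w = y` then `u v₁` is fixed by `w`
  have hmove : ∀ u ∈ U, u⁻¹ * (w * u * w⁻¹) = y → (u * v₁ = 1 ∨ u * v₁ = y) := by
    intro u hu h
    apply (hfix _ (U.mul_mem hu (hVU hv₁V))).mp
    calc w * (u * v₁) * w⁻¹
        = u * (u⁻¹ * (w * u * w⁻¹)) * (v₁ * (v₁⁻¹ * (w * v₁ * w⁻¹))) := by group
      _ = u * y * (v₁ * y) := by rw [h, hv₁]
      _ = u * (y * v₁) * y := by group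
      _ = u * (v₁ * y) * y := by rw [hVcomm y hyV v₁ hv₁V]
      _ = u * v₁ * (y * y) := by group
      _ = u * v₁ := by rw [hV2 y hyV, mul_one]
  have hfpf : ∀ u ∈ U, u⁻¹ * (w * u * w⁻¹) ∈ V → u ∈ V := by
    intro u hu hcu
    rcases hc u hu hcu with h | h
    · exact hfixed u hu h
    · have h2 : u * v₁ ∈ V := by
        rcases hmove u hu h with h3 | h3
        · rw [h3]; exact V.one_mem
        · rw [h3]; exact hyV
      have e : u = (u * v₁) * v₁⁻¹ := by group
      rw [e]; exact V.mul_mem h2 (V.inv_mem hv₁V)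
  have hcard : Nat.card ↥V = 4 := by
    have hsub : (V : Set H) ⊆ {1, y, v₁, v₁ * y} := by
      intro v hv
      have hvV : v ∈ V := hv
      rcases hc v (hVU hvV) (V.mul_mem (V.inv_mem hvV) (hVw v hvV)) with h | h
      · have h1 : w * v * w⁻¹ = v := by
          calc w * v * w⁻¹ = v * (v⁻¹ * (w * v * w⁻¹)) := by group
            _ = v := by rw [h, mul_one]
        rcases (hfix v (hVU hvV)).mp h1 with h2 | h2
        · left; exact h2
        · right; left; exact h2
      · rcases hmove v (hVU hvV) h with h3 | h3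
        · right; right; left
          calc v = (v * v₁) * v₁⁻¹ := by group
            _ = v₁ := by rw [h3, one_mul, hVinv v₁ hv₁V]
        · right; right; right
          calc v = (v * v₁) * v₁⁻¹ := by group
            _ = y * v₁ := by rw [h3, hVinv v₁ hv₁V]
            _ = v₁ * y := hVcomm y hyV v₁ hv₁V
    have hle : Nat.card ↥V ≤ 4 := by
      have h1 : Nat.card ↥V = (V : Set H).ncard := rfl
      rw [h1]
      calc (V : Set H).ncard ≤ ({1, y, v₁, v₁ * y} : Set H).ncard :=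
            Set.ncard_le_ncard hsub (Set.toFinite _)
        _ ≤ 4 := by
          refine (Set.ncard_insert_le _ _).trans ?_
          refine Nat.succ_le_succ ((Set.ncard_insert_le _ _).trans ?_)
          refine Nat.succ_le_succ ((Set.ncard_insert_le _ _).trans ?_)
          rw [Set.ncard_singleton]
    have hVp : IsPGroup 2 ↥V := by
      intro v
      refine ⟨1, ?_⟩
      apply Subtype.ext
      have h0 := hVe.2 v v.2
      simpa using h0
    haveI : Fact (Nat.Prime 2) := ⟨Nat.prime_two⟩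
    obtain ⟨k, hk⟩ := IsPGroup.iff_card.mp hVp
    have hk2 : k ≤ 2 := by
      by_contra hcon
      push_neg at hcon
      have h8 : 2 ^ 3 ≤ 2 ^ k := Nat.pow_le_pow_right (by norm_num) hcon
      omega
    interval_cases k
    · exfalso
      rw [pow_zero, Subgroup.card_eq_one] at hk
      rw [hk, Subgroup.mem_bot] at hyV
      exact hy hyV
    · exfalso
      rw [pow_one] at hk
      exact hVc (isCyclic_of_prime_card hk)
    · rw [hk]; norm_num
  haveI := hVn
  let σ : ↥U →* ↥U := (U.normalizerMonoidHom ⟨w, hwU⟩).toMonoidHom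
  have hσ : ∀ u : ↥U, ((σ u : ↥U) : H) = w * (u : H) * w⁻¹ := fun u => rfl
  have hσV : V.subgroupOf U ≤ (V.subgroupOf U).comap σ := by
    intro u hu
    rw [Subgroup.mem_comap, Subgroup.mem_subgroupOf, hσ]
    exact hVw _ (Subgroup.mem_subgroupOf.mp hu)
  let σb : ↥U ⧸ V.subgroupOf U →* ↥U ⧸ V.subgroupOf U := QuotientGroup.map _ _ σ hσV
  have hσb : ∀ u : ↥U, σb (u : ↥U ⧸ V.subgroupOf U) = ((σ u : ↥U) : ↥U ⧸ V.subgroupOf U) :=
    fun u => rfl
  have hinvol : ∀ t, σb (σb t) = t := by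
    intro t
    induction t using QuotientGroup.induction_on with
    | H u =>
      rw [hσb, hσb]
      congr 1
      apply Subtype.ext
      rw [hσ, hσ, hwi]
      calc w * (w * (u : H) * w) * w = (w * w) * (u : H) * (w * w) := by group
        _ = (u : H) := by rw [hw2, one_mul, mul_one]
  have hfixb : ∀ t, σb t = t → t = 1 := by
    intro t
    induction t using QuotientGroup.induction_on with
    | H u =>
      intro h
      rw [hσb, QuotientGroup.eq, Subgroup.mem_subgroupOf] at h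
      have h1 : (u : H)⁻¹ * (w * (u : H) * w⁻¹) ∈ V := by
        have e : (u : H)⁻¹ * (w * (u : H) * w⁻¹) = ((((σ u)⁻¹ * u : ↥U)) : H)⁻¹ := by
          show _ = (((σ u : ↥U) : H)⁻¹ * (u : H))⁻¹
          rw [hσ]; group
        rw [e]; exact V.inv_mem h
      rw [QuotientGroup.eq_one_iff, Subgroup.mem_subgroupOf]
      exact hfpf _ u.2 h1
  have hinv := invol_hom_inverts σb hinvol hfixb
  have hcommQ : ∀ a b : ↥U ⧸ V.subgroupOf U, a * b = b * a := by
    intro a b
    have h1 : σb (a * b) = (a * b)⁻¹ := hinv _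
    rw [map_mul, hinv a, hinv b, mul_inv_rev] at h1
    have h2 := congrArg (fun t => t⁻¹) h1
    simp only [mul_inv_rev, inv_inv] at h2
    exact h2.symm
  refine ⟨?_, hcard, ?_⟩
  · intro h2
    have h3 : 2 ∣ Nat.card (↥U ⧸ V.subgroupOf U) := h2
    haveI : Fact (Nat.Prime 2) := ⟨Nat.prime_two⟩
    obtain ⟨t, ht⟩ := exists_prime_orderOf_dvd_card' 2 h3
    have ht2 : t ^ 2 = 1 := by rw [← ht]; exact pow_orderOf_eq_one t
    have h4 : σb t = t := by
      rw [hinv t]
      exact inv_eq_of_mul_eq_one_left (by rw [← pow_two]; exact ht2)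
    have h5 := hfixb t h4
    rw [h5, orderOf_one] at ht
    norm_num at ht
  · rw [Subgroup.commutator_le]
    intro a ha b hb
    have h1 : ((⁅(⟨a, ha⟩ : ↥U), ⟨b, hb⟩⁆ : ↥U) : ↥U ⧸ V.subgroupOf U) = 1 := by
      rw [commutatorElement_def]
      simp only [QuotientGroup.mk_mul, QuotientGroup.mk_inv]
      rw [hcommQ (↑(⟨a, ha⟩ : ↥U)) ↑(⟨b, hb⟩ : ↥U)]
      group
    rw [QuotientGroup.eq_one_iff, Subgroup.mem_subgroupOf] at h1
    exact h1

end Cfsg.Agent.S3825
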