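import Mathlib
import Cfsg.Statements.S3836
import Cfsg.Agent.Lib.Helper7.PCore

set_option autoImplicit false
open Cfsg
open scoped commutatorElement

namespace Cfsg.Agent.S3836

/-- Let G be a finite group that is p-stable in the normalizer form: for every p-subgroup Q and every x ∈ N_G(Q) with [Q, x, x] = 1, the image of x in N_G(Q)/C_G(Q) lies in O_p(N_G(Q)/C_G(Q)). Then every subgroup of G is p-stable in the same sense. -/
theorem result {G : Type*} [Group G] [Finite G] {p : ℕ} [Fact p.Prime] (hst : Cfsg.IsNormalizerPStable p G) (H : Subgroup G) : Cfsg.IsNormalizerPStable p ↥H := by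
  intro P hP g hg hq
  -- the image of `P` in `G`
  have hP' : IsPGroup p ↥(P.map H.subtype) := hP.map H.subtype
  have hNle : ∀ x : ↥H, x ∈ Subgroup.normalizer (P : Set ↥H) →
      (x : G) ∈ Subgroup.normalizer ((P.map H.subtype : Subgroup G) : Set G) := by
    intro x hx
    exact Subgroup.le_normalizer_map H.subtype ⟨x, hx, rfl⟩
  have hg' : (g : G) ∈ Subgroup.normalizer ((P.map H.subtype : Subgroup G) : Set G) := hNle g hg
  have hq' : ⁅⁅P.map H.subtype, Subgroup.zpowers (g : G)⁆, Subgroup.zpowers (g : G)⁆ = ⊥ := by
    have h1 : (Subgroup.zpowers g).map H.subtype = Subgroup.zpowers (g : G) :=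
      MonoidHom.map_zpowers H.subtype g
    rw [← h1, ← Subgroup.map_commutator, ← Subgroup.map_commutator, hq, Subgroup.map_bot]
  have key := hst (P.map H.subtype) hP' (g : G) hg' hq'
  -- the comparison map between the normalizers
  let φ : ↥(Subgroup.normalizer (P : Set ↥H)) →*
      ↥(Subgroup.normalizer ((P.map H.subtype : Subgroup G) : Set G)) :=
    (H.subtype.comp (Subgroup.normalizer (P : Set ↥H)).subtype).codRestrict _
      (fun x => hNle x.1 x.2)
  have hφ : ∀ x : ↥(Subgroup.normalizer (P : Set ↥H)),
      ((φ x : ↥(Subgroup.normalizer ((P.map H.subtype : Subgroup G) : Set G))) : G) =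
        ((x : ↥H) : G) := fun x => rfl
  have hcomap : (Subgroup.centralizer (P : Set ↥H)).subgroupOf (Subgroup.normalizer (P : Set ↥H)) ≤
      ((Subgroup.centralizer ((P.map H.subtype : Subgroup G) : Set G)).subgroupOf
        (Subgroup.normalizer ((P.map H.subtype : Subgroup G) : Set G))).comap φ := by
    intro x hx
    rw [Subgroup.mem_comap, Subgroup.mem_subgroupOf, hφ]
    rw [Subgroup.mem_subgroupOf] at hx
    rw [Subgroup.mem_centralizer_iff]
    rintro _ ⟨y, hy, rfl⟩
    have h1 := Subgroup.mem_centralizer_iff.mp hx y hy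
    have h2 := congrArg Subtype.val h1
    exact h2
  let ι := QuotientGroup.map
    ((Subgroup.centralizer (P : Set ↥H)).subgroupOf (Subgroup.normalizer (P : Set ↥H)))
    ((Subgroup.centralizer ((P.map H.subtype : Subgroup G) : Set G)).subgroupOf
        (Subgroup.normalizer ((P.map H.subtype : Subgroup G) : Set G))) φ hcomap
  have hι : Function.Injective ι := by
    rw [injective_iff_map_eq_one]
    intro t
    induction t using QuotientGroup.induction_on with
    | H x =>
      intro h
      have h1 : φ x ∈ (Subgroup.centralizer ((P.map H.subtype : Subgroup G) : Set G)).subgroupOf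
          (Subgroup.normalizer ((P.map H.subtype : Subgroup G) : Set G)) :=
        (QuotientGroup.eq_one_iff _).mp h
      rw [Subgroup.mem_subgroupOf, hφ] at h1
      rw [QuotientGroup.eq_one_iff, Subgroup.mem_subgroupOf, Subgroup.mem_centralizer_iff]
      intro y hy
      have h2 := Subgroup.mem_centralizer_iff.mp h1 (y : G) ⟨y, hy, rfl⟩
      exact Subtype.ext h2
  have hNn : ((pCore p (↥(Subgroup.normalizer ((P.map H.subtype : Subgroup G) : Set G)) ⧸
      (Subgroup.centralizer ((P.map H.subtype : Subgroup G) : Set G)).subgroupOf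
        (Subgroup.normalizer ((P.map H.subtype : Subgroup G) : Set G)))).comap ι).Normal :=
    (Cfsg.Agent.Lib.Helper7.pCore_normal p _).comap ι
  have hNp : IsPGroup p ↥((pCore p (↥(Subgroup.normalizer ((P.map H.subtype : Subgroup G) : Set G)) ⧸
      (Subgroup.centralizer ((P.map H.subtype : Subgroup G) : Set G)).subgroupOf
        (Subgroup.normalizer ((P.map H.subtype : Subgroup G) : Set G)))).comap ι) :=
    (Cfsg.Agent.Lib.Helper7.pCore_isPGroup p _).comap_of_injective ι hι
  have hle : (pCore p (↥(Subgroup.normalizer ((P.map H.subtype : Subgroup G) : Set G)) ⧸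
      (Subgroup.centralizer ((P.map H.subtype : Subgroup G) : Set G)).subgroupOf
        (Subgroup.normalizer ((P.map H.subtype : Subgroup G) : Set G)))).comap ι ≤
      pCore p (↥(Subgroup.normalizer (P : Set ↥H)) ⧸
        (Subgroup.centralizer (P : Set ↥H)).subgroupOf (Subgroup.normalizer (P : Set ↥H))) :=
    le_sSup ⟨hNn, hNp⟩
  apply hle
  rw [Subgroup.mem_comap]
  exact key

end Cfsg.Agent.S3836
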