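import Cfsg.Statements.S3838
import Mathlib
import Cfsg.Agent.Lib.Helper9.FusionNPC

set_option autoImplicit false
open Cfsg

namespace Cfsg.Agent.S3838

open scoped commutatorElement


/-- Let G be a finite group with Sylow p-subgroup P such that N_G(P) has a normal p-complement. Then N_G(Q) has a normal p-complement for every subgroup Q with [P, P] ≤ Q ≤ Φ(P). -/
theorem result {G : Type*} [Group G] [Finite G] {p : ℕ} [Fact p.Prime] (P : Sylow p G) (hN : Cfsg.HasNormalPComplement p ↥(Subgroup.normalizer ((P : Subgroup G) : Set G))) (Q : Subgroup G) (h1 : (commutator ↥(P : Subgroup G)).map (P : Subgroup G).subtype ≤ Q) (h2 : Q ≤ (frattini ↥(P : Subgroup G)).map (P : Subgroup G).subtype) : Cfsg.HasNormalPComplement p ↥(Subgroup.normalizer (Q : Set G)) := by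
  classical
  have hQP : Q ≤ (P : Subgroup G) := fun x hx => by
    obtain ⟨y, _, rfl⟩ := h2 hx
    exact y.2
  have hcommG : ∀ x ∈ (P : Subgroup G), ∀ y ∈ (P : Subgroup G), ⁅x, y⁆ ∈ Q := by
    intro x hx y hy
    apply h1
    refine ⟨⁅(⟨x, hx⟩ : (P : Subgroup G)), ⟨y, hy⟩⁆, ?_, rfl⟩
    rw [SetLike.mem_coe, commutator_def]
    exact Subgroup.commutator_mem_commutator (Subgroup.mem_top _) (Subgroup.mem_top _)
  have hPM : (P : Subgroup G) ≤ Subgroup.normalizer (Q : Set G) := by
    intro x hx
    rw [Subgroup.mem_normalizer_iff]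
    intro q
    constructor
    · intro hq
      have e : x * q * x⁻¹ = ⁅x, q⁆ * q := by rw [commutatorElement_def]; group
      rw [e]; exact Q.mul_mem (hcommG x hx q (hQP hq)) hq
    · intro hq
      have e : q = ⁅x⁻¹, x * q * x⁻¹⁆ * (x * q * x⁻¹) := by rw [commutatorElement_def]; group
      rw [e]; exact Q.mul_mem (hcommG _ (Subgroup.inv_mem _ hx) _ (hQP hq)) hq
  have hdec : ∀ n ∈ Subgroup.normalizer ((P : Subgroup G) : Set G), ∃ k u : G,
      u ∈ (P : Subgroup G) ∧ (∀ y ∈ (P : Subgroup G), k * y = y * k) ∧ n = k * u := by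
    obtain ⟨K₁, hK₁n, hK₁c, a, ha⟩ := Cfsg.Agent.Lib.Helper2.hasNormalPComplement_iff.mp hN
    have hcompl := Cfsg.Agent.Lib.Helper2.isComplement'_of_coprime_card_of_index_pow K₁ hK₁c ha
      (P.subtype Subgroup.le_normalizer)
    have hP₁n : ((P : Subgroup G).subgroupOf
        (Subgroup.normalizer ((P : Subgroup G) : Set G))).Normal := Subgroup.normal_in_normalizer
    have hdisj : K₁ ⊓ (P : Subgroup G).subgroupOf
        (Subgroup.normalizer ((P : Subgroup G) : Set G)) = ⊥ := by
      have h := hcompl.disjoint.eq_bot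
      rwa [Sylow.coe_subtype] at h
    have hcent : ∀ k ∈ K₁, ∀ y ∈ (P : Subgroup G), (k : G) * y = y * k := by
      intro k hk y hy
      have hyN : y ∈ Subgroup.normalizer ((P : Subgroup G) : Set G) := Subgroup.le_normalizer hy
      have hy' : (⟨y, hyN⟩ : Subgroup.normalizer ((P : Subgroup G) : Set G)) ∈
          (P : Subgroup G).subgroupOf _ := hy
      have key : ∀ y' : Subgroup.normalizer ((P : Subgroup G) : Set G),
          y' ∈ (P : Subgroup G).subgroupOf _ → k * y' = y' * k := by
        intro y' hy'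
        have hmem : k * y' * k⁻¹ * y'⁻¹ ∈ K₁ ⊓ (P : Subgroup G).subgroupOf
            (Subgroup.normalizer ((P : Subgroup G) : Set G)) := by
          refine Subgroup.mem_inf.mpr ⟨?_, ?_⟩
          · have h := hK₁n.conj_mem k⁻¹ (K₁.inv_mem hk) y'
            have e : k * y' * k⁻¹ * y'⁻¹ = k * (y' * k⁻¹ * y'⁻¹) := by group
            rw [e]; exact K₁.mul_mem hk h
          · have h := hP₁n.conj_mem y' hy' k
            exact Subgroup.mul_mem _ h (Subgroup.inv_mem _ hy')
        rw [hdisj, Subgroup.mem_bot] at hmem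
        calc k * y' = (k * y' * k⁻¹ * y'⁻¹) * (y' * k) := by group
          _ = y' * k := by rw [hmem, one_mul]
      exact congrArg Subtype.val (key ⟨y, hyN⟩ hy')
    intro n hn
    obtain ⟨⟨k, u⟩, hku⟩ := hcompl.2 ⟨n, hn⟩
    refine ⟨((k : Subgroup.normalizer ((P : Subgroup G) : Set G)) : G),
      ((u : Subgroup.normalizer ((P : Subgroup G) : Set G)) : G), ?_, hcent k k.2, ?_⟩
    · exact (show ((u : Subgroup.normalizer ((P : Subgroup G) : Set G)) : G) ∈ (P : Subgroup G)
        from u.2)
    · have h := congrArg Subtype.val hku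
      exact h.symm
  have : (Q.subgroupOf (Subgroup.normalizer (Q : Set G))).Normal := Subgroup.normal_in_normalizer
  apply Cfsg.Agent.Lib.Helper9.npc_of_fusion (P.subtype hPM)
    (Q.subgroupOf (Subgroup.normalizer (Q : Set G)))
  · intro x hx
    exact (show (x : G) ∈ (P : Subgroup G) from hQP hx)
  · intro x hx y hy
    exact (show ⁅(x : G), (y : G)⁆ ∈ Q from hcommG x hx y hy)
  · intro H hHP hle
    have hK : ((H.map (Subgroup.normalizer (Q : Set G)).subtype).subgroupOf (P : Subgroup G)) ⊔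
        frattini ↥(P : Subgroup G) = ⊤ := by
      rw [eq_top_iff]
      intro y _
      have hyM : (⟨(y : G), hPM y.2⟩ : Subgroup.normalizer (Q : Set G)) ∈
          (P.subtype hPM : Subgroup _) := y.2
      obtain ⟨q, hq, h, hh, hqh⟩ := Subgroup.mem_sup_of_normal_left.mp (hle hyM)
      obtain ⟨f, hf, hfq⟩ := h2 (show (q : G) ∈ Q from hq)
      have hhP : (h : G) ∈ (P : Subgroup G) := hHP hh
      have e : y = f * ⟨(h : G), hhP⟩ := by
        apply Subtype.ext
        have h3 : (q : G) * (h : G) = (y : G) := congrArg Subtype.val hqh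
        have hfq' : (f : G) = (q : G) := hfq
        show (y : G) = (f : G) * (h : G)
        rw [hfq', h3]
      rw [e]
      refine Subgroup.mul_mem _ (Subgroup.mem_sup_right hf) (Subgroup.mem_sup_left ?_)
      exact ⟨h, hh, rfl⟩
    have hK' := frattini_nongenerating hK
    apply le_antisymm hHP
    intro x hx
    have hxP : (x : G) ∈ (P : Subgroup G) := hx
    have h3 : (⟨(x : G), hxP⟩ : (P : Subgroup G)) ∈
        (H.map (Subgroup.normalizer (Q : Set G)).subtype).subgroupOf (P : Subgroup G) := by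
      rw [hK']; exact Subgroup.mem_top _
    obtain ⟨h, hh, hhx⟩ := h3
    have e : h = x := Subtype.ext hhx
    rw [← e]; exact hh
  · intro n hn x hx
    have hxP : (x : G) ∈ (P : Subgroup G) := hx
    have hnG : (n : G) ∈ Subgroup.normalizer ((P : Subgroup G) : Set G) := by
      rw [Subgroup.mem_normalizer_iff]
      intro y
      rw [Subgroup.mem_normalizer_iff] at hn
      constructor
      · intro hy
        exact (hn ⟨y, hPM hy⟩).mp hy
      · intro hy
        have hyM : y ∈ Subgroup.normalizer (Q : Set G) := by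
          have h3 := Subgroup.mul_mem _ (Subgroup.mul_mem _ (Subgroup.inv_mem _ n.2) (hPM hy)) n.2
          have e : (n : G)⁻¹ * ((n : G) * y * (n : G)⁻¹) * (n : G) = y := by group
          rwa [e] at h3
        exact (hn ⟨y, hyM⟩).mpr hy
    obtain ⟨k, u, hu, hk, hnku⟩ := hdec n hnG
    show ⁅(x : G), (n : G)⁆ ∈ Q
    have e1 : k * (x : G) = (x : G) * k := hk x hxP
    have hcu : ⁅(x : G), u⁆ ∈ (P : Subgroup G) := hQP (hcommG x hxP u hu)
    have e2 : k * ⁅(x : G), u⁆ = ⁅(x : G), u⁆ * k := hk _ hcu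
    have e3 : ⁅(x : G), (n : G)⁆ = ⁅(x : G), u⁆ := by
      rw [hnku]
      calc ⁅(x : G), k * u⁆ = ((x : G) * k) * u * (x : G)⁻¹ * u⁻¹ * k⁻¹ := by
            rw [commutatorElement_def]; group
        _ = (k * (x : G)) * u * (x : G)⁻¹ * u⁻¹ * k⁻¹ := by rw [e1]
        _ = (k * ⁅(x : G), u⁆) * k⁻¹ := by rw [commutatorElement_def]; group
        _ = ⁅(x : G), u⁆ * k * k⁻¹ := by rw [e2]
        _ = ⁅(x : G), u⁆ := by group
    rw [e3]
    exact hcommG x hxP u hu

end Cfsg.Agent.S3838
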