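import Mathlib
import Cfsg.Statements.S3858
import Cfsg.Agent.Lib.Helper5.AS
import Cfsg.Agent.Lib.Helper8.Invol

set_option autoImplicit false
open Cfsg

namespace Cfsg.Agent.S3858

open Cfsg.Agent.Lib.Helper5 Cfsg.Agent.Lib.Helper8

/-- Let G be a finite group with a normal non-abelian simple subgroup T whose centralizer is trivial (G almost simple with socle T), r a prime and R a Sylow r-subgroup of G meeting T nontrivially. Then R lies in exactly one maximal subgroup of G if and only if G has exactly one conjugacy class of maximal subgroups whose index is prime to r. -/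
theorem result {G : Type*} [Group G] [Finite G] (T : Subgroup G) [T.Normal] (hT : IsSimpleGroup T) (hna : ¬ IsMulCommutative T)
    (hC : Subgroup.centralizer (T : Set G) = ⊥) {r : ℕ} [Fact r.Prime] (R : Sylow r G) (hR0 : (R : Subgroup G) ⊓ T ≠ ⊥) :
    (∃! M : Subgroup G, IsCoatom M ∧ (R : Subgroup G) ≤ M) ↔
      ((∃ M : Subgroup G, IsCoatom M ∧ ¬ r ∣ M.index) ∧
        ∀ M₁ M₂ : Subgroup G, IsCoatom M₁ → ¬ r ∣ M₁.index → IsCoatom M₂ → ¬ r ∣ M₂.index → ∃ g : G, M₂ = M₁.map (MulAut.conj g).toMonoidHom) := by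
  classical
  have L1 : ∀ M : Subgroup G, (R : Subgroup G) ≤ M → ¬ r ∣ M.index := fun M hM hdvd =>
    R.not_dvd_index (dvd_trans hdvd (Subgroup.index_dvd_of_le hM))
  constructor
  · rintro ⟨M, ⟨hMc, hRM⟩, huniq⟩
    refine ⟨⟨M, hMc, L1 M hRM⟩, ?_⟩
    intro M₁ M₂ h1 h1' h2 h2'
    obtain ⟨g₁, hg₁⟩ := exists_conj_ge_sylow R M₁ h1'
    obtain ⟨g₂, hg₂⟩ := exists_conj_ge_sylow R M₂ h2'
    have e1 := huniq _ ⟨isCoatom_map_conj g₁ h1, hg₁⟩
    have e2 := huniq _ ⟨isCoatom_map_conj g₂ h2, hg₂⟩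
    refine ⟨g₂⁻¹ * g₁, ?_⟩
    rw [h8_map_conj_mul, e1, ← e2, ← h8_map_conj_mul, inv_mul_cancel, h8_map_conj_one]
  · rintro ⟨⟨M₀, hM₀c, hM₀⟩, hconj⟩
    have hNR : Subgroup.normalizer ((R : Subgroup G) : Set G) ≠ ⊤ := by
      intro htop
      have hn : (R : Subgroup G).Normal := Subgroup.normalizer_eq_top_iff.1 htop
      have hn2 : ((R : Subgroup G) ⊓ T).Normal := Subgroup.normal_inf_normal _ _
      exact normalizer_ne_top_of_le_simple T hT hna ((R : Subgroup G) ⊓ T)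
        (R.isPGroup'.to_le inf_le_left) inf_le_right hR0 (Subgroup.normalizer_eq_top_iff.2 hn2)
    obtain ⟨M₃, hM₃c, hM₃⟩ := (eq_top_or_exists_le_coatom _).resolve_left hNR
    have hRM₃ : (R : Subgroup G) ≤ M₃ := le_trans Subgroup.le_normalizer hM₃
    refine ⟨M₃, ⟨hM₃c, hRM₃⟩, ?_⟩
    rintro M' ⟨hM'c, hRM'⟩
    obtain ⟨g, hg⟩ := hconj M₃ M' hM₃c (L1 _ hRM₃) hM'c (L1 _ hRM')
    have hgR : ∀ y ∈ ((g • R : Sylow r G) : Subgroup G), y ∈ M' := by
      intro y hy
      rw [h8_mem_smul_sylow] at hy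
      rw [hg, h8_mem_map_conj]
      exact hRM₃ hy
    obtain ⟨m, hm⟩ := h8_exists_conj_sylow_ge (R.subtype hRM')
      (Q := ((g • R : Sylow r G) : Subgroup G).subgroupOf M')
      ((g • R : Sylow r G).isPGroup'.comap_subtype)
    obtain ⟨mG, hmG⟩ := m
    have hn : mG⁻¹ * g ∈ Subgroup.normalizer ((R : Subgroup G) : Set G) := by
      apply h8_mem_normalizer_of_conj_mem
      intro x hx
      have hy : g * x * g⁻¹ ∈ ((g • R : Sylow r G) : Subgroup G) := by
        rw [h8_mem_smul_sylow]; simpa [mul_assoc] using hx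
      have := hm ⟨g * x * g⁻¹, hgR _ hy⟩ (by rw [Subgroup.mem_subgroupOf]; exact hy)
      rw [Sylow.coe_subtype, Subgroup.mem_subgroupOf] at this
      have e : mG⁻¹ * g * x * (mG⁻¹ * g)⁻¹ = mG⁻¹ * (g * x * g⁻¹) * mG := by group
      rw [e]; exact this
    have hnM₃ := hM₃ hn
    have e : g = mG * (mG⁻¹ * g) := by group
    have h1 : M₃.map (MulAut.conj (mG⁻¹ * g)).toMonoidHom = M₃ :=
      h8_map_conj_eq_of_mem_normalizer (Subgroup.le_normalizer hnM₃)
    have h2 : M' = M₃.map (MulAut.conj mG).toMonoidHom := by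
      rw [hg]; conv_lhs => rw [e]
      rw [h8_map_conj_mul, h1]
    have h3 : (M₃.map (MulAut.conj mG).toMonoidHom).map (MulAut.conj mG⁻¹).toMonoidHom =
        M'.map (MulAut.conj mG⁻¹).toMonoidHom := by rw [← h2]
    rw [← h8_map_conj_mul, inv_mul_cancel, h8_map_conj_one,
      h8_map_conj_eq_of_mem_normalizer (Subgroup.le_normalizer (M'.inv_mem hmG))] at h3
    exact h3.symm

end Cfsg.Agent.S3858
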