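import Mathlib
import Cfsg.Statements.S3859
import Cfsg.Agent.Lib.Helper5.AS
import Cfsg.Agent.Lib.Helper8.Invol

set_option autoImplicit false
open Cfsg

namespace Cfsg.Agent.S3859

open Cfsg.Agent.Lib.Helper5 Cfsg.Agent.Lib.Helper8

/-- Let G be a finite group with a normal non-abelian simple subgroup T whose centralizer is trivial (G almost simple with socle T), r a prime and R a Sylow r-subgroup of G meeting T nontrivially. If R lies in exactly one maximal subgroup of G, then G/T is an r-group. -/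
theorem result {G : Type*} [Group G] [Finite G] (T : Subgroup G) [T.Normal] (hT : IsSimpleGroup T) (hna : ¬ IsMulCommutative T)
    (hC : Subgroup.centralizer (T : Set G) = ⊥) {r : ℕ} [Fact r.Prime] (R : Sylow r G) (hR0 : (R : Subgroup G) ⊓ T ≠ ⊥)
    (huniq : ∃! M : Subgroup G, IsCoatom M ∧ (R : Subgroup G) ≤ M) : IsPGroup r (G ⧸ T) := by
  classical
  obtain ⟨M, ⟨hMc, hRM⟩, huniq⟩ := huniq
  have hD0 := normalizer_ne_top_of_le_simple T hT hna ((R : Subgroup G) ⊓ T)
    (R.isPGroup'.to_le inf_le_left) inf_le_right hR0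
  have hRN : (R : Subgroup G) ≤
      Subgroup.normalizer (((R : Subgroup G) ⊓ T : Subgroup G) : Set G) := by
    intro x hx
    apply h8_mem_normalizer_of_conj_mem
    rintro y ⟨hyR, hyT⟩
    exact ⟨(R : Subgroup G).mul_mem ((R : Subgroup G).mul_mem hx hyR) ((R : Subgroup G).inv_mem hx),
      (inferInstance : T.Normal).conj_mem y hyT x⟩
  obtain ⟨M₂, hM₂c, hM₂⟩ := (eq_top_or_exists_le_coatom _).resolve_left hD0
  have hM₂M : M₂ = M := huniq M₂ ⟨hM₂c, le_trans hRN hM₂⟩
  have hsup : (R : Subgroup G) ⊔ T = ⊤ := by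
    by_contra hne
    obtain ⟨M₁, hM₁c, hM₁⟩ := (eq_top_or_exists_le_coatom _).resolve_left hne
    have hM₁M : M₁ = M := huniq M₁ ⟨hM₁c, le_trans le_sup_left hM₁⟩
    have hfr := frattini_inf_normal T R
    have : (⊤ : Subgroup G) ≤ M := by
      rw [← hfr]
      exact sup_le (hM₂M ▸ hM₂) (hM₁M ▸ (le_trans le_sup_right hM₁))
    exact hMc.1 (top_le_iff.1 this)
  intro q
  obtain ⟨g, rfl⟩ := QuotientGroup.mk_surjective q
  have hg : g ∈ T ⊔ (R : Subgroup G) := by rw [sup_comm, hsup]; trivial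
  have hN : (R : Subgroup G) ≤ Subgroup.normalizer (T : Set G) := by
    rw [Subgroup.normalizer_eq_top T]; exact le_top
  obtain ⟨t, ht, x, hx, rfl⟩ := h8_mem_sup_of_le_normalizer hN hg
  obtain ⟨k, hk⟩ := R.isPGroup' ⟨x, hx⟩
  refine ⟨k, ?_⟩
  have hk' : x ^ r ^ k = 1 := by simpa using congrArg Subtype.val hk
  rw [QuotientGroup.mk_mul, (QuotientGroup.eq_one_iff t).2 ht, one_mul, ← QuotientGroup.mk_pow, hk']
  rfl

end Cfsg.Agent.S3859
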