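import Mathlib
import Cfsg.Statements.S3863
import Cfsg.Agent.Lib.Helper5.BF
import Cfsg.Agent.Lib.Helper8.DirectFactor

set_option autoImplicit false
open Cfsg

namespace Cfsg.Agent.S3863

open Cfsg.Agent.Lib.Helper5 Cfsg.Agent.Lib.Helper8

theorem mem_of_pow_mem_of_coprime_index {G : Type*} [Group G] [Finite G] (N : Subgroup G)
    [N.Normal] {g : G} {k : ℕ} (hk : k.Coprime N.index) (h : g ^ k ∈ N) : g ∈ N := by
  apply h8_mem_of_pow_mem_of_coprime hk h
  rw [← QuotientGroup.eq_one_iff, QuotientGroup.mk_pow, Subgroup.index_eq_card]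
  exact pow_card_eq_one'

/-- Let x be an element of the finite group G that is conjugate to its inverse. Then some 2-element conjugates x to its inverse; if the conjugacy class of x has odd size then x ^ 2 = 1; and x lies in, and is conjugate to its inverse inside, every normal subgroup of odd index. -/
theorem result {G : Type*} [Group G] [Finite G] (x : G) (hx : IsConj x x⁻¹) : (∃ t : G, (∃ j : ℕ, orderOf t = 2 ^ j) ∧ t * x * t⁻¹ = x⁻¹) ∧ (Odd (Subgroup.centralizer ({x} : Set G)).index → x ^ 2 = 1) ∧ ∀ (N : Subgroup G) [N.Normal], Odd N.index → ∃ hxN : x ∈ N, IsConj (⟨x, hxN⟩ : N) (⟨x, hxN⟩ : N)⁻¹ := by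
  classical
  obtain ⟨g, hg⟩ := isConj_iff.1 hx
  have hgx : g * x = x⁻¹ * g := by rw [← hg]; group
  have hgx' : g * x⁻¹ = x * g := by
    have h : g * x⁻¹ * g⁻¹ = x := by
      have e : g * x⁻¹ * g⁻¹ = (g * x * g⁻¹)⁻¹ := by group
      rw [e, hg, inv_inv]
    calc g * x⁻¹ = (g * x⁻¹ * g⁻¹) * g := by group
      _ = x * g := by rw [h]
  have hg2 : Commute (g ^ 2) x := by
    show g ^ 2 * x = x * g ^ 2
    rw [sq, mul_assoc, hgx, ← mul_assoc, hgx', mul_assoc]
  have hodd : ∀ i : ℕ, g ^ (2 * i + 1) * x * (g ^ (2 * i + 1))⁻¹ = x⁻¹ := by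
    intro i
    have hc : Commute ((g ^ 2) ^ i) x⁻¹ := (hg2.pow_left i).inv_right
    have e : g ^ (2 * i + 1) * x * (g ^ (2 * i + 1))⁻¹ =
        (g ^ 2) ^ i * (g * x * g⁻¹) * ((g ^ 2) ^ i)⁻¹ := by
      rw [pow_succ, pow_mul, mul_inv_rev]
      simp only [mul_assoc]
    rw [e, hg, hc.eq, mul_assoc, mul_inv_cancel, mul_one]
  have hpart1 : ∃ t : G, (∃ j : ℕ, orderOf t = 2 ^ j) ∧ t * x * t⁻¹ = x⁻¹ := by
    have hn : orderOf g ≠ 0 := (orderOf_pos g).ne'
    obtain ⟨j, m, hm, hnm⟩ := Nat.exists_eq_two_pow_mul_odd hn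
    obtain ⟨i, rfl⟩ := hm
    refine ⟨g ^ (2 * i + 1), ⟨j, ?_⟩, hodd i⟩
    rw [orderOf_pow_of_dvd (by omega) (by rw [hnm]; exact dvd_mul_left _ _), hnm]
    exact Nat.mul_div_cancel _ (by omega)
  refine ⟨hpart1, ?_, ?_⟩
  · intro hoddidx
    by_contra hne
    have hne' : x ≠ x⁻¹ := by
      intro h
      apply hne
      rw [sq]
      nth_rewrite 2 [h]
      exact mul_inv_cancel x
    have h1 := card_extCentralizer x hx hne'
    have h2 := Subgroup.card_mul_index (Subgroup.centralizer ({x} : Set G))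
    have h3 : Nat.card (extCentralizer x) ∣ Nat.card G := Subgroup.card_subgroup_dvd_card _
    rw [h1, ← h2] at h3
    have hpos : 0 < Nat.card (Subgroup.centralizer ({x} : Set G)) := Nat.card_pos
    have h4 : 2 ∣ (Subgroup.centralizer ({x} : Set G)).index := by
      rw [mul_comm 2] at h3
      exact (Nat.mul_dvd_mul_iff_left hpos).1 h3
    exact (Nat.not_even_iff_odd.2 hoddidx) (even_iff_two_dvd.2 h4)
  · intro N _ hN
    obtain ⟨t, ⟨j, hj⟩, ht⟩ := hpart1
    have hcop : ∀ k : ℕ, (2 ^ k).Coprime N.index := fun k =>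
      Nat.Coprime.pow_left k (Nat.coprime_two_left.2 hN)
    have htN : t ∈ N := by
      apply mem_of_pow_mem_of_coprime_index N (hcop j)
      rw [← hj, pow_orderOf_eq_one]; exact N.one_mem
    have hxN : x ∈ N := by
      apply mem_of_pow_mem_of_coprime_index N (hcop 1)
      have h1 : x * t⁻¹ * x⁻¹ ∈ N := (inferInstance : N.Normal).conj_mem _ (N.inv_mem htN) x
      have h2 : t * (x * t⁻¹ * x⁻¹) ∈ N := N.mul_mem htN h1
      have e2 : x ^ 2 ^ 1 = (t * (x * t⁻¹ * x⁻¹))⁻¹ := by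
        have : t * (x * t⁻¹ * x⁻¹) = (t * x * t⁻¹) * x⁻¹ := by group
        rw [this, ht]; group
      rw [e2]; exact N.inv_mem h2
    refine ⟨hxN, ?_⟩
    rw [isConj_iff]
    refine ⟨⟨t, htN⟩, ?_⟩
    apply Subtype.ext
    simpa using ht

end Cfsg.Agent.S3863
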