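import Mathlib
import Cfsg.Statements.S3861
import Cfsg.Agent.Lib.Helper2.SZCyclic
import Cfsg.Agent.S0200
import Cfsg.Agent.S3863

set_option autoImplicit false
open Cfsg

namespace Cfsg.Agent.S3861

open Cfsg.Agent.Lib.Helper2

/-- A finite group G has no non-identity element of odd order that is conjugate to its inverse if and only if the Sylow 2-subgroups of G are normal. -/
theorem result {G : Type*} [Group G] [Finite G] (P : Sylow 2 G) : (∀ x : G, x ≠ 1 → Odd (orderOf x) → ¬ IsConj x x⁻¹) ↔ (P : Subgroup G).Normal := by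
  classical
  have hp2 : Nat.Prime 2 := Nat.prime_two
  constructor
  · intro hyp
    by_contra hPn
    obtain ⟨N, hNn, hNP, hNmax⟩ : ∃ N : Subgroup G, N.Normal ∧ N ≤ (P : Subgroup G) ∧
        ∀ M : Subgroup G, M.Normal → M ≤ (P : Subgroup G) → M ≤ N :=
      ⟨(P : Subgroup G).normalCore, inferInstance, Subgroup.normalCore_le _,
        fun M hM h => (Subgroup.normal_le_normalCore (hN := hM)).2 h⟩
    haveI := hNn
    have hN2 : IsPGroup 2 N := P.isPGroup'.to_le hNP
    obtain ⟨kN, hkN⟩ := (IsPGroup.iff_card).1 hN2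
    -- index of N is even
    have heven : 2 ∣ Nat.card (G ⧸ N) := by
      by_contra hodd
      rw [← Subgroup.index_eq_card] at hodd
      have hoddN : Odd N.index := Nat.odd_iff.2 (Nat.two_dvd_ne_zero.1 hodd)
      have hPN : (P : Subgroup G) ≤ N := by
        intro x hx
        obtain ⟨k, hk⟩ := P.isPGroup' ⟨x, hx⟩
        have hk' : x ^ 2 ^ k = 1 := by simpa using congrArg Subtype.val hk
        apply Cfsg.Agent.S3863.mem_of_pow_mem_of_coprime_index N
          (Nat.Coprime.pow_left k (Nat.coprime_two_left.2 hoddN))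
        rw [hk']; exact N.one_mem
      have : (P : Subgroup G) = N := le_antisymm hPN hNP
      apply hPn
      rw [this]; infer_instance
    obtain ⟨tb, htb⟩ := exists_prime_orderOf_dvd_card' (G := G ⧸ N) 2 heven
    have hO : ∀ M : Subgroup (G ⧸ N), M.Normal → IsPGroup 2 M → tb ∉ M := by
      intro M hMn hM2 htM
      have hcn : (M.comap (QuotientGroup.mk' N)).Normal := hMn.comap _
      have hc2 : IsPGroup 2 (M.comap (QuotientGroup.mk' N)) := by
        rintro ⟨x, hx⟩
        obtain ⟨a, ha⟩ := hM2 ⟨(x : G ⧸ N), hx⟩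
        have ha' : ((x ^ 2 ^ a : G) : G ⧸ N) = 1 := by
          simpa using congrArg Subtype.val ha
        rw [QuotientGroup.eq_one_iff] at ha'
        obtain ⟨b, hb⟩ := hN2 ⟨_, ha'⟩
        have hb' : (x ^ 2 ^ a) ^ 2 ^ b = 1 := by simpa using congrArg Subtype.val hb
        refine ⟨a + b, ?_⟩
        apply Subtype.ext
        simp only [Subgroup.coe_pow, Subgroup.coe_one]
        rw [pow_add, pow_mul]; exact hb'
      have hle : M.comap (QuotientGroup.mk' N) ≤ N :=
        hNmax _ hcn (hc2.le_sylow_of_normal P)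
      obtain ⟨t, rfl⟩ := QuotientGroup.mk_surjective tb
      have htN : t ∈ N := hle htM
      have h1 : ((t : G) : G ⧸ N) = 1 := (QuotientGroup.eq_one_iff t).2 htN
      rw [h1, orderOf_one] at htb
      omega
    obtain ⟨hb, hb1, hbodd, hbinv⟩ := Cfsg.Agent.S0200.result tb htb hO
    obtain ⟨t, rfl⟩ := QuotientGroup.mk_surjective tb
    obtain ⟨h, rfl⟩ := QuotientGroup.mk_surjective hb
    obtain ⟨m, hm⟩ : ∃ m : ℕ, m = orderOf ((h : G) : G ⧸ N) := ⟨_, rfl⟩
    rw [← hm] at hbodd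
    have hmc : m.Coprime (2 ^ kN) :=
      Nat.Coprime.pow_right kN (Nat.coprime_two_right.2 hbodd)
    have hgm : (h ^ 2 ^ kN) ^ m = 1 := by
      have h1 : h ^ m ∈ N := by
        rw [← QuotientGroup.eq_one_iff, QuotientGroup.mk_pow, hm, pow_orderOf_eq_one]
      have h2 := pow_card_eq_one' (G := N) (x := ⟨_, h1⟩)
      rw [hkN] at h2
      have h3 : (h ^ m) ^ 2 ^ kN = 1 := by simpa using congrArg Subtype.val h2
      rw [← pow_mul, mul_comm, pow_mul]; exact h3
    obtain ⟨g, hg⟩ : ∃ g : G, g = h ^ 2 ^ kN := ⟨_, rfl⟩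
    rw [← hg] at hgm
    have hgodd : Odd (orderOf g) := by
      have hdvd : orderOf g ∣ m := orderOf_dvd_of_pow_eq_one hgm
      exact Odd.of_dvd_nat hbodd hdvd
    have hgN : g ∉ N := by
      intro hgN
      rw [← QuotientGroup.eq_one_iff, hg, QuotientGroup.mk_pow] at hgN
      have hdvd : m ∣ 2 ^ kN := by rw [hm]; exact orderOf_dvd_of_pow_eq_one hgN
      have hm1 : m = 1 := Nat.Coprime.eq_one_of_dvd hmc hdvd
      rw [hm, orderOf_eq_one_iff] at hm1
      exact hb1 hm1
    have hg1 : g ≠ 1 := fun h1 => hgN (h1 ▸ N.one_mem)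
    have hinv : t * g * t⁻¹ * g ∈ N := by
      rw [← QuotientGroup.eq_one_iff]
      simp only [QuotientGroup.mk_mul, QuotientGroup.mk_inv, hg, QuotientGroup.mk_pow]
      rw [← conj_pow, hbinv, inv_pow, inv_mul_cancel]
    obtain ⟨x, hxN, hx⟩ := sz_cyclic_normal N g (t * g⁻¹ * t⁻¹)
      (by rw [hkN]; exact Nat.Coprime.pow_right kN (Nat.coprime_two_right.2 hgodd))
      (by
        have e : (t * g⁻¹ * t⁻¹)⁻¹ * g = t * g * t⁻¹ * g := by group
        rw [e]; exact hinv)
      (by rw [conj_pow, inv_pow, pow_orderOf_eq_one]; group)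
    apply hyp g hg1 hgodd
    rw [isConj_iff]
    refine ⟨x * t, ?_⟩
    have e : x * t * g * (x * t)⁻¹ = (x * (t * g⁻¹ * t⁻¹) * x⁻¹)⁻¹ := by group
    rw [e, hx]
  · intro hPn x hx1 hxodd hconj
    have hidx : Odd (P : Subgroup G).index :=
      Nat.odd_iff.2 (Nat.two_dvd_ne_zero.1 P.not_dvd_index)
    obtain ⟨hxP, -⟩ := (Cfsg.Agent.S3863.result x hconj).2.2 (P : Subgroup G) hidx
    obtain ⟨k, hk⟩ := P.isPGroup' ⟨x, hxP⟩
    have hk' : x ^ 2 ^ k = 1 := by simpa using congrArg Subtype.val hk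
    have h1 : orderOf x ∣ 2 ^ k := orderOf_dvd_of_pow_eq_one hk'
    have h2 : (orderOf x).Coprime (2 ^ k) := Nat.Coprime.pow_right k (Nat.coprime_two_right.2 hxodd)
    have h3 : orderOf x = 1 := Nat.Coprime.eq_one_of_dvd h2 h1
    exact hx1 (orderOf_eq_one_iff.1 h3)

end Cfsg.Agent.S3861
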