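import Mathlib
import Cfsg.Statements.S3862
import Cfsg.Agent.Lib.Helper2.Frobenius

set_option autoImplicit false
open Cfsg

namespace Cfsg.Agent.S3862

open Cfsg.Agent.Lib.Helper2

/-- If every 2-element of the finite group G that is conjugate to its inverse lies in the centre of G, then G has a normal 2-complement. -/
theorem result {G : Type*} [Group G] [Finite G] (h : ∀ x : G, (∃ j : ℕ, orderOf x = 2 ^ j) → IsConj x x⁻¹ → x ∈ Subgroup.center G) : Cfsg.HasNormalPComplement 2 G := by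
  haveI : Fact (Nat.Prime 2) := ⟨Nat.prime_two⟩
  apply Cfsg.Agent.Lib.Helper2.frobenius
  intro Q hQ g hg hgodd
  have key : ∀ j : ℕ, ∀ u ∈ Q, u ^ 2 ^ j = 1 → g * u = u * g := by
    intro j
    induction j with
    | zero =>
      intro u _ hu
      rw [pow_zero, pow_one] at hu
      rw [hu]; simp
    | succ j ih =>
      intro u huQ hu
      have hu2 : g * u ^ 2 = u ^ 2 * g :=
        ih (u ^ 2) (Q.pow_mem huQ 2) (by rw [← pow_mul, ← pow_succ']; exact hu)
      have hvQ : g * u * g⁻¹ ∈ Q := (Subgroup.mem_normalizer_iff.1 hg u).1 huQ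
      obtain ⟨w, hw⟩ : ∃ w : G, w = u⁻¹ * (g * u * g⁻¹) := ⟨_, rfl⟩
      have hwQ : w ∈ Q := by rw [hw]; exact Q.mul_mem (Q.inv_mem huQ) hvQ
      have hv2 : (g * u * g⁻¹) ^ 2 = u ^ 2 := by
        rw [conj_pow, hu2]; group
      have hreal : IsConj w w⁻¹ := by
        rw [isConj_iff]
        refine ⟨u⁻¹, ?_⟩
        obtain ⟨v, hv⟩ : ∃ v : G, v = g * u * g⁻¹ := ⟨_, rfl⟩
        rw [← hv] at hw hv2
        have e : u⁻¹ * w * u⁻¹⁻¹ = (u ^ 2)⁻¹ * v * u := by rw [hw]; group
        rw [e, ← hv2, hw]; group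
      have hw2 : ∃ j' : ℕ, orderOf w = 2 ^ j' := by
        obtain ⟨k, hk⟩ := hQ ⟨w, hwQ⟩
        have hk' : w ^ 2 ^ k = 1 := by simpa using congrArg Subtype.val hk
        obtain ⟨j', -, hj'⟩ := (Nat.dvd_prime_pow Nat.prime_two).1 (orderOf_dvd_of_pow_eq_one hk')
        exact ⟨j', hj'⟩
      have hwc : w ∈ Subgroup.center G := h w hw2 hreal
      have hcw : ∀ y : G, y * w = w * y := fun y => (Subgroup.mem_center_iff.1 hwc y)
      have e2 : g * u * g⁻¹ = u * w := by rw [hw]; group
      have hconj : ∀ k : ℕ, g ^ k * u * (g ^ k)⁻¹ = u * w ^ k := by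
        intro k
        induction k with
        | zero => simp
        | succ k ihk =>
          have e : g ^ (k + 1) * u * (g ^ (k + 1))⁻¹ = g ^ k * (g * u * g⁻¹) * (g ^ k)⁻¹ := by
            rw [pow_succ]; group
          rw [e, e2]
          calc g ^ k * (u * w) * (g ^ k)⁻¹ = g ^ k * u * (w * (g ^ k)⁻¹) := by group
            _ = g ^ k * u * ((g ^ k)⁻¹ * w) := by rw [hcw]
            _ = (g ^ k * u * (g ^ k)⁻¹) * w := by group
            _ = u * w ^ (k + 1) := by rw [ihk, pow_succ, mul_assoc]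
      have h1 := hconj (orderOf g)
      rw [pow_orderOf_eq_one] at h1
      have hwk : w ^ orderOf g = 1 := by simpa using h1.symm
      have hw1 : w = 1 := by
        obtain ⟨j', hj'⟩ := hw2
        have hd : orderOf w ∣ orderOf g := orderOf_dvd_of_pow_eq_one hwk
        rw [hj'] at hd
        have hcop : (2 ^ j').Coprime (orderOf g) := Nat.Coprime.pow_left j' hgodd.symm
        have h2 : 2 ^ j' = 1 := Nat.Coprime.eq_one_of_dvd hcop hd
        rw [h2] at hj'
        exact orderOf_eq_one_iff.1 hj'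
      have h3 : g * u * g⁻¹ = u := by rw [e2, hw1, mul_one]
      calc g * u = (g * u * g⁻¹) * g := by group
        _ = u * g := by rw [h3]
  rw [Subgroup.mem_centralizer_iff]
  intro u hu
  obtain ⟨k, hk⟩ := hQ ⟨u, hu⟩
  have hk' : u ^ 2 ^ k = 1 := by simpa using congrArg Subtype.val hk
  exact (key k u hu hk').symm

end Cfsg.Agent.S3862
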