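import Mathlib
import Cfsg.Statements.S3866
import Cfsg.Agent.Lib.Helper8.Invol

set_option autoImplicit false
open Cfsg

namespace Cfsg.Agent.S3866

open Cfsg.Agent.Lib.Helper8

/-- Let A be a commutative normal subgroup of the finite group G with G generated by A and an element x. Then a ↦ x a x⁻¹ a⁻¹ is a surjective homomorphism from A onto the commutator subgroup of G whose kernel is the centralizer of x in A; in particular the commutator subgroup has order equal to the index in A of that centralizer. -/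
theorem result {G : Type*} [Group G] [Finite G] (A : Subgroup G) [A.Normal] (hA : IsMulCommutative A) (x : G) (hgen : A ⊔ Subgroup.zpowers x = ⊤) : (∀ a ∈ A, x * a * x⁻¹ * a⁻¹ ∈ commutator G) ∧ (∀ c ∈ commutator G, ∃ a ∈ A, x * a * x⁻¹ * a⁻¹ = c) ∧ (∀ a ∈ A, ∀ b ∈ A, x * (a * b) * x⁻¹ * (a * b)⁻¹ = (x * a * x⁻¹ * a⁻¹) * (x * b * x⁻¹ * b⁻¹)) ∧ Nat.card (commutator G) * Nat.card ↥(A ⊓ Subgroup.centralizer ({x} : Set G)) = Nat.card A := by
  classical
  have hc : ∀ a ∈ A, ∀ b ∈ A, a * b = b * a := fun a ha b hb =>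
    congrArg Subtype.val (hA.is_comm.comm ⟨a, ha⟩ ⟨b, hb⟩)
  have hAn : ∀ a ∈ A, ∀ g : G, g * a * g⁻¹ ∈ A := fun a ha g =>
    (inferInstance : A.Normal).conj_mem a ha g
  have hφA : ∀ a ∈ A, x * a * x⁻¹ * a⁻¹ ∈ A := fun a ha =>
    A.mul_mem (hAn a ha x) (A.inv_mem ha)
  have h3 : ∀ a ∈ A, ∀ b ∈ A, x * (a * b) * x⁻¹ * (a * b)⁻¹ =
      (x * a * x⁻¹ * a⁻¹) * (x * b * x⁻¹ * b⁻¹) := by
    intro a ha b hb
    have e1 : x * (a * b) * x⁻¹ * (a * b)⁻¹ = x * a * x⁻¹ * ((x * b * x⁻¹ * b⁻¹) * a⁻¹) := by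
      group
    rw [e1, hc _ (hφA b hb) _ (A.inv_mem ha)]
    group
  let φ : A →* G :=
    { toFun := fun a => x * a * x⁻¹ * (a : G)⁻¹
      map_one' := by simp
      map_mul' := fun a b => by simpa using h3 a a.2 b b.2 }
  have hφ : ∀ a : A, φ a = x * a * x⁻¹ * (a : G)⁻¹ := fun a => rfl
  have hKA : φ.range ≤ A := by
    rintro _ ⟨a, rfl⟩; exact hφA a a.2
  have hKn : φ.range.Normal := by
    rw [← Subgroup.normalizer_eq_top_iff, eq_top_iff, ← hgen, sup_le_iff]
    constructor
    · intro a ha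
      apply h8_mem_normalizer_of_conj_mem
      intro k hk
      have : a * k * a⁻¹ = k := by rw [hc a ha k (hKA hk)]; group
      rw [this]; exact hk
    · rw [Subgroup.zpowers_le]
      apply h8_mem_normalizer_of_conj_mem
      rintro _ ⟨a, rfl⟩
      refine ⟨⟨x * a * x⁻¹, hAn a a.2 x⟩, ?_⟩
      rw [hφ, hφ]
      simp only []
      group
  -- the quotient by the range is commutative
  have hcomm : ∀ g h : G ⧸ φ.range, g * h = h * g := by
    let S : Set (G ⧸ φ.range) := (QuotientGroup.mk' φ.range) '' ((A : Set G) ∪ {x})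
    have hS : ∀ u ∈ S, ∀ v ∈ S, u * v = v * u := by
      have hxa : ∀ a ∈ A, (QuotientGroup.mk' φ.range) x * (QuotientGroup.mk' φ.range) a =
          (QuotientGroup.mk' φ.range) a * (QuotientGroup.mk' φ.range) x := by
        intro a ha
        rw [← map_mul, ← map_mul]
        apply QuotientGroup.eq.2
        have e : (x * a)⁻¹ * (a * x) = (x * (x⁻¹ * a⁻¹ * x) * x⁻¹ * (x⁻¹ * a⁻¹ * x)⁻¹) := by group
        rw [e]
        have hm : x⁻¹ * a⁻¹ * x ∈ A := by
          have := hAn a⁻¹ (A.inv_mem ha) x⁻¹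
          simpa using this
        exact ⟨⟨_, hm⟩, rfl⟩
      rintro _ ⟨u, hu, rfl⟩ _ ⟨v, hv, rfl⟩
      rcases hu with hu | hu <;> rcases hv with hv | hv
      · rw [← map_mul, ← map_mul, hc u hu v hv]
      · rw [Set.mem_singleton_iff] at hv; subst hv
        exact (hxa u hu).symm
      · rw [Set.mem_singleton_iff] at hu; subst hu
        exact hxa v hv
      · rw [Set.mem_singleton_iff] at hu hv; subst hu; subst hv; rfl
    have hcl : Subgroup.closure S = ⊤ := by
      have h1 : Subgroup.closure ((A : Set G) ∪ {x}) = ⊤ := by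
        rw [Subgroup.closure_union, Subgroup.closure_eq, ← Subgroup.zpowers_eq_closure, hgen]
      rw [← MonoidHom.map_closure, h1, ← MonoidHom.range_eq_map,
        MonoidHom.range_eq_top.2 (QuotientGroup.mk'_surjective _)]
    intro g h
    have hg : g ∈ Subgroup.closure S := by rw [hcl]; trivial
    have hh : h ∈ Subgroup.closure S := by rw [hcl]; trivial
    have := (Subgroup.isMulCommutative_closure hS).is_comm.comm ⟨g, hg⟩ ⟨h, hh⟩
    exact congrArg Subtype.val this
  have hle : commutator G ≤ φ.range := by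
    rw [commutator_def, Subgroup.commutator_le]
    intro g _ h _
    rw [← QuotientGroup.eq_one_iff, commutatorElement_def]
    simp only [QuotientGroup.mk_mul, QuotientGroup.mk_inv]
    rw [hcomm (g : G ⧸ φ.range) (h : G ⧸ φ.range)]
    group
  have h1 : ∀ a ∈ A, x * a * x⁻¹ * a⁻¹ ∈ commutator G := by
    intro a _
    rw [commutator_def, ← commutatorElement_def]
    exact Subgroup.commutator_mem_commutator (Subgroup.mem_top x) (Subgroup.mem_top a)
  have hrange : φ.range = commutator G := by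
    apply le_antisymm
    · rintro _ ⟨a, rfl⟩; exact h1 a a.2
    · exact hle
  refine ⟨h1, ?_, h3, ?_⟩
  · intro c hc'
    obtain ⟨a, rfl⟩ := hle hc'
    exact ⟨a, a.2, rfl⟩
  · have hker : φ.ker = (A ⊓ Subgroup.centralizer ({x} : Set G)).subgroupOf A := by
      ext a
      rw [MonoidHom.mem_ker, hφ, Subgroup.mem_subgroupOf, Subgroup.mem_inf,
        Subgroup.mem_centralizer_iff]
      constructor
      · intro h
        refine ⟨a.2, ?_⟩
        intro y hy
        rw [Set.mem_singleton_iff] at hy; subst hy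
        have e : y * (a : G) = (y * a * y⁻¹ * (a : G)⁻¹) * (a * y) := by group
        rw [e, h, one_mul]
      · rintro ⟨_, h⟩
        have := h x rfl
        have e : x * (a : G) * x⁻¹ * (a : G)⁻¹ = (x * a) * x⁻¹ * (a : G)⁻¹ := by group
        rw [e, this]; group
    have hcard := Subgroup.card_eq_card_quotient_mul_card_subgroup φ.ker
    rw [Nat.card_congr (QuotientGroup.quotientKerEquivRange φ).toEquiv, hker, hrange,
      Nat.card_congr (Subgroup.subgroupOfEquivOfLe (inf_le_left : A ⊓ Subgroup.centralizer ({x} : Set G) ≤ A)).toEquiv] at hcard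
    exact hcard.symm

end Cfsg.Agent.S3866
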