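import Cfsg.Statements.S3867
-- import your own Cfsg.Agent.* helpers here
import Cfsg.Agent.Lib.Helper7.SylowCount
import Cfsg.Agent.Lib.Helper1.StronglyEmb

set_option autoImplicit false
open Cfsg

namespace Cfsg.Agent.S3867


open Subgroup Cfsg.Agent.Lib.Helper7

section
variable {G : Type*} [Group G] [Finite G] {p : ℕ} [Fact p.Prime]

theorem pow_mem_of_mem_sup (P : Sylow p G) (M : Subgroup G) [M.Normal] (e : G)
    (he : e ∈ (P : Subgroup G) ⊔ M) : ∃ k : ℕ, e ^ p ^ k ∈ M := by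
  rw [sup_comm] at he
  obtain ⟨m, hm, a, ha, rfl⟩ := exists_mul_of_mem_sup
    (le_normalizer_of_normal (H := M) (K := (P : Subgroup G))) he
  obtain ⟨j, hj⟩ := P.isPGroup' ⟨a, ha⟩
  refine ⟨j, ?_⟩
  have h1 : a ^ p ^ j = 1 := congrArg Subtype.val hj
  rw [← QuotientGroup.eq_one_iff, QuotientGroup.mk_pow, QuotientGroup.mk_mul,
    (QuotientGroup.eq_one_iff m).mpr hm, one_mul, ← QuotientGroup.mk_pow, h1]
  rfl

theorem sup_inf_sup_eq (P : Sylow p G) (M N : Subgroup G) [M.Normal] [N.Normal]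
    (hMN : M ⊓ N = ⊥) :
    ((P : Subgroup G) ⊔ M) ⊓ ((P : Subgroup G) ⊔ N) = (P : Subgroup G) := by
  apply P.is_maximal'
  · rintro ⟨e, he⟩
    obtain ⟨k, hk⟩ := pow_mem_of_mem_sup P M e (Subgroup.mem_inf.mp he).1
    obtain ⟨l, hl⟩ := pow_mem_of_mem_sup P N e (Subgroup.mem_inf.mp he).2
    refine ⟨k + l, Subtype.ext ?_⟩
    have h1 : e ^ p ^ (k + l) ∈ M := by
      rw [pow_add, pow_mul]; exact Subgroup.pow_mem _ hk _
    have h2 : e ^ p ^ (k + l) ∈ N := by
      rw [pow_add, mul_comm, pow_mul]; exact Subgroup.pow_mem _ hl _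
    have h3 : e ^ p ^ (k + l) ∈ M ⊓ N := ⟨h1, h2⟩
    rw [hMN] at h3
    exact Subgroup.mem_bot.mp h3
  · exact le_inf le_sup_left le_sup_left

theorem normalizer_sup_eq (P : Sylow p G) (K : Subgroup G) [K.Normal] :
    normalizer (((P : Subgroup G) ⊔ K : Subgroup G) : Set G) =
      normalizer ((P : Subgroup G) : Set G) ⊔ K := by
  apply le_antisymm
  · intro x hx
    obtain ⟨l, hl, hlx⟩ := Cfsg.Agent.Lib.Helper1.frattini_rel
      (H := normalizer (((P : Subgroup G) ⊔ K : Subgroup G) : Set G))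
      (L := (P : Subgroup G) ⊔ K) (T := (P : Subgroup G)) le_rfl le_sup_left P.isPGroup'
      (fun h => P.not_dvd_index (h.trans (Subgroup.relIndex_dvd_index_of_le le_sup_left))) x hx
    have e : x = l⁻¹ * (l * x) := by group
    rw [e]
    refine Subgroup.mul_mem _ (Subgroup.inv_mem _ ?_) (Subgroup.mem_sup_left hlx)
    exact (sup_le (le_normalizer.trans le_sup_left) le_sup_right :
      (P : Subgroup G) ⊔ K ≤ normalizer ((P : Subgroup G) : Set G) ⊔ K) hl
  · exact sup_le (normalizer_le_normalizer_sup (P : Subgroup G) K)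
      (le_sup_right.trans le_normalizer)

end

/-- Let M and N be nontrivial normal subgroups of the finite group G with M ⊓ N trivial, and let p be a prime. Writing n(X) for the number of Sylow p-subgroups of a group X, one has n(G) · n(G/MN) = n(G/M) · n(G/N). -/
theorem result {G : Type*} [Group G] [Finite G] (p : ℕ) [Fact p.Prime] (M N : Subgroup G) [M.Normal] [N.Normal] (hM : M ≠ ⊥) (hN : N ≠ ⊥) (hMN : M ⊓ N = ⊥) : Nat.card (Sylow p G) * Nat.card (Sylow p (G ⧸ (M ⊔ N))) = Nat.card (Sylow p (G ⧸ M)) * Nat.card (Sylow p (G ⧸ N)) := by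
  obtain ⟨P⟩ : Nonempty (Sylow p G) := inferInstance
  obtain ⟨H, hH⟩ : ∃ H : Subgroup G, H = normalizer ((P : Subgroup G) : Set G) := ⟨_, rfl⟩
  have h1 : Nat.card (Sylow p G) = H.index := hH ▸ P.card_eq_index_normalizer
  have h2 : Nat.card (Sylow p (G ⧸ M)) = (H ⊔ M).index := by
    rw [card_sylow_quotient P M, normalizer_sup_eq P M, hH]
  have h3 : Nat.card (Sylow p (G ⧸ N)) = (H ⊔ N).index := by
    rw [card_sylow_quotient P N, normalizer_sup_eq P N, hH]
  have h4 : Nat.card (Sylow p (G ⧸ (M ⊔ N))) = (H ⊔ M ⊔ N).index := by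
    rw [card_sylow_quotient P (M ⊔ N), normalizer_sup_eq P (M ⊔ N), hH, sup_assoc]
  have hK : (H ⊔ M) ⊓ N = H ⊓ N := by
    apply le_antisymm
    · refine le_inf ?_ inf_le_right
      intro x hx
      have hx1 : x ∈ normalizer (((P : Subgroup G) ⊔ M : Subgroup G) : Set G) := by
        rw [normalizer_sup_eq P M, ← hH]; exact hx.1
      have hx2 : x ∈ normalizer (((P : Subgroup G) ⊔ N : Subgroup G) : Set G) :=
        le_normalizer (Subgroup.mem_sup_right hx.2)
      have hx3 := Subgroup.inf_normalizer_le_normalizer_inf ⟨hx1, hx2⟩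
      rw [sup_inf_sup_eq P M N hMN] at hx3
      rw [hH]; exact hx3
    · exact inf_le_inf_right N le_sup_left
  have e1 : H.relIndex (H ⊔ M) * (H ⊔ M).index = H.index :=
    Subgroup.relIndex_mul_index le_sup_left
  have e2 : N.relIndex (H ⊔ N) * (H ⊔ N).index = N.index :=
    Subgroup.relIndex_mul_index le_sup_right
  have e3 : N.relIndex (H ⊔ M ⊔ N) * (H ⊔ M ⊔ N).index = N.index :=
    Subgroup.relIndex_mul_index le_sup_right
  have e4 : N.relIndex (H ⊔ M ⊔ N) = N.relIndex (H ⊔ N) * H.relIndex (H ⊔ M) := by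
    rw [Subgroup.relIndex_sup_right, ← Subgroup.inf_relIndex_left, hK,
      ← Subgroup.relIndex_mul_relIndex (H ⊓ N) H (H ⊔ M) inf_le_left le_sup_left,
      Subgroup.inf_relIndex_left, Subgroup.relIndex_sup_right]
  have hy : N.relIndex (H ⊔ N) ≠ 0 := by
    intro h0
    rw [h0, zero_mul] at e2
    exact Subgroup.index_ne_zero_of_finite e2.symm
  rw [h1, h2, h3, h4]
  rw [e4, mul_assoc] at e3
  have e5 : (H ⊔ N).index = H.relIndex (H ⊔ M) * (H ⊔ M ⊔ N).index :=
    Nat.eq_of_mul_eq_mul_left (Nat.pos_of_ne_zero hy) (e2.trans e3.symm)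
  rw [e5, ← e1]
  ring

end Cfsg.Agent.S3867
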