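import Cfsg.Statements.S3908
import Cfsg.Agent.Lib.Helper8.UniqueSub
import Cfsg.Agent.Lib.Helper1.UniqueInv
import Cfsg.Agent.Lib.Helper3.EA
import Cfsg.Agent.Lib.Helper1.GenFit

set_option autoImplicit false
open Cfsg

namespace Cfsg.Agent.S3908

open Cfsg.Agent.Lib.Helper1 Cfsg.Agent.Lib.Helper8

/-- If any two abelian subgroups of the same order are conjugate, then a Sylow `p`-subgroup
either has exponent `p` or has a unique subgroup of order `p`. -/
theorem ceo_dich {G : Type*} [Group G] [Finite G]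
    (hB : ∀ A B : Subgroup G, IsMulCommutative ↥A → IsMulCommutative ↥B →
      Nat.card ↥A = Nat.card ↥B → ∃ g : G, B = A.map (MulAut.conj g).toMonoidHom)
    (p : ℕ) [hp : Fact p.Prime] (P : Sylow p G) :
    (∀ x ∈ (P : Subgroup G), x ^ p = 1) ∨
    (∀ H K : Subgroup G, H ≤ (P : Subgroup G) → K ≤ (P : Subgroup G) →
      Nat.card H = p → Nat.card K = p → H = K) := by
  classical
  by_contra hcon
  push Not at hcon
  obtain ⟨⟨x, hxP, hxp⟩, H, K, hHP, hKP, hHc, hKc, hHK⟩ := hcon
  have hpp : p.Prime := hp.out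
  obtain ⟨j, hj⟩ : ∃ j, orderOf x = p ^ j := by
    obtain ⟨k, hk⟩ := (IsPGroup.iff_orderOf.mp P.isPGroup') ⟨x, hxP⟩
    refine ⟨k, ?_⟩
    rw [← hk]
    exact Subgroup.orderOf_coe (⟨x, hxP⟩ : ↥(P : Subgroup G))
  have hj2 : 2 ≤ j := by
    by_contra h
    have hj1 : j ≤ 1 := by omega
    apply hxp
    have h1 : orderOf x ∣ p := by
      rw [hj]
      calc p ^ j ∣ p ^ 1 := pow_dvd_pow p hj1
        _ = p := pow_one p
    exact orderOf_dvd_iff_pow_eq_one.mp h1
  obtain ⟨c, hcP, hc⟩ : ∃ c ∈ (P : Subgroup G), orderOf c = p ^ 2 := by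
    refine ⟨x ^ (p ^ (j - 2)), (P : Subgroup G).pow_mem hxP _, ?_⟩
    rw [orderOf_pow' x (pow_ne_zero _ hpp.ne_zero), hj,
      Nat.gcd_eq_right (pow_dvd_pow p (by omega)), Nat.pow_div (by omega) hpp.pos]
    congr 1
    omega
  have hCc : Nat.card ↥(Subgroup.zpowers c) = p ^ 2 := by rw [Nat.card_zpowers, hc]
  have hPnt : Nontrivial ↥(P : Subgroup G) := by
    rw [← Finite.one_lt_card_iff_nontrivial]
    have h1 := Subgroup.card_le_of_le hHP
    rw [hHc] at h1
    exact lt_of_lt_of_le hpp.one_lt h1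
  have hcnt : Nontrivial ↥(Subgroup.center ↥(P : Subgroup G)) := P.isPGroup'.center_nontrivial
  have hcpg : IsPGroup p ↥(Subgroup.center ↥(P : Subgroup G)) := P.isPGroup'.to_subgroup _
  obtain ⟨n, hn⟩ := IsPGroup.iff_card.mp hcpg
  have hn0 : n ≠ 0 := by
    rintro rfl
    rw [pow_zero] at hn
    have h1 := Finite.one_lt_card_iff_nontrivial.mpr hcnt
    omega
  have hdvd : p ∣ Nat.card ↥(Subgroup.center ↥(P : Subgroup G)) := by
    rw [hn]; exact dvd_pow_self p hn0
  obtain ⟨z', hz'⟩ := exists_prime_orderOf_dvd_card' p hdvd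
  obtain ⟨z, hzdef⟩ : ∃ z : G, z = ((z' : ↥(P : Subgroup G)) : G) := ⟨_, rfl⟩
  have hzP : z ∈ (P : Subgroup G) := by rw [hzdef]; exact (z' : ↥(P : Subgroup G)).2
  have hzo : orderOf z = p := by
    rw [hzdef, Subgroup.orderOf_coe, Subgroup.orderOf_coe]; exact hz'
  have hzc : ∀ q ∈ (P : Subgroup G), q * z = z * q := by
    intro q hq
    have h1 := Subgroup.mem_center_iff.mp z'.2 ⟨q, hq⟩
    have h2 := congrArg Subtype.val h1
    rw [hzdef]; exact h2
  have hZc : Nat.card ↥(Subgroup.zpowers z) = p := by rw [Nat.card_zpowers, hzo]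
  obtain ⟨H₁, hH₁P, hH₁c, hH₁ne⟩ : ∃ H₁ : Subgroup G, H₁ ≤ (P : Subgroup G) ∧
      Nat.card H₁ = p ∧ H₁ ≠ Subgroup.zpowers z := by
    by_cases h : H = Subgroup.zpowers z
    · exact ⟨K, hKP, hKc, fun h' => hHK (h.trans h'.symm)⟩
    · exact ⟨H, hHP, hHc, h⟩
  have hZcent : Subgroup.zpowers z ≤ Subgroup.centralizer (H₁ : Set G) := by
    rw [Subgroup.zpowers_le, Subgroup.mem_centralizer_iff]
    intro q hq
    exact hzc q (hH₁P hq)
  have hH₁cent : H₁ ≤ Subgroup.centralizer ((Subgroup.zpowers z : Subgroup G) : Set G) :=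
    Subgroup.le_centralizer_iff.mp hZcent
  have hH₁comm : IsMulCommutative ↥H₁ := by
    have : IsCyclic ↥H₁ := isCyclic_of_prime_card hH₁c
    infer_instance
  have hH₁self : H₁ ≤ Subgroup.centralizer (H₁ : Set G) :=
    Subgroup.le_centralizer_iff_isMulCommutative.mpr hH₁comm
  have hZself : Subgroup.zpowers z ≤
      Subgroup.centralizer ((Subgroup.zpowers z : Subgroup G) : Set G) :=
    Subgroup.le_centralizer_iff_isMulCommutative.mpr inferInstance
  obtain ⟨E, hE⟩ : ∃ E, H₁ ⊔ Subgroup.zpowers z = E := ⟨_, rfl⟩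
  have hE1 : E ≤ Subgroup.centralizer (H₁ : Set G) := by
    rw [← hE]; exact sup_le hH₁self hZcent
  have hE2 : E ≤ Subgroup.centralizer ((Subgroup.zpowers z : Subgroup G) : Set G) := by
    rw [← hE]; exact sup_le hH₁cent hZself
  have hEcomm : IsMulCommutative ↥E := by
    rw [← Subgroup.le_centralizer_iff_isMulCommutative]
    have h1 : H₁ ≤ Subgroup.centralizer (E : Set G) := Subgroup.le_centralizer_iff.mp hE1
    have h2 : Subgroup.zpowers z ≤ Subgroup.centralizer (E : Set G) :=
      Subgroup.le_centralizer_iff.mp hE2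
    exact hE.symm.le.trans (sup_le h1 h2)
  have hnorm : H₁ ≤ Subgroup.normalizer ((Subgroup.zpowers z : Subgroup G) : Set G) :=
    hH₁cent.trans (Subgroup.centralizer_le_normalizer _)
  have hinf : Nat.card ↥(H₁ ⊓ Subgroup.zpowers z) = 1 := by
    have h1 : Nat.card ↥(H₁ ⊓ Subgroup.zpowers z) ∣ p := by
      rw [← hH₁c]; exact Subgroup.card_dvd_of_le inf_le_left
    rcases (Nat.dvd_prime hpp).mp h1 with h | h
    · exact h
    · exfalso
      have h2 : H₁ ⊓ Subgroup.zpowers z = H₁ :=
        Subgroup.eq_of_le_of_card_ge inf_le_left (by rw [h, hH₁c])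
      have h3 : H₁ ≤ Subgroup.zpowers z := inf_eq_left.mp h2
      exact hH₁ne (Subgroup.eq_of_le_of_card_ge h3 (by rw [hZc, hH₁c]))
  have hEc : Nat.card ↥E = p ^ 2 := by
    have h1 := Cfsg.Agent.Lib.Helper3.card_sup_mul_card_inf H₁ (Subgroup.zpowers z) hnorm
    rw [hinf, hE, hH₁c, hZc, mul_one] at h1
    rw [h1, sq]
  obtain ⟨g, hg⟩ := hB (Subgroup.zpowers c) E inferInstance hEcomm (by rw [hCc, hEc])
  have hmem : g * c * g⁻¹ ∈ E := by
    rw [hg]
    exact Subgroup.mem_map.mpr ⟨c, Subgroup.mem_zpowers c, rfl⟩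
  have hEp : ∀ e ∈ E, e ^ p = 1 := by
    intro e he
    rw [← hE, sup_comm] at he
    obtain ⟨a, ha, b, hb, rfl⟩ := mem_sup_of_le_normalizer' hnorm he
    have hab : Commute a b := by
      have h1 := Subgroup.mem_centralizer_iff.mp (hZcent ha) b hb
      exact h1.symm
    rw [hab.mul_pow]
    have ha' : a ^ p = 1 := by
      obtain ⟨k, rfl⟩ := Subgroup.mem_zpowers_iff.mp ha
      rw [← zpow_natCast, ← zpow_mul, mul_comm, zpow_mul, zpow_natCast, ← hzo,
        pow_orderOf_eq_one, one_zpow]
    have hb' : b ^ p = 1 := by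
      have h1 : (⟨b, hb⟩ : ↥H₁) ^ Nat.card ↥H₁ = 1 := pow_card_eq_one'
      rw [hH₁c] at h1
      exact congrArg Subtype.val h1
    rw [ha', hb', one_mul]
  have h1 := hEp _ hmem
  rw [conj_pow] at h1
  have h2 : c ^ p = 1 := by
    have e1 : g⁻¹ * (g * c ^ p * g⁻¹) * g = c ^ p := by group
    rw [← e1, h1]; group
  have h3 : orderOf c ∣ p := orderOf_dvd_of_pow_eq_one h2
  rw [hc] at h3
  have h4 := Nat.le_of_dvd hpp.pos h3
  rw [sq] at h4
  nlinarith [hpp.two_le]

/-- Let G be a finite group in which any two abelian subgroups of the same order are conjugate. Then a Sylow 2-subgroup of G is cyclic, elementary abelian or generalized quaternion, and for an odd prime p a Sylow p-subgroup of G is cyclic or has exponent dividing p. -/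
theorem result {G : Type*} [Group G] [Finite G] (hB : ∀ A B : Subgroup G, IsMulCommutative ↥A → IsMulCommutative ↥B → Nat.card ↥A = Nat.card ↥B → ∃ g : G, B = A.map (MulAut.conj g).toMonoidHom) :
    (∀ P : Sylow 2 G, IsCyclic ↥(P : Subgroup G) ∨ Cfsg.IsElementaryAbelian 2 (P : Subgroup G) ∨ ∃ k : ℕ, Nonempty (↥(P : Subgroup G) ≃* QuaternionGroup (2 ^ k))) ∧
    ∀ (p : ℕ) [Fact p.Prime], p ≠ 2 → ∀ P : Sylow p G, IsCyclic ↥(P : Subgroup G) ∨ ∀ x ∈ (P : Subgroup G), x ^ p = 1 := by
  classical
  constructor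
  · intro P
    have hp2 : Fact (Nat.Prime 2) := ⟨Nat.prime_two⟩
    rcases ceo_dich hB 2 P with h | h
    · right; left
      refine ⟨?_, h⟩
      rw [isMulCommutative_iff_of_setLike]
      intro a ha b hb
      have h1 := h a ha
      have h2 := h b hb
      have h3 := h (a * b) ((P : Subgroup G).mul_mem ha hb)
      have ha' : a⁻¹ = a := inv_eq_of_mul_eq_one_left (by rw [← sq]; exact h1)
      have hb' : b⁻¹ = b := inv_eq_of_mul_eq_one_left (by rw [← sq]; exact h2)
      have hab' : (a * b)⁻¹ = a * b := inv_eq_of_mul_eq_one_left (by rw [← sq]; exact h3)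
      calc a * b = (a * b)⁻¹ := hab'.symm
        _ = b⁻¹ * a⁻¹ := mul_inv_rev a b
        _ = b * a := by rw [ha', hb']
    · by_cases htriv : Nat.card ↥(P : Subgroup G) = 1
      · left
        have hss : Subsingleton ↥(P : Subgroup G) := (Nat.card_eq_one_iff_unique.mp htriv).1
        exact isCyclic_of_subsingleton
      · obtain ⟨n, hn⟩ := IsPGroup.iff_card.mp P.isPGroup'
        have hn0 : n ≠ 0 := by
          rintro rfl
          exact htriv (by rw [hn, pow_zero])
        have hdvd : 2 ∣ Nat.card ↥(P : Subgroup G) := by rw [hn]; exact dvd_pow_self 2 hn0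
        obtain ⟨z, hz⟩ := exists_prime_orderOf_dvd_card' 2 hdvd
        have huniq : ∀ y : ↥(P : Subgroup G), orderOf y = 2 → y = z := by
          intro y hy
          have h1 : Subgroup.zpowers (y : G) = Subgroup.zpowers (z : G) := by
            apply h
            · exact Subgroup.zpowers_le.mpr y.2
            · exact Subgroup.zpowers_le.mpr z.2
            · rw [Nat.card_zpowers, Subgroup.orderOf_coe, hy]
            · rw [Nat.card_zpowers, Subgroup.orderOf_coe, hz]
          have h2 : (y : G) ∈ Subgroup.zpowers (z : G) := by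
            rw [← h1]; exact Subgroup.mem_zpowers _
          obtain ⟨k, hk⟩ := Subgroup.mem_zpowers_iff.mp h2
          have hzo : orderOf (z : G) = 2 := by rw [Subgroup.orderOf_coe, hz]
          rw [← zpow_mod_orderOf, hzo] at hk
          have hk2 : k % ((2 : ℕ) : ℤ) = 0 ∨ k % ((2 : ℕ) : ℤ) = 1 := by omega
          rcases hk2 with h3 | h3
          · rw [h3, zpow_zero] at hk
            exfalso
            have hy1 : orderOf (y : G) = 2 := by rw [Subgroup.orderOf_coe, hy]
            rw [← hk, orderOf_one] at hy1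
            omega
          · rw [h3, zpow_one] at hk
            exact Subtype.ext hk.symm
        rcases ui_cyclic_or_quat P.isPGroup' z hz huniq with h5 | ⟨k, _, hk⟩
        · left; exact h5
        · right; right; exact ⟨k, hk⟩
  · intro p hp hp2 P
    rcases ceo_dich hB p P with h | h
    · right; exact h
    · left
      obtain ⟨n, hn⟩ := IsPGroup.iff_card.mp P.isPGroup'
      refine h8_cyclic_of_unique_small p n ↥(P : Subgroup G) hn ?_ (fun h2 => absurd h2 hp2)
      intro H K hH hK
      have h1 : H.map (P : Subgroup G).subtype = K.map (P : Subgroup G).subtype := by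
        apply h
        · exact Subgroup.map_subtype_le _
        · exact Subgroup.map_subtype_le _
        · exact (Nat.card_congr
            (H.equivMapOfInjective _ (Subgroup.subtype_injective _)).toEquiv.symm).trans hH
        · exact (Nat.card_congr
            (K.equivMapOfInjective _ (Subgroup.subtype_injective _)).toEquiv.symm).trans hK
      exact Subgroup.map_injective (Subgroup.subtype_injective _) h1

end Cfsg.Agent.S3908
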