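import Mathlib
import Cfsg.Statements.S3909

set_option autoImplicit false
open Cfsg

namespace Cfsg.Agent.S3909

/-- Let G be a finite group in which any two abelian subgroups of the same order are conjugate. Let M be a normal subgroup of G. If M contains an element of the same order as a ∈ G, then a ∈ M; and if M is elementary abelian of order p^t with p prime and t ≥ 2, then M is the unique Sylow p-subgroup of G. -/
theorem result {G : Type*} [Group G] [Finite G] (hB : ∀ A B : Subgroup G, IsMulCommutative ↥A → IsMulCommutative ↥B → Nat.card ↥A = Nat.card ↥B → ∃ g : G, B = A.map (MulAut.conj g).toMonoidHom) (M : Subgroup G) [M.Normal] :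
    (∀ a : G, (∃ m ∈ M, orderOf m = orderOf a) → a ∈ M) ∧
    ∀ (p t : ℕ) [Fact p.Prime], 2 ≤ t → Nat.card ↥M = p ^ t → Cfsg.IsElementaryAbelian p M → ∀ P : Sylow p G, (P : Subgroup G) = M := by
  classical
  have part1 : ∀ a : G, (∃ m ∈ M, orderOf m = orderOf a) → a ∈ M := by
    rintro a ⟨m, hm, ho⟩
    obtain ⟨g, hg⟩ := hB (Subgroup.zpowers a) (Subgroup.zpowers m) inferInstance inferInstance
      (by rw [Nat.card_zpowers, Nat.card_zpowers, ho])
    have h1 : g * a * g⁻¹ ∈ Subgroup.zpowers m := by
      rw [hg]; exact ⟨a, Subgroup.mem_zpowers a, rfl⟩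
    have h2 : g * a * g⁻¹ ∈ M := (Subgroup.zpowers_le.mpr hm) h1
    have h3 := (inferInstance : M.Normal).conj_mem _ h2 g⁻¹
    have h4 : g⁻¹ * (g * a * g⁻¹) * g⁻¹⁻¹ = a := by group
    rw [h4] at h3
    exact h3
  refine ⟨part1, ?_⟩
  intro p t hp ht hcard hE P
  have hMp : IsPGroup p M := IsPGroup.of_card hcard
  have hle : M ≤ P := hMp.le_sylow_of_normal P
  apply le_antisymm _ hle
  have hMnt : Nontrivial M := by
    rw [← Finite.one_lt_card_iff_nontrivial, hcard]
    exact Nat.one_lt_pow (by omega) hp.out.one_lt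
  obtain ⟨⟨m, hm⟩, hm1⟩ := exists_ne (1 : M)
  have hm1' : m ≠ 1 := fun h => hm1 (Subtype.ext h)
  have hom : orderOf m = p := orderOf_eq_prime (hE.2 m hm) hm1'
  obtain ⟨K, hK⟩ := Sylow.exists_subgroup_card_pow_prime p (G := M) (n := 2)
    (by rw [hcard]; exact pow_dvd_pow p ht)
  have hEle : K.map M.subtype ≤ M := Subgroup.map_subtype_le K
  have hEcard : Nat.card (K.map M.subtype) = p ^ 2 := by
    rw [Subgroup.card_map_of_injective M.subtype_injective]; exact hK
  have hEcomm : IsMulCommutative (K.map M.subtype) := by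
    rw [isMulCommutative_iff]
    rintro ⟨a, ha⟩ ⟨b, hb⟩
    apply Subtype.ext
    have h5 := (isMulCommutative_iff.mp hE.1) ⟨a, hEle ha⟩ ⟨b, hEle hb⟩
    have h6 := congrArg Subtype.val h5
    exact h6
  have key : ∀ n : ℕ, ∀ x ∈ (P : Subgroup G), orderOf x = n → x ∈ M := by
    intro n
    induction n using Nat.strong_induction_on with
    | _ n ih =>
      intro x hx hn
      obtain ⟨j, hj⟩ : ∃ j, orderOf x = p ^ j := by
        obtain ⟨k, hk⟩ := P.isPGroup' ⟨x, hx⟩
        have hk' : x ^ p ^ k = 1 := congrArg Subtype.val hk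
        obtain ⟨j, -, hj⟩ := (Nat.dvd_prime_pow hp.out).mp (orderOf_dvd_of_pow_eq_one hk')
        exact ⟨j, hj⟩
      cases j with
      | zero =>
        rw [pow_zero, orderOf_eq_one_iff] at hj; rw [hj]; exact M.one_mem
      | succ j =>
        have hpd : p ∣ orderOf x := by rw [hj]; exact dvd_pow_self p (Nat.succ_ne_zero j)
        have hxp : orderOf (x ^ p) = orderOf x / p := orderOf_pow_of_dvd hp.out.ne_zero hpd
        have hlt : orderOf (x ^ p) < n := by
          rw [hxp, ← hn]; exact Nat.div_lt_self (orderOf_pos x) hp.out.one_lt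
        have hxpM : x ^ p ∈ M := ih _ hlt (x ^ p) (Subgroup.pow_mem _ hx p) rfl
        have hx0 : x ≠ 1 := fun h => by
          rw [h, orderOf_one] at hj
          exact (Nat.one_lt_pow (Nat.succ_ne_zero j) hp.out.one_lt).ne hj
        by_cases hx1 : x ^ p = 1
        · exact part1 x ⟨m, hm, by rw [hom, orderOf_eq_prime hx1 hx0]⟩
        · exfalso
          have hxpp : (x ^ p) ^ p = 1 := hE.2 _ hxpM
          have hox : orderOf x = p ^ 2 := by
            have h1 : orderOf x ∣ p ^ 2 :=
              orderOf_dvd_of_pow_eq_one (by rw [pow_two, pow_mul]; exact hxpp)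
            obtain ⟨i, hi, hi'⟩ := (Nat.dvd_prime_pow hp.out).mp h1
            interval_cases i
            · exfalso; rw [pow_zero, orderOf_eq_one_iff] at hi'; exact hx0 hi'
            · exfalso; apply hx1; rw [pow_one] at hi'; rw [← hi']; exact pow_orderOf_eq_one x
            · exact hi'
          obtain ⟨g, hg⟩ := hB (Subgroup.zpowers x) (K.map M.subtype) inferInstance hEcomm
            (by rw [Nat.card_zpowers, hox, hEcard])
          have h1 : g * x * g⁻¹ ∈ K.map M.subtype := by
            rw [hg]; exact ⟨x, Subgroup.mem_zpowers x, rfl⟩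
          have h2 : (g * x * g⁻¹) ^ p = 1 := hE.2 _ (hEle h1)
          rw [conj_pow] at h2
          apply hx1
          have h3 : x ^ p = g⁻¹ * (g * x ^ p * g⁻¹) * g := by group
          rw [h3, h2]; group
  intro x hx
  exact key _ x hx rfl

end Cfsg.Agent.S3909
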