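import Mathlib
import Cfsg.Statements.S3910

set_option autoImplicit false
open Cfsg

namespace Cfsg.Agent.S3910

theorem comm_comap {G : Type*} [Group G] (u a b : G)
    (ha : (QuotientGroup.mk a : G ⧸ Subgroup.center G) ∈
      Subgroup.zpowers (QuotientGroup.mk u : G ⧸ Subgroup.center G))
    (hb : (QuotientGroup.mk b : G ⧸ Subgroup.center G) ∈
      Subgroup.zpowers (QuotientGroup.mk u : G ⧸ Subgroup.center G)) :
    a * b = b * a := by
  obtain ⟨i, hi⟩ := Subgroup.mem_zpowers_iff.mp ha
  obtain ⟨j, hj⟩ := Subgroup.mem_zpowers_iff.mp hb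
  obtain ⟨c, hc, ea⟩ : ∃ c ∈ Subgroup.center G, a = u ^ i * c := by
    refine ⟨(u ^ i)⁻¹ * a, ?_, by group⟩
    apply QuotientGroup.eq.mp
    rw [QuotientGroup.mk_zpow]; exact hi
  obtain ⟨d, hd, eb⟩ : ∃ d ∈ Subgroup.center G, b = u ^ j * d := by
    refine ⟨(u ^ j)⁻¹ * b, ?_, by group⟩
    apply QuotientGroup.eq.mp
    rw [QuotientGroup.mk_zpow]; exact hj
  have hcc : ∀ g : G, Commute g c := fun g => Subgroup.mem_center_iff.mp hc g
  have hdc : ∀ g : G, Commute g d := fun g => Subgroup.mem_center_iff.mp hd g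
  have h1 : Commute (u ^ i * c) (u ^ j * d) :=
    (((Commute.refl u).zpow_zpow i j).mul_left (hcc (u ^ j)).symm).mul_right (hdc (u ^ i * c))
  rw [ea, eb]; exact h1

theorem cyc_comm {G : Type*} [CommGroup G] [Finite G]
    (h : ∀ A B : Subgroup G, Nat.card A = Nat.card B → A = B) : IsCyclic G := by
  obtain ⟨g, hg⟩ := Monoid.exists_orderOf_eq_exponent (G := G) Monoid.ExponentExists.of_finite
  rw [isCyclic_iff_exists_zpowers_eq_top]
  refine ⟨g, eq_top_iff.mpr fun a _ => ?_⟩
  have hdvd : orderOf a ∣ orderOf g := by rw [hg]; exact Monoid.order_dvd_exponent a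
  have ho : orderOf (g ^ (orderOf g / orderOf a)) = orderOf a :=
    orderOf_pow_orderOf_div (orderOf_pos g).ne' hdvd
  have hcard : Nat.card (Subgroup.zpowers a) =
      Nat.card (Subgroup.zpowers (g ^ (orderOf g / orderOf a))) := by
    rw [Nat.card_zpowers, Nat.card_zpowers, ho]
  have h2 := h _ _ hcard
  have ha : a ∈ Subgroup.zpowers a := Subgroup.mem_zpowers a
  rw [h2] at ha
  exact (Subgroup.zpowers_le.mpr (Subgroup.npow_mem_zpowers g _)) ha

/-- A finite nilpotent group in which any two abelian subgroups of the same order are conjugate is cyclic. -/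
theorem result {G : Type*} [Group G] [Finite G] (hB : ∀ A B : Subgroup G, IsMulCommutative ↥A → IsMulCommutative ↥B → Nat.card ↥A = Nat.card ↥B → ∃ g : G, B = A.map (MulAut.conj g).toMonoidHom) (hnil : Group.IsNilpotent G) : IsCyclic G := by
  classical
  have hcomm : ∀ x y : G, x * y = y * x := by
    by_contra hcon
    push_neg at hcon
    obtain ⟨x₀, y₀, hxy⟩ := hcon
    have hx₀ : x₀ ∉ Subgroup.center G := fun h => hxy ((Subgroup.mem_center_iff.mp h y₀).symm)
    haveI : Nontrivial (G ⧸ Subgroup.center G) :=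
      ⟨⟨QuotientGroup.mk x₀, 1, fun h => hx₀ ((QuotientGroup.eq_one_iff x₀).mp h)⟩⟩
    haveI := hnil
    have hcne := Group.IsNilpotent.center_ne_bot (G := G ⧸ Subgroup.center G)
    obtain ⟨⟨w, hw⟩, hw1⟩ := (Subgroup.ne_bot_iff_exists_ne_one).mp hcne
    have hw1' : w ≠ 1 := fun h => hw1 (Subtype.ext h)
    have hn1 : orderOf w ≠ 1 := fun h => hw1' (orderOf_eq_one_iff.mp h)
    have hp := Nat.minFac_prime hn1
    obtain ⟨p, hpdef⟩ : ∃ p, p = (orderOf w).minFac := ⟨_, rfl⟩
    rw [← hpdef] at hp
    haveI : Fact p.Prime := ⟨hp⟩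
    have hpdvd : p ∣ orderOf w := by rw [hpdef]; exact Nat.minFac_dvd _
    obtain ⟨w', hw'def⟩ : ∃ w', w' = w ^ (orderOf w / p) := ⟨_, rfl⟩
    have how' : orderOf w' = p := by
      rw [hw'def]; exact orderOf_pow_orderOf_div (orderOf_pos w).ne' hpdvd
    have hw'c : w' ∈ Subgroup.center (G ⧸ Subgroup.center G) := by
      rw [hw'def]; exact Subgroup.pow_mem _ hw _
    obtain ⟨y, hy⟩ := QuotientGroup.mk_surjective w'
    have hyZ : y ∉ Subgroup.center G := by
      intro h
      have h1 : w' = 1 := by rw [← hy]; exact (QuotientGroup.eq_one_iff y).mpr h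
      rw [h1, orderOf_one] at how'
      exact hp.one_lt.ne how'
    have hypZ : y ^ p ∈ Subgroup.center G := by
      rw [← QuotientGroup.eq_one_iff, QuotientGroup.mk_pow, hy, ← how', pow_orderOf_eq_one]
    have hcomZ : ∀ g : G, g * y * g⁻¹ * y⁻¹ ∈ Subgroup.center G := by
      intro g
      rw [← QuotientGroup.eq_one_iff]
      simp only [QuotientGroup.mk_mul, QuotientGroup.mk_inv, hy]
      rw [Subgroup.mem_center_iff.mp hw'c (QuotientGroup.mk g)]
      group
    obtain ⟨g, hg⟩ : ∃ g : G, g * y ≠ y * g := by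
      by_contra hcon; push_neg at hcon
      exact hyZ (Subgroup.mem_center_iff.mpr hcon)
    obtain ⟨z, hz⟩ : ∃ z, z = g * y * g⁻¹ * y⁻¹ := ⟨_, rfl⟩
    have hzZ : z ∈ Subgroup.center G := by rw [hz]; exact hcomZ g
    have hzc : ∀ t : G, Commute t z := fun t => Subgroup.mem_center_iff.mp hzZ t
    have hz1 : z ≠ 1 := by
      intro h
      apply hg
      have h1 : g * y = z * (y * g) := by rw [hz]; group
      rw [h1, h, one_mul]
    have hgy : g * y * g⁻¹ = z * y := by rw [hz]; group
    have hconj : ∀ k : ℕ, g ^ k * y * (g ^ k)⁻¹ = z ^ k * y := by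
      intro k
      induction k with
      | zero => simp
      | succ k ih =>
        have h1 : g ^ (k + 1) * y * (g ^ (k + 1))⁻¹ = g * (g ^ k * y * (g ^ k)⁻¹) * g⁻¹ := by
          rw [pow_succ']; group
        rw [h1, ih]
        have h2 : g * (z ^ k * y) * g⁻¹ = (g * z ^ k * g⁻¹) * (g * y * g⁻¹) := by group
        rw [h2, hgy]
        have h3 : g * z ^ k * g⁻¹ = z ^ k := by
          have h4 := (hzc g).pow_right k
          rw [h4.eq]; group
        rw [h3, pow_succ, mul_assoc]
    have hzp : z ^ p = 1 := by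
      have h1 : (g * y * g⁻¹) ^ p = y ^ p := by
        rw [conj_pow]
        have h2 := Subgroup.mem_center_iff.mp hypZ g
        rw [h2]; group
      rw [hgy, (hzc y).symm.mul_pow] at h1
      exact mul_eq_right.mp h1
    have hoz : orderOf z = p := orderOf_eq_prime hzp hz1
    obtain ⟨v, hv⟩ : ∃ v : G ⧸ Subgroup.center G, v = QuotientGroup.mk g := ⟨_, rfl⟩
    have hpr : p ∣ orderOf v := by
      have h1 : g ^ orderOf v ∈ Subgroup.center G := by
        rw [← QuotientGroup.eq_one_iff, QuotientGroup.mk_pow, ← hv, pow_orderOf_eq_one]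
      have h2 := hconj (orderOf v)
      have h3 : g ^ orderOf v * y * (g ^ orderOf v)⁻¹ = y := by
        rw [← Subgroup.mem_center_iff.mp h1 y]
        group
      rw [h3] at h2
      have h4 : z ^ orderOf v = 1 := mul_eq_right.mp h2.symm
      rw [← hoz]; exact orderOf_dvd_of_pow_eq_one h4
    obtain ⟨v', hv'⟩ : ∃ v' : G ⧸ Subgroup.center G, v' = v ^ (orderOf v / p) := ⟨_, rfl⟩
    have hov' : orderOf v' = p := by
      rw [hv']; exact orderOf_pow_orderOf_div (orderOf_pos v).ne' hpr
    have hsurj : Function.Surjective (QuotientGroup.mk' (Subgroup.center G)) :=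
      QuotientGroup.mk'_surjective _
    have hcA : IsMulCommutative ((Subgroup.zpowers w').comap (QuotientGroup.mk' (Subgroup.center G))) := by
      rw [isMulCommutative_iff]
      rintro ⟨a, ha⟩ ⟨b, hb⟩
      apply Subtype.ext
      refine comm_comap y a b ?_ ?_
      · rw [hy]; exact ha
      · rw [hy]; exact hb
    have hcB : IsMulCommutative ((Subgroup.zpowers v').comap (QuotientGroup.mk' (Subgroup.center G))) := by
      rw [isMulCommutative_iff]
      rintro ⟨a, ha⟩ ⟨b, hb⟩
      apply Subtype.ext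
      refine comm_comap (g ^ (orderOf v / p)) a b ?_ ?_
      · rw [QuotientGroup.mk_pow, ← hv, ← hv']; exact ha
      · rw [QuotientGroup.mk_pow, ← hv, ← hv']; exact hb
    have hcard : Nat.card ((Subgroup.zpowers w').comap (QuotientGroup.mk' (Subgroup.center G))) =
        Nat.card ((Subgroup.zpowers v').comap (QuotientGroup.mk' (Subgroup.center G))) := by
      have iA := Subgroup.index_comap_of_surjective (Subgroup.zpowers w') hsurj
      have iB := Subgroup.index_comap_of_surjective (Subgroup.zpowers v') hsurj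
      have c1 := Subgroup.card_mul_index (Subgroup.zpowers w')
      have c2 := Subgroup.card_mul_index (Subgroup.zpowers v')
      rw [Nat.card_zpowers, how'] at c1
      rw [Nat.card_zpowers, hov'] at c2
      have hidx : (Subgroup.zpowers w').index = (Subgroup.zpowers v').index :=
        Nat.eq_of_mul_eq_mul_left hp.pos (c1.trans c2.symm)
      have d1 := Subgroup.card_mul_index ((Subgroup.zpowers w').comap (QuotientGroup.mk' (Subgroup.center G)))
      have d2 := Subgroup.card_mul_index ((Subgroup.zpowers v').comap (QuotientGroup.mk' (Subgroup.center G)))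
      rw [iA] at d1
      rw [iB, ← hidx] at d2
      have hpos : 0 < (Subgroup.zpowers w').index := Nat.pos_of_ne_zero Subgroup.index_ne_zero_of_finite
      exact Nat.eq_of_mul_eq_mul_right hpos (d1.trans d2.symm)
    obtain ⟨h, hh⟩ := hB _ _ hcA hcB hcard
    have hyA : y ∈ (Subgroup.zpowers w').comap (QuotientGroup.mk' (Subgroup.center G)) := by
      rw [Subgroup.mem_comap]
      change (QuotientGroup.mk y : G ⧸ Subgroup.center G) ∈ Subgroup.zpowers w'
      rw [hy]; exact Subgroup.mem_zpowers w'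
    have hconjB : h * y * h⁻¹ ∈ (Subgroup.zpowers v').comap (QuotientGroup.mk' (Subgroup.center G)) := by
      rw [hh]; exact ⟨y, hyA, rfl⟩
    have hZB : ∀ c ∈ Subgroup.center G,
        c ∈ (Subgroup.zpowers v').comap (QuotientGroup.mk' (Subgroup.center G)) := by
      intro c hc
      rw [Subgroup.mem_comap]
      change (QuotientGroup.mk c : G ⧸ Subgroup.center G) ∈ Subgroup.zpowers v'
      rw [(QuotientGroup.eq_one_iff c).mpr hc]; exact Subgroup.one_mem _
    have hyB : y ∈ (Subgroup.zpowers v').comap (QuotientGroup.mk' (Subgroup.center G)) := by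
      have h1 := Subgroup.mul_mem _ (Subgroup.inv_mem _ (hZB _ (hcomZ h))) hconjB
      have h2 : (h * y * h⁻¹ * y⁻¹)⁻¹ * (h * y * h⁻¹) = y := by group
      rw [h2] at h1
      exact h1
    have hyD : (QuotientGroup.mk y : G ⧸ Subgroup.center G) ∈
        Subgroup.zpowers (QuotientGroup.mk g : G ⧸ Subgroup.center G) := by
      have h1 : (QuotientGroup.mk y : G ⧸ Subgroup.center G) ∈ Subgroup.zpowers v' := hyB
      rw [← hv]
      exact (Subgroup.zpowers_le.mpr (by rw [hv']; exact Subgroup.npow_mem_zpowers v _)) h1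
    exact hg (comm_comap g g y (Subgroup.mem_zpowers _) hyD)
  refine @cyc_comm G { (inferInstance : Group G) with mul_comm := hcomm } _ ?_
  intro A B hAB
  have hA : IsMulCommutative A := by
    rw [isMulCommutative_iff]; intro a b; exact Subtype.ext (hcomm _ _)
  have hBc : IsMulCommutative B := by
    rw [isMulCommutative_iff]; intro a b; exact Subtype.ext (hcomm _ _)
  obtain ⟨g, hg⟩ := hB A B hA hBc hAB
  rw [hg]
  ext x
  constructor
  · intro hx
    refine ⟨x, hx, ?_⟩
    change g * x * g⁻¹ = x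
    rw [hcomm g x, mul_assoc, mul_inv_cancel, mul_one]
  · rintro ⟨a, ha, rfl⟩
    change g * a * g⁻¹ ∈ A
    rw [hcomm g a, mul_assoc, mul_inv_cancel, mul_one]
    exact ha

end Cfsg.Agent.S3910
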