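import Mathlib
import Cfsg.Statements.S3917

set_option autoImplicit false
open Cfsg

namespace Cfsg.Agent.S3917

theorem card_le_of_cyc {G : Type*} [CommGroup G] [Finite G] (p : ℕ) (hp : 0 < p) (H : Subgroup G)
    (hH : ∀ h ∈ H, h ^ p = 1) (hcyc : IsCyclic H) : Nat.card H ≤ p := by
  obtain ⟨k₀, hk₀⟩ := hcyc.exists_generator
  rw [← orderOf_eq_card_of_forall_mem_zpowers hk₀]
  apply Nat.le_of_dvd hp
  apply orderOf_dvd_of_pow_eq_one
  apply Subtype.ext
  rw [Subgroup.coe_pow]
  exact hH _ k₀.2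

/-- Say that a group has self-centralizing non-cyclic subgroups when every non-cyclic subgroup H satisfies C_G(H) ≤ H. A finite abelian group with self-centralizing non-cyclic subgroups is cyclic or elementary abelian of order p² for a prime p. -/
theorem result {G : Type*} [CommGroup G] [Finite G] (hX : (∀ H : Subgroup G, ¬ IsCyclic ↥H → Subgroup.centralizer (H : Set G) ≤ H)) :
    IsCyclic G ∨ ∃ p : ℕ, p.Prime ∧ Nat.card G = p ^ 2 ∧ Monoid.exponent G = p := by
  classical
  by_cases hc : IsCyclic G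
  · exact Or.inl hc
  right
  have hall : ∀ H : Subgroup G, ¬ IsCyclic ↥H → H = ⊤ := by
    intro H hH
    apply eq_top_iff.mpr
    refine le_trans ?_ (hX H hH)
    intro x _
    rw [Subgroup.mem_centralizer_iff]
    intro h _
    exact mul_comm h x
  obtain ⟨g, hg⟩ := Monoid.exists_orderOf_eq_exponent (G := G) Monoid.ExponentExists.of_finite
  have hCne : ∃ x : G, x ∉ Subgroup.zpowers g := by
    by_contra hcon
    push_neg at hcon
    exact hc (isCyclic_iff_exists_zpowers_eq_top.mpr ⟨g, eq_top_iff.mpr fun x _ => hcon x⟩)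
  have hex : ∃ n : ℕ, ∃ x : G, x ∉ Subgroup.zpowers g ∧ orderOf x = n := by
    obtain ⟨x, hx⟩ := hCne
    exact ⟨_, x, hx, rfl⟩
  obtain ⟨x, hxC, hxn⟩ := Nat.find_spec hex
  have hmin : ∀ y : G, y ∉ Subgroup.zpowers g → orderOf x ≤ orderOf y := by
    intro y hy
    rw [hxn]
    exact Nat.find_min' hex ⟨y, hy, rfl⟩
  have hx1 : x ≠ 1 := fun h => hxC (h ▸ Subgroup.one_mem _)
  have hn1 : orderOf x ≠ 1 := fun h => hx1 (orderOf_eq_one_iff.mp h)
  have hp := Nat.minFac_prime hn1
  obtain ⟨p, hpdef⟩ : ∃ p, p = (orderOf x).minFac := ⟨_, rfl⟩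
  rw [← hpdef] at hp
  haveI : Fact p.Prime := ⟨hp⟩
  have hpdvd : p ∣ orderOf x := by rw [hpdef]; exact Nat.minFac_dvd _
  have hxpC : x ^ p ∈ Subgroup.zpowers g := by
    by_contra hcon
    have h1 := hmin _ hcon
    rw [orderOf_pow_of_dvd hp.ne_zero hpdvd] at h1
    exact absurd h1 (not_le.mpr (Nat.div_lt_self (orderOf_pos x) hp.one_lt))
  obtain ⟨k, hk⟩ := Subgroup.mem_zpowers_iff.mp hxpC
  have he : orderOf x ∣ Monoid.exponent G := Monoid.order_dvd_exponent x
  have hpe : p ∣ Monoid.exponent G := hpdvd.trans he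
  obtain ⟨e', he'⟩ := hpe
  have he0 : Monoid.exponent G ≠ 0 := Monoid.exponent_ne_zero_of_finite
  have he'0 : e' ≠ 0 := by rintro rfl; rw [mul_zero] at he'; exact he0 he'
  have hpk : (p : ℤ) ∣ k := by
    have h1 : g ^ (k * (e' : ℤ)) = 1 := by
      rw [zpow_mul, hk, zpow_natCast, ← pow_mul, ← he']
      exact Monoid.pow_exponent_eq_one x
    have h2 : (orderOf g : ℤ) ∣ k * (e' : ℤ) := orderOf_dvd_iff_zpow_eq_one.mpr h1
    rw [hg, he'] at h2
    push_cast at h2
    exact Int.dvd_of_mul_dvd_mul_right (by exact_mod_cast he'0) h2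
  obtain ⟨k', hk'⟩ := hpk
  obtain ⟨y, hydef⟩ : ∃ y, y = x * g ^ (-k') := ⟨_, rfl⟩
  have hyp : y ^ p = 1 := by
    rw [hydef, mul_pow, ← hk, ← zpow_natCast (g ^ (-k')) p, ← zpow_mul, ← zpow_add, hk']
    have : (p : ℤ) * k' + -k' * (p : ℤ) = 0 := by ring
    rw [this, zpow_zero]
  have hyC : y ∉ Subgroup.zpowers g := by
    intro h
    apply hxC
    have h1 : x = y * g ^ k' := by rw [hydef, mul_assoc, ← zpow_add]; simp
    rw [h1]
    exact Subgroup.mul_mem _ h (Subgroup.zpow_mem_zpowers g k')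
  have hy1 : y ≠ 1 := fun h => hyC (h ▸ Subgroup.one_mem _)
  have hoy : orderOf y = p := orderOf_eq_prime hyp hy1
  obtain ⟨z, hzdef⟩ : ∃ z, z = g ^ (Monoid.exponent G / p) := ⟨_, rfl⟩
  have hoz : orderOf z = p := by
    rw [hzdef, ← hg]
    exact orderOf_pow_orderOf_div (orderOf_pos g).ne' (by rw [hg, he']; exact dvd_mul_right p e')
  have hzC : z ∈ Subgroup.zpowers g := by rw [hzdef]; exact Subgroup.npow_mem_zpowers g _
  have hzp : z ^ p = 1 := by rw [← hoz]; exact pow_orderOf_eq_one z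
  have hK : (powMonoidHom p : G →* G).ker = ⊤ := by
    apply hall
    intro hcyc
    have h1 := card_le_of_cyc p hp.pos (powMonoidHom p : G →* G).ker
      (fun h hh => by simpa using hh) hcyc
    have hzK : Subgroup.zpowers z ≤ (powMonoidHom p : G →* G).ker := by
      rw [Subgroup.zpowers_le, MonoidHom.mem_ker, powMonoidHom_apply]; exact hzp
    have h2 : Subgroup.zpowers z = (powMonoidHom p : G →* G).ker :=
      Subgroup.eq_of_le_of_card_ge hzK (by rw [Nat.card_zpowers, hoz]; exact h1)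
    have hyK : y ∈ (powMonoidHom p : G →* G).ker := by
      rw [MonoidHom.mem_ker, powMonoidHom_apply]; exact hyp
    rw [← h2] at hyK
    exact hyC ((Subgroup.zpowers_le.mpr hzC) hyK)
  have hpow : ∀ h : G, h ^ p = 1 := by
    intro h
    have : h ∈ (powMonoidHom p : G →* G).ker := by rw [hK]; trivial
    simpa using this
  have hexp : Monoid.exponent G = p := by
    apply Nat.dvd_antisymm (Monoid.exponent_dvd_of_forall_pow_eq_one hpow)
    rw [← hoy]; exact Monoid.order_dvd_exponent y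
  refine ⟨p, hp, ?_, hexp⟩
  have hPG : IsPGroup p G := fun h => ⟨1, by rw [pow_one]; exact hpow h⟩
  obtain ⟨n, hn⟩ := IsPGroup.iff_card.mp hPG
  have hn2 : n = 2 := by
    by_contra hne
    rcases Nat.lt_or_ge n 2 with h | h
    · interval_cases n
      · have : p ∣ Nat.card G := by rw [← hoy]; exact orderOf_dvd_natCard y
        rw [hn, pow_zero] at this
        exact hp.one_lt.ne' (Nat.dvd_one.mp this)
      · rw [pow_one] at hn
        exact hc (isCyclic_of_prime_card hn)
    · obtain ⟨K₂, hK₂⟩ := Sylow.exists_subgroup_card_pow_prime p (G := G) (n := 2)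
        (by rw [hn]; exact pow_dvd_pow p h)
      have hK₂top : K₂ = ⊤ := by
        apply hall
        intro hcyc
        have h1 := card_le_of_cyc p hp.pos K₂ (fun h _ => hpow h) hcyc
        rw [hK₂] at h1
        have : p < p ^ 2 := by nlinarith [hp.one_lt]
        omega
      rw [hK₂top, Subgroup.card_top, hn] at hK₂
      exact hne (Nat.pow_right_injective hp.two_le hK₂)
  rw [hn, hn2]

end Cfsg.Agent.S3917
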