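import Mathlib
import Cfsg.Statements.S3941

set_option autoImplicit false
set_option linter.style.haveILetI false
open Cfsg

namespace Cfsg.Agent.S3941

open Equiv Equiv.Perm

/-- In a finite group with a normal Sylow `p`-subgroup `P`, every element of order `p` lies in `P`. -/
theorem mem_of_order {H : Type*} [Group H] [Finite H] (p : ℕ) [Fact p.Prime] (P : Sylow p H)
    (hP : (P : Subgroup H).Normal) (x : H) (hx : orderOf x = p) : x ∈ (P : Subgroup H) := by
  have hpg : IsPGroup p (Subgroup.zpowers x) := by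
    apply IsPGroup.of_card (n := 1)
    rw [Nat.card_zpowers, hx, pow_one]
  obtain ⟨Q, hQ⟩ := hpg.exists_le_sylow
  haveI := Sylow.unique_of_normal P hP
  have hQP : Q = P := Subsingleton.elim _ _
  rw [← hQP]
  exact hQ (Subgroup.mem_zpowers x)

theorem order_pow {H : Type*} [Group H] (p : ℕ) [Fact p.Prime] (P : Sylow p H) (g : H)
    (hg : g ∈ (P : Subgroup H)) : ∃ k, orderOf g = p ^ k := by
  obtain ⟨k, hk⟩ := P.isPGroup' ⟨g, hg⟩
  have h1 : g ^ p ^ k = 1 := by
    have h0 := congrArg Subtype.val hk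
    simpa using h0
  have h2 := orderOf_dvd_of_pow_eq_one h1
  obtain ⟨j, -, hj⟩ := (Nat.dvd_prime_pow (Fact.out : p.Prime)).1 h2
  exact ⟨j, hj⟩

/-- Let n ≥ 5 and p an odd prime with p ≤ n, and suppose that every proper subgroup of the alternating group of degree n whose order is divisible by p has a normal Sylow p-subgroup. Then n = p. -/
theorem result (n p : ℕ) (hn : 5 ≤ n) [Fact p.Prime] (hp : p ≠ 2) (hpn : p ≤ n)
    (h : ∀ H : Subgroup ↥(alternatingGroup (Fin n)), H ≠ ⊤ → p ∣ Nat.card ↥H → Cfsg.IsPClosed p ↥H) : n = p := by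
  have hpp := (Fact.out : p.Prime)
  by_contra hne
  have hlt : p < n := lt_of_le_of_ne hpn (fun h' => hne h'.symm)
  obtain ⟨ℓ, hℓ⟩ : ∃ ℓ : Fin n, ℓ.val = n - 1 := ⟨⟨n - 1, by omega⟩, rfl⟩
  haveI : Nontrivial (Fin n) := Fin.nontrivial_iff_two_le.2 (by omega)
  haveI htr : MulAction.IsPretransitive (alternatingGroup (Fin n)) (Fin n) :=
    alternatingGroup.isPretransitive_of_three_le_card (Fin n) (by rw [Nat.card_fin]; omega)
  have hHtop : MulAction.stabilizer (alternatingGroup (Fin n)) ℓ ≠ ⊤ := by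
    intro htop
    obtain ⟨g, hg⟩ := MulAction.exists_smul_eq (alternatingGroup (Fin n)) ℓ (⟨0, by omega⟩ : Fin n)
    have h1 : g ∈ MulAction.stabilizer (alternatingGroup (Fin n)) ℓ := by
      rw [htop]
      exact Subgroup.mem_top g
    rw [MulAction.mem_stabilizer_iff] at h1
    rw [h1] at hg
    have h2 := congrArg Fin.val hg
    rw [hℓ] at h2
    simp at h2
    omega
  have hcard : 2 * Nat.card (MulAction.stabilizer (alternatingGroup (Fin n)) ℓ) =
      (n - 1).factorial := by
    have h1 := Subgroup.card_mul_index (MulAction.stabilizer (alternatingGroup (Fin n)) ℓ)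
    rw [MulAction.index_stabilizer_of_transitive, Nat.card_fin] at h1
    have h2 := two_mul_nat_card_alternatingGroup (α := Fin n)
    rw [Nat.card_perm, Nat.card_fin] at h2
    have h4 : n.factorial = n * (n - 1).factorial := by
      obtain ⟨m, rfl⟩ : ∃ m, n = m + 1 := ⟨n - 1, by omega⟩
      simp [Nat.factorial_succ]
    have h5 : n * (2 * Nat.card (MulAction.stabilizer (alternatingGroup (Fin n)) ℓ)) =
        n * (n - 1).factorial := by
      rw [← h4, ← h2, ← h1]
      ring
    exact Nat.eq_of_mul_eq_mul_left (by omega) h5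
  have hpH : p ∣ Nat.card (MulAction.stabilizer (alternatingGroup (Fin n)) ℓ) := by
    have h5 : p ∣ 2 * Nat.card (MulAction.stabilizer (alternatingGroup (Fin n)) ℓ) := by
      rw [hcard]
      exact (hpp.dvd_factorial).2 (by omega)
    rcases (Nat.Prime.dvd_mul hpp).1 h5 with h6 | h6
    · exfalso
      exact hp ((Nat.prime_dvd_prime_iff_eq hpp Nat.prime_two).1 h6)
    · exact h6
  have hcl := h _ hHtop hpH
  obtain ⟨P⟩ := (inferInstance : Nonempty (Sylow p (MulAction.stabilizer (alternatingGroup (Fin n)) ℓ)))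
  have hPn := hcl P
  by_cases h3 : p = 3
  · subst h3
    obtain ⟨a, ha⟩ : ∃ a : Fin n, a.val = 0 := ⟨⟨0, by omega⟩, rfl⟩
    obtain ⟨b, hb⟩ : ∃ b : Fin n, b.val = 1 := ⟨⟨1, by omega⟩, rfl⟩
    obtain ⟨c, hc⟩ : ∃ c : Fin n, c.val = 2 := ⟨⟨2, by omega⟩, rfl⟩
    obtain ⟨d, hd⟩ : ∃ d : Fin n, d.val = 3 := ⟨⟨3, by omega⟩, rfl⟩
    have hab : a ≠ b := Fin.ne_of_val_ne (by omega)
    have hac : a ≠ c := Fin.ne_of_val_ne (by omega)
    have had : a ≠ d := Fin.ne_of_val_ne (by omega)
    have hbc : b ≠ c := Fin.ne_of_val_ne (by omega)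
    have hbd : b ≠ d := Fin.ne_of_val_ne (by omega)
    have hcd : c ≠ d := Fin.ne_of_val_ne (by omega)
    have hℓa : ℓ ≠ a := Fin.ne_of_val_ne (by omega)
    have hℓb : ℓ ≠ b := Fin.ne_of_val_ne (by omega)
    have hℓc : ℓ ≠ c := Fin.ne_of_val_ne (by omega)
    have hℓd : ℓ ≠ d := Fin.ne_of_val_ne (by omega)
    have hu3 : IsThreeCycle (swap a b * swap a c) := isThreeCycle_swap_mul_swap_same hab hac hbc
    have hv3 : IsThreeCycle (swap c a * swap c d) :=
      isThreeCycle_swap_mul_swap_same hac.symm hcd had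
    have hu_fix : (swap a b * swap a c) ℓ = ℓ := by
      rw [Perm.mul_apply, swap_apply_of_ne_of_ne hℓa hℓc, swap_apply_of_ne_of_ne hℓa hℓb]
    have hv_fix : (swap c a * swap c d) ℓ = ℓ := by
      rw [Perm.mul_apply, swap_apply_of_ne_of_ne hℓc hℓd, swap_apply_of_ne_of_ne hℓc hℓa]
    have huo : orderOf (⟨⟨swap a b * swap a c, hu3.mem_alternatingGroup⟩, hu_fix⟩ :
        MulAction.stabilizer (alternatingGroup (Fin n)) ℓ) = 3 := by
      rw [← Subgroup.orderOf_coe, ← Subgroup.orderOf_coe]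
      exact hu3.orderOf
    have hvo : orderOf (⟨⟨swap c a * swap c d, hv3.mem_alternatingGroup⟩, hv_fix⟩ :
        MulAction.stabilizer (alternatingGroup (Fin n)) ℓ) = 3 := by
      rw [← Subgroup.orderOf_coe, ← Subgroup.orderOf_coe]
      exact hv3.orderOf
    have huP := mem_of_order 3 P hPn _ huo
    have hvP := mem_of_order 3 P hPn _ hvo
    obtain ⟨k, hk⟩ := order_pow 3 P _ (Subgroup.mul_mem _ huP hvP)
    have hcoe : orderOf ((⟨⟨swap a b * swap a c, hu3.mem_alternatingGroup⟩, hu_fix⟩ :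
        MulAction.stabilizer (alternatingGroup (Fin n)) ℓ) *
        ⟨⟨swap c a * swap c d, hv3.mem_alternatingGroup⟩, hv_fix⟩) =
        orderOf (swap a b * swap a c * (swap c a * swap c d)) := by
      rw [← Subgroup.orderOf_coe, ← Subgroup.orderOf_coe]
      rfl
    have hprod : swap a b * swap a c * (swap c a * swap c d) = swap a b * swap c d := by
      rw [swap_comm c a, mul_assoc, ← mul_assoc (swap a c), swap_mul_self, one_mul]
    rw [hcoe, hprod] at hk
    have hcomm : swap a b * swap c d = swap c d * swap a b := by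
      have e := swap_apply_apply (swap c d) a b
      rw [swap_apply_of_ne_of_ne hac had, swap_apply_of_ne_of_ne hbc hbd] at e
      calc swap a b * swap c d = (swap c d * swap a b * (swap c d)⁻¹) * swap c d := by rw [← e]
        _ = swap c d * swap a b := inv_mul_cancel_right _ _
    have hsq : (swap a b * swap c d) ^ 2 = 1 := by
      rw [sq]
      nth_rewrite 2 [hcomm]
      rw [mul_assoc, ← mul_assoc (swap c d), swap_mul_self, one_mul, swap_mul_self]
    have hdvd := orderOf_dvd_of_pow_eq_one hsq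
    rw [hk] at hdvd
    have hk0 : k = 0 := by
      by_contra hk0
      have h3le : 3 ≤ 3 ^ k := Nat.le_self_pow hk0 3
      have := Nat.le_of_dvd (by norm_num) hdvd
      omega
    rw [hk0, pow_zero, orderOf_eq_one_iff] at hk
    have h1 := congrArg (fun g : Perm (Fin n) => g a) hk
    simp only [Perm.mul_apply, Perm.one_apply] at h1
    rw [swap_apply_of_ne_of_ne hac had, swap_apply_left] at h1
    exact hab h1.symm
  · obtain ⟨x, hx⟩ := exists_prime_orderOf_dvd_card' p hpH
    have hinv1 : ∀ t, (x.1.1)⁻¹ (x.1.1 t) = t := fun t => (x.1.1).symm_apply_apply t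
    have hinv2 : ∀ t, x.1.1 ((x.1.1)⁻¹ t) = t := fun t => (x.1.1).apply_symm_apply t
    have hπord : orderOf (x.1.1) = p := by
      rw [Subgroup.orderOf_coe, Subgroup.orderOf_coe, hx]
    have hπℓ : x.1.1 ℓ = ℓ := x.2
    have hπ1 : x.1.1 ≠ 1 := by
      intro h1
      rw [h1, orderOf_one] at hπord
      exact hpp.one_lt.ne' hπord.symm
    obtain ⟨i, hi⟩ : ∃ i, x.1.1 i ≠ i := by
      by_contra hall
      push Not at hall
      exact hπ1 (Equiv.ext hall)
    have hjl : x.1.1 (x.1.1 i) ≠ i := by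
      intro h2
      obtain ⟨m, hm⟩ := hpp.eq_two_or_odd'.resolve_left hp
      have h3' : ((x.1.1) ^ 2) i = i := by
        rw [sq, Perm.mul_apply]
        exact h2
      have h4 : (((x.1.1) ^ 2) ^ m) i = i := Equiv.Perm.pow_apply_eq_self_of_apply_eq_self h3' m
      have h5 : ((x.1.1) ^ p) i = x.1.1 i := by
        rw [hm, pow_succ', Perm.mul_apply, pow_mul, h4]
      rw [← hπord, pow_orderOf_eq_one] at h5
      exact hi h5.symm
    have hiℓ : i ≠ ℓ := fun h' => hi (h' ▸ hπℓ)
    have hjℓ : x.1.1 i ≠ ℓ := by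
      intro h'
      apply hiℓ
      apply (x.1.1).injective
      rw [h', hπℓ]
    have hy_mem : swap i (x.1.1 i) * x.1.1 * (swap i (x.1.1 i))⁻¹ ∈ alternatingGroup (Fin n) :=
      (inferInstance : (alternatingGroup (Fin n)).Normal).conj_mem _ x.1.2 _
    have hy_fix : (swap i (x.1.1 i) * x.1.1 * (swap i (x.1.1 i))⁻¹) ℓ = ℓ := by
      rw [Perm.mul_apply, Perm.mul_apply, swap_inv,
        swap_apply_of_ne_of_ne (Ne.symm hiℓ) (Ne.symm hjℓ), hπℓ,
        swap_apply_of_ne_of_ne (Ne.symm hiℓ) (Ne.symm hjℓ)]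
    have hy_ord : orderOf (swap i (x.1.1 i) * x.1.1 * (swap i (x.1.1 i))⁻¹) = p := by
      rw [← hπord]
      exact orderOf_injective (MulAut.conj (swap i (x.1.1 i))).toMonoidHom
        (MulAut.conj (swap i (x.1.1 i))).injective (x.1.1)
    have hyo : orderOf (⟨⟨swap i (x.1.1 i) * x.1.1 * (swap i (x.1.1 i))⁻¹, hy_mem⟩, hy_fix⟩ :
        MulAction.stabilizer (alternatingGroup (Fin n)) ℓ) = p := by
      rw [← Subgroup.orderOf_coe, ← Subgroup.orderOf_coe]
      exact hy_ord
    have hxP := mem_of_order p P hPn x hx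
    have hyP := mem_of_order p P hPn _ hyo
    obtain ⟨k, hk⟩ := order_pow p P _ (Subgroup.mul_mem _ (Subgroup.inv_mem _ hxP) hyP)
    have hcoe : orderOf (x⁻¹ * (⟨⟨swap i (x.1.1 i) * x.1.1 * (swap i (x.1.1 i))⁻¹, hy_mem⟩,
        hy_fix⟩ : MulAction.stabilizer (alternatingGroup (Fin n)) ℓ)) =
        orderOf ((x.1.1)⁻¹ * (swap i (x.1.1 i) * x.1.1 * (swap i (x.1.1 i))⁻¹)) := by
      rw [← Subgroup.orderOf_coe, ← Subgroup.orderOf_coe]
      rfl
    have h3c : IsThreeCycle ((x.1.1)⁻¹ * (swap i (x.1.1 i) * x.1.1 * (swap i (x.1.1 i))⁻¹)) := by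
      have e1 : (x.1.1)⁻¹ * (swap i (x.1.1 i) * x.1.1 * (swap i (x.1.1 i))⁻¹) =
          swap i ((x.1.1)⁻¹ i) * swap i (x.1.1 i) := by
        have e2 := swap_apply_apply (x.1.1)⁻¹ i (x.1.1 i)
        rw [hinv1, inv_inv] at e2
        rw [swap_comm i ((x.1.1)⁻¹ i), e2, swap_inv]
        simp only [mul_assoc]
      rw [e1]
      apply isThreeCycle_swap_mul_swap_same
      · intro h'
        apply hi
        have h6 := congrArg (x.1.1) h'
        rw [hinv2] at h6
        exact h6
      · exact fun h' => hi h'.symm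
      · intro h'
        apply hjl
        have h6 := congrArg (x.1.1) h'
        rw [hinv2] at h6
        exact h6.symm
    rw [hcoe, h3c.orderOf] at hk
    have hp3 : p = 3 := by
      rcases Nat.eq_zero_or_pos k with rfl | hkpos
      · simp at hk
      · have hdvd : p ∣ 3 := by
          rw [hk]
          exact dvd_pow_self p hkpos.ne'
        exact (Nat.prime_dvd_prime_iff_eq hpp Nat.prime_three).1 hdvd
    exact h3 hp3

end Cfsg.Agent.S3941
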