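import Mathlib
import Cfsg.Statements.S3949

set_option autoImplicit false
open Cfsg

namespace Cfsg.Agent.S3949

theorem iter_inv {G : Type*} [Group G] (α : MulAut G) :
    ∀ (i : ℕ) (h : G), α h = h⁻¹ → ((fun c : G => c * (α c)⁻¹)^[i]) h = h ^ (2 ^ i) := by
  intro i
  induction i with
  | zero => intro h _; simp
  | succ i ih =>
    intro h hh
    rw [Function.iterate_succ_apply]
    have h1 : h * (α h)⁻¹ = h ^ 2 := by
      rw [hh, inv_inv, pow_two]
    rw [h1, ih (h ^ 2) (by rw [map_pow, hh, inv_pow]), ← pow_mul, pow_succ']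

/-- Let G be a finite group and α an automorphism of G of order 2 such that the elements g·α(g)⁻¹ generate G. Let j be a positive integer such that 2^j divides the order of no element inverted by α. Then the set of values of the j-th iterate of the map c ↦ c·α(c)⁻¹ is exactly the set of elements of odd order inverted by α. -/
theorem result {G : Type*} [Group G] [Finite G] (α : MulAut G) (hα : orderOf α = 2) (hG : Subgroup.closure (Set.range (fun c : G => c * (α c)⁻¹)) = ⊤)
    (j : ℕ) (hj : ∀ g : G, α g = g⁻¹ → ¬ 2 ^ j ∣ orderOf g) :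
    Set.range ((fun c : G => c * (α c)⁻¹)^[j]) = {g : G | Odd (orderOf g) ∧ α g = g⁻¹} := by
  have hαα : ∀ c : G, α (α c) = c := by
    intro c
    have h2 : α ^ 2 = 1 := by rw [← hα]; exact pow_orderOf_eq_one α
    have : (α ^ 2) c = c := by rw [h2]; rfl
    rw [pow_two] at this
    exact this
  have hj1 : j ≠ 0 := by
    rintro rfl
    exact hj 1 (by simp) (by simp)
  obtain ⟨i, rfl⟩ := Nat.exists_eq_succ_of_ne_zero hj1
  have hfinv : ∀ c : G, α (c * (α c)⁻¹) = (c * (α c)⁻¹)⁻¹ := by
    intro c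
    rw [map_mul, map_inv, hαα, mul_inv_rev, inv_inv]
  ext x
  simp only [Set.mem_range, Set.mem_setOf_eq]
  constructor
  · rintro ⟨c, rfl⟩
    rw [Function.iterate_succ_apply]
    set d := c * (α c)⁻¹ with hd
    have hdinv : α d = d⁻¹ := hfinv c
    rw [iter_inv α i d hdinv]
    refine ⟨?_, by rw [map_pow, hdinv, inv_pow]⟩
    have ho : orderOf d ≠ 0 := (orderOf_pos d).ne'
    obtain ⟨e, m, hm, hem⟩ := Nat.exists_eq_two_pow_mul_odd ho
    have he : e ≤ i := by
      by_contra hcon
      push_neg at hcon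
      apply hj d hdinv
      rw [hem]
      exact Dvd.dvd.mul_right (pow_dvd_pow 2 hcon) m
    have h1 : (d ^ 2 ^ i) ^ m = 1 := by
      rw [← pow_mul]
      apply orderOf_dvd_iff_pow_eq_one.mp
      rw [hem]
      exact Nat.mul_dvd_mul_right (pow_dvd_pow 2 he) m
    exact Odd.of_dvd_nat hm (orderOf_dvd_of_pow_eq_one h1)
  · rintro ⟨hodd, hinv⟩
    obtain ⟨k, hk⟩ := hodd
    have hpow : ∀ n : ℕ, x ^ ((2 * k + 2) ^ n) = x := by
      intro n
      induction n with
      | zero => simp
      | succ n ih =>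
        rw [pow_succ, pow_mul, ih]
        have : x ^ (2 * k + 2) = x ^ (orderOf x) * x := by rw [hk, ← pow_succ]
        rw [this, pow_orderOf_eq_one, one_mul]
    refine ⟨x ^ ((k + 1) ^ (i + 1)), ?_⟩
    rw [iter_inv α (i + 1) _ (by rw [map_pow, hinv, inv_pow]), ← pow_mul, ← mul_pow]
    have : (k + 1) * 2 = 2 * k + 2 := by ring
    rw [this]
    exact hpow (i + 1)

end Cfsg.Agent.S3949
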