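import Cfsg.Statements.S3982
import Mathlib
import Cfsg.Agent.Lib.Helper8.Invol

set_option autoImplicit false
open Cfsg
open Cfsg.Agent.Lib.Helper8

namespace Cfsg.Agent.S3982

/-- Let p be an odd prime and G a finite group of even order divisible by p in which the centralizer of every non-identity p-element has odd order. If some nontrivial p-subgroup of G has a normalizer of even order, then the normalizer of every Sylow p-subgroup of G has even order. -/
theorem result {G : Type*} [Group G] [Finite G] (p : ℕ) [Fact p.Prime] (hp2 : p ≠ 2) (hpG : p ∣ Nat.card G) (h2G : 2 ∣ Nat.card G) (hC : ∀ g : G, g ≠ 1 → (∃ k : ℕ, orderOf g = p ^ k) → Odd (Nat.card ↥(Subgroup.centralizer ({g} : Set G)))) (Q : Subgroup G) (hQ : IsPGroup p ↥Q) (hQ1 : Q ≠ ⊥) (hev : Even (Nat.card ↥(Subgroup.normalizer (Q : Set G)))) (P : Sylow p G) : Even (Nat.card ↥(Subgroup.normalizer ((P : Subgroup G) : Set G))) := by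
  have hp : p.Prime := Fact.out
  -- fixed-point-freeness of involutions on p-subgroups
  have hfpf : ∀ (S : Subgroup G), IsPGroup p S → ∀ t : G, orderOf t = 2 →
      ∀ s ∈ S, t * s = s * t → s = 1 := by
    intro S hS t ht s hs hts
    by_contra hs1
    have h1 := hC s hs1 (h8_exists_orderOf_eq_pow hS hs)
    have h2 : t ∈ Subgroup.centralizer ({s} : Set G) :=
      Subgroup.mem_centralizer_singleton_iff.2 hts
    exact (Nat.not_even_iff_odd.2 h1) (h8_even_card_of_involution h2 ht)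
  have hsq : ∀ t : G, orderOf t = 2 → t * t = 1 := by
    intro t ht
    have := pow_orderOf_eq_one t
    rwa [ht, pow_two] at this
  have hinv : ∀ (S : Subgroup G), IsPGroup p S → ∀ t : G, orderOf t = 2 →
      t ∈ Subgroup.normalizer (S : Set G) → ∀ s ∈ S, t * s * t⁻¹ = s⁻¹ :=
    fun S hS t ht htS => h8_inverts_of_fixedPointFree (hsq t ht) htS (hfpf S hS t ht)
  -- an involution t in N(Q) and g ∈ Q nontrivial
  obtain ⟨t, htN, ht⟩ := h8_exists_involution_of_even _ hev
  obtain ⟨g, hg1⟩ := (Subgroup.ne_bot_iff_exists_ne_one.1 hQ1)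
  have hg1' : (g : G) ≠ 1 := fun h => hg1 (Subtype.ext h)
  obtain ⟨kg, hkg⟩ := h8_exists_orderOf_eq_pow hQ g.2
  have htg : t * (g : G) * t⁻¹ = (g : G)⁻¹ := hinv Q hQ t ht htN g g.2
  set L := Subgroup.centralizer ({(g : G)} : Set G) with hL
  have htL : t ∈ Subgroup.normalizer (L : Set G) := h8_mem_normalizer_centralizer_of_inverts htg
  have hLodd : Odd (Nat.card L) := hC g hg1' ⟨kg, hkg⟩
  -- a Sylow subgroup P₁ of G containing g
  obtain ⟨P₁, hP₁⟩ := (h8_isPGroup_zpowers hkg).exists_le_sylow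
  have hgP₁ : (g : G) ∈ (P₁ : Subgroup G) := hP₁ (Subgroup.mem_zpowers _)
  -- a Sylow subgroup S of L containing P₁ ⊓ L
  have hD : IsPGroup p (((P₁ : Subgroup G) ⊓ L).subgroupOf L) :=
    (P₁.isPGroup'.to_le inf_le_left).comap_subtype
  obtain ⟨S₀, hS₀⟩ := hD.exists_le_sylow
  set S := (S₀ : Subgroup ↥L).map L.subtype with hS
  have hSL : S ≤ L := Subgroup.map_subtype_le _
  have hSp : IsPGroup p S := S₀.isPGroup'.map _
  have hSrel : ¬ p ∣ S.relIndex L := by
    have : S.subgroupOf L = (S₀ : Subgroup ↥L) := by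
      rw [hS]
      exact Subgroup.comap_map_eq_self_of_injective L.subtype_injective _
    rw [Subgroup.relIndex, this]
    exact S₀.not_dvd_index
  have hDS : (P₁ : Subgroup G) ⊓ L ≤ S := by
    intro x hx
    have hxL : x ∈ L := (Subgroup.mem_inf.1 hx).2
    exact ⟨⟨x, hxL⟩, hS₀ (Subgroup.mem_subgroupOf.2 hx), rfl⟩
  have hev2 := h8_even_normalizer_of_sylow hSL hSp hSrel hLodd ht htL
  obtain ⟨t₂, ht₂N, ht₂⟩ := h8_exists_involution_of_even _ hev2
  -- a central element z of P₁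
  have hP₁nt : Nontrivial ↥(P₁ : Subgroup G) := ⟨⟨g, hgP₁⟩, 1, fun h => hg1' (congrArg Subtype.val h)⟩
  have hcn := P₁.isPGroup'.center_nontrivial
  obtain ⟨z, hz⟩ := exists_ne (1 : Subgroup.center ↥(P₁ : Subgroup G))
  have hz1 : ((z : ↥(P₁ : Subgroup G)) : G) ≠ 1 := by
    intro h
    apply hz
    exact Subtype.ext (Subtype.ext h)
  have hzc : ∀ x ∈ (P₁ : Subgroup G), x * ((z : ↥(P₁ : Subgroup G)) : G) =
      ((z : ↥(P₁ : Subgroup G)) : G) * x := by
    intro x hx
    have := Subgroup.mem_center_iff.1 z.2 ⟨x, hx⟩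
    exact congrArg Subtype.val this
  set zG : G := ((z : ↥(P₁ : Subgroup G)) : G) with hzG
  have hzP₁ : zG ∈ (P₁ : Subgroup G) := (z : ↥(P₁ : Subgroup G)).2
  have hzL : zG ∈ L := by
    rw [hL, Subgroup.mem_centralizer_singleton_iff]
    exact (hzc g hgP₁).symm
  have hzS : zG ∈ S := hDS (Subgroup.mem_inf.2 ⟨hzP₁, hzL⟩)
  have ht₂z : t₂ * zG * t₂⁻¹ = zG⁻¹ := hinv S hSp t₂ ht₂ ht₂N zG hzS
  set L₂ := Subgroup.centralizer ({zG} : Set G) with hL₂
  have ht₂L : t₂ ∈ Subgroup.normalizer (L₂ : Set G) :=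
    h8_mem_normalizer_centralizer_of_inverts ht₂z
  have hL₂odd : Odd (Nat.card L₂) := hC zG hz1 (h8_exists_orderOf_eq_pow P₁.isPGroup' hzP₁)
  have hP₁L₂ : (P₁ : Subgroup G) ≤ L₂ := by
    intro x hx
    rw [hL₂, Subgroup.mem_centralizer_singleton_iff]
    exact hzc x hx
  have hP₁rel : ¬ p ∣ (P₁ : Subgroup G).relIndex L₂ := by
    intro hd
    apply P₁.not_dvd_index
    rw [← Subgroup.relIndex_mul_index hP₁L₂]
    exact hd.mul_right _
  have hev3 := h8_even_normalizer_of_sylow hP₁L₂ P₁.isPGroup' hP₁rel hL₂odd ht₂ ht₂L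
  obtain ⟨t₃, ht₃N, ht₃⟩ := h8_exists_involution_of_even _ hev3
  -- transport to P
  obtain ⟨c, hc⟩ := MulAction.exists_smul_eq G P₁ P
  have h0 : (c * t₃ * c⁻¹) • P = P := by
    have e : c * t₃ * c⁻¹ * c = c * t₃ := by group
    rw [← hc, ← mul_smul, e, mul_smul, Sylow.smul_eq_iff_mem_normalizer.2 ht₃N]
  have h1 : c * t₃ * c⁻¹ ∈ Subgroup.normalizer ((P : Subgroup G) : Set G) :=
    Sylow.smul_eq_iff_mem_normalizer.1 h0
  exact h8_even_card_of_involution h1 (by rw [h8_orderOf_conj, ht₃])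

end Cfsg.Agent.S3982
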