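import Cfsg.Statements.S3983
import Mathlib
import Cfsg.Agent.Lib.Helper8.Basic

set_option autoImplicit false
open scoped Pointwise
open Cfsg
open Cfsg.Agent.Lib.Helper8

namespace Cfsg.Agent.S3983

/-- Let P be a Sylow p-subgroup of the finite group G that meets each conjugate g P g⁻¹ with g outside N_G(P) trivially, and let U be a subgroup of G of order divisible by p. Then a Sylow p-subgroup Q of U has the same property inside U: Q meets each conjugate u Q u⁻¹ with u ∈ U outside N_U(Q) trivially. -/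
theorem result {G : Type*} [Group G] [Finite G] (p : ℕ) [Fact p.Prime] (P : Sylow p G) (hTI : ∀ g : G, g ∉ Subgroup.normalizer ((P : Subgroup G) : Set G) → (P : Subgroup G) ⊓ (MulAut.conj g • (P : Subgroup G)) = ⊥) (U : Subgroup G) (hU : p ∣ Nat.card ↥U) (Q : Sylow p ↥U) : ∀ u : ↥U, u ∉ Subgroup.normalizer ((Q : Subgroup ↥U) : Set ↥U) → (Q : Subgroup ↥U) ⊓ (MulAut.conj u • (Q : Subgroup ↥U)) = ⊥ := by
  intro u hu
  have hQ' : IsPGroup p ((Q : Subgroup ↥U).map U.subtype) := Q.isPGroup'.map _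
  obtain ⟨h, hh⟩ := h8_exists_conj_sylow_ge P hQ'
  -- Q is exactly the set of z with h⁻¹ z h ∈ P
  have hR : IsPGroup p (((P : Subgroup G).map (MulAut.conj h).toMonoidHom).subgroupOf U) :=
    (h8_isPGroup_map_conj h P.isPGroup').comap_subtype
  have hQR : (Q : Subgroup ↥U) ≤ ((P : Subgroup G).map (MulAut.conj h).toMonoidHom).subgroupOf U := by
    intro z hz
    rw [Subgroup.mem_subgroupOf, h8_mem_map_conj]
    exact hh _ ⟨z, hz, rfl⟩
  have hQeq := Q.is_maximal' hR hQR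
  have hmem : ∀ z : ↥U, z ∈ (Q : Subgroup ↥U) ↔ h⁻¹ * (z : G) * h ∈ (P : Subgroup G) := by
    intro z
    rw [← hQeq, Subgroup.mem_subgroupOf, h8_mem_map_conj]
  rw [Subgroup.eq_bot_iff_forall]
  intro x hx
  obtain ⟨hx1, hx2⟩ := Subgroup.mem_inf.1 hx
  rw [Subgroup.mem_pointwise_smul_iff_inv_smul_mem] at hx2
  have hx2' : u⁻¹ * x * u ∈ (Q : Subgroup ↥U) := by
    simpa [MulAut.smul_def] using hx2
  by_contra hx1ne
  apply hu
  -- g = h⁻¹ u h normalizes P
  have hg : h⁻¹ * (u : G) * h ∈ Subgroup.normalizer ((P : Subgroup G) : Set G) := by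
    by_contra hg
    have h1 := hTI _ hg
    have h2 : h⁻¹ * (x : G) * h ∈ (P : Subgroup G) ⊓
        (MulAut.conj (h⁻¹ * (u : G) * h) • (P : Subgroup G)) := by
      refine Subgroup.mem_inf.2 ⟨(hmem x).1 hx1, ?_⟩
      rw [Subgroup.mem_pointwise_smul_iff_inv_smul_mem]
      have h3 := (hmem _).1 hx2'
      have h4 : (MulAut.conj (h⁻¹ * (u : G) * h))⁻¹ • (h⁻¹ * (x : G) * h) =
          h⁻¹ * ((u⁻¹ * x * u : ↥U) : G) * h := by
        simp [MulAut.smul_def, mul_assoc]
      rw [h4]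
      exact h3
    rw [h1, Subgroup.mem_bot] at h2
    apply hx1ne
    have h5 : (x : G) = 1 := by
      have : (x : G) = h * (h⁻¹ * (x : G) * h) * h⁻¹ := by group
      rw [this, h2]; group
    exact Subtype.ext h5
  rw [Subgroup.mem_normalizer_iff]
  intro z
  rw [hmem, hmem]
  rw [Subgroup.mem_normalizer_iff] at hg
  have h6 := hg (h⁻¹ * (z : G) * h)
  rw [h6]
  have h7 : h⁻¹ * (u : G) * h * (h⁻¹ * (z : G) * h) * (h⁻¹ * (u : G) * h)⁻¹ =
      h⁻¹ * ((u * z * u⁻¹ : ↥U) : G) * h := by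
    simp only [Subgroup.coe_mul, Subgroup.coe_inv]
    group
  rw [h7]

end Cfsg.Agent.S3983
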