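import Cfsg.Statements.S3984
import Mathlib
import Cfsg.Agent.Lib.Helper2.SZCyclic
import Cfsg.Agent.Lib.Helper7.Compl
import Cfsg.Agent.Lib.Helper7.Coprime
import Cfsg.Agent.Lib.Helper8.PElem

set_option autoImplicit false
open scoped Pointwise
open Cfsg
open Cfsg.Agent.Lib.Helper8

namespace Cfsg.Agent.S3984

/-- Let P be a Sylow p-subgroup of the finite group G that meets each conjugate g P g⁻¹ with g outside N_G(P) trivially, and let N be a normal subgroup of G of order prime to p. Then every Sylow p-subgroup Q of G ⧸ N meets each conjugate x Q x⁻¹ with x outside its normalizer trivially. -/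
theorem result {G : Type*} [Group G] [Finite G] (p : ℕ) [Fact p.Prime] (P : Sylow p G) (hTI : ∀ g : G, g ∉ Subgroup.normalizer ((P : Subgroup G) : Set G) → (P : Subgroup G) ⊓ (MulAut.conj g • (P : Subgroup G)) = ⊥) (N : Subgroup G) [N.Normal] (hN : (Nat.card ↥N).Coprime p) (Q : Sylow p (G ⧸ N)) : ∀ x : G ⧸ N, x ∉ Subgroup.normalizer ((Q : Subgroup (G ⧸ N)) : Set (G ⧸ N)) → (Q : Subgroup (G ⧸ N)) ⊓ (MulAut.conj x • (Q : Subgroup (G ⧸ N))) = ⊥ := by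
  have hp : p.Prime := Fact.out
  intro x hx
  have hsurj : Function.Surjective (QuotientGroup.mk' N) := QuotientGroup.mk'_surjective N
  set Pb : Sylow p (G ⧸ N) := P.mapSurjective hsurj with hPb
  have hPbmem : ∀ z : G ⧸ N, z ∈ (Pb : Subgroup (G ⧸ N)) ↔ ∃ b ∈ (P : Subgroup G), (b : G ⧸ N) = z := by
    intro z
    rw [hPb, Sylow.coe_mapSurjective, Subgroup.mem_map]
    rfl
  obtain ⟨yb, hyb⟩ := MulAction.exists_smul_eq (G ⧸ N) Pb Q
  obtain ⟨y, rfl⟩ := QuotientGroup.mk_surjective yb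
  obtain ⟨g, rfl⟩ := QuotientGroup.mk_surjective x
  rw [Subgroup.eq_bot_iff_forall]
  intro a ha
  obtain ⟨ha1, ha2⟩ := Subgroup.mem_inf.1 ha
  rw [Subgroup.mem_pointwise_smul_iff_inv_smul_mem] at ha2
  have ha2' : (g : G ⧸ N)⁻¹ * a * (g : G ⧸ N) ∈ (Q : Subgroup (G ⧸ N)) := by
    simpa [MulAut.smul_def] using ha2
  rw [← hyb, h8_mem_smul_sylow, hPbmem] at ha1 ha2'
  obtain ⟨b₁, hb₁, hb₁a⟩ := ha1
  obtain ⟨b₂, hb₂, hb₂a⟩ := ha2'
  by_contra ha_ne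
  apply hx
  -- u and v
  have hπu : ((y * b₁ * y⁻¹ : G) : G ⧸ N) = a := by
    rw [QuotientGroup.mk_mul, QuotientGroup.mk_mul, QuotientGroup.mk_inv, hb₁a]; group
  have hπv : ((g * y * b₂ * y⁻¹ * g⁻¹ : G) : G ⧸ N) = a := by
    rw [QuotientGroup.mk_mul, QuotientGroup.mk_mul, QuotientGroup.mk_mul, QuotientGroup.mk_mul,
      QuotientGroup.mk_inv, QuotientGroup.mk_inv, hb₂a]; group
  have huv : (y * b₁ * y⁻¹)⁻¹ * (g * y * b₂ * y⁻¹ * g⁻¹) ∈ N := by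
    rw [← QuotientGroup.eq, hπu, hπv]
  obtain ⟨k₁, hk₁⟩ := h8_exists_orderOf_eq_pow P.isPGroup' hb₁
  obtain ⟨k₂, hk₂⟩ := h8_exists_orderOf_eq_pow P.isPGroup' hb₂
  have hou : orderOf (y * b₁ * y⁻¹) = p ^ k₁ := by rw [h8_orderOf_conj, hk₁]
  have hov : orderOf (g * y * b₂ * y⁻¹ * g⁻¹) = p ^ k₂ := by
    have : g * y * b₂ * y⁻¹ * g⁻¹ = (g * y) * b₂ * (g * y)⁻¹ := by group
    rw [this, h8_orderOf_conj, hk₂]
  have hcopN : ∀ k : ℕ, (p ^ k).Coprime (Nat.card N) := fun k => (hN.symm).pow_left k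
  have hupow : (y * b₁ * y⁻¹) ^ orderOf (g * y * b₂ * y⁻¹ * g⁻¹) = 1 := by
    have h1 : (y * b₁ * y⁻¹) ^ orderOf (g * y * b₂ * y⁻¹ * g⁻¹) ∈ N := by
      rw [← QuotientGroup.eq_one_iff, QuotientGroup.mk_pow, hπu, ← hπv, ← QuotientGroup.mk_pow,
        pow_orderOf_eq_one]
      rfl
    have h2 : orderOf ((y * b₁ * y⁻¹) ^ orderOf (g * y * b₂ * y⁻¹ * g⁻¹)) ∣ p ^ k₁ := by
      rw [← hou]; exact orderOf_pow_dvd _
    have h3 : orderOf ((y * b₁ * y⁻¹) ^ orderOf (g * y * b₂ * y⁻¹ * g⁻¹)) ∣ Nat.card N := by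
      have := orderOf_dvd_natCard (⟨_, h1⟩ : N)
      rwa [Subgroup.orderOf_mk] at this
    rw [← orderOf_eq_one_iff]
    exact Nat.Coprime.eq_one_of_dvd (Nat.Coprime.coprime_dvd_left h2 (hcopN k₁)) h3
  obtain ⟨n, hn, hnu⟩ := Cfsg.Agent.Lib.Helper2.sz_cyclic_normal N (g * y * b₂ * y⁻¹ * g⁻¹)
    (y * b₁ * y⁻¹) (by rw [hov]; exact hcopN k₂) huv hupow
  -- w normalizes P
  have hb₁w : b₁ = (y⁻¹ * n⁻¹ * g * y) * b₂ * (y⁻¹ * n⁻¹ * g * y)⁻¹ := by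
    have e1 : b₁ = y⁻¹ * n⁻¹ * (n * (y * b₁ * y⁻¹) * n⁻¹) * n * y := by group
    rw [e1, hnu]; group
  have hb₁ne : b₁ ≠ 1 := by
    rintro rfl
    apply ha_ne
    rw [← hπu]
    simp
  have hwN : y⁻¹ * n⁻¹ * g * y ∈ Subgroup.normalizer ((P : Subgroup G) : Set G) := by
    by_contra hw
    have h1 := hTI _ hw
    have h2 : b₁ ∈ (P : Subgroup G) ⊓ MulAut.conj (y⁻¹ * n⁻¹ * g * y) • (P : Subgroup G) := by
      refine Subgroup.mem_inf.2 ⟨hb₁, ?_⟩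
      rw [Subgroup.mem_pointwise_smul_iff_inv_smul_mem]
      have e2 : (MulAut.conj (y⁻¹ * n⁻¹ * g * y))⁻¹ • b₁ = b₂ := by
        rw [hb₁w]
        simp [MulAut.smul_def, mul_assoc]
      rw [e2]; exact hb₂
    rw [h1, Subgroup.mem_bot] at h2
    exact hb₁ne h2
  -- the image of w normalizes Pb
  have hwPb : ((y⁻¹ * n⁻¹ * g * y : G) : G ⧸ N) • Pb = Pb := by
    apply Sylow.ext
    rw [Sylow.coe_subgroup_smul, hPb, Sylow.coe_mapSurjective]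
    have h1 : MulAut.conj (y⁻¹ * n⁻¹ * g * y) • (P : Subgroup G) = (P : Subgroup G) :=
      Cfsg.Agent.Lib.Helper7.mem_normalizer_iff_conj_smul.1 hwN
    have h2 := Cfsg.Agent.Lib.Helper7.map_conj_smul (QuotientGroup.mk' N) (y⁻¹ * n⁻¹ * g * y)
      (P : Subgroup G)
    rw [h1] at h2
    exact h2.symm
  have hπw : ((y⁻¹ * n⁻¹ * g * y : G) : G ⧸ N) = (y : G ⧸ N)⁻¹ * (g : G ⧸ N) * (y : G ⧸ N) := by
    rw [QuotientGroup.mk_mul, QuotientGroup.mk_mul, QuotientGroup.mk_mul, QuotientGroup.mk_inv,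
      QuotientGroup.mk_inv, (QuotientGroup.eq_one_iff n).2 hn]
    group
  rw [hπw] at hwPb
  have hfin : (g : G ⧸ N) • Q = Q := by
    rw [← hyb, ← mul_smul]
    have e3 : (g : G ⧸ N) * (y : G ⧸ N) = (y : G ⧸ N) * ((y : G ⧸ N)⁻¹ * (g : G ⧸ N) * (y : G ⧸ N)) := by
      group
    rw [e3, mul_smul, hwPb]
  exact Sylow.smul_eq_iff_mem_normalizer.1 hfin

end Cfsg.Agent.S3984
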