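import Cfsg.Statements.S3985
import Mathlib
import Cfsg.Agent.Lib.Helper8.CyclicAut
import Cfsg.Agent.Lib.Helper8.PElem
import Cfsg.Agent.Lib.Helper8.DirectFactor

set_option autoImplicit false
open scoped Pointwise
open Cfsg
open Cfsg.Agent.Lib.Helper8

namespace Cfsg.Agent.S3985

/-- Let P be a cyclic Sylow p-subgroup of the finite group G. Then P meets each conjugate g P g⁻¹ with g outside N_G(P) trivially if and only if P is weakly self-centralizing: C_G(x) = C_G(P) for every non-identity x ∈ P. -/
theorem result {G : Type*} [Group G] [Finite G] (p : ℕ) [Fact p.Prime] (P : Sylow p G) (hcyc : IsCyclic ↥(P : Subgroup G)) : (∀ g : G, g ∉ Subgroup.normalizer ((P : Subgroup G) : Set G) → (P : Subgroup G) ⊓ (MulAut.conj g • (P : Subgroup G)) = ⊥) ↔ ∀ x : G, x ∈ (P : Subgroup G) → x ≠ 1 → Subgroup.centralizer ({x} : Set G) = Subgroup.centralizer ((P : Subgroup G) : Set G) := by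
  have hp : p.Prime := Fact.out
  -- a generator of P
  obtain ⟨yP, hyP⟩ := hcyc.exists_generator
  set y : G := (yP : G) with hy
  have hyPm : y ∈ (P : Subgroup G) := yP.2
  have hPy : ∀ z ∈ (P : Subgroup G), ∃ k : ℤ, y ^ k = z := by
    intro z hz
    obtain ⟨k, hk⟩ := Subgroup.mem_zpowers_iff.1 (hyP ⟨z, hz⟩)
    refine ⟨k, ?_⟩
    have := congrArg Subtype.val hk
    simpa using this
  have hPcomm : ∀ a ∈ (P : Subgroup G), ∀ b ∈ (P : Subgroup G), a * b = b * a := by
    intro a ha b hb
    obtain ⟨k, rfl⟩ := hPy a ha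
    obtain ⟨l, rfl⟩ := hPy b hb
    rw [← zpow_add, ← zpow_add, add_comm]
  have hmemsmul : ∀ g x : G, x ∈ MulAut.conj g • (P : Subgroup G) ↔ g⁻¹ * x * g ∈ (P : Subgroup G) := by
    intro g x
    rw [Subgroup.mem_pointwise_smul_iff_inv_smul_mem]
    simp [MulAut.smul_def]
  constructor
  · intro hTI x hx hx1
    ext c
    constructor
    · intro hc
      have hcx : c * x = x * c := Subgroup.mem_centralizer_singleton_iff.1 hc
      have hcN : c ∈ Subgroup.normalizer ((P : Subgroup G) : Set G) := by
        by_contra h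
        have h1 := hTI c h
        have h2 : x ∈ (P : Subgroup G) ⊓ MulAut.conj c • (P : Subgroup G) := by
          refine Subgroup.mem_inf.2 ⟨hx, (hmemsmul c x).2 ?_⟩
          have : c⁻¹ * x * c = x := by rw [mul_assoc, ← hcx]; group
          rw [this]; exact hx
        rw [h1, Subgroup.mem_bot] at h2
        exact hx1 h2
      obtain ⟨n, hn⟩ := h8_exists_orderOf_eq_pow P.isPGroup' hyPm
      have hc0 : orderOf c ≠ 0 := (orderOf_pos c).ne'
      obtain ⟨a, m, hm, hcm⟩ := Nat.exists_eq_pow_mul_and_not_dvd hc0 p hp.ne_one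
      have hpa0 : p ^ a ≠ 0 := pow_ne_zero _ hp.pos.ne'
      have hm0 : m ≠ 0 := by
        rintro rfl; rw [mul_zero] at hcm; exact hc0 hcm
      have ho1 : orderOf (c ^ p ^ a) = m := by
        rw [orderOf_pow_of_dvd hpa0 (by rw [hcm]; exact dvd_mul_right _ _), hcm,
          Nat.mul_div_cancel_left _ (Nat.pos_of_ne_zero hpa0)]
      have ho2 : orderOf (c ^ m) = p ^ a := by
        rw [orderOf_pow_of_dvd hm0 (by rw [hcm]; exact dvd_mul_left _ _), hcm,
          Nat.mul_div_cancel _ (Nat.pos_of_ne_zero hm0)]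
      have hmp : m.Coprime p := ((Nat.Prime.coprime_iff_not_dvd hp).2 hm).symm
      have hcy : c ∈ Subgroup.centralizer ({y} : Set G) := by
        apply h8_mem_of_pow_mem_of_coprime (hmp.symm.pow_left a)
        · rw [Subgroup.mem_centralizer_singleton_iff]
          have hdN : c ^ p ^ a ∈ Subgroup.normalizer ((P : Subgroup G) : Set G) :=
            Subgroup.pow_mem _ hcN _
          have h1 : c ^ p ^ a * y * (c ^ p ^ a)⁻¹ ∈ Subgroup.zpowers y := by
            obtain ⟨k, hk⟩ := hPy _ ((Subgroup.mem_normalizer_iff.1 hdN y).1 hyPm)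
            rw [← hk]
            exact Subgroup.zpow_mem _ (Subgroup.mem_zpowers y) k
          have h2 : x ∈ Subgroup.zpowers y := by
            obtain ⟨k, hk⟩ := hPy x hx
            rw [← hk]
            exact Subgroup.zpow_mem _ (Subgroup.mem_zpowers y) k
          exact h8_cyclic_coprime_aut hp hmp (c ^ p ^ a) (by rw [← ho1, pow_orderOf_eq_one]) n y x
            hn h1 h2 hx1 (Commute.pow_left hcx _)
        · rw [Subgroup.mem_centralizer_singleton_iff]
          have h1 : c ^ m ∈ (P : Subgroup G) :=
            h8_mem_sylow_of_mem_normalizer P (Subgroup.pow_mem _ hcN _) (h8_isPGroup_zpowers ho2)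
          exact hPcomm _ h1 _ hyPm
      have hcy' : c * y = y * c := Subgroup.mem_centralizer_singleton_iff.1 hcy
      rw [Subgroup.mem_centralizer_iff]
      intro z hz
      obtain ⟨k, rfl⟩ := hPy z hz
      exact (Commute.zpow_right hcy' k).eq.symm
    · intro hc
      rw [Subgroup.mem_centralizer_singleton_iff]
      exact ((Subgroup.mem_centralizer_iff.1 hc) x hx).symm
  · intro hcent g hg
    rw [Subgroup.eq_bot_iff_forall]
    intro x hx
    obtain ⟨hxP, hxg⟩ := Subgroup.mem_inf.1 hx
    rw [hmemsmul] at hxg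
    by_contra hx1
    apply hg
    have hx'1 : g⁻¹ * x * g ≠ 1 := by
      intro h
      apply hx1
      have : x = g * (g⁻¹ * x * g) * g⁻¹ := by group
      rw [this, h]; group
    have hK1 := hcent x hxP hx1
    have hK2 := hcent _ hxg hx'1
    -- g normalizes K = C(P)
    have hgK : ∀ k ∈ Subgroup.centralizer ((P : Subgroup G) : Set G),
        g * k * g⁻¹ ∈ Subgroup.centralizer ((P : Subgroup G) : Set G) := by
      intro k hk
      rw [← hK2, Subgroup.mem_centralizer_singleton_iff] at hk
      rw [← hK1, Subgroup.mem_centralizer_singleton_iff]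
      have e1 : g * k * g⁻¹ * x = g * (k * (g⁻¹ * x * g)) * g⁻¹ := by group
      rw [e1, hk]; group
    have hPK : (P : Subgroup G) ≤ Subgroup.centralizer ((P : Subgroup G) : Set G) := by
      intro s hs
      rw [Subgroup.mem_centralizer_iff]
      intro z hz
      exact hPcomm z hz s hs
    have hle : (P : Subgroup G).map (MulAut.conj g).toMonoidHom ≤ (P : Subgroup G) := by
      apply h8_le_sylow_of_le_normalizer P _ (h8_isPGroup_map_conj g P.isPGroup')
      rintro _ ⟨s, hs, rfl⟩
      apply Subgroup.centralizer_le_normalizer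
      have := hgK s (hPK hs)
      simpa using this
    apply h8_mem_normalizer_of_map_conj_eq
    apply Subgroup.eq_of_le_of_card_ge hle
    rw [Subgroup.card_map_of_injective (MulAut.conj g).injective]

end Cfsg.Agent.S3985
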