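import Cfsg.Statements.S3987
import Mathlib
import Cfsg.Agent.Lib.Helper8.DirectFactor
import Cfsg.Agent.Lib.Helper8.ConjClass

set_option autoImplicit false
open Cfsg
open Cfsg.Agent.Lib.Helper8

namespace Cfsg.Agent.S3987

/-- Let p be a prime and G a finite group. Then some Sylow p-subgroup of G is a direct factor of G (normal with a normal complement) if and only if for every element x of p-power order and every element y whose order is a power of a prime other than p, the conjugacy class of x y has as many elements as the product of the sizes of the classes of x and of y. -/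
theorem result {G : Type*} [Group G] [Finite G] (p : ℕ) [Fact p.Prime] : (∃ (P : Sylow p G) (K : Subgroup G), (P : Subgroup G).Normal ∧ K.Normal ∧ (P : Subgroup G) ⊓ K = ⊥ ∧ (P : Subgroup G) ⊔ K = ⊤) ↔ ∀ x y : G, (∃ a : ℕ, orderOf x = p ^ a) → (∃ q b : ℕ, q.Prime ∧ q ≠ p ∧ orderOf y = q ^ b) → (Subgroup.centralizer ({x * y} : Set G)).index = (Subgroup.centralizer ({x} : Set G)).index * (Subgroup.centralizer ({y} : Set G)).index := by
  have hp : p.Prime := Fact.out
  constructor
  · rintro ⟨P, K, hP, hK, hinf, hsup⟩ x y ⟨a, ha⟩ ⟨q, b, hq, hqp, hy⟩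
    obtain ⟨h1, h2⟩ := h8_comm_of_directFactor P K hP hK hinf hsup
    have hxP : x ∈ (P : Subgroup G) := h8_mem_of_normal_sylow P hP ha
    have hyK : y ∈ K := by
      apply h1
      rw [hy]
      exact ((Nat.coprime_primes hq hp).2 hqp).pow_left b
    have hxy : x * y = y * x := h2 x hxP y hyK
    -- the centralizer of the product
    have hC : Subgroup.centralizer ({x * y} : Set G) =
        Subgroup.centralizer ({x} : Set G) ⊓ Subgroup.centralizer ({y} : Set G) := by
      ext g
      rw [Subgroup.mem_inf, Subgroup.mem_centralizer_singleton_iff,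
        Subgroup.mem_centralizer_singleton_iff, Subgroup.mem_centralizer_singleton_iff]
      constructor
      · intro hg
        have hx' : g * x * g⁻¹ ∈ (P : Subgroup G) := hP.conj_mem x hxP g
        have hy' : g * y * g⁻¹ ∈ K := hK.conj_mem y hyK g
        have h3 : g * x * g⁻¹ * (g * y * g⁻¹) = x * y := by
          have : g * x * g⁻¹ * (g * y * g⁻¹) = g * (x * y) * g⁻¹ := by group
          rw [this, hg]; group
        have h4 : x⁻¹ * (g * x * g⁻¹) = y * (g * y * g⁻¹)⁻¹ := by
          have : x⁻¹ * (g * x * g⁻¹) = x⁻¹ * (g * x * g⁻¹ * (g * y * g⁻¹)) * (g * y * g⁻¹)⁻¹ := by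
            group
          rw [this, h3]; group
        have h5 : x⁻¹ * (g * x * g⁻¹) ∈ (P : Subgroup G) ⊓ K := by
          refine Subgroup.mem_inf.2 ⟨Subgroup.mul_mem _ (Subgroup.inv_mem _ hxP) hx', ?_⟩
          rw [h4]
          exact K.mul_mem hyK (K.inv_mem hy')
        rw [hinf, Subgroup.mem_bot] at h5
        have h6 : g * x * g⁻¹ = x := by
          have : g * x * g⁻¹ = x * (x⁻¹ * (g * x * g⁻¹)) := by group
          rw [this, h5, mul_one]
        have h7 : g * y * g⁻¹ = y := by
          have : g * y * g⁻¹ = (g * x * g⁻¹)⁻¹ * (g * x * g⁻¹ * (g * y * g⁻¹)) := by group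
          rw [this, h3, h6]; group
        constructor
        · calc g * x = g * x * g⁻¹ * g := by group
            _ = x * g := by rw [h6]
        · calc g * y = g * y * g⁻¹ * g := by group
            _ = y * g := by rw [h7]
      · rintro ⟨hgx, hgy⟩
        rw [← mul_assoc, hgx, mul_assoc, hgy, mul_assoc]
    rw [hC]
    apply h8_index_inf_of_coprime
    -- K ≤ C(x), P ≤ C(y)
    have hKx : K ≤ Subgroup.centralizer ({x} : Set G) := by
      intro k hk
      rw [Subgroup.mem_centralizer_singleton_iff]
      exact (h2 x hxP k hk).symm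
    have hPy : (P : Subgroup G) ≤ Subgroup.centralizer ({y} : Set G) := by
      intro k hk
      rw [Subgroup.mem_centralizer_singleton_iff]
      exact h2 k hk y hyK
    have hcompl : Subgroup.IsComplement' (P : Subgroup G) K := by
      apply Subgroup.isComplement'_of_disjoint_and_mul_eq_univ (disjoint_iff.2 hinf)
      rw [← Subgroup.mul_normal, hsup]
      rfl
    have hKidx : K.index = Nat.card (P : Subgroup G) := hcompl.index_eq_card
    obtain ⟨n, hn⟩ := P.isPGroup'.exists_card_eq
    have hd1 : (Subgroup.centralizer ({x} : Set G)).index ∣ p ^ n := by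
      rw [← hn, ← hKidx]; exact Subgroup.index_dvd_of_le hKx
    have hd2 : (Subgroup.centralizer ({y} : Set G)).index ∣ (P : Subgroup G).index :=
      Subgroup.index_dvd_of_le hPy
    obtain ⟨j, -, hj⟩ := (Nat.dvd_prime_pow hp).1 hd1
    rw [hj]
    apply Nat.Coprime.pow_left
    rw [Nat.Prime.coprime_iff_not_dvd hp]
    exact fun hdvd => P.not_dvd_index (hdvd.trans hd2)
  · intro h
    obtain ⟨P⟩ : Nonempty (Sylow p G) := inferInstance
    obtain ⟨hP, K, hK, -, hinf, hsup⟩ := h8_directFactor_of_comm P
      (fun x y hx hy => h8_comm_of_coprime_orderOf hp x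
        (fun y' hy' => h8_comm_of_index_mul x y' (h x y' hx hy')) y hy)
    exact ⟨P, K, hP, hK, hinf, hsup⟩

end Cfsg.Agent.S3987
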