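import Cfsg.Statements.S4013
import Mathlib
import Cfsg.Agent.Lib.Helper7.PCore
import Cfsg.Agent.Lib.Helper8.ConjClass

set_option autoImplicit false
open Cfsg
open Cfsg.Agent.Lib.Helper8

namespace Cfsg.Agent.S4013


theorem aux_pow (p a b c : ℕ) (hp : p.Prime) (hbc : b < c) (h : p ^ a = p ^ c - p ^ b) :
    p = 2 ∧ c = b + 1 := by
  obtain ⟨d, rfl⟩ : ∃ d, c = b + (d + 1) := ⟨c - b - 1, by omega⟩
  have h1 : p ^ (b + (d + 1)) - p ^ b = p ^ b * (p ^ (d + 1) - 1) := by
    rw [pow_add, Nat.mul_sub, mul_one]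
  rw [h1] at h
  have hpos : 0 < p ^ (d + 1) := pow_pos hp.pos _
  have h2 : p ^ (d + 1) - 1 ∣ p ^ a := ⟨p ^ b, by rw [h, mul_comm]⟩
  obtain ⟨j, hj, hj2⟩ := (Nat.dvd_prime_pow hp).1 h2
  have h3 : j = 0 := by
    by_contra hne
    have h4 : p ∣ p ^ (d + 1) - 1 := by rw [hj2]; exact dvd_pow_self p hne
    have h5 : p ∣ p ^ (d + 1) := dvd_pow_self p (by omega)
    have h6 : p ∣ 1 := by
      have := (Nat.dvd_sub h5 h4)
      rwa [Nat.sub_sub_self (by omega : 1 ≤ p ^ (d + 1))] at this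
    exact hp.one_lt.ne' (Nat.dvd_one.1 h6)
  subst h3
  have h7 : p ^ (d + 1) = 2 := by simp at hj2; omega
  have h8 : p ∣ 2 := by rw [← h7]; exact dvd_pow_self p (by omega)
  have hp2 : p = 2 := (Nat.prime_dvd_prime_iff_eq hp Nat.prime_two).1 h8
  subst hp2
  have h9 : d = 0 := by
    by_contra hd
    have : 2 ^ 2 ≤ 2 ^ (d + 1) := Nat.pow_le_pow_right (by norm_num) (by omega)
    omega
  exact ⟨rfl, by omega⟩


/-- Let G be a finite p-group (p prime) and N < M normal subgroups of G such that for some g ∈ M ∖ N the conjugacy class of g is exactly M ∖ N. Then p = 2 and N has index 2 in M. -/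
theorem result {G : Type*} [Group G] [Finite G] (p : ℕ) [Fact p.Prime] (hG : IsPGroup p G) (N M : Subgroup G) [N.Normal] [M.Normal] (hNM : N < M) (g : G) (hgM : g ∈ M) (hgN : g ∉ N) (hcl : {h : G | IsConj g h} = (M : Set G) \ (N : Set G)) : p = 2 ∧ N.relIndex M = 2 := by
  have hp : p.Prime := Fact.out
  have hc1 : Set.ncard {h : G | IsConj g h} = (Subgroup.centralizer ({g} : Set G)).index :=
    h8_ncard_conj_eq_index g
  obtain ⟨a, ha⟩ := hG.index (Subgroup.centralizer ({g} : Set G))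
  obtain ⟨b, hb⟩ := (hG.to_subgroup N).exists_card_eq
  obtain ⟨c, hc⟩ := (hG.to_subgroup M).exists_card_eq
  have hsub : (N : Set G) ⊆ (M : Set G) := hNM.le
  have hdiff : Set.ncard ((M : Set G) \ (N : Set G)) = p ^ c - p ^ b := by
    rw [Set.ncard_sdiff hsub, ← Nat.card_coe_set_eq, ← Nat.card_coe_set_eq]
    show Nat.card M - Nat.card N = _
    rw [hb, hc]
  have hlt : Nat.card N < Nat.card M := by
    by_contra hle
    rw [not_lt] at hle
    exact (ne_of_lt hNM) (Subgroup.eq_of_le_of_card_ge hNM.le hle)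
  have hbc : b < c := by
    rw [hb, hc] at hlt
    exact (Nat.pow_lt_pow_iff_right hp.one_lt).1 hlt
  have hmain : p ^ a = p ^ c - p ^ b := by
    rw [← ha, ← hc1, hcl, hdiff]
  obtain ⟨h2, hcb⟩ := aux_pow p a b c hp hbc hmain
  refine ⟨h2, ?_⟩
  have h3 : N.relIndex M * Nat.card N = Nat.card M := by
    rw [mul_comm]
    exact Cfsg.Agent.Lib.Helper7.card_mul_relIndex_of_le hNM.le
  rw [hb, hc, hcb, pow_succ] at h3
  have h4 : N.relIndex M = p := by
    have hpb : 0 < p ^ b := pow_pos hp.pos _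
    have : N.relIndex M * p ^ b = p * p ^ b := by rw [h3, mul_comm]
    exact Nat.eq_of_mul_eq_mul_right hpb this
  rw [h4, h2]

end Cfsg.Agent.S4013
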