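import Cfsg.Statements.S4024
import Cfsg.Agent.S4023
import Cfsg.Agent.Lib.Helper8.UniqueSub
import Cfsg.Agent.Lib.Helper1.UniqueInv
import Cfsg.Agent.Lib.Helper3.EA
import Cfsg.Agent.Lib.Helper1.GenFit
import Cfsg.Agent.Lib.Helper1.PCore2
import Cfsg.Agent.Lib.Helper1.ExtLayer
import Cfsg.Agent.Lib.Helper1.Layer
import Cfsg.Agent.Lib.Helper1.PSolv
import Cfsg.Agent.Lib.Helper8.PCompl
import Cfsg.Agent.Lib.Helper7.PCore

set_option autoImplicit false
open Cfsg

namespace Cfsg.Agent.S4024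

open Cfsg.Agent.Lib.Helper1 Cfsg.Agent.Lib.Helper7 Cfsg.Agent.Lib.Helper8 Cfsg.Agent.Lib.Helper3

/-- If `Q` is a `p`-subgroup of `p'`-index normalizing `N`, and `K ≤ N` is a normal `p'`-subgroup
with `|N| = |K| p^m`, then `N ≤ K Q`. -/
theorem pnp_le_sup {G : Type*} [Group G] [Finite G] (p : ℕ) [hp : Fact p.Prime]
    (Q K N : Subgroup G) [hKn : K.Normal] (hQ : IsPGroup p Q) (hQi : ¬ p ∣ Q.index)
    (hKN : K ≤ N) (hK : (Nat.card K).Coprime p) (m : ℕ) (hN : Nat.card N = Nat.card K * p ^ m)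
    (hQN : Q ≤ Subgroup.normalizer (N : Set G)) : N ≤ K ⊔ Q := by
  have hpp : p.Prime := hp.out
  obtain ⟨s, hs⟩ := IsPGroup.iff_card.mp hQ
  have h1 := card_sup_mul_card_inf Q N hQN
  have hdq : Nat.card ↥(Q ⊓ N) ∣ p ^ s := by
    rw [← hs]; exact Subgroup.card_dvd_of_le inf_le_left
  obtain ⟨j, hjs, hj⟩ := (Nat.dvd_prime_pow hpp).1 hdq
  have hjm : j ≤ m := by
    have h2 : p ^ j ∣ Nat.card K * p ^ m := by
      rw [← hj, ← hN]; exact Subgroup.card_dvd_of_le inf_le_right
    have h3 : p ^ j ∣ p ^ m := (Nat.Coprime.dvd_mul_left (Nat.Coprime.pow_left j hK.symm)).mp h2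
    exact (Nat.pow_dvd_pow_iff_le_right hpp.one_lt).mp h3
  have hjm' : j = m := by
    by_contra hne
    have hlt : j < m := lt_of_le_of_ne hjm hne
    apply hQi
    have hGc : Nat.card Q * Q.index = Nat.card G := Subgroup.card_mul_index Q
    have h4 : Nat.card ↥(Q ⊔ N) ∣ Nat.card G := Subgroup.card_subgroup_dvd_card _
    have h5 : Nat.card ↥(Q ⊔ N) = p ^ s * (Nat.card K * p ^ (m - j)) := by
      have hpos : 0 < p ^ j := pow_pos hpp.pos j
      apply Nat.eq_of_mul_eq_mul_right hpos
      rw [← hj, h1, hs, hN, hj]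
      have : p ^ m = p ^ (m - j) * p ^ j := by
        rw [← pow_add]; congr 1; omega
      rw [this]; ring
    rw [h5, ← hGc, hs] at h4
    have h6 : Nat.card K * p ^ (m - j) ∣ Q.index :=
      Nat.dvd_of_mul_dvd_mul_left (pow_pos hpp.pos s) h4
    exact dvd_trans (Dvd.dvd.mul_left (dvd_pow_self p (by omega)) _) h6
  subst hjm'
  have h7 := card_sup_mul_card_inf (Q ⊓ N) K
    (by rw [Subgroup.normalizer_eq_top_iff.mpr hKn]; exact le_top)
  have h8 : (Q ⊓ N) ⊓ K = ⊥ := by
    apply Subgroup.inf_eq_bot_of_coprime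
    rw [hj]; exact Nat.Coprime.pow_left j hK.symm
  rw [h8, Subgroup.card_bot, mul_one, hj] at h7
  have h9 : (Q ⊓ N) ⊔ K = N := by
    apply Subgroup.eq_of_le_of_card_ge (sup_le inf_le_right hKN)
    rw [h7, hN, mul_comm]
  rw [← h9]
  exact sup_le (inf_le_left.trans le_sup_right) le_sup_left

/-- Under the conjugacy hypothesis, every element with `w ^ p = 1` is conjugate to a power
of a fixed element of order `p`. -/
theorem pnp_conj {G : Type*} [Group G] [Finite G] {p : ℕ} [hp : Fact p.Prime]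
    (hC : ∀ H K : Subgroup G, IsPGroup p H → IsPGroup p K → Nat.card H = Nat.card K →
      ∃ g : G, K = H.map (MulAut.conj g).toMonoidHom)
    (x₀ w : G) (hx₀ : orderOf x₀ = p) (hw : w ^ p = 1) :
    ∃ g : G, ∃ u ∈ Subgroup.zpowers x₀, w = g * u * g⁻¹ := by
  have hpp : p.Prime := hp.out
  by_cases hw1 : w = 1
  · exact ⟨1, 1, one_mem _, by simp [hw1]⟩
  · have hwo : orderOf w = p := orderOf_eq_prime hw hw1
    have c1 : Nat.card (Subgroup.zpowers x₀) = p ^ 1 := by rw [Nat.card_zpowers, hx₀, pow_one]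
    have c2 : Nat.card (Subgroup.zpowers w) = p ^ 1 := by rw [Nat.card_zpowers, hwo, pow_one]
    obtain ⟨g, hg⟩ := hC _ _ (IsPGroup.of_card c1) (IsPGroup.of_card c2) (c1.trans c2.symm)
    have h1 : w ∈ (Subgroup.zpowers x₀).map (MulAut.conj g).toMonoidHom := by
      rw [← hg]; exact Subgroup.mem_zpowers w
    obtain ⟨u, hu, huw⟩ := h1
    refine ⟨g, u, hu, ?_⟩
    rw [← huw]; rfl

/-- A normal `p`-solvable subgroup `H` of order divisible by `p` has a `G`-normal `p'`-subgroup `K`
and an `H`-normal subgroup `N ≥ K` with `N/K` a nontrivial `p`-group. -/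
theorem pnp_struct {G : Type*} [Group G] [Finite G] {p : ℕ} [hp : Fact p.Prime]
    (H : Subgroup G) [hH : H.Normal] (hsolv : Cfsg.IsPSolvable p H) (hdiv : p ∣ Nat.card H) :
    ∃ K N : Subgroup G, K.Normal ∧ K ≤ N ∧ N ≤ H ∧ (Nat.card K).Coprime p ∧
      (∃ m : ℕ, m ≠ 0 ∧ Nat.card N = Nat.card K * p ^ m) ∧
      H ≤ Subgroup.normalizer (N : Set G) := by
  classical
  have hpp : p.Prime := hp.out
  haveI hKn : (Cfsg.pPrimeCore p ↥H).Normal := pPrimeCore_normal p ↥H
  have hKc : (Nat.card ↥(Cfsg.pPrimeCore p ↥H)).Coprime p := pPrimeCore_coprime p ↥H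
  have hYs : Cfsg.IsPSolvable p (↥H ⧸ Cfsg.pPrimeCore p ↥H) :=
    isPSolvable_of_surjective p (QuotientGroup.mk' (Cfsg.pPrimeCore p ↥H))
      (QuotientGroup.mk'_surjective _) hsolv
  haveI hYnt : Nontrivial (↥H ⧸ Cfsg.pPrimeCore p ↥H) := by
    rw [QuotientGroup.nontrivial_iff]
    intro htop
    rw [htop, Subgroup.card_top] at hKc
    exact hpp.one_lt.ne' (Nat.Coprime.eq_one_of_dvd hKc.symm hdiv)
  obtain ⟨Nb, hNbn, hNbne, hcase⟩ := h8_exists_normal_of_isPSolvable hYs
  have hOq : Cfsg.pPrimeCore p (↥H ⧸ Cfsg.pPrimeCore p ↥H) = ⊥ := pPrimeCore_quotient_eq_bot p ↥H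
  obtain ⟨m, hm⟩ : ∃ m : ℕ, Nat.card Nb = p ^ m := by
    rcases hcase with h | h
    · exact h
    · exfalso
      apply hNbne
      have h1 := le_pPrimeCore hNbn h
      rw [hOq] at h1
      exact le_bot_iff.mp h1
  have hm0 : m ≠ 0 := by
    rintro rfl
    rw [pow_zero] at hm
    exact hNbne (Subgroup.eq_bot_of_card_eq Nb hm)
  haveI := hNbn
  have hcN : Nat.card (Nb.comap (QuotientGroup.mk' (Cfsg.pPrimeCore p ↥H))) =
      Nat.card Nb * Nat.card (Cfsg.pPrimeCore p ↥H) := h8_card_comap_mk _ Nb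
  have hKle : Cfsg.pPrimeCore p ↥H ≤ Nb.comap (QuotientGroup.mk' (Cfsg.pPrimeCore p ↥H)) := by
    intro x hx
    rw [Subgroup.mem_comap]
    have h1 : (QuotientGroup.mk' (Cfsg.pPrimeCore p ↥H)) x = 1 :=
      (QuotientGroup.eq_one_iff x).mpr hx
    rw [h1]; exact one_mem _
  haveI hNXn : (Nb.comap (QuotientGroup.mk' (Cfsg.pPrimeCore p ↥H))).Normal := hNbn.comap _
  refine ⟨(Cfsg.pPrimeCore p ↥H).map H.subtype,
    (Nb.comap (QuotientGroup.mk' (Cfsg.pPrimeCore p ↥H))).map H.subtype,
    normal_map_subtype_of_characteristic hH _, Subgroup.map_mono hKle,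
    Subgroup.map_subtype_le _, ?_, ⟨m, hm0, ?_⟩, ?_⟩
  · rw [Subgroup.card_map_of_injective (Subgroup.subtype_injective _)]
    exact hKc
  · rw [Subgroup.card_map_of_injective (Subgroup.subtype_injective _),
      Subgroup.card_map_of_injective (Subgroup.subtype_injective _), hcN, hm, mul_comm]
  · rw [← Subgroup.normal_subgroupOf_iff_le_normalizer (Subgroup.map_subtype_le _)]
    show (((Nb.comap (QuotientGroup.mk' (Cfsg.pPrimeCore p ↥H))).map H.subtype).comap
      H.subtype).Normal
    rw [Subgroup.comap_map_eq_self_of_injective (Subgroup.subtype_injective _)]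
    exact hNXn

/-- Let p be an odd prime and G a finite group in which any two p-subgroups of the same order are conjugate, with Sylow p-subgroup P. If H is a normal p-solvable subgroup of G whose order is divisible by p, then P is abelian, and either P ≤ H or P is cyclic. -/
theorem result {G : Type*} [Group G] [Finite G]
    {p : ℕ} [Fact p.Prime] (hp : p ≠ 2) (hC : ∀ H K : Subgroup G, IsPGroup p H → IsPGroup p K → Nat.card H = Nat.card K →
      ∃ g : G, K = H.map (MulAut.conj g).toMonoidHom) (P : Sylow p G)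
    (H : Subgroup G) [H.Normal] (hsolv : Cfsg.IsPSolvable p H) (hdiv : p ∣ Nat.card H) :
    IsMulCommutative P ∧ ((P : Subgroup G) ≤ H ∨ IsCyclic P) := by
  classical
  have hpp : p.Prime := Fact.out
  rcases Cfsg.Agent.S4023.pso_dich p P (fun A B hA hB hc => hC A B (P.isPGroup'.to_le hA)
    (P.isPGroup'.to_le hB) hc) with hexp | huniq
  · obtain ⟨K, N, hKn, hKN, hNH, hKc, ⟨m, hm0, hNc⟩, hHN⟩ := pnp_struct H hsolv hdiv
    haveI := hKn
    have hHnorm : H.Normal := inferInstance
    have hdN : p ∣ Nat.card N := by rw [hNc]; exact Dvd.dvd.mul_left (dvd_pow_self p hm0) _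
    obtain ⟨x₀, hx₀⟩ := exists_prime_orderOf_dvd_card' p hdN
    have hx₀o : orderOf (x₀ : G) = p := by rw [Subgroup.orderOf_coe, hx₀]
    have hPH : (P : Subgroup G) ≤ H := by
      intro x hx
      obtain ⟨g, u, hu, hxe⟩ := pnp_conj hC (x₀ : G) x hx₀o (hexp x hx)
      rw [hxe]
      exact hHnorm.conj_mem u (hNH ((Subgroup.zpowers_le.mpr x₀.2) hu)) g
    have hd : ∀ w : G, w ^ p = 1 → w ∈ K ⊔ (P : Subgroup G) := by
      intro w hw
      obtain ⟨g, u, hu, hwe⟩ := pnp_conj hC (x₀ : G) w hx₀o hw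
      have huN : u ∈ N := (Subgroup.zpowers_le.mpr x₀.2) hu
      have hQ : IsPGroup p ((P : Subgroup G).map (MulAut.conj g⁻¹).toMonoidHom) :=
        P.isPGroup'.map _
      have hQi : ¬ p ∣ ((P : Subgroup G).map (MulAut.conj g⁻¹).toMonoidHom).index := by
        have h0 : ((P : Subgroup G).map (MulAut.conj g⁻¹).toMonoidHom).index =
            (P : Subgroup G).index := Subgroup.index_map_equiv (P : Subgroup G) (MulAut.conj g⁻¹)
        rw [h0]; exact P.not_dvd_index
      have hQH : (P : Subgroup G).map (MulAut.conj g⁻¹).toMonoidHom ≤ H := by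
        rintro _ ⟨x, hx, rfl⟩
        exact hHnorm.conj_mem x (hPH hx) g⁻¹
      have h1 := pnp_le_sup p _ K N hQ hQi hKN hKc m hNc (hQH.trans hHN)
      have h2 := h1 huN
      have h3 : (MulAut.conj g).toMonoidHom u ∈
          (K ⊔ (P : Subgroup G).map (MulAut.conj g⁻¹).toMonoidHom).map
            (MulAut.conj g).toMonoidHom := Subgroup.mem_map_of_mem _ h2
      rw [Subgroup.map_sup] at h3
      have h4 : (K.map (MulAut.conj g).toMonoidHom) ⊔
          (((P : Subgroup G).map (MulAut.conj g⁻¹).toMonoidHom).map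
            (MulAut.conj g).toMonoidHom) ≤ K ⊔ (P : Subgroup G) := by
        apply sup_le_sup (map_conj_le_of_normal K g)
        rintro _ ⟨_, ⟨x, hx, rfl⟩, rfl⟩
        have h5 : (MulAut.conj g).toMonoidHom ((MulAut.conj g⁻¹).toMonoidHom x) = x := by
          show g * (g⁻¹ * x * g⁻¹⁻¹) * g⁻¹ = x
          group
        rw [h5]; exact hx
      rw [hwe]
      exact h4 h3
    haveI hMn : (K ⊔ (P : Subgroup G)).Normal := by
      apply normal_of_map_conj_le
      intro g
      rw [Subgroup.map_sup]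
      apply sup_le ((map_conj_le_of_normal K g).trans le_sup_left)
      rintro _ ⟨x, hx, rfl⟩
      apply hd
      show (g * x * g⁻¹) ^ p = 1
      rw [conj_pow, hexp x hx]; group
    have hfr : Subgroup.normalizer ((P : Subgroup G) : Set G) ⊔ (K ⊔ (P : Subgroup G)) = ⊤ :=
      Sylow.normalizer_sup_eq_top' P le_sup_right
    have hdec : ∀ g : G, ∃ k ∈ K, ∃ n ∈ Subgroup.normalizer ((P : Subgroup G) : Set G),
        k * n = g := by
      intro g
      have h1 : g ∈ K ⊔ Subgroup.normalizer ((P : Subgroup G) : Set G) := by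
        have h2 : Subgroup.normalizer ((P : Subgroup G) : Set G) ⊔ (K ⊔ (P : Subgroup G)) ≤
            K ⊔ Subgroup.normalizer ((P : Subgroup G) : Set G) :=
          sup_le le_sup_right (sup_le le_sup_left (Subgroup.le_normalizer.trans le_sup_right))
        exact h2 (hfr ▸ Subgroup.mem_top g)
      exact mem_sup_of_le_normalizer'
        (by rw [Subgroup.normalizer_eq_top_iff.mpr hKn]; exact le_top) h1
    have hKP : K ⊓ (P : Subgroup G) = ⊥ := by
      obtain ⟨s, hs⟩ := IsPGroup.iff_card.mp P.isPGroup'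
      apply Subgroup.inf_eq_bot_of_coprime
      rw [hs]; exact Nat.Coprime.pow_right s hKc
    have hcomm : ∀ y ∈ (P : Subgroup G), ∀ b ∈ (P : Subgroup G), y * b = b * y := by
      intro y hy b hb
      by_cases hy1 : y = 1
      · rw [hy1]; simp
      · haveI : Nontrivial ↥(P : Subgroup G) :=
          ⟨⟨⟨y, hy⟩, 1, fun h => hy1 (congrArg Subtype.val h)⟩⟩
        haveI := P.isPGroup'.center_nontrivial
        obtain ⟨z, hz⟩ := exists_ne (1 : ↥(Subgroup.center ↥(P : Subgroup G)))
        have hz1 : ((z : ↥(P : Subgroup G)) : G) ≠ 1 := by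
          intro h; apply hz; apply Subtype.ext; apply Subtype.ext; exact h
        have hzp : ((z : ↥(P : Subgroup G)) : G) ^ p = 1 := hexp _ (z : ↥(P : Subgroup G)).2
        have hzo : orderOf ((z : ↥(P : Subgroup G)) : G) = p := orderOf_eq_prime hzp hz1
        have hzc : ∀ c ∈ (P : Subgroup G),
            ((z : ↥(P : Subgroup G)) : G) * c = c * ((z : ↥(P : Subgroup G)) : G) := by
          intro c hc
          have h0 := Subgroup.mem_center_iff.mp z.2 ⟨c, hc⟩
          exact (congrArg Subtype.val h0).symm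
        obtain ⟨g, u, hu, hye⟩ := pnp_conj hC _ y hzo (hexp y hy)
        have huP : u ∈ (P : Subgroup G) :=
          (Subgroup.zpowers_le.mpr (z : ↥(P : Subgroup G)).2) hu
        have huc : ∀ c ∈ (P : Subgroup G), u * c = c * u := by
          intro c hc
          obtain ⟨i, rfl⟩ := Subgroup.mem_zpowers_iff.mp hu
          exact (Commute.zpow_left (hzc c hc) i).eq
        obtain ⟨k, hk, n, hn, hkn⟩ := hdec g
        have hn' := Subgroup.mem_normalizer_iff.mp hn
        have hzP : n * u * n⁻¹ ∈ (P : Subgroup G) := (hn' u).mp huP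
        have hzcc : ∀ c ∈ (P : Subgroup G), (n * u * n⁻¹) * c = c * (n * u * n⁻¹) := by
          intro c hc
          have hc' : n⁻¹ * c * n ∈ (P : Subgroup G) := by
            rw [hn' (n⁻¹ * c * n)]
            have h0 : n * (n⁻¹ * c * n) * n⁻¹ = c := by group
            rw [h0]; exact hc
          have h5 := huc _ hc'
          calc n * u * n⁻¹ * c = n * (u * (n⁻¹ * c * n)) * n⁻¹ := by group
            _ = n * ((n⁻¹ * c * n) * u) * n⁻¹ := by rw [h5]
            _ = c * (n * u * n⁻¹) := by group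
        have hy2 : y = k * (n * u * n⁻¹) * k⁻¹ := by rw [hye, ← hkn]; group
        have h6 : y * (n * u * n⁻¹)⁻¹ ∈ K ⊓ (P : Subgroup G) := by
          refine ⟨?_, (P : Subgroup G).mul_mem hy ((P : Subgroup G).inv_mem hzP)⟩
          have h0 : y * (n * u * n⁻¹)⁻¹ =
              k * ((n * u * n⁻¹) * k⁻¹ * (n * u * n⁻¹)⁻¹) := by rw [hy2]; group
          rw [h0]
          exact K.mul_mem hk (hKn.conj_mem k⁻¹ (K.inv_mem hk) _)
        rw [hKP, Subgroup.mem_bot] at h6
        have h7 : y = n * u * n⁻¹ := mul_inv_eq_one.mp h6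
        rw [h7]; exact hzcc b hb
    refine ⟨?_, Or.inl hPH⟩
    show IsMulCommutative ↥(P : Subgroup G)
    rw [isMulCommutative_iff_of_setLike]
    exact hcomm
  · have hcyc : IsCyclic ↥(P : Subgroup G) := by
      obtain ⟨n, hn⟩ := IsPGroup.iff_card.mp P.isPGroup'
      refine h8_cyclic_of_unique_small p n ↥(P : Subgroup G) hn ?_ (fun h2 => absurd h2 hp)
      intro A B hA hB
      have h1 : A.map (P : Subgroup G).subtype = B.map (P : Subgroup G).subtype := by
        apply huniq
        · exact Subgroup.map_subtype_le _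
        · exact Subgroup.map_subtype_le _
        · exact (Nat.card_congr
            (A.equivMapOfInjective _ (Subgroup.subtype_injective _)).toEquiv.symm).trans hA
        · exact (Nat.card_congr
            (B.equivMapOfInjective _ (Subgroup.subtype_injective _)).toEquiv.symm).trans hB
      exact Subgroup.map_injective (Subgroup.subtype_injective _) h1
    refine ⟨?_, Or.inr hcyc⟩
    haveI := hcyc
    show IsMulCommutative ↥(P : Subgroup G)
    infer_instance

end Cfsg.Agent.S4024
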