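import Cfsg.Statements.S4028
import Mathlib
import Cfsg.Agent.Lib.Helper8.Irr
import Cfsg.Agent.Lib.Helper8.PElem
import Cfsg.Agent.Lib.Helper8.DirectFactor

set_option autoImplicit false
open Cfsg
open Cfsg.Agent.Lib.Helper8

namespace Cfsg.Agent.S4028

/-- Let G be a finite group with Sylow 2-subgroup P. Then N_G(⟨x⟩) = C_G(x) holds for every 2-element x of G if and only if N_P(⟨y⟩) = C_P(y) holds for every y ∈ P (computed inside P). -/
theorem result {G : Type*} [Group G] [Finite G] (P : Sylow 2 G) :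
    (∀ x : G, (∀ r : ℕ, r.Prime → r ∣ orderOf x → r = 2) →
      Subgroup.normalizer ((Subgroup.zpowers x : Subgroup G) : Set G) ≤ Subgroup.centralizer {x}) ↔
    (∀ y : ↥(P : Subgroup G), Subgroup.normalizer ((Subgroup.zpowers y : Subgroup ↥(P : Subgroup G)) : Set ↥(P : Subgroup G)) ≤
        Subgroup.centralizer {y}) := by
  constructor
  · intro h y n hn
    rw [Subgroup.mem_centralizer_singleton_iff]
    obtain ⟨k, hk⟩ := h8_exists_orderOf_eq_pow P.isPGroup' y.2
    have hy2 : ∀ r : ℕ, r.Prime → r ∣ orderOf (y : G) → r = 2 := by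
      intro r hr hrd
      rw [hk] at hrd
      exact (Nat.prime_dvd_prime_iff_eq hr Nat.prime_two).1 (hr.dvd_of_dvd_pow hrd)
    have h1 : n * y * n⁻¹ ∈ Subgroup.zpowers y :=
      (Subgroup.mem_normalizer_iff.1 hn y).1 (Subgroup.mem_zpowers y)
    obtain ⟨j, hj⟩ := Subgroup.mem_zpowers_iff.1 h1
    have h2 : (n : G) ∈ Subgroup.normalizer ((Subgroup.zpowers (y : G) : Subgroup G) : Set G) := by
      apply h8_mem_normalizer_zpowers_of_conj_mem
      have : (n : G) * (y : G) * (n : G)⁻¹ = (y : G) ^ j := by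
        have := congrArg Subtype.val hj
        simpa using this.symm
      rw [this]
      exact Subgroup.zpow_mem _ (Subgroup.mem_zpowers _) j
    have h3 := Subgroup.mem_centralizer_singleton_iff.1 (h (y : G) hy2 h2)
    exact Subtype.ext h3
  · intro h x hx n hn
    have hx0 : orderOf x ≠ 0 := (orderOf_pos x).ne'
    have hxk : orderOf x = 2 ^ (orderOf x).primeFactorsList.length :=
      Nat.eq_prime_pow_of_unique_prime_dvd hx0 (fun {d} hd hdx => hx d hd hdx)
    set k := (orderOf x).primeFactorsList.length with hk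
    have hn0 : orderOf n ≠ 0 := (orderOf_pos n).ne'
    obtain ⟨a, m, hm, hnm⟩ := Nat.exists_eq_pow_mul_and_not_dvd hn0 2 (by norm_num)
    have h2a0 : 2 ^ a ≠ 0 := pow_ne_zero _ (by norm_num)
    have hm0 : m ≠ 0 := by
      rintro rfl; rw [mul_zero] at hnm; exact hn0 hnm
    have ho1 : orderOf (n ^ 2 ^ a) = m := by
      rw [orderOf_pow_of_dvd h2a0 (by rw [hnm]; exact dvd_mul_right _ _), hnm,
        Nat.mul_div_cancel_left _ (Nat.pos_of_ne_zero h2a0)]
    have ho2 : orderOf (n ^ m) = 2 ^ a := by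
      rw [orderOf_pow_of_dvd hm0 (by rw [hnm]; exact dvd_mul_left _ _), hnm,
        Nat.mul_div_cancel _ (Nat.pos_of_ne_zero hm0)]
    have hcop : (2 ^ a).Coprime m :=
      Nat.Coprime.pow_left a ((Nat.Prime.coprime_iff_not_dvd Nat.prime_two).2 hm)
    apply h8_mem_of_pow_mem_of_coprime hcop
    · -- the odd part
      rw [Subgroup.mem_centralizer_singleton_iff]
      apply h8_comm_of_coprime_totient (Subgroup.pow_mem _ hn _)
      rw [ho1, hxk]
      exact Nat.Coprime.coprime_dvd_right (h8_totient_two_pow_dvd k)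
        (Nat.Coprime.pow_right k ((Nat.Prime.coprime_iff_not_dvd Nat.prime_two).2 hm).symm)
    · -- the 2-part
      rw [Subgroup.mem_centralizer_singleton_iff]
      have hn2 : n ^ m ∈ Subgroup.normalizer ((Subgroup.zpowers x : Subgroup G) : Set G) :=
        Subgroup.pow_mem _ hn _
      have hT : IsPGroup 2 ↥(Subgroup.zpowers (n ^ m) ⊔ Subgroup.zpowers x) :=
        IsPGroup.to_sup_of_normal_right' (h8_isPGroup_zpowers ho2) (h8_isPGroup_zpowers hxk)
          ((Subgroup.zpowers_le).2 hn2)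
      obtain ⟨c, hc⟩ := h8_exists_conj_sylow_ge P hT
      have hyP : c⁻¹ * x * c ∈ (P : Subgroup G) :=
        hc x (Subgroup.mem_sup_right (Subgroup.mem_zpowers x))
      have hνP : c⁻¹ * n ^ m * c ∈ (P : Subgroup G) :=
        hc _ (Subgroup.mem_sup_left (Subgroup.mem_zpowers _))
      have h1 : n ^ m * x * (n ^ m)⁻¹ ∈ Subgroup.zpowers x :=
        (Subgroup.mem_normalizer_iff.1 hn2 x).1 (Subgroup.mem_zpowers x)
      obtain ⟨j, hj⟩ := Subgroup.mem_zpowers_iff.1 h1
      have h2 : (⟨c⁻¹ * n ^ m * c, hνP⟩ : ↥(P : Subgroup G)) ∈ Subgroup.normalizer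
          ((Subgroup.zpowers (⟨c⁻¹ * x * c, hyP⟩ : ↥(P : Subgroup G)) :
            Subgroup ↥(P : Subgroup G)) : Set ↥(P : Subgroup G)) := by
        apply h8_mem_normalizer_zpowers_of_conj_mem
        rw [Subgroup.mem_zpowers_iff]
        refine ⟨j, Subtype.ext ?_⟩
        simp only [Subgroup.coe_zpow, Subgroup.coe_mul, Subgroup.coe_inv]
        have e1 : c⁻¹ * n ^ m * c * (c⁻¹ * x * c) * (c⁻¹ * n ^ m * c)⁻¹ =
            c⁻¹ * (n ^ m * x * (n ^ m)⁻¹) * c := by group
        have e2 : (c⁻¹ * x * c) ^ j = c⁻¹ * x ^ j * c := by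
          have := conj_zpow (a := c⁻¹) (b := x) (i := j)
          rw [inv_inv] at this
          exact this
        rw [e1, e2, hj]
      have h3 := Subgroup.mem_centralizer_singleton_iff.1 (h _ h2)
      have h4 : c⁻¹ * n ^ m * c * (c⁻¹ * x * c) = c⁻¹ * x * c * (c⁻¹ * n ^ m * c) :=
        congrArg Subtype.val h3
      have e3 : n ^ m * x = c * (c⁻¹ * n ^ m * c * (c⁻¹ * x * c)) * c⁻¹ := by group
      rw [e3, h4]; group

end Cfsg.Agent.S4028
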