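import Cfsg.Statements.S4032
import Mathlib
import Cfsg.Agent.Lib.Helper2.SZCyclic
import Cfsg.Agent.Lib.Helper8.Irr

set_option autoImplicit false
open Cfsg
open Cfsg.Agent.Lib.Helper8

namespace Cfsg.Agent.S4032

/-- Let π be a set of primes and G a finite group in which N_G(⟨x⟩) = C_G(x) for every π-element x. If N is a normal subgroup of G whose order is divisible by no prime of π, then G/N has the same property: N_{G/N}(⟨y⟩) = C_{G/N}(y) for every π-element y of G/N. -/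
theorem result {G : Type*} [Group G] [Finite G] (π : Set ℕ)
    (hirr : ∀ x : G, (∀ r : ℕ, r.Prime → r ∣ orderOf x → r ∈ π) →
      Subgroup.normalizer ((Subgroup.zpowers x : Subgroup G) : Set G) ≤ Subgroup.centralizer {x})
    (N : Subgroup G) [N.Normal] (hN : ∀ r : ℕ, r.Prime → r ∣ Nat.card N → r ∉ π) :
    ∀ y : G ⧸ N, (∀ r : ℕ, r.Prime → r ∣ orderOf y → r ∈ π) →
      Subgroup.normalizer ((Subgroup.zpowers y : Subgroup (G ⧸ N)) : Set (G ⧸ N)) ≤ Subgroup.centralizer {y} := by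
  intro y hy z hz
  rw [Subgroup.mem_centralizer_singleton_iff]
  -- lift y to a π-element x
  have hm0 : 0 < orderOf y := orderOf_pos y
  have hcop : (orderOf y).Coprime (Nat.card N) := by
    by_contra hnc
    obtain ⟨r, hr, hr1, hr2⟩ := Nat.Prime.not_coprime_iff_dvd.1 hnc
    exact hN r hr hr2 (hy r hr hr1)
  obtain ⟨x, hxy, hxm⟩ := h8_exists_lift_pow_eq_one N y (orderOf y) (pow_orderOf_eq_one y) hcop
  have hox : orderOf x ∣ orderOf y := orderOf_dvd_of_pow_eq_one hxm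
  have hxπ : ∀ r : ℕ, r.Prime → r ∣ orderOf x → r ∈ π := fun r hr hrx => hy r hr (hrx.trans hox)
  obtain ⟨g, rfl⟩ := QuotientGroup.mk_surjective z
  -- z y z⁻¹ = y ^ j
  have h1 : (QuotientGroup.mk g : G ⧸ N) * y * (QuotientGroup.mk g : G ⧸ N)⁻¹ ∈
      Subgroup.zpowers y := (Subgroup.mem_normalizer_iff.1 hz y).1 (Subgroup.mem_zpowers y)
  obtain ⟨j, hj⟩ := Subgroup.mem_zpowers_iff.1 h1
  have h2 : (x ^ j)⁻¹ * (g * x * g⁻¹) ∈ N := by
    rw [← QuotientGroup.eq, QuotientGroup.mk_zpow, hxy, hj, QuotientGroup.mk_mul,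
      QuotientGroup.mk_mul, QuotientGroup.mk_inv, hxy]
  have ho : orderOf (g * x * g⁻¹) = orderOf x := h8_orderOf_conj g x
  obtain ⟨n, hn, hnx⟩ := Cfsg.Agent.Lib.Helper2.sz_cyclic_normal N (g * x * g⁻¹) (x ^ j)
    (by rw [ho]; exact Nat.Coprime.coprime_dvd_left hox hcop) h2
    (by rw [ho, ← zpow_natCast, ← zpow_mul, mul_comm, zpow_mul, zpow_natCast,
      pow_orderOf_eq_one, one_zpow])
  -- c = n⁻¹ g normalizes ⟨x⟩
  have h3 : (n⁻¹ * g) * x * (n⁻¹ * g)⁻¹ = x ^ j := by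
    have : (n⁻¹ * g) * x * (n⁻¹ * g)⁻¹ = n⁻¹ * (g * x * g⁻¹) * n := by group
    rw [this, ← hnx]; group
  have h4 : n⁻¹ * g ∈ Subgroup.normalizer ((Subgroup.zpowers x : Subgroup G) : Set G) := by
    apply h8_mem_normalizer_zpowers_of_conj_mem
    rw [h3]
    exact Subgroup.zpow_mem _ (Subgroup.mem_zpowers x) j
  have h5 := Subgroup.mem_centralizer_singleton_iff.1 (hirr x hxπ h4)
  have h6 : (QuotientGroup.mk (n⁻¹ * g) : G ⧸ N) = QuotientGroup.mk g := by
    rw [QuotientGroup.mk_mul, QuotientGroup.mk_inv, (QuotientGroup.eq_one_iff n).2 hn, inv_one,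
      one_mul]
  rw [← hxy, ← h6, ← QuotientGroup.mk_mul, ← QuotientGroup.mk_mul, h5]

end Cfsg.Agent.S4032
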