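import Cfsg.Statements.S4035
import Mathlib
import Cfsg.Agent.Lib.Helper8.DirectFactor
import Cfsg.Agent.Lib.Helper8.ConjClass

set_option autoImplicit false
open Cfsg
open Cfsg.Agent.Lib.Helper8

namespace Cfsg.Agent.S4035

/-- Let G be a finite group and p a prime such that p divides the size of no conjugacy class of p-regular elements (elements of order prime to p). Then G is the internal direct product of a Sylow p-subgroup P and a normal subgroup H of order prime to p: P is normal, P ⊓ H = 1 and PH = G. -/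
theorem result {G : Type*} [Group G] [Finite G] {p : ℕ} [Fact p.Prime]
    (h : ∀ x : G, (orderOf x).Coprime p → ¬ p ∣ (ConjClasses.mk x).carrier.ncard) (P : Sylow p G) :
    (P : Subgroup G).Normal ∧ ∃ H : Subgroup G, H.Normal ∧ ¬ p ∣ Nat.card H ∧
      (P : Subgroup G) ⊓ H = ⊥ ∧ (P : Subgroup G) ⊔ H = ⊤ := by
  have hp : p.Prime := Fact.out
  have hidx : ∀ y : G, (orderOf y).Coprime p →
      ¬ p ∣ (Subgroup.centralizer ({y} : Set G)).index := by
    intro y hy
    rw [← h8_ncard_carrier_eq_index]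
    exact h y hy
  -- Step 1: the normalizer of P meets every class
  have hPn : Subgroup.normalizer ((P : Subgroup G) : Set G) = ⊤ := by
    apply h8_eq_top_of_forall_conj_mem
    intro g
    have hn0 : orderOf g ≠ 0 := (orderOf_pos g).ne'
    obtain ⟨k, m, hm, hn⟩ := Nat.exists_eq_pow_mul_and_not_dvd hn0 p hp.ne_one
    have hpk0 : p ^ k ≠ 0 := pow_ne_zero _ hp.pos.ne'
    have hm0 : m ≠ 0 := by
      rintro rfl; rw [mul_zero] at hn; exact hn0 hn
    have ho1 : orderOf (g ^ p ^ k) = m := by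
      rw [orderOf_pow_of_dvd hpk0 (by rw [hn]; exact dvd_mul_right _ _), hn,
        Nat.mul_div_cancel_left _ (Nat.pos_of_ne_zero hpk0)]
    have ho2 : orderOf (g ^ m) = p ^ k := by
      rw [orderOf_pow_of_dvd hm0 (by rw [hn]; exact dvd_mul_left _ _), hn,
        Nat.mul_div_cancel _ (Nat.pos_of_ne_zero hm0)]
    have hmp : m.Coprime p := ((Nat.Prime.coprime_iff_not_dvd hp).2 hm).symm
    set L := Subgroup.centralizer ({g ^ p ^ k} : Set G) with hL
    have hLidx : ¬ p ∣ L.index := hidx _ (by rw [ho1]; exact hmp)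
    obtain ⟨S, hSL⟩ := h8_exists_sylow_le_of_not_dvd_index L hLidx
    have hg2L : g ^ m ∈ L := by
      rw [hL, Subgroup.mem_centralizer_singleton_iff, ← pow_add, ← pow_add, add_comm]
    have hrel : ¬ p ∣ (S : Subgroup G).relIndex L := by
      intro hd
      apply S.not_dvd_index
      rw [← Subgroup.relIndex_mul_index hSL]
      exact hd.mul_right _
    obtain ⟨l, hl, hle⟩ := h8_exists_conj_le_of_relIndex hSL
      ((Subgroup.zpowers_le).2 hg2L) S.isPGroup' (h8_isPGroup_zpowers ho2) hrel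
    have h1 : (l * g * l⁻¹) ^ m ∈ Subgroup.normalizer ((S : Subgroup G) : Set G) := by
      rw [conj_pow]
      exact Subgroup.le_normalizer (hle (h8_conj_mem_map_conj l _ (Subgroup.mem_zpowers _)))
    have h2 : (l * g * l⁻¹) ^ p ^ k ∈ Subgroup.normalizer ((S : Subgroup G) : Set G) := by
      rw [conj_pow]
      have hl' : l * g ^ p ^ k = g ^ p ^ k * l := Subgroup.mem_centralizer_singleton_iff.1 hl
      have h3 : l * g ^ p ^ k * l⁻¹ = g ^ p ^ k := by rw [hl']; group
      rw [h3]
      apply Subgroup.centralizer_le_normalizer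
      rw [Subgroup.mem_centralizer_iff]
      intro s hs
      exact Subgroup.mem_centralizer_singleton_iff.1 (hSL hs)
    have h4 : l * g * l⁻¹ ∈ Subgroup.normalizer ((S : Subgroup G) : Set G) :=
      h8_mem_of_pow_mem_of_coprime (hmp.symm.pow_left k) h2 h1
    obtain ⟨c, hc⟩ := MulAction.exists_smul_eq G P S
    refine ⟨c⁻¹ * l, ?_⟩
    rw [Subgroup.mem_normalizer_iff] at h4 ⊢
    intro w
    have h5 := h4 (c * w * c⁻¹)
    rw [← hc, h8_mem_smul_sylow, h8_mem_smul_sylow] at h5
    have e1 : c⁻¹ * (c * w * c⁻¹) * c = w := by group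
    have e2 : c⁻¹ * (l * g * l⁻¹ * (c * w * c⁻¹) * (l * g * l⁻¹)⁻¹) * c =
        c⁻¹ * l * g * (c⁻¹ * l)⁻¹ * w * (c⁻¹ * l * g * (c⁻¹ * l)⁻¹)⁻¹ := by group
    rw [e1, e2] at h5
    exact h5
  have hN : (P : Subgroup G).Normal := Subgroup.normalizer_eq_top_iff.1 hPn
  apply h8_directFactor_of_comm P
  rintro x y ⟨a, ha⟩ hy
  have hxP : x ∈ (P : Subgroup G) := h8_mem_of_normal_sylow P hN ha
  obtain ⟨S, hSL⟩ := h8_exists_sylow_le_of_not_dvd_index _ (hidx y hy)
  have hSP : (S : Subgroup G) ≤ (P : Subgroup G) := by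
    apply h8_le_sylow_of_le_normalizer P _ S.isPGroup'
    rw [hPn]; exact le_top
  have hPS : (P : Subgroup G) = (S : Subgroup G) := S.is_maximal' P.isPGroup' hSP
  rw [hPS] at hxP
  exact Subgroup.mem_centralizer_singleton_iff.1 (hSL hxP)

end Cfsg.Agent.S4035
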