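import Cfsg.Statements.S4036
import Mathlib
import Cfsg.Agent.Lib.Helper8.PElem

set_option autoImplicit false
open Cfsg
open Cfsg.Agent.Lib.Helper8

namespace Cfsg.Agent.S4036

/-- Let P be a finite abelian p-group and K a group of automorphisms of P (a subgroup of Aut P) whose order is divisible by p. If all non-identity elements of K have the same fixed-point subgroup on P, then K has no non-trivial normal subgroup of order prime to p. -/
theorem result {P : Type*} [CommGroup P] [Finite P] {p : ℕ}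
    [Fact p.Prime] (hP : IsPGroup p P) (K : Subgroup (MulAut P)) (hK : p ∣ Nat.card K)
    (hfix : ∀ x y : MulAut P, x ∈ K → y ∈ K → x ≠ 1 → y ≠ 1 → ∀ v : P, x v = v ↔ y v = v) :
    ∀ N : Subgroup ↥K, N.Normal → ¬ p ∣ Nat.card N → N = ⊥ := by
  classical
  have hp : p.Prime := Fact.out
  intro N hNn hNp
  by_contra hN1
  let _ : Fintype ↥N := Fintype.ofFinite _
  -- an element x of order p in K
  obtain ⟨xk, hxk⟩ := exists_prime_orderOf_dvd_card' (G := ↥K) p hK
  have hxo : orderOf (xk : MulAut P) = p := by rw [Subgroup.orderOf_coe]; exact hxk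
  have hx1 : (xk : MulAut P) ≠ 1 := by
    intro h
    rw [h, orderOf_one] at hxo
    exact hp.one_lt.ne hxo
  -- a nontrivial element of N
  obtain ⟨ν, hν⟩ := Subgroup.ne_bot_iff_exists_ne_one.1 hN1
  have hν1 : ((ν : ↥K) : MulAut P) ≠ 1 := by
    intro h
    apply hν
    exact Subtype.ext (Subtype.ext h)
  -- the trace map
  let τ : P →* P := ∏ m : ↥N, ((m : ↥K) : MulAut P).toMonoidHom
  have hτ : ∀ v : P, τ v = ∏ m : ↥N, ((m : ↥K) : MulAut P) v := by
    intro v
    simp [τ, MonoidHom.finsetProd_apply]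
  -- τ commutes with K
  have h3 : ∀ k : ↥K, ∀ v : P, (k : MulAut P) (τ v) = τ ((k : MulAut P) v) := by
    intro k v
    rw [hτ, hτ, map_prod]
    apply Fintype.prod_equiv (MulAut.conjNormal k : MulAut ↥N).toEquiv
    intro m
    have e1 : (((MulAut.conjNormal k : MulAut ↥N) m : ↥K) : MulAut P) =
        (k : MulAut P) * ((m : ↥K) : MulAut P) * (k : MulAut P)⁻¹ := by
      rw [MulAut.conjNormal_apply]; rfl
    show (k : MulAut P) (((m : ↥K) : MulAut P) v) =
      (((MulAut.conjNormal k : MulAut ↥N) m : ↥K) : MulAut P) ((k : MulAut P) v)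
    rw [e1]
    simp [MulAut.mul_apply]
  -- the image of τ is fixed by N
  have h1 : ∀ m : ↥N, ∀ v : P, ((m : ↥K) : MulAut P) (τ v) = τ v := by
    intro m v
    rw [hτ, map_prod]
    apply Fintype.prod_equiv (Equiv.mulLeft m)
    intro m'
    simp [MulAut.mul_apply]
  -- on fixed points of x, τ is the power map
  have h2 : ∀ v : P, (xk : MulAut P) v = v → τ v = v ^ Nat.card N := by
    intro v hv
    rw [hτ]
    have : ∀ m : ↥N, ((m : ↥K) : MulAut P) v = v := by
      intro m
      by_cases hm : ((m : ↥K) : MulAut P) = 1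
      · rw [hm]; rfl
      · exact (hfix _ _ xk.2 (m : ↥K).2 hx1 hm v).1 hv
    rw [Finset.prod_congr rfl (fun m _ => this m), Finset.prod_const, Finset.card_univ,
      Nat.card_eq_fintype_card]
  -- the kernel of τ is trivial
  have hker : τ.ker = ⊥ := by
    by_contra hW
    have hWp : IsPGroup p τ.ker := hP.to_subgroup _
    have hdvd : p ∣ Nat.card τ.ker := by
      have hnt : Nontrivial τ.ker := (Subgroup.nontrivial_iff_ne_bot _).2 hW
      obtain ⟨n, hn0, hn⟩ := hWp.nontrivial_iff_card.mp hnt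
      rw [hn]
      exact dvd_pow_self p hn0.ne'
    have hinv : ∀ g : ↥(Subgroup.zpowers (xk : MulAut P)), ∀ w : ↥τ.ker,
        (g : MulAut P) (w : P) ∈ τ.ker := by
      intro g w
      have hgK : (g : MulAut P) ∈ K := by
        obtain ⟨i, hi⟩ := Subgroup.mem_zpowers_iff.1 g.2
        rw [← hi]
        exact K.zpow_mem xk.2 i
      rw [MonoidHom.mem_ker]
      have := h3 ⟨(g : MulAut P), hgK⟩ (w : P)
      rw [← this, MonoidHom.mem_ker.1 w.2, map_one]
    let act : MulAction ↥(Subgroup.zpowers (xk : MulAut P)) ↥τ.ker :=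
      { smul := fun g w => ⟨(g : MulAut P) (w : P), hinv g w⟩
        one_smul := fun w => Subtype.ext rfl
        mul_smul := fun g h w => Subtype.ext rfl }
    have hfp1 : (1 : ↥τ.ker) ∈ MulAction.fixedPoints ↥(Subgroup.zpowers (xk : MulAut P)) ↥τ.ker := by
      intro g
      apply Subtype.ext
      show (g : MulAut P) (1 : P) = 1
      exact map_one _
    have hZp : IsPGroup p ↥(Subgroup.zpowers (xk : MulAut P)) :=
      h8_isPGroup_zpowers (k := 1) (by rw [hxo, pow_one])
    obtain ⟨b, hb, hb1⟩ := hZp.exists_fixed_point_of_prime_dvd_card_of_fixed_point ↥τ.ker hdvd hfp1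
    have hxb : (xk : MulAut P) (b : P) = (b : P) := by
      have := hb ⟨(xk : MulAut P), Subgroup.mem_zpowers _⟩
      exact congrArg Subtype.val this
    have hb2 : (b : P) ^ Nat.card N = 1 := by
      rw [← h2 _ hxb]
      exact MonoidHom.mem_ker.1 b.2
    obtain ⟨k, hk⟩ := hP (b : P)
    have hbo : orderOf (b : P) = 1 := by
      have d1 : orderOf (b : P) ∣ Nat.card N := orderOf_dvd_of_pow_eq_one hb2
      have d2 : orderOf (b : P) ∣ p ^ k := orderOf_dvd_of_pow_eq_one hk
      have hc : (Nat.card N).Coprime (p ^ k) :=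
        Nat.Coprime.pow_right k ((Nat.Prime.coprime_iff_not_dvd hp).2 hNp).symm
      exact Nat.Coprime.eq_one_of_dvd (Nat.Coprime.coprime_dvd_left d1 hc) d2
    rw [orderOf_eq_one_iff] at hbo
    exact hb1 (Subtype.ext hbo.symm)
  -- τ is injective, hence surjective, so x fixes everything
  have hinj : Function.Injective τ := (MonoidHom.ker_eq_bot_iff τ).1 hker
  have hsurj : Function.Surjective τ := Finite.injective_iff_surjective.1 hinj
  apply hx1
  ext v
  obtain ⟨v', rfl⟩ := hsurj v
  have := h1 ν v'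
  exact (hfix _ _ (ν : ↥K).2 xk.2 hν1 hx1 (τ v')).1 this

end Cfsg.Agent.S4036
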