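import Cfsg.Statements.S4043
-- import your own Cfsg.Agent.* helpers here
import Mathlib
import Cfsg.Agent.Lib.Helper7.Coprime
import Cfsg.Agent.Lib.Helper2.NPC

set_option autoImplicit false
open Cfsg

namespace Cfsg.Agent.S4043

section
universe u
open Pointwise
open Cfsg.Agent.Lib.Helper7 Cfsg.Agent.Lib.Helper2
variable {G : Type u} [Group G]

theorem le_normalizer_of_conj_mem (A C : Subgroup G) (h : ∀ a ∈ A, ∀ c ∈ C, a * c * a⁻¹ ∈ C) :
    A ≤ Subgroup.normalizer (C : Set G) := by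
  intro a ha
  rw [Subgroup.mem_normalizer_iff]
  intro x
  constructor
  · exact h a ha x
  · intro hx
    have := h a⁻¹ (A.inv_mem ha) _ hx
    have e : a⁻¹ * (a * x * a⁻¹) * a⁻¹⁻¹ = x := by group
    rw [e] at this
    exact this

def conjActionSub (Q C : Subgroup G) (h : Q ≤ Subgroup.normalizer (C : Set G)) :
    MulAction Q C where
  smul q c := ⟨q * c * q⁻¹, conj_mem_of_mem_normalizer (h q.2) c.2⟩
  one_smul c := Subtype.ext (by
    show ((1 : Q) : G) * c * ((1 : Q) : G)⁻¹ = c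
    simp)
  mul_smul a b c := Subtype.ext (by
    show ((a * b : Q) : G) * c * ((a * b : Q) : G)⁻¹ = a * (b * c * (b : G)⁻¹) * (a : G)⁻¹
    simp [mul_assoc])

theorem exists_fixed_of_pgroup [Finite G] {p : ℕ} [Fact p.Prime] (Q C : Subgroup G)
    (hQ : IsPGroup p Q) (hC : IsPGroup p C)
    (h : Q ≤ Subgroup.normalizer (C : Set G)) (hne : C ≠ ⊥) :
    ∃ z ∈ C, z ≠ 1 ∧ ∀ q ∈ Q, q * z * q⁻¹ = z := by
  let _ : MulAction Q C := conjActionSub Q C h
  have hpC : p ∣ Nat.card C := by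
    obtain ⟨k, hk⟩ := IsPGroup.iff_card.1 hC
    have hk0 : k ≠ 0 := by
      rintro rfl
      rw [pow_zero] at hk
      exact hne (Subgroup.card_eq_one.1 hk)
    rw [hk]; exact dvd_pow_self p hk0
  have h1 : (1 : C) ∈ MulAction.fixedPoints Q C := by
    intro q
    apply Subtype.ext
    show (q : G) * (1 : G) * (q : G)⁻¹ = 1
    simp
  obtain ⟨b, hb, hne'⟩ := hQ.exists_fixed_point_of_prime_dvd_card_of_fixed_point (α := ↥C) hpC h1
  refine ⟨b, b.2, ?_, ?_⟩
  · intro hb1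
    exact hne' (Subtype.ext hb1.symm)
  · intro q hq
    exact congrArg Subtype.val (hb ⟨q, hq⟩)

theorem npc_unpack [Finite G] {p : ℕ} [Fact p.Prime] (A : Subgroup G)
    (h : Cfsg.HasNormalPComplement p A) :
    ∃ K Q : Subgroup G, K ≤ A ∧ Q ≤ A ∧ A ≤ Subgroup.normalizer (K : Set G) ∧
      (Nat.card K).Coprime p ∧ IsPGroup p Q ∧ (∀ a ∈ A, ∃ k ∈ K, ∃ q ∈ Q, a = k * q) ∧
      ∃ e, Nat.card A = Nat.card K * p ^ e := by
  have hp : p.Prime := Fact.out
  obtain ⟨P, K', hK'n, hc⟩ := h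
  have hcardK : Nat.card (K'.map A.subtype) = Nat.card K' :=
    Subgroup.card_map_of_injective (Subgroup.subtype_injective _)
  have hcardP : Nat.card ((P : Subgroup A).map A.subtype) = Nat.card (P : Subgroup A) :=
    Subgroup.card_map_of_injective (Subgroup.subtype_injective _)
  refine ⟨K'.map A.subtype, (P : Subgroup A).map A.subtype, Subgroup.map_subtype_le _,
    Subgroup.map_subtype_le _, ?_, ?_, ?_, ?_, ?_⟩
  · apply le_normalizer_of_conj_mem
    rintro a ha _ ⟨k, hk, rfl⟩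
    exact ⟨⟨a, ha⟩ * k * ⟨a, ha⟩⁻¹, hK'n.conj_mem k hk ⟨a, ha⟩, rfl⟩
  · rw [hcardK, ← hc.index_eq_card]
    exact Nat.Coprime.symm (hp.coprime_iff_not_dvd.mpr P.not_dvd_index)
  · exact P.2.map _
  · intro a ha
    obtain ⟨⟨k, q⟩, hkq, -⟩ := hc.existsUnique ⟨a, ha⟩
    refine ⟨k, ⟨k, k.2, rfl⟩, q, ⟨q, q.2, rfl⟩, ?_⟩
    exact congrArg Subtype.val hkq.symm
  · obtain ⟨b, hb⟩ := P.2.exists_card_eq
    refine ⟨b, ?_⟩
    rw [hcardK, ← hb]; exact hc.card_mul.symm

theorem main [Finite G] {p : ℕ} [Fact p.Prime] (N : Subgroup G) [hNn : N.Normal]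
    (hN : IsPGroup p N) (A A₁ : Subgroup G)
    (hA : A.IsComplement' N) (hA₁ : A₁.IsComplement' N)
    (hAp : Cfsg.HasNormalPComplement p A) (hA₁p : Cfsg.HasNormalPComplement p A₁)
    (hC₁ : ∀ n : G, n ∈ N → (∀ a : G, a ∈ A₁ → a * n * a⁻¹ = n) → n = 1) :
    ∃ n : G, n ∈ N ∧ A₁ = A.map (MulAut.conj n).toMonoidHom := by
  have hp : p.Prime := Fact.out
  obtain ⟨K, Q, hKA, hQA, hAK, hKcop, hQ, hAKQ, e, he⟩ := npc_unpack A hAp
  obtain ⟨K₁, Q₁, hKA₁, hQA₁, hAK₁, hKcop₁, hQ₁, hAKQ₁, e₁, he₁⟩ := npc_unpack A₁ hA₁p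
  have hcardA : Nat.card A = Nat.card A₁ := by
    rw [← hA.index_eq_card, ← hA₁.index_eq_card]
  obtain ⟨b, hb⟩ := IsPGroup.iff_card.1 hN
  have hndK : ¬ p ∣ Nat.card K := (Nat.Prime.coprime_iff_not_dvd hp).mp hKcop.symm
  have hndK₁ : ¬ p ∣ Nat.card K₁ := (Nat.Prime.coprime_iff_not_dvd hp).mp hKcop₁.symm
  have hee : e = e₁ := pow_eq_of_mul_eq hp hndK hndK₁ (by rw [← he, hcardA, he₁, mul_comm])
  have hcardK : Nat.card K₁ = Nat.card K := by
    subst hee
    rw [he, he₁] at hcardA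
    exact (Nat.eq_of_mul_eq_mul_right (pow_pos hp.pos e) hcardA).symm
  have hcopKN : (Nat.card K).Coprime (Nat.card N) := by
    rw [hb]; exact Nat.Coprime.pow_right b hKcop
  have hcopK₁N : (Nat.card K₁).Coprime (Nat.card N) := by rw [hcardK]; exact hcopKN
  have hKN : K ≤ Subgroup.normalizer (N : Set G) := by
    rw [Subgroup.normalizer_eq_top]; exact le_top
  have hMn : (N ⊔ K).Normal := by
    rw [← Subgroup.normalizer_eq_top_iff, eq_top_iff, ← hA.sup_eq_top]
    refine sup_le ?_ (le_trans le_sup_left Subgroup.le_normalizer)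
    intro a ha
    rw [mem_normalizer_iff_conj_smul, Subgroup.smul_sup, Subgroup.Normal.conj_smul_eq_self,
      mem_normalizer_iff_conj_smul.mp (hAK ha)]
  have hKidx : K.index = p ^ (b + e) := by
    have h1 := K.card_mul_index
    have h2 := hA.card_mul
    rw [← h2, he, hb] at h1
    have h3 : Nat.card K * K.index = Nat.card K * p ^ (b + e) := by rw [h1, pow_add]; ring
    exact Nat.eq_of_mul_eq_mul_left Nat.card_pos h3
  obtain ⟨j, -, hj⟩ := (Nat.dvd_prime_pow hp).mp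
    (hKidx ▸ Subgroup.index_dvd_of_le (le_sup_right : K ≤ N ⊔ K))
  have hK₁M : K₁ ≤ N ⊔ K := fun x hx =>
    mem_of_index_pow_of_coprime_orderOf (N ⊔ K) hj x
      (coprime_orderOf_of_mem_of_coprime_card K₁ hKcop₁ x hx)
  have hsolvN : Group.IsSolvable N := by
    have := hN.isNilpotent
    infer_instance
  obtain ⟨n, hn, hnK⟩ := sz_conj_sub K N hKN hcopKN (Or.inr hsolvN) K₁ hK₁M hcardK
  refine ⟨n, hn, ?_⟩
  have hgoal : A.map (MulAut.conj n).toMonoidHom = MulAut.conj n • A := rfl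
  rw [hgoal]
  symm
  apply Subgroup.eq_of_le_of_card_ge
  · have hA₁C : A₁ ≤ Subgroup.normalizer
        ((N ⊓ Subgroup.centralizer (K₁ : Set G) : Subgroup G) : Set G) := by
      apply le_normalizer_of_conj_mem
      intro a ha c hc
      rw [Subgroup.mem_inf] at hc ⊢
      refine ⟨hNn.conj_mem c hc.1 a, ?_⟩
      rw [Subgroup.mem_centralizer_iff]
      intro k hk
      have h1 : a⁻¹ * k * a ∈ K₁ := conj_mem_of_mem_normalizer' (hAK₁ ha) hk
      have h2 := (Subgroup.mem_centralizer_iff.mp hc.2) _ h1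
      calc k * (a * c * a⁻¹) = a * ((a⁻¹ * k * a) * c) * a⁻¹ := by group
        _ = a * (c * (a⁻¹ * k * a)) * a⁻¹ := by rw [h2]
        _ = a * c * a⁻¹ * k := by group
    have hCbot : N ⊓ Subgroup.centralizer (K₁ : Set G) = ⊥ := by
      by_contra hne
      obtain ⟨z, hz, hz1, hzq⟩ := exists_fixed_of_pgroup Q₁ _ hQ₁ (hN.to_le inf_le_left)
        (le_trans hQA₁ hA₁C) hne
      apply hz1
      rw [Subgroup.mem_inf] at hz
      apply hC₁ z hz.1
      intro a ha
      obtain ⟨k, hk, q, hq, rfl⟩ := hAKQ₁ a ha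
      have h1 := hzq q hq
      have h2 := (Subgroup.mem_centralizer_iff.mp hz.2) k hk
      calc k * q * z * (k * q)⁻¹ = k * (q * z * q⁻¹) * k⁻¹ := by group
        _ = k * z * k⁻¹ := by rw [h1]
        _ = z * k * k⁻¹ := by rw [h2]
        _ = z := by group
    have hHN : ∀ m ∈ N, m ∈ Subgroup.normalizer (K₁ : Set G) → m = 1 := by
      intro m hm hmK
      have hmem : m ∈ N ⊓ Subgroup.centralizer (K₁ : Set G) := by
        rw [Subgroup.mem_inf]
        refine ⟨hm, ?_⟩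
        rw [Subgroup.mem_centralizer_iff]
        intro k hk
        have h1 : m * k * m⁻¹ * k⁻¹ ∈ K₁ :=
          K₁.mul_mem (conj_mem_of_mem_normalizer hmK hk) (K₁.inv_mem hk)
        have h2 : m * k * m⁻¹ * k⁻¹ ∈ N := by
          have e : m * k * m⁻¹ * k⁻¹ = m * (k * m⁻¹ * k⁻¹) := by group
          rw [e]; exact N.mul_mem hm (hNn.conj_mem _ (N.inv_mem hm) k)
        have h3 := eq_one_of_mem_of_mem_coprime hcopK₁N h1 h2
        calc k * m = (m * k * m⁻¹ * k⁻¹)⁻¹ * (m * k) := by group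
          _ = m * k := by rw [h3]; simp
      rw [hCbot] at hmem
      exact Subgroup.mem_bot.mp hmem
    intro x hx
    rw [mem_conj_smul_iff] at hx
    have hxK₁ : x ∈ Subgroup.normalizer (K₁ : Set G) := by
      rw [mem_normalizer_iff_conj_smul, ← hnK, conj_smul_conj_smul]
      have e : x * n = n * (n⁻¹ * x * n) := by group
      rw [e, ← conj_smul_conj_smul, mem_normalizer_iff_conj_smul.mp (hAK hx)]
    obtain ⟨⟨a₁, m⟩, ham, -⟩ := hA₁.existsUnique x
    simp only at ham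
    have hm : (m : G) ∈ Subgroup.normalizer (K₁ : Set G) := by
      have e : (m : G) = (a₁ : G)⁻¹ * x := by rw [← ham]; group
      rw [e]; exact Subgroup.mul_mem _ (Subgroup.inv_mem _ (hAK₁ a₁.2)) hxK₁
    have hm1 := hHN m m.2 hm
    have e : x = a₁ := by rw [← ham, hm1, mul_one]
    rw [e]; exact a₁.2
  · rw [card_conj_smul, hcardA]

end

/-- Let G be a finite group that is the semidirect product of a normal p-subgroup N by a subgroup A, and also of N by a subgroup A₁, where p is a prime and A and A₁ both have normal p-complements. If C_N(A) = C_N(A₁) = 1, then A₁ is conjugate to A by an element of N. -/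
theorem result {G : Type*} [Group G] [Finite G] {p : ℕ}
    [Fact p.Prime] (N : Subgroup G) [N.Normal] (hN : IsPGroup p N) (A A₁ : Subgroup G)
    (hA : A.IsComplement' N) (hA₁ : A₁.IsComplement' N)
    (hAp : Cfsg.HasNormalPComplement p A) (hA₁p : Cfsg.HasNormalPComplement p A₁)
    (hC : ∀ n : G, n ∈ N → (∀ a : G, a ∈ A → a * n * a⁻¹ = n) → n = 1)
    (hC₁ : ∀ n : G, n ∈ N → (∀ a : G, a ∈ A₁ → a * n * a⁻¹ = n) → n = 1) :
    ∃ n : G, n ∈ N ∧ A₁ = A.map (MulAut.conj n).toMonoidHom := by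
  exact main N hN A A₁ hA hA₁ hAp hA₁p hC₁

end Cfsg.Agent.S4043
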