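import Cfsg.Statements.S4051
-- import your own Cfsg.Agent.* helpers here
import Mathlib
import Cfsg.Agent.Lib.Helper7.Coprime
import Cfsg.Agent.Lib.Helper7.SylowCount
import Cfsg.Agent.Lib.Helper7.CoprimeSylow
import Cfsg.Agent.Lib.Helper2.Hall

set_option autoImplicit false
open Cfsg

namespace Cfsg.Agent.S4051

section
universe u
open Pointwise
open Cfsg.Agent.Lib.Helper7 Cfsg.Agent.Lib.Helper2
variable {G : Type u} [Group G]

theorem le_of_sylow_le [Finite G] (K D : Subgroup G)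
    (h : ∀ q : ℕ, q.Prime → ∃ Q : Sylow q K, (Q : Subgroup K).map K.subtype ≤ D) : K ≤ D := by
  have hdvd : Nat.card K ∣ Nat.card (D ⊓ K : Subgroup G) := by
    rw [← Nat.factorization_prime_le_iff_dvd Nat.card_pos.ne' Nat.card_pos.ne']
    intro q hq
    have := Fact.mk hq
    obtain ⟨Q, hQ⟩ := h q hq
    have h1 : Nat.card ((Q : Subgroup K).map K.subtype) = q ^ (Nat.card K).factorization q := by
      rw [Subgroup.card_map_of_injective K.subtype_injective]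
      exact Q.card_eq_multiplicity
    have h2 : q ^ (Nat.card K).factorization q ∣ Nat.card (D ⊓ K : Subgroup G) := by
      rw [← h1]
      exact Subgroup.card_dvd_of_le (le_inf hQ (Subgroup.map_subtype_le _))
    exact (hq.pow_dvd_iff_le_factorization Nat.card_pos.ne').mp h2
  have heq : D ⊓ K = K :=
    Subgroup.eq_of_le_of_card_ge inf_le_right (Nat.le_of_dvd Nat.card_pos hdvd)
  rw [← heq]; exact inf_le_left

theorem isPi_of_quotient [Finite G] (π : Set ℕ) (L : Subgroup G) [L.Normal]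
    (hL : ∀ p : ℕ, p.Prime → p ∣ Nat.card L → p ∈ π) (x : G)
    (hx : ∀ p : ℕ, p.Prime → p ∣ orderOf (x : G ⧸ L) → p ∈ π) :
    ∀ p : ℕ, p.Prime → p ∣ orderOf x → p ∈ π := by
  intro p hp hpx
  have h1 : orderOf x ∣ orderOf (x : G ⧸ L) * Nat.card L := by
    apply orderOf_dvd_of_pow_eq_one
    have h2 : x ^ orderOf (x : G ⧸ L) ∈ L := by
      rw [← QuotientGroup.eq_one_iff, QuotientGroup.mk_pow, pow_orderOf_eq_one]
    rw [pow_mul]
    have h3 := pow_card_eq_one' (G := L) (x := ⟨_, h2⟩)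
    exact congrArg Subtype.val h3
  rcases (Nat.Prime.dvd_mul hp).mp (dvd_trans hpx h1) with h | h
  · exact hx p hp h
  · exact hL p hp h

theorem isPi_quotient (π : Set ℕ) (L : Subgroup G) [L.Normal] (x : G)
    (hx : ∀ p : ℕ, p.Prime → p ∣ orderOf x → p ∈ π) :
    ∀ p : ℕ, p.Prime → p ∣ orderOf (x : G ⧸ L) → p ∈ π := by
  intro p hp hpx
  exact hx p hp (dvd_trans hpx (orderOf_map_dvd (QuotientGroup.mk' L) x))

theorem mem_centralizer_of_hhom [Finite G] (π : Set ℕ) (H : Subgroup G)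
    (hh : ∀ p : ℕ, p.Prime → p ∣ (Subgroup.centralizer (H : Set G)).relIndex
      (Subgroup.normalizer (H : Set G)) → p ∉ π)
    (n : G) (hn : n ∈ Subgroup.normalizer (H : Set G))
    (hπ : ∀ p : ℕ, p.Prime → p ∣ orderOf n → p ∈ π) :
    n ∈ Subgroup.centralizer (H : Set G) := by
  have h1 := mem_of_coprime_orderOf_index ((Subgroup.centralizer (H : Set G)).subgroupOf
    (Subgroup.normalizer (H : Set G))) ⟨n, hn⟩ (by
      apply Nat.coprime_of_dvd
      intro k hk hk1 hk2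
      rw [Subgroup.orderOf_mk] at hk1
      exact hh k hk hk2 (hπ k hk hk1))
  exact Subgroup.mem_subgroupOf.mp h1

/-- all prime divisors of the order of a subgroup consisting of π-elements are in π -/
theorem card_pi_of_forall [Finite G] (π : Set ℕ) (L : Subgroup G)
    (hL : ∀ x ∈ L, ∀ p : ℕ, p.Prime → p ∣ orderOf x → p ∈ π) :
    ∀ p : ℕ, p.Prime → p ∣ Nat.card L → p ∈ π := by
  intro p hp hpL
  have := Fact.mk hp
  obtain ⟨x, hx⟩ := exists_prime_orderOf_dvd_card' (G := L) p hpL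
  have h1 : orderOf (x : G) = p := by rw [Subgroup.orderOf_coe]; exact hx
  exact hL x x.2 p hp (by rw [h1])


theorem isPGroup_zpowers_of_pow (q : ℕ) [hq : Fact q.Prime] (y : G) (j : ℕ) (h : y ^ q ^ j = 1) :
    IsPGroup q (Subgroup.zpowers y) := by
  obtain ⟨i, -, hi⟩ := (Nat.dvd_prime_pow hq.out).mp (orderOf_dvd_of_pow_eq_one h)
  exact IsPGroup.of_card (n := i) (by rw [Nat.card_zpowers, hi])

theorem exists_C0 (K L : Subgroup G) [L.Normal] :
    ∃ C : Subgroup G, ∀ y, y ∈ C ↔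
      ∀ k ∈ K, (k : G ⧸ L) * (y : G ⧸ L) = (y : G ⧸ L) * (k : G ⧸ L) := by
  refine ⟨(Subgroup.centralizer ((K.map (QuotientGroup.mk' L) : Subgroup (G ⧸ L)) :
    Set (G ⧸ L))).comap (QuotientGroup.mk' L), ?_⟩
  intro y
  rw [Subgroup.mem_comap, Subgroup.mem_centralizer_iff]
  constructor
  · intro h k hk; exact h _ ⟨k, hk, rfl⟩
  · rintro h _ ⟨k, hk, rfl⟩; exact h k hk

theorem claimA [Finite G] (π : Set ℕ)
    (hhom : ∀ H : Subgroup G, H ≠ ⊥ → (∀ p : ℕ, p.Prime → p ∣ Nat.card ↥H → p ∉ π) →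
        ∀ p : ℕ, p.Prime → p ∣ (Subgroup.centralizer (H : Set G)).relIndex
          (Subgroup.normalizer (H : Set G)) → p ∉ π)
    (K L : Subgroup G) [hKn : K.Normal] [hLn : L.Normal]
    (hLπ : ∀ p : ℕ, p.Prime → p ∣ Nat.card L → p ∈ π)
    (hKL : ∀ p : ℕ, p.Prime → p ∣ L.relIndex K → p ∉ π)
    (p : ℕ) [hpf : Fact p.Prime] (hp : p ∈ π) (x : G) (hx : IsPGroup p (Subgroup.zpowers x)) :
    ∀ k ∈ K, (k : G ⧸ L) * (x : G ⧸ L) = (x : G ⧸ L) * (k : G ⧸ L) := by
  obtain ⟨D, hD⟩ : ∃ D : Subgroup G, ∀ k, k ∈ D ↔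
      (k : G ⧸ L) * (x : G ⧸ L) = (x : G ⧸ L) * (k : G ⧸ L) := by
    refine ⟨(Subgroup.centralizer ({(x : G ⧸ L)} : Set (G ⧸ L))).comap (QuotientGroup.mk' L), ?_⟩
    intro k
    rw [Subgroup.mem_comap, Subgroup.mem_centralizer_iff]
    constructor
    · intro h; exact (h _ rfl).symm
    · intro h y hy; rw [Set.mem_singleton_iff] at hy; rw [hy]; exact h.symm
  have hxπ : ∀ r : ℕ, r.Prime → r ∣ orderOf x → r ∈ π := by
    intro r hr hrd
    obtain ⟨e, he⟩ := IsPGroup.iff_card.mp hx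
    rw [Nat.card_zpowers] at he
    rw [he] at hrd
    have := (Nat.prime_dvd_prime_iff_eq hr hpf.out).mp (hr.dvd_of_dvd_pow hrd)
    rw [this]; exact hp
  suffices h : K ≤ D from fun k hk => (hD k).mp (h hk)
  apply le_of_sylow_le
  intro q hq
  have := Fact.mk hq
  by_cases hqπ : q ∈ π
  · obtain ⟨Q⟩ : Nonempty (Sylow q K) := inferInstance
    refine ⟨Q, ?_⟩
    rintro _ ⟨y, hy, rfl⟩
    have hyL : (y : G) ∈ L := by
      have h1 := mem_of_coprime_orderOf_index (L.subgroupOf K) y (by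
        obtain ⟨j, hj⟩ := Q.2 ⟨y, hy⟩
        have h2 : y ^ q ^ j = 1 := congrArg Subtype.val hj
        refine Nat.Coprime.coprime_dvd_left (orderOf_dvd_of_pow_eq_one h2) ?_
        apply Nat.Coprime.pow_left
        rw [Nat.Prime.coprime_iff_not_dvd hq]
        intro h3
        exact hKL q hq h3 hqπ)
      exact Subgroup.mem_subgroupOf.mp h1
    rw [hD]
    have e1 : ((y : G) : G ⧸ L) = 1 := (QuotientGroup.eq_one_iff _).mpr hyL
    show ((y : G) : G ⧸ L) * (x : G ⧸ L) = (x : G ⧸ L) * ((y : G) : G ⧸ L)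
    rw [e1, one_mul, mul_one]
  · obtain ⟨Q₀⟩ : Nonempty (Sylow q K) := inferInstance
    obtain ⟨Q₀', hQ₀'⟩ : ∃ Q₀' : Subgroup G, Q₀' = (Q₀ : Subgroup K).map K.subtype := ⟨_, rfl⟩
    obtain ⟨N, hN⟩ : ∃ N : Subgroup G,
      N = Subgroup.normalizer ((Q₀' ⊔ L : Subgroup G) : Set G) := ⟨_, rfl⟩
    have hNK : N ⊔ K = ⊤ := by
      rw [eq_top_iff, ← Sylow.normalizer_sup_eq_top Q₀]
      refine sup_le_sup_right ?_ K
      rw [hN, ← hQ₀']
      exact normalizer_le_normalizer_sup Q₀' L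
    have hidx : ¬ p ∣ N.index := by
      have h1 : N.index = N.relIndex K := by
        rw [relIndex_eq_relIndex_sup N K, hNK, Subgroup.relIndex_top_right]
      have h2 : N.relIndex K ∣ L.relIndex K :=
        Subgroup.relIndex_dvd_of_le_left K
          (by rw [hN]; exact le_trans le_sup_right Subgroup.le_normalizer)
      intro h3
      exact hKL p hpf.out (dvd_trans (h1 ▸ h3) h2) hp
    obtain ⟨gN, hgN⟩ := hx.nonempty_fixed_point_of_prime_not_dvd_card (G ⧸ N) hidx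
    obtain ⟨g, rfl⟩ := QuotientGroup.mk_surjective gN
    have hxg : g⁻¹ * x * g ∈ N := by
      have h1 := hgN ⟨x, Subgroup.mem_zpowers x⟩
      have h2 : ((x * g : G) : G ⧸ N) = (g : G ⧸ N) := h1
      rw [QuotientGroup.eq] at h2
      have h3 := N.inv_mem h2
      have e : ((x * g)⁻¹ * g)⁻¹ = g⁻¹ * x * g := by group
      rw [e] at h3; exact h3
    obtain ⟨Q₁, hQ₁⟩ : ∃ Q₁ : Sylow q K,
        (Q₁ : Subgroup K).map K.subtype = MulAut.conj g • Q₀' := by
      refine ⟨(⟨g, by rw [Subgroup.normalizer_eq_top]; trivial⟩ :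
        Subgroup.normalizer (K : Set G)) • Q₀, ?_⟩
      rw [hQ₀', Sylow.pointwise_smul_def]
      exact normalizer_smul_map _ (Q₀ : Subgroup K)
    refine ⟨Q₁, ?_⟩
    obtain ⟨Q₁', hQ₁'⟩ : ∃ Q₁' : Subgroup G, Q₁' = (Q₁ : Subgroup K).map K.subtype := ⟨_, rfl⟩
    rw [← hQ₁'] at hQ₁ ⊢
    have hxN : MulAut.conj x • (Q₁' ⊔ L) = Q₁' ⊔ L := by
      have h1 : Q₁' ⊔ L = MulAut.conj g • (Q₀' ⊔ L) := by
        rw [Subgroup.smul_sup, Subgroup.Normal.conj_smul_eq_self g L, hQ₁]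
      rw [h1, conj_smul_conj_smul]
      have e : x * g = g * (g⁻¹ * x * g) := by group
      rw [e, ← conj_smul_conj_smul]
      congr 1
      exact mem_normalizer_iff_conj_smul.mp (hN ▸ hxg)
    have hQ₁q : IsPGroup q Q₁' := by rw [hQ₁']; exact Q₁.2.map _
    have hcop : (Nat.card Q₁').Coprime (Nat.card L) := by
      obtain ⟨j, hj⟩ := IsPGroup.iff_card.mp hQ₁q
      rw [hj]
      apply Nat.Coprime.pow_left
      rw [Nat.Prime.coprime_iff_not_dvd hq]
      intro h; exact hqπ (hLπ q hq h)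
    have hsolv : Group.IsSolvable Q₁' := by
      have := hQ₁q.isNilpotent
      infer_instance
    obtain ⟨l, hl, hlQ⟩ := sz_conj_sub Q₁' L (by rw [Subgroup.normalizer_eq_top]; exact le_top)
      hcop (Or.inl hsolv) (MulAut.conj x • Q₁') (by
        rw [sup_comm, ← hxN, Subgroup.smul_sup]; exact le_sup_left) (card_conj_smul x Q₁')
    have hn : l⁻¹ * x ∈ Subgroup.normalizer (Q₁' : Set G) := by
      rw [mem_normalizer_iff_conj_smul, ← conj_smul_conj_smul, ← hlQ, conj_smul_conj_smul,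
        inv_mul_cancel, map_one, one_smul]
    have e : ((l⁻¹ * x : G) : G ⧸ L) = (x : G ⧸ L) := by
      rw [QuotientGroup.mk_mul, (QuotientGroup.eq_one_iff _).mpr (L.inv_mem hl), one_mul]
    have hnπ : ∀ r : ℕ, r.Prime → r ∣ orderOf (l⁻¹ * x) → r ∈ π := by
      apply isPi_of_quotient π L hLπ
      rw [e]
      exact isPi_quotient π L x hxπ
    intro s hs
    rw [hD]
    by_cases hbot : Q₁' = ⊥
    · rw [hbot, Subgroup.mem_bot] at hs
      rw [hs]; simp
    · have hcent := mem_centralizer_of_hhom π Q₁' (hhom Q₁' hbot (by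
          intro r hr hrd
          obtain ⟨j, hj⟩ := IsPGroup.iff_card.mp hQ₁q
          rw [hj] at hrd
          have := (Nat.prime_dvd_prime_iff_eq hr hq).mp (hr.dvd_of_dvd_pow hrd)
          rw [this]; exact hqπ)) (l⁻¹ * x) hn hnπ
      have h1 := (Subgroup.mem_centralizer_iff.mp hcent) s hs
      have h2 : (s : G ⧸ L) * ((l⁻¹ * x : G) : G ⧸ L) =
          ((l⁻¹ * x : G) : G ⧸ L) * (s : G ⧸ L) := by
        rw [← QuotientGroup.mk_mul, ← QuotientGroup.mk_mul, h1]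
      rw [e] at h2
      exact h2

theorem claimA' [Finite G] (π : Set ℕ)
    (hhom : ∀ H : Subgroup G, H ≠ ⊥ → (∀ p : ℕ, p.Prime → p ∣ Nat.card ↥H → p ∉ π) →
        ∀ p : ℕ, p.Prime → p ∣ (Subgroup.centralizer (H : Set G)).relIndex
          (Subgroup.normalizer (H : Set G)) → p ∉ π)
    (K L : Subgroup G) [hKn : K.Normal] [hLn : L.Normal]
    (hLπ : ∀ p : ℕ, p.Prime → p ∣ Nat.card L → p ∈ π)
    (hKL : ∀ p : ℕ, p.Prime → p ∣ L.relIndex K → p ∉ π)
    (x : G) (hxπ : ∀ r : ℕ, r.Prime → r ∣ orderOf x → r ∈ π) :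
    ∀ k ∈ K, (k : G ⧸ L) * (x : G ⧸ L) = (x : G ⧸ L) * (k : G ⧸ L) := by
  obtain ⟨C, hC⟩ := exists_C0 K L
  suffices h : Subgroup.zpowers x ≤ C from (hC x).mp (h (Subgroup.mem_zpowers x))
  apply le_of_sylow_le
  intro q hq
  have := Fact.mk hq
  obtain ⟨Q⟩ : Nonempty (Sylow q (Subgroup.zpowers x)) := inferInstance
  refine ⟨Q, ?_⟩
  rintro _ ⟨y, hy, rfl⟩
  rw [hC]
  obtain ⟨j, hj⟩ := Q.2 ⟨y, hy⟩
  have h2 : (y : G) ^ q ^ j = 1 := by
    have h3 : y ^ q ^ j = 1 := congrArg Subtype.val hj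
    have h4 := congrArg Subtype.val h3
    simpa using h4
  by_cases hy1 : (y : G) = 1
  · intro k hk
    show (k : G ⧸ L) * ((y : G) : G ⧸ L) = ((y : G) : G ⧸ L) * (k : G ⧸ L)
    rw [hy1]; simp
  · have hqx : q ∣ orderOf x := by
      obtain ⟨i, -, hi⟩ := (Nat.dvd_prime_pow hq).mp (orderOf_dvd_of_pow_eq_one h2)
      have hi0 : i ≠ 0 := by
        rintro rfl
        rw [pow_zero, orderOf_eq_one_iff] at hi
        exact hy1 hi
      have h5 : q ∣ orderOf (y : G) := by rw [hi]; exact dvd_pow_self q hi0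
      exact dvd_trans h5 (orderOf_dvd_of_mem_zpowers y.2)
    exact claimA π hhom K L hLπ hKL q (hxπ q hq hqx) (y : G) (isPGroup_zpowers_of_pow q _ j h2)

theorem central_hall (X : Type u) [Group X] [Finite X] (Y : Subgroup X)
    (hY : Y ≤ Subgroup.center X) (hcop : (Nat.card Y).Coprime Y.index) :
    ∃ T : Subgroup X, Nat.card T = Y.index ∧
      ∀ x : X, (orderOf x).Coprime (Nat.card Y) → x ∈ T := by
  have hYn : Y.Normal := ⟨fun y hy g => by
    have h1 := (Subgroup.mem_center_iff.mp (hY hy)) g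
    rw [h1, mul_inv_cancel_right]; exact hy⟩
  obtain ⟨H, hH⟩ := Subgroup.exists_right_complement'_of_coprime hcop
  have hHn : H.Normal := by
    constructor
    intro h hh g
    obtain ⟨⟨y, h'⟩, hyh, -⟩ := hH.existsUnique g
    simp only at hyh
    rw [← hyh]
    have e1 := (Subgroup.mem_center_iff.mp (hY y.2)) (h' * h * (h' : X)⁻¹)
    have e : (y : X) * h' * h * ((y : X) * h')⁻¹ = h' * h * (h' : X)⁻¹ := by
      calc (y : X) * h' * h * ((y : X) * h')⁻¹
          = y * (h' * h * (h' : X)⁻¹) * (y : X)⁻¹ := by group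
        _ = (h' * h * (h' : X)⁻¹) * y * (y : X)⁻¹ := by rw [e1]
        _ = h' * h * (h' : X)⁻¹ := by group
    rw [e]
    exact H.mul_mem (H.mul_mem h'.2 hh) (H.inv_mem h'.2)
  refine ⟨H, ?_, ?_⟩
  · exact hH.symm.index_eq_card.symm
  · intro x hx
    apply mem_of_coprime_orderOf_index H x
    rw [hH.index_eq_card]; exact hx

theorem central_hall_sub {X' : Type u} [Group X'] [Finite X'] (X Y : Subgroup X') (hYX : Y ≤ X)
    (hcent : ∀ y ∈ Y, ∀ x ∈ X, x * y = y * x) (hcop : (Nat.card Y).Coprime (Y.relIndex X)) :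
    ∃ T : Subgroup X', T ≤ X ∧ Nat.card T = Y.relIndex X ∧
      ∀ x ∈ X, (orderOf x).Coprime (Nat.card Y) → x ∈ T := by
  have hY : Y.subgroupOf X ≤ Subgroup.center X := by
    intro y hy
    rw [Subgroup.mem_center_iff]
    intro g
    apply Subtype.ext
    exact hcent y (Subgroup.mem_subgroupOf.mp hy) g g.2
  have hcard : Nat.card (Y.subgroupOf X) = Nat.card Y := card_subgroupOf_of_le hYX
  obtain ⟨T, hT1, hT2⟩ := central_hall X (Y.subgroupOf X) hY (by rw [hcard]; exact hcop)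
  refine ⟨T.map X.subtype, Subgroup.map_subtype_le _, ?_, ?_⟩
  · rw [Subgroup.card_map_of_injective X.subtype_injective, hT1]; rfl
  · intro x hx hxc
    refine ⟨⟨x, hx⟩, hT2 ⟨x, hx⟩ ?_, rfl⟩
    rw [Subgroup.orderOf_mk, hcard]; exact hxc

theorem main [Finite G] (π : Set ℕ)
    (hhom : ∀ H : Subgroup G, H ≠ ⊥ → (∀ p : ℕ, p.Prime → p ∣ Nat.card ↥H → p ∉ π) →
        ∀ p : ℕ, p.Prime → p ∣ (Subgroup.centralizer (H : Set G)).relIndex
          (Subgroup.normalizer (H : Set G)) → p ∉ π)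
    (K : Subgroup G) [hKn : K.Normal]
    (hK : ∃ L : Subgroup ↥K, ∀ x : ↥K, x ∈ L ↔ ∀ p : ℕ, p.Prime → p ∣ orderOf x → p ∈ π)
    (hQ : ∃ L : Subgroup (G ⧸ K), ∀ x : G ⧸ K, x ∈ L ↔
      ∀ p : ℕ, p.Prime → p ∣ orderOf x → p ∈ π) :
    ∃ T : Subgroup G, ∀ x : G, x ∈ T ↔ ∀ p : ℕ, p.Prime → p ∣ orderOf x → p ∈ π := by
  obtain ⟨L₀, hL₀⟩ := hK
  obtain ⟨Mb, hMb⟩ := hQ
  obtain ⟨L, hLdef⟩ : ∃ L : Subgroup G, L = L₀.map K.subtype := ⟨_, rfl⟩
  have hLmem : ∀ x : G, x ∈ L ↔ x ∈ K ∧ ∀ p : ℕ, p.Prime → p ∣ orderOf x → p ∈ π := by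
    intro x
    rw [hLdef]
    constructor
    · rintro ⟨y, hy, rfl⟩
      refine ⟨y.2, ?_⟩
      have h1 := (hL₀ y).mp hy
      show ∀ p : ℕ, p.Prime → p ∣ orderOf (y : G) → p ∈ π
      rw [Subgroup.orderOf_coe]
      exact h1
    · rintro ⟨hxK, hx⟩
      refine ⟨⟨x, hxK⟩, (hL₀ _).mpr ?_, rfl⟩
      rw [Subgroup.orderOf_mk]; exact hx
  have hLK : L ≤ K := fun x hx => ((hLmem x).mp hx).1
  have hLn : L.Normal := by
    constructor
    intro l hl g
    rw [hLmem] at hl ⊢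
    refine ⟨hKn.conj_mem l hl.1 g, ?_⟩
    rw [orderOf_conj']
    exact hl.2
  have hLπ : ∀ p : ℕ, p.Prime → p ∣ Nat.card L → p ∈ π :=
    card_pi_of_forall π L (fun x hx => ((hLmem x).mp hx).2)
  have hKL : ∀ p : ℕ, p.Prime → p ∣ L.relIndex K → p ∉ π := by
    intro p hp hpd hpπ
    have := Fact.mk hp
    obtain ⟨P⟩ : Nonempty (Sylow p K) := inferInstance
    have hPL : (P : Subgroup K) ≤ L.subgroupOf K := by
      intro y hy
      rw [Subgroup.mem_subgroupOf, hLmem]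
      refine ⟨y.2, ?_⟩
      intro r hr hrd
      obtain ⟨j, hj⟩ := P.2 ⟨y, hy⟩
      have h0 : y ^ p ^ j = 1 := congrArg Subtype.val hj
      have h1 : (y : G) ^ p ^ j = 1 := by
        have h4 := congrArg Subtype.val h0
        simpa using h4
      have h2 := dvd_trans hrd (orderOf_dvd_of_pow_eq_one h1)
      have h3 := (Nat.prime_dvd_prime_iff_eq hr hp).mp (hr.dvd_of_dvd_pow h2)
      rw [h3]; exact hpπ
    have h3 : (L.subgroupOf K).index ∣ (P : Subgroup K).index := Subgroup.index_dvd_of_le hPL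
    exact P.not_dvd_index (dvd_trans hpd h3)
  obtain ⟨M, hMdef⟩ : ∃ M : Subgroup G, M = Mb.comap (QuotientGroup.mk' K) := ⟨_, rfl⟩
  have hMbπ : ∀ p : ℕ, p.Prime → p ∣ Nat.card Mb → p ∈ π :=
    card_pi_of_forall π Mb (fun x hx => (hMb x).mp hx)
  obtain ⟨C₀, hC₀⟩ := exists_C0 K L
  obtain ⟨C, hCdef⟩ : ∃ C : Subgroup G, C = M ⊓ C₀ := ⟨_, rfl⟩
  obtain ⟨Z, hZdef⟩ : ∃ Z : Subgroup G, Z = K ⊓ C := ⟨_, rfl⟩
  have hπC : ∀ x : G, (∀ p : ℕ, p.Prime → p ∣ orderOf x → p ∈ π) → x ∈ C := by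
    intro x hx
    rw [hCdef, Subgroup.mem_inf]
    constructor
    · rw [hMdef, Subgroup.mem_comap, hMb]
      exact isPi_quotient π K x hx
    · rw [hC₀]; exact claimA' π hhom K L hLπ hKL x hx
  obtain ⟨X, hX⟩ : ∃ X : Subgroup (G ⧸ L), X = C.map (QuotientGroup.mk' L) := ⟨_, rfl⟩
  obtain ⟨Y, hY⟩ : ∃ Y : Subgroup (G ⧸ L), Y = Z.map (QuotientGroup.mk' L) := ⟨_, rfl⟩
  have hKM : K ≤ M := by
    intro k hk
    rw [hMdef, Subgroup.mem_comap]
    have : (QuotientGroup.mk' K) k = 1 := (QuotientGroup.eq_one_iff _).mpr hk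
    rw [this]; exact Mb.one_mem
  have hLZ : L ≤ Z := by
    intro l hl
    rw [hZdef, hCdef]
    refine ⟨hLK hl, hKM (hLK hl), ?_⟩
    show l ∈ C₀
    rw [hC₀]
    intro k hk
    rw [(QuotientGroup.eq_one_iff _).mpr hl, one_mul, mul_one]
  have hYX : Y ≤ X := by
    rw [hX, hY]; exact Subgroup.map_mono (by rw [hZdef]; exact inf_le_right)
  have hcent : ∀ y ∈ Y, ∀ x ∈ X, x * y = y * x := by
    rw [hX, hY]
    rintro _ ⟨z, hz, rfl⟩ _ ⟨c, hc, rfl⟩
    have hzK : z ∈ K := by rw [hZdef] at hz; exact hz.1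
    have hcC₀ : c ∈ C₀ := by rw [hCdef] at hc; exact hc.2
    exact ((hC₀ c).mp hcC₀ z hzK).symm
  have hcardY : Nat.card Y = L.relIndex Z := by
    rw [hY, ← Subgroup.relIndex_ker, QuotientGroup.ker_mk']
  have hYπ' : ∀ p : ℕ, p.Prime → p ∣ Nat.card Y → p ∉ π := by
    intro p hp hpd
    rw [hcardY] at hpd
    apply hKL p hp
    rw [← Subgroup.relIndex_mul_relIndex L Z K hLZ (by rw [hZdef]; exact inf_le_left)]
    exact dvd_mul_of_dvd_left hpd _
  have hrel : Y.relIndex X = Z.relIndex C := by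
    rw [hX, hY, ← Subgroup.relIndex_comap, Subgroup.comap_map_eq, QuotientGroup.ker_mk',
      sup_eq_left.mpr hLZ]
  have hrelπ : ∀ p : ℕ, p.Prime → p ∣ Y.relIndex X → p ∈ π := by
    intro p hp hpd
    rw [hrel] at hpd
    have h1 : Z.relIndex C = K.relIndex C := by rw [hZdef]; exact Subgroup.inf_relIndex_right _ _
    have h2 : K.relIndex C = Nat.card (C.map (QuotientGroup.mk' K)) := by
      rw [← Subgroup.relIndex_ker, QuotientGroup.ker_mk']
    have h3 : C.map (QuotientGroup.mk' K) ≤ Mb := by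
      rw [Subgroup.map_le_iff_le_comap, ← hMdef, hCdef]; exact inf_le_left
    rw [h1, h2] at hpd
    exact hMbπ p hp (dvd_trans hpd (Subgroup.card_dvd_of_le h3))
  have hcop : (Nat.card Y).Coprime (Y.relIndex X) := by
    apply Nat.coprime_of_dvd
    intro k hk hk1 hk2
    exact hYπ' k hk hk1 (hrelπ k hk hk2)
  obtain ⟨T, hTX, hTcard, hT⟩ := central_hall_sub X Y hYX hcent hcop
  refine ⟨T.comap (QuotientGroup.mk' L), ?_⟩
  intro x
  rw [Subgroup.mem_comap]
  constructor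
  · intro hx
    apply isPi_of_quotient π L hLπ
    intro p hp hpd
    apply hrelπ p hp
    rw [← hTcard]
    exact dvd_trans hpd (orderOf_dvd_card_of_mem T _ hx)
  · intro hx
    apply hT
    · rw [hX]; exact ⟨x, hπC x hx, rfl⟩
    · apply Nat.coprime_of_dvd
      intro k hk hk1 hk2
      exact hYπ' k hk hk2 (isPi_quotient π L x hx k hk hk1)

end

/-- Let π be a set of primes and G a finite group such that N_G(H)/C_G(H) is a π'-group for every nontrivial π'-subgroup H of G. If K is a normal subgroup of G such that the π-elements of K form a subgroup and the π-elements of G/K form a subgroup, then the π-elements of G form a subgroup. -/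
theorem result {G : Type*} [Group G] [Finite G] (π : Set ℕ)
    (hπ : ∀ p ∈ π, p.Prime) (hhom : (∀ H : Subgroup G, H ≠ ⊥ → (∀ p : ℕ, p.Prime → p ∣ Nat.card ↥H → p ∉ π) →
        ∀ p : ℕ, p.Prime → p ∣ (Subgroup.centralizer (H : Set G)).relIndex (Subgroup.normalizer (H : Set G)) → p ∉ π))
    (K : Subgroup G) [K.Normal]
    (hK : ∃ L : Subgroup ↥K, ∀ x : ↥K, x ∈ L ↔ ∀ p : ℕ, p.Prime → p ∣ orderOf x → p ∈ π)
    (hQ : ∃ L : Subgroup (G ⧸ K), ∀ x : G ⧸ K, x ∈ L ↔ ∀ p : ℕ, p.Prime → p ∣ orderOf x → p ∈ π) :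
    (∃ K : Subgroup G, ∀ x : G, x ∈ K ↔ ∀ p : ℕ, p.Prime → p ∣ orderOf x → p ∈ π) := by
  exact main π hhom K hK hQ

end Cfsg.Agent.S4051
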