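import Cfsg.Statements.S4050
-- import your own Cfsg.Agent.* helpers here
import Mathlib
import Cfsg.Agent.S4051

set_option autoImplicit false
open Cfsg

namespace Cfsg.Agent.S4050

section
universe u
open Cfsg.Agent.Lib.Helper7 Cfsg.Agent.Lib.Helper2
variable {G : Type u} [Group G]

theorem hhom_sub [Finite G] (π : Set ℕ)
    (hhom : ∀ H : Subgroup G, H ≠ ⊥ → (∀ p : ℕ, p.Prime → p ∣ Nat.card ↥H → p ∉ π) →
        ∀ p : ℕ, p.Prime → p ∣ (Subgroup.centralizer (H : Set G)).relIndex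
          (Subgroup.normalizer (H : Set G)) → p ∉ π)
    (Y : Subgroup G) :
    ∀ H : Subgroup Y, H ≠ ⊥ → (∀ p : ℕ, p.Prime → p ∣ Nat.card ↥H → p ∉ π) →
        ∀ p : ℕ, p.Prime → p ∣ (Subgroup.centralizer (H : Set Y)).relIndex
          (Subgroup.normalizer (H : Set Y)) → p ∉ π := by
  intro H hH hHπ p hp hpd
  obtain ⟨H', hH'⟩ : ∃ H' : Subgroup G, H' = H.map Y.subtype := ⟨_, rfl⟩
  have hH'Y : H' ≤ Y := by rw [hH']; exact Subgroup.map_subtype_le _
  have hsub : H'.subgroupOf Y = H := by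
    rw [hH']
    exact Subgroup.comap_map_eq_self_of_injective Y.subtype_injective H
  have hne : H' ≠ ⊥ := by
    intro h
    apply hH
    rw [← hsub, h]
    ext z
    simp [Subgroup.mem_subgroupOf]
  have hcard : Nat.card H' = Nat.card H := by
    rw [hH']; exact Subgroup.card_map_of_injective Y.subtype_injective
  have h1 := hhom H' hne (by rw [hcard]; exact hHπ) p hp
  apply h1
  refine dvd_trans hpd ?_
  obtain ⟨N, hN⟩ : ∃ N : Subgroup G, N = Subgroup.normalizer (H' : Set G) := ⟨_, rfl⟩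
  obtain ⟨C, hC⟩ : ∃ C : Subgroup G, C = Subgroup.centralizer (H' : Set G) := ⟨_, rfl⟩
  rw [← hN, ← hC]
  have hNY : Subgroup.normalizer (H : Set Y) = N.subgroupOf Y := by
    rw [hN, Subgroup.subgroupOf_normalizer_eq hH'Y, hsub]
  have hCY : Subgroup.centralizer (H : Set Y) = C.subgroupOf Y := by
    ext x
    rw [Subgroup.mem_subgroupOf, hC, Subgroup.mem_centralizer_iff, Subgroup.mem_centralizer_iff]
    constructor
    · intro h y hy
      rw [SetLike.mem_coe, hH'] at hy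
      obtain ⟨z, hz, rfl⟩ := hy
      exact congrArg Subtype.val (h z hz)
    · intro h z hz
      apply Subtype.ext
      exact h z (by rw [SetLike.mem_coe, hH']; exact ⟨z, hz, rfl⟩)
  rw [hNY, hCY]
  have e1 : (C.subgroupOf Y).relIndex (N.subgroupOf Y) = C.relIndex (N ⊓ Y) := by
    rw [← Subgroup.inf_subgroupOf_right N Y, Subgroup.relIndex_subgroupOf inf_le_right]
  rw [e1]
  have hCn : (C.subgroupOf N).Normal := by
    rw [hC, hN]; infer_instance
  have e2 : (C.subgroupOf N).relIndex ((N ⊓ Y).subgroupOf N) = C.relIndex (N ⊓ Y) :=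
    Subgroup.relIndex_subgroupOf inf_le_left
  rw [← e2]
  exact Subgroup.relIndex_dvd_index_of_normal _ _

theorem step [Finite G] (π : Set ℕ) (hπ : ∀ p ∈ π, p.Prime)
    (hhom : ∀ H : Subgroup G, H ≠ ⊥ → (∀ p : ℕ, p.Prime → p ∣ Nat.card ↥H → p ∉ π) →
        ∀ p : ℕ, p.Prime → p ∣ (Subgroup.centralizer (H : Set G)).relIndex
          (Subgroup.normalizer (H : Set G)) → p ∉ π)
    (X Y : Subgroup G) [hXn : X.Normal]
    (hfac : (∀ q : ℕ, q.Prime → q ∣ X.relIndex Y → q ∈ π) ∨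
      (∀ q : ℕ, q.Prime → q ∣ X.relIndex Y → q ∉ π))
    (hX : ∃ O : Subgroup G, ∀ x, x ∈ O ↔ x ∈ X ∧ ∀ p : ℕ, p.Prime → p ∣ orderOf x → p ∈ π) :
    ∃ O : Subgroup G, ∀ x, x ∈ O ↔ x ∈ Y ∧ ∀ p : ℕ, p.Prime → p ∣ orderOf x → p ∈ π := by
  obtain ⟨O, hO⟩ := hX
  have hK : ∃ L : Subgroup ↥(X.subgroupOf Y), ∀ x : ↥(X.subgroupOf Y), x ∈ L ↔
      ∀ p : ℕ, p.Prime → p ∣ orderOf x → p ∈ π := by
    refine ⟨O.comap ((Y.subtype).comp (X.subgroupOf Y).subtype), ?_⟩
    intro x
    rw [Subgroup.mem_comap, hO]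
    have e : orderOf ((Y.subtype.comp (X.subgroupOf Y).subtype) x) = orderOf x := by
      show orderOf (((x : Y) : G)) = orderOf x
      rw [Subgroup.orderOf_coe, Subgroup.orderOf_coe]
    rw [e]
    constructor
    · rintro ⟨-, h⟩; exact h
    · intro h; exact ⟨Subgroup.mem_subgroupOf.mp x.2, h⟩
  have hQ : ∃ L : Subgroup (↥Y ⧸ X.subgroupOf Y), ∀ x : ↥Y ⧸ X.subgroupOf Y, x ∈ L ↔
      ∀ p : ℕ, p.Prime → p ∣ orderOf x → p ∈ π := by
    have hcard : Nat.card (↥Y ⧸ X.subgroupOf Y) = X.relIndex Y := rfl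
    rcases hfac with h | h
    · refine ⟨⊤, fun x => ⟨fun _ p hp hpd => h p hp ?_, fun _ => trivial⟩⟩
      rw [← hcard]
      exact dvd_trans hpd (orderOf_dvd_natCard x)
    · refine ⟨⊥, fun x => ⟨?_, ?_⟩⟩
      · intro hx
        rw [Subgroup.mem_bot] at hx
        rw [hx]
        intro p hp hpd
        rw [orderOf_one] at hpd
        exact absurd (Nat.dvd_one.mp hpd) hp.ne_one
      · intro hx
        rw [Subgroup.mem_bot, ← orderOf_eq_one_iff]
        by_contra hne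
        obtain ⟨p, hp, hpd⟩ := Nat.exists_prime_and_dvd hne
        refine h p hp ?_ (hx p hp hpd)
        rw [← hcard]
        exact dvd_trans hpd (orderOf_dvd_natCard x)
  obtain ⟨T, hT⟩ := Cfsg.Agent.S4051.result (G := Y) π hπ (hhom_sub π hhom Y)
    (X.subgroupOf Y) hK hQ
  refine ⟨T.map Y.subtype, ?_⟩
  intro x
  constructor
  · rintro ⟨y, hy, rfl⟩
    refine ⟨y.2, ?_⟩
    have h1 := (hT y).mp hy
    show ∀ p : ℕ, p.Prime → p ∣ orderOf (y : G) → p ∈ π
    rw [Subgroup.orderOf_coe]; exact h1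
  · rintro ⟨hxY, hx⟩
    refine ⟨⟨x, hxY⟩, (hT _).mpr ?_, rfl⟩
    rw [Subgroup.orderOf_mk]; exact hx

theorem forward [Finite G] (π : Set ℕ) (K : Subgroup G)
    (hK : ∀ x : G, x ∈ K ↔ ∀ p : ℕ, p.Prime → p ∣ orderOf x → p ∈ π) :
    ((∃ (n : ℕ) (H : Fin (n + 1) → Subgroup G), H 0 = ⊥ ∧ H (Fin.last n) = ⊤ ∧ Monotone H ∧
      (∀ i, (H i).Normal) ∧
      ∀ i : Fin n, (∀ q : ℕ, q.Prime → q ∣ (H i.castSucc).relIndex (H i.succ) → q ∈ π) ∨
        (∀ q : ℕ, q.Prime → q ∣ (H i.castSucc).relIndex (H i.succ) → q ∉ π)) ∧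
     (∀ H : Subgroup G, H ≠ ⊥ → (∀ p : ℕ, p.Prime → p ∣ Nat.card ↥H → p ∉ π) →
        ∀ p : ℕ, p.Prime → p ∣ (Subgroup.centralizer (H : Set G)).relIndex
          (Subgroup.normalizer (H : Set G)) → p ∉ π)) := by
  have hKn : K.Normal := ⟨fun x hx g => by
    rw [hK] at hx ⊢
    rw [orderOf_conj']
    exact hx⟩
  have hpow : ∀ (p : ℕ), p.Prime → p ∈ π → ∀ (y : G) (j : ℕ), y ^ p ^ j = 1 → y ∈ K := by
    intro p hp hpπ y j hy
    rw [hK]
    intro r hr hrd
    have h2 := dvd_trans hrd (orderOf_dvd_of_pow_eq_one hy)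
    have h3 := (Nat.prime_dvd_prime_iff_eq hr hp).mp (hr.dvd_of_dvd_pow h2)
    rw [h3]; exact hpπ
  refine ⟨⟨2, ![⊥, K, ⊤], rfl, rfl, ?_, ?_, ?_⟩, ?_⟩
  · apply Fin.monotone_iff_le_succ.mpr
    rw [Fin.forall_fin_two]
    constructor
    · show (⊥ : Subgroup G) ≤ K
      exact bot_le
    · show K ≤ (⊤ : Subgroup G)
      exact le_top
  · intro i
    fin_cases i
    · show (⊥ : Subgroup G).Normal
      infer_instance
    · exact hKn
    · show (⊤ : Subgroup G).Normal
      infer_instance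
  · rw [Fin.forall_fin_two]
    constructor
    · left
      show ∀ q : ℕ, q.Prime → q ∣ (⊥ : Subgroup G).relIndex K → q ∈ π
      intro q hq hqd
      rw [Subgroup.relIndex_bot_left] at hqd
      exact Cfsg.Agent.S4051.card_pi_of_forall π K (fun x hx => (hK x).mp hx) q hq hqd
    · right
      show ∀ q : ℕ, q.Prime → q ∣ K.relIndex (⊤ : Subgroup G) → q ∉ π
      intro q hq hqd hqπ
      rw [Subgroup.relIndex_top_right] at hqd
      have := Fact.mk hq
      obtain ⟨Q⟩ : Nonempty (Sylow q G) := inferInstance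
      have hQK : (Q : Subgroup G) ≤ K := by
        intro y hy
        obtain ⟨j, hj⟩ := Q.2 ⟨y, hy⟩
        exact hpow q hq hqπ y j (congrArg Subtype.val hj)
      exact Q.not_dvd_index (dvd_trans hqd (Subgroup.index_dvd_of_le hQK))
  · intro H hH hHπ p hp hpd hpπ
    have := Fact.mk hp
    obtain ⟨P⟩ : Nonempty (Sylow p (Subgroup.normalizer (H : Set G))) := inferInstance
    have hPC : (P : Subgroup (Subgroup.normalizer (H : Set G))) ≤
        (Subgroup.centralizer (H : Set G)).subgroupOf (Subgroup.normalizer (H : Set G)) := by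
      intro y hy
      rw [Subgroup.mem_subgroupOf, Subgroup.mem_centralizer_iff]
      intro h hh
      obtain ⟨j, hj⟩ := P.2 ⟨y, hy⟩
      have h0 : y ^ p ^ j = 1 := congrArg Subtype.val hj
      have h1 : (y : G) ^ p ^ j = 1 := by
        have h4 := congrArg Subtype.val h0
        simpa using h4
      have hyK : (y : G) ∈ K := hpow p hp hpπ _ j h1
      have hc1 : (y : G) * h * (y : G)⁻¹ * h⁻¹ ∈ H :=
        H.mul_mem ((Subgroup.mem_normalizer_iff.mp y.2 h).mp hh) (H.inv_mem hh)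
      have hc2 : (y : G) * h * (y : G)⁻¹ * h⁻¹ ∈ K := by
        have e : (y : G) * h * (y : G)⁻¹ * h⁻¹ = (y : G) * (h * (y : G)⁻¹ * h⁻¹) := by group
        rw [e]
        exact K.mul_mem hyK (hKn.conj_mem _ (K.inv_mem hyK) h)
      have hc3 : (y : G) * h * (y : G)⁻¹ * h⁻¹ = 1 := by
        rw [← orderOf_eq_one_iff]
        by_contra hne
        obtain ⟨r, hr, hrd⟩ := Nat.exists_prime_and_dvd hne
        exact hHπ r hr (dvd_trans hrd (orderOf_dvd_card_of_mem H _ hc1)) ((hK _).mp hc2 r hr hrd)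
      calc h * (y : G) = ((y : G) * h * (y : G)⁻¹ * h⁻¹)⁻¹ * ((y : G) * h) := by group
        _ = (y : G) * h := by rw [hc3]; simp
    exact P.not_dvd_index (dvd_trans hpd (Subgroup.index_dvd_of_le hPC))

end

/-- Let π be a set of primes and G a finite group. The π-elements of G (elements whose order is divisible only by primes of π) form a subgroup if and only if G is π-separable (it has a chain of normal subgroups from 1 to G with each successive index divisible only by primes in π or only by primes outside π) and N_G(H)/C_G(H) is a π'-group for every nontrivial π'-subgroup H of G. -/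
theorem result {G : Type*} [Group G] [Finite G] (π : Set ℕ)
    (hπ : ∀ p ∈ π, p.Prime) :
    (∃ K : Subgroup G, ∀ x : G, x ∈ K ↔ ∀ p : ℕ, p.Prime → p ∣ orderOf x → p ∈ π) ↔
    ((∃ (n : ℕ) (H : Fin (n + 1) → Subgroup G), H 0 = ⊥ ∧ H (Fin.last n) = ⊤ ∧ Monotone H ∧ (∀ i, (H i).Normal) ∧
      ∀ i : Fin n, (∀ q : ℕ, q.Prime → q ∣ (H i.castSucc).relIndex (H i.succ) → q ∈ π) ∨
        (∀ q : ℕ, q.Prime → q ∣ (H i.castSucc).relIndex (H i.succ) → q ∉ π)) ∧
     (∀ H : Subgroup G, H ≠ ⊥ → (∀ p : ℕ, p.Prime → p ∣ Nat.card ↥H → p ∉ π) →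
        ∀ p : ℕ, p.Prime → p ∣ (Subgroup.centralizer (H : Set G)).relIndex (Subgroup.normalizer (H : Set G)) → p ∉ π)) := by
  constructor
  · rintro ⟨K, hK⟩
    exact forward π K hK
  · rintro ⟨⟨n, H, h0, hlast, hmono, hnorm, hfac⟩, hhom⟩
    have key : ∀ i : ℕ, ∀ hi : i < n + 1, ∃ O : Subgroup G, ∀ x, x ∈ O ↔
        x ∈ H ⟨i, hi⟩ ∧ ∀ p : ℕ, p.Prime → p ∣ orderOf x → p ∈ π := by
      intro i
      induction i with
      | zero =>
        intro hi
        refine ⟨⊥, fun x => ?_⟩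
        have e : H ⟨0, hi⟩ = ⊥ := h0
        rw [e]
        constructor
        · intro hx
          refine ⟨hx, ?_⟩
          rw [Subgroup.mem_bot] at hx
          rw [hx, orderOf_one]
          intro p hp hpd
          exact absurd (Nat.dvd_one.mp hpd) hp.ne_one
        · exact fun h => h.1
      | succ i ih =>
        intro hi
        have hi' : i < n := by omega
        have hi0 : i < n + 1 := by omega
        have hX := ih hi0
        have hn1 := hnorm ⟨i, hi0⟩
        exact step π hπ hhom (H ⟨i, hi0⟩) (H ⟨i + 1, hi⟩) (hfac ⟨i, hi'⟩) hX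
    have hnn : n < n + 1 := by omega
    obtain ⟨O, hO⟩ := key n hnn
    refine ⟨O, fun x => ?_⟩
    rw [hO]
    have e : H ⟨n, hnn⟩ = ⊤ := hlast
    rw [e]
    simp

end Cfsg.Agent.S4050
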