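import Cfsg.Statements.S4056
-- import your own Cfsg.Agent.* helpers here
import Mathlib
import Cfsg.Agent.Lib.Helper2.ClassTwo
import Cfsg.Agent.S0013

set_option autoImplicit false
open Cfsg

namespace Cfsg.Agent.S4056

open scoped commutatorElement

/-- In a finite 2-group of nilpotency class at most 2 and exponent dividing 4, the Frattini subgroup lies in the centre and is elementary abelian. -/
theorem result {P : Type*} [Group P] [Finite P] (hP : IsPGroup 2 P)
    (hcl : Group.nilpotencyClass P ≤ 2) (hexp : Monoid.exponent P ∣ 4) :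
    frattini P ≤ Subgroup.center P ∧ Cfsg.IsElementaryAbelian 2 (frattini P) := by
  haveI : Fact (Nat.Prime 2) := ⟨Nat.prime_two⟩
  haveI := hP.isNilpotent
  have h2 : Subgroup.upperCentralSeries P 2 = ⊤ := Subgroup.upperCentralSeries_eq_top_iff_nilpotencyClass_le.mpr hcl
  have hc : ∀ x y z : P, ⁅x, y⁆ * z = z * ⁅x, y⁆ := by
    intro x y z
    have h3 : x ∈ Subgroup.upperCentralSeries P (1 + 1) := by
      rw [h2]; exact Subgroup.mem_top x
    have h4 := Subgroup.mem_upperCentralSeries_succ_iff.mp h3 y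
    rw [Subgroup.upperCentralSeries_one] at h4
    exact (Subgroup.mem_center_iff.mp h4 z).symm
  have h4 : ∀ x : P, x ^ 4 = 1 := fun x => Monoid.exponent_dvd_iff_forall_pow_eq_one.mp hexp x
  have hc2 : ∀ x y : P, ⁅y, x⁆ ^ 2 = 1 := by
    intro x y
    have hyx : y * x = ⁅y, x⁆ * x * y := by
      rw [commutatorElement_def]; group
    have h5 := Cfsg.Agent.Lib.Helper2.mul_pow_of_central x y ⁅y, x⁆ (hc y x) hyx 4
    rw [h4, h4, h4] at h5
    have h6 : ⁅y, x⁆ ^ 6 = 1 := by
      have h8 : Nat.choose 4 2 = 6 := by decide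
      rw [h8] at h5; simpa using h5.symm
    have h7 : ⁅y, x⁆ ^ 4 = 1 := h4 _
    calc ⁅y, x⁆ ^ 2 = ⁅y, x⁆ ^ 6 * (⁅y, x⁆ ^ 4)⁻¹ := by group
      _ = 1 := by rw [h6, h7]; simp
  have hsq : ∀ x z : P, x ^ 2 * z = z * x ^ 2 := by
    intro x z
    have hxz : x * z = ⁅x, z⁆ * z * x := by
      rw [commutatorElement_def]; group
    have h5 := Cfsg.Agent.Lib.Helper2.pow_mul_of_central z x ⁅x, z⁆ (hc x z) hxz 2
    rw [hc2 z x, one_mul] at h5
    exact h5
  let E : Subgroup P :=
    { carrier := {g | g ∈ Subgroup.center P ∧ g ^ 2 = 1}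
      mul_mem' := by
        rintro a b ⟨ha, ha2⟩ ⟨hb, hb2⟩
        refine ⟨Subgroup.mul_mem _ ha hb, ?_⟩
        have hab : Commute a b := (Subgroup.mem_center_iff.mp ha b).symm
        rw [hab.mul_pow, ha2, hb2, one_mul]
      one_mem' := ⟨Subgroup.one_mem _, one_pow 2⟩
      inv_mem' := by
        rintro a ⟨ha, ha2⟩
        exact ⟨Subgroup.inv_mem _ ha, by rw [inv_pow, ha2, inv_one]⟩ }
  have hEn : E.Normal := by
    constructor
    intro n hn g
    have h5 : g * n * g⁻¹ = n := by
      rw [Subgroup.mem_center_iff.mp hn.1 g]; group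
    rw [h5]; exact hn
  have hle : frattini P ≤ E := by
    refine Cfsg.Agent.S0013.result 2 hP E ?_ ?_
    · rw [commutator_def, Subgroup.commutator_le]
      intro a _ b _
      exact ⟨Subgroup.mem_center_iff.mpr fun z => (hc a b z).symm, hc2 b a⟩
    · intro x
      refine ⟨Subgroup.mem_center_iff.mpr fun z => (hsq x z).symm, ?_⟩
      rw [← pow_mul]; exact h4 x
  refine ⟨fun g hg => (hle hg).1, ⟨⟨fun a b => ?_⟩⟩, fun a ha => (hle ha).2⟩
  apply Subtype.ext
  exact (Subgroup.mem_center_iff.mp (hle a.2).1 b).symm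

end Cfsg.Agent.S4056
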