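import Cfsg.Statements.S4066
-- import your own Cfsg.Agent.* helpers here
import Mathlib
import Cfsg.Agent.Lib.Helper7.Compl

set_option autoImplicit false
open Cfsg

namespace Cfsg.Agent.S4066

section
universe u
open scoped Pointwise
open Cfsg.Agent.Lib.Helper7

theorem isPGroup_closure_of_commute {G : Type u} [Group G] (p : ℕ) (S : Set G)
    (hcomm : ∀ a ∈ S, ∀ b ∈ S, a * b = b * a) (hS : ∀ a ∈ S, ∃ k : ℕ, a ^ (p ^ k) = 1) :
    IsPGroup p ↥(Subgroup.closure S) := by
  have hcc : ∀ a ∈ Subgroup.closure S, ∀ b ∈ Subgroup.closure S, a * b = b * a := by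
    intro a ha b hb
    have h1 : ∀ s ∈ S, Subgroup.closure S ≤ Subgroup.centralizer ({s} : Set G) := by
      intro s hs
      rw [Subgroup.closure_le]
      intro t ht
      rw [SetLike.mem_coe, Subgroup.mem_centralizer_iff]
      intro u hu
      rw [Set.mem_singleton_iff] at hu
      rw [hu]; exact hcomm s hs t ht
    have h2 : Subgroup.closure S ≤ Subgroup.centralizer ({b} : Set G) := by
      rw [Subgroup.closure_le]
      intro s hs
      rw [SetLike.mem_coe, Subgroup.mem_centralizer_iff]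
      intro u hu
      rw [Set.mem_singleton_iff] at hu
      rw [hu]
      have := Subgroup.mem_centralizer_iff.1 (h1 s hs hb) s rfl
      exact this.symm
    have := Subgroup.mem_centralizer_iff.1 (h2 ha) b rfl
    exact this.symm
  have hpow : ∀ a (_ : a ∈ Subgroup.closure S), ∃ k : ℕ, a ^ (p ^ k) = 1 := by
    intro a ha
    induction ha using Subgroup.closure_induction with
    | mem x hx => exact hS x hx
    | one => exact ⟨0, one_pow _⟩
    | mul x y hx hy ihx ihy =>
      obtain ⟨k, hk⟩ := ihx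
      obtain ⟨l, hl⟩ := ihy
      refine ⟨k + l, ?_⟩
      have hc : Commute x y := hcc x hx y hy
      rw [hc.mul_pow, pow_add, pow_mul, hk, one_pow, mul_comm (p ^ k) (p ^ l), pow_mul, hl,
        one_pow, mul_one]
    | inv x hx ih =>
      obtain ⟨k, hk⟩ := ih
      exact ⟨k, by rw [inv_pow, hk, inv_one]⟩
  intro g
  obtain ⟨k, hk⟩ := hpow g.1 g.2
  exact ⟨k, Subtype.ext (by simpa using hk)⟩

theorem main {G : Type u} [Group G] [Finite G]
    (hTI : ∀ x : G, Cfsg.IsTISubset (Subgroup.centralizer ({x} : Set G) : Set G))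
    {p : ℕ} [Fact p.Prime] (P Q : Sylow p G) (hPQ : P ≠ Q) :
    (P : Subgroup G) ⊓ (Q : Subgroup G) = ⊥ := by
  by_contra hne
  rw [Subgroup.eq_bot_iff_forall] at hne
  push Not at hne
  obtain ⟨y, hy, hy1⟩ := hne
  obtain ⟨hyP, hyQ⟩ := Subgroup.mem_inf.1 hy
  have hPnt : Nontrivial (P : Subgroup G) :=
    ⟨⟨⟨y, hyP⟩, 1, fun h => hy1 (congrArg Subtype.val h)⟩⟩
  have hcn := IsPGroup.center_nontrivial P.isPGroup'
  obtain ⟨z', hz'⟩ := exists_ne (1 : Subgroup.center (P : Subgroup G))
  obtain ⟨z, hzdef⟩ : ∃ z : G, z = ((z' : (P : Subgroup G)) : G) := ⟨_, rfl⟩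
  have hzP : z ∈ (P : Subgroup G) := hzdef ▸ (z' : (P : Subgroup G)).2
  have hz1 : z ≠ 1 := fun h => hz' (Subtype.ext (Subtype.ext (hzdef ▸ h)))
  have hzc : ∀ u ∈ (P : Subgroup G), u * z = z * u := by
    intro u hu
    have := Subgroup.mem_center_iff.1 z'.2 ⟨u, hu⟩
    rw [hzdef]
    exact congrArg Subtype.val this
  obtain ⟨g, hg⟩ := MulAction.exists_smul_eq G P Q
  have hQ : (Q : Subgroup G) = MulAut.conj g • (P : Subgroup G) := by
    rw [← hg, Sylow.coe_subgroup_smul]
  have hQmem : ∀ q : G, q ∈ (Q : Subgroup G) ↔ g⁻¹ * q * g ∈ (P : Subgroup G) := by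
    intro q
    rw [hQ, mem_conj_smul_iff]
  have hPC : (P : Subgroup G) ≤ Subgroup.centralizer ({z} : Set G) := by
    intro u hu
    rw [Subgroup.mem_centralizer_iff]
    intro w hw
    rw [Set.mem_singleton_iff] at hw
    rw [hw]
    exact (hzc u hu).symm
  have hgN : g ∈ Subgroup.normalizer ((Subgroup.centralizer ({z} : Set G) : Subgroup G) : Set G) := by
    by_contra hgN
    have h1 := hTI z g hgN (g⁻¹ * y * g) (hPC ((hQmem y).1 hyQ))
      (by
        have : g * (g⁻¹ * y * g) * g⁻¹ = y := by group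
        rw [this]; exact hPC hyP)
    apply hy1
    have : y = g * (g⁻¹ * y * g) * g⁻¹ := by group
    rw [this, h1]; group
  have hQC : (Q : Subgroup G) ≤ Subgroup.centralizer ({z} : Set G) := by
    intro q hq
    have h1 := hPC ((hQmem q).1 hq)
    have h2 := (Subgroup.mem_normalizer_iff.mp hgN _).mp h1
    have : g * (g⁻¹ * q * g) * g⁻¹ = q := by group
    rwa [this] at h2
  -- every element of `P` commutes with its `C(z)`-conjugates
  have hcomm : ∀ x ∈ (P : Subgroup G), ∀ c ∈ Subgroup.centralizer ({z} : Set G),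
      x * (c * x * c⁻¹) = (c * x * c⁻¹) * x := by
    intro x hx c hc
    have hcN : c ∈ Subgroup.normalizer ((Subgroup.centralizer ({x} : Set G) : Subgroup G) : Set G) := by
      by_contra hcN
      have hzx : z ∈ Subgroup.centralizer ({x} : Set G) := by
        rw [Subgroup.mem_centralizer_iff]
        intro w hw
        rw [Set.mem_singleton_iff] at hw
        rw [hw]; exact hzc x hx
      have hczc : c * z * c⁻¹ = z := by
        have := Subgroup.mem_centralizer_iff.1 hc z rfl
        rw [← this, mul_inv_cancel_right]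
      exact hz1 (hTI x c hcN z hzx (by rw [hczc]; exact hzx))
    have hxx : x ∈ Subgroup.centralizer ({x} : Set G) := by
      rw [Subgroup.mem_centralizer_iff]
      intro w hw
      rw [Set.mem_singleton_iff] at hw
      rw [hw]
    have h2 := (Subgroup.mem_normalizer_iff.mp hcN _).mp hxx
    exact Subgroup.mem_centralizer_iff.1 h2 x rfl
  have hPQle : (P : Subgroup G) ≤ (Q : Subgroup G) := by
    intro x hx
    obtain ⟨S, hS⟩ : ∃ S : Set G, S = {w | ∃ c ∈ (Q : Subgroup G), w = c * x * c⁻¹} := ⟨_, rfl⟩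
    have hxS : x ∈ S := by
      rw [hS]; exact ⟨1, one_mem _, by group⟩
    have hSc : ∀ a ∈ S, ∀ b ∈ S, a * b = b * a := by
      intro a ha b hb
      rw [hS] at ha hb
      obtain ⟨c, hc, rfl⟩ := ha
      obtain ⟨d, hd, rfl⟩ := hb
      have h1 := hcomm x hx (c⁻¹ * d) (hQC (mul_mem (inv_mem hc) hd))
      calc c * x * c⁻¹ * (d * x * d⁻¹) = c * (x * (c⁻¹ * d * x * (c⁻¹ * d)⁻¹)) * c⁻¹ := by group
        _ = c * ((c⁻¹ * d * x * (c⁻¹ * d)⁻¹) * x) * c⁻¹ := by rw [h1]
        _ = d * x * d⁻¹ * (c * x * c⁻¹) := by group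
    have hSp : ∀ a ∈ S, ∃ k : ℕ, a ^ (p ^ k) = 1 := by
      intro a ha
      rw [hS] at ha
      obtain ⟨c, _, rfl⟩ := ha
      obtain ⟨k, hk⟩ := P.isPGroup' ⟨x, hx⟩
      refine ⟨k, ?_⟩
      have hk' : x ^ (p ^ k) = 1 := by
        have := congrArg Subtype.val hk
        simpa using this
      rw [conj_pow, hk', mul_one, mul_inv_cancel]
    have hA := isPGroup_closure_of_commute p S hSc hSp
    have hQN : (Q : Subgroup G) ≤ Subgroup.normalizer ((Subgroup.closure S : Subgroup G) : Set G) := by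
      rw [Subgroup.le_normalizer_closure_iff]
      intro q hq s hs
      apply Subgroup.subset_closure
      rw [hS] at hs ⊢
      obtain ⟨c, hc, rfl⟩ := hs
      exact ⟨q * c, mul_mem hq hc, by group⟩
    have hsup := IsPGroup.to_sup_of_normal_right' Q.isPGroup' hA hQN
    have heq := Q.is_maximal' hsup le_sup_left
    have : Subgroup.closure S ≤ (Q : Subgroup G) := by
      rw [← heq]; exact le_sup_right
    exact this (Subgroup.subset_closure hxS)
  have hEq := P.is_maximal' Q.isPGroup' hPQle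
  exact hPQ (Sylow.ext hEq.symm)

end

/-- Let G be a finite group in which the centralizer of every element meets each of its conjugates by elements outside its normalizer trivially. Then any two distinct Sylow p-subgroups of G, for any prime p, intersect trivially. -/
theorem result {G : Type*} [Group G] [Finite G] (hTI : ∀ x : G, Cfsg.IsTISubset (Subgroup.centralizer ({x} : Set G) : Set G))
    {p : ℕ} [Fact p.Prime] (P Q : Sylow p G) (hPQ : P ≠ Q) : (P : Subgroup G) ⊓ (Q : Subgroup G) = ⊥ := by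
  exact main hTI P Q hPQ

end Cfsg.Agent.S4066
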