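import Cfsg.Statements.S4072
-- import your own Cfsg.Agent.* helpers here
import Mathlib
import Cfsg.Agent.Lib.Helper2.Frobenius
import Cfsg.Agent.Lib.Helper7.Coprime
import Cfsg.Agent.Lib.Helper7.Coprime2

set_option autoImplicit false
open Cfsg

namespace Cfsg.Agent.S4072

section
open Cfsg.Agent.Lib.Helper7
open scoped IsMulCommutative
open scoped commutatorElement

theorem pow_card_eq_one_of_mem_commutator {G : Type*} [Group G] [Finite G] (Q A : Subgroup G)
    (hQab : IsMulCommutative Q)
    (hA : A ≤ Subgroup.normalizer (Q : Set G)) (z : G) (hz : z ∈ ⁅Q, A⁆)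
    (hzc : ∀ a ∈ A, a * z = z * a) : z ^ Nat.card A = 1 := by
  classical
  haveI := hQab
  letI := Fintype.ofFinite A
  obtain ⟨c, hc⟩ : ∃ c : A → Q → Q, ∀ a u, ((c a u : Q) : G) = (a : G) * u * (a : G)⁻¹ :=
    ⟨fun a u => ⟨(a : G) * u * (a : G)⁻¹, ((Subgroup.mem_normalizer_iff.mp (hA a.2)) u).mp u.2⟩,
      fun a u => rfl⟩
  have hcmul : ∀ a u v, c a (u * v) = c a u * c a v := by
    intro a u v
    apply Subtype.ext
    rw [Subgroup.coe_mul, hc, hc, hc, Subgroup.coe_mul]
    group
  have hcc : ∀ a b u, c a (c b u) = c (a * b) u := by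
    intro a b u
    apply Subtype.ext
    rw [hc, hc, hc, Subgroup.coe_mul]
    group
  let θ : Q →* Q := MonoidHom.mk' (fun u => ∏ a : A, c a u) (by
    intro u v
    show ∏ a : A, c a (u * v) = (∏ a : A, c a u) * ∏ a : A, c a v
    rw [← Finset.prod_mul_distrib]
    exact Finset.prod_congr rfl (fun a _ => hcmul a u v))
  have hθ : ∀ u, θ u = ∏ a : A, c a u := fun u => rfl
  have hθc : ∀ b u, θ (c b u) = θ u := by
    intro b u
    rw [hθ, hθ]
    have h1 : ∀ a : A, c a (c b u) = c (Equiv.mulRight b a) u := fun a => hcc a b u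
    rw [Finset.prod_congr rfl (fun a _ => h1 a)]
    exact Equiv.prod_comp (Equiv.mulRight b) (fun a => c a u)
  have hle : ⁅Q, A⁆ ≤ θ.ker.map Q.subtype := by
    rw [Subgroup.commutator_le]
    intro q hq a ha
    refine ⟨(⟨q, hq⟩ : Q) * (c ⟨a, ha⟩ ⟨q, hq⟩)⁻¹, ?_, ?_⟩
    · show θ _ = 1
      rw [map_mul, map_inv, hθc, mul_inv_cancel]
    · show (((⟨q, hq⟩ : Q) * (c ⟨a, ha⟩ ⟨q, hq⟩)⁻¹ : Q) : G) = ⁅q, a⁆
      rw [Subgroup.coe_mul, Subgroup.coe_inv, hc, commutatorElement_def]
      group
  obtain ⟨w, hw, hwz⟩ := hle hz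
  have hw1 : θ w = 1 := hw
  have hcw : ∀ a : A, c a w = w := by
    intro a
    apply Subtype.ext
    rw [hc]
    have : (w : G) = z := hwz
    rw [this, hzc a a.2]
    group
  rw [hθ, Finset.prod_congr rfl (fun a _ => hcw a), Finset.prod_const, Finset.card_univ,
    ← Nat.card_eq_fintype_card] at hw1
  have h2 : ((w ^ Nat.card A : Q) : G) = 1 := by rw [hw1]; rfl
  rw [Subgroup.coe_pow] at h2
  have : (w : G) = z := hwz
  rw [← this]
  exact h2

theorem solvable_of_center_ne_bot {G : Type*} [Group G] [Finite G]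
    (hS : ∀ H : Subgroup G, ¬ IsMulCommutative H → Subgroup.normalizer (H : Set G) = H)
    (hZ : Subgroup.center G ≠ ⊥) : Group.IsSolvable G := by
  classical
  have hcard : Nat.card (Subgroup.center G) ≠ 1 := fun h => hZ (Subgroup.card_eq_one.mp h)
  obtain ⟨p, hp, hpdvd⟩ := Nat.exists_prime_and_dvd hcard
  haveI := Fact.mk hp
  obtain ⟨z', hz'⟩ := exists_prime_orderOf_dvd_card' p hpdvd
  obtain ⟨z, hzdef⟩ : ∃ z : G, z = (z' : G) := ⟨_, rfl⟩
  have hzc : z ∈ Subgroup.center G := hzdef ▸ z'.2
  have hzo : orderOf z = p := by rw [hzdef, Subgroup.orderOf_coe]; exact hz'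
  have hzcomm : ∀ g : G, g * z = z * g := fun g => Subgroup.mem_center_iff.mp hzc g
  have hzp : z ^ p = 1 := by rw [← hzo]; exact pow_orderOf_eq_one z
  have hcon : ∀ H : Subgroup G, ¬ IsMulCommutative H → z ∈ H := by
    intro H hH
    have h1 := hS H hH
    have hzN : z ∈ Subgroup.normalizer (H : Set G) := Subgroup.center_le_normalizer _ hzc
    rw [h1] at hzN
    exact hzN
  have hF : Cfsg.Agent.Lib.Helper2.FrobCond p G := by
    intro Q hQ g hgN hgcop
    by_cases hQab : IsMulCommutative Q
    · by_contra hgC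
      obtain ⟨A, hAdef⟩ : ∃ A : Subgroup G, A = Subgroup.zpowers g := ⟨_, rfl⟩
      have hA : A ≤ Subgroup.normalizer (Q : Set G) := by
        rw [hAdef, Subgroup.zpowers_le]; exact hgN
      have hAcard : Nat.card A = orderOf g := by rw [hAdef, Nat.card_zpowers]
      have hcop : (Nat.card A).Coprime (Nat.card Q) := by
        rw [hAcard]
        obtain ⟨k, hk⟩ := (IsPGroup.iff_card.mp hQ)
        rw [hk]; exact Nat.Coprime.pow_right k hgcop
      have hAsolv : Group.IsSolvable A := by
        apply Group.isSolvable_of_comm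
        intro a b
        apply Subtype.ext
        have ha : (a : G) ∈ Subgroup.zpowers g := hAdef ▸ a.2
        have hb : (b : G) ∈ Subgroup.zpowers g := hAdef ▸ b.2
        obtain ⟨k, hk⟩ := Subgroup.mem_zpowers_iff.mp ha
        obtain ⟨l, hl⟩ := Subgroup.mem_zpowers_iff.mp hb
        rw [Subgroup.coe_mul, Subgroup.coe_mul, ← hk, ← hl]
        exact Commute.zpow_zpow_self g k l
      have hsolv : Group.IsSolvable A ∨ Group.IsSolvable Q := Or.inl hAsolv
      obtain ⟨U, hUdef⟩ : ∃ U : Subgroup G, U = ⁅Q, A⁆ := ⟨_, rfl⟩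
      have hUQ : U ≤ Q := hUdef ▸ commutator_le_of_le_normalizer hA
      have hAU : A ≤ Subgroup.normalizer (U : Set G) := hUdef ▸ le_normalizer_commutator_right Q A
      have hUU : ⁅U, A⁆ = U := by rw [hUdef]; exact commutator_commutator_eq A Q hA hcop hsolv
      have hU1 : U ≠ ⊥ := by
        intro h
        apply hgC
        rw [hUdef, Subgroup.commutator_comm, Subgroup.commutator_eq_bot_iff_le_centralizer] at h
        exact h (hAdef ▸ Subgroup.mem_zpowers g)
      have hH1 : ¬ IsMulCommutative (U ⊔ A : Subgroup G) := by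
        intro hc
        apply hU1
        rw [← hUU, Subgroup.commutator_eq_bot_iff_le_centralizer]
        intro u hu
        rw [Subgroup.mem_centralizer_iff]
        intro a ha
        exact Subgroup.mul_comm_of_mem_isMulCommutative (H := U ⊔ A) (le_sup_right (a := U) ha)
          (le_sup_left (b := A) hu)
      have hzH := hcon _ hH1
      obtain ⟨u, hu, a, ha, hzua⟩ := exists_mul_of_mem_sup hAU hzH
      have ha1 : a = 1 := by
        obtain ⟨k, hk⟩ := hQ ⟨u, hUQ hu⟩
        have huk : u ^ p ^ k = 1 := by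
          have := congrArg Subtype.val hk
          simpa using this
        have hauz : a = u⁻¹ * z := by rw [hzua]; group
        have hcomm : Commute u⁻¹ z := hzcomm u⁻¹
        have hapk : a ^ p ^ (k + 1) = 1 := by
          rw [hauz, hcomm.mul_pow, inv_pow, pow_succ, pow_mul, huk, one_pow, inv_one, one_mul,
            mul_comm, pow_mul, hzp, one_pow]
        have h1 : orderOf a ∣ p ^ (k + 1) := orderOf_dvd_of_pow_eq_one hapk
        have h2 : orderOf a ∣ orderOf g := orderOf_dvd_of_mem_zpowers (hAdef ▸ ha)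
        have h3 : orderOf a = 1 :=
          Nat.eq_one_of_dvd_coprimes (Nat.Coprime.pow_right (k + 1) hgcop) h2 h1
        exact orderOf_eq_one_iff.mp h3
      have hzU : z ∈ ⁅Q, A⁆ := by rw [← hUdef, hzua, ha1, mul_one]; exact hu
      have hzA := pow_card_eq_one_of_mem_commutator Q A hQab hA z hzU (fun a _ => hzcomm a)
      rw [hAcard] at hzA
      have h4 : p ∣ orderOf g := hzo ▸ orderOf_dvd_of_pow_eq_one hzA
      have h5 : p ∣ 1 := by
        have := Nat.dvd_gcd h4 (dvd_refl p)
        rwa [Nat.Coprime.gcd_eq_one hgcop] at this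
      exact hp.one_lt.ne' (Nat.dvd_one.mp h5)
    · rw [hS Q hQab] at hgN
      obtain ⟨k, hk⟩ := hQ ⟨g, hgN⟩
      have hgk : g ^ p ^ k = 1 := by
        have := congrArg Subtype.val hk
        simpa using this
      have h1 : orderOf g ∣ p ^ k := orderOf_dvd_of_pow_eq_one hgk
      have h3 : orderOf g = 1 :=
        Nat.eq_one_of_dvd_coprimes (Nat.Coprime.pow_right k hgcop) (dvd_refl _) h1
      rw [orderOf_eq_one_iff.mp h3]
      exact Subgroup.one_mem _
  obtain ⟨P, K, hKn, hKP⟩ := Cfsg.Agent.Lib.Helper2.frobenius hF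
  have hKtop : K ≠ ⊤ := by
    intro h
    rw [h] at hKP
    have hPbot : (P : Subgroup G) = ⊥ := Subgroup.isComplement'_top_left.mp hKP
    have hpG : p ∣ Nat.card G := hzo ▸ orderOf_dvd_natCard z
    exact (P.ne_bot_of_dvd_card hpG) hPbot
  have hKab : IsMulCommutative K := by
    by_contra h
    have h1 := hS K h
    rw [Subgroup.normalizer_eq_top] at h1
    exact hKtop h1.symm
  haveI := hKn
  have hq : IsPGroup p (G ⧸ K) := by
    apply IsPGroup.of_card (n := (Nat.card G).factorization p)
    show K.index = _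
    rw [hKP.symm.index_eq_card, Sylow.card_eq_multiplicity]
  haveI : Group.IsSolvable (G ⧸ K) := by
    haveI := hq.isNilpotent
    infer_instance
  haveI : Group.IsSolvable K :=
    Group.isSolvable_of_comm (fun a b => mul_comm' a b)
  exact Group.isSolvable_of_ker_le_range K.subtype (QuotientGroup.mk' K) (by simp)

theorem solvable_of_self_centralizing {G : Type*} [Group G] [Finite G]
    (hS : ∀ H : Subgroup G, ¬ IsMulCommutative H → Subgroup.normalizer (H : Set G) = H)
    (M : Subgroup G) [hMn : M.Normal] (hM : M ≠ ⊤)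
    (hC : Subgroup.centralizer (M : Set G) = M) : Group.IsSolvable G := by
  classical
  have hidx : M.index ≠ 1 := fun h => hM (Subgroup.index_eq_one.mp h)
  obtain ⟨p, hp, hpdvd⟩ := Nat.exists_prime_and_dvd hidx
  haveI := Fact.mk hp
  obtain ⟨π, hπdef⟩ : ∃ π : G →* G ⧸ M, π = QuotientGroup.mk' M := ⟨_, rfl⟩
  have hπ : Function.Surjective π := hπdef ▸ QuotientGroup.mk'_surjective M
  have hπ1 : ∀ g : G, π g = 1 ↔ g ∈ M := by
    intro g; rw [hπdef]; exact QuotientGroup.eq_one_iff g
  have key : ∀ x : G ⧸ M, x ≠ 1 →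
      Subgroup.normalizer ((Subgroup.zpowers x : Subgroup (G ⧸ M)) : Set (G ⧸ M)) =
        Subgroup.zpowers x := by
    intro x hx
    obtain ⟨g, rfl⟩ := hπ x
    have hgM : g ∉ M := fun h => hx ((hπ1 g).mpr h)
    have hna : ¬ IsMulCommutative ((Subgroup.zpowers (π g)).comap π : Subgroup G) := by
      intro hc
      apply hgM
      rw [← hC, Subgroup.mem_centralizer_iff]
      intro m hm
      have h1 : m ∈ (Subgroup.zpowers (π g)).comap π := by
        rw [Subgroup.mem_comap, (hπ1 m).mpr hm]
        exact Subgroup.one_mem _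
      have h2 : g ∈ (Subgroup.zpowers (π g)).comap π := Subgroup.mem_zpowers _
      exact Subgroup.mul_comm_of_mem_isMulCommutative (H := (Subgroup.zpowers (π g)).comap π) h1 h2
    have h3 := hS _ hna
    rw [Subgroup.coe_comap] at h3
    have h4 := Subgroup.comap_normalizer_eq_of_surjective (Subgroup.zpowers (π g)) hπ
    rw [Subgroup.coe_comap] at h4
    rw [← h4] at h3
    exact Subgroup.comap_injective hπ h3
  let P : Sylow p (G ⧸ M) := default
  have hPne : (P : Subgroup (G ⧸ M)) ≠ ⊥ := P.ne_bot_of_dvd_card hpdvd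
  haveI : Nontrivial P := (Subgroup.nontrivial_iff_ne_bot _).mpr hPne
  haveI := (P.2 : IsPGroup p P).center_nontrivial
  obtain ⟨⟨z, hz⟩, hz1⟩ := exists_ne (1 : Subgroup.center P)
  have hzG : (z : G ⧸ M) ≠ 1 := by
    intro h
    apply hz1
    apply Subtype.ext
    apply Subtype.ext
    exact h
  have hPle : (P : Subgroup (G ⧸ M)) ≤ Subgroup.zpowers (z : G ⧸ M) := by
    rw [← key _ hzG]
    intro x hx
    have hcomm : (z : G ⧸ M) * x = x * z := by
      have := Subgroup.mem_center_iff.mp hz ⟨x, hx⟩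
      exact (congrArg Subtype.val this).symm
    apply Subgroup.centralizer_le_normalizer
    rw [Subgroup.mem_centralizer_iff]
    intro h hh
    obtain ⟨k, rfl⟩ := Subgroup.mem_zpowers_iff.mp hh
    exact Commute.zpow_left hcomm k
  have hPeq : (P : Subgroup (G ⧸ M)) = Subgroup.zpowers (z : G ⧸ M) :=
    le_antisymm hPle (by rw [Subgroup.zpowers_le]; exact z.2)
  have hPN : Subgroup.normalizer ((P : Subgroup (G ⧸ M)) : Set (G ⧸ M)) ≤
      Subgroup.centralizer ((P : Subgroup (G ⧸ M)) : Set (G ⧸ M)) := by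
    rw [hPeq, key _ hzG]
    intro x hx
    rw [Subgroup.mem_centralizer_iff]
    intro h hh
    obtain ⟨k, rfl⟩ := Subgroup.mem_zpowers_iff.mp hx
    obtain ⟨l, rfl⟩ := Subgroup.mem_zpowers_iff.mp hh
    exact Commute.zpow_zpow_self _ l k
  have hcompl := MonoidHom.ker_transferSylow_isComplement' P hPN
  obtain ⟨f, hfdef⟩ : ∃ f : G →* P, f = (MonoidHom.transferSylow P hPN).comp π := ⟨_, rfl⟩
  have hKtop : f.ker ≠ ⊤ := by
    intro h
    have h1 : (MonoidHom.transferSylow P hPN).ker = ⊤ := by
      apply Subgroup.comap_injective hπ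
      rw [Subgroup.comap_top, MonoidHom.comap_ker, ← hfdef]
      exact h
    rw [h1] at hcompl
    exact hPne (Subgroup.isComplement'_top_left.mp hcompl)
  have hKab : IsMulCommutative f.ker := by
    by_contra h
    have h1 := hS f.ker h
    rw [Subgroup.normalizer_eq_top] at h1
    exact hKtop h1.symm
  haveI : Group.IsSolvable f.ker :=
    Group.isSolvable_of_comm (fun a b => mul_comm' a b)
  haveI : Group.IsSolvable P := by
    haveI := (P.2 : IsPGroup p P).isNilpotent
    infer_instance
  exact Group.isSolvable_of_ker_le_range f.ker.subtype f (by simp)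

end

/-- A finite group in which every non-abelian subgroup is self-normalizing is solvable or simple. -/
theorem result {G : Type*} [Group G] [Finite G] (hS : ∀ H : Subgroup G, ¬ IsMulCommutative H → Subgroup.normalizer (H : Set G) = H) :
    Group.IsSolvable G ∨ IsSimpleGroup G := by
  classical
  by_contra hcon
  rw [not_or] at hcon
  obtain ⟨hns, hnsimp⟩ := hcon
  haveI : Nontrivial G := by
    by_contra h
    rw [not_nontrivial_iff_subsingleton] at h
    exact hns inferInstance
  have hex : ∃ N : Subgroup G, N.Normal ∧ N ≠ ⊥ ∧ N ≠ ⊤ := by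
    by_contra h
    apply hnsimp
    refine ⟨fun N hN => ?_⟩
    by_contra h2
    rw [not_or] at h2
    exact h ⟨N, hN, h2.1, h2.2⟩
  obtain ⟨N, hNn, hNbot, hNtop⟩ := hex
  have hab : ∀ K : Subgroup G, K.Normal → K ≠ ⊤ → IsMulCommutative K := by
    intro K hKn hKtop
    by_contra h
    have h1 := hS K h
    rw [Subgroup.normalizer_eq_top] at h1
    exact hKtop h1.symm
  have hNab := hab N hNn hNtop
  by_cases hZ : Subgroup.center G = ⊥
  · haveI := hNn
    have hCn : (Subgroup.centralizer (N : Set G)).Normal := inferInstance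
    have hCtop : Subgroup.centralizer (N : Set G) ≠ ⊤ := by
      intro h
      apply hNbot
      rw [eq_bot_iff, ← hZ]
      intro n hn
      rw [Subgroup.mem_center_iff]
      intro g
      have hg : g ∈ Subgroup.centralizer (N : Set G) := by rw [h]; trivial
      exact (Subgroup.mem_centralizer_iff.mp hg n hn).symm
    have hCab := hab _ hCn hCtop
    apply hns
    apply solvable_of_self_centralizing hS (Subgroup.centralizer (N : Set G)) hCtop
    apply le_antisymm
    · apply Subgroup.centralizer_le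
      intro n hn
      rw [SetLike.mem_coe, Subgroup.mem_centralizer_iff]
      intro m hm
      exact Subgroup.mul_comm_of_mem_isMulCommutative (H := N) hm hn
    · intro x hx
      rw [Subgroup.mem_centralizer_iff]
      intro y hy
      exact Subgroup.mul_comm_of_mem_isMulCommutative
        (H := Subgroup.centralizer (N : Set G)) hy hx
  · exact hns (solvable_of_center_ne_bot hS hZ)

end Cfsg.Agent.S4072
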