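import Cfsg.Statements.S4074
-- import your own Cfsg.Agent.* helpers here
import Mathlib

set_option autoImplicit false
open Cfsg

namespace Cfsg.Agent.S4074

section
open DihedralGroup
variable {n : ℕ}

lemma selfnorm_of_odd (hn : Odd n) (H : Subgroup (DihedralGroup n)) (i : ZMod n) (hi : sr i ∈ H) :
    Subgroup.normalizer (H : Set (DihedralGroup n)) = H := by
  apply le_antisymm _ Subgroup.le_normalizer
  have hrot : ∀ k : ZMod n, r k ∈ Subgroup.normalizer (H : Set (DihedralGroup n)) → r k ∈ H := by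
    intro k hk
    have h1 : r k * sr i * (r k)⁻¹ ∈ H := (Subgroup.mem_normalizer_iff.mp hk _).mp hi
    rw [r_mul_sr, inv_r, sr_mul_r] at h1
    have h2 : sr (i - k + -k) * sr i ∈ H := H.mul_mem h1 hi
    rw [sr_mul_sr] at h2
    have h3 : r (k + k) ∈ H := by
      have h5 : i - (i - k + -k) = k + k := by ring
      rwa [h5] at h2
    obtain ⟨m, hm⟩ := hn
    have h4 : r k = (r (k + k)) ^ (m + 1) := by
      rw [r_pow]
      congr 1
      have hn0 : ((2 * m + 1 : ℕ) : ZMod n) = 0 := by
        rw [← hm]; exact ZMod.natCast_self n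
      push_cast at hn0 ⊢
      linear_combination (-k) * hn0
    rw [h4]; exact H.pow_mem h3 _
  intro g hg
  cases g with
  | r k => exact hrot k hg
  | sr k =>
    have h1 : sr k * sr i ∈ Subgroup.normalizer (H : Set (DihedralGroup n)) :=
      Subgroup.mul_mem _ hg (Subgroup.le_normalizer hi)
    rw [sr_mul_sr] at h1
    have h2 := hrot _ h1
    have h3 : sr k = r (i - k) * sr i := by
      rw [r_mul_sr]; congr 1; ring
    rw [h3]; exact H.mul_mem h2 hi

lemma exists_sr_of_noncomm (H : Subgroup (DihedralGroup n)) (hH : ¬ IsMulCommutative H) :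
    ∃ i, sr i ∈ H := by
  by_contra hcon
  push Not at hcon
  apply hH
  refine ⟨⟨fun a b => ?_⟩⟩
  apply Subtype.ext
  obtain ⟨a, ha⟩ := a
  obtain ⟨b, hb⟩ := b
  cases a with
  | r i =>
    cases b with
    | r j =>
      show r i * r j = r j * r i
      rw [r_mul_r, r_mul_r, add_comm]
    | sr j => exact absurd hb (hcon j)
  | sr i => exact absurd ha (hcon i)

lemma eq_top_of_noncomm_four (H : Subgroup (DihedralGroup 4)) (hH : ¬ IsMulCommutative H) :
    H = ⊤ := by
  have hcard : Nat.card (DihedralGroup 4) = 8 := by rw [DihedralGroup.nat_card]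
  have hdvd : Nat.card H ∣ 8 := hcard ▸ Subgroup.card_subgroup_dvd_card H
  by_contra hne
  apply hH
  have hne8 : Nat.card H ≠ 8 := by
    intro h
    exact hne ((Subgroup.card_eq_iff_eq_top H).mp (by rw [h, hcard]))
  have hc : Nat.card H = 1 ∨ Nat.card H = 2 ∨ Nat.card H = 4 := by
    obtain ⟨c, hc⟩ : ∃ c, c = Nat.card H := ⟨_, rfl⟩
    rw [← hc] at hdvd hne8 ⊢
    have hc8 : c ≤ 8 := Nat.le_of_dvd (by norm_num) hdvd
    interval_cases c <;> omega
  haveI : Fact (Nat.Prime 2) := ⟨Nat.prime_two⟩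
  rcases hc with h | h | h
  · haveI : Subsingleton H := (Nat.card_eq_one_iff_unique.mp h).1
    exact ⟨⟨fun a b => Subsingleton.elim _ _⟩⟩
  · haveI : IsCyclic H := isCyclic_of_prime_card h
    exact IsCyclic.commutative
  · exact ⟨⟨IsPGroup.commutative_of_card_eq_prime_sq (p := 2) (G := H) h⟩⟩

lemma counter (hn : 2 < n) (h4 : n ≠ 4) (he : Even n) :
    ∃ H : Subgroup (DihedralGroup n), ¬ IsMulCommutative H ∧
      Subgroup.normalizer (H : Set (DihedralGroup n)) ≠ H := by
  have h2 : 2 ∣ n := even_iff_two_dvd.mp he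
  let φ : ZMod n →+* ZMod 2 := ZMod.castHom h2 (ZMod 2)
  let idx : DihedralGroup n → ZMod n := fun g => match g with | r i => i | sr i => i
  let H : Subgroup (DihedralGroup n) :=
    { carrier := {g | φ (idx g) = 0}
      mul_mem' := by
        intro a b ha hb
        cases a <;> cases b <;> simp [idx] at ha hb ⊢ <;> simp [ha, hb]
      one_mem' := by
        show φ (idx (r 0)) = 0
        exact map_zero φ
      inv_mem' := by
        intro a ha
        cases a <;> simp [idx] at ha ⊢ <;> simp [ha] }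
  have hmem_r : ∀ i, r i ∈ H ↔ φ i = 0 := fun i => Iff.rfl
  have hmem_sr : ∀ i, sr i ∈ H ↔ φ i = 0 := fun i => Iff.rfl
  have hφ2 : φ 2 = 0 := by
    rw [map_ofNat]; decide
  refine ⟨H, ?_, ?_⟩
  · intro hc
    have h1 : r (2 : ZMod n) ∈ H := (hmem_r 2).mpr hφ2
    have h2' : sr (0 : ZMod n) ∈ H := (hmem_sr 0).mpr (map_zero φ)
    have h3 : r (2 : ZMod n) * sr 0 = sr 0 * r 2 :=
      Subgroup.mul_comm_of_mem_isMulCommutative (H := H) h1 h2'
    rw [r_mul_sr, sr_mul_r] at h3
    have h5 : (0 : ZMod n) - 2 = 0 + 2 := by injection h3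
    have h6 : ((4 : ℕ) : ZMod n) = 0 := by
      push_cast; linear_combination (-1 : ZMod n) * h5
    rw [ZMod.natCast_eq_zero_iff] at h6
    have h7 := Nat.le_of_dvd (by norm_num) h6
    obtain ⟨m, hm⟩ := he
    omega
  · intro heq
    have h1 : r (1 : ZMod n) ∈ Subgroup.normalizer (H : Set (DihedralGroup n)) := by
      rw [Subgroup.mem_normalizer_iff]
      intro g
      cases g with
      | r i =>
        rw [r_mul_r, inv_r, r_mul_r, hmem_r, hmem_r]
        simp
      | sr i =>
        rw [r_mul_sr, inv_r, sr_mul_r, hmem_sr, hmem_sr]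
        have h8 : φ (i - 1 + -1) = φ i := by
          have h9 : i - 1 + -1 = i - 2 := by ring
          rw [h9, map_sub, hφ2, sub_zero]
        rw [h8]
    rw [heq] at h1
    have h2' : φ 1 = 0 := (hmem_r 1).mp h1
    rw [map_one] at h2'
    exact absurd h2' (by decide)

end

/-- For n > 2, every non-abelian subgroup of the dihedral group of order 2n is self-normalizing if and only if n = 4 or n is odd. -/
theorem result (n : ℕ) (hn : 2 < n) :
    (∀ H : Subgroup (DihedralGroup n), ¬ IsMulCommutative H → Subgroup.normalizer (H : Set (DihedralGroup n)) = H) ↔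
    (n = 4 ∨ Odd n) := by
  constructor
  · intro h
    by_contra hcon
    push Not at hcon
    obtain ⟨h4, hodd⟩ := hcon
    rw [Nat.not_odd_iff_even] at hodd
    obtain ⟨H, hH, hne⟩ := counter hn h4 hodd
    exact hne (h H hH)
  · rintro (rfl | hodd) H hH
    · rw [eq_top_of_noncomm_four H hH]
      exact eq_top_iff.mpr Subgroup.le_normalizer
    · obtain ⟨i, hi⟩ := exists_sr_of_noncomm H hH
      exact selfnorm_of_odd hodd H i hi

end Cfsg.Agent.S4074
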