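import Cfsg.Statements.S4075
-- import your own Cfsg.Agent.* helpers here
import Mathlib

set_option autoImplicit false
open Cfsg

namespace Cfsg.Agent.S4075

section
universe u
variable {G : Type u} [Group G] [Finite G]

theorem comm_of_sylow_comm [Group.IsNilpotent G]
    (h : ∀ (p : ℕ) [Fact p.Prime] (P : Sylow p G), IsMulCommutative (P : Subgroup G)) :
    IsMulCommutative G := by
  obtain ⟨e⟩ := ((Group.isNilpotent_of_finite_tfae (G := G)).out 0 4 rfl rfl).mp inferInstance
  refine ⟨⟨fun x y => ?_⟩⟩
  have hx : ∀ a b : (∀ p : (Nat.card G).primeFactors, ∀ P : Sylow p G, (↑P : Subgroup G)),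
      a * b = b * a := by
    intro a b
    funext p P
    have : Fact (p : ℕ).Prime := ⟨Nat.prime_of_mem_primeFactors p.2⟩
    have hc := h p P
    show a p P * b p P = b p P * a p P
    exact mul_comm' (a p P) (b p P)
  have h1 := hx (e.symm x) (e.symm y)
  have h2 := congrArg e h1
  simpa using h2

theorem main [Group.IsNilpotent G] :
    (∀ H : Subgroup G, ¬ IsMulCommutative H → Subgroup.normalizer (H : Set G) = H) ↔
    (IsMulCommutative G ∨ (IsPrimePow (Nat.card G) ∧ ¬ IsMulCommutative G ∧
      ∀ H : Subgroup G, H ≠ ⊤ → IsMulCommutative H)) := by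
  constructor
  · intro h
    by_cases hG : IsMulCommutative G
    · left; exact hG
    · right
      have hc : ∀ H : Subgroup G, H ≠ ⊤ → IsMulCommutative H := by
        intro H hH
        by_contra hHc
        have h1 := h H hHc
        have h2 := Group.normalizerCondition_of_isNilpotent (G := G) H (lt_top_iff_ne_top.2 hH)
        rw [h1] at h2
        exact lt_irrefl _ h2
      refine ⟨?_, hG, hc⟩
      by_contra hpp
      apply hG
      apply comm_of_sylow_comm
      intro p _ P
      apply hc
      intro hP
      have hcard : Nat.card (P : Subgroup G) = Nat.card G := by rw [hP, Subgroup.card_top]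
      obtain ⟨n, hn⟩ := P.isPGroup'.exists_card_eq
      rw [hcard] at hn
      rcases Nat.eq_zero_or_pos n with rfl | hnpos
      · apply hG
        rw [pow_zero] at hn
        have : Subsingleton G := (Nat.card_eq_one_iff_unique.1 hn).1
        exact ⟨⟨fun a b => Subsingleton.elim _ _⟩⟩
      · apply hpp
        rw [isPrimePow_nat_iff]
        exact ⟨p, n, Fact.out, hnpos, hn.symm⟩
  · rintro (hG | ⟨_, hG, hc⟩) H hH
    · exfalso; apply hH
      exact ⟨⟨fun a b => Subtype.ext (mul_comm' (a : G) (b : G))⟩⟩
    · have : H = ⊤ := by
        by_contra hne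
        exact hH (hc H hne)
      rw [this]
      exact Subgroup.normalizer_eq_top_iff.2 inferInstance

end

/-- Let G be a finite nilpotent group. Every non-abelian subgroup of G is self-normalizing if and only if G is abelian or G is a minimal non-abelian p-group for some prime p (non-abelian of prime-power order with every proper subgroup abelian). -/
theorem result {G : Type*} [Group G] [Finite G]
    [Group.IsNilpotent G] :
    (∀ H : Subgroup G, ¬ IsMulCommutative H → Subgroup.normalizer (H : Set G) = H) ↔
    (IsMulCommutative G ∨ (IsPrimePow (Nat.card G) ∧ ¬ IsMulCommutative G ∧ ∀ H : Subgroup G, H ≠ ⊤ → IsMulCommutative H)) := by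
  exact main

end Cfsg.Agent.S4075
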