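import Cfsg.Statements.S4080
-- import your own Cfsg.Agent.* helpers here
import Mathlib

set_option autoImplicit false
open Cfsg

namespace Cfsg.Agent.S4080

section
variable {M : Type*} [AddCommGroup M]

lemma pow_apply_expand (N : AddMonoid.End M) (k : ℕ) (y : M) :
    ((N + 1) ^ k) y = ∑ m ∈ Finset.range (k + 1), (k.choose m) • ((N ^ m) y) := by
  rw [(Commute.one_right N).add_pow]
  have h0 : ∀ (s : Finset ℕ) (f : ℕ → AddMonoid.End M), (∑ m ∈ s, f m) y = ∑ m ∈ s, (f m) y := by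
    intro s f
    exact AddMonoidHom.finset_sum_apply f s y
  rw [h0]
  refine Finset.sum_congr rfl fun m _ => ?_
  rw [one_pow, mul_one]
  show (N ^ m) ((k.choose m : AddMonoid.End M) y) = _
  rw [AddMonoid.End.natCast_apply, map_nsmul]

lemma core [Finite M] {p : ℕ} (hp : p.Prime) (hp3 : 3 < p)
    (h1 : ∀ m : M, (p ^ 2) • m = 0)
    (h2 : ∀ m : M, p • m = 0 → ∃ m' : M, m = p • m')
    (h3 : Nat.card M = p ^ 4)
    (A : AddMonoid.End M) (hA : A ^ p = 1) (x : M) (hx : p • x = 0) : A x = x := by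
  obtain ⟨N, hN⟩ : ∃ N : AddMonoid.End M, N = A - 1 := ⟨_, rfl⟩
  have hAN : A = N + 1 := by rw [hN, sub_add_cancel]
  have hexp : ∀ y : M, ∑ m ∈ Finset.range (p + 1), (p.choose m) • ((N ^ m) y) = y := by
    intro y
    rw [← pow_apply_expand, ← hAN, hA]; rfl
  have hpp : ∀ m : M, p • (p • m) = 0 := by
    intro m
    rw [← mul_nsmul, ← pow_two]; exact h1 m
  obtain ⟨Ω, hΩdef⟩ : ∃ Ω : AddSubgroup M, Ω = (nsmulAddMonoidHom p : M →+ M).ker := ⟨_, rfl⟩
  have hΩ : ∀ m, m ∈ Ω ↔ p • m = 0 := fun m => by rw [hΩdef]; exact Iff.rfl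
  have hNΩ : ∀ m ∈ Ω, N m ∈ Ω := by
    intro m hm
    rw [hΩ] at hm ⊢
    rw [← map_nsmul, hm, map_zero]
  have hNkΩ : ∀ k : ℕ, ∀ m ∈ Ω, (N ^ k) m ∈ Ω := by
    intro k
    induction k with
    | zero => intro m hm; simpa using hm
    | succ k ih =>
      intro m hm
      rw [pow_succ']
      exact hNΩ _ (ih m hm)
  have hNp : ∀ m ∈ Ω, (N ^ p) m = 0 := by
    intro m hm
    have h := hexp m
    rw [Finset.sum_range_succ, Finset.sum_eq_single 0] at h
    · simpa using h
    · intro b hb hb0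
      rw [Finset.mem_range] at hb
      obtain ⟨c, hc⟩ := hp.dvd_choose_self hb0 hb
      rw [hc, mul_nsmul, (hΩ _).mp (hNkΩ b m hm), smul_zero]
    · intro h0
      exact absurd (Finset.mem_range.mpr hp.pos) h0
  have hstab : ∀ S : AddSubgroup M, S ≤ Ω → (∀ s ∈ S, ∃ s' ∈ S, N s' = s) → S = ⊥ := by
    intro S hS hsurj
    have hk : ∀ k : ℕ, ∀ s ∈ S, ∃ s' ∈ S, (N ^ k) s' = s := by
      intro k
      induction k with
      | zero => intro s hs; exact ⟨s, hs, by simp⟩
      | succ k ih =>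
        intro s hs
        obtain ⟨s₁, hs₁, h₁⟩ := hsurj s hs
        obtain ⟨s₂, hs₂, h₂⟩ := ih s₁ hs₁
        refine ⟨s₂, hs₂, ?_⟩
        rw [pow_succ']
        show N ((N ^ k) s₂) = s
        rw [h₂, h₁]
    rw [AddSubgroup.eq_bot_iff_forall]
    intro s hs
    obtain ⟨s', hs', h⟩ := hk p s hs
    rw [← h]; exact hNp s' (hS hs')
  have hΩcard : Nat.card Ω = p ^ 2 := by
    have hr : ∀ m : M, m ∈ (nsmulAddMonoidHom p : M →+ M).range ↔ m ∈ Ω := by
      intro m
      constructor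
      · rintro ⟨m', rfl⟩
        rw [hΩ]
        exact hpp m'
      · intro hm
        obtain ⟨m', hm'⟩ := h2 m ((hΩ m).mp hm)
        exact ⟨m', hm'.symm⟩
    have hr' : (nsmulAddMonoidHom p : M →+ M).range = Ω := AddSubgroup.ext hr
    have hc1 := AddSubgroup.card_eq_card_quotient_mul_card_addSubgroup Ω
    have hc2 : Nat.card (M ⧸ Ω) = Nat.card Ω := by
      have e := QuotientAddGroup.quotientKerEquivRange (nsmulAddMonoidHom p : M →+ M)
      have h5 := Nat.card_congr e.toEquiv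
      rw [hr', ← hΩdef] at h5
      exact h5
    rw [hc2, h3] at hc1
    have h6 : (p ^ 2) ^ 2 = (Nat.card Ω) ^ 2 := by
      rw [← pow_mul, pow_two (Nat.card Ω)]; exact hc1
    exact (Nat.pow_left_injective (by norm_num) h6).symm
  have hN2 : ∀ m ∈ Ω, N (N m) = 0 := by
    obtain ⟨S₁, hS₁def⟩ : ∃ S₁ : AddSubgroup M, S₁ = Ω.map (N : M →+ M) := ⟨_, rfl⟩
    obtain ⟨S₂, hS₂def⟩ : ∃ S₂ : AddSubgroup M, S₂ = S₁.map (N : M →+ M) := ⟨_, rfl⟩
    have hS₁ : S₁ ≤ Ω := by
      rw [hS₁def]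
      rintro _ ⟨m, hm, rfl⟩
      exact hNΩ m hm
    have hS₂ : S₂ ≤ S₁ := by
      rw [hS₂def]
      rintro _ ⟨m, hm, rfl⟩
      rw [hS₁def]
      exact ⟨m, hS₁ hm, rfl⟩
    have hS₂bot : S₂ = ⊥ := by
      by_contra hne
      have h1ne : S₁ ≠ Ω := by
        intro heq
        have h7 : Ω = ⊥ := hstab Ω le_rfl (fun s hs => by
          have h8 : s ∈ S₁ := heq ▸ hs
          rw [hS₁def] at h8
          obtain ⟨m, hm, rfl⟩ := h8
          exact ⟨m, hm, rfl⟩)
        rw [h7, AddSubgroup.card_bot] at hΩcard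
        have := hp.two_le
        nlinarith
      have h2ne : S₂ ≠ S₁ := by
        intro heq
        have h7 : S₁ = ⊥ := hstab S₁ hS₁ (fun s hs => by
          have h8 : s ∈ S₂ := heq ▸ hs
          rw [hS₂def] at h8
          obtain ⟨m, hm, rfl⟩ := h8
          exact ⟨m, hm, rfl⟩)
        exact hne (by rw [heq, h7])
      have hd1 : Nat.card S₁ ∣ p ^ 2 := hΩcard ▸ AddSubgroup.card_dvd_of_le hS₁
      have hd2 : Nat.card S₂ ∣ Nat.card S₁ := AddSubgroup.card_dvd_of_le hS₂
      have hl1 : Nat.card S₁ < p ^ 2 := by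
        by_contra hge
        push Not at hge
        exact h1ne (AddSubgroup.eq_of_le_of_card_ge hS₁ (by rw [hΩcard]; exact hge))
      have hl2 : Nat.card S₂ < Nat.card S₁ := by
        by_contra hge
        push Not at hge
        exact h2ne (AddSubgroup.eq_of_le_of_card_ge hS₂ hge)
      obtain ⟨i, hi, hci⟩ := (Nat.dvd_prime_pow hp).mp hd1
      have hi1 : i ≤ 1 := by
        by_contra h
        push Not at h
        have h9 : i = 2 := by omega
        rw [h9] at hci; omega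
      rw [hci] at hd2 hl2
      obtain ⟨j, hj, hcj⟩ := (Nat.dvd_prime_pow hp).mp hd2
      have hj0 : j = 0 := by
        by_contra h
        have h9 : j = 1 ∧ i = 1 := by omega
        rw [hcj, h9.1, h9.2] at hl2; omega
      rw [hj0, pow_zero] at hcj
      exact hne (AddSubgroup.card_eq_one.mp hcj)
    intro m hm
    have h10 : N (N m) ∈ S₂ := by
      rw [hS₂def, hS₁def]
      exact ⟨N m, ⟨m, hm, rfl⟩, rfl⟩
    rw [hS₂bot] at h10
    exact h10
  have hpN : ∀ y : M, p • N y = 0 := by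
    intro y
    have hpy : p • y ∈ Ω := by
      rw [hΩ]; exact hpp y
    have hN2y : p • N (N y) = 0 := by
      rw [← map_nsmul, ← map_nsmul]; exact hN2 _ hpy
    have hN2Ω : N (N y) ∈ Ω := (hΩ _).mpr hN2y
    have hpow2 : (N ^ 2) y = N (N y) := by
      rw [pow_two]; rfl
    have hpow3 : (N ^ 3) y = N (N (N y)) := by
      rw [pow_succ', pow_two]; rfl
    have hpow4 : (N ^ 4) y = N (N (N (N y))) := by
      rw [pow_succ', pow_succ', pow_two]; rfl
    have hN4 : ∀ k : ℕ, 4 ≤ k → (N ^ k) y = 0 := by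
      intro k hk
      obtain ⟨j, rfl⟩ : ∃ j, k = j + 4 := ⟨k - 4, by omega⟩
      rw [pow_add]
      show (N ^ j) ((N ^ 4) y) = 0
      rw [hpow4, hN2 _ hN2Ω, map_zero]
    have h := hexp y
    rw [← Finset.sum_subset (s₁ := Finset.range 4)
      (by intro a ha; rw [Finset.mem_range] at ha ⊢; omega)
      (by
        intro a ha ha'
        rw [Finset.mem_range] at ha ha'
        rw [hN4 a (by omega), smul_zero])] at h
    simp only [Finset.sum_range_succ, Finset.sum_range_zero, zero_add] at h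
    have e2 : (p.choose 2) • (N ^ 2) y = 0 := by
      obtain ⟨c, hc⟩ := hp.dvd_choose_self (by norm_num : 2 ≠ 0) (by omega : 2 < p)
      rw [hc, mul_nsmul, hpow2, hN2y, smul_zero]
    have e3 : (p.choose 3) • (N ^ 3) y = 0 := by
      obtain ⟨c, hc⟩ := hp.dvd_choose_self (by norm_num : 3 ≠ 0) (by omega : 3 < p)
      rw [hc, mul_nsmul, hpow3, ← map_nsmul, hN2y, map_zero, smul_zero]
    rw [e2, e3] at h
    simpa using h
  obtain ⟨y, rfl⟩ := h2 x hx
  rw [hAN]
  show N (p • y) + (p • y) = p • y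
  rw [map_nsmul, hpN y, zero_add]

end

/-- Let p > 3 be a prime and L the direct product of two cyclic groups of order p². Every automorphism of L of order p fixes every element of order p of L. -/
theorem result {p : ℕ} [Fact p.Prime] (hp : 3 < p)
    (a : MulAut (Multiplicative (ZMod (p ^ 2) × ZMod (p ^ 2)))) (ha : orderOf a = p)
    (x : Multiplicative (ZMod (p ^ 2) × ZMod (p ^ 2))) (hx : orderOf x = p) : a x = x := by
  have hp' : p.Prime := Fact.out
  haveI : NeZero (p ^ 2) := ⟨pow_ne_zero 2 hp'.ne_zero⟩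
  obtain ⟨A, hAdef⟩ : ∃ A : AddMonoid.End (ZMod (p ^ 2) × ZMod (p ^ 2)),
      ∀ m, A m = Multiplicative.toAdd (a (Multiplicative.ofAdd m)) :=
    ⟨{ toFun := fun m => Multiplicative.toAdd (a (Multiplicative.ofAdd m))
       map_zero' := by simp
       map_add' := by intro m n; simp }, fun m => rfl⟩
  have hApow : ∀ k : ℕ, ∀ m, (A ^ k) m = Multiplicative.toAdd ((a ^ k) (Multiplicative.ofAdd m)) := by
    intro k
    induction k with
    | zero => intro m; simp
    | succ k ih =>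
      intro m
      rw [pow_succ' A k, pow_succ' a k]
      show A ((A ^ k) m) = Multiplicative.toAdd (a ((a ^ k) (Multiplicative.ofAdd m)))
      rw [ih, hAdef]; rfl
  have hap : a ^ p = 1 := by
    have h0 := pow_orderOf_eq_one a
    rwa [ha] at h0
  have hA : A ^ p = 1 := by
    refine DFunLike.ext _ _ fun m => ?_
    rw [hApow p m, hap]; rfl
  have hx' : p • (Multiplicative.toAdd x) = 0 := by
    have h1 : x ^ p = 1 := by
      have h0 := pow_orderOf_eq_one x
      rwa [hx] at h0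
    exact congrArg Multiplicative.toAdd h1
  have hz : ∀ c : ZMod (p ^ 2), p • c = 0 → ∃ c' : ZMod (p ^ 2), c = p • c' := by
    intro c hc
    have h1 : ((p * c.val : ℕ) : ZMod (p ^ 2)) = 0 := by
      push_cast
      rw [ZMod.natCast_zmod_val]
      simpa [nsmul_eq_mul] using hc
    rw [ZMod.natCast_eq_zero_iff] at h1
    have h1' : p * p ∣ p * c.val := by
      rw [← pow_two]; exact h1
    obtain ⟨d, hd⟩ := Nat.dvd_of_mul_dvd_mul_left hp'.pos h1'
    refine ⟨(d : ZMod (p ^ 2)), ?_⟩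
    rw [nsmul_eq_mul, ← Nat.cast_mul, ← hd, ZMod.natCast_zmod_val]
  have hcore := core hp' hp (M := ZMod (p ^ 2) × ZMod (p ^ 2)) ?_ ?_ ?_ A hA (Multiplicative.toAdd x) hx'
  · rw [hAdef] at hcore
    exact congrArg Multiplicative.ofAdd hcore
  · intro m
    have h0 : ((p ^ 2 : ℕ) : ZMod (p ^ 2)) = 0 := ZMod.natCast_self _
    refine Prod.ext ?_ ?_
    · show (p ^ 2) • m.1 = 0
      rw [nsmul_eq_mul, h0, zero_mul]
    · show (p ^ 2) • m.2 = 0
      rw [nsmul_eq_mul, h0, zero_mul]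
  · intro m hm
    obtain ⟨c₁, hc₁⟩ := hz m.1 (by simpa using congrArg Prod.fst hm)
    obtain ⟨c₂, hc₂⟩ := hz m.2 (by simpa using congrArg Prod.snd hm)
    exact ⟨(c₁, c₂), Prod.ext hc₁ hc₂⟩
  · rw [Nat.card_prod, Nat.card_zmod]; ring

end Cfsg.Agent.S4080
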