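import Cfsg.Statements.S4084
-- import your own Cfsg.Agent.* helpers here
import Mathlib

set_option autoImplicit false
open Cfsg

namespace Cfsg.Agent.S4084

section
universe u v

theorem mem_cc_iff {G : Type u} {H : Type v} [Group G] [Group H] (e : G ≃ H)
    (he : ∀ x y : G, Commute x y ↔ Commute (e x) (e y)) (g x : G) :
    x ∈ Subgroup.centralizer (Subgroup.centralizer ({g} : Set G) : Set G) ↔
      e x ∈ Subgroup.centralizer (Subgroup.centralizer ({e g} : Set H) : Set H) := by
  simp only [Subgroup.mem_centralizer_iff, SetLike.mem_coe, Set.mem_singleton_iff, forall_eq]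
  constructor
  · intro h w hw
    obtain ⟨z, rfl⟩ := e.surjective w
    have h1 : Commute g z := (he g z).2 hw
    exact ((he z x).1 (h z h1.eq)).eq
  · intro h z hz
    have h1 : Commute (e g) (e z) := (he g z).1 hz
    exact ((he z x).2 (h (e z) h1.eq)).eq

theorem half {G : Type u} {H : Type v} [Group G] [Finite G] [Group H] [Finite H] (e : G ≃ H)
    (he : ∀ x y : G, Commute x y ↔ Commute (e x) (e y))
    {p q : ℕ} (hp : p.Prime) (hq : q.Prime) (hpq : p ≠ q) :
    (∃ g : G, orderOf g = p * q) → (∃ h : H, orderOf h = p * q) := by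
  rintro ⟨g, hg⟩
  obtain ⟨KG, hKG⟩ : ∃ K : Subgroup G, K = Subgroup.centralizer (Subgroup.centralizer ({g} : Set G) : Set G) := ⟨_, rfl⟩
  obtain ⟨KH, hKH⟩ : ∃ K : Subgroup H, K = Subgroup.centralizer (Subgroup.centralizer ({e g} : Set H) : Set H) := ⟨_, rfl⟩
  have hcard : Nat.card KG = Nat.card KH := by
    apply Nat.card_congr
    refine e.subtypeEquiv ?_
    intro x
    show x ∈ KG ↔ e x ∈ KH
    rw [hKG, hKH]
    exact mem_cc_iff e he g x
  have hgK : g ∈ KG := by
    rw [hKG]
    simp only [Subgroup.mem_centralizer_iff, SetLike.mem_coe, Set.mem_singleton_iff, forall_eq]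
    intro z hz
    exact hz.symm
  have hdvd : p * q ∣ Nat.card KH := by
    rw [← hcard, ← hg]
    exact Subgroup.orderOf_dvd_natCard KG hgK
  have := Fact.mk hp
  have := Fact.mk hq
  obtain ⟨a, ha⟩ := exists_prime_orderOf_dvd_card' (G := KH) p (Dvd.dvd.trans (Dvd.intro _ rfl) hdvd)
  obtain ⟨b, hb⟩ := exists_prime_orderOf_dvd_card' (G := KH) q (Dvd.dvd.trans (Dvd.intro_left _ rfl) hdvd)
  have hcomm : Commute (a : H) (b : H) := by
    have ha' : (a : H) ∈ Subgroup.centralizer (Subgroup.centralizer ({e g} : Set H) : Set H) := hKH ▸ a.2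
    have hb' : (b : H) ∈ Subgroup.centralizer (Subgroup.centralizer ({e g} : Set H) : Set H) := hKH ▸ b.2
    simp only [Subgroup.mem_centralizer_iff, SetLike.mem_coe, Set.mem_singleton_iff, forall_eq] at ha' hb'
    have h1 : e g * (b : H) = (b : H) * e g := hb' (e g) rfl
    exact (ha' (b : H) h1).symm
  refine ⟨(a : H) * (b : H), ?_⟩
  rw [hcomm.orderOf_mul_eq_mul_orderOf_of_coprime, Subgroup.orderOf_coe, Subgroup.orderOf_coe, ha, hb]
  rw [Subgroup.orderOf_coe, Subgroup.orderOf_coe, ha, hb]
  exact (Nat.coprime_primes hp hq).2 hpq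

end

/-- Let G and H be finite groups whose commuting graphs are isomorphic: there is a bijection e : G → H with x, y commuting exactly when e(x), e(y) commute. Then G and H have the same prime graph: for distinct primes p, q, G has an element of order pq if and only if H does (and #G = #H, so the prime divisors agree). -/
theorem result {G H : Type*} [Group G] [Finite G] [Group H] [Finite H] (e : G ≃ H)
    (he : ∀ x y : G, Commute x y ↔ Commute (e x) (e y))
    {p q : ℕ} (hp : p.Prime) (hq : q.Prime) (hpq : p ≠ q) :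
    (∃ g : G, orderOf g = p * q) ↔ (∃ h : H, orderOf h = p * q) := by
  constructor
  · exact half e he hp hq hpq
  · refine half e.symm ?_ hp hq hpq
    intro x y
    rw [he (e.symm x) (e.symm y)]
    simp

end Cfsg.Agent.S4084
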