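import Cfsg.Statements.S4086
-- import your own Cfsg.Agent.* helpers here
import Mathlib

set_option autoImplicit false
open Cfsg

namespace Cfsg.Agent.S4086

section
universe u

theorem pow_mem_zpowers_pow {G : Type u} [Group G] (g : G) (a b : ℕ)
    (h : Nat.gcd b (orderOf g) ∣ a) : g ^ a ∈ Subgroup.zpowers (g ^ b) := by
  obtain ⟨t, ht⟩ := h
  rw [Subgroup.mem_zpowers_iff]
  refine ⟨Nat.gcdA b (orderOf g) * t, ?_⟩
  have h1 : ((Nat.gcd b (orderOf g) : ℕ) : ℤ) = b * Nat.gcdA b (orderOf g) + orderOf g * Nat.gcdB b (orderOf g) :=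
    Nat.gcd_eq_gcd_ab b (orderOf g)
  have h2 : g ^ ((orderOf g : ℤ) * Nat.gcdB b (orderOf g) * t) = 1 := by
    rw [mul_assoc, zpow_mul, zpow_natCast, pow_orderOf_eq_one, one_zpow]
  calc (g ^ b) ^ (Nat.gcdA b (orderOf g) * t)
      = g ^ ((b : ℤ) * Nat.gcdA b (orderOf g) * t) := by
        rw [← zpow_natCast g b, ← zpow_mul, mul_assoc]
    _ = g ^ ((b : ℤ) * Nat.gcdA b (orderOf g) * t) * g ^ ((orderOf g : ℤ) * Nat.gcdB b (orderOf g) * t) := by
        rw [h2, mul_one]
    _ = g ^ (((Nat.gcd b (orderOf g) : ℕ) : ℤ) * t) := by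
        rw [← zpow_add, h1, add_mul]
    _ = g ^ a := by
        rw [← zpow_natCast g a, ht]
        push_cast
        rfl

theorem fwd {G : Type u} [Group G] [Finite G]
    (h : ∀ g : G, g ≠ 1 → IsPrimePow (orderOf g)) (x y : G)
    (hc : IsCyclic ↥(Subgroup.closure ({x, y} : Set G))) :
    x ∈ Subgroup.zpowers y ∨ y ∈ Subgroup.zpowers x := by
  obtain ⟨c, hc⟩ := hc.exists_generator
  have hxC : x ∈ Subgroup.closure ({x, y} : Set G) := Subgroup.subset_closure (by simp)
  have hyC : y ∈ Subgroup.closure ({x, y} : Set G) := Subgroup.subset_closure (by simp)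
  have hx : x ∈ Subgroup.zpowers (c : G) := by
    obtain ⟨k, hk⟩ := Subgroup.mem_zpowers_iff.1 (hc ⟨x, hxC⟩)
    rw [Subgroup.mem_zpowers_iff]
    refine ⟨k, ?_⟩
    have := congrArg Subtype.val hk
    simpa using this
  have hy : y ∈ Subgroup.zpowers (c : G) := by
    obtain ⟨k, hk⟩ := Subgroup.mem_zpowers_iff.1 (hc ⟨y, hyC⟩)
    rw [Subgroup.mem_zpowers_iff]
    refine ⟨k, ?_⟩
    have := congrArg Subtype.val hk
    simpa using this
  obtain ⟨g, hg⟩ : ∃ g : G, g = (c : G) := ⟨_, rfl⟩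
  rw [← hg] at hx hy
  by_cases hg1 : g = 1
  · left
    rw [hg1, Subgroup.zpowers_one_eq_bot, Subgroup.mem_bot] at hx
    rw [hx]
    exact one_mem _
  · obtain ⟨p, k, hp, hk, hpk⟩ := (isPrimePow_nat_iff _).1 (h g hg1)
    rw [← mem_powers_iff_mem_zpowers, Submonoid.mem_powers_iff] at hx hy
    obtain ⟨a, rfl⟩ := hx
    obtain ⟨b, rfl⟩ := hy
    obtain ⟨i, hi, hia⟩ := (Nat.dvd_prime_pow hp).1 (hpk ▸ Nat.gcd_dvd_right a (orderOf g))
    obtain ⟨j, hj, hjb⟩ := (Nat.dvd_prime_pow hp).1 (hpk ▸ Nat.gcd_dvd_right b (orderOf g))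
    rcases le_total j i with hji | hij
    · left
      apply pow_mem_zpowers_pow
      rw [← hpk, hjb]
      exact (pow_dvd_pow p hji).trans (hia ▸ Nat.gcd_dvd_left a (p ^ k))
    · right
      apply pow_mem_zpowers_pow
      rw [← hpk, hia]
      exact (pow_dvd_pow p hij).trans (hjb ▸ Nat.gcd_dvd_left b (p ^ k))

theorem bwd {G : Type u} [Group G] [Finite G]
    (h : ∀ x y : G, IsCyclic ↥(Subgroup.closure ({x, y} : Set G)) →
      (x ∈ Subgroup.zpowers y ∨ y ∈ Subgroup.zpowers x)) (g : G) (hg : g ≠ 1) :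
    IsPrimePow (orderOf g) := by
  have hn0 : orderOf g ≠ 0 := (orderOf_pos g).ne'
  have hn1 : orderOf g ≠ 1 := by
    intro h1
    exact hg (orderOf_eq_one_iff.1 h1)
  obtain ⟨p, hp, hpn⟩ := Nat.exists_prime_and_dvd hn1
  obtain ⟨a, ha⟩ : ∃ a, a = ordProj[p] (orderOf g) := ⟨_, rfl⟩
  obtain ⟨b, hb⟩ : ∃ b, b = ordCompl[p] (orderOf g) := ⟨_, rfl⟩
  have hab : a * b = orderOf g := by
    rw [ha, hb]; exact Nat.ordProj_mul_ordCompl_eq_self (orderOf g) p
  have hcop : Nat.Coprime a b := by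
    rw [ha, hb]
    exact Nat.Coprime.pow_left _ (Nat.coprime_ordCompl hp hn0)
  have hfpos : 0 < (orderOf g).factorization p := hp.factorization_pos_of_dvd hn0 hpn
  have ha1 : a ≠ 1 := by
    rw [ha]
    intro h1
    have := Nat.one_lt_pow hfpos.ne' hp.one_lt
    omega
  by_cases hb1 : b = 1
  · rw [isPrimePow_nat_iff]
    refine ⟨p, (orderOf g).factorization p, hp, hfpos, ?_⟩
    have h3 : a = orderOf g := by rw [← hab, hb1, mul_one]
    rw [← ha]
    exact h3
  · exfalso
    have ha0 : a ≠ 0 := by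
      intro h0; rw [h0, zero_mul] at hab; exact hn0 hab.symm
    have hb0 : b ≠ 0 := by
      intro h0; rw [h0, mul_zero] at hab; exact hn0 hab.symm
    have hox : orderOf (g ^ a) = b := by
      rw [orderOf_pow_of_dvd ha0 (Dvd.intro _ hab), ← hab]
      exact Nat.mul_div_cancel_left b (Nat.pos_of_ne_zero ha0)
    have hoy : orderOf (g ^ b) = a := by
      rw [orderOf_pow_of_dvd hb0 (Dvd.intro_left _ hab), ← hab]
      exact Nat.mul_div_cancel a (Nat.pos_of_ne_zero hb0)
    have hle : Subgroup.closure ({g ^ a, g ^ b} : Set G) ≤ Subgroup.zpowers g := by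
      rw [Subgroup.closure_le]
      intro z hz
      rcases hz with rfl | rfl
      · exact Subgroup.pow_mem _ (Subgroup.mem_zpowers g) a
      · exact Subgroup.pow_mem _ (Subgroup.mem_zpowers g) b
    have hcyc : IsCyclic ↥(Subgroup.closure ({g ^ a, g ^ b} : Set G)) :=
      Subgroup.isCyclic_of_le hle
    rcases h (g ^ a) (g ^ b) hcyc with h1 | h1
    · have := orderOf_dvd_of_mem_zpowers h1
      rw [hox, hoy] at this
      exact hb1 (Nat.eq_one_of_dvd_coprimes hcop.symm (dvd_refl b) this)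
    · have := orderOf_dvd_of_mem_zpowers h1
      rw [hox, hoy] at this
      exact ha1 (Nat.eq_one_of_dvd_coprimes hcop (dvd_refl a) this)

end

/-- For a finite group G the following are equivalent: every non-identity element has prime-power order; whenever two elements generate a cyclic subgroup, one of them is a power of the other (the enhanced power graph of G coincides with its power graph). -/
theorem result {G : Type*} [Group G] [Finite G] :
    (∀ g : G, g ≠ 1 → IsPrimePow (orderOf g)) ↔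
    (∀ x y : G, IsCyclic ↥(Subgroup.closure ({x, y} : Set G)) → (x ∈ Subgroup.zpowers y ∨ y ∈ Subgroup.zpowers x)) := by
  constructor
  · intro h x y hc
    exact fwd h x y hc
  · intro h g hg
    exact bwd h g hg

end Cfsg.Agent.S4086
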