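import Cfsg.Statements.S4092
-- import your own Cfsg.Agent.* helpers here
import Mathlib
import Cfsg.Agent.Lib.Helper8.FrobeniusCount

set_option autoImplicit false
open Cfsg

namespace Cfsg.Agent.S4092

/-- Let G be a finite group, p a prime and P a Sylow p-subgroup of G that is not normal in G. Then G has at least p·#P elements of p-power order (the identity included). -/
theorem result {G : Type*} [Group G] [Finite G] (p : ℕ) [Fact p.Prime]
    (P : Sylow p G) (hP : ¬ (P : Subgroup G).Normal) :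
    p * Nat.card (P : Subgroup G) ≤ Nat.card {g : G // ∃ k : ℕ, orderOf g = p ^ k} := by
  classical
  haveI := Fintype.ofFinite G
  have hp : p.Prime := Fact.out
  obtain ⟨a, ha0⟩ : ∃ a, a = (Nat.card G).factorization p := ⟨_, rfl⟩
  have ha : Nat.card (P : Subgroup G) = p ^ a := by
    rw [ha0]; exact Sylow.card_eq_multiplicity P
  obtain ⟨X, hXdef⟩ : ∃ X : Set G, X = {g | ∃ k : ℕ, orderOf g = p ^ k} := ⟨_, rfl⟩
  have hXmem : ∀ g, g ∈ X ↔ ∃ k : ℕ, orderOf g = p ^ k := fun g => by rw [hXdef]; rfl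
  have hXcard : Nat.card {g : G // ∃ k : ℕ, orderOf g = p ^ k} = X.ncard := by
    rw [hXdef]; exact Nat.card_coe_set_eq _
  have hpa : p ^ a ∣ Nat.card G := ha ▸ Subgroup.card_subgroup_dvd_card (P : Subgroup G)
  have hXeq : ∀ g : G, g ^ (p ^ a) = 1 ↔ ∃ k : ℕ, orderOf g = p ^ k := by
    intro g
    constructor
    · intro h
      obtain ⟨k, _, hk⟩ := (Nat.dvd_prime_pow hp).mp (orderOf_dvd_of_pow_eq_one h)
      exact ⟨k, hk⟩
    · rintro ⟨k, hk⟩
      have h1 : p ^ k ∣ Nat.card G := hk ▸ orderOf_dvd_natCard g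
      have h2 : k ≤ a := by
        rw [ha0]
        exact (Nat.Prime.pow_dvd_iff_le_factorization hp Nat.card_pos.ne').mp h1
      rw [← orderOf_dvd_iff_pow_eq_one, hk]
      exact pow_dvd_pow p h2
  have hdvd1 : p ^ a ∣ X.ncard := by
    have h1 := Cfsg.Agent.Lib.Helper8.h8_frobenius_dvd (G := G) (p ^ a) hpa
    have h2 : Nat.card {g : G // g ^ (p ^ a) = 1} = X.ncard := by
      rw [← hXcard]
      exact Nat.card_congr (Equiv.subtypeEquivRight hXeq)
    rwa [h2] at h1
  have h1X : (1 : G) ∈ X := (hXmem 1).mpr ⟨0, by simp⟩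
  have hdvd2 : (p - 1) ∣ X.ncard - 1 := by
    rw [← Set.ncard_diff_singleton_of_mem h1X]
    obtain ⟨s, hs⟩ : ∃ s : Finset G, s = Finset.univ.filter (fun g : G => g ∈ X ∧ g ≠ 1) := ⟨_, rfl⟩
    have hsX : (X \ {1}).ncard = s.card := by
      rw [← Set.ncard_coe_finset]
      congr 1
      ext g
      simp [hs]
    rw [hsX, Finset.card_eq_sum_card_fiberwise (f := fun g : G => Subgroup.zpowers g)
      (t := s.image (fun g => Subgroup.zpowers g)) (fun x hx => Finset.mem_image_of_mem _ hx)]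
    apply Finset.dvd_sum
    intro S hS
    obtain ⟨g₀, hg₀, rfl⟩ := Finset.mem_image.mp hS
    have hg₀' : g₀ ∈ X ∧ g₀ ≠ 1 := by
      rw [hs] at hg₀
      exact (Finset.mem_filter.mp hg₀).2
    have hfib : s.filter (fun g => Subgroup.zpowers g = Subgroup.zpowers g₀) =
        Finset.univ.filter (fun g : G => Subgroup.zpowers g = Subgroup.zpowers g₀) := by
      ext g
      simp only [Finset.mem_filter, Finset.mem_univ, true_and, hs]
      constructor
      · exact fun h => h.2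
      · intro h
        refine ⟨?_, h⟩
        have ho : orderOf g = orderOf g₀ := by
          rw [← Nat.card_zpowers, ← Nat.card_zpowers, h]
        refine ⟨?_, ?_⟩
        · obtain ⟨k, hk⟩ := (hXmem g₀).mp hg₀'.1
          exact (hXmem g).mpr ⟨k, ho ▸ hk⟩
        · intro hg1
          apply hg₀'.2
          rw [← orderOf_eq_one_iff, ← ho, hg1, orderOf_one]
    rw [hfib, ← Fintype.card_subtype, ← Nat.card_eq_fintype_card,
      Cfsg.Agent.Lib.Helper8.h8_card_zpowers_eq]
    obtain ⟨k, hk⟩ := (hXmem g₀).mp hg₀'.1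
    have hk0 : k ≠ 0 := by
      rintro rfl
      rw [pow_zero, orderOf_eq_one_iff] at hk
      exact hg₀'.2 hk
    rw [hk, Nat.totient_prime_pow hp (Nat.pos_of_ne_zero hk0)]
    exact Dvd.intro_left _ rfl
  have hgt : p ^ a + 1 ≤ X.ncard := by
    have hPX : ((P : Subgroup G) : Set G) ⊆ X := by
      intro g hg
      obtain ⟨k, hk⟩ := P.isPGroup' ⟨g, hg⟩
      have h3 : g ^ p ^ k = 1 := by simpa using congrArg Subtype.val hk
      obtain ⟨j, _, hj⟩ := (Nat.dvd_prime_pow hp).mp (orderOf_dvd_of_pow_eq_one h3)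
      exact (hXmem g).mpr ⟨j, hj⟩
    obtain ⟨y, hyX, hyP⟩ : ∃ y, y ∈ X ∧ y ∉ (P : Subgroup G) := by
      by_contra hcon
      push Not at hcon
      apply hP
      constructor
      intro n hn g
      apply hcon
      obtain ⟨k, hk⟩ := (hXmem n).mp (hPX hn)
      exact (hXmem _).mpr ⟨k, by rw [← hk]; exact (MulAut.conj g).orderOf_eq n⟩
    have h1 : (insert y ((P : Subgroup G) : Set G)).ncard ≤ X.ncard :=
      Set.ncard_le_ncard (Set.insert_subset hyX hPX) (Set.toFinite X)
    rw [Set.ncard_insert_of_notMem hyP (Set.toFinite _)] at h1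
    have h4 : ((P : Subgroup G) : Set G).ncard = p ^ a := by
      rw [← ha]; exact (Nat.card_coe_set_eq _).symm
    omega
  obtain ⟨k, hk⟩ := hdvd1
  have hpa1 : 1 ≤ p ^ a := Nat.one_le_pow _ _ hp.pos
  have hk2 : 2 ≤ k := by
    by_contra hlt
    push Not at hlt
    have h5 : k ≤ 1 := by omega
    have h6 : p ^ a * k ≤ p ^ a * 1 := Nat.mul_le_mul_left _ h5
    omega
  have hmod1 : p ^ a ≡ 1 [MOD (p - 1)] := by
    have h7 := Nat.sub_dvd_pow_sub_pow p 1 a
    rw [one_pow] at h7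
    exact ((Nat.modEq_iff_dvd' hpa1).mpr h7).symm
  have hmod2 : X.ncard ≡ 1 [MOD (p - 1)] := ((Nat.modEq_iff_dvd' (by omega)).mpr hdvd2).symm
  have hmod3 : k ≡ 1 [MOD (p - 1)] := by
    have h3 : p ^ a * k ≡ 1 * k [MOD (p - 1)] := Nat.ModEq.mul_right k hmod1
    rw [one_mul, ← hk] at h3
    exact h3.symm.trans hmod2
  have hdvd3 : (p - 1) ∣ k - 1 := (Nat.modEq_iff_dvd' (by omega)).mp hmod3.symm
  have hpk : p ≤ k := by
    have h8 := Nat.le_of_dvd (by omega) hdvd3
    omega
  rw [hXcard, ha, hk, mul_comm]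
  exact Nat.mul_le_mul_left _ hpk

end Cfsg.Agent.S4092
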