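import Cfsg.Statements.S4093
-- import your own Cfsg.Agent.* helpers here
import Mathlib
import Cfsg.Agent.Lib.Helper7.FrobCount

set_option autoImplicit false
open scoped BigOperators
open Cfsg

namespace Cfsg.Agent.S4093

open Pointwise
open Cfsg.Agent.Lib.Helper7

/-- Let G be a finite group with a normal subgroup N complementing a Sylow p-subgroup P (a normal p-complement). Then the number of elements of G of p-power order equals the sum over x ∈ P of the index of C_N(x) in N. -/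
theorem result {G : Type*} [Group G] [Finite G] (p : ℕ) [Fact p.Prime]
    (P : Sylow p G) (N : Subgroup G) [N.Normal] (hNP : N.IsComplement' (P : Subgroup G)) :
    Nat.card {g : G // ∃ k : ℕ, orderOf g = p ^ k} =
      ∑ᶠ x : (P : Subgroup G), Nat.card N / Nat.card ↥(N ⊓ Subgroup.centralizer ({(x : G)} : Set G)) := by
  classical
  haveI := Fintype.ofFinite G
  haveI : Fintype (P : Subgroup G) := Fintype.ofFinite _
  have hp : p.Prime := Fact.out
  have hNn : N.Normal := inferInstance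
  letI : MulAction N G := MulAction.compHom G ((MulAut.conj : G →* MulAut G).comp N.subtype)
  have hsmul : ∀ (n : N) (g : G), n • g = (n : G) * g * (n : G)⁻¹ := fun n g => rfl
  have hdisj : ∀ (x x' : G), x ∈ (P : Subgroup G) → x' ∈ (P : Subgroup G) → ∀ n n' : G,
      n ∈ N → n' ∈ N → n * x * n⁻¹ = n' * x' * n'⁻¹ → x = x' := by
    intro x x' hx hx' n n' hn hn' h
    have hdis := hNP.disjoint
    have h3 : n'⁻¹ * n ∈ N := N.mul_mem (N.inv_mem hn') hn
    have h2 : x' = (n'⁻¹ * n) * x * (n'⁻¹ * n)⁻¹ := by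
      calc x' = n'⁻¹ * (n' * x' * n'⁻¹) * n' := by group
        _ = n'⁻¹ * (n * x * n⁻¹) * n' := by rw [h]
        _ = _ := by group
    have h1 : x' * x⁻¹ ∈ N := by
      have h4 : x' * x⁻¹ = (n'⁻¹ * n) * (x * (n'⁻¹ * n)⁻¹ * x⁻¹) := by
        rw [h2]; group
      rw [h4]
      exact N.mul_mem h3 (hNn.conj_mem _ (N.inv_mem h3) x)
    have h5 : x' * x⁻¹ ∈ (P : Subgroup G) := Subgroup.mul_mem _ hx' (Subgroup.inv_mem _ hx)
    have h6 : x' * x⁻¹ = 1 := Subgroup.disjoint_def.mp hdis h1 h5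
    exact (mul_inv_eq_one.mp h6).symm
  have hcover : ∀ g : G, (∃ k : ℕ, orderOf g = p ^ k) →
      ∃ x ∈ (P : Subgroup G), ∃ n ∈ N, g = n * x * n⁻¹ := by
    rintro g ⟨k, hk⟩
    have hz : IsPGroup p (Subgroup.zpowers g) :=
      IsPGroup.of_card (n := k) (by rw [Nat.card_zpowers, hk])
    obtain ⟨Q, hQ⟩ := hz.exists_le_sylow
    obtain ⟨h, hh⟩ := MulAction.exists_smul_eq G P Q
    have hgQ : g ∈ (Q : Subgroup G) := hQ (Subgroup.mem_zpowers g)
    rw [← hh, Sylow.smul_def, Sylow.pointwise_smul_def, fc_mem_conj_smul_iff] at hgQ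
    obtain ⟨⟨⟨n, hn⟩, ⟨y, hy⟩⟩, hny, -⟩ := (Subgroup.isComplement_iff_existsUnique.mp hNP) h
    simp only at hny
    subst hny
    refine ⟨y * ((n * y)⁻¹ * g * (n * y)) * y⁻¹,
      Subgroup.mul_mem _ (Subgroup.mul_mem _ hy hgQ) (Subgroup.inv_mem _ hy), n, hn, ?_⟩
    group
  have hpel : ∀ x ∈ (P : Subgroup G), ∃ k : ℕ, orderOf x = p ^ k := by
    intro x hx
    obtain ⟨k, hk⟩ := P.isPGroup' ⟨x, hx⟩
    have h3 : x ^ p ^ k = 1 := by simpa using congrArg Subtype.val hk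
    obtain ⟨j, _, hj⟩ := (Nat.dvd_prime_pow hp).mp (orderOf_dvd_of_pow_eq_one h3)
    exact ⟨j, hj⟩
  have horb : ∀ x : G, (MulAction.orbit N x).ncard =
      Nat.card N / Nat.card ↥(N ⊓ Subgroup.centralizer ({x} : Set G)) := by
    intro x
    have h1 := (MulAction.stabilizer N x).card_mul_index
    rw [MulAction.index_stabilizer] at h1
    have hA : ∀ c : MulAction.stabilizer N x, (c.1.1 : G) ∈ N ⊓ Subgroup.centralizer ({x} : Set G) := by
      intro c
      refine Subgroup.mem_inf.mpr ⟨c.1.2, ?_⟩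
      rw [Subgroup.mem_centralizer_iff]
      intro y hy
      rw [Set.mem_singleton_iff] at hy
      subst hy
      have h0 : (c.1 : G) * y * (c.1 : G)⁻¹ = y := c.2
      calc y * (c.1 : G) = (c.1 : G) * y * (c.1 : G)⁻¹ * (c.1 : G) := by rw [h0]
        _ = (c.1 : G) * y := by group
    have hB : ∀ d : ↥(N ⊓ Subgroup.centralizer ({x} : Set G)),
        (⟨d.1, (Subgroup.mem_inf.mp d.2).1⟩ : N) ∈ MulAction.stabilizer N x := by
      intro d
      rw [MulAction.mem_stabilizer_iff, hsmul]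
      have h0 := Subgroup.mem_centralizer_iff.mp (Subgroup.mem_inf.mp d.2).2 x rfl
      show (d : G) * x * (d : G)⁻¹ = x
      rw [← h0]; group
    have h2 : Nat.card (MulAction.stabilizer N x) =
        Nat.card ↥(N ⊓ Subgroup.centralizer ({x} : Set G)) :=
      Nat.card_congr ⟨fun c => ⟨c.1.1, hA c⟩, fun d => ⟨⟨d.1, (Subgroup.mem_inf.mp d.2).1⟩, hB d⟩, fun c => rfl, fun d => rfl⟩
    rw [← h2]
    exact (Nat.div_eq_of_eq_mul_right Nat.card_pos h1.symm).symm
  rw [finsum_eq_sum_of_fintype, Nat.card_eq_fintype_card, Fintype.card_subtype]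
  obtain ⟨φ, hφdef⟩ : ∃ φ : G → (P : Subgroup G), φ = fun g =>
      if h : ∃ x : (P : Subgroup G), ∃ n ∈ N, g = n * (x : G) * n⁻¹ then h.choose else 1 := ⟨_, rfl⟩
  rw [Finset.card_eq_sum_card_fiberwise (f := φ) (t := Finset.univ) (fun _ _ => Finset.mem_univ _)]
  refine Finset.sum_congr rfl fun x _ => ?_
  rw [← horb (x : G), ← Set.ncard_coe_finset]
  congr 1
  ext g
  simp only [Finset.coe_filter, Finset.mem_filter, Finset.mem_univ, true_and, Set.mem_setOf_eq]
  constructor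
  · rintro ⟨hg, hφ⟩
    obtain ⟨x', hx', n, hn, hgn⟩ := hcover g hg
    have hex : ∃ x : (P : Subgroup G), ∃ n ∈ N, g = n * (x : G) * n⁻¹ := ⟨⟨x', hx'⟩, n, hn, hgn⟩
    have hφ' : φ g = hex.choose := by
      rw [hφdef]; exact dif_pos hex
    obtain ⟨n₂, hn₂, hg₂⟩ := hex.choose_spec
    rw [← hφ', hφ] at hg₂
    exact ⟨⟨n₂, hn₂⟩, hg₂.symm⟩
  · rintro ⟨n, rfl⟩
    show (∃ k : ℕ, orderOf ((n : G) * (x : G) * (n : G)⁻¹) = p ^ k) ∧ φ ((n : G) * (x : G) * (n : G)⁻¹) = x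
    refine ⟨?_, ?_⟩
    · obtain ⟨k, hk⟩ := hpel x x.2
      exact ⟨k, by rw [← hk]; exact (MulAut.conj (n : G)).orderOf_eq (x : G)⟩
    · have hex : ∃ x' : (P : Subgroup G), ∃ n' ∈ N, (n : G) * x * (n : G)⁻¹ = n' * (x' : G) * n'⁻¹ :=
        ⟨x, n, n.2, rfl⟩
      have hφ' : φ ((n : G) * x * (n : G)⁻¹) = hex.choose := by
        rw [hφdef]; exact dif_pos hex
      obtain ⟨n₂, hn₂, hg₂⟩ := hex.choose_spec
      rw [hφ']
      apply Subtype.ext
      exact (hdisj _ _ x.2 hex.choose.2 _ _ n.2 hn₂ hg₂).symm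

end Cfsg.Agent.S4093
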