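import Cfsg.Statements.S4106
-- import your own Cfsg.Agent.* helpers here
import Mathlib
import Cfsg.Agent.Lib.Helper7.Compl

set_option autoImplicit false
open Cfsg

namespace Cfsg.Agent.S4106

section
universe u

/-- all prime divisors of the order of `x` lie in `s` -/
def IsPi {G : Type u} [Group G] (s : Finset ℕ) (x : G) : Prop :=
  ∀ q : ℕ, q.Prime → q ∣ orderOf x → q ∈ s

variable {G : Type u} [Group G] [Finite G]

theorem exists_p_decomp (p : ℕ) [hp : Fact p.Prime] (x : G) :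
    ∃ u v : G, x = u * v ∧ u ∈ Subgroup.zpowers x ∧ v ∈ Subgroup.zpowers x ∧
      (∃ k : ℕ, orderOf u = p ^ k) ∧ orderOf v ∣ orderOf x ∧ ¬ p ∣ orderOf v := by
  have hn0 : orderOf x ≠ 0 := (orderOf_pos x).ne'
  obtain ⟨a, ha⟩ : ∃ a : ℕ, a = (orderOf x).factorization p := ⟨_, rfl⟩
  obtain ⟨b, hb⟩ : ∃ b : ℕ, b = orderOf x / p ^ a := ⟨_, rfl⟩
  have hab : p ^ a * b = orderOf x := by
    rw [hb, ha]; exact Nat.ordProj_mul_ordCompl_eq_self (orderOf x) p
  have hcop : Nat.Coprime (p ^ a) b := by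
    rw [hb, ha]; exact (Nat.coprime_ordCompl hp.out hn0).pow_left _
  have hpb : ¬ p ∣ b := by
    rw [hb, ha]; exact Nat.not_dvd_ordCompl hp.out hn0
  have hbez : ((p ^ a : ℕ) : ℤ) * Nat.gcdA (p ^ a) b + (b : ℤ) * Nat.gcdB (p ^ a) b = 1 := by
    have h1 := Nat.gcd_eq_gcd_ab (p ^ a) b
    rw [hcop.gcd_eq_one] at h1
    rw [← h1]; rfl
  have hu : ((x ^ b) ^ (Nat.gcdB (p ^ a) b)) ^ (p ^ a) = 1 := by
    have h2 : (x ^ b) ^ (p ^ a) = 1 := by rw [← pow_mul, mul_comm, hab, pow_orderOf_eq_one]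
    rw [← zpow_natCast, ← zpow_mul, mul_comm, zpow_mul, zpow_natCast, h2, one_zpow]
  have hv : ((x ^ (p ^ a)) ^ (Nat.gcdA (p ^ a) b)) ^ b = 1 := by
    have h2 : (x ^ (p ^ a)) ^ b = 1 := by rw [← pow_mul, hab, pow_orderOf_eq_one]
    rw [← zpow_natCast, ← zpow_mul, mul_comm, zpow_mul, zpow_natCast, h2, one_zpow]
  refine ⟨(x ^ b) ^ (Nat.gcdB (p ^ a) b), (x ^ (p ^ a)) ^ (Nat.gcdA (p ^ a) b), ?_, ?_, ?_, ?_,
    ?_, ?_⟩
  · rw [← zpow_natCast x b, ← zpow_natCast x (p ^ a), ← zpow_mul, ← zpow_mul, ← zpow_add,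
      add_comm, hbez, zpow_one]
  · exact Subgroup.zpow_mem _ (Subgroup.pow_mem _ (Subgroup.mem_zpowers x) _) _
  · exact Subgroup.zpow_mem _ (Subgroup.pow_mem _ (Subgroup.mem_zpowers x) _) _
  · obtain ⟨k, _, hk⟩ := (Nat.dvd_prime_pow hp.out).mp (orderOf_dvd_of_pow_eq_one hu)
    exact ⟨k, hk⟩
  · exact orderOf_dvd_of_mem_zpowers
      (Subgroup.zpow_mem _ (Subgroup.pow_mem _ (Subgroup.mem_zpowers x) _) _)
  · intro hpv
    exact hpb (hpv.trans (orderOf_dvd_of_pow_eq_one hv))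

open Pointwise in
theorem card_pairs_le (p : ℕ) [Fact p.Prime] (P : Sylow p G) :
    Nat.card (Σ u : {u : G // ∃ k : ℕ, orderOf u = p ^ k},
      Subgroup.centralizer ({(u : G)} : Set G)) ≤ Nat.card P * Nat.card G := by
  have hex : ∀ u : {u : G // ∃ k : ℕ, orderOf u = p ^ k},
      ∃ yt : P × G, yt.2 * (yt.1 : G) * yt.2⁻¹ = u := by
    intro u
    have hpg : IsPGroup p (Subgroup.zpowers (u : G)) := by
      obtain ⟨k, hk⟩ := u.2
      exact IsPGroup.of_card (n := k) (by rw [Nat.card_zpowers, hk])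
    obtain ⟨Q, hQ⟩ := hpg.exists_le_sylow
    obtain ⟨g, hg⟩ := MulAction.exists_smul_eq G Q P
    have hmem : g * u * g⁻¹ ∈ (P : Subgroup G) := by
      rw [← hg]
      show g * u * g⁻¹ ∈ MulAut.conj g • (Q : Subgroup G)
      rw [Cfsg.Agent.Lib.Helper7.mem_conj_smul_iff]
      have h1 : g⁻¹ * (g * (u : G) * g⁻¹) * g = u := by group
      rw [h1]
      exact hQ (Subgroup.mem_zpowers _)
    refine ⟨(⟨g * u * g⁻¹, hmem⟩, g⁻¹), ?_⟩
    show g⁻¹ * (g * (u : G) * g⁻¹) * g⁻¹⁻¹ = (u : G)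
    group
  choose f hf using hex
  let F : (Σ u : {u : G // ∃ k : ℕ, orderOf u = p ^ k},
      Subgroup.centralizer ({(u : G)} : Set G)) → P × G :=
    fun ug => ((f ug.1).1, (ug.2 : G) * (f ug.1).2)
  have hF : Function.Injective F := by
    rintro ⟨u, g⟩ ⟨u', g'⟩ h
    have h1 : (f u).1 = (f u').1 := (Prod.ext_iff.mp h).1
    have h2 : (g : G) * (f u).2 = (g' : G) * (f u').2 := (Prod.ext_iff.mp h).2
    have key : ∀ (u : {u : G // ∃ k : ℕ, orderOf u = p ^ k}) (g : G), (u : G) * g = g * u →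
        (u : G) = (g * (f u).2) * ((f u).1 : G) * (g * (f u).2)⁻¹ := by
      intro u g hc
      calc (u : G) = g * u * g⁻¹ := by rw [← hc]; group
        _ = (g * (f u).2) * ((f u).1 : G) * (g * (f u).2)⁻¹ := by
          conv_lhs => rw [← hf u]
          group
    have huu : u = u' := by
      apply Subtype.ext
      rw [key u g ((Subgroup.mem_centralizer_iff.mp g.2) u rfl),
        key u' g' ((Subgroup.mem_centralizer_iff.mp g'.2) u' rfl), h1, h2]
    subst huu
    have hgg : g = g' := Subtype.ext (mul_right_cancel h2)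
    rw [hgg]
  calc _ ≤ Nat.card (P × G) := Nat.card_le_card_of_injective F hF
    _ = _ := Nat.card_prod _ _

theorem step (p : ℕ) [Fact p.Prime] (s : Finset ℕ) :
    Nat.card {pr : G × G // IsPi (insert p s) pr.1 ∧ pr.1 * pr.2 = pr.2 * pr.1} ≤
    Nat.card (Σ u : {u : G // ∃ k : ℕ, orderOf u = p ^ k},
       {pr : (Subgroup.centralizer ({(u : G)} : Set G)) ×
          (Subgroup.centralizer ({(u : G)} : Set G)) //
          IsPi s pr.1 ∧ pr.1 * pr.2 = pr.2 * pr.1}) := by
  choose U V hUV hU hV hUo hVo hVp using (exists_p_decomp p : ∀ x : G, _)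
  have hcomm : ∀ x g : G, x * g = g * x → ∀ y ∈ Subgroup.zpowers x, y * g = g * y := by
    intro x g hxg y hy
    obtain ⟨k, rfl⟩ := hy
    exact ((Commute.zpow_left (show Commute x g from hxg) k)).eq
  have hVU : ∀ x : G, U x * V x = V x * U x := by
    intro x
    obtain ⟨i, hi⟩ := hU x
    obtain ⟨j, hj⟩ := hV x
    rw [← hi, ← hj, ← zpow_add, ← zpow_add, add_comm]
  let π : (Σ u : {u : G // ∃ k : ℕ, orderOf u = p ^ k},
       {pr : (Subgroup.centralizer ({(u : G)} : Set G)) ×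
          (Subgroup.centralizer ({(u : G)} : Set G)) //
          IsPi s pr.1 ∧ pr.1 * pr.2 = pr.2 * pr.1}) → G × G × G :=
    fun a => ((a.1 : G), (a.2.1.1 : G), (a.2.1.2 : G))
  let F : {pr : G × G // IsPi (insert p s) pr.1 ∧ pr.1 * pr.2 = pr.2 * pr.1} →
      (Σ u : {u : G // ∃ k : ℕ, orderOf u = p ^ k},
       {pr : (Subgroup.centralizer ({(u : G)} : Set G)) ×
          (Subgroup.centralizer ({(u : G)} : Set G)) //
          IsPi s pr.1 ∧ pr.1 * pr.2 = pr.2 * pr.1}) :=
    fun a => ⟨⟨U a.1.1, hUo a.1.1⟩,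
      ⟨(⟨V a.1.1, Subgroup.mem_centralizer_iff.mpr (fun h hh => by
          rw [Set.mem_singleton_iff.mp hh]; exact hVU a.1.1)⟩,
        ⟨a.1.2, Subgroup.mem_centralizer_iff.mpr (fun h hh => by
          rw [Set.mem_singleton_iff.mp hh]; exact hcomm _ _ a.2.2 _ (hU a.1.1))⟩),
       by
        constructor
        · intro q hq hqo
          rw [Subgroup.orderOf_mk] at hqo
          have h1 := a.2.1 q hq (hqo.trans (hVo a.1.1))
          rcases Finset.mem_insert.mp h1 with h2 | h2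
          · exact absurd (h2 ▸ hqo) (hVp a.1.1)
          · exact h2
        · exact Subtype.ext (hcomm _ _ a.2.2 _ (hV a.1.1))⟩⟩
  have hπF : ∀ a, π (F a) = (U a.1.1, V a.1.1, a.1.2) := fun a => rfl
  apply Nat.card_le_card_of_injective F
  intro a a' h
  have h1 := congrArg π h
  rw [hπF, hπF] at h1
  simp only [Prod.mk.injEq] at h1
  obtain ⟨e1, e2, e3⟩ := h1
  apply Subtype.ext
  apply Prod.ext
  · rw [hUV a.1.1, hUV a'.1.1, e1, e2]
  · exact e3

theorem N_le (s : Finset ℕ) (hs : ∀ q ∈ s, q.Prime) : ∀ (G : Type u) [Group G] [Finite G],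
    Nat.card {pr : G × G // IsPi s pr.1 ∧ pr.1 * pr.2 = pr.2 * pr.1} ≤
      Nat.card G * ∏ q ∈ s, q ^ (Nat.card G).factorization q := by
  classical
  induction s using Finset.induction_on with
  | empty =>
    intro G _ _
    simp only [Finset.prod_empty, mul_one]
    apply Nat.card_le_card_of_injective (fun a => a.1.2)
    rintro ⟨⟨x, g⟩, hx, _⟩ ⟨⟨x', g'⟩, hx', _⟩ h
    have key : ∀ y : G, IsPi ∅ y → y = 1 := by
      intro y hy
      by_contra hne
      have h1 : orderOf y ≠ 1 := fun h => hne (orderOf_eq_one_iff.mp h)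
      exact absurd (hy _ (Nat.minFac_prime h1) (Nat.minFac_dvd _)) (Finset.notMem_empty _)
    have h1 : x = 1 := key x hx
    have h1' : x' = 1 := key x' hx'
    have h2 : g = g' := h
    subst h1 h1' h2
    rfl
  | insert p s hps ih =>
    intro G _ _
    have hp : p.Prime := hs p (Finset.mem_insert_self p s)
    have := Fact.mk hp
    have ih' := ih (fun q hq => hs q (Finset.mem_insert_of_mem hq))
    obtain ⟨P⟩ : Nonempty (Sylow p G) := inferInstance
    let _ : Fintype {u : G // ∃ k : ℕ, orderOf u = p ^ k} := Fintype.ofFinite _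
    have hG0 : Nat.card G ≠ 0 := Nat.card_pos.ne'
    have hmono : ∀ u : {u : G // ∃ k : ℕ, orderOf u = p ^ k},
        ∏ q ∈ s, q ^ (Nat.card (Subgroup.centralizer ({(u : G)} : Set G))).factorization q ≤
        ∏ q ∈ s, q ^ (Nat.card G).factorization q := by
      intro u
      apply Finset.prod_le_prod (fun q _ => Nat.zero_le _)
      intro q hq
      have hq' : q.Prime := hs q (Finset.mem_insert_of_mem hq)
      apply Nat.pow_le_pow_right hq'.pos
      have hdvd := Subgroup.card_subgroup_dvd_card (Subgroup.centralizer ({(u : G)} : Set G))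
      exact (Nat.factorization_le_iff_dvd Nat.card_pos.ne' hG0).mpr hdvd q
    calc Nat.card {pr : G × G // IsPi (insert p s) pr.1 ∧ pr.1 * pr.2 = pr.2 * pr.1}
        ≤ Nat.card (Σ u : {u : G // ∃ k : ℕ, orderOf u = p ^ k},
           {pr : (Subgroup.centralizer ({(u : G)} : Set G)) ×
              (Subgroup.centralizer ({(u : G)} : Set G)) //
              IsPi s pr.1 ∧ pr.1 * pr.2 = pr.2 * pr.1}) := step p s
      _ = ∑ u : {u : G // ∃ k : ℕ, orderOf u = p ^ k},
           Nat.card {pr : (Subgroup.centralizer ({(u : G)} : Set G)) ×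
              (Subgroup.centralizer ({(u : G)} : Set G)) //
              IsPi s pr.1 ∧ pr.1 * pr.2 = pr.2 * pr.1} := Nat.card_sigma
      _ ≤ ∑ u : {u : G // ∃ k : ℕ, orderOf u = p ^ k},
           Nat.card (Subgroup.centralizer ({(u : G)} : Set G)) *
             ∏ q ∈ s, q ^ (Nat.card G).factorization q :=
          Finset.sum_le_sum (fun u _ => (ih' _).trans (Nat.mul_le_mul_left _ (hmono u)))
      _ = (∑ u : {u : G // ∃ k : ℕ, orderOf u = p ^ k},
           Nat.card (Subgroup.centralizer ({(u : G)} : Set G))) *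
             ∏ q ∈ s, q ^ (Nat.card G).factorization q := (Finset.sum_mul _ _ _).symm
      _ = Nat.card (Σ u : {u : G // ∃ k : ℕ, orderOf u = p ^ k},
            Subgroup.centralizer ({(u : G)} : Set G)) *
             ∏ q ∈ s, q ^ (Nat.card G).factorization q := by rw [Nat.card_sigma]
      _ ≤ (Nat.card P * Nat.card G) * ∏ q ∈ s, q ^ (Nat.card G).factorization q :=
          Nat.mul_le_mul_right _ (card_pairs_le p P)
      _ = Nat.card G * ∏ q ∈ insert p s, q ^ (Nat.card G).factorization q := by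
          rw [Finset.prod_insert hps, P.card_eq_multiplicity]; ring

theorem classes_le (X : Set G) :
    Nat.card {C : ConjClasses G // ∀ x, ConjClasses.mk x = C → x ∈ X} * Nat.card G ≤
      Nat.card {pr : G × G // pr.1 ∈ X ∧ pr.1 * pr.2 = pr.2 * pr.1} := by
  rw [← Nat.card_prod]
  have ht : ∀ x : G, ∃ t : G, t * (Quotient.out (ConjClasses.mk x)) * t⁻¹ = x := by
    intro x
    have h1 : ConjClasses.mk (Quotient.out (ConjClasses.mk x)) = ConjClasses.mk x :=
      Quotient.out_eq _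
    rw [ConjClasses.mk_eq_mk_iff_isConj, isConj_iff] at h1
    exact h1
  choose t ht using ht
  have hmk : ∀ (C : ConjClasses G) (h : G), ConjClasses.mk (h * Quotient.out C * h⁻¹) = C := by
    intro C h
    have h1 : ConjClasses.mk (Quotient.out C) = C := Quotient.out_eq C
    conv_rhs => rw [← h1]
    rw [ConjClasses.mk_eq_mk_iff_isConj, isConj_iff]
    exact ⟨h⁻¹, by group⟩
  have hcomm : ∀ (C : ConjClasses G) (h : G),
      (h * Quotient.out C * h⁻¹) * (h * (t (h * Quotient.out C * h⁻¹))⁻¹) =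
      (h * (t (h * Quotient.out C * h⁻¹))⁻¹) * (h * Quotient.out C * h⁻¹) := by
    intro C h
    have h1 := ht (h * Quotient.out C * h⁻¹)
    rw [hmk C h] at h1
    have h2 : (t (h * Quotient.out C * h⁻¹))⁻¹ * (h * Quotient.out C * h⁻¹) =
        Quotient.out C * (t (h * Quotient.out C * h⁻¹))⁻¹ := by
      nth_rewrite 2 [← h1]
      group
    rw [mul_assoc h _ (h * Quotient.out C * h⁻¹), h2]
    group
  let F : {C : ConjClasses G // ∀ x, ConjClasses.mk x = C → x ∈ X} × G →
      {pr : G × G // pr.1 ∈ X ∧ pr.1 * pr.2 = pr.2 * pr.1} :=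
    fun a => ⟨(a.2 * Quotient.out a.1.1 * a.2⁻¹,
      a.2 * (t (a.2 * Quotient.out a.1.1 * a.2⁻¹))⁻¹),
      a.1.2 _ (hmk a.1.1 a.2), hcomm a.1.1 a.2⟩
  apply Nat.card_le_card_of_injective F
  rintro ⟨⟨C, hC⟩, h⟩ ⟨⟨C', hC'⟩, h'⟩ heq
  have e1 : h * Quotient.out C * h⁻¹ = h' * Quotient.out C' * h'⁻¹ :=
    congrArg (fun a => a.1.1) heq
  have e2 : h * (t (h * Quotient.out C * h⁻¹))⁻¹ = h' * (t (h' * Quotient.out C' * h'⁻¹))⁻¹ :=
    congrArg (fun a => a.1.2) heq
  have e3 : C = C' := by rw [← hmk C h, ← hmk C' h', e1]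
  subst e3
  rw [e1] at e2
  have e4 : h = h' := mul_right_cancel e2
  subst e4
  rfl

theorem main (π : Set ℕ)
    (m : ℕ) (hm : m ∣ Nat.card G) (hmπ : ∀ q : ℕ, q.Prime → q ∣ m → q ∈ π)
    (hm' : ∀ q ∈ π, ¬ q ∣ Nat.card G / m) :
    Nat.card {C : ConjClasses G // ∀ q : ℕ, q.Prime →
      (∃ g : G, ConjClasses.mk g = C ∧ q ∣ orderOf g) → q ∈ π} ≤ m := by
  have hG0 : Nat.card G ≠ 0 := Nat.card_pos.ne'
  have hm0 : m ≠ 0 := fun h => hG0 (by rw [h] at hm; exact zero_dvd_iff.mp hm)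
  have hcard : Nat.card G = m * (Nat.card G / m) := (Nat.mul_div_cancel' hm).symm
  have hc0 : Nat.card G / m ≠ 0 := by
    intro h
    rw [h, mul_zero] at hcard
    exact hG0 hcard
  let X : Set G := {x | IsPi m.primeFactors x}
  have h1 : Nat.card {C : ConjClasses G // ∀ q : ℕ, q.Prime →
      (∃ g : G, ConjClasses.mk g = C ∧ q ∣ orderOf g) → q ∈ π} ≤
      Nat.card {C : ConjClasses G // ∀ x, ConjClasses.mk x = C → x ∈ X} := by
    have hsub : ∀ C : ConjClasses G, (∀ q : ℕ, q.Prime →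
        (∃ g : G, ConjClasses.mk g = C ∧ q ∣ orderOf g) → q ∈ π) →
        ∀ x, ConjClasses.mk x = C → x ∈ X := by
      intro C hC x hx q hq hqo
      have hqπ : q ∈ π := hC q hq ⟨x, hx, hqo⟩
      have hqG : q ∣ Nat.card G := hqo.trans (orderOf_dvd_natCard x)
      rw [hcard] at hqG
      rcases (Nat.Prime.dvd_mul hq).mp hqG with h | h
      · exact Nat.mem_primeFactors.mpr ⟨hq, h, hm0⟩
      · exact absurd h (hm' q hqπ)
    exact Nat.card_le_card_of_injective (fun C => ⟨C.1, hsub C.1 C.2⟩)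
      (fun C C' h => Subtype.ext (Subtype.mk.injEq _ _ _ _ ▸ h))
  have h2 := classes_le X
  have h3 := N_le m.primeFactors (fun q hq => Nat.prime_of_mem_primeFactors hq) G
  have h4 : ∏ q ∈ m.primeFactors, q ^ (Nat.card G).factorization q = m := by
    have h5 : ∀ q ∈ m.primeFactors, q ^ (Nat.card G).factorization q = q ^ m.factorization q := by
      intro q hq
      have hqp := Nat.prime_of_mem_primeFactors hq
      have hqm := Nat.dvd_of_mem_primeFactors hq
      rw [hcard, Nat.factorization_mul hm0 hc0]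
      simp [Nat.factorization_eq_zero_of_not_dvd (hm' q (hmπ q hqp hqm))]
    rw [Finset.prod_congr rfl h5]
    exact Nat.factorization_prod_pow_eq_self hm0
  rw [h4] at h3
  have h5 : Nat.card {C : ConjClasses G // ∀ x, ConjClasses.mk x = C → x ∈ X} * Nat.card G ≤
      m * Nat.card G := by
    rw [mul_comm m]
    exact h2.trans h3
  exact h1.trans (Nat.le_of_mul_le_mul_right h5 Nat.card_pos)

end

/-- Let G be a finite group, π a set of primes and m the π-part of the order of G. Then the number of conjugacy classes of G consisting of π-elements (elements whose order is divisible only by primes in π) is at most m. -/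
theorem result {G : Type*} [Group G] [Finite G]
    (π : Set ℕ) (hπ : ∀ q ∈ π, q.Prime)
    (m : ℕ) (hm : m ∣ Nat.card G) (hmπ : ∀ q : ℕ, q.Prime → q ∣ m → q ∈ π)
    (hm' : ∀ q ∈ π, ¬ q ∣ Nat.card G / m) :
    Nat.card {C : ConjClasses G // ∀ q : ℕ, q.Prime → (∃ g : G, ConjClasses.mk g = C ∧ q ∣ orderOf g) → q ∈ π} ≤ m := by
  exact main π m hm hmπ hm'

end Cfsg.Agent.S4106
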