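import Cfsg.Statements.S4107
-- import your own Cfsg.Agent.* helpers here
import Mathlib
import Cfsg.Agent.Lib.Helper7.PCore

set_option autoImplicit false
open Cfsg

namespace Cfsg.Agent.S4107

section
universe u
open Cfsg.Agent.Lib.Helper7
variable {G : Type u} [Group G] [Finite G]

theorem key (N : Subgroup G) (heq : ∀ x : G, x ∉ N → ∀ n ∈ N, orderOf (x * n) = orderOf x)
    (p : ℕ) [Fact p.Prime] (x : G) (hx : x ∈ Cfsg.pCore p G) (hxN : x ∉ N) : IsPGroup p N := by
  have hn := pCore_normal p G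
  intro n
  obtain ⟨a, ha⟩ := pCore_isPGroup p G ⟨x, hx⟩
  have ha' : x ^ (p ^ a) = 1 := by simpa using congrArg Subtype.val ha
  have h1 : (x * (n : G)) ^ (p ^ a) = 1 := by
    rw [← orderOf_dvd_iff_pow_eq_one, heq x hxN n n.2, orderOf_dvd_iff_pow_eq_one]
    exact ha'
  have h2 : (n : G) ^ (p ^ a) ∈ Cfsg.pCore p G := by
    rw [← QuotientGroup.eq_one_iff, QuotientGroup.mk_pow]
    have h3 : (QuotientGroup.mk (x * (n : G)) : G ⧸ Cfsg.pCore p G) = QuotientGroup.mk (n : G) := by
      rw [QuotientGroup.mk_mul, (QuotientGroup.eq_one_iff x).2 hx, one_mul]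
    rw [← h3, ← QuotientGroup.mk_pow, h1, QuotientGroup.mk_one]
  obtain ⟨b, hb⟩ := pCore_isPGroup p G ⟨_, h2⟩
  have hb' : ((n : G) ^ (p ^ a)) ^ (p ^ b) = 1 := by simpa using congrArg Subtype.val hb
  refine ⟨a + b, Subtype.ext ?_⟩
  rw [pow_add, pow_mul]
  simpa using hb'

theorem eq_one_of_two_primes {p q : ℕ} (hp : p.Prime) (hq : q.Prime) (hpq : p ≠ q) {a b : ℕ}
    {n : G} (ha : n ^ (p ^ a) = 1) (hb : n ^ (q ^ b) = 1) : n = 1 := by
  have h1 := orderOf_dvd_of_pow_eq_one ha
  have h2 := orderOf_dvd_of_pow_eq_one hb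
  have hcop : Nat.Coprime (p ^ a) (q ^ b) :=
    Nat.Coprime.pow _ _ ((Nat.coprime_primes hp hq).2 hpq)
  exact orderOf_eq_one_iff.1 (Nat.eq_one_of_dvd_coprimes hcop h1 h2)

theorem main (N : Subgroup G) [N.Normal] (hN1 : N ≠ ⊥)
    (heq : ∀ x : G, x ∉ N → ∀ n ∈ N, orderOf (x * n) = orderOf x) :
    (N ≤ Cfsg.fittingSubgroup G ∨ Cfsg.fittingSubgroup G ≤ N) ∧
    (N < Cfsg.fittingSubgroup G → IsPrimePow (Nat.card (Cfsg.fittingSubgroup G))) := by
  have hdich : Cfsg.fittingSubgroup G ≤ N ∨
      ∃ (p : ℕ) (_ : Fact p.Prime), IsPGroup p N ∧ ¬ Cfsg.pCore p G ≤ N := by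
    by_cases h : ∀ p : Nat.Primes, Cfsg.pCore (p : ℕ) G ≤ N
    · left
      rw [fitting_eq_pCoreJoin]
      exact iSup_le h
    · right
      push Not at h
      obtain ⟨p, hp⟩ := h
      have hpf : Fact (p : ℕ).Prime := ⟨p.2⟩
      obtain ⟨x, hx, hxN⟩ := SetLike.not_le_iff_exists.1 hp
      exact ⟨p, hpf, key N heq p x hx hxN, hp⟩
  constructor
  · rcases hdich with h | ⟨p, hp, hpN, _⟩
    · right; exact h
    · left; exact (le_pCore inferInstance hpN).trans (pCore_le_fitting p G)
  · intro hlt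
    rcases hdich with h | ⟨p, hp, hpN, hpc⟩
    · exact absurd (lt_of_lt_of_le hlt h) (lt_irrefl _)
    · have hF : Cfsg.fittingSubgroup G = Cfsg.pCore p G := by
        apply le_antisymm _ (pCore_le_fitting p G)
        rw [fitting_eq_pCoreJoin]
        apply iSup_le
        intro q
        have hqf : Fact (q : ℕ).Prime := ⟨q.2⟩
        by_cases hqp : (q : ℕ) = p
        · exact hqp ▸ le_refl _
        · have hqN : Cfsg.pCore (q : ℕ) G ≤ N := by
            by_contra hq'
            obtain ⟨x, hx, hxN⟩ := SetLike.not_le_iff_exists.1 hq'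
            have hqg := key N heq q x hx hxN
            apply hN1
            rw [Subgroup.eq_bot_iff_forall]
            intro n hn
            obtain ⟨a, ha⟩ := hpN ⟨n, hn⟩
            obtain ⟨b, hb⟩ := hqg ⟨n, hn⟩
            have ha' : n ^ (p ^ a) = 1 := by simpa using congrArg Subtype.val ha
            have hb' : n ^ ((q : ℕ) ^ b) = 1 := by simpa using congrArg Subtype.val hb
            exact eq_one_of_two_primes hp.out q.2 (fun h => hqp h.symm) ha' hb'
          intro y hy
          have hyN := hqN hy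
          obtain ⟨a, ha⟩ := hpN ⟨y, hyN⟩
          obtain ⟨b, hb⟩ := pCore_isPGroup (q : ℕ) G ⟨y, hy⟩
          have ha' : y ^ (p ^ a) = 1 := by simpa using congrArg Subtype.val ha
          have hb' : y ^ ((q : ℕ) ^ b) = 1 := by simpa using congrArg Subtype.val hb
          rw [eq_one_of_two_primes hp.out q.2 (fun h => hqp h.symm) ha' hb']
          exact one_mem _
      rw [hF]
      obtain ⟨k, hk⟩ := (pCore_isPGroup p G).exists_card_eq
      rw [hk, isPrimePow_nat_iff]
      refine ⟨p, k, hp.out, ?_, rfl⟩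
      by_contra hk0
      have hk0' : k = 0 := by omega
      rw [hk0', pow_zero, Subgroup.card_eq_one] at hk
      apply hN1
      rw [eq_bot_iff, ← hk]
      exact le_pCore inferInstance hpN

end

/-- Let G be a finite group and N a proper non-trivial normal subgroup such that for every x outside N all elements of the coset xN have the same order as x. Then N ≤ F(G) or F(G) ≤ N, where F(G) is the Fitting subgroup; and if N is properly contained in F(G) then F(G) has prime-power order. -/
theorem result {G : Type*} [Group G] [Finite G] (N : Subgroup G) [N.Normal] (hN1 : N ≠ ⊥) (hN2 : N ≠ ⊤)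
    (heq : ∀ x : G, x ∉ N → ∀ n ∈ N, orderOf (x * n) = orderOf x) :
    (N ≤ Cfsg.fittingSubgroup G ∨ Cfsg.fittingSubgroup G ≤ N) ∧
    (N < Cfsg.fittingSubgroup G → IsPrimePow (Nat.card (Cfsg.fittingSubgroup G))) := by
  exact main N hN1 heq

end Cfsg.Agent.S4107
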