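import Cfsg.Statements.S4108
-- import your own Cfsg.Agent.* helpers here
import Mathlib
import Cfsg.Agent.Lib.Helper7.Coprime
import Cfsg.Agent.Lib.Helper7.Compl

set_option autoImplicit false
open Cfsg

namespace Cfsg.Agent.S4108

section
universe u
open scoped Pointwise
open Cfsg.Agent.Lib.Helper7
variable {G : Type u} [Group G] [Finite G]

theorem cop (N H : Subgroup G) (p : ℕ) [Fact p.Prime] (hNp : IsPGroup p N)
    (hH : (Nat.card H).Coprime p) : (Nat.card H).Coprime (Nat.card N) := by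
  obtain ⟨n, hn⟩ := hNp.exists_card_eq
  rw [hn]
  exact Nat.Coprime.pow_right n hH

theorem fpf (N : Subgroup G) (heq : ∀ x : G, x ∉ N → ∀ n ∈ N, orderOf (x * n) = orderOf x)
    (H : Subgroup G) (hcop : (Nat.card H).Coprime (Nat.card N)) (h : G) (hh : h ∈ H) (hh1 : h ≠ 1)
    (m : G) (hm : m ∈ N) (hc : m * h = h * m) : m = 1 := by
  have hhN : h ∉ N := fun hN => hh1 (eq_one_of_mem_of_mem_coprime hcop hh hN)
  have h1 := heq h hhN m hm
  have hcomm : Commute h m := hc.symm
  have hco : (orderOf h).Coprime (orderOf m) :=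
    Nat.Coprime.coprime_dvd_left (Subgroup.orderOf_dvd_natCard H hh)
      (Nat.Coprime.coprime_dvd_right (Subgroup.orderOf_dvd_natCard N hm) hcop)
  rw [hcomm.orderOf_mul_eq_mul_orderOf_of_coprime hco] at h1
  have hpos : 0 < orderOf h := orderOf_pos h
  have h2 : orderOf m = 1 := by
    have : orderOf h * orderOf m = orderOf h * 1 := by rw [h1, mul_one]
    exact Nat.eq_of_mul_eq_mul_left hpos this
  exact orderOf_eq_one_iff.1 h2

theorem conj_into (N : Subgroup G) [N.Normal]
    (heq : ∀ x : G, x ∉ N → ∀ n ∈ N, orderOf (x * n) = orderOf x)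
    (H : Subgroup G) (hcop : (Nat.card H).Coprime (Nat.card N)) (x : G) (hx : x ∈ N ⊔ H)
    (hxN : x ∉ N) : ∃ m ∈ N, m⁻¹ * x * m ∈ H := by
  obtain ⟨n, hn, h, hh, rfl⟩ := exists_mul_of_mem_sup (N := N) (A := H)
    (by rw [Subgroup.normalizer_eq_top]; exact le_top) hx
  have hh1 : h ≠ 1 := by
    rintro rfl
    exact hxN (by simpa using hn)
  let f : N → N := fun m => ⟨(m : G) * h * (m : G)⁻¹ * h⁻¹, by
      have h1 : h * (m : G)⁻¹ * h⁻¹ ∈ N :=
        Subgroup.Normal.conj_mem inferInstance _ (inv_mem m.2) h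
      have h2 := mul_mem m.2 h1
      simpa [mul_assoc] using h2⟩
  have hinj : Function.Injective f := by
    intro a b hab
    have h1 : (a : G) * h * (a : G)⁻¹ * h⁻¹ = (b : G) * h * (b : G)⁻¹ * h⁻¹ :=
      congrArg Subtype.val hab
    have h2 : (a : G) * h * (a : G)⁻¹ = (b : G) * h * (b : G)⁻¹ := mul_right_cancel h1
    have h3 : ((b : G)⁻¹ * a) * h = h * ((b : G)⁻¹ * a) := by
      calc (b : G)⁻¹ * a * h = (b : G)⁻¹ * ((a : G) * h * (a : G)⁻¹) * a := by group
        _ = (b : G)⁻¹ * ((b : G) * h * (b : G)⁻¹) * a := by rw [h2]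
        _ = h * ((b : G)⁻¹ * a) := by group
    have h4 := fpf N heq H hcop h hh hh1 ((b : G)⁻¹ * a) (mul_mem (inv_mem b.2) a.2) h3
    apply Subtype.ext
    exact (inv_mul_eq_one.1 h4).symm
  obtain ⟨m, hm⟩ := (Finite.injective_iff_surjective.1 hinj) ⟨n, hn⟩
  have hm' : (m : G) * h * (m : G)⁻¹ * h⁻¹ = n := congrArg Subtype.val hm
  refine ⟨m, m.2, ?_⟩
  have h5 : (m : G)⁻¹ * (n * h) * m = h := by
    rw [← hm']; group
  rw [h5]
  exact hh

theorem main (N : Subgroup G) [N.Normal] (hN1 : N ≠ ⊥)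
    (heq : ∀ x : G, x ∉ N → ∀ n ∈ N, orderOf (x * n) = orderOf x)
    (p : ℕ) [Fact p.Prime] (hNp : IsPGroup p N) (H : Subgroup G) (hH1 : H ≠ ⊥)
    (hH : (Nat.card H).Coprime p) :
    Cfsg.IsFrobeniusComplement (H.subgroupOf (N ⊔ H)) ∧
      Cfsg.frobeniusKernel (H.subgroupOf (N ⊔ H)) = (N.subgroupOf (N ⊔ H) : Set ↥(N ⊔ H)) := by
  have hcop := cop N H p hNp hH
  have hnorm : H ≤ Subgroup.normalizer (N : Set G) := by
    rw [Subgroup.normalizer_eq_top]; exact le_top
  refine ⟨⟨?_, ?_, ?_⟩, ?_⟩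
  · intro h
    rw [Subgroup.subgroupOf_eq_bot] at h
    apply hH1
    have := h.eq_bot
    rwa [inf_of_le_left (le_sup_right : H ≤ N ⊔ H)] at this
  · intro h
    rw [Subgroup.subgroupOf_eq_top] at h
    have hNH : N ≤ H := le_sup_left.trans h
    apply hN1
    rw [Subgroup.eq_bot_iff_forall]
    intro x hx
    exact eq_one_of_mem_of_mem_coprime hcop (hNH hx) hx
  · intro g hg
    rw [Subgroup.eq_bot_iff_forall]
    intro y hy
    obtain ⟨hy1, hy2⟩ := Subgroup.mem_inf.1 hy
    rw [mem_conj_smul_iff] at hy2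
    rw [Subgroup.mem_subgroupOf] at hy1 hy2 hg
    obtain ⟨n, hn, h, hh, hgnh⟩ := exists_mul_of_mem_sup (N := N) (A := H) hnorm g.2
    have hy2' : (g : G)⁻¹ * (y : G) * (g : G) ∈ H := by simpa using hy2
    have h1 : n⁻¹ * (y : G) * n ∈ H := by
      have h0 := mul_mem (mul_mem hh hy2') (inv_mem hh)
      rw [hgnh] at h0
      have h00 : h * ((n * h)⁻¹ * (y : G) * (n * h)) * h⁻¹ = n⁻¹ * (y : G) * n := by group
      rwa [h00] at h0
    have h2 : (y : G)⁻¹ * (n⁻¹ * (y : G) * n) ∈ H := mul_mem (inv_mem hy1) h1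
    have h3 : (y : G)⁻¹ * (n⁻¹ * (y : G) * n) ∈ N := by
      have h30 : (y : G)⁻¹ * n⁻¹ * ((y : G)⁻¹)⁻¹ ∈ N :=
        Subgroup.Normal.conj_mem (inferInstance : N.Normal) _ (inv_mem hn) (y : G)⁻¹
      have h31 := mul_mem h30 hn
      have h32 : (y : G)⁻¹ * n⁻¹ * ((y : G)⁻¹)⁻¹ * n = (y : G)⁻¹ * (n⁻¹ * (y : G) * n) := by group
      rwa [h32] at h31
    have h4 := eq_one_of_mem_of_mem_coprime hcop h2 h3
    have h5 : n * (y : G) = (y : G) * n := by
      have h50 : n⁻¹ * (y : G) * n = y := (inv_mul_eq_one.1 h4).symm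
      calc n * (y : G) = n * (n⁻¹ * (y : G) * n) := by rw [h50]
        _ = y * n := by group
    by_contra hy_ne
    have hyne : (y : G) ≠ 1 := fun h => hy_ne (Subtype.ext h)
    have hn1 := fpf N heq H hcop (y : G) hy1 hyne n hn h5
    apply hg
    rw [hgnh, hn1, one_mul]
    exact hh
  · ext x
    simp only [Cfsg.frobeniusKernel, Set.mem_setOf_eq, SetLike.mem_coe, Subgroup.mem_subgroupOf]
    constructor
    · rintro (rfl | h)
      · exact one_mem N
      · by_contra hxN
        obtain ⟨m, hm, hmx⟩ := conj_into N heq H hcop (x : G) x.2 hxN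
        apply h ⟨m, (le_sup_left : N ≤ N ⊔ H) hm⟩
        rw [mem_conj_smul_iff, Subgroup.mem_subgroupOf]
        simpa using hmx
    · intro hxN
      by_cases hx1 : x = 1
      · left; exact hx1
      · right
        intro g hg
        rw [mem_conj_smul_iff, Subgroup.mem_subgroupOf] at hg
        have h2 : ((g⁻¹ * x * g : ↥(N ⊔ H)) : G) ∈ N := by
          have := Subgroup.Normal.conj_mem (inferInstance : N.Normal) _ hxN (g : G)⁻¹
          simpa using this
        have h3 := eq_one_of_mem_of_mem_coprime hcop hg h2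
        apply hx1
        have h4 : g⁻¹ * x * g = 1 := Subtype.ext h3
        have h5 : x = g * (g⁻¹ * x * g) * g⁻¹ := by group
        rw [h5, h4]; group

end

/-- Let G be a finite group, p a prime and N a proper non-trivial normal p-subgroup such that for every x outside N all elements of the coset xN have the same order as x. Then every non-trivial subgroup H of G of order prime to p acts fixed-point-freely on N: NH is a Frobenius group with complement H and kernel N. -/
theorem result {G : Type*} [Group G] [Finite G] (N : Subgroup G) [N.Normal] (hN1 : N ≠ ⊥) (hN2 : N ≠ ⊤)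
    (heq : ∀ x : G, x ∉ N → ∀ n ∈ N, orderOf (x * n) = orderOf x)
    (p : ℕ) [Fact p.Prime] (hNp : IsPGroup p N) :
    ∀ H : Subgroup G, H ≠ ⊥ → (Nat.card H).Coprime p →
      Cfsg.IsFrobeniusComplement (H.subgroupOf (N ⊔ H)) ∧ Cfsg.frobeniusKernel (H.subgroupOf (N ⊔ H)) = (N.subgroupOf (N ⊔ H) : Set ↥(N ⊔ H)) := by
  intro H hH1 hH
  exact main N hN1 heq p hNp H hH1 hH

end Cfsg.Agent.S4108
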