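import Cfsg.Statements.S4112
-- import your own Cfsg.Agent.* helpers here
import Mathlib
import Cfsg.Agent.Lib.Helper7.Compl

set_option autoImplicit false
open Cfsg

namespace Cfsg.Agent.S4112

section
universe u
open scoped Pointwise
open Cfsg.Agent.Lib.Helper7

/-- Frattini argument + Schur–Zassenhaus: a normal subgroup `K` with `q ∣ |K|`, `q ∤ [H : K]`
has a proper supplement. -/
theorem frat_step {H : Type u} [Group H] [Finite H] (K : Subgroup H) [K.Normal] (q : ℕ)
    [Fact q.Prime] (hq : q ∣ Nat.card K) (hidx : ¬ q ∣ K.index) :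
    ∃ C : Subgroup H, C ⊔ K = ⊤ ∧ C ≠ ⊤ := by
  obtain ⟨Q⟩ : Nonempty (Sylow q K) := inferInstance
  obtain ⟨Q', hQ'⟩ : ∃ Q' : Subgroup H, Q' = (Q : Subgroup K).map K.subtype := ⟨_, rfl⟩
  have hL : Subgroup.normalizer ((Q' : Subgroup H) : Set H) ⊔ K = ⊤ := by
    rw [hQ']; exact Sylow.normalizer_sup_eq_top Q
  by_cases hLt : Subgroup.normalizer ((Q' : Subgroup H) : Set H) = ⊤
  · have hnorm : Q'.Normal := Subgroup.normalizer_eq_top_iff.1 hLt
    have hQK : Q' ≤ K := by rw [hQ']; exact Subgroup.map_subtype_le _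
    have hcard : Nat.card Q' = q ^ (Nat.card K).factorization q := by
      rw [hQ', Subgroup.card_map_of_injective (Subgroup.subtype_injective _)]
      exact Sylow.card_eq_multiplicity Q
    have hvpos : 0 < (Nat.card K).factorization q :=
      (Fact.out : q.Prime).factorization_pos_of_dvd Nat.card_pos.ne' hq
    have hsub : Q'.subgroupOf K = (Q : Subgroup K) := by
      rw [hQ']
      exact Subgroup.comap_map_eq_self_of_injective (Subgroup.subtype_injective _) _
    have hidx' : ¬ q ∣ Q'.index := by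
      rw [← Subgroup.relIndex_mul_index hQK]
      intro hd
      rcases (Nat.Prime.dvd_mul Fact.out).1 hd with h | h
      · have : Q'.relIndex K = (Q : Subgroup K).index := by
          rw [Subgroup.relIndex, hsub]
        rw [this] at h
        exact Sylow.not_dvd_index Q h
      · exact hidx h
    have hcop : Nat.Coprime (Nat.card Q') Q'.index := by
      rw [hcard]
      exact Nat.Coprime.pow_left _ ((Nat.Prime.coprime_iff_not_dvd Fact.out).2 hidx')
    obtain ⟨C, hC⟩ := Subgroup.exists_right_complement'_of_coprime hcop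
    refine ⟨C, ?_, ?_⟩
    · rw [eq_top_iff, ← hC.sup_eq_top, sup_comm]
      exact sup_le_sup_left hQK C
    · intro hCt
      have hcm := hC.card_mul_card
      rw [hCt, Subgroup.card_top] at hcm
      have h1 : Nat.card Q' = 1 := by
        have : Nat.card Q' * Nat.card H = 1 * Nat.card H := by rw [hcm, one_mul]
        exact Nat.eq_of_mul_eq_mul_right Nat.card_pos this
      rw [hcard] at h1
      have := Nat.one_lt_pow hvpos.ne' (Fact.out : q.Prime).one_lt
      omega
  · exact ⟨_, hL, hLt⟩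

theorem supp_step {G : Type u} [Group G] [Finite G] (N M : Subgroup G) [N.Normal]
    (hMN : M ≤ N) (hcop : N.index.Coprime (Nat.card M)) (H : Subgroup G) (hHN : H ⊔ N = ⊤)
    (hHM : H ⊓ M ≠ ⊥) : ∃ H' : Subgroup G, H' ⊔ N = ⊤ ∧ Nat.card H' < Nat.card H := by
  have hcard1 : Nat.card (H ⊓ M : Subgroup G) ≠ 1 := by
    intro h
    exact hHM (Subgroup.card_eq_one.1 h)
  obtain ⟨q, hq, hqd⟩ := Nat.exists_prime_and_dvd hcard1
  have := Fact.mk hq
  have hK : (N.subgroupOf H).Normal := Subgroup.Normal.subgroupOf inferInstance H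
  have hqK : q ∣ Nat.card (N.subgroupOf H) := by
    have e : Nat.card (N.subgroupOf H) = Nat.card (N ⊓ H : Subgroup G) := by
      rw [← Subgroup.inf_subgroupOf_right]
      exact card_subgroupOf_of_le inf_le_right
    rw [e]
    exact hqd.trans (Subgroup.card_dvd_of_le (le_inf (inf_le_right.trans hMN) inf_le_left))
  have hqM : q ∣ Nat.card M := hqd.trans (Subgroup.card_dvd_of_le inf_le_right)
  have hidx : ¬ q ∣ (N.subgroupOf H).index := by
    have e : (N.subgroupOf H).index = N.index := by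
      have h1 : N.relIndex (H ⊔ N) = N.relIndex H := Subgroup.relIndex_sup_right H N
      rw [hHN, Subgroup.relIndex_top_right] at h1
      exact h1.symm
    rw [e]
    intro hd
    have := Nat.dvd_gcd hd hqM
    rw [hcop] at this
    exact hq.one_lt.ne' (Nat.dvd_one.1 this)
  obtain ⟨C, hC1, hC2⟩ := frat_step (N.subgroupOf H) q hqK hidx
  refine ⟨C.map H.subtype, ?_, ?_⟩
  · have h1 : (C ⊔ N.subgroupOf H).map H.subtype = H := by
      rw [hC1, ← MonoidHom.range_eq_map, Subgroup.range_subtype]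
    rw [Subgroup.map_sup, Subgroup.subgroupOf_map_subtype] at h1
    rw [eq_top_iff, ← hHN]
    apply sup_le _ le_sup_right
    calc H = C.map H.subtype ⊔ N ⊓ H := h1.symm
      _ ≤ C.map H.subtype ⊔ N := sup_le_sup_left inf_le_left _
  · rw [Subgroup.card_map_of_injective (Subgroup.subtype_injective _)]
    exact card_lt_of_ne_top hC2

theorem exists_supp {G : Type u} [Group G] [Finite G] (N M : Subgroup G) [N.Normal]
    (hMN : M ≤ N) (hcop : N.index.Coprime (Nat.card M)) :
    ∃ H : Subgroup G, H ⊔ N = ⊤ ∧ H ⊓ M = ⊥ := by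
  have key : ∀ n : ℕ, ∀ H : Subgroup G, Nat.card H = n → H ⊔ N = ⊤ →
      ∃ H' : Subgroup G, H' ⊔ N = ⊤ ∧ H' ⊓ M = ⊥ := by
    intro n
    induction n using Nat.strong_induction_on with
    | _ n ih =>
      intro H hn hHN
      by_cases hHM : H ⊓ M = ⊥
      · exact ⟨H, hHN, hHM⟩
      · obtain ⟨H', h1, h2⟩ := supp_step N M hMN hcop H hHN hHM
        exact ih (Nat.card H') (hn ▸ h2) H' rfl h1
  exact key _ ⊤ rfl (top_sup_eq N)


theorem fwd {G : Type u} [Group G] [Finite G] (N M : Subgroup G) [N.Normal] [M.Normal]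
    (hcent : ∀ x ∈ M, x ≠ 1 → Subgroup.centralizer ({x} : Set G) ≤ N) :
    N.index.Coprime (Nat.card M) := by
  apply Nat.coprime_of_dvd
  intro p hp hpN hpM
  have := Fact.mk hp
  obtain ⟨P⟩ : Nonempty (Sylow p G) := inferInstance
  letI : MulAction (P : Subgroup G) M :=
    MulAction.compHom M ((MulAut.conjNormal (H := M)).comp (P : Subgroup G).subtype)
  have hfix1 : (1 : M) ∈ MulAction.fixedPoints (P : Subgroup G) M := by
    intro u
    show (MulAut.conjNormal (u : G) : MulAut M) 1 = 1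
    exact map_one _
  obtain ⟨b, hb, hb1⟩ :=
    P.isPGroup'.exists_fixed_point_of_prime_dvd_card_of_fixed_point M hpM hfix1
  have hbne : (b : G) ≠ 1 := fun h => hb1 (Subtype.ext h).symm
  have hPC : (P : Subgroup G) ≤ Subgroup.centralizer ({(b : G)} : Set G) := by
    intro u hu
    rw [Subgroup.mem_centralizer_iff]
    intro w hw
    rw [Set.mem_singleton_iff] at hw
    rw [hw]
    have h1 := hb ⟨u, hu⟩
    have h2 : (MulAut.conjNormal u : MulAut M) b = b := h1
    have h3 := congrArg Subtype.val h2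
    rw [MulAut.conjNormal_apply] at h3
    calc (b : G) * u = (u * b * u⁻¹) * u := by rw [h3]
      _ = u * b := by group
  have hPN : (P : Subgroup G) ≤ N := hPC.trans (hcent b b.2 hbne)
  exact Sylow.not_dvd_index P (hpN.trans (Subgroup.index_dvd_of_le hPN))

theorem bwd {G : Type u} [Group G] [Finite G] (N M : Subgroup G) [N.Normal] [M.Normal]
    (hcam : ∀ g : G, g ∉ N → ∀ m ∈ M, ∃ x : G, x * g * x⁻¹ = g * m)
    (hcop : N.index.Coprime (Nat.card M)) :
    ∀ x ∈ M, x ≠ 1 → Subgroup.centralizer ({x} : Set G) ≤ N := by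
  intro x hxM hx1 c hc
  by_contra hcN
  rw [Subgroup.mem_centralizer_iff] at hc
  have hcx : x * c = c * x := hc x rfl
  have hox : orderOf x ≠ 1 := fun h => hx1 (orderOf_eq_one_iff.1 h)
  obtain ⟨p, hp, hpx⟩ := Nat.exists_prime_and_dvd hox
  have := Fact.mk hp
  obtain ⟨y, hy⟩ : ∃ y, y = x ^ (orderOf x / p) := ⟨_, rfl⟩
  have hoy : orderOf y = p := by
    rw [hy]; exact orderOf_pow_orderOf_div (orderOf_pos x).ne' hpx
  have hyM : y ∈ M := hy ▸ Subgroup.pow_mem _ hxM _
  have hyc : Commute c y := by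
    rw [hy]
    have h0 : Commute c x := hcx.symm
    exact h0.pow_right _
  have hpM : p ∣ Nat.card M := hoy ▸ Subgroup.orderOf_dvd_natCard M hyM
  have hpN : ¬ p ∣ N.index := fun hd => by
    have := Nat.dvd_gcd hd hpM
    rw [hcop] at this
    exact hp.one_lt.ne' (Nat.dvd_one.1 this)
  have hoc0 : orderOf c ≠ 0 := (orderOf_pos c).ne'
  obtain ⟨k, hk⟩ : ∃ k, k = (orderOf c).factorization p := ⟨_, rfl⟩
  obtain ⟨c', hc'⟩ : ∃ c', c' = c ^ (p ^ k) := ⟨_, rfl⟩
  have hoc' : orderOf c' = orderOf c / p ^ k := by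
    rw [hc']
    exact orderOf_pow_of_dvd (pow_ne_zero _ hp.ne_zero) (hk ▸ Nat.ordProj_dvd _ _)
  have hcop' : (orderOf c').Coprime p := by
    rw [hoc', hk]; exact (Nat.coprime_ordCompl hp hoc0).symm
  have hc'N : c' ∉ N := by
    intro h
    apply hcN
    have h1 : (QuotientGroup.mk c : G ⧸ N) ^ (p ^ k) = 1 := by
      rw [← QuotientGroup.mk_pow, QuotientGroup.eq_one_iff, ← hc']; exact h
    have h2 : (QuotientGroup.mk c : G ⧸ N) ^ N.index = 1 := by
      rw [Subgroup.index_eq_card]; exact pow_card_eq_one'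
    have h3 : orderOf (QuotientGroup.mk c : G ⧸ N) ∣ Nat.gcd (p ^ k) N.index :=
      Nat.dvd_gcd (orderOf_dvd_of_pow_eq_one h1) (orderOf_dvd_of_pow_eq_one h2)
    have h4 : Nat.gcd (p ^ k) N.index = 1 :=
      Nat.Coprime.pow_left k ((Nat.Prime.coprime_iff_not_dvd hp).2 hpN)
    rw [h4, Nat.dvd_one, orderOf_eq_one_iff, QuotientGroup.eq_one_iff] at h3
    exact h3
  have hc'y : Commute c' y := by rw [hc']; exact hyc.pow_left _
  obtain ⟨g, hg⟩ := hcam c' hc'N y hyM
  have ho1 : orderOf (c' * y) = orderOf c' := by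
    rw [← hg]
    have := (MulAut.conj g).orderOf_eq c'
    rwa [MulAut.conj_apply] at this
  rw [hc'y.orderOf_mul_eq_mul_orderOf_of_coprime (hoy ▸ hcop'), hoy] at ho1
  have hpos : 0 < orderOf c' := orderOf_pos c'
  have hp1 : p = 1 := Nat.eq_of_mul_eq_mul_left hpos (ho1.trans (mul_one _).symm)
  exact hp.one_lt.ne' hp1

end

/-- Let G be a finite group and M ≤ N non-trivial proper normal subgroups such that for every g outside N the conjugacy class of g is a union of cosets of M (equivalently gm is conjugate to g for every m ∈ M). Then (1) and (2) below are equivalent, and they imply (3): (1) every g outside N acts fixed-point-freely on M, that is C_G(x) ≤ N for every x ∈ M, x ≠ 1; (2) the index of N in G is coprime to the order of M; (3) there is a subgroup H of G with HN = G and H ∩ M = 1. -/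
theorem result {G : Type*} [Group G] [Finite G] (N M : Subgroup G) [N.Normal] [M.Normal] (hMN : M ≤ N) (hM1 : M ≠ ⊥) (hN2 : N ≠ ⊤)
    (hcam : ∀ g : G, g ∉ N → ∀ m ∈ M, ∃ x : G, x * g * x⁻¹ = g * m) :
    ((∀ x ∈ M, x ≠ 1 → Subgroup.centralizer ({x} : Set G) ≤ N) ↔ N.index.Coprime (Nat.card M)) ∧
    ((∀ x ∈ M, x ≠ 1 → Subgroup.centralizer ({x} : Set G) ≤ N) → ∃ H : Subgroup G, H ⊔ N = ⊤ ∧ H ⊓ M = ⊥) := by
  exact ⟨⟨fwd N M, bwd N M hcam⟩, fun h => exists_supp N M hMN (fwd N M h)⟩

end Cfsg.Agent.S4112
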