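import Cfsg.Statements.S4116
-- import your own Cfsg.Agent.* helpers here
import Mathlib
import Cfsg.Agent.Lib.Helper7.Compl
import Cfsg.Agent.Lib.Helper7.ConjUnion
import Cfsg.Agent.Lib.Helper7.Malnormal

set_option autoImplicit false
open Cfsg

namespace Cfsg.Agent.S4116

section
open Pointwise
universe u
variable {G : Type u} [Group G] [Finite G]

open Cfsg.Agent.Lib.Helper7

theorem mem_conj_mul {H : Subgroup G} {k a z : G} :
    z ∈ MulAut.conj (k * a) • H ↔ k⁻¹ * z * k ∈ MulAut.conj a • H := by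
  rw [mem_conj_smul_iff, mem_conj_smul_iff]
  have : (k * a)⁻¹ * z * (k * a) = a⁻¹ * (k⁻¹ * z * k) * a := by group
  rw [this]

theorem ti_conj {H : Subgroup G} (hTI : Cfsg.IsTISubset (H : Set G)) (a b x : G) (hx : x ≠ 1)
    (ha : x ∈ MulAut.conj a • H) (hb : x ∈ MulAut.conj b • H) :
    MulAut.conj a • H = MulAut.conj b • H := by
  rw [mem_conj_smul_iff] at ha hb
  have hn : b⁻¹ * a ∈ Subgroup.normalizer (H : Set G) := by
    by_contra hn
    have h1 := hTI (b⁻¹ * a) hn (a⁻¹ * x * a) ha (by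
      have : b⁻¹ * a * (a⁻¹ * x * a) * (b⁻¹ * a)⁻¹ = b⁻¹ * x * b := by group
      rw [this]; exact hb)
    apply hx
    calc x = a * (a⁻¹ * x * a) * a⁻¹ := by group
      _ = 1 := by rw [h1]; group
  rw [Subgroup.mem_normalizer_iff] at hn
  ext y
  rw [mem_conj_smul_iff, mem_conj_smul_iff, hn (a⁻¹ * y * a)]
  have : b⁻¹ * a * (a⁻¹ * y * a) * (b⁻¹ * a)⁻¹ = b⁻¹ * y * b := by group
  rw [this]

theorem mem_of_normalizer {H : Subgroup G} (y : G) (hco : (orderOf y).Coprime H.index)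
    (hy : y ∈ Subgroup.normalizer (H : Set G)) : y ∈ H := by
  have hnorm : (H.subgroupOf (Subgroup.normalizer (H : Set G))).Normal :=
    Subgroup.normal_in_normalizer
  have h1 := Subgroup.pow_index_mem (H.subgroupOf (Subgroup.normalizer (H : Set G)))
    (⟨y, hy⟩ : Subgroup.normalizer (H : Set G))
  rw [Subgroup.mem_subgroupOf] at h1
  have h2 : y ^ (H.relIndex (Subgroup.normalizer (H : Set G))) ∈ H := h1
  have h3 : (H.relIndex (Subgroup.normalizer (H : Set G))).Coprime (orderOf y) :=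
    (Nat.Coprime.coprime_dvd_right (Subgroup.relIndex_dvd_index_of_le Subgroup.le_normalizer)
      hco).symm
  obtain ⟨m, hm⟩ := exists_pow_eq_self_of_coprime h3
  rw [← hm]
  exact H.pow_mem h2 m

theorem mem_of_normalizes {H K : Subgroup G} (hHall : (Nat.card H).Coprime H.index)
    (hK : ∀ q : ℕ, q.Prime → q ∣ Nat.card K → q ∣ Nat.card H)
    (a y : G) (hy : y ∈ K) (heq : MulAut.conj (y * a) • H = MulAut.conj a • H) :
    y ∈ MulAut.conj a • H := by
  rw [mem_conj_smul_iff]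
  apply mem_of_normalizer
  · have h1 : orderOf (a⁻¹ * y * a) = orderOf y := by
      have := (MulAut.conj a⁻¹).orderOf_eq y
      simpa using this
    rw [h1]
    apply Nat.coprime_of_dvd
    intro q hq hqo hqi
    have h2 : q ∣ Nat.card K := by
      have h3 : orderOf (⟨y, hy⟩ : K) = orderOf y := Subgroup.orderOf_mk y hy
      rw [← h3] at hqo
      exact hqo.trans (orderOf_dvd_natCard _)
    have h4 := hK q hq h2
    have h5 := Nat.Coprime.eq_one_of_dvd (Nat.Coprime.coprime_dvd_left h4 hHall) hqi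
    exact hq.one_lt.ne' h5
  · rw [Subgroup.mem_normalizer_iff]
    intro h
    have e1 : h ∈ H ↔ y * a * h * a⁻¹ * y⁻¹ ∈ MulAut.conj (y * a) • H := by
      rw [mem_conj_smul_iff]
      have : (y * a)⁻¹ * (y * a * h * a⁻¹ * y⁻¹) * (y * a) = h := by group
      rw [this]
    have e2 : y * a * h * a⁻¹ * y⁻¹ ∈ MulAut.conj a • H ↔
        a⁻¹ * y * a * h * (a⁻¹ * y * a)⁻¹ ∈ H := by
      rw [mem_conj_smul_iff]
      have : a⁻¹ * (y * a * h * a⁻¹ * y⁻¹) * a = a⁻¹ * y * a * h * (a⁻¹ * y * a)⁻¹ := by group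
      rw [this]
    rw [e1, heq, e2]

theorem exists_conj_mem {H K : Subgroup G} (hHall : (Nat.card H).Coprime H.index)
    (hTI : Cfsg.IsTISubset (H : Set G))
    (hK : ∀ q : ℕ, q.Prime → q ∣ Nat.card K → q ∣ Nat.card H)
    (y : G) (hy : y ∈ K) (hy1 : y ≠ 1) : ∃ a : G, y ∈ MulAut.conj a • H := by
  have ho1 : orderOf y ≠ 1 := fun h => hy1 (orderOf_eq_one_iff.mp h)
  have ho0 : orderOf y ≠ 0 := (orderOf_pos y).ne'
  set q := (orderOf y).minFac with hq
  have hqp : q.Prime := Nat.minFac_prime ho1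
  have hqo : q ∣ orderOf y := Nat.minFac_dvd _
  have hqK : q ∣ Nat.card K := by
    have h3 : orderOf (⟨y, hy⟩ : K) = orderOf y := Subgroup.orderOf_mk y hy
    rw [← h3] at hqo
    exact hqo.trans (orderOf_dvd_natCard _)
  have hqH := hK q hqp hqK
  have hqi : ¬ q ∣ H.index := by
    intro hqi
    exact hqp.one_lt.ne' (Nat.Coprime.eq_one_of_dvd (Nat.Coprime.coprime_dvd_left hqH hHall) hqi)
  set y' := y ^ (orderOf y / q) with hy'
  have hoy' : orderOf y' = q := orderOf_pow_orderOf_div ho0 hqo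
  have hy'1 : y' ≠ 1 := by
    intro h
    rw [h, orderOf_one] at hoy'
    exact hqp.one_lt.ne' hoy'.symm
  have := Fact.mk hqp
  have hpg : IsPGroup q (Subgroup.zpowers y') := by
    apply IsPGroup.of_card (n := 1)
    rw [Nat.card_zpowers, hoy', pow_one]
  have hqi' : ¬ q ∣ Nat.card (G ⧸ H) := hqi
  obtain ⟨c, hc⟩ := hpg.nonempty_fixed_point_of_prime_not_dvd_card (G ⧸ H) hqi'
  obtain ⟨g, rfl⟩ := QuotientGroup.mk_surjective c
  have hfix := hc ⟨y', Subgroup.mem_zpowers y'⟩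
  have hfix' : (QuotientGroup.mk (y' * g) : G ⧸ H) = QuotientGroup.mk g := hfix
  rw [QuotientGroup.eq] at hfix'
  have hy'g : y' ∈ MulAut.conj g • H := by
    rw [mem_conj_smul_iff]
    have h1 := H.inv_mem hfix'
    have h2 : ((y' * g)⁻¹ * g)⁻¹ = g⁻¹ * y' * g := by group
    rw [h2] at h1
    exact h1
  refine ⟨g, ?_⟩
  apply mem_of_normalizes hHall hK g y hy
  apply ti_conj hTI _ _ y' hy'1 _ hy'g
  rw [mem_conj_mul]
  have hcomm : y⁻¹ * y' * y = y' := by
    rw [hy']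
    have : Commute y (y ^ (orderOf y / q)) := Commute.pow_right (Commute.refl y) _
    rw [mul_assoc, ← this.eq, inv_mul_cancel_left]
  rw [hcomm]
  exact hy'g

theorem main (H : Subgroup G)
    (hHall : (Nat.card H).Coprime H.index) (hTI : Cfsg.IsTISubset (H : Set G))
    (K : Subgroup G) (hK : ∀ q : ℕ, q.Prime → q ∣ Nat.card K → q ∣ Nat.card H) :
    ∃ g : G, K ≤ H.map (MulAut.conj g).toMonoidHom := by
  show ∃ g : G, K ≤ MulAut.conj g • H
  by_cases hKb : K = ⊥
  · exact ⟨1, by rw [hKb]; exact bot_le⟩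
  by_contra hcon
  push Not at hcon
  obtain ⟨y₁, hy₁, hy₁1⟩ : ∃ y ∈ K, y ≠ 1 := by
    by_contra h
    push Not at h
    exact hKb ((Subgroup.eq_bot_iff_forall K).mpr h)
  obtain ⟨a₁, ha₁⟩ := exists_conj_mem hHall hTI hK y₁ hy₁ hy₁1
  let L : G → Subgroup K := fun a => (MulAut.conj a • H).subgroupOf K
  have hL1 : L a₁ ≠ ⊤ := fun h => hcon a₁ (Subgroup.subgroupOf_eq_top.mp h)
  obtain ⟨y₂, hy₂⟩ := exists_not_mem_conj (L a₁) hL1
  have hy₂1 : (y₂ : G) ≠ 1 := by
    intro h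
    apply hy₂ 1
    have : y₂ = 1 := Subtype.ext h
    rw [this]
    exact Subgroup.one_mem _
  obtain ⟨a₂, ha₂⟩ := exists_conj_mem hHall hTI hK (y₂ : G) y₂.2 hy₂1
  have hmal : ∀ a : G, ∀ k x : K, x ∈ L a → x ≠ 1 → k * x * k⁻¹ ∈ L a → k ∈ L a := by
    intro a k x hx hx1 hkx
    have hx' : (x : G) ∈ MulAut.conj a • H := Subgroup.mem_subgroupOf.mp hx
    have hkx' : (k : G) * x * (k : G)⁻¹ ∈ MulAut.conj a • H := Subgroup.mem_subgroupOf.mp hkx
    have h1 : (x : G) ∈ MulAut.conj ((k : G)⁻¹ * a) • H := by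
      rw [mem_conj_mul, inv_inv]
      exact hkx'
    have h2 := ti_conj hTI _ _ (x : G) (fun h => hx1 (Subtype.ext h)) h1 hx'
    have h3 := mem_of_normalizes hHall hK a (k : G)⁻¹ (K.inv_mem k.2) h2
    have h4 := (MulAut.conj a • H).inv_mem h3
    rw [inv_inv] at h4
    exact Subgroup.mem_subgroupOf.mpr h4
  apply two_malnormal_false (L a₁) (L a₂) ?_ ?_ (hmal a₁) (hmal a₂) ?_
  · intro h
    have h1 : (⟨y₁, hy₁⟩ : K) ∈ L a₁ := Subgroup.mem_subgroupOf.mpr ha₁
    rw [h, Subgroup.mem_bot] at h1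
    exact hy₁1 (congrArg Subtype.val h1)
  · intro h
    have h1 : y₂ ∈ L a₂ := Subgroup.mem_subgroupOf.mpr ha₂
    rw [h, Subgroup.mem_bot] at h1
    exact hy₂1 (congrArg Subtype.val h1)
  · intro k₁ k₂ x₁ x₂ hx₁ hx₁1 hx₂ heq
    have hx₁' : (x₁ : G) ∈ MulAut.conj a₁ • H := Subgroup.mem_subgroupOf.mp hx₁
    have hx₂' : (x₂ : G) ∈ MulAut.conj a₂ • H := Subgroup.mem_subgroupOf.mp hx₂
    have heq' : (k₁ : G) * x₁ * (k₁ : G)⁻¹ = (k₂ : G) * x₂ * (k₂ : G)⁻¹ :=
      congrArg Subtype.val heq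
    have hz1 : (k₁ : G) * x₁ * (k₁ : G)⁻¹ ≠ 1 := by
      intro h
      apply hx₁1
      apply Subtype.ext
      calc (x₁ : G) = (k₁ : G)⁻¹ * ((k₁ : G) * x₁ * (k₁ : G)⁻¹) * k₁ := by group
        _ = 1 := by rw [h]; group
    have hz₁ : (k₁ : G) * x₁ * (k₁ : G)⁻¹ ∈ MulAut.conj ((k₁ : G) * a₁) • H := by
      rw [mem_conj_mul]
      have : (k₁ : G)⁻¹ * ((k₁ : G) * x₁ * (k₁ : G)⁻¹) * k₁ = x₁ := by group
      rw [this]
      exact hx₁'
    have hz₂ : (k₁ : G) * x₁ * (k₁ : G)⁻¹ ∈ MulAut.conj ((k₂ : G) * a₂) • H := by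
      rw [mem_conj_mul, heq']
      have : (k₂ : G)⁻¹ * ((k₂ : G) * x₂ * (k₂ : G)⁻¹) * k₂ = x₂ := by group
      rw [this]
      exact hx₂'
    have hconj := ti_conj hTI _ _ _ hz1 hz₁ hz₂
    apply hy₂ (k₂⁻¹ * k₁)
    rw [mem_conj_smul_iff, Subgroup.mem_subgroupOf]
    have h5 : (y₂ : G) ∈ MulAut.conj ((k₂ : G)⁻¹ * (k₁ : G) * a₁) • H := by
      have e : MulAut.conj ((k₂ : G)⁻¹ * (k₁ : G) * a₁) • H = MulAut.conj a₂ • H := by
        calc MulAut.conj ((k₂ : G)⁻¹ * (k₁ : G) * a₁) • H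
            = MulAut.conj (k₂ : G)⁻¹ • (MulAut.conj ((k₁ : G) * a₁) • H) := by
              rw [mul_assoc, map_mul, mul_smul]
          _ = MulAut.conj (k₂ : G)⁻¹ • (MulAut.conj ((k₂ : G) * a₂) • H) := by rw [hconj]
          _ = MulAut.conj a₂ • H := by rw [← mul_smul, ← map_mul, inv_mul_cancel_left]
      rw [e]
      exact ha₂
    rw [mem_conj_mul] at h5
    simpa using h5

end

/-- Let G be a finite group with a subgroup H whose order is coprime to its index (a Hall subgroup) and which meets each of its conjugates by elements outside N_G(H) trivially. Then every subgroup of G whose order is divisible only by primes dividing the order of H lies in a conjugate of H. -/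
theorem result {G : Type*} [Group G] [Finite G] (H : Subgroup G)
    (hHall : (Nat.card H).Coprime H.index) (hTI : Cfsg.IsTISubset (H : Set G))
    (K : Subgroup G) (hK : ∀ q : ℕ, q.Prime → q ∣ Nat.card K → q ∣ Nat.card H) :
    ∃ g : G, K ≤ H.map (MulAut.conj g).toMonoidHom := by
  exact main H hHall hTI K hK

end Cfsg.Agent.S4116
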