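import Cfsg.Statements.S4117
-- import your own Cfsg.Agent.* helpers here
import Mathlib
import Cfsg.Agent.Lib.Helper7.ExtCoprime
import Cfsg.Agent.Lib.Helper7.FrobCount

set_option autoImplicit false
open Cfsg

namespace Cfsg.Agent.S4117

open Pointwise
open scoped commutatorElement
open Cfsg.Agent.Lib.Helper7

section
lemma mem_zpowers_of_cyclic {P : Type*} [Group P] [Finite P] [IsCyclic P] {p : ℕ} (x y : P)
    (hx : x ^ p = 1) (hy : orderOf y = p) (hp : 0 < p) : x ∈ Subgroup.zpowers y := by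
  classical
  haveI := Fintype.ofFinite P
  have h1 : (Finset.univ.filter (fun a : P => a ^ p = 1)).card ≤ p := IsCyclic.card_pow_eq_one_le hp
  have h2 : ((Subgroup.zpowers y : Set P)).ncard = p := by
    rw [← Nat.card_coe_set_eq, ← hy]
    exact Nat.card_zpowers y
  have h3 : (Subgroup.zpowers y : Set P) ⊆ {a : P | a ^ p = 1} := by
    intro a ha
    obtain ⟨i, rfl⟩ := Subgroup.mem_zpowers_iff.mp ha
    show (y ^ i) ^ p = 1
    rw [← zpow_natCast, ← zpow_mul, mul_comm, zpow_mul, zpow_natCast, ← hy, pow_orderOf_eq_one,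
      one_zpow]
  have h4 : ({a : P | a ^ p = 1} : Set P).ncard ≤ p := by
    have h6 : ({a : P | a ^ p = 1} : Set P) = ↑(Finset.univ.filter (fun a : P => a ^ p = 1)) := by
      ext; simp
    rw [h6, Set.ncard_coe_finset]; exact h1
  have h5 := Set.eq_of_subset_of_ncard_le h3 (by rw [h2]; exact h4) (Set.toFinite _)
  have h7 : x ∈ ({a : P | a ^ p = 1} : Set P) := hx
  rw [← h5] at h7
  exact h7
end

/-- Let A be a finite group acting on the finite group G by automorphisms with the orders of A and G coprime, and suppose every Sylow subgroup of G is cyclic. Then the fixed-point subgroup C_G(A) is a Hall subgroup of G (its order is coprime to its index), the subgroup [G, A] generated by the elements g⁻¹·a(g) is cyclic and normal with [G, A] ∩ C_G(A) = 1 and [G, A]·C_G(A) = G. -/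
theorem result {G A : Type*} [Group G] [Finite G] [Group A] [Finite A]
    [MulDistribMulAction A G] (hcop : (Nat.card A).Coprime (Nat.card G))
    (hcyc : ∀ (p : ℕ) [Fact p.Prime] (P : Sylow p G), IsCyclic (P : Subgroup G)) :
    (Nat.card (MulAction.fixedPoints A G : Set G)).Coprime (Nat.card G / Nat.card (MulAction.fixedPoints A G : Set G)) ∧
    IsCyclic (Subgroup.closure {y : G | ∃ (a : A) (g : G), y = g⁻¹ * a • g}) ∧
    (Subgroup.closure {y : G | ∃ (a : A) (g : G), y = g⁻¹ * a • g}).Normal ∧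
    (Subgroup.closure {y : G | ∃ (a : A) (g : G), y = g⁻¹ * a • g} : Set G) ∩ MulAction.fixedPoints A G = {1} ∧
    Subgroup.closure {y : G | ∃ (a : A) (g : G), y = g⁻¹ * a • g} ⊔ Subgroup.closure (MulAction.fixedPoints A G) = ⊤ := by
  classical
  haveI hZ : IsZGroup G := ⟨fun p hp P => @hcyc p ⟨hp⟩ P⟩
  haveI hsolvG : Group.IsSolvable G := inferInstance
  obtain ⟨K, hK⟩ : ∃ K : Subgroup G, K = Subgroup.closure {y : G | ∃ (a : A) (g : G), y = g⁻¹ * a • g} :=
    ⟨_, rfl⟩
  rw [← hK]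
  obtain ⟨C, hC⟩ : ∃ C : Subgroup G, (C : Set G) = MulAction.fixedPoints A G :=
    ⟨{ carrier := MulAction.fixedPoints A G
       mul_mem' := fun {x y} hx hy a => by rw [smul_mul', hx a, hy a]
       one_mem' := fun a => smul_one a
       inv_mem' := fun {x} hx a => by rw [smul_inv', hx a] }, rfl⟩
  have hCmem : ∀ g, g ∈ C ↔ ∀ a : A, a • g = g := fun g => by
    rw [← SetLike.mem_coe, hC]; rfl
  rw [← hC]
  have hgen : ∀ (a : A) (g : G), g⁻¹ * a • g ∈ K := fun a g => by
    rw [hK]; exact Subgroup.subset_closure ⟨a, g, rfl⟩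
  have hKn : K.Normal := by
    constructor
    intro n hn g
    have hle : K ≤ K.comap (MulAut.conj g).toMonoidHom := by
      conv_lhs => rw [hK]
      rw [Subgroup.closure_le]
      rintro y ⟨a, h, rfl⟩
      show g * (h⁻¹ * a • h) * g⁻¹ ∈ K
      have e : g * (h⁻¹ * a • h) * g⁻¹ =
          ((h * g⁻¹)⁻¹ * a • (h * g⁻¹)) * ((g⁻¹)⁻¹ * a • (g⁻¹))⁻¹ := by
        rw [smul_mul', smul_inv']; group
      rw [e]
      exact K.mul_mem (hgen a _) (K.inv_mem (hgen a _))
    exact hle hn
  have hKinv : ∀ (b : A) (k : G), k ∈ K → b • k ∈ K := by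
    intro b k hk
    have hle : K ≤ K.comap (MulDistribMulAction.toMonoidHom G b) := by
      conv_lhs => rw [hK]
      rw [Subgroup.closure_le]
      rintro y ⟨a, h, rfl⟩
      show b • (h⁻¹ * a • h) ∈ K
      have e : b • (h⁻¹ * a • h) = (b • h)⁻¹ * (b * a * b⁻¹) • (b • h) := by
        rw [smul_mul', smul_inv', smul_smul, smul_smul, inv_mul_cancel_right]
      rw [e]
      exact hgen _ _
    exact hle hk
  have hKC : ∀ g : G, ∃ x ∈ K, ∃ c ∈ C, g = x * c := by
    intro g
    obtain ⟨x, hx, c, hc, hg⟩ := ext_exists_mul_fixed (A := A) hcop (Or.inr hsolvG) g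
    exact ⟨x, hK ▸ hx, c, (hCmem c).mpr hc, hg⟩
  -- the commutator subgroup N
  have hNn : (commutator G).Normal := inferInstance
  haveI hNcyc : IsCyclic (commutator G) := IsZGroup.isCyclic_commutator G
  have hNinv : ∀ (b : A) (z : G), z ∈ commutator G → b • z ∈ commutator G := by
    intro b z hz
    have hle : commutator G ≤ (commutator G).comap (MulDistribMulAction.toMonoidHom G b) := by
      conv_lhs => rw [commutator_def]
      rw [Subgroup.commutator_le]
      intro g₁ _ g₂ _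
      show b • ⁅g₁, g₂⁆ ∈ commutator G
      have e : b • ⁅g₁, g₂⁆ = ⁅b • g₁, b • g₂⁆ := by
        rw [commutatorElement_def, commutatorElement_def, smul_mul', smul_mul', smul_mul',
          smul_inv', smul_inv']
      rw [e]
      exact Subgroup.commutator_mem_commutator (Subgroup.mem_top _) (Subgroup.mem_top _)
    exact hle hz
  have hpowN : ∀ a : A, ∃ m : ℤ, ∀ z ∈ commutator G, a • z = z ^ m := by
    intro a
    obtain ⟨σ, hσ⟩ : ∃ σ : (commutator G) →* (commutator G), ∀ z : commutator G, ((σ z : commutator G) : G) = a • (z : G) :=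
      ⟨{ toFun := fun z => ⟨a • (z : G), hNinv a z z.2⟩
         map_one' := Subtype.ext (smul_one a)
         map_mul' := fun x y => Subtype.ext (smul_mul' a (x : G) (y : G)) }, fun z => rfl⟩
    obtain ⟨m, hm⟩ := MonoidHom.map_cyclic σ
    refine ⟨m, fun z hz => ?_⟩
    have h1 := congrArg Subtype.val (hm ⟨z, hz⟩)
    rw [hσ] at h1
    simpa using h1
  have hKcentN : K ≤ Subgroup.centralizer ((commutator G : Subgroup G) : Set G) := by
    conv_lhs => rw [hK]
    rw [Subgroup.closure_le]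
    rintro y ⟨a, g, rfl⟩
    rw [SetLike.mem_coe, Subgroup.mem_centralizer_iff]
    intro w hw
    obtain ⟨m, hm⟩ := hpowN a
    have hz : a⁻¹ • w ∈ commutator G := hNinv a⁻¹ w hw
    have hw' : a • (a⁻¹ • w) = w := smul_inv_smul a w
    have hgz : g * (a⁻¹ • w) * g⁻¹ ∈ commutator G := hNn.conj_mem _ hz g
    have h1 : a • (g * (a⁻¹ • w) * g⁻¹) = g * w * g⁻¹ := by
      rw [hm _ hgz, conj_zpow, ← hm _ hz, hw']
    have h2 : a • (g * (a⁻¹ • w) * g⁻¹) = (a • g) * w * (a • g)⁻¹ := by
      rw [smul_mul', smul_mul', smul_inv', hw']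
    have h3 : g * w * g⁻¹ = (a • g) * w * (a • g)⁻¹ := h1.symm.trans h2
    calc w * (g⁻¹ * a • g) = g⁻¹ * (g * w * g⁻¹) * (a • g) := by group
      _ = g⁻¹ * ((a • g) * w * (a • g)⁻¹) * (a • g) := by rw [h3]
      _ = g⁻¹ * a • g * w := by group
  haveI hKnil : Group.IsNilpotent K := by
    refine ⟨⟨2, eq_top_iff.mpr fun x _ => ?_⟩⟩
    show x ∈ Subgroup.upperCentralSeries K (1 + 1)
    rw [Subgroup.mem_upperCentralSeries_succ_iff]
    intro y
    rw [Subgroup.upperCentralSeries_one, Subgroup.mem_center_iff]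
    intro w
    apply Subtype.ext
    have hcomm : ((⁅x, y⁆ : K) : G) ∈ commutator G := by
      show ⁅(x : G), (y : G)⁆ ∈ commutator G
      exact Subgroup.commutator_mem_commutator (Subgroup.mem_top _) (Subgroup.mem_top _)
    exact (Subgroup.mem_centralizer_iff.mp (hKcentN w.2) _ hcomm).symm
  haveI hKcyc : IsCyclic K := inferInstance
  have hKcomm : ∀ x ∈ K, ∀ y ∈ K, x * y = y * x := by
    intro x hx y hy
    have h1 := (IsCyclic.commutative (α := K)).is_comm.comm ⟨x, hx⟩ ⟨y, hy⟩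
    exact congrArg Subtype.val h1
  have hpowK : ∀ a : A, ∃ m : ℤ, ∀ k ∈ K, a • k = k ^ m := by
    intro a
    obtain ⟨σ, hσ⟩ : ∃ σ : K →* K, ∀ z : K, ((σ z : K) : G) = a • (z : G) :=
      ⟨{ toFun := fun z => ⟨a • (z : G), hKinv a z z.2⟩
         map_one' := Subtype.ext (smul_one a)
         map_mul' := fun x y => Subtype.ext (smul_mul' a (x : G) (y : G)) }, fun z => rfl⟩
    obtain ⟨m, hm⟩ := MonoidHom.map_cyclic σ
    refine ⟨m, fun z hz => ?_⟩
    have h1 := congrArg Subtype.val (hm ⟨z, hz⟩)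
    rw [hσ] at h1
    simpa using h1
  have hKC1 : ∀ z, z ∈ K → z ∈ C → z = 1 := by
    intro z hzK hzC
    obtain ⟨d, hd⟩ : ∃ d, d = orderOf z := ⟨_, rfl⟩
    obtain ⟨D, hD⟩ : ∃ D : Subgroup G, ∀ y, y ∈ D ↔ ∃ k ∈ K, k ^ d = y :=
      ⟨{ carrier := {y | ∃ k ∈ K, k ^ d = y}
         mul_mem' := by
           rintro _ _ ⟨k₁, hk₁, rfl⟩ ⟨k₂, hk₂, rfl⟩
           exact ⟨k₁ * k₂, K.mul_mem hk₁ hk₂, (Commute.mul_pow (hKcomm k₁ hk₁ k₂ hk₂) d)⟩
         one_mem' := ⟨1, K.one_mem, one_pow d⟩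
         inv_mem' := by
           rintro _ ⟨k, hk, rfl⟩
           exact ⟨k⁻¹, K.inv_mem hk, inv_pow k d⟩ }, fun y => Iff.rfl⟩
    have hKD : K ≤ D := by
      conv_lhs => rw [hK]
      rw [Subgroup.closure_le]
      rintro y ⟨a, g, rfl⟩
      rw [SetLike.mem_coe, hD]
      obtain ⟨m, hm⟩ := hpowK a
      obtain ⟨x, hx, c, hc, rfl⟩ := hKC g
      have hz1 : z ^ (m - 1) = 1 := by
        rw [zpow_sub_one, ← hm z hzK, (hCmem z).mp hzC a, mul_inv_cancel]
      obtain ⟨e, he⟩ : (d : ℤ) ∣ m - 1 := by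
        rw [hd]; exact orderOf_dvd_iff_zpow_eq_one.mpr hz1
      have hcx : c⁻¹ * x * c ∈ K := by
        have h5 := hKn.conj_mem x hx c⁻¹
        simpa using h5
      refine ⟨(c⁻¹ * x * c) ^ e, K.zpow_mem hcx e, ?_⟩
      rw [smul_mul', (hCmem c).mp hc a, hm x hx]
      rw [← zpow_natCast, ← zpow_mul, mul_comm e, ← he]
      have h6 : c⁻¹ * x * c = c⁻¹ * x * c⁻¹⁻¹ := by rw [inv_inv]
      rw [h6, conj_zpow, zpow_sub_one]
      group
    have hsurj : Function.Surjective (fun k : K => (⟨(k : G) ^ d, K.pow_mem k.2 d⟩ : K)) := by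
      intro y
      obtain ⟨k, hk, hky⟩ := (hD _).mp (hKD y.2)
      exact ⟨⟨k, hk⟩, Subtype.ext hky⟩
    have hinj := Finite.injective_iff_surjective.mpr hsurj
    have h8 : (⟨z, hzK⟩ : K) = 1 := by
      apply hinj
      apply Subtype.ext
      show z ^ d = (1 : G) ^ d
      rw [hd, pow_orderOf_eq_one, one_pow]
    exact congrArg Subtype.val h8
  have hcopCK : (Nat.card C).Coprime (Nat.card K) := by
    by_contra hne
    obtain ⟨p, hp, hpd⟩ := Nat.exists_prime_and_dvd hne
    haveI := Fact.mk hp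
    have hpC : p ∣ Nat.card C := hpd.trans (Nat.gcd_dvd_left _ _)
    have hpK : p ∣ Nat.card K := hpd.trans (Nat.gcd_dvd_right _ _)
    obtain ⟨c, hc⟩ := exists_prime_orderOf_dvd_card' p hpC
    obtain ⟨k, hk⟩ := exists_prime_orderOf_dvd_card' p hpK
    have hco : orderOf (c : G) = p := by rw [Subgroup.orderOf_coe]; exact hc
    have hko : orderOf (k : G) = p := by rw [Subgroup.orderOf_coe]; exact hk
    have hzc : IsPGroup p (Subgroup.zpowers (c : G)) :=
      IsPGroup.of_card (n := 1) (by rw [Nat.card_zpowers, hco, pow_one])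
    have hzk : IsPGroup p (Subgroup.zpowers (k : G)) :=
      IsPGroup.of_card (n := 1) (by rw [Nat.card_zpowers, hko, pow_one])
    obtain ⟨P, hP⟩ := hzc.exists_le_sylow
    obtain ⟨Q, hQ⟩ := hzk.exists_le_sylow
    obtain ⟨g, hg⟩ := MulAction.exists_smul_eq G P Q
    have hkQ : (k : G) ∈ (Q : Subgroup G) := hQ (Subgroup.mem_zpowers _)
    rw [← hg, Sylow.smul_def, Sylow.pointwise_smul_def, fc_mem_conj_smul_iff] at hkQ
    have hcP : (c : G) ∈ (P : Subgroup G) := hP (Subgroup.mem_zpowers _)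
    haveI : IsCyclic (P : Subgroup G) := hcyc p P
    have hk'o : orderOf (g⁻¹ * (k : G) * g) = p := by
      rw [← hko]
      have h9 := (MulAut.conj g⁻¹).orderOf_eq (k : G)
      simpa using h9
    have hmem := mem_zpowers_of_cyclic (P := (P : Subgroup G)) (p := p) ⟨(c : G), hcP⟩
      ⟨g⁻¹ * (k : G) * g, hkQ⟩
      (Subtype.ext (by show (c : G) ^ p = 1; rw [← hco]; exact pow_orderOf_eq_one _))
      (by rw [Subgroup.orderOf_mk]; exact hk'o) hp.pos
    obtain ⟨i, hi⟩ := Subgroup.mem_zpowers_iff.mp hmem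
    have hi' : (g⁻¹ * (k : G) * g) ^ i = (c : G) := by simpa using congrArg Subtype.val hi
    have hcK : (c : G) ∈ K := by
      rw [← hi']
      apply K.zpow_mem
      have h10 := hKn.conj_mem (k : G) k.2 g⁻¹
      simpa using h10
    have hc1 := hKC1 (c : G) hcK c.2
    rw [hc1, orderOf_one] at hco
    exact hp.one_lt.ne hco
  have hcompl : K.IsComplement' C := by
    apply Subgroup.isComplement'_of_disjoint_and_mul_eq_univ
    · rw [Subgroup.disjoint_def]
      intro x hxK hxC
      exact hKC1 x hxK hxC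
    · ext g
      simp only [Set.mem_univ, iff_true]
      obtain ⟨x, hx, c, hc, rfl⟩ := hKC g
      exact Set.mul_mem_mul hx hc
  have hcard : Nat.card K * Nat.card C = Nat.card G := hcompl.card_mul_card
  refine ⟨?_, hKcyc, hKn, ?_, ?_⟩
  · have h11 : Nat.card G / Nat.card C = Nat.card K :=
      Nat.div_eq_of_eq_mul_left Nat.card_pos hcard.symm
    show (Nat.card C).Coprime (Nat.card G / Nat.card C)
    rw [h11]; exact hcopCK
  · ext x
    simp only [Set.mem_inter_iff, SetLike.mem_coe, Set.mem_singleton_iff]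
    constructor
    · rintro ⟨h1, h2⟩
      exact hKC1 x h1 h2
    · rintro rfl
      exact ⟨K.one_mem, C.one_mem⟩
  · rw [Subgroup.closure_eq, eq_top_iff]
    intro g _
    obtain ⟨x, hx, c, hc, rfl⟩ := hKC g
    exact Subgroup.mul_mem_sup hx hc

end Cfsg.Agent.S4117
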