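import Cfsg.Statements.S4127
import Cfsg.Agent.Lib.Helper3.ClassSize2

set_option autoImplicit false
open Cfsg

namespace Cfsg.Agent.S4127

open Cfsg.Agent.Lib.Helper3
open Subgroup

universe u

theorem exists_normal_hall_of_max_class {G : Type u} [Group G] [Finite G] (p : ℕ)
    [hp : Fact p.Prime] (a : ℕ)
    (hmax : ∀ y : G, ¬ p ^ (a + 1) ∣ (centralizer ({y} : Set G)).index)
    (x : G) (hxp : ∃ k : ℕ, orderOf x = p ^ k)
    (hx : (centralizer ({x} : Set G)).index = p ^ a) :
    ∃ N : Subgroup G, N.Normal ∧ (Nat.card N).Coprime p ∧ ∃ m : ℕ, N.index = p ^ m := by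
  have hx0 := hx
  obtain ⟨C, hCdef⟩ : ∃ C : Subgroup G, C = centralizer ({x} : Set G) := ⟨_, rfl⟩
  rw [← hCdef] at hx
  have hxC : x ∈ C := by rw [hCdef]; exact mem_centralizer_singleton_iff.mpr rfl
  have hB : ∀ y : C, (orderOf y).Coprime p → ¬ p ∣ (centralizer ({y} : Set C)).index := by
    intro y hy hdvd
    apply hmax (x * (y : G))
    have hyx : (y : G) * x = x * (y : G) := by
      have h1 : (y : G) ∈ centralizer ({x} : Set G) := hCdef ▸ y.2
      exact mem_centralizer_singleton_iff.mp h1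
    have hcomm : Commute x (y : G) := hyx.symm
    have hcop : (orderOf x).Coprime (orderOf (y : G)) := by
      obtain ⟨k, hk⟩ := hxp
      rw [hk, Subgroup.orderOf_coe]
      exact Nat.Coprime.pow_left k hy.symm
    have hsub : centralizer ({y} : Set C) = (centralizer ({(y : G)} : Set G)).subgroupOf C := by
      ext c
      rw [mem_centralizer_singleton_iff, mem_subgroupOf, mem_centralizer_singleton_iff]
      constructor
      · intro h1; exact congrArg Subtype.val h1
      · intro h1; exact Subtype.ext h1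
    rw [hsub] at hdvd
    have hdvd' : p ∣ (centralizer ({(y : G)} : Set G)).relIndex C := hdvd
    rw [centralizer_mul_of_coprime x (y : G) hcomm hcop, ← hCdef,
      ← relIndex_mul_index (inf_le_left : C ⊓ centralizer ({(y : G)} : Set G) ≤ C),
      inf_relIndex_left, hx, pow_succ, mul_comm (p ^ a) p]
    exact Nat.mul_dvd_mul hdvd' (dvd_refl _)
  obtain ⟨H, hHn, hHcop, n, hHidx⟩ := direct_factor_of_pprime_classes hB
  obtain ⟨H', hH'def⟩ : ∃ H' : Subgroup G, H' = H.map C.subtype := ⟨_, rfl⟩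
  have hH'C : H' ≤ C := by rw [hH'def]; exact map_subtype_le H
  have hH'card : Nat.card H' = Nat.card H := by rw [hH'def]; exact card_subtype C H
  have hall : ∀ K : Subgroup G, K ≤ C → (Nat.card K).Coprime p → K ≤ H' := by
    intro K hKC hK k hk
    have h1 := le_of_normal_of_coprime H n hHidx (K.subgroupOf C)
      (by rw [card_subgroupOf_of_le hKC]; exact hK)
    have h2 : (⟨k, hKC hk⟩ : C) ∈ H := h1 (mem_subgroupOf.mpr hk)
    rw [hH'def]
    exact ⟨⟨k, hKC hk⟩, h2, rfl⟩
  have hCN : ∀ c ∈ C, c ∈ normalizer (H' : Set G) := by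
    intro c hc
    apply fin_mem_normalizer
    intro m hm
    rw [hH'def] at hm ⊢
    obtain ⟨h, hh, rfl⟩ := hm
    exact ⟨⟨c, hc⟩ * h * ⟨c, hc⟩⁻¹, hHn.conj_mem h hh ⟨c, hc⟩, rfl⟩
  have K1 : ∀ g : G, (∀ h ∈ H', (g * x * g⁻¹) * h = h * (g * x * g⁻¹)) →
      g ∈ normalizer (H' : Set G) := by
    intro g hg
    have hK : (H'.map (MulAut.conj g⁻¹).toMonoidHom) ≤ H' := by
      apply hall
      · rintro _ ⟨h2, hh2, rfl⟩
        show g⁻¹ * h2 * g⁻¹⁻¹ ∈ C
        rw [hCdef, mem_centralizer_singleton_iff]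
        have h3 := hg h2 hh2
        calc g⁻¹ * h2 * g⁻¹⁻¹ * x = g⁻¹ * (h2 * (g * x * g⁻¹)) * g := by group
          _ = g⁻¹ * ((g * x * g⁻¹) * h2) * g := by rw [h3]
          _ = x * (g⁻¹ * h2 * g⁻¹⁻¹) := by group
      · rw [card_map_of_injective (MulAut.conj g⁻¹).injective, hH'card]
        exact hHcop
    have h5 : g⁻¹ ∈ normalizer (H' : Set G) := by
      apply fin_mem_normalizer
      intro m hm
      exact hK ⟨m, hm, rfl⟩
    have h6 := inv_mem h5
    rwa [inv_inv] at h6
  obtain ⟨U, hUdef⟩ : ∃ U : Subgroup G, U = normalClosure ({x} : Set G) := ⟨_, rfl⟩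
  have hUn : U.Normal := by rw [hUdef]; exact normalClosure_normal
  have hxU : x ∈ U := by rw [hUdef]; exact subset_normalClosure (Set.mem_singleton x)
  have hUp : IsPGroup p U := by
    have hxz : IsPGroup p (zpowers x) := by
      obtain ⟨k, hk⟩ := hxp
      apply IsPGroup.of_card (n := k)
      rw [Nat.card_zpowers, hk]
    obtain ⟨P, hP⟩ := hxz.exists_le_sylow
    have hxP : x ∈ (P : Subgroup G) := hP (mem_zpowers x)
    apply P.isPGroup'.to_le
    rw [hUdef, normalClosure, closure_le]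
    intro y hy
    obtain ⟨b, hb, hconj'⟩ := Group.mem_conjugatesOfSet_iff.mp hy
    obtain ⟨c, rfl⟩ := isConj_iff.mp hconj'
    rw [Set.mem_singleton_iff] at hb
    subst hb
    obtain ⟨u, hu, he⟩ := conj_eq_sylow_conj P b a hx0 c
    rw [SetLike.mem_coe, he]
    exact mul_mem (mul_mem hu hxP) (inv_mem hu)
  have hdisj : ∀ v ∈ U, v ∈ H' → v = 1 := by
    intro v hvU hvH
    obtain ⟨j, hj⟩ := hUp.exists_card_eq
    have hcop : (Nat.card U).Coprime (Nat.card H') := by
      rw [hj, hH'card]; exact Nat.Coprime.pow_left j hHcop.symm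
    have h1 : v ∈ U ⊓ H' := mem_inf.mpr ⟨hvU, hvH⟩
    exact (disjoint_of_coprime_natCard hcop).le_bot h1
  have K3 : ∀ v ∈ U, v ∈ normalizer (H' : Set G) → ∀ h ∈ H', v * h = h * v := by
    intro v hvU hvN h hh
    have h1 : v * h * v⁻¹ * h⁻¹ ∈ H' :=
      H'.mul_mem ((mem_normalizer_iff.mp hvN h).mp hh) (H'.inv_mem hh)
    have h2 : v * h * v⁻¹ * h⁻¹ ∈ U := by
      have h3 : v * (h * v⁻¹ * h⁻¹) ∈ U := U.mul_mem hvU (hUn.conj_mem _ (U.inv_mem hvU) h)
      have e : v * h * v⁻¹ * h⁻¹ = v * (h * v⁻¹ * h⁻¹) := by group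
      rw [e]; exact h3
    have h3 := hdisj _ h2 h1
    calc v * h = (v * h * v⁻¹ * h⁻¹) * (h * v) := by group
      _ = h * v := by rw [h3, one_mul]
  have hUle : U ≤ normalizer (H' : Set G) := by
    by_contra hnot
    have hnil : Group.IsNilpotent U := hUp.isNilpotent
    obtain ⟨D, hDdef⟩ : ∃ D : Subgroup U, D = (normalizer (H' : Set G)).subgroupOf U := ⟨_, rfl⟩
    have hDtop : D < ⊤ := by
      rw [lt_top_iff_ne_top]
      intro htop
      apply hnot
      intro v hv
      have h1 : (⟨v, hv⟩ : U) ∈ D := htop ▸ mem_top _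
      rw [hDdef] at h1
      exact mem_subgroupOf.mp h1
    have hgrow := Group.normalizerCondition_of_isNilpotent (G := U) D hDtop
    obtain ⟨v, hvN, hvD⟩ := SetLike.exists_of_lt hgrow
    have hx1 : (⟨x, hxU⟩ : U) ∈ D := by
      rw [hDdef]; exact mem_subgroupOf.mpr (hCN x hxC)
    have hx2 : v * ⟨x, hxU⟩ * v⁻¹ ∈ D := (mem_normalizer_iff.mp hvN _).mp hx1
    rw [hDdef] at hx2
    have hx3 : (v : G) * x * (v : G)⁻¹ ∈ normalizer (H' : Set G) := mem_subgroupOf.mp hx2
    have hx4 : (v : G) * x * (v : G)⁻¹ ∈ U := (v * ⟨x, hxU⟩ * v⁻¹).2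
    apply hvD
    rw [hDdef, mem_subgroupOf]
    exact K1 (v : G) (fun h hh => K3 _ hx4 hx3 h hh)
  have hnorm : H'.Normal := by
    apply normalizer_eq_top_iff.mp
    rw [eq_top_iff]
    intro g _
    have h1 : g * x * g⁻¹ ∈ U := hUn.conj_mem x hxU g
    exact K1 g (fun h hh => K3 _ h1 (hUle h1) h hh)
  refine ⟨H', hnorm, by rw [hH'card]; exact hHcop, n + a, ?_⟩
  rw [hH'def, index_map_subtype, hHidx, hx, pow_add]


/-- Let G be a finite group, p a prime and p^a the largest power of p dividing the size of any conjugacy class of G. If some element of p-power order has a conjugacy class of size exactly p^a, then G has a normal p-complement. -/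
theorem result {G : Type*} [Group G] [Finite G] (p : ℕ) [Fact p.Prime]
    (a : ℕ) (hmax : ∀ y : G, ¬ p ^ (a + 1) ∣ (Subgroup.centralizer ({y} : Set G)).index)
    (hx : ∃ x : G, (∃ k : ℕ, orderOf x = p ^ k) ∧ (Subgroup.centralizer ({x} : Set G)).index = p ^ a) :
    Cfsg.HasNormalPComplement p G := by
  obtain ⟨x, hxp, hx⟩ := hx
  obtain ⟨N, hNn, hNcop, m, hNidx⟩ := exists_normal_hall_of_max_class p a hmax x hxp hx
  obtain ⟨P⟩ : Nonempty (Sylow p G) := inferInstance
  have hpp : p.Prime := Fact.out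
  refine ⟨P, N, hNn, ?_⟩
  have hcard : Nat.card N * p ^ m = Nat.card G := by rw [← hNidx]; exact N.card_mul_index
  have hf : (Nat.card G).factorization p = m := by
    rw [← hcard, Nat.factorization_mul Nat.card_pos.ne' (pow_ne_zero _ hpp.ne_zero),
      Finsupp.add_apply,
      Nat.factorization_eq_zero_of_not_dvd ((Nat.Prime.coprime_iff_not_dvd hpp).mp hNcop.symm),
      zero_add, hpp.factorization_pow, Finsupp.single_eq_same]
  apply isComplement'_of_coprime
  · rw [P.card_eq_multiplicity, hf]; exact hcard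
  · rw [P.card_eq_multiplicity]; exact Nat.Coprime.pow_right _ hNcop

end Cfsg.Agent.S4127
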