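import Cfsg.Statements.S4142
-- import your own Cfsg.Agent.* helpers here
import Mathlib
import Cfsg.Agent.Lib.Helper7.Hall

set_option autoImplicit false
open Cfsg

namespace Cfsg.Agent.S4142

section
universe u
open Cfsg.Agent.Lib.Helper7
variable {G : Type u} [Group G] [Finite G]

theorem per_elt (N : Subgroup G) [N.Normal] (g : G) :
    (∀ n ∈ N, ∃ x : G, x * g * x⁻¹ = g * n) ↔
      Nat.card (Subgroup.centralizer ({g} : Set G)) =
        Nat.card (Subgroup.centralizer ({(QuotientGroup.mk g : G ⧸ N)} : Set (G ⧸ N))) := by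
  obtain ⟨C, hC⟩ : ∃ C : Subgroup G, C = Subgroup.centralizer ({g} : Set G) := ⟨_, rfl⟩
  obtain ⟨Cb, hCb⟩ : ∃ Cb : Subgroup (G ⧸ N),
    Cb = Subgroup.centralizer ({(QuotientGroup.mk g : G ⧸ N)} : Set (G ⧸ N)) := ⟨_, rfl⟩
  obtain ⟨D, hD⟩ : ∃ D : Subgroup G, D = Cb.comap (QuotientGroup.mk' N) := ⟨_, rfl⟩
  rw [← hC, ← hCb]
  have hDmem : ∀ x : G, x ∈ D ↔ x * g * x⁻¹ * g⁻¹ ∈ N := by
    intro x
    rw [hD, Subgroup.mem_comap, hCb, Subgroup.mem_centralizer_iff]
    simp only [Set.mem_singleton_iff, forall_eq]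
    rw [← QuotientGroup.eq_one_iff (N := N)]
    have e : ((x * g * x⁻¹ * g⁻¹ : G) : G ⧸ N) =
        (QuotientGroup.mk' N x) * (QuotientGroup.mk g) * (QuotientGroup.mk' N x)⁻¹
          * (QuotientGroup.mk g : G ⧸ N)⁻¹ := rfl
    rw [e, mul_inv_eq_one, mul_inv_eq_iff_eq_mul]
    exact eq_comm
  have hCD : C ≤ D := by
    intro x hx
    rw [hDmem]
    rw [hC, Subgroup.mem_centralizer_iff] at hx
    have h1 := hx g rfl
    have e : x * g * x⁻¹ * g⁻¹ = 1 := by rw [← h1]; group
    rw [e]; exact one_mem _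
  have hcardD : Nat.card D = Nat.card N * Nat.card Cb := by
    rw [hD]; exact card_comap_mk' N Cb
  have hcardD2 : Nat.card C * C.relIndex D = Nat.card D := card_mul_relIndex_of_le hCD
  let φ : D → N := fun x => ⟨(x : G) * g * (x : G)⁻¹ * g⁻¹, (hDmem x).1 x.2⟩
  have hφ : ∀ x y : D, φ x = φ y ↔ (x⁻¹ * y) ∈ C.subgroupOf D := by
    intro x y
    rw [Subgroup.mem_subgroupOf, hC, Subgroup.mem_centralizer_iff]
    simp only [Set.mem_singleton_iff, forall_eq]
    constructor
    · intro h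
      have h1 : (x : G) * g * (x : G)⁻¹ * g⁻¹ = (y : G) * g * (y : G)⁻¹ * g⁻¹ :=
        congrArg Subtype.val h
      have h2 : (x : G) * g * (x : G)⁻¹ = (y : G) * g * (y : G)⁻¹ := mul_right_cancel h1
      show g * ((x : G)⁻¹ * (y : G)) = ((x : G)⁻¹ * (y : G)) * g
      calc g * ((x : G)⁻¹ * y) = (x : G)⁻¹ * ((x : G) * g * (x : G)⁻¹) * y := by group
        _ = (x : G)⁻¹ * ((y : G) * g * (y : G)⁻¹) * y := by rw [h2]
        _ = (x : G)⁻¹ * y * g := by group
    · intro h
      have h' : g * ((x : G)⁻¹ * (y : G)) = ((x : G)⁻¹ * (y : G)) * g := h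
      apply Subtype.ext
      show (x : G) * g * (x : G)⁻¹ * g⁻¹ = (y : G) * g * (y : G)⁻¹ * g⁻¹
      calc (x : G) * g * (x : G)⁻¹ * g⁻¹
          = (x : G) * (g * ((x : G)⁻¹ * y)) * (y : G)⁻¹ * g⁻¹ := by group
        _ = (x : G) * (((x : G)⁻¹ * y) * g) * (y : G)⁻¹ * g⁻¹ := by rw [h']
        _ = (y : G) * g * (y : G)⁻¹ * g⁻¹ := by group
  let ψ : (D ⧸ C.subgroupOf D) → N := fun q =>
    Quotient.liftOn' q φ (fun x y hxy => (hφ x y).2 (QuotientGroup.leftRel_apply.1 hxy))
  have hψinj : Function.Injective ψ := by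
    intro q1 q2
    refine Quotient.inductionOn₂' q1 q2 ?_
    intro x y h
    exact Quotient.sound' (QuotientGroup.leftRel_apply.2 ((hφ x y).1 h))
  have hcardQ : Nat.card (D ⧸ C.subgroupOf D) = C.relIndex D := rfl
  have hsurj : Function.Surjective ψ ↔ ∀ n ∈ N, ∃ x : G, x * g * x⁻¹ = g * n := by
    constructor
    · intro hs n hn
      obtain ⟨q, hq⟩ := hs ⟨g * n * g⁻¹, Subgroup.Normal.conj_mem inferInstance n hn g⟩
      induction q using Quotient.inductionOn' with
      | h x =>
        refine ⟨x, ?_⟩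
        have h1 : (x : G) * g * (x : G)⁻¹ * g⁻¹ = g * n * g⁻¹ := congrArg Subtype.val hq
        exact mul_right_cancel h1
    · intro h n
      have hn' : g⁻¹ * (n : G) * g ∈ N := by
        have := Subgroup.Normal.conj_mem (inferInstance : N.Normal) n n.2 g⁻¹
        simpa using this
      obtain ⟨x, hx⟩ := h (g⁻¹ * n * g) hn'
      have e : g * (g⁻¹ * (n : G) * g) * g⁻¹ = n := by group
      have hxD : x ∈ D := by
        rw [hDmem, hx, e]; exact n.2
      refine ⟨QuotientGroup.mk ⟨x, hxD⟩, ?_⟩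
      apply Subtype.ext
      show x * g * x⁻¹ * g⁻¹ = n
      rw [hx, e]
  rw [← hsurj]
  constructor
  · intro hs
    have hb : Function.Bijective ψ := ⟨hψinj, hs⟩
    have e := Nat.card_congr (Equiv.ofBijective ψ hb)
    rw [hcardQ] at e
    have h1 : Nat.card C * Nat.card N = Nat.card N * Nat.card Cb := by
      rw [← hcardD, ← hcardD2, e]
    rw [mul_comm] at h1
    exact Nat.eq_of_mul_eq_mul_left Nat.card_pos h1
  · intro hcard
    have e : C.relIndex D = Nat.card N := by
      have h1 : Nat.card Cb * C.relIndex D = Nat.card Cb * Nat.card N := by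
        rw [← hcard, hcardD2, hcardD, hcard, mul_comm]
      exact Nat.eq_of_mul_eq_mul_left Nat.card_pos h1
    have hle : Nat.card N ≤ Nat.card (D ⧸ C.subgroupOf D) := by rw [hcardQ, e]
    exact (hψinj.bijective_of_nat_card_le hle).2

end

/-- Let G be a finite group and N a normal subgroup. Then the conjugacy class of every element g outside N is a union of cosets of N (gn is conjugate to g for all n ∈ N) if and only if for every g outside N the centralizer of g in G has the same order as the centralizer of gN in G/N. -/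
theorem result {G : Type*} [Group G] [Finite G] (N : Subgroup G) [N.Normal] :
    (∀ g : G, g ∉ N → ∀ n ∈ N, ∃ x : G, x * g * x⁻¹ = g * n) ↔
      ∀ g : G, g ∉ N → Nat.card (Subgroup.centralizer ({g} : Set G)) =
        Nat.card (Subgroup.centralizer ({(QuotientGroup.mk g : G ⧸ N)} : Set (G ⧸ N))) := by
  constructor
  · intro h g hg
    exact (per_elt N g).1 (h g hg)
  · intro h g hg
    exact (per_elt N g).2 (h g hg)

end Cfsg.Agent.S4142
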