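import Cfsg.Statements.S4145
-- import your own Cfsg.Agent.* helpers here
import Mathlib
import Cfsg.Agent.Lib.Helper7.Coprime
import Cfsg.Agent.Lib.Helper7.SylowCount
import Cfsg.Agent.Lib.Helper2.Burnside
import Cfsg.Agent.Lib.Helper2.NPC
import Cfsg.Agent.Lib.Helper2.Hall
import Cfsg.Agent.Lib.Helper2.FusionCtl
import Cfsg.Agent.Lib.Helper2.SylowAux

set_option autoImplicit false
open Cfsg

namespace Cfsg.Agent.S4145

section
universe u
open Pointwise
open Cfsg.Agent.Lib.Helper7 Cfsg.Agent.Lib.Helper2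
variable {G : Type u} [Group G]

theorem le_normalizer_of_conj_mem (A C : Subgroup G) (h : ∀ a ∈ A, ∀ c ∈ C, a * c * a⁻¹ ∈ C) :
    A ≤ Subgroup.normalizer (C : Set G) := by
  intro a ha
  rw [Subgroup.mem_normalizer_iff]
  intro x
  constructor
  · exact h a ha x
  · intro hx
    have := h a⁻¹ (A.inv_mem ha) _ hx
    have e : a⁻¹ * (a * x * a⁻¹) * a⁻¹⁻¹ = x := by group
    rw [e] at this
    exact this

theorem mem_of_pow_mem_coprime (S : Subgroup G) (n : G) (a b : ℕ) (hab : a.Coprime b)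
    (ha : n ^ a ∈ S) (hb : n ^ b ∈ S) : n ∈ S := by
  have h1 : (1 : ℤ) = (a : ℤ) * Int.gcdA a b + (b : ℤ) * Int.gcdB a b := by
    have h0 := Int.gcd_eq_gcd_ab (a : ℤ) (b : ℤ)
    rw [Int.gcd_natCast_natCast, hab.gcd_eq_one] at h0
    simpa using h0
  have h2 : n = (n ^ a) ^ (Int.gcdA a b) * (n ^ b) ^ (Int.gcdB a b) := by
    rw [← zpow_natCast, ← zpow_natCast, ← zpow_mul, ← zpow_mul, ← zpow_add, ← h1, zpow_one]
  rw [h2]
  exact S.mul_mem (S.zpow_mem ha _) (S.zpow_mem hb _)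

theorem KL_core (p : ℕ) (g n : G) (t e : ℕ)
    (hm : n * g * n⁻¹ = g ^ (t + 1)) (hpt : p ∣ t) (he : g ^ p ^ e = 1) :
    n ^ p ^ e * g = g * n ^ p ^ e := by
  have hiter : ∀ k : ℕ, n ^ k * g * (n ^ k)⁻¹ = g ^ ((t + 1) ^ k) := by
    intro k
    induction k with
    | zero => simp
    | succ k ih =>
      have e1 : n ^ (k + 1) * g * (n ^ (k + 1))⁻¹ = n * (n ^ k * g * (n ^ k)⁻¹) * n⁻¹ := by
        rw [pow_succ']; group
      rw [e1, ih, ← conj_pow, hm, ← pow_mul, ← pow_succ']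
  have hmod : (t + 1) ^ p ^ e ≡ 1 [MOD p ^ e] := by
    have h1 : ((p : ℕ) : ℤ) ∣ ((t : ℤ) + 1) - 1 := by
      simpa using Int.natCast_dvd_natCast.mpr hpt
    have h2 := dvd_sub_pow_of_dvd_sub h1 e
    rw [one_pow] at h2
    apply Nat.ModEq.symm
    rw [Nat.modEq_iff_dvd]
    push_cast
    exact dvd_trans (pow_dvd_pow _ (Nat.le_succ e)) h2
  have h4 : g ^ ((t + 1) ^ p ^ e) = g ^ 1 := by
    rw [pow_eq_pow_iff_modEq]
    exact hmod.of_dvd (orderOf_dvd_of_pow_eq_one he)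
  have h5 := hiter (p ^ e)
  rw [h4, pow_one] at h5
  calc n ^ p ^ e * g = n ^ p ^ e * g * (n ^ p ^ e)⁻¹ * n ^ p ^ e := by group
    _ = g * n ^ p ^ e := by rw [h5]

theorem KL1 [Finite G] (p : ℕ) [hpf : Fact p.Prime] (g n : G) (Q : Subgroup G)
    (hQ : Q < Subgroup.zpowers g) (hg : IsPGroup p (Subgroup.zpowers g))
    (hn : n * g * n⁻¹ * g⁻¹ ∈ Q) : ∃ t, n * g * n⁻¹ = g ^ (t + 1) ∧ p ∣ t := by
  have hw : n * g * n⁻¹ * g⁻¹ ∈ Subgroup.zpowers g := hQ.le hn
  rw [← mem_powers_iff_mem_zpowers] at hw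
  obtain ⟨t, ht⟩ := hw
  have ht' : g ^ t = n * g * n⁻¹ * g⁻¹ := ht
  refine ⟨t, ?_, ?_⟩
  · rw [pow_succ, ht']; group
  · by_contra hpt
    apply hQ.not_ge
    obtain ⟨i, hi⟩ := IsPGroup.iff_card.mp hg
    rw [Nat.card_zpowers] at hi
    have hcop : (orderOf g).Coprime t := by
      rw [hi]
      exact Nat.Coprime.pow_left i ((Nat.Prime.coprime_iff_not_dvd hpf.out).mpr hpt)
    have h1 : orderOf (g ^ t) = orderOf g := hcop.orderOf_pow
    have h2 : Subgroup.zpowers (g ^ t) = Subgroup.zpowers g := by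
      apply Subgroup.eq_of_le_of_card_ge
      · rw [Subgroup.zpowers_le]; exact Subgroup.pow_mem _ (Subgroup.mem_zpowers g) t
      · rw [Nat.card_zpowers, Nat.card_zpowers, h1]
    rw [← h2, Subgroup.zpowers_le, ht']; exact hn

theorem KL2 [Finite G] (p : ℕ) [hpf : Fact p.Prime] (g n u₀ : G)
    (hg : IsPGroup p (Subgroup.zpowers g))
    (hu : u₀ ∈ Subgroup.zpowers g) (hu1 : u₀ ≠ 1) (hfix : n * u₀ * n⁻¹ = u₀)
    (hng : n * g * n⁻¹ ∈ Subgroup.zpowers g) : ∃ t, n * g * n⁻¹ = g ^ (t + 1) ∧ p ∣ t := by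
  rw [← mem_powers_iff_mem_zpowers] at hu hng
  obtain ⟨s, hs⟩ := hu
  obtain ⟨m, hm⟩ := hng
  have hs' : g ^ s = u₀ := hs
  have hm' : g ^ m = n * g * n⁻¹ := hm
  have hg1 : g ≠ 1 := by
    rintro rfl
    rw [one_pow] at hs'
    exact hu1 hs'.symm
  have hm0 : m ≠ 0 := by
    rintro rfl
    rw [pow_zero] at hm'
    apply hg1
    have e1 : g = n⁻¹ * (n * g * n⁻¹) * n := by group
    rw [e1, ← hm']; group
  obtain ⟨t, rfl⟩ := Nat.exists_eq_succ_of_ne_zero hm0
  refine ⟨t, hm'.symm, ?_⟩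
  by_contra hpt
  apply hu1
  have h1 : g ^ ((t + 1) * s) = g ^ s := by
    rw [pow_mul, hm', conj_pow, hs', hfix]
  have h2 : g ^ (t * s) = 1 := by
    have e1 : g ^ ((t + 1) * s) = g ^ (t * s) * g ^ s := by rw [← pow_add]; ring_nf
    rw [e1] at h1
    exact mul_eq_right.mp h1
  have h3 : orderOf g ∣ t * s := orderOf_dvd_of_pow_eq_one h2
  obtain ⟨i, hi⟩ := IsPGroup.iff_card.mp hg
  rw [Nat.card_zpowers] at hi
  have hcop : (orderOf g).Coprime t := by
    rw [hi]
    exact Nat.Coprime.pow_left i ((Nat.Prime.coprime_iff_not_dvd hpf.out).mpr hpt)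
  have h4 : orderOf g ∣ s := hcop.dvd_of_dvd_mul_left h3
  rw [← hs']; exact orderOf_dvd_iff_pow_eq_one.mp h4

theorem burnside_pow {X : Type u} [Group X] [Finite X] (p : ℕ) [hpf : Fact p.Prime] (S : Sylow p X)
    (hS : ∀ a ∈ (S : Subgroup X), ∀ b ∈ (S : Subgroup X), a * b = b * a)
    (hk : ∀ n ∈ Subgroup.normalizer ((S : Subgroup X) : Set X), ∃ k : ℕ,
      n ^ p ^ k ∈ Subgroup.centralizer ((S : Subgroup X) : Set X)) :
    Cfsg.HasNormalPComplement p X := by
  apply hasNormalPComplement_of_normalizer_le_centralizer S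
  intro n hn
  obtain ⟨k, hk'⟩ := hk n hn
  have hSC : (S : Subgroup X) ≤ Subgroup.centralizer ((S : Subgroup X) : Set X) := by
    intro a ha
    rw [Subgroup.mem_centralizer_iff]
    intro b hb
    exact hS b hb a ha
  obtain ⟨C', hC'⟩ : ∃ C' : Subgroup (Subgroup.normalizer ((S : Subgroup X) : Set X)),
      C' = (Subgroup.centralizer ((S : Subgroup X) : Set X)).subgroupOf
        (Subgroup.normalizer ((S : Subgroup X) : Set X)) := ⟨_, rfl⟩
  have hC'n : C'.Normal := by rw [hC']; infer_instance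
  have hj : n ^ C'.index ∈ Subgroup.centralizer ((S : Subgroup X) : Set X) := by
    have h0 := Subgroup.pow_index_mem C'
      (⟨n, hn⟩ : Subgroup.normalizer ((S : Subgroup X) : Set X))
    obtain ⟨j, hj0⟩ : ∃ j, j = C'.index := ⟨_, rfl⟩
    rw [← hj0] at h0 ⊢
    rw [hC', Subgroup.mem_subgroupOf] at h0
    simpa using h0
  have hpj : ¬ p ∣ C'.index := by
    intro h
    apply S.not_dvd_index
    have h1 : C'.index ∣ ((S : Subgroup X).subgroupOf
        (Subgroup.normalizer ((S : Subgroup X) : Set X))).index := by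
      apply Subgroup.index_dvd_of_le
      rw [hC']
      intro y hy
      rw [Subgroup.mem_subgroupOf] at hy ⊢
      exact hSC hy
    have h2 : ((S : Subgroup X).subgroupOf
        (Subgroup.normalizer ((S : Subgroup X) : Set X))).index ∣ (S : Subgroup X).index :=
      Subgroup.relIndex_dvd_index_of_le Subgroup.le_normalizer
    exact dvd_trans h (dvd_trans h1 h2)
  exact mem_of_pow_mem_coprime _ n (p ^ k) C'.index
    (Nat.Coprime.pow_left k ((Nat.Prime.coprime_iff_not_dvd hpf.out).mpr hpj)) hk' hj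

theorem exists_zpowers_of_isCyclic (P : Subgroup G) (hP : IsCyclic P) :
    ∃ g : G, P = Subgroup.zpowers g := by
  obtain ⟨g₀, hg₀⟩ := hP.exists_generator
  refine ⟨(g₀ : G), ?_⟩
  ext x
  constructor
  · intro hx
    obtain ⟨k, hk⟩ := Subgroup.mem_zpowers_iff.mp (hg₀ ⟨x, hx⟩)
    rw [Subgroup.mem_zpowers_iff]
    refine ⟨k, ?_⟩
    have h1 := congrArg Subtype.val hk
    simpa using h1
  · intro hx
    obtain ⟨k, rfl⟩ := Subgroup.mem_zpowers_iff.mp hx
    exact Subgroup.zpow_mem _ g₀.2 k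

theorem comm_of_zpowers (g : G) : ∀ a ∈ Subgroup.zpowers g, ∀ b ∈ Subgroup.zpowers g,
    a * b = b * a := by
  intro a ha b hb
  obtain ⟨i, rfl⟩ := Subgroup.mem_zpowers_iff.mp ha
  obtain ⟨j, rfl⟩ := Subgroup.mem_zpowers_iff.mp hb
  rw [← zpow_add, ← zpow_add, add_comm]

theorem partA [Finite G] (p : ℕ) [hpf : Fact p.Prime] (P : Sylow p G)
    (hP : IsCyclic (P : Subgroup G)) (H : Subgroup G) [hHn : H.Normal]
    (h2 : p ∣ H.index) : Cfsg.HasNormalPComplement p H := by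
  have hp : p.Prime := hpf.out
  obtain ⟨g, hPz⟩ := exists_zpowers_of_isCyclic (P : Subgroup G) hP
  have hcomm : ∀ a ∈ (P : Subgroup G), ∀ b ∈ (P : Subgroup G), a * b = b * a := by
    rw [hPz]; exact comm_of_zpowers g
  have hgP : g ∈ (P : Subgroup G) := by rw [hPz]; exact Subgroup.mem_zpowers g
  obtain ⟨e, he⟩ := IsPGroup.iff_card.mp P.2
  have hge : g ^ p ^ e = 1 := by
    have h0 := pow_card_eq_one' (G := (P : Subgroup G)) (x := ⟨g, hgP⟩)
    rw [he] at h0
    exact congrArg Subtype.val h0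
  have hgp : IsPGroup p (Subgroup.zpowers g) := by rw [← hPz]; exact P.2
  obtain ⟨Q, hQdef⟩ : ∃ Q : Subgroup G, Q = (P : Subgroup G) ⊓ H := ⟨_, rfl⟩
  have hQP : Q < (P : Subgroup G) := by
    rw [hQdef]
    refine lt_of_le_of_ne inf_le_left ?_
    intro h
    have hPH : (P : Subgroup G) ≤ H := inf_eq_left.mp h
    exact P.not_dvd_index (dvd_trans h2 (Subgroup.index_dvd_of_le hPH))
  have hQH : Q ≤ H := by rw [hQdef]; exact inf_le_right
  have key : ∀ x ∈ H, x ∈ Subgroup.normalizer (Q : Set G) →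
      x ^ p ^ e ∈ Subgroup.centralizer (Q : Set G) := by
    intro x hxH hxN
    obtain ⟨CH, hCH⟩ : ∃ CH : Subgroup G, CH = H ⊓ Subgroup.centralizer (Q : Set G) := ⟨_, rfl⟩
    have hPcent : (P : Subgroup G) ≤ Subgroup.centralizer (Q : Set G) := by
      intro y hy
      rw [Subgroup.mem_centralizer_iff]
      intro u hu
      exact hcomm u (hQP.le hu) y hy
    have hPCH : (P : Subgroup G) ≤ Subgroup.normalizer (CH : Set G) := by
      apply le_normalizer_of_conj_mem
      intro y hy c hc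
      rw [hCH, Subgroup.mem_inf] at hc ⊢
      refine ⟨hHn.conj_mem c hc.1 y, ?_⟩
      rw [Subgroup.mem_centralizer_iff]
      intro u hu
      have h1 := (Subgroup.mem_centralizer_iff.mp hc.2) u hu
      have h3 := hcomm u (hQP.le hu) y hy
      have h4 : u * y⁻¹ = y⁻¹ * u := hcomm u (hQP.le hu) y⁻¹ (Subgroup.inv_mem _ hy)
      calc u * (y * c * y⁻¹) = (u * y) * c * y⁻¹ := by group
        _ = y * (u * c) * y⁻¹ := by rw [h3]; group
        _ = y * c * (u * y⁻¹) := by rw [h1]; group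
        _ = y * c * y⁻¹ * u := by rw [h4]; group
    obtain ⟨E, hE⟩ : ∃ E : Subgroup G, E = CH ⊔ (P : Subgroup G) := ⟨_, rfl⟩
    have hEcent : E ≤ Subgroup.centralizer (Q : Set G) := by
      rw [hE]; exact sup_le (by rw [hCH]; exact inf_le_right) hPcent
    have hxPE : (P : Subgroup G).map (MulAut.conj x).toMonoidHom ≤ E := by
      rintro _ ⟨y, hy, rfl⟩
      show x * y * x⁻¹ ∈ E
      have e1 : x * y * x⁻¹ = (x * y * x⁻¹ * y⁻¹) * y := by group
      rw [e1, hE]
      refine Subgroup.mul_mem_sup ?_ hy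
      rw [hCH, Subgroup.mem_inf]
      constructor
      · have e2 : x * y * x⁻¹ * y⁻¹ = x * (y * x⁻¹ * y⁻¹) := by group
        rw [e2]; exact H.mul_mem hxH (hHn.conj_mem _ (H.inv_mem hxH) y)
      · rw [Subgroup.mem_centralizer_iff]
        intro u hu
        have hu' : x⁻¹ * u * x ∈ Q := conj_mem_of_mem_normalizer' hxN hu
        have c2 : (x⁻¹ * u * x) * y = y * (x⁻¹ * u * x) := hcomm _ (hQP.le hu') y hy
        have c3 : u * y⁻¹ = y⁻¹ * u := hcomm u (hQP.le hu) y⁻¹ (Subgroup.inv_mem _ hy)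
        calc u * (x * y * x⁻¹ * y⁻¹) = x * ((x⁻¹ * u * x) * y) * x⁻¹ * y⁻¹ := by group
          _ = x * (y * (x⁻¹ * u * x)) * x⁻¹ * y⁻¹ := by rw [c2]
          _ = x * y * x⁻¹ * (u * y⁻¹) := by group
          _ = x * y * x⁻¹ * (y⁻¹ * u) := by rw [c3]
          _ = x * y * x⁻¹ * y⁻¹ * u := by group
    have hPE : (P : Subgroup G) ≤ E := by rw [hE]; exact le_sup_right
    have hidx1 : ¬ p ∣ (P : Subgroup G).relIndex E := fun h =>
      P.not_dvd_index (dvd_trans h (Subgroup.relIndex_dvd_index_of_le hPE))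
    have hidx2 : ¬ p ∣ ((P : Subgroup G).map (MulAut.conj x).toMonoidHom).relIndex E := by
      intro h
      apply P.not_dvd_index
      have h1 := dvd_trans h (Subgroup.relIndex_dvd_index_of_le hxPE)
      have h3 : ((P : Subgroup G).map (MulAut.conj x).toMonoidHom).index = (P : Subgroup G).index :=
        Subgroup.index_map_equiv (P : Subgroup G) (MulAut.conj x)
      rwa [h3] at h1
    obtain ⟨c, hcE, hcP⟩ := exists_conj_eq_of_sylow_in E _ (P : Subgroup G) hxPE (P.2.map _) hidx2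
      hPE P.2 hidx1
    have hnP : c * x ∈ Subgroup.normalizer ((P : Subgroup G) : Set G) := by
      rw [mem_normalizer_iff_conj_smul, ← conj_smul_conj_smul]
      exact hcP
    have hcQ : c ∈ Subgroup.centralizer (Q : Set G) := hEcent hcE
    obtain ⟨h₁, hh₁, y₁, hy₁, hc⟩ := exists_mul_of_mem_sup hPCH (hE ▸ hcE)
    have hw : (c * x) * g * (c * x)⁻¹ * g⁻¹ ∈ Q := by
      rw [hQdef, Subgroup.mem_inf]
      constructor
      · exact Subgroup.mul_mem _ (conj_mem_of_mem_normalizer hnP hgP) (Subgroup.inv_mem _ hgP)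
      · have hh₁H : h₁ ∈ H := by rw [hCH] at hh₁; exact hh₁.1
        have e1 : (c * x) * g * (c * x)⁻¹ * g⁻¹ =
            (h₁ * (y₁ * x * y₁⁻¹)) * (y₁ * g * y₁⁻¹ * g⁻¹) *
              (g * (h₁ * (y₁ * x * y₁⁻¹))⁻¹ * g⁻¹) := by
          rw [hc]; group
        have e2 : y₁ * g * y₁⁻¹ * g⁻¹ = 1 := by rw [hcomm y₁ hy₁ g hgP]; group
        rw [e1, e2, mul_one]
        have h5 : h₁ * (y₁ * x * y₁⁻¹) ∈ H := H.mul_mem hh₁H (hHn.conj_mem x hxH y₁)
        exact H.mul_mem h5 (hHn.conj_mem _ (H.inv_mem h5) g)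
    obtain ⟨t, ht, hpt⟩ := KL1 p g (c * x) Q (hPz ▸ hQP) hgp hw
    have hcomm2 := KL_core p g (c * x) t e ht hpt hge
    have hnc : (c * x) ^ p ^ e ∈ Subgroup.centralizer (Q : Set G) := by
      rw [Subgroup.mem_centralizer_iff]
      intro u hu
      have huP := hQP.le hu
      rw [hPz] at huP
      obtain ⟨i, rfl⟩ := Subgroup.mem_zpowers_iff.mp huP
      exact ((Commute.zpow_right (show Commute ((c * x) ^ p ^ e) g from hcomm2) i).eq).symm
    obtain ⟨N, hN⟩ : ∃ N : Subgroup G, N = Subgroup.normalizer (Q : Set G) := ⟨_, rfl⟩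
    obtain ⟨C', hC'⟩ : ∃ C' : Subgroup N,
      C' = (Subgroup.centralizer (Q : Set G)).subgroupOf N := ⟨_, rfl⟩
    have hC'n : C'.Normal := by rw [hC']; subst hN; infer_instance
    have hcN : c ∈ N := by rw [hN]; exact Subgroup.centralizer_le_normalizer _ hcQ
    have hxN' : x ∈ N := by rw [hN]; exact hxN
    have e1 : ((⟨c, hcN⟩ * ⟨x, hxN'⟩ : N) : N ⧸ C') = ((⟨x, hxN'⟩ : N) : N ⧸ C') := by
      rw [QuotientGroup.mk_mul, (QuotientGroup.eq_one_iff _).mpr
        (by rw [hC', Subgroup.mem_subgroupOf]; exact hcQ), one_mul]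
    have e2 : (((⟨c, hcN⟩ * ⟨x, hxN'⟩ : N) ^ p ^ e : N) : N ⧸ C') = 1 := by
      rw [QuotientGroup.eq_one_iff, hC', Subgroup.mem_subgroupOf]
      exact hnc
    have e3 : (((⟨x, hxN'⟩ : N) ^ p ^ e : N) : N ⧸ C') = 1 := by
      rw [QuotientGroup.mk_pow, ← e1, ← QuotientGroup.mk_pow]; exact e2
    rw [QuotientGroup.eq_one_iff, hC', Subgroup.mem_subgroupOf] at e3
    exact e3
  apply burnside_pow p (sylowInfNormal P H)
  · intro a ha b hb
    rw [coe_sylowInfNormal, Subgroup.mem_subgroupOf] at ha hb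
    apply Subtype.ext
    exact hcomm a ha b hb
  · intro y hy
    refine ⟨e, ?_⟩
    rw [coe_sylowInfNormal] at hy ⊢
    have hyN : (y : G) ∈ Subgroup.normalizer (Q : Set G) := by
      have h1 : (Subgroup.normalizer (Q : Set G)).subgroupOf H =
          Subgroup.normalizer ((Q.subgroupOf H : Subgroup H) : Set H) :=
        Subgroup.subgroupOf_normalizer_eq hQH
      have h3 : Q.subgroupOf H = (P : Subgroup G).subgroupOf H := by
        rw [hQdef]; exact Subgroup.inf_subgroupOf_right _ _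
      rw [h3] at h1
      rw [← h1] at hy
      exact Subgroup.mem_subgroupOf.mp hy
    have h3 := key y y.2 hyN
    rw [Subgroup.mem_centralizer_iff] at h3 ⊢
    intro s hs
    apply Subtype.ext
    have hsQ : (s : G) ∈ Q := by rw [hQdef]; exact ⟨Subgroup.mem_subgroupOf.mp hs, s.2⟩
    have h4 := h3 s hsQ
    simpa using h4


theorem npc_normal_sub [Finite G] (p : ℕ) [Fact p.Prime] (N : Subgroup G) [hNn : N.Normal]
    (h : Cfsg.HasNormalPComplement p N) :
    ∃ K : Subgroup G, K ≤ N ∧ K.Normal ∧ (Nat.card K).Coprime p ∧ ∃ a, K.relIndex N = p ^ a := by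
  obtain ⟨K', hK'n, hK'c, a, ha⟩ := hasNormalPComplement_iff.mp h
  have hmem : ∀ x, x ∈ K'.map N.subtype ↔ x ∈ N ∧ (orderOf x).Coprime p := by
    intro x
    constructor
    · rintro ⟨k, hk, rfl⟩
      refine ⟨k.2, ?_⟩
      have h0 := coprime_orderOf_of_mem_of_coprime_card K' hK'c k hk
      show (orderOf (k : G)).Coprime p
      rw [Subgroup.orderOf_coe]; exact h0
    · rintro ⟨hxN, hx⟩
      refine ⟨⟨x, hxN⟩, mem_of_index_pow_of_coprime_orderOf K' ha _ ?_, rfl⟩
      rw [Subgroup.orderOf_mk]; exact hx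
  refine ⟨K'.map N.subtype, Subgroup.map_subtype_le _, ?_, ?_, a, ?_⟩
  · constructor
    intro x hx g
    rw [hmem] at hx ⊢
    exact ⟨hNn.conj_mem x hx.1 g, by rw [orderOf_conj']; exact hx.2⟩
  · rw [Subgroup.card_map_of_injective N.subtype_injective]; exact hK'c
  · have h0 : (K'.map N.subtype).subgroupOf N = K' :=
      Subgroup.comap_map_eq_self_of_injective N.subtype_injective K'
    show ((K'.map N.subtype).subgroupOf N).index = p ^ a
    rw [h0]; exact ha

theorem isCyclic_of_le (R P : Subgroup G) (hRP : R ≤ P) (hP : IsCyclic P) : IsCyclic R := by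
  have h0 : IsCyclic (R.subgroupOf P) := inferInstance
  exact isCyclic_of_surjective (Subgroup.subgroupOfEquivOfLe hRP) (MulEquiv.surjective _)

theorem partB [Finite G] (p : ℕ) [hpf : Fact p.Prime] (P : Sylow p G)
    (hP : IsCyclic (P : Subgroup G)) (H : Subgroup G) [hHn : H.Normal]
    (h1 : p ∣ Nat.card H) (hH : Cfsg.HasNormalPComplement p H) : Cfsg.IsPSolvable p G := by
  have hp : p.Prime := hpf.out
  obtain ⟨K, hKH, hKn, hKcop, a, hKrel⟩ := npc_normal_sub p H hH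
  have ha : a ≠ 0 := by
    rintro rfl
    rw [pow_zero] at hKrel
    have h0 := card_mul_relIndex_of_le hKH
    rw [hKrel, mul_one] at h0
    rw [← h0] at h1
    exact (Nat.Prime.coprime_iff_not_dvd hp).mp hKcop.symm h1
  have hsurj : Function.Surjective (QuotientGroup.mk' K) := QuotientGroup.mk'_surjective K
  obtain ⟨Hb, hHb⟩ : ∃ Hb : Subgroup (G ⧸ K), Hb = H.map (QuotientGroup.mk' K) := ⟨_, rfl⟩
  have hHbn : Hb.Normal := by rw [hHb]; exact Subgroup.Normal.map hHn _ hsurj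
  have hHbcard : Nat.card Hb = p ^ a := by
    rw [hHb, ← Subgroup.relIndex_ker, QuotientGroup.ker_mk', hKrel]
  have hHbp : IsPGroup p Hb := IsPGroup.of_card hHbcard
  have hHbne : Hb ≠ ⊥ := by
    intro h
    rw [h, Subgroup.card_bot] at hHbcard
    have h0 := Nat.one_lt_pow ha hp.one_lt
    omega
  obtain ⟨Pb, hPb⟩ : ∃ Pb : Sylow p (G ⧸ K),
      (Pb : Subgroup (G ⧸ K)) = (P : Subgroup G).map (QuotientGroup.mk' K) :=
    ⟨P.mapSurjective hsurj, Sylow.coe_mapSurjective hsurj P⟩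
  have hPbcyc : IsCyclic (Pb : Subgroup (G ⧸ K)) := by
    rw [hPb]
    have h0 := hP
    exact isCyclic_of_surjective ((QuotientGroup.mk' K).subgroupMap (P : Subgroup G))
      (MonoidHom.subgroupMap_surjective _ _)
  have hHbPb : Hb ≤ (Pb : Subgroup (G ⧸ K)) := normal_pGroup_le_sylow Hb hHbn hHbp Pb
  obtain ⟨Cb, hCb⟩ : ∃ Cb : Subgroup (G ⧸ K),
    Cb = Subgroup.centralizer (Hb : Set (G ⧸ K)) := ⟨_, rfl⟩
  have hCbn : Cb.Normal := by rw [hCb]; infer_instance
  obtain ⟨gb, hPbz⟩ := exists_zpowers_of_isCyclic _ hPbcyc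
  have hcommb : ∀ a ∈ (Pb : Subgroup (G ⧸ K)), ∀ b ∈ (Pb : Subgroup (G ⧸ K)), a * b = b * a := by
    rw [hPbz]; exact comm_of_zpowers gb
  have hHbCb : Hb ≤ Cb := by
    intro x hx
    rw [hCb, Subgroup.mem_centralizer_iff]
    intro y hy
    exact hcommb y (hHbPb hy) x (hHbPb hx)
  obtain ⟨R, hR⟩ : ∃ R : Subgroup (G ⧸ K), R = (Pb : Subgroup (G ⧸ K)) ⊓ Cb := ⟨_, rfl⟩
  have hRcyc : IsCyclic R := isCyclic_of_le R _ (by rw [hR]; exact inf_le_left) hPbcyc
  obtain ⟨r, hRz⟩ := exists_zpowers_of_isCyclic R hRcyc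
  have hRp : IsPGroup p R := Pb.2.to_le (by rw [hR]; exact inf_le_left)
  obtain ⟨e, he⟩ := IsPGroup.iff_card.mp hRp
  have hrR : r ∈ R := by rw [hRz]; exact Subgroup.mem_zpowers r
  have hre : r ^ p ^ e = 1 := by
    have h0 := pow_card_eq_one' (G := R) (x := ⟨r, hrR⟩)
    rw [he] at h0
    exact congrArg Subtype.val h0
  obtain ⟨u₀, hu₀, hu₀1⟩ : ∃ u₀ ∈ Hb, u₀ ≠ 1 := by
    by_contra hcon
    apply hHbne
    rw [Subgroup.eq_bot_iff_forall]
    intro x hx
    by_contra hx1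
    exact hcon ⟨x, hx, hx1⟩
  have hCbNPC : Cfsg.HasNormalPComplement p Cb := by
    apply burnside_pow p (sylowInfNormal Pb Cb)
    · intro a ha b hb
      rw [coe_sylowInfNormal, Subgroup.mem_subgroupOf] at ha hb
      apply Subtype.ext
      exact hcommb a ha b hb
    · intro y hy
      refine ⟨e, ?_⟩
      rw [coe_sylowInfNormal] at hy ⊢
      have hyN : (y : G ⧸ K) ∈ Subgroup.normalizer (R : Set (G ⧸ K)) := by
        have h1 : (Subgroup.normalizer (R : Set (G ⧸ K))).subgroupOf Cb =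
            Subgroup.normalizer ((R.subgroupOf Cb : Subgroup Cb) : Set Cb) :=
          Subgroup.subgroupOf_normalizer_eq (by rw [hR]; exact inf_le_right)
        have h3 : R.subgroupOf Cb = (Pb : Subgroup (G ⧸ K)).subgroupOf Cb := by
          rw [hR]; exact Subgroup.inf_subgroupOf_right _ _
        rw [h3] at h1
        rw [← h1] at hy
        exact Subgroup.mem_subgroupOf.mp hy
      have hfix : (y : G ⧸ K) * u₀ * (y : G ⧸ K)⁻¹ = u₀ := by
        have hyC : (y : G ⧸ K) ∈ Subgroup.centralizer (Hb : Set (G ⧸ K)) := hCb ▸ y.2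
        have h0 := (Subgroup.mem_centralizer_iff.mp hyC) u₀ hu₀
        rw [← h0]; group
      have hng : (y : G ⧸ K) * r * (y : G ⧸ K)⁻¹ ∈ Subgroup.zpowers r := by
        rw [← hRz]
        exact conj_mem_of_mem_normalizer hyN hrR
      obtain ⟨t, ht, hpt⟩ := KL2 p r (y : G ⧸ K) u₀ (hRz ▸ hRp)
        (by rw [← hRz, hR]; exact ⟨hHbPb hu₀, hHbCb hu₀⟩) hu₀1 hfix hng
      have hcomm2 := KL_core p r (y : G ⧸ K) t e ht hpt hre
      rw [Subgroup.mem_centralizer_iff]
      intro s hs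
      apply Subtype.ext
      have hsR : (s : G ⧸ K) ∈ R := by rw [hR]; exact ⟨Subgroup.mem_subgroupOf.mp hs, s.2⟩
      rw [hRz] at hsR
      obtain ⟨i, hi⟩ := Subgroup.mem_zpowers_iff.mp hsR
      have h4 : (s : G ⧸ K) * (y : G ⧸ K) ^ p ^ e = (y : G ⧸ K) ^ p ^ e * (s : G ⧸ K) := by
        rw [← hi]
        exact ((Commute.zpow_right (show Commute ((y : G ⧸ K) ^ p ^ e) r from hcomm2) i).eq).symm
      simpa using h4
  obtain ⟨Db, hDbCb, hDbn, hDbcop, b, hDbrel⟩ := npc_normal_sub p Cb hCbNPC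
  have hab : ∀ x y : G ⧸ K, x * y * x⁻¹ * y⁻¹ ∈ Cb := by
    have hHbcyc : IsCyclic Hb := isCyclic_of_le Hb _ hHbPb hPbcyc
    have hcommAut : ∀ α β : MulAut ↥Hb, α * β = β * α := by
      intro α β
      apply (IsCyclic.mulAutMulEquiv ↥Hb).injective
      rw [map_mul, map_mul, mul_comm]
    intro x y
    have hx : x ∈ Subgroup.normalizer (Hb : Set (G ⧸ K)) := by
      rw [Subgroup.normalizer_eq_top]; trivial
    have hy : y ∈ Subgroup.normalizer (Hb : Set (G ⧸ K)) := by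
      rw [Subgroup.normalizer_eq_top]; trivial
    have h0 : (⟨x, hx⟩ * ⟨y, hy⟩ * ⟨x, hx⟩⁻¹ * ⟨y, hy⟩⁻¹ :
        Subgroup.normalizer (Hb : Set (G ⧸ K))) ∈ Hb.normalizerMonoidHom.ker := by
      rw [MonoidHom.mem_ker, map_mul, map_mul, map_mul, map_inv, map_inv,
        hcommAut (Hb.normalizerMonoidHom ⟨x, hx⟩) (Hb.normalizerMonoidHom ⟨y, hy⟩),
        mul_inv_cancel_right, mul_inv_cancel]
    rw [Subgroup.normalizerMonoidHom_ker, Subgroup.mem_subgroupOf] at h0
    rw [hCb]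
    exact h0
  have hAcomm : ∀ x y : (G ⧸ K) ⧸ Cb, x * y = y * x := by
    intro x y
    obtain ⟨x, rfl⟩ := QuotientGroup.mk_surjective x
    obtain ⟨y, rfl⟩ := QuotientGroup.mk_surjective y
    rw [← QuotientGroup.mk_mul, ← QuotientGroup.mk_mul, QuotientGroup.eq]
    have h0 := hab y⁻¹ x⁻¹
    have e1 : (x * y)⁻¹ * (y * x) = y⁻¹ * x⁻¹ * y⁻¹⁻¹ * x⁻¹⁻¹ := by group
    rw [e1]; exact h0
  obtain ⟨S⟩ : Nonempty (Sylow p ((G ⧸ K) ⧸ Cb)) := inferInstance
  have hANPC : Cfsg.HasNormalPComplement p ((G ⧸ K) ⧸ Cb) := by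
    apply hasNormalPComplement_of_normalizer_le_centralizer S
    intro n _
    rw [Subgroup.mem_centralizer_iff]
    intro s _
    exact hAcomm s n
  obtain ⟨F', hF'n, hF'cop, c, hF'idx⟩ := hasNormalPComplement_iff.mp hANPC
  obtain ⟨Fb, hFb⟩ : ∃ Fb : Subgroup (G ⧸ K), Fb = F'.comap (QuotientGroup.mk' Cb) := ⟨_, rfl⟩
  have hFbn : Fb.Normal := by rw [hFb]; infer_instance
  have hCbFb : Cb ≤ Fb := by
    rw [hFb]
    intro x hx
    rw [Subgroup.mem_comap]
    have h0 : (QuotientGroup.mk' Cb) x = 1 := (QuotientGroup.eq_one_iff x).mpr hx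
    rw [h0]; exact F'.one_mem
  have hFbrel : (Cb.relIndex Fb).Coprime p := by
    have h0 := Subgroup.relIndex_ker (K := Fb) (QuotientGroup.mk' Cb)
    rw [QuotientGroup.ker_mk'] at h0
    rw [h0, hFb, Subgroup.map_comap_eq_self_of_surjective (QuotientGroup.mk'_surjective Cb)]
    exact hF'cop
  have hFbidx : Fb.index = p ^ c := by
    rw [hFb, Subgroup.index_comap_of_surjective _ (QuotientGroup.mk'_surjective Cb)]; exact hF'idx
  obtain ⟨D, hD⟩ : ∃ D : Subgroup G, D = Db.comap (QuotientGroup.mk' K) := ⟨_, rfl⟩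
  obtain ⟨C, hC⟩ : ∃ C : Subgroup G, C = Cb.comap (QuotientGroup.mk' K) := ⟨_, rfl⟩
  obtain ⟨F, hF⟩ : ∃ F : Subgroup G, F = Fb.comap (QuotientGroup.mk' K) := ⟨_, rfl⟩
  have hKD : K ≤ D := by
    rw [hD]
    intro x hx
    rw [Subgroup.mem_comap]
    have h0 : (QuotientGroup.mk' K) x = 1 := (QuotientGroup.eq_one_iff x).mpr hx
    rw [h0]; exact Db.one_mem
  have hDC : D ≤ C := by rw [hD, hC]; exact Subgroup.comap_mono hDbCb
  have hCF : C ≤ F := by rw [hC, hF]; exact Subgroup.comap_mono hCbFb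
  refine ⟨5, ![⊥, K, D, C, F, ⊤], rfl, rfl, ?_, ?_, ?_⟩
  · apply Fin.monotone_iff_le_succ.mpr
    intro i
    fin_cases i
    · show (⊥ : Subgroup G) ≤ K
      exact bot_le
    · show K ≤ D
      exact hKD
    · show D ≤ C
      exact hDC
    · show C ≤ F
      exact hCF
    · show F ≤ (⊤ : Subgroup G)
      exact le_top
  · intro i
    fin_cases i
    · show (⊥ : Subgroup G).Normal
      infer_instance
    · exact hKn
    · show D.Normal
      rw [hD]; infer_instance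
    · show C.Normal
      rw [hC]; infer_instance
    · show F.Normal
      rw [hF]; infer_instance
    · show (⊤ : Subgroup G).Normal
      infer_instance
  · intro i
    fin_cases i
    · right
      show ((⊥ : Subgroup G).relIndex K).Coprime p
      rw [Subgroup.relIndex_bot_left]; exact hKcop
    · right
      show (K.relIndex D).Coprime p
      have h0 := Subgroup.relIndex_ker (K := D) (QuotientGroup.mk' K)
      rw [QuotientGroup.ker_mk'] at h0
      rw [h0, hD, Subgroup.map_comap_eq_self_of_surjective hsurj]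
      exact hDbcop
    · left
      show ∃ m, D.relIndex C = p ^ m
      refine ⟨b, ?_⟩
      rw [hD, Subgroup.relIndex_comap, hC, Subgroup.map_comap_eq_self_of_surjective hsurj]
      exact hDbrel
    · right
      show (C.relIndex F).Coprime p
      rw [hC, Subgroup.relIndex_comap, hF, Subgroup.map_comap_eq_self_of_surjective hsurj]
      exact hFbrel
    · left
      show ∃ m, F.relIndex (⊤ : Subgroup G) = p ^ m
      refine ⟨c, ?_⟩
      rw [Subgroup.relIndex_top_right, hF, Subgroup.index_comap_of_surjective _ hsurj]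
      exact hFbidx

end

/-- Let G be a finite group with a cyclic Sylow p-subgroup and H a normal subgroup such that p divides both the order of H and the index of H. Then H has a normal p-complement and G is p-solvable. -/
theorem result {G : Type*} [Group G] [Finite G] (p : ℕ) [Fact p.Prime]
    (P : Sylow p G) (hP : IsCyclic (P : Subgroup G)) (H : Subgroup G) [H.Normal] (h1 : p ∣ Nat.card H) (h2 : p ∣ H.index) :
    Cfsg.HasNormalPComplement p H ∧ Cfsg.IsPSolvable p G := by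
  exact ⟨partA p P hP H h2, partB p P hP H h1 (partA p P hP H h2)⟩

end Cfsg.Agent.S4145
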