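import Cfsg.Statements.S4153
-- import your own Cfsg.Agent.* helpers here
import Mathlib

set_option autoImplicit false
open Cfsg

namespace Cfsg.Agent.S4153

/-- Let G be a finite group, p a prime, N a normal subgroup, P a Sylow p-subgroup of G and P̄ a Sylow p-subgroup of G/N. Count the elements of p-power order, the identity included. Then (number of such elements of G/N)/#P̄ ≤ (number of such elements of G)/#P, stated as a cross-multiplied inequality, with equality when N is central. -/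
theorem result {G : Type*} [Group G] [Finite G] (p : ℕ) [Fact p.Prime] (N : Subgroup G) [N.Normal]
    (P : Sylow p G) (Pbar : Sylow p (G ⧸ N)) :
    Nat.card {g : (G ⧸ N) // ∃ k : ℕ, orderOf g = p ^ k} * Nat.card (P : Subgroup G) ≤ Nat.card {g : G // ∃ k : ℕ, orderOf g = p ^ k} * Nat.card (Pbar : Subgroup (G ⧸ N)) ∧
    (N ≤ Subgroup.center G → Nat.card {g : (G ⧸ N) // ∃ k : ℕ, orderOf g = p ^ k} * Nat.card (P : Subgroup G) = Nat.card {g : G // ∃ k : ℕ, orderOf g = p ^ k} * Nat.card (Pbar : Subgroup (G ⧸ N))) := by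
  classical
  haveI := Fintype.ofFinite G
  haveI : Fintype (G ⧸ N) := Fintype.ofFinite _
  haveI : ∀ S : Sylow p G, Fintype ↥((S : Subgroup G) ⊓ N) := fun S => Fintype.ofFinite _
  have hp : p.Prime := Fact.out
  obtain ⟨π, hπ⟩ : ∃ π : G →* G ⧸ N, π = QuotientGroup.mk' N := ⟨_, rfl⟩
  have hsurj : Function.Surjective π := by
    rw [hπ]; exact QuotientGroup.mk'_surjective N
  have hker : ∀ g : G, π g = 1 ↔ g ∈ N := by
    intro g
    rw [hπ]; exact QuotientGroup.eq_one_iff g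
  have hpelS : ∀ (S : Sylow p G) (x : G), x ∈ (S : Subgroup G) → ∃ k : ℕ, orderOf x = p ^ k := by
    intro S x hx
    obtain ⟨k, hk⟩ := S.isPGroup' ⟨x, hx⟩
    have h3 : x ^ p ^ k = 1 := by simpa using congrArg Subtype.val hk
    obtain ⟨j, _, hj⟩ := (Nat.dvd_prime_pow hp).mp (orderOf_dvd_of_pow_eq_one h3)
    exact ⟨j, hj⟩
  obtain ⟨e, he⟩ : ∃ e, e = Nat.card ↥((P : Subgroup G) ⊓ N) := ⟨_, rfl⟩
  have hK2 : ∀ S : Sylow p G, Nat.card ↥((S : Subgroup G) ⊓ N) * Nat.card (Pbar : Subgroup (G ⧸ N)) =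
      Nat.card (P : Subgroup G) := by
    intro S
    obtain ⟨f, hf⟩ : ∃ f : (S : Subgroup G) →* G ⧸ N, ∀ s : (S : Subgroup G), f s = π (s : G) :=
      ⟨π.comp (S : Subgroup G).subtype, fun s => rfl⟩
    have h1 := f.ker.card_mul_index
    rw [Subgroup.index_ker] at h1
    have h2 : Nat.card f.range = Nat.card (Pbar : Subgroup (G ⧸ N)) := by
      have h3 : f.range = ((S.mapSurjective hsurj : Sylow p (G ⧸ N)) : Subgroup (G ⧸ N)) := by
        rw [Sylow.coe_mapSurjective]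
        ext q
        constructor
        · rintro ⟨s, rfl⟩
          exact ⟨s.1, s.2, (hf s).symm⟩
        · rintro ⟨s, hs, rfl⟩
          exact ⟨⟨s, hs⟩, hf ⟨s, hs⟩⟩
      rw [h3, Sylow.card_eq_multiplicity, Sylow.card_eq_multiplicity]
    have h4 : Nat.card f.ker = Nat.card ↥((S : Subgroup G) ⊓ N) := by
      have hA : ∀ c : f.ker, (c.1.1 : G) ∈ (S : Subgroup G) ⊓ N := by
        intro c
        refine Subgroup.mem_inf.mpr ⟨c.1.2, ?_⟩
        have h5 := c.2
        rw [MonoidHom.mem_ker, hf] at h5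
        exact (hker _).mp h5
      have hB : ∀ d : ↥((S : Subgroup G) ⊓ N),
          (⟨d.1, (Subgroup.mem_inf.mp d.2).1⟩ : (S : Subgroup G)) ∈ f.ker := by
        intro d
        rw [MonoidHom.mem_ker, hf]
        exact (hker _).mpr (Subgroup.mem_inf.mp d.2).2
      exact Nat.card_congr ⟨fun c => ⟨c.1.1, hA c⟩,
        fun d => ⟨⟨d.1, (Subgroup.mem_inf.mp d.2).1⟩, hB d⟩, fun c => rfl, fun d => rfl⟩
    rw [h4, h2] at h1
    rw [h1, Sylow.card_eq_multiplicity S, Sylow.card_eq_multiplicity P]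
  have hK2' : ∀ S : Sylow p G, Nat.card ↥((S : Subgroup G) ⊓ N) = e := by
    intro S
    have h1 := hK2 S
    have h2 := hK2 P
    rw [← he] at h2
    exact Nat.eq_of_mul_eq_mul_right Nat.card_pos (h1.trans h2.symm)
  have hK1 : ∀ q : G ⧸ N, (∃ k : ℕ, orderOf q = p ^ k) →
      ∃ S : Sylow p G, ∃ s ∈ (S : Subgroup G), π s = q := by
    rintro q ⟨k, hk⟩
    have hz : IsPGroup p (Subgroup.zpowers q) :=
      IsPGroup.of_card (n := k) (by rw [Nat.card_zpowers, hk])
    obtain ⟨Q₁, hQ₁⟩ := hz.exists_le_sylow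
    obtain ⟨S, hS⟩ := Sylow.mapSurjective_surjective hsurj p Q₁
    have hq : q ∈ (Q₁ : Subgroup (G ⧸ N)) := hQ₁ (Subgroup.mem_zpowers q)
    rw [← hS, Sylow.coe_mapSurjective] at hq
    obtain ⟨s, hs, hsq⟩ := hq
    exact ⟨S, s, hs, hsq⟩
  obtain ⟨Gp, hGpdef⟩ : ∃ Gp : Finset G, Gp = Finset.univ.filter (fun g : G => ∃ k : ℕ, orderOf g = p ^ k) := ⟨_, rfl⟩
  obtain ⟨Qp, hQpdef⟩ : ∃ Qp : Finset (G ⧸ N), Qp = Finset.univ.filter (fun g : G ⧸ N => ∃ k : ℕ, orderOf g = p ^ k) := ⟨_, rfl⟩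
  have hGpmem : ∀ g, g ∈ Gp ↔ ∃ k : ℕ, orderOf g = p ^ k := by
    intro g
    rw [hGpdef, Finset.mem_filter]
    exact ⟨fun h => h.2, fun h => ⟨Finset.mem_univ _, h⟩⟩
  have hQpmem : ∀ g, g ∈ Qp ↔ ∃ k : ℕ, orderOf g = p ^ k := by
    intro g
    rw [hQpdef, Finset.mem_filter]
    exact ⟨fun h => h.2, fun h => ⟨Finset.mem_univ _, h⟩⟩
  have hmaps : ∀ g ∈ Gp, π g ∈ Qp := by
    intro g hg
    obtain ⟨k, hk⟩ := (hGpmem g).mp hg
    have h1 : orderOf (π g) ∣ p ^ k := hk ▸ orderOf_map_dvd π g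
    obtain ⟨j, _, hj⟩ := (Nat.dvd_prime_pow hp).mp h1
    exact (hQpmem _).mpr ⟨j, hj⟩
  have hK3 : ∀ q ∈ Qp, e ≤ (Gp.filter (fun g => π g = q)).card := by
    intro q hq
    obtain ⟨S, s, hs, hsq⟩ := hK1 q ((hQpmem q).mp hq)
    rw [← hK2' S, Nat.card_eq_fintype_card, ← Finset.card_univ]
    apply Finset.card_le_card_of_injOn (fun n : ↥((S : Subgroup G) ⊓ N) => s * (n : G))
    · intro n _
      apply Finset.mem_coe.mpr
      refine Finset.mem_filter.mpr ⟨(hGpmem _).mpr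
        (hpelS S _ (Subgroup.mul_mem _ hs (Subgroup.mem_inf.mp n.2).1)), ?_⟩
      rw [map_mul, hsq, (hker _).mpr (Subgroup.mem_inf.mp n.2).2, mul_one]
    · intro n _ n' _ h
      exact Subtype.ext (mul_left_cancel h)
  have hcount : Gp.card = ∑ q ∈ Qp, (Gp.filter (fun g => π g = q)).card :=
    Finset.card_eq_sum_card_fiberwise hmaps
  have hineq : Qp.card * e ≤ Gp.card := by
    rw [hcount, ← smul_eq_mul, ← Finset.sum_const]
    exact Finset.sum_le_sum hK3
  have hGp : Nat.card {g : G // ∃ k : ℕ, orderOf g = p ^ k} = Gp.card := by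
    rw [Nat.card_eq_fintype_card, Fintype.card_subtype, hGpdef]
  have hQp : Nat.card {g : G ⧸ N // ∃ k : ℕ, orderOf g = p ^ k} = Qp.card := by
    rw [Nat.card_eq_fintype_card, Fintype.card_subtype, hQpdef]
  have hPe : Nat.card (P : Subgroup G) = e * Nat.card (Pbar : Subgroup (G ⧸ N)) := by
    rw [he]; exact (hK2 P).symm
  constructor
  · rw [hGp, hQp, hPe, ← mul_assoc]
    exact Nat.mul_le_mul_right _ hineq
  · intro hcen
    rw [hGp, hQp, hPe, ← mul_assoc]
    congr 1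
    rw [hcount, ← smul_eq_mul, ← Finset.sum_const]
    refine Finset.sum_congr rfl fun q hq => ?_
    apply le_antisymm (hK3 q hq)
    obtain ⟨S, s, hs, hsq⟩ := hK1 q ((hQpmem q).mp hq)
    have hmem : ∀ g ∈ Gp.filter (fun g => π g = q), s⁻¹ * g ∈ (P : Subgroup G) ⊓ N := by
      intro g hg
      obtain ⟨hgp, hgq⟩ := Finset.mem_filter.mp hg
      have hgp' := (hGpmem g).mp hgp
      have hnN : s⁻¹ * g ∈ N := by
        rw [← hker, map_mul, map_inv, hsq, hgq, inv_mul_cancel]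
      refine Subgroup.mem_inf.mpr ⟨?_, hnN⟩
      have hncen : s⁻¹ * g ∈ Subgroup.center G := hcen hnN
      obtain ⟨k₁, hk₁⟩ := hpelS S s hs
      obtain ⟨k₂, hk₂⟩ := hgp'
      have hcomm : Commute s⁻¹ g := by
        have h2 := Subgroup.mem_center_iff.mp hncen
        show s⁻¹ * g = g * s⁻¹
        calc s⁻¹ * g = s * (s⁻¹ * (s⁻¹ * g)) := by group
          _ = s * ((s⁻¹ * g) * s⁻¹) := by rw [h2 s⁻¹]
          _ = g * s⁻¹ := by group
      have hpow : (s⁻¹ * g) ^ (p ^ (k₁ + k₂)) = 1 := by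
        have e1 : s ^ (p ^ (k₁ + k₂)) = 1 := by
          rw [pow_add, pow_mul, ← hk₁, pow_orderOf_eq_one, one_pow]
        have e2 : g ^ (p ^ (k₁ + k₂)) = 1 := by
          rw [pow_add, mul_comm, pow_mul, ← hk₂, pow_orderOf_eq_one, one_pow]
        rw [hcomm.mul_pow, inv_pow, e1, e2, inv_one, one_mul]
      have hzp : IsPGroup p (Subgroup.zpowers (s⁻¹ * g)) := by
        obtain ⟨j, _, hj⟩ := (Nat.dvd_prime_pow hp).mp (orderOf_dvd_of_pow_eq_one hpow)
        exact IsPGroup.of_card (n := j) (by rw [Nat.card_zpowers, hj])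
      haveI hzn : (Subgroup.zpowers (s⁻¹ * g)).Normal := by
        constructor
        intro z hz c
        have hzc : z ∈ Subgroup.center G := (Subgroup.zpowers_le.mpr hncen) hz
        have h5 : c * z * c⁻¹ = z := by
          rw [Subgroup.mem_center_iff.mp hzc c]; group
        rw [h5]; exact hz
      have hsup : IsPGroup p ((P : Subgroup G) ⊔ Subgroup.zpowers (s⁻¹ * g) : Subgroup G) :=
        IsPGroup.to_sup_of_normal_right P.isPGroup' hzp
      have heq := P.is_maximal' hsup le_sup_left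
      have h6 : s⁻¹ * g ∈ (P : Subgroup G) ⊔ Subgroup.zpowers (s⁻¹ * g) :=
        Subgroup.mem_sup_right (Subgroup.mem_zpowers _)
      rwa [heq] at h6
    rw [he, Nat.card_eq_fintype_card, ← Finset.card_univ]
    apply Finset.card_le_card_of_injOn (fun g => if h : s⁻¹ * g ∈ (P : Subgroup G) ⊓ N then
      (⟨s⁻¹ * g, h⟩ : ↥((P : Subgroup G) ⊓ N)) else 1)
    · intro g _
      exact Finset.mem_coe.mpr (Finset.mem_univ _)
    · intro g hg g' hg' h
      simp only [dif_pos (hmem g (Finset.mem_coe.mp hg)), dif_pos (hmem g' (Finset.mem_coe.mp hg'))] at h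
      exact mul_left_cancel (congrArg Subtype.val h)

end Cfsg.Agent.S4153
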