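import Cfsg.Statements.S4154
-- import your own Cfsg.Agent.* helpers here
import Mathlib

set_option autoImplicit false
open Cfsg

namespace Cfsg.Agent.S4154

/-- Let G be a finite group and α an automorphism of G such that every element of G is the product of an element fixed by α and an element of the form g⁻¹α(g). If N is a normal α-invariant subgroup, then the automorphism ᾱ induced on G/N has the same property, and every coset fixed by ᾱ contains an element fixed by α (so the fixed points of ᾱ are the images of the fixed points of α). -/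
theorem result {G : Type*} [Group G] [Finite G] (α : MulAut G)
    (hccp : ∀ x : G, ∃ c g : G, α c = c ∧ x = c * (g⁻¹ * α g))
    (N : Subgroup G) [N.Normal] (hN : ∀ n ∈ N, α n ∈ N) :
    (∀ x : G, ∃ c g : G, c⁻¹ * α c ∈ N ∧ x⁻¹ * (c * (g⁻¹ * α g)) ∈ N) ∧
    (∀ x : G, x⁻¹ * α x ∈ N → ∃ c : G, α c = c ∧ c⁻¹ * x ∈ N) := by
  constructor
  · intro x
    obtain ⟨c, g, hc, hx⟩ := hccp x
    refine ⟨c, g, ?_, ?_⟩
    · rw [hc, inv_mul_cancel]; exact N.one_mem
    · rw [← hx, inv_mul_cancel]; exact N.one_mem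
  · let C : Subgroup G :=
      { carrier := {c | α c = c}
        mul_mem' := by
          intro a b ha hb
          simp only [Set.mem_setOf_eq] at *
          rw [map_mul, ha, hb]
        one_mem' := map_one α
        inv_mem' := by
          intro a ha
          simp only [Set.mem_setOf_eq] at *
          rw [map_inv, ha] }
    have hC : ∀ c, c ∈ C ↔ α c = c := fun c => Iff.rfl
    let θ : G → G := fun g => g * (α g)⁻¹
    have hA : ∀ g c, c ∈ C → θ (g * c) = θ g := by
      intro g c hc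
      simp only [θ]
      rw [map_mul, (hC c).mp hc]; group
    let Ψ : C × (G ⧸ C) → G := fun p => (p.1 : G) * θ p.2.out
    have hΨ : ∀ (c : C) (g : G), Ψ (c, (QuotientGroup.mk g : G ⧸ C)) = (c : G) * θ g := by
      intro c g
      obtain ⟨c', hc'⟩ := QuotientGroup.mk_out_eq_mul C g
      show (c : G) * θ (QuotientGroup.mk g : G ⧸ C).out = _
      rw [hc', hA g c' c'.2]
    have hsurj : Function.Surjective Ψ := by
      intro x
      obtain ⟨c, g, hc, hx⟩ := hccp x
      refine ⟨(⟨c, hc⟩, (QuotientGroup.mk g⁻¹ : G ⧸ C)), ?_⟩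
      rw [hΨ, hx]
      simp only [θ]; rw [map_inv, inv_inv]
    have hcard : Nat.card (C × (G ⧸ C)) = Nat.card G := by
      rw [Nat.card_prod, mul_comm]
      exact (Subgroup.card_eq_card_quotient_mul_card_subgroup C).symm
    have hinj : Function.Injective Ψ := (hsurj.bijective_of_nat_card_le hcard.le).1
    have huniq : ∀ c₁ c₂ g₁ g₂ : G, c₁ ∈ C → c₂ ∈ C → c₁ * θ g₁ = c₂ * θ g₂ →
        c₁ = c₂ ∧ g₁⁻¹ * g₂ ∈ C := by
      intro c₁ c₂ g₁ g₂ h1 h2 heq
      have := hinj (a₁ := (⟨c₁, h1⟩, (QuotientGroup.mk g₁ : G ⧸ C)))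
        (a₂ := (⟨c₂, h2⟩, (QuotientGroup.mk g₂ : G ⧸ C))) (by rw [hΨ, hΨ]; exact heq)
      obtain ⟨e1, e2⟩ := Prod.ext_iff.mp this
      exact ⟨congrArg Subtype.val e1, QuotientGroup.eq.mp e2⟩
    let CN : Subgroup N := C.subgroupOf N
    have hθN : ∀ n : G, n ∈ N → θ n ∈ N := fun n hn => N.mul_mem hn (N.inv_mem (hN n hn))
    let ΨN : CN × (N ⧸ CN) → N := fun p =>
      ⟨((p.1 : N) : G) * θ ((p.2.out : N) : G), N.mul_mem (p.1 : N).2 (hθN _ (p.2.out).2)⟩
    have hinjN : Function.Injective ΨN := by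
      rintro ⟨c₁, q₁⟩ ⟨c₂, q₂⟩ heq
      have heq' : ((c₁ : N) : G) * θ ((q₁.out : N) : G) = ((c₂ : N) : G) * θ ((q₂.out : N) : G) :=
        congrArg Subtype.val heq
      obtain ⟨e1, e2⟩ := huniq _ _ _ _ (Subgroup.mem_subgroupOf.mp c₁.2)
        (Subgroup.mem_subgroupOf.mp c₂.2) heq'
      have e3 : q₁ = q₂ := by
        rw [← QuotientGroup.out_eq' q₁, ← QuotientGroup.out_eq' q₂]
        apply QuotientGroup.eq.mpr
        rw [Subgroup.mem_subgroupOf]; exact e2
      have e4 : c₁ = c₂ := Subtype.ext (Subtype.ext e1)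
      rw [e3, e4]
    have hcardN : Nat.card (CN × (N ⧸ CN)) = Nat.card N := by
      rw [Nat.card_prod, mul_comm]
      exact (Subgroup.card_eq_card_quotient_mul_card_subgroup CN).symm
    have hsurjN : Function.Surjective ΨN := (hinjN.bijective_of_nat_card_le hcardN.ge).2
    intro x hx
    obtain ⟨⟨c, q⟩, hcq⟩ := hsurjN ⟨x⁻¹ * α x, hx⟩
    have h1 : ((c : N) : G) * θ ((q.out : N) : G) = 1 * θ x⁻¹ := by
      have := congrArg Subtype.val hcq
      rw [one_mul]; simp only [θ]; rw [map_inv, inv_inv]; exact this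
    obtain ⟨e1, e2⟩ := huniq _ _ _ _ (Subgroup.mem_subgroupOf.mp c.2) C.one_mem h1
    refine ⟨x * (q.out : N), ?_, ?_⟩
    · have := C.inv_mem e2
      rw [mul_inv_rev, inv_inv, inv_inv] at this
      exact this
    · rw [mul_inv_rev, inv_mul_cancel_right]; exact N.inv_mem (q.out).2

end Cfsg.Agent.S4154
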