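import Cfsg.Statements.S4168
-- import your own Cfsg.Agent.* helpers here
import Mathlib

set_option autoImplicit false
open Cfsg

namespace Cfsg.Agent.S4168

section
universe u
variable {L : Type u} [Group L] [Finite L]

theorem main (hperf : commutator L = ⊤)
    (p : ℕ) (hp : p.Prime) (hdiv : p ∣ Nat.card (Subgroup.center L)) :
    p ∣ (Subgroup.center L).index := by
  by_contra hnd
  have := Fact.mk hp
  obtain ⟨Q⟩ : Nonempty (Sylow p ↥(Subgroup.center L)) := inferInstance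
  obtain ⟨Q', hQ'⟩ : ∃ Q' : Subgroup L, Q' = (Q : Subgroup ↥(Subgroup.center L)).map (Subgroup.center L).subtype :=
    ⟨_, rfl⟩
  have hZpos : Nat.card (Subgroup.center L) ≠ 0 := Nat.card_pos.ne'
  have hLpos : Nat.card L ≠ 0 := Nat.card_pos.ne'
  have hle : Q' ≤ Subgroup.center L := by
    rw [hQ']; exact Subgroup.map_subtype_le _
  have hcardQ' : Nat.card Q' = p ^ (Nat.card (Subgroup.center L)).factorization p := by
    rw [hQ', Subgroup.card_map_of_injective (Subgroup.subtype_injective _)]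
    exact Sylow.card_eq_multiplicity Q
  have hfac : (Nat.card L).factorization p = (Nat.card (Subgroup.center L)).factorization p := by
    rw [← Subgroup.card_mul_index (Subgroup.center L),
      Nat.factorization_mul hZpos (Subgroup.index_ne_zero_of_finite),
      Finsupp.add_apply, Nat.factorization_eq_zero_of_not_dvd hnd, add_zero]
  have hvpos : 0 < (Nat.card (Subgroup.center L)).factorization p :=
    hp.factorization_pos_of_dvd hZpos hdiv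
  have hnorm : Q'.Normal := by
    refine ⟨fun n hn g => ?_⟩
    have hc := Subgroup.mem_center_iff.1 (hle hn) g
    have : g * n * g⁻¹ = n := by
      rw [hc, mul_inv_cancel_right]
    rw [this]; exact hn
  have hidx : ¬ p ∣ Q'.index := by
    intro hd
    have h1 : p ^ ((Nat.card L).factorization p + 1) ∣ Nat.card L := by
      have h0 : Nat.card L = Nat.card Q' * Q'.index := (Subgroup.card_mul_index Q').symm
      rw [hfac, h0, hcardQ', pow_succ]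
      exact Nat.mul_dvd_mul_left _ hd
    exact Nat.pow_succ_factorization_not_dvd hLpos hp h1
  have hcop : Nat.Coprime (Nat.card Q') Q'.index := by
    rw [hcardQ']
    exact Nat.Coprime.pow_left _ ((Nat.Prime.coprime_iff_not_dvd hp).2 hidx)
  obtain ⟨H, hH⟩ := Subgroup.exists_right_complement'_of_coprime hcop
  have hHtop : H = ⊤ := by
    rw [eq_top_iff, ← hperf, commutator_def, Subgroup.commutator_le]
    intro g₁ _ g₂ _
    obtain ⟨⟨⟨n₁, hn₁⟩, ⟨h₁, hh₁⟩⟩, rfl⟩ := hH.2 g₁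
    obtain ⟨⟨⟨n₂, hn₂⟩, ⟨h₂, hh₂⟩⟩, rfl⟩ := hH.2 g₂
    have c1 := Subgroup.mem_center_iff.1 (hle hn₁)
    have c2 := Subgroup.mem_center_iff.1 (hle hn₂)
    have : (n₁ * h₁) * (n₂ * h₂) * (n₁ * h₁)⁻¹ * (n₂ * h₂)⁻¹ = h₁ * h₂ * h₁⁻¹ * h₂⁻¹ := by
      have e1 : (n₁ * h₁)⁻¹ = h₁⁻¹ * n₁⁻¹ := mul_inv_rev _ _
      have e2 : (n₂ * h₂)⁻¹ = h₂⁻¹ * n₂⁻¹ := mul_inv_rev _ _
      rw [e1, e2]
      have c1' : n₁⁻¹ * h₂⁻¹ = h₂⁻¹ * n₁⁻¹ := by
        rw [← mul_inv_rev, ← mul_inv_rev, c1 h₂]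
      calc n₁ * h₁ * (n₂ * h₂) * (h₁⁻¹ * n₁⁻¹) * (h₂⁻¹ * n₂⁻¹)
          = n₁ * (h₁ * n₂) * h₂ * h₁⁻¹ * (n₁⁻¹ * h₂⁻¹) * n₂⁻¹ := by group
        _ = n₁ * (n₂ * h₁) * h₂ * h₁⁻¹ * (h₂⁻¹ * n₁⁻¹) * n₂⁻¹ := by rw [c2 h₁, c1']
        _ = (n₁ * n₂) * (h₁ * h₂ * h₁⁻¹ * h₂⁻¹) * n₁⁻¹ * n₂⁻¹ := by group
        _ = (n₂ * n₁) * (h₁ * h₂ * h₁⁻¹ * h₂⁻¹) * n₁⁻¹ * n₂⁻¹ := by rw [c2 n₁]
        _ = n₂ * (n₁ * (h₁ * h₂ * h₁⁻¹ * h₂⁻¹)) * n₁⁻¹ * n₂⁻¹ := by group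
        _ = n₂ * ((h₁ * h₂ * h₁⁻¹ * h₂⁻¹) * n₁) * n₁⁻¹ * n₂⁻¹ := by rw [← c1 (h₁ * h₂ * h₁⁻¹ * h₂⁻¹)]
        _ = n₂ * (h₁ * h₂ * h₁⁻¹ * h₂⁻¹) * n₂⁻¹ := by group
        _ = (h₁ * h₂ * h₁⁻¹ * h₂⁻¹) * n₂ * n₂⁻¹ := by rw [← c2 (h₁ * h₂ * h₁⁻¹ * h₂⁻¹)]
        _ = h₁ * h₂ * h₁⁻¹ * h₂⁻¹ := by group
    rw [commutatorElement_def]
    show (n₁ * h₁) * (n₂ * h₂) * (n₁ * h₁)⁻¹ * (n₂ * h₂)⁻¹ ∈ H
    rw [this]
    exact mul_mem (mul_mem (mul_mem hh₁ hh₂) (inv_mem hh₁)) (inv_mem hh₂)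
  have hcm := hH.card_mul_card
  rw [hHtop, Subgroup.card_top] at hcm
  have h1 : Nat.card Q' = 1 := by
    have : Nat.card Q' * Nat.card L = 1 * Nat.card L := by rw [hcm, one_mul]
    exact Nat.eq_of_mul_eq_mul_right (Nat.pos_of_ne_zero hLpos) this
  rw [hcardQ'] at h1
  have := Nat.one_lt_pow hvpos.ne' hp.one_lt
  omega

end

/-- Let L be a finite quasisimple group (perfect with L/Z(L) simple). Then every prime dividing the order of the centre Z(L) also divides the order of L/Z(L). -/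
theorem result {L : Type*} [Group L] [Finite L] (hL : Cfsg.IsQuasisimple L)
    (p : ℕ) (hp : p.Prime) (hdiv : p ∣ Nat.card (Subgroup.center L)) : p ∣ (Subgroup.center L).index := by
  exact main hL.1.commutator_eq_top p hp hdiv

end Cfsg.Agent.S4168
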