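import Cfsg.Statements.S4177
-- import your own Cfsg.Agent.* helpers here

set_option autoImplicit false
open Cfsg

namespace Cfsg.Agent.S4177

section
variable {k V H : Type*} [Field k] [AddCommGroup V] [Module k V] [Group H]
variable {L : Type*} [Group L] [Fintype L]

noncomputable def avT (ρ : Representation k H V) (φ : L →* H) : V →ₗ[k] V := ∑ l : L, ρ (φ l)

theorem avT_apply (ρ : Representation k H V) (φ : L →* H) (v : V) :
    avT ρ φ v = ∑ l : L, ρ (φ l) v := by
  unfold avT; rw [LinearMap.sum_apply]

theorem avT_right (ρ : Representation k H V) (φ : L →* H) (l0 : L) (v : V) :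
    avT ρ φ (ρ (φ l0) v) = avT ρ φ v := by
  rw [avT_apply, avT_apply]
  rw [← Equiv.sum_comp (Equiv.mulRight l0) (fun l => ρ (φ l) v)]
  apply Finset.sum_congr rfl
  intro l _
  show ρ (φ l) (ρ (φ l0) v) = ρ (φ (l * l0)) v
  rw [map_mul, map_mul]; rfl

theorem avT_left (ρ : Representation k H V) (φ : L →* H) (l0 : L) (v : V) :
    ρ (φ l0) (avT ρ φ v) = avT ρ φ v := by
  rw [avT_apply, map_sum]
  rw [← Equiv.sum_comp (Equiv.mulLeft l0) (fun l => ρ (φ l) v)]
  apply Finset.sum_congr rfl
  intro l _
  show ρ (φ l0) (ρ (φ l) v) = ρ (φ (l0 * l)) v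
  rw [map_mul, map_mul]; rfl

theorem avT_fixed (ρ : Representation k H V) (φ : L →* H) (v : V)
    (hv : ∀ l : L, ρ (φ l) v = v) : avT ρ φ v = (Fintype.card L : k) • v := by
  rw [avT_apply, Finset.sum_congr rfl (fun l _ => hv l), Finset.sum_const, Finset.card_univ,
    Nat.cast_smul_eq_nsmul]

theorem avT_span (ρ : Representation k H V) (φ : L →* H) (a : V)
    (htrans : ∀ h : H, ∃ l : L, ρ (φ l) a = ρ h a)
    (hspan : Submodule.span k {u : V | ∃ h : H, ρ h a = u} = ⊤) (v : V) :
    avT ρ φ v ∈ Submodule.span k {avT ρ φ a} := by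
  have hv : v ∈ Submodule.span k {u : V | ∃ h : H, ρ h a = u} := by rw [hspan]; trivial
  have h1 : avT ρ φ v ∈ (Submodule.span k {u : V | ∃ h : H, ρ h a = u}).map (avT ρ φ) :=
    Submodule.mem_map_of_mem hv
  rw [Submodule.map_span] at h1
  refine Submodule.span_mono ?_ h1
  rintro _ ⟨u, ⟨h, rfl⟩, rfl⟩
  obtain ⟨l, hl⟩ := htrans h
  rw [Set.mem_singleton_iff, ← hl, avT_right]

end

/-- Let k be a field whose characteristic does not divide the order of the finite group H (for instance a field of characteristic zero), and ρ a k-linear representation of H on V. Let a be a vector whose H-orbit spans V. Then the space of H-fixed vectors has dimension at most 1, and every vector b whose H-orbit has size coprime to the size of the orbit of a is fixed by H. -/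
theorem result {k V H : Type*} [Field k] [AddCommGroup V] [Module k V] [Group H] [Finite H]
    (hchar : ¬ ringChar k ∣ Nat.card H) (ρ : Representation k H V) (a : V)
    (hspan : Submodule.span k {u : V | ∃ h : H, ρ h a = u} = ⊤) :
    Module.finrank k ρ.invariants ≤ 1 ∧
    ∀ b : V, (Nat.card {u : V | ∃ h : H, ρ h a = u}).Coprime (Nat.card {u : V | ∃ h : H, ρ h b = u}) → ∀ h : H, ρ h b = b := by
  classical
  haveI := Fintype.ofFinite H
  have hcardne : ∀ n : ℕ, n ∣ Nat.card H → (n : k) ≠ 0 := by
    intro n hn h0
    rw [ringChar.spec] at h0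
    exact hchar (h0.trans hn)
  constructor
  · have hsub : ρ.invariants ≤ Submodule.span k {avT ρ (MonoidHom.id H) a} := by
      intro v hv
      rw [Representation.mem_invariants] at hv
      have h1 := avT_fixed ρ (MonoidHom.id H) v (fun l => hv l)
      have h2 := avT_span ρ (MonoidHom.id H) a (fun h => ⟨h, rfl⟩) hspan v
      rw [h1] at h2
      have h3 : (Fintype.card H : k) ≠ 0 := hcardne _ (by rw [Nat.card_eq_fintype_card])
      have h4 : v = (Fintype.card H : k)⁻¹ • ((Fintype.card H : k) • v) := by
        rw [smul_smul, inv_mul_cancel₀ h3, one_smul]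
      rw [h4]
      exact Submodule.smul_mem _ _ h2
    calc Module.finrank k ρ.invariants
        ≤ Module.finrank k (Submodule.span k {avT ρ (MonoidHom.id H) a}) :=
          Submodule.finrank_mono hsub
      _ ≤ 1 := by
          have h := finrank_span_finset_le_card (R := k) ({avT ρ (MonoidHom.id H) a} : Finset V)
          rw [Finset.coe_singleton, Finset.card_singleton] at h
          exact h
  · intro b hcop
    letI : MulAction H V := MulAction.compHom V ρ
    have hsmul : ∀ (h : H) (v : V), h • v = ρ h v := fun h v => rfl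
    obtain ⟨A, hA⟩ : ∃ A : Subgroup H, A = MulAction.stabilizer H a := ⟨_, rfl⟩
    obtain ⟨B, hB⟩ : ∃ B : Subgroup H, B = MulAction.stabilizer H b := ⟨_, rfl⟩
    have hOa : Nat.card {u : V | ∃ h : H, ρ h a = u} = A.index := by
      rw [hA, MulAction.index_stabilizer, Nat.card_coe_set_eq]; rfl
    have hOb : Nat.card {u : V | ∃ h : H, ρ h b = u} = B.index := by
      rw [hB, MulAction.index_stabilizer, Nat.card_coe_set_eq]; rfl
    rw [hOa, hOb] at hcop
    have hrel : A.index ≤ A.relIndex B := by
      have h1 : (A ⊓ B).relIndex B * B.index = (A ⊓ B).index :=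
        Subgroup.relIndex_mul_index inf_le_right
      rw [Subgroup.inf_relIndex_right] at h1
      have h2 : A.index ∣ (A ⊓ B).index := Subgroup.index_dvd_of_le inf_le_left
      rw [← h1] at h2
      have h3 : A.index ∣ A.relIndex B := hcop.dvd_of_dvd_mul_right h2
      have h4 : A.relIndex B ≠ 0 := by
        unfold Subgroup.relIndex
        exact Subgroup.index_ne_zero_of_finite
      exact Nat.le_of_dvd (Nat.pos_of_ne_zero h4) h3
    have htrans : ∀ h : H, ∃ l : B, ρ (B.subtype l) a = ρ h a := by
      have hstab : MulAction.stabilizer B a = A.subgroupOf B := by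
        ext x
        rw [MulAction.mem_stabilizer_iff, Subgroup.mem_subgroupOf, hA, MulAction.mem_stabilizer_iff]
        rfl
      have h1 : (MulAction.orbit B a).ncard = A.relIndex B := by
        rw [← MulAction.index_stabilizer, hstab]; rfl
      have hsub : MulAction.orbit B a ⊆ MulAction.orbit H a := by
        rintro _ ⟨x, rfl⟩
        exact ⟨(x : H), rfl⟩
      have h2 : (MulAction.orbit H a).ncard = A.index := by
        rw [hA]; exact (MulAction.index_stabilizer H a).symm
      have heq : MulAction.orbit B a = MulAction.orbit H a :=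
        Set.eq_of_subset_of_ncard_le hsub (by rw [h1, h2]; exact hrel) (Set.finite_range _)
      intro h
      have h3 : h • a ∈ MulAction.orbit B a := by rw [heq]; exact ⟨h, rfl⟩
      obtain ⟨l, hl⟩ := h3
      exact ⟨l, hl⟩
    haveI : Fintype B := Fintype.ofFinite B
    have hbfix : ∀ l : B, ρ (B.subtype l) b = b := by
      intro l
      have h9 : (l : H) ∈ MulAction.stabilizer H b := hB.le l.2
      rw [MulAction.mem_stabilizer_iff] at h9
      exact h9
    have h1 := avT_fixed ρ B.subtype b hbfix
    have h2 := avT_span ρ B.subtype a htrans hspan b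
    rw [h1] at h2
    have hw : ∀ h : H, ρ h (avT ρ B.subtype a) = avT ρ B.subtype a := by
      have h3 : avT ρ B.subtype (avT ρ (MonoidHom.id H) a) =
          (Fintype.card B : k) • avT ρ (MonoidHom.id H) a :=
        avT_fixed ρ B.subtype _ (fun l => avT_left ρ (MonoidHom.id H) (l : H) a)
      have h4 : avT ρ B.subtype (avT ρ (MonoidHom.id H) a) =
          (Fintype.card H : k) • avT ρ B.subtype a := by
        rw [avT_apply ρ (MonoidHom.id H) a, map_sum]
        have h40 : ∀ h : H, avT ρ B.subtype (ρ ((MonoidHom.id H) h) a) = avT ρ B.subtype a := by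
          intro h
          obtain ⟨l, hl⟩ := htrans h
          show avT ρ B.subtype (ρ h a) = _
          rw [← hl, avT_right]
        rw [Finset.sum_congr rfl (fun h _ => h40 h), Finset.sum_const, Finset.card_univ,
          Nat.cast_smul_eq_nsmul]
      have h5 : (Fintype.card H : k) ≠ 0 := hcardne _ (by rw [Nat.card_eq_fintype_card])
      have h6 : avT ρ B.subtype a =
          (Fintype.card H : k)⁻¹ • ((Fintype.card B : k) • avT ρ (MonoidHom.id H) a) := by
        rw [← h3, h4, smul_smul, inv_mul_cancel₀ h5, one_smul]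
      intro h
      rw [h6, map_smul, map_smul]
      congr 2
      exact avT_left ρ (MonoidHom.id H) h a
    have hB0 : (Fintype.card B : k) ≠ 0 :=
      hcardne _ (by rw [← Nat.card_eq_fintype_card]; exact Subgroup.card_subgroup_dvd_card B)
    intro h
    have h7 : b = (Fintype.card B : k)⁻¹ • ((Fintype.card B : k) • b) := by
      rw [smul_smul, inv_mul_cancel₀ hB0, one_smul]
    obtain ⟨c, hc⟩ := Submodule.mem_span_singleton.mp h2
    rw [h7, ← hc, map_smul, map_smul, hw h]

end Cfsg.Agent.S4177
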