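import Mathlib
import Cfsg.Statements.S4178

set_option autoImplicit false
open Cfsg

namespace Cfsg.Agent.S4178

theorem index_le_card {Γ X : Type*} [Group Γ] [Finite X] (K : Subgroup Γ) (f : Γ → X)
    (hf : ∀ a b, f a = f b → a⁻¹ * b ∈ K) : K.index ≤ Nat.card X := by
  have hinj : Function.Injective (fun q : Γ ⧸ K => f q.out) := by
    intro q₁ q₂ h
    have h1 := hf _ _ h
    have h2 : ((q₁.out : Γ) : Γ ⧸ K) = ((q₂.out : Γ) : Γ ⧸ K) := QuotientGroup.eq.2 h1
    rwa [QuotientGroup.out_eq', QuotientGroup.out_eq'] at h2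
  exact Nat.card_le_card_of_injective _ hinj

theorem card_ne {X : Type*} [Finite X] (a : X) : Nat.card {x : X // x ≠ a} = Nat.card X - 1 := by
  classical
  haveI := Fintype.ofFinite X
  rw [Nat.card_eq_fintype_card, Nat.card_eq_fintype_card, Fintype.card_subtype_compl]
  simp

theorem inv_mul_apply {F V : Type*} [Field F] [AddCommGroup V] [Module F V]
    (a b : V ≃ₗ[F] V) (x : V) : (a⁻¹ * b) x = a⁻¹ (b x) := rfl

theorem inv_apply_self {F V : Type*} [Field F] [AddCommGroup V] [Module F V]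
    (a : V ≃ₗ[F] V) (x : V) : a⁻¹ (a x) = x := a.symm_apply_apply x

theorem apply_inv_self {F V : Type*} [Field F] [AddCommGroup V] [Module F V]
    (a : V ≃ₗ[F] V) (x : V) : a (a⁻¹ x) = x := a.apply_symm_apply x

/-- an automorphism stabilising `W` and moving `v ∉ W` by an element of `W` has a nonzero fixed
vector -/
theorem exists_fixed {F V : Type*} [Field F] [AddCommGroup V] [Module F V] [FiniteDimensional F V]
    (W : Submodule F V) (g : V ≃ₗ[F] V) (hW : ∀ w ∈ W, g w ∈ W) (v : V) (hv : v ∉ W)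
    (hgv : g v - v ∈ W) : ∃ x : V, x ≠ 0 ∧ g x = x := by
  by_contra hne
  push_neg at hne
  have hS : ∀ x ∈ W, (g.toLinearMap - LinearMap.id : V →ₗ[F] V) x ∈ W := by
    intro x hx
    exact W.sub_mem (hW x hx) hx
  have hinj : Function.Injective ((g.toLinearMap - LinearMap.id : V →ₗ[F] V).restrict hS) := by
    rw [← LinearMap.ker_eq_bot, LinearMap.ker_eq_bot']
    intro x hx
    have h1 : g (x : V) - (x : V) = 0 := by
      have := congrArg Subtype.val hx
      simpa using this
    have h2 : g (x : V) = (x : V) := sub_eq_zero.1 h1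
    by_contra hx0
    exact hne (x : V) (fun h => hx0 (Subtype.ext h)) h2
  obtain ⟨w, hw⟩ := LinearMap.surjective_of_injective hinj ⟨g v - v, hgv⟩
  have h1 : g (w : V) - (w : V) = g v - v := by
    have := congrArg Subtype.val hw
    simpa using this
  have h2 : g (v - (w : V)) = v - (w : V) := by
    rw [map_sub]
    have h1' : g (w : V) - (w : V) - (g v - v) = 0 := sub_eq_zero.2 h1
    have e : g v - g (w : V) = (v - (w : V)) - (g (w : V) - (w : V) - (g v - v)) := by abel
    rw [e, h1', sub_zero]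
  have h3 : v - (w : V) = 0 := by
    by_contra h
    exact hne _ h h2
  exact hv (by rw [sub_eq_zero.1 h3]; exact w.2)

/-- Let F be a finite field with q elements, V a non-zero finite-dimensional F-space of dimension d, H a group of invertible linear maps of V, and R the subgroup of H generated by the elements of H that fix some non-zero vector (have eigenvalue 1). Then the index of R in H is at most q^d − 1; and if H leaves invariant some proper non-zero subspace, the index is at most q^(d/2) − 1. -/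
theorem result {F V : Type*} [Field F] [Fintype F] [AddCommGroup V] [Module F V] [FiniteDimensional F V] [Nontrivial V]
    (H : Subgroup (V ≃ₗ[F] V)) :
    (Subgroup.closure {h : ↥H | ∃ v : V, v ≠ 0 ∧ (h : V ≃ₗ[F] V) v = v}).index ≤ Fintype.card F ^ Module.finrank F V - 1 ∧
    ((∃ W : Submodule F V, W ≠ ⊥ ∧ W ≠ ⊤ ∧ ∀ h ∈ H, ∀ w ∈ W, h w ∈ W) →
      ((Subgroup.closure {h : ↥H | ∃ v : V, v ≠ 0 ∧ (h : V ≃ₗ[F] V) v = v}).index : ℝ) ≤ Real.sqrt ((Fintype.card F : ℝ) ^ Module.finrank F V) - 1) := by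
  classical
  haveI : Finite V := Module.finite_of_finite F
  haveI : Finite (V ≃ₗ[F] V) :=
    Finite.of_injective (fun e : V ≃ₗ[F] V => (e : V → V)) DFunLike.coe_injective
  have hgen : ∀ h : ↥H, (∃ v : V, v ≠ 0 ∧ (h : V ≃ₗ[F] V) v = v) →
      h ∈ Subgroup.closure {h : ↥H | ∃ v : V, v ≠ 0 ∧ (h : V ≃ₗ[F] V) v = v} :=
    fun h hh => Subgroup.subset_closure hh
  generalize Subgroup.closure {h : ↥H | ∃ v : V, v ≠ 0 ∧ (h : V ≃ₗ[F] V) v = v} = R at hgen ⊢
  have hq : 1 ≤ Fintype.card F := Fintype.card_pos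
  have hcard : ∀ (M : Type _) [AddCommGroup M] [Module F M] [FiniteDimensional F M],
      Nat.card M = Fintype.card F ^ Module.finrank F M := by
    intro M _ _ _
    rw [Module.natCard_eq_pow_finrank (K := F), Nat.card_eq_fintype_card]
  have part1 : R.index ≤ Fintype.card F ^ Module.finrank F V - 1 := by
    obtain ⟨v, hv⟩ := exists_ne (0 : V)
    have hfv : ∀ h : ↥H, (h : V ≃ₗ[F] V) v ≠ 0 := fun h => by simpa using hv
    have h1 := index_le_card R
      (fun h : ↥H => (⟨(h : V ≃ₗ[F] V) v, hfv h⟩ : {x : V // x ≠ 0})) (by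
        intro a b hab
        apply hgen
        refine ⟨v, hv, ?_⟩
        have h1 : (a : V ≃ₗ[F] V) v = (b : V ≃ₗ[F] V) v := congrArg Subtype.val hab
        show ((a : V ≃ₗ[F] V)⁻¹ * (b : V ≃ₗ[F] V)) v = v
        rw [inv_mul_apply, ← h1, inv_apply_self])
    rwa [card_ne, hcard V] at h1
  refine ⟨part1, ?_⟩
  rintro ⟨W, hWbot, hWtop, hWinv⟩
  have key : ∃ m : ℕ, 2 * m ≤ Module.finrank F V ∧ R.index ≤ Fintype.card F ^ m - 1 := by
    by_cases hk : 2 * Module.finrank F W ≤ Module.finrank F V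
    · refine ⟨Module.finrank F W, hk, ?_⟩
      obtain ⟨w, hw, hw0⟩ := Submodule.exists_mem_ne_zero_of_ne_bot hWbot
      have hfw : ∀ h : ↥H, (⟨(h : V ≃ₗ[F] V) w, hWinv _ h.2 w hw⟩ : ↥W) ≠ 0 := by
        intro h hh
        have h1 : (h : V ≃ₗ[F] V) w = 0 := congrArg Subtype.val hh
        exact hw0 (by simpa using h1)
      have h1 := index_le_card R
        (fun h : ↥H => (⟨⟨(h : V ≃ₗ[F] V) w, hWinv _ h.2 w hw⟩, hfw h⟩ : {x : ↥W // x ≠ 0})) (by
          intro a b hab
          apply hgen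
          refine ⟨w, hw0, ?_⟩
          have h1 : (a : V ≃ₗ[F] V) w = (b : V ≃ₗ[F] V) w :=
            congrArg (fun x : {x : ↥W // x ≠ 0} => ((x : ↥W) : V)) hab
          show ((a : V ≃ₗ[F] V)⁻¹ * (b : V ≃ₗ[F] V)) w = w
          rw [inv_mul_apply, ← h1, inv_apply_self])
      rwa [card_ne, hcard ↥W] at h1
    · refine ⟨Module.finrank F (V ⧸ W), ?_, ?_⟩
      · have := W.finrank_quotient_add_finrank
        omega
      · haveI : Finite (V ⧸ W) := Module.finite_of_finite F
        obtain ⟨v, hv⟩ : ∃ v : V, v ∉ W := by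
          by_contra h
          push_neg at h
          exact hWtop ((Submodule.eq_top_iff').2 h)
        have hfv : ∀ h : ↥H, (Submodule.Quotient.mk ((h : V ≃ₗ[F] V) v) : V ⧸ W) ≠ 0 := by
          intro h hh
          rw [Submodule.Quotient.mk_eq_zero] at hh
          have h1 := hWinv _ (H.inv_mem h.2) _ hh
          rw [inv_apply_self] at h1
          exact hv h1
        have h1 := index_le_card R
          (fun h : ↥H => (⟨Submodule.Quotient.mk ((h : V ≃ₗ[F] V) v), hfv h⟩ :
            {x : V ⧸ W // x ≠ 0})) (by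
            intro a b hab
            apply hgen
            have h1 : (Submodule.Quotient.mk ((a : V ≃ₗ[F] V) v) : V ⧸ W) =
                Submodule.Quotient.mk ((b : V ≃ₗ[F] V) v) := congrArg Subtype.val hab
            rw [Submodule.Quotient.eq] at h1
            have h2 := hWinv _ (H.inv_mem a.2) _ (W.neg_mem h1)
            have h3 : ((a : V ≃ₗ[F] V)⁻¹ * (b : V ≃ₗ[F] V)) v - v ∈ W := by
              have e : ((a : V ≃ₗ[F] V)⁻¹ * (b : V ≃ₗ[F] V)) v - v =
                  (a : V ≃ₗ[F] V)⁻¹ (-((a : V ≃ₗ[F] V) v - (b : V ≃ₗ[F] V) v)) := by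
                rw [inv_mul_apply, neg_sub, map_sub, inv_apply_self]
              rw [e]; exact h2
            exact exists_fixed W ((a : V ≃ₗ[F] V)⁻¹ * (b : V ≃ₗ[F] V))
              (fun w hw => hWinv _ (H.mul_mem (H.inv_mem a.2) b.2) w hw) v hv h3)
        rwa [card_ne, hcard (V ⧸ W)] at h1
  obtain ⟨m, hm, hidx⟩ := key
  have h1 : (R.index : ℝ) ≤ (Fintype.card F : ℝ) ^ m - 1 := by
    have h2 : (R.index : ℝ) ≤ ((Fintype.card F ^ m - 1 : ℕ) : ℝ) := by exact_mod_cast hidx
    rw [Nat.cast_sub (Nat.one_le_pow _ _ hq)] at h2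
    simpa using h2
  have h2 : (Fintype.card F : ℝ) ^ m ≤ Real.sqrt ((Fintype.card F : ℝ) ^ Module.finrank F V) := by
    apply Real.le_sqrt_of_sq_le
    rw [← pow_mul]
    exact pow_le_pow_right₀ (by exact_mod_cast hq) (by omega)
  linarith

end Cfsg.Agent.S4178
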