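import Cfsg.Statements.S4186
-- import your own Cfsg.Agent.* helpers here
import Mathlib

set_option autoImplicit false
open Cfsg

namespace Cfsg.Agent.S4186

section
universe u
variable {G : Type u} [Group G]

theorem exists_sq_mem (T X : Subgroup G) :
    ∀ k : ℕ, ∀ t ∈ T, t ∉ Subgroup.centralizer (X : Set G) → t ^ (2 ^ k) = 1 →
      ∃ s ∈ T, s ∉ Subgroup.centralizer (X : Set G) ∧ s * s ∈ Subgroup.centralizer (X : Set G) := by
  intro k
  induction k with
  | zero =>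
    intro t _ htC h1
    rw [pow_zero, pow_one] at h1
    exact absurd (h1 ▸ one_mem _) htC
  | succ k ih =>
    intro t htT htC h1
    by_cases h2 : t * t ∈ Subgroup.centralizer (X : Set G)
    · exact ⟨t, htT, htC, h2⟩
    · apply ih (t * t) (mul_mem htT htT) h2
      rw [← pow_two, ← pow_mul, ← pow_succ']
      exact h1

theorem main (T X : Subgroup G) [Finite ↥T] (hT : IsPGroup 2 ↥T)
    (hTN : T ≤ Subgroup.normalizer (X : Set G)) (hTC : ¬ T ≤ Subgroup.centralizer (X : Set G)) :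
    ∃ t ∈ T, ∃ x ∈ X, x ≠ 1 ∧ t * x * t⁻¹ = x⁻¹ := by
  obtain ⟨t0, ht0T, ht0C⟩ := SetLike.not_le_iff_exists.1 hTC
  obtain ⟨k, hk⟩ := hT ⟨t0, ht0T⟩
  have hk' : t0 ^ (2 ^ k) = 1 := by
    have := congrArg Subtype.val hk
    simpa using this
  obtain ⟨s, hsT, hsC, hs2⟩ := exists_sq_mem T X k t0 ht0T ht0C hk'
  rw [Subgroup.mem_centralizer_iff] at hsC hs2
  push Not at hsC
  obtain ⟨y, hyX, hy⟩ := hsC
  have hc : y * (s * s) = s * s * y := hs2 y hyX
  have hsN := hTN hsT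
  have hconj : s * y * s⁻¹ ∈ X := (Subgroup.mem_normalizer_iff.mp hsN y).mp hyX
  refine ⟨s, hsT, y⁻¹ * (s * y * s⁻¹), mul_mem (inv_mem hyX) hconj, ?_, ?_⟩
  · intro h
    apply hy
    have h2 : y = s * y * s⁻¹ := inv_mul_eq_one.1 h
    calc y * s = s * y * s⁻¹ * s := by rw [← h2]
      _ = s * y := by group
  · calc s * (y⁻¹ * (s * y * s⁻¹)) * s⁻¹ = s * y⁻¹ * s⁻¹ * (s * s * y) * s⁻¹ * s⁻¹ := by group
      _ = s * y⁻¹ * s⁻¹ * (y * (s * s)) * s⁻¹ * s⁻¹ := by rw [hc]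
      _ = (y⁻¹ * (s * y * s⁻¹))⁻¹ := by group

end

/-- Let T and X be subgroups of a group with T a finite 2-group normalizing X but not centralizing it. Then some element of T inverts some non-identity element of X under conjugation. -/
theorem result {G : Type*} [Group G] (T X : Subgroup G) [Finite ↥T] (hT : IsPGroup 2 ↥T) (hTN : T ≤ Subgroup.normalizer (X : Set G)) (hTC : ¬ T ≤ Subgroup.centralizer (X : Set G)) : ∃ t ∈ T, ∃ x ∈ X, x ≠ 1 ∧ t * x * t⁻¹ = x⁻¹ := by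
  exact main T X hT hTN hTC

end Cfsg.Agent.S4186
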