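import Cfsg.Statements.S4196
-- import your own Cfsg.Agent.* helpers here
import Mathlib
import Cfsg.Agent.S4195
import Cfsg.Agent.Lib.Helper7.Compl

set_option autoImplicit false
open Cfsg

namespace Cfsg.Agent.S4196

section
open scoped Pointwise
open Cfsg.Agent.Lib.Helper7

theorem main {G : Type*} [Group G] [Finite G] (P : Sylow 2 G) :
    (IsMulCommutative (P : Subgroup G) ∧ ∀ x ∈ (P : Subgroup G), x ^ 2 = 1) ↔
      ∀ x : G, (∃ k : ℕ, orderOf x = 2 ^ k) →
        (∃ Q : Sylow 2 G, (Q : Subgroup G) ≤ Subgroup.centralizer ({x} : Set G)) ∧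
          IsConj x x⁻¹ := by
  constructor
  · rintro ⟨hcomm, hexp⟩ x ⟨k, hk⟩
    have hp : IsPGroup 2 (Subgroup.zpowers x) := by
      apply IsPGroup.of_card (n := k)
      rw [Nat.card_zpowers, hk]
    obtain ⟨Q, hQ⟩ := hp.exists_le_sylow
    obtain ⟨g, hg⟩ := MulAction.exists_smul_eq G P Q
    have hmem : ∀ y : G, y ∈ (Q : Subgroup G) ↔ g⁻¹ * y * g ∈ (P : Subgroup G) := by
      intro y
      rw [← hg, Sylow.coe_subgroup_smul, mem_conj_smul_iff]
    have hxQ : x ∈ (Q : Subgroup G) := hQ (Subgroup.mem_zpowers x)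
    refine ⟨⟨Q, ?_⟩, ?_⟩
    · intro y hy
      rw [Subgroup.mem_centralizer_iff]
      intro z hz
      rw [Set.mem_singleton_iff] at hz
      rw [hz]
      have h1 := (hmem y).mp hy
      have h2 := (hmem x).mp hxQ
      have h3 : (⟨g⁻¹ * x * g, h2⟩ : (P : Subgroup G)) * ⟨g⁻¹ * y * g, h1⟩ =
          ⟨g⁻¹ * y * g, h1⟩ * ⟨g⁻¹ * x * g, h2⟩ := mul_comm' _ _
      have h4 : (g⁻¹ * x * g) * (g⁻¹ * y * g) = (g⁻¹ * y * g) * (g⁻¹ * x * g) :=
        congrArg Subtype.val h3
      calc x * y = g * ((g⁻¹ * x * g) * (g⁻¹ * y * g)) * g⁻¹ := by group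
        _ = g * ((g⁻¹ * y * g) * (g⁻¹ * x * g)) * g⁻¹ := by rw [h4]
        _ = y * x := by group
    · have h2 := hexp _ ((hmem x).mp hxQ)
      have h5 : x ^ 2 = 1 := by
        have h6 : (g⁻¹ * x * g) ^ 2 = g⁻¹ * x ^ 2 * g := by
          rw [pow_two, pow_two]; group
        rw [h6] at h2
        calc x ^ 2 = g * (g⁻¹ * x ^ 2 * g) * g⁻¹ := by group
          _ = 1 := by rw [h2]; group
      have h7 : x⁻¹ = x := by
        rw [inv_eq_iff_mul_eq_one, ← pow_two]; exact h5
      rw [h7]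
  · intro h
    have hexp : ∀ x ∈ (P : Subgroup G), x ^ 2 = 1 := by
      intro x hx
      by_cases hx1 : x = 1
      · rw [hx1, one_pow]
      · obtain ⟨k, hk⟩ := P.isPGroup' ⟨x, hx⟩
        have hk' : x ^ 2 ^ k = 1 := congrArg Subtype.val hk
        obtain ⟨j, -, hj⟩ := (Nat.dvd_prime_pow Nat.prime_two).mp (orderOf_dvd_of_pow_eq_one hk')
        obtain ⟨⟨Q, hQ⟩, hreal⟩ := h x ⟨j, hj⟩
        have h2 := Cfsg.Agent.S4195.result x hx1 Q hQ hreal
        rw [← h2]
        exact pow_orderOf_eq_one x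
    refine ⟨⟨⟨fun a b => ?_⟩⟩, hexp⟩
    apply Subtype.ext
    have ha := hexp a a.2
    have hb := hexp b b.2
    have hab := hexp (a * b) ((P : Subgroup G).mul_mem a.2 b.2)
    show (a : G) * (b : G) = (b : G) * (a : G)
    rw [pow_two] at ha hb hab
    calc (a : G) * (b : G) = ((b : G) * (b : G)) * ((a : G) * (b : G)) * ((a : G) * (a : G)) := by
          rw [ha, hb, one_mul, mul_one]
      _ = (b : G) * (((b : G) * (a : G)) * ((b : G) * (a : G))) * (a : G) := by group
      _ = (b : G) * ((b : G) * (((a : G) * (b : G)) * ((a : G) * (b : G))) * (b : G)⁻¹) * (a : G) := by group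
      _ = (b : G) * (a : G) := by rw [hab]; group

end

/-- A finite group G has elementary abelian Sylow 2-subgroups (commutative with every element squaring to the identity) if and only if every 2-element of G has a Sylow 2-subgroup in its centralizer and is conjugate to its inverse. -/
theorem result {G : Type*} [Group G] [Finite G] (P : Sylow 2 G) :
    (IsMulCommutative (P : Subgroup G) ∧ ∀ x ∈ (P : Subgroup G), x ^ 2 = 1) ↔
      ∀ x : G, (∃ k : ℕ, orderOf x = 2 ^ k) → (∃ Q : Sylow 2 G, (Q : Subgroup G) ≤ Subgroup.centralizer ({x} : Set G)) ∧ IsConj x x⁻¹ := by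
  exact main P

end Cfsg.Agent.S4196
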