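import Cfsg.Statements.S4230
-- import your own Cfsg.Agent.* helpers here
import Mathlib

set_option autoImplicit false
open Cfsg

namespace Cfsg.Agent.S4230

/-- Let p be an odd prime, q a natural number not divisible by p, and e the multiplicative order of q modulo p. For a natural number f, p divides the value at q of the f-th cyclotomic polynomial if and only if f = e·p^j for some j ≥ 0. -/
theorem result (p q f : ℕ) (hp : p.Prime) (hp2 : p ≠ 2) (hpq : ¬ p ∣ q) :
    ((p : ℤ) ∣ (Polynomial.cyclotomic f ℤ).eval (q : ℤ)) ↔ ∃ j : ℕ, f = orderOf (q : ZMod p) * p ^ j := by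
  haveI : Fact p.Prime := ⟨hp⟩
  have hq0 : (q : ZMod p) ≠ 0 := by
    rw [Ne, ZMod.natCast_eq_zero_iff]; exact hpq
  have hkey : ((p : ℤ) ∣ (Polynomial.cyclotomic f ℤ).eval (q : ℤ)) ↔
      (Polynomial.cyclotomic f (ZMod p)).IsRoot (q : ZMod p) := by
    rw [← ZMod.intCast_zmod_eq_zero_iff_dvd, Polynomial.IsRoot.def,
      ← Polynomial.map_cyclotomic_int f (ZMod p)]
    have h1 := Polynomial.eval_intCast_map (Int.castRingHom (ZMod p)) (Polynomial.cyclotomic f ℤ) (q : ℤ)
    simp only [Int.cast_natCast, eq_intCast, Int.cast_id] at h1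
    rw [h1]
  rw [hkey]
  have hred : ∀ (m k : ℕ), ¬ p ∣ m →
      ((Polynomial.cyclotomic (p ^ k * m) (ZMod p)).IsRoot (q : ZMod p) ↔ m = orderOf (q : ZMod p)) := by
    intro m k hm
    haveI hm0 : NeZero ((m : ℕ) : ZMod p) := ⟨by rw [Ne, ZMod.natCast_eq_zero_iff]; exact hm⟩
    have h1 : (Polynomial.cyclotomic m (ZMod p)).IsRoot (q : ZMod p) ↔ m = orderOf (q : ZMod p) := by
      rw [Polynomial.isRoot_cyclotomic_iff]
      constructor
      · exact fun h => h.eq_orderOf
      · intro h
        rw [h]; exact IsPrimitiveRoot.orderOf _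
    rcases Nat.eq_zero_or_pos k with rfl | hk
    · simpa using h1
    · rw [Polynomial.cyclotomic_mul_prime_pow_eq (ZMod p) hm hk, ← h1]
      rw [Polynomial.IsRoot.def, Polynomial.eval_pow, Polynomial.IsRoot.def]
      have h2 : p ^ k - p ^ (k - 1) ≠ 0 := by
        have h3 : p ^ (k - 1) < p ^ k := Nat.pow_lt_pow_right hp.one_lt (by omega)
        omega
      exact pow_eq_zero_iff h2
  constructor
  · intro h
    have hf0 : f ≠ 0 := by
      rintro rfl
      rw [Polynomial.cyclotomic_zero, Polynomial.IsRoot.def, Polynomial.eval_one] at h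
      exact one_ne_zero h
    obtain ⟨k, m, hm, hfm⟩ := Nat.exists_eq_pow_mul_and_not_dvd hf0 p hp.ne_one
    rw [hfm] at h
    have h5 := (hred m k hm).mp h
    exact ⟨k, by rw [hfm, h5, mul_comm]⟩
  · rintro ⟨j, rfl⟩
    have he : ¬ p ∣ orderOf (q : ZMod p) := by
      intro hdvd
      have h1 : orderOf (q : ZMod p) ∣ p - 1 := ZMod.orderOf_dvd_card_sub_one hq0
      have h2 := Nat.le_of_dvd (by have := hp.two_le; omega) (hdvd.trans h1)
      have := hp.two_le
      omega
    rw [mul_comm]
    exact (hred _ j he).mpr rfl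

end Cfsg.Agent.S4230
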