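import Cfsg.Statements.S4244
-- import your own Cfsg.Agent.* helpers here
import Mathlib
import Cfsg.Agent.Lib.Helper7.HallSystem

set_option autoImplicit false
open Cfsg

namespace Cfsg.Agent.S4244

section
open Cfsg.Agent.Lib.Helper7

theorem main {G : Type*} [Group G] [Finite G] (H : Subgroup G) (hH : H.IsSubnormal) :
    ∀ K : Subgroup G, (H ⊓ K).relIndex H ∣ K.index := by
  induction hH with
  | top =>
    intro K
    rw [top_inf_eq, Subgroup.relIndex_top_right]
  | step H L h_le hSubn hN ih =>
    intro K
    have h1 := ih K
    rw [Subgroup.inf_relIndex_left] at h1 ⊢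
    refine Dvd.dvd.trans ?_ h1
    have h2 := relIndex_eq_relIndex_sup (K.subgroupOf L) (H.subgroupOf L)
    have h3 : (K.subgroupOf L).relIndex (K.subgroupOf L ⊔ H.subgroupOf L) ∣ (K.subgroupOf L).index :=
      Subgroup.relIndex_dvd_index_of_le le_sup_left
    rw [← h2, Subgroup.relIndex_subgroupOf h_le] at h3
    exact h3

end

/-- Let H be a subnormal subgroup of a finite group G. Then for every subgroup K of G the index of H ∩ K in H divides the index of K in G. -/
theorem result {G : Type*} [Group G] [Finite G] (H : Subgroup G) (hH : H.IsSubnormal) (K : Subgroup G) :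
    (H ⊓ K).relIndex H ∣ K.index := by
  exact main H hH K

end Cfsg.Agent.S4244
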