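import Cfsg.Statements.S4250
import Cfsg.Agent.Lib.Helper2.Alperin

set_option autoImplicit false
open Cfsg

namespace Cfsg.Agent.S4250

open scoped commutatorElement

universe u

theorem comm_le {G : Type u} [Group G] (P H D : Subgroup G) (hHP : H ≤ P)
    (hD : D ≤ Subgroup.normalizer (H : Set G)) : ⁅H, D⁆ ≤ P ⊓ commutator G := by
  rw [Subgroup.commutator_le]
  intro a ha n hn
  refine Subgroup.mem_inf.mpr ⟨hHP ?_,
    Subgroup.commutator_mem_commutator (Subgroup.mem_top a) (Subgroup.mem_top n)⟩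
  have h1 : n * a⁻¹ * n⁻¹ ∈ H :=
    (Subgroup.mem_normalizer_iff.mp (hD hn) a⁻¹).mp (H.inv_mem ha)
  have h2 : ⁅a, n⁆ = a * (n * a⁻¹ * n⁻¹) := by rw [commutatorElement_def]; group
  rw [h2]; exact H.mul_mem ha h1

theorem focal_le {G : Type u} [Group G] [Finite G] (p : ℕ) [Fact p.Prime] (P : Sylow p G)
    (R : Subgroup G)
    (hR1 : ⁅(P : Subgroup G), Subgroup.normalizer ((P : Subgroup G) : Set G)⁆ ≤ R)
    (hR2 : ∀ (Q : Sylow p G), (¬ p ∣ ((P : Subgroup G) ⊓ Subgroup.normalizer (((P : Subgroup G) ⊓ (Q : Subgroup G) : Subgroup G) : Set G)).relIndex (Subgroup.normalizer (((P : Subgroup G) ⊓ (Q : Subgroup G) : Subgroup G) : Set G)) ∧ ¬ p ∣ ((Q : Subgroup G) ⊓ Subgroup.normalizer (((P : Subgroup G) ⊓ (Q : Subgroup G) : Subgroup G) : Set G)).relIndex (Subgroup.normalizer (((P : Subgroup G) ⊓ (Q : Subgroup G) : Subgroup G) : Set G))) →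
      ∀ x : G, x ∈ Subgroup.normalizer (((P : Subgroup G) ⊓ (Q : Subgroup G) : Subgroup G) : Set G) →
      (∃ k : ℕ, orderOf x = p ^ k) → ⁅(P : Subgroup G) ⊓ (Q : Subgroup G), Subgroup.zpowers x⁆ ≤ R) :
    (P : Subgroup G) ⊓ commutator G ≤ R := by
  have key : ∀ (A : Set G) (g : G),
      Cfsg.Agent.Lib.Helper2.Dec (Cfsg.Agent.Lib.Helper2.AlpSt P) A g →
      ∀ a ∈ A, a⁻¹ * (g⁻¹ * a * g) ∈ R := by
    intro A g h
    induction h with
    | nil A => intro a _; simp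
    | cons A T x g hSt hA h ih =>
      intro a ha
      obtain ⟨Q, hT, hx, ht1, ht2, hor⟩ := hSt
      have hc : x⁻¹ * a * x ∈ Cfsg.Agent.Lib.Helper2.cj A x := ⟨a, ha, rfl⟩
      have h1 := ih _ hc
      have haT : a ∈ (P : Subgroup G) ⊓ (Q : Subgroup G) := by rw [← hT]; exact hA ha
      have h2 : a⁻¹ * (x⁻¹ * a * x) ∈ R := by
        have e : a⁻¹ * (x⁻¹ * a * x) = ⁅a⁻¹, x⁻¹⁆ := by rw [commutatorElement_def]; group
        rw [e]
        rcases hor with hQP | hk
        · apply hR1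
          apply Subgroup.commutator_mem_commutator
          · exact Subgroup.inv_mem _ haT.1
          · apply Subgroup.inv_mem
            rw [hQP, inf_idem] at hx
            exact hx
        · apply hR2 Q ⟨ht1, ht2⟩ x hx hk
          apply Subgroup.commutator_mem_commutator
          · exact Subgroup.inv_mem _ haT
          · exact Subgroup.inv_mem _ (Subgroup.mem_zpowers x)
      have e2 : a⁻¹ * ((x * g)⁻¹ * a * (x * g)) =
          (a⁻¹ * (x⁻¹ * a * x)) * ((x⁻¹ * a * x)⁻¹ * (g⁻¹ * (x⁻¹ * a * x) * g)) := by group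
      rw [e2]
      exact R.mul_mem h2 h1
  rw [inf_comm, Subgroup.commutator_inf_eq_focalSubgroup, Subgroup.focalSubgroup_def,
    Subgroup.closure_le]
  rintro y ⟨hyP, x, hxP, u, rfl⟩
  have hmem : x⁻¹ ∈ (((P : Subgroup G) ⊓ ((u⁻¹ • P : Sylow p G) : Subgroup G) : Subgroup G) :
      Set G) := by
    refine Subgroup.mem_inf.mpr ⟨Subgroup.inv_mem _ hxP, ?_⟩
    rw [Cfsg.Agent.Lib.Helper2.mem_sylow_smul_iff]
    have e : u⁻¹⁻¹ * x⁻¹ * u⁻¹ = x⁻¹ * ⁅x, u⁆ := by rw [commutatorElement_def]; group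
    rw [e]
    exact Subgroup.mul_mem _ (Subgroup.inv_mem _ hxP) hyP
  have hfin := key _ _ (Cfsg.Agent.Lib.Helper2.alperin_dec P u⁻¹) _ hmem
  have e : x⁻¹⁻¹ * (u⁻¹⁻¹ * x⁻¹ * u⁻¹) = ⁅x, u⁆ := by rw [commutatorElement_def]; group
  rw [e] at hfin
  exact hfin

/-- Let P be a Sylow p-subgroup of a finite group G. Call an intersection H = P ∩ Q with a Sylow p-subgroup Q tame when N_P(H) and N_Q(H) are Sylow p-subgroups of N_G(H). Then P ∩ G′ is generated by [P, N_G(P)] together with the commutator subgroups [P ∩ Q, ⟨x⟩] for all tame intersections P ∩ Q and all p-elements x of N_G(P ∩ Q). -/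
theorem result {G : Type*} [Group G] [Finite G] (p : ℕ) [Fact p.Prime] (P : Sylow p G) :
    (P : Subgroup G) ⊓ commutator G =
      ⁅(P : Subgroup G), Subgroup.normalizer ((P : Subgroup G) : Set G)⁆ ⊔
        ⨆ (Q : Sylow p G) (_ : (¬ p ∣ ((P : Subgroup G) ⊓ Subgroup.normalizer (((P : Subgroup G) ⊓ (Q : Subgroup G) : Subgroup G) : Set G)).relIndex (Subgroup.normalizer (((P : Subgroup G) ⊓ (Q : Subgroup G) : Subgroup G) : Set G)) ∧ ¬ p ∣ ((Q : Subgroup G) ⊓ Subgroup.normalizer (((P : Subgroup G) ⊓ (Q : Subgroup G) : Subgroup G) : Set G)).relIndex (Subgroup.normalizer (((P : Subgroup G) ⊓ (Q : Subgroup G) : Subgroup G) : Set G))))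
          (x : G) (_ : x ∈ Subgroup.normalizer (((P : Subgroup G) ⊓ (Q : Subgroup G) : Subgroup G) : Set G) ∧ ∃ k : ℕ, orderOf x = p ^ k),
          ⁅(P : Subgroup G) ⊓ (Q : Subgroup G), Subgroup.zpowers x⁆ := by
  apply le_antisymm
  · apply focal_le p P
    · exact le_sup_left
    · intro Q ht x hx hk
      exact le_sup_of_le_right (le_iSup_of_le Q (le_iSup_of_le ht (le_iSup_of_le x
        (le_iSup_of_le ⟨hx, hk⟩ le_rfl))))
  · apply sup_le
    · exact comm_le _ _ _ le_rfl le_rfl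
    · refine iSup_le fun Q => iSup_le fun ht => iSup_le fun x => iSup_le fun hx => ?_
      exact comm_le _ _ _ inf_le_left (Subgroup.zpowers_le.mpr hx.1)

end Cfsg.Agent.S4250
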