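import Cfsg.Statements.S4253
-- import your own Cfsg.Agent.* helpers here
import Mathlib
import Cfsg.Agent.Lib.Helper7.Compl

set_option autoImplicit false
open Cfsg

namespace Cfsg.Agent.S4253

section
open scoped Pointwise
open Cfsg.Agent.Lib.Helper7

theorem main {G : Type*} [Group G] [Finite G] (H : Subgroup G) (hH : Cfsg.IsFrobeniusComplement H)
    (g : G) (hg : g ≠ 1) (a b : G ⧸ H) (ha : g • a = a) (hb : g • b = b) : a = b := by
  obtain ⟨x, rfl⟩ := QuotientGroup.mk_surjective a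
  obtain ⟨y, rfl⟩ := QuotientGroup.mk_surjective b
  have hx : x⁻¹ * g * x ∈ H := by
    have h1 : ((g * x : G) : G ⧸ H) = (x : G ⧸ H) := ha
    rw [QuotientGroup.eq] at h1
    have h2 : x⁻¹ * g * x = ((g * x)⁻¹ * x)⁻¹ := by group
    rw [h2]; exact H.inv_mem h1
  have hy : y⁻¹ * g * y ∈ H := by
    have h1 : ((g * y : G) : G ⧸ H) = (y : G ⧸ H) := hb
    rw [QuotientGroup.eq] at h1
    have h2 : y⁻¹ * g * y = ((g * y)⁻¹ * y)⁻¹ := by group
    rw [h2]; exact H.inv_mem h1
  rw [QuotientGroup.eq]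
  by_contra hxy
  have h3 := hH.2.2 (x⁻¹ * y) hxy
  have h4 : x⁻¹ * g * x ∈ MulAut.conj (x⁻¹ * y) • H := by
    rw [mem_conj_smul_iff]
    have h5 : (x⁻¹ * y)⁻¹ * (x⁻¹ * g * x) * (x⁻¹ * y) = y⁻¹ * g * y := by group
    rw [h5]; exact hy
  have h6 : x⁻¹ * g * x ∈ H ⊓ MulAut.conj (x⁻¹ * y) • H := Subgroup.mem_inf.mpr ⟨hx, h4⟩
  rw [h3, Subgroup.mem_bot] at h6
  apply hg
  have h7 : g = x * (x⁻¹ * g * x) * x⁻¹ := by group
  rw [h7, h6]; group

end

/-- Let H be a Frobenius complement in a finite group G (a nontrivial proper subgroup meeting each conjugate gHg⁻¹ with g outside H trivially). Then in the action of G on the left cosets of H by left multiplication, no non-identity element of G fixes two distinct cosets. -/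
theorem result {G : Type*} [Group G] [Finite G] (H : Subgroup G) (hH : Cfsg.IsFrobeniusComplement H)
    (g : G) (hg : g ≠ 1) (a b : G ⧸ H) (ha : g • a = a) (hb : g • b = b) : a = b := by
  exact main H hH g hg a b ha hb

end Cfsg.Agent.S4253
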