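import Cfsg.Statements.S4260
-- import your own Cfsg.Agent.* helpers here
import Mathlib

set_option autoImplicit false
open Cfsg

namespace Cfsg.Agent.S4260

/-- Let H be a Hall subgroup of a finite group G (the order of H is coprime to its index) such that x^[G : H] lies in H for every x in G. Then H is normal in G. -/
theorem result {G : Type*} [Group G] [Finite G] (H : Subgroup G) (hHall : (Nat.card H).Coprime H.index)
    (hexp : ∀ x : G, x ^ H.index ∈ H) : H.Normal := by
  constructor
  intro h hh g
  have hm : (g * h * g⁻¹) ^ Nat.card H = 1 := by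
    rw [conj_pow]
    have h1 : h ^ Nat.card H = 1 := by
      have h2 : (⟨h, hh⟩ : H) ^ Nat.card H = 1 := pow_card_eq_one'
      exact congrArg Subtype.val h2
    rw [h1, mul_one, mul_inv_cancel]
  have hn : (g * h * g⁻¹) ^ H.index ∈ H := hexp _
  have key : (1 : ℤ) = (Nat.card H : ℤ) * Nat.gcdA (Nat.card H) H.index +
      (H.index : ℤ) * Nat.gcdB (Nat.card H) H.index := by
    have h3 := Nat.gcd_eq_gcd_ab (Nat.card H) H.index
    rw [hHall.gcd_eq_one] at h3
    exact_mod_cast h3
  have h4 : g * h * g⁻¹ = ((g * h * g⁻¹) ^ H.index) ^ (Nat.gcdB (Nat.card H) H.index) := by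
    conv_lhs => rw [← zpow_one (g * h * g⁻¹), key]
    rw [zpow_add, zpow_mul, zpow_mul, zpow_natCast, zpow_natCast, hm, one_zpow, one_mul]
  rw [h4]
  exact H.zpow_mem hn _

end Cfsg.Agent.S4260
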