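import Cfsg.Statements.S4261
-- import your own Cfsg.Agent.* helpers here
import Mathlib
import Cfsg.Agent.S0048

set_option autoImplicit false
open Cfsg

namespace Cfsg.Agent.S4261

/-- Let M be a maximal subgroup of a finite solvable group G such that x^[G : M] lies in M for every x in G. Then M is normal in G. -/
theorem result {G : Type*} [Group G] [Finite G] (hG : Group.IsSolvable G) (M : Subgroup G) (hM : IsCoatom M)
    (hexp : ∀ x : G, x ^ M.index ∈ M) : M.Normal := by
  have hsolv : Group.IsSolvable G := hG
  obtain ⟨p, k, hp, hk, hpk⟩ := (isPrimePow_nat_iff _).mp (Cfsg.Agent.S0048.result M hM)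
  have hpf : Fact p.Prime := ⟨hp⟩
  have hK : ∀ x : G, x ^ p ^ k ∈ M.normalCore := by
    intro x b
    have h1 := hexp (b * x * b⁻¹)
    rw [← hpk, conj_pow] at h1
    exact h1
  have hKM : M.normalCore ≤ M := Subgroup.normalCore_le M
  have hQp : IsPGroup p (G ⧸ M.normalCore) := by
    intro y
    obtain ⟨x, rfl⟩ := QuotientGroup.mk_surjective y
    refine ⟨k, ?_⟩
    rw [← QuotientGroup.mk_pow]
    exact (QuotientGroup.eq_one_iff _).mpr (hK x)
  have hQnil : Group.IsNilpotent (G ⧸ M.normalCore) := hQp.isNilpotent
  have hcm : (M.map (QuotientGroup.mk' M.normalCore)).comap (QuotientGroup.mk' M.normalCore) = M := by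
    rw [Subgroup.comap_map_eq, QuotientGroup.ker_mk', sup_eq_left.mpr hKM]
  have hlt : M.map (QuotientGroup.mk' M.normalCore) < ⊤ := by
    rw [lt_top_iff_ne_top]
    intro h
    apply hM.1
    rw [← hcm, h, Subgroup.comap_top]
  have h2 := Group.normalizerCondition_of_isNilpotent _ hlt
  have h3 : M < Subgroup.normalizer (M : Set G) := by
    rw [lt_iff_le_and_ne]
    refine ⟨Subgroup.le_normalizer, fun h => ?_⟩
    have h4 : (Subgroup.normalizer ((M.map (QuotientGroup.mk' M.normalCore) : Subgroup _) : Set _)).comap
        (QuotientGroup.mk' M.normalCore) ≤ M := by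
      have h5 := Subgroup.le_normalizer_comap (H := M.map (QuotientGroup.mk' M.normalCore))
        (QuotientGroup.mk' M.normalCore)
      rw [hcm] at h5
      exact h5.trans h.ge
    apply ne_of_lt h2
    apply le_antisymm Subgroup.le_normalizer
    have h6 := Subgroup.map_mono (f := QuotientGroup.mk' M.normalCore) h4
    rwa [Subgroup.map_comap_eq_self_of_surjective (QuotientGroup.mk'_surjective _)] at h6
  exact Subgroup.normalizer_eq_top_iff.mp (hM.2 _ h3)

end Cfsg.Agent.S4261
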