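import Cfsg.Statements.S4263
-- import your own Cfsg.Agent.* helpers here
import Cfsg.Agent.Lib.Helper7.HallSystem

set_option autoImplicit false
open Cfsg

namespace Cfsg.Agent.S4263

section
open scoped Pointwise
open Cfsg.Agent.Lib.Helper7

theorem nilpotent_pow_index_mem : ∀ (n : ℕ) (Γ : Type*) [Group Γ] [Finite Γ] [Group.IsNilpotent Γ]
    (D : Subgroup Γ), D.index ≤ n → ∀ y : Γ, y ^ D.index ∈ D := by
  intro n
  induction n with
  | zero =>
    intro Γ _ _ _ D hD
    exact absurd hD (by have := Nat.pos_of_ne_zero (Subgroup.index_ne_zero_of_finite (H := D)); omega)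
  | succ n ih =>
    intro Γ _ _ _ D hD y
    by_cases hDt : D = ⊤
    · rw [hDt]; exact Subgroup.mem_top _
    · have hlt : D < Subgroup.normalizer (D : Set Γ) :=
        Group.normalizerCondition_of_isNilpotent D (lt_top_iff_ne_top.mpr hDt)
      have hidx := Subgroup.index_strictAnti hlt
      have h1 := ih Γ (Subgroup.normalizer (D : Set Γ)) (by omega) y
      have hn : (D.subgroupOf (Subgroup.normalizer (D : Set Γ))).Normal :=
        Subgroup.normal_subgroupOf_of_le_normalizer le_rfl
      have h2 := Subgroup.pow_index_mem (D.subgroupOf (Subgroup.normalizer (D : Set Γ)))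
        (⟨y ^ (Subgroup.normalizer (D : Set Γ)).index, h1⟩ : Subgroup.normalizer (D : Set Γ))
      rw [Subgroup.mem_subgroupOf] at h2
      have h3 : D.relIndex (Subgroup.normalizer (D : Set Γ)) *
          (Subgroup.normalizer (D : Set Γ)).index = D.index := Subgroup.relIndex_mul_index hlt.le
      rw [← h3, mul_comm, pow_mul]
      exact h2

theorem main {G : Type*} [Group G] [Finite G] (x : G) :
    x ∈ Cfsg.fittingSubgroup G ↔ ∀ H : Subgroup G, x ^ H.index ∈ H := by
  have hFn : (Cfsg.fittingSubgroup G).Normal := fitting_normal G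
  have hFnil : Group.IsNilpotent (Cfsg.fittingSubgroup G) := fitting_isNilpotent G
  constructor
  · intro hx H
    have h1 := nilpotent_pow_index_mem _ (Cfsg.fittingSubgroup G)
      (H.subgroupOf (Cfsg.fittingSubgroup G)) le_rfl ⟨x, hx⟩
    rw [Subgroup.mem_subgroupOf] at h1
    have h2 : H.relIndex (Cfsg.fittingSubgroup G) ∣ H.index := by
      rw [relIndex_eq_relIndex_sup]
      exact Subgroup.relIndex_dvd_index_of_le le_sup_left
    obtain ⟨k, hk⟩ := h2
    rw [hk, pow_mul]
    exact H.pow_mem h1 k
  · intro h
    rw [← QuotientGroup.eq_one_iff]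
    by_contra hne
    have hord : orderOf (x : G ⧸ Cfsg.fittingSubgroup G) ≠ 1 := fun h0 => hne (orderOf_eq_one_iff.mp h0)
    obtain ⟨q, hq, hqd⟩ := Nat.exists_prime_and_dvd hord
    have : Fact q.Prime := ⟨hq⟩
    obtain ⟨P⟩ : Nonempty (Sylow q G) := inferInstance
    have hidx : ∀ g : G, (MulAut.conj g • (P : Subgroup G)).index = (P : Subgroup G).index := by
      intro g
      have h1 := (MulAut.conj g • (P : Subgroup G)).card_mul_index
      have h2 := (P : Subgroup G).card_mul_index
      rw [card_conj_smul] at h1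
      exact Nat.eq_of_mul_eq_mul_left Nat.card_pos (h1.trans h2.symm)
    have hcl : Subgroup.normalClosure ({x ^ (P : Subgroup G).index} : Set G) ≤ (P : Subgroup G) := by
      show Subgroup.closure _ ≤ _
      rw [Subgroup.closure_le]
      intro y hy
      rw [Group.mem_conjugatesOfSet_iff] at hy
      obtain ⟨a, ha, hconj⟩ := hy
      rw [Set.mem_singleton_iff] at ha
      obtain ⟨g, rfl⟩ := isConj_iff.mp hconj
      have h1 := h (MulAut.conj g⁻¹ • (P : Subgroup G))
      rw [hidx, mem_conj_smul_iff, inv_inv] at h1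
      rw [ha]
      exact h1
    have hp : IsPGroup q (Subgroup.normalClosure ({x ^ (P : Subgroup G).index} : Set G)) :=
      P.isPGroup'.to_le hcl
    have hF : Subgroup.normalClosure ({x ^ (P : Subgroup G).index} : Set G) ≤
        Cfsg.fittingSubgroup G :=
      (le_pCore Subgroup.normalClosure_normal hp).trans (pCore_le_fitting q G)
    have hxm : x ^ (P : Subgroup G).index ∈ Cfsg.fittingSubgroup G :=
      hF (Subgroup.subset_normalClosure (Set.mem_singleton _))
    have h5 : (x : G ⧸ Cfsg.fittingSubgroup G) ^ (P : Subgroup G).index = 1 := by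
      rw [← QuotientGroup.mk_pow]
      exact (QuotientGroup.eq_one_iff _).mpr hxm
    have h6 : q ∣ (P : Subgroup G).index := hqd.trans (orderOf_dvd_of_pow_eq_one h5)
    exact P.not_dvd_index h6

end

/-- Let G be a finite group. An element x lies in the Fitting subgroup F(G) if and only if, for every subgroup H of G, the power x^[G : H] lies in H. -/
theorem result {G : Type*} [Group G] [Finite G] (x : G) :
    x ∈ Cfsg.fittingSubgroup G ↔ ∀ H : Subgroup G, x ^ H.index ∈ H := by
  exact main x

end Cfsg.Agent.S4263
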