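import Cfsg.Statements.S4293
-- import your own Cfsg.Agent.* helpers here
import Mathlib
import Cfsg.Agent.Lib.Helper7.FrobAff

set_option autoImplicit false
open Cfsg

namespace Cfsg.Agent.S4293

/-- A nontrivial finite subgroup of the multiplicative group of a division ring occurs as a Frobenius complement of some finite Frobenius group. -/
theorem result {D : Type*} [DivisionRing D] (H : Subgroup Dˣ) [Finite H] (hH : H ≠ ⊥) :
    ∃ (L : Type) (_ : Group L) (_ : Finite L) (C : Subgroup L), Cfsg.IsFrobeniusComplement C ∧ Nonempty (H ≃* C) := by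
  classical
  obtain ⟨q, hq, hqH, hqD⟩ : ∃ q : ℕ, q.Prime ∧ ¬ q ∣ Nat.card H ∧
      ∀ c : ℤ, (c : D) = 0 → (q : ℤ) ∣ c := by
    haveI := ringChar.charP D
    by_cases h0 : ringChar D = 0
    · obtain ⟨q, hqge, hq⟩ := Nat.exists_infinite_primes (Nat.card H + 1)
      refine ⟨q, hq, ?_, ?_⟩
      · intro hdvd
        have h1 := Nat.le_of_dvd Nat.card_pos hdvd
        omega
      · intro c hc
        rw [CharP.intCast_eq_zero_iff D (ringChar D), h0] at hc
        have hc0 : c = 0 := by simpa using hc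
        rw [hc0]; exact dvd_zero _
    · have hp : (ringChar D).Prime :=
        (CharP.char_is_prime_or_zero D (ringChar D)).resolve_right h0
      refine ⟨ringChar D, hp, ?_, ?_⟩
      · intro hdvd
        haveI := Fact.mk hp
        obtain ⟨h, hh⟩ := exists_prime_orderOf_dvd_card' (ringChar D) hdvd
        have h1 : ((h : Dˣ) : D) ^ (ringChar D) = 1 := by
          have h5 := pow_orderOf_eq_one h
          rw [hh] at h5
          have h6 := congrArg (fun x : H => ((x : Dˣ) : D)) h5
          simpa using h6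
        have h2 : (((h : Dˣ) : D) - 1) ^ (ringChar D) = 0 := by
          rw [sub_pow_char_of_commute _ (Commute.one_right _), h1, one_pow, sub_self]
        have h3 : ((h : Dˣ) : D) - 1 = 0 := pow_eq_zero_iff (hp.ne_zero) |>.mp h2
        have h4 : h = 1 := by
          apply Subtype.ext; apply Units.ext
          simpa using sub_eq_zero.mp h3
        rw [h4, orderOf_one] at hh
        exact hp.one_lt.ne hh
      · intro c hc
        exact (CharP.intCast_eq_zero_iff D (ringChar D) c).mp hc
  obtain ⟨S₀, hS₀⟩ : ∃ S₀ : Submonoid D, ∀ x, x ∈ S₀ ↔ ∃ h ∈ H, ((h : Dˣ) : D) = x :=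
    ⟨H.toSubmonoid.map (Units.coeHom D), fun x => Iff.rfl⟩
  have hS₀fin : (S₀ : Set D).Finite := by
    have h1 : (S₀ : Set D) = (fun u : Dˣ => (u : D)) '' (H : Set Dˣ) := by
      ext x
      rw [SetLike.mem_coe, hS₀]
      rfl
    rw [h1]
    exact Set.Finite.image _ (Set.toFinite _)
  obtain ⟨A, hAdef⟩ : ∃ A : Subalgebra ℤ D, A = Algebra.adjoin ℤ (S₀ : Set D) := ⟨_, rfl⟩
  have hAfg : (Subalgebra.toSubmodule A).FG := by
    rw [hAdef, Algebra.adjoin_eq_span, Submonoid.closure_eq]
    exact Submodule.fg_span hS₀fin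
  have hmemA : ∀ h : H, ((h : Dˣ) : D) ∈ A := fun h => by
    rw [hAdef]
    exact Algebra.subset_adjoin ((hS₀ _).mpr ⟨h, h.2, rfl⟩)
  obtain ⟨ι, hι⟩ : ∃ ι : H →* A, ∀ h : H, ((ι h : A) : D) = ((h : Dˣ) : D) :=
    ⟨{ toFun := fun h => ⟨((h : Dˣ) : D), hmemA h⟩
       map_one' := by apply Subtype.ext; simp
       map_mul' := fun a b => by apply Subtype.ext; simp }, fun h => rfl⟩
  obtain ⟨I, hIdef⟩ : ∃ I : Submodule A A, I = Ideal.span {((q : ℕ) : A)} := ⟨_, rfl⟩
  have hImem : ∀ x : A, x ∈ I ↔ ∃ a : A, a * ((q : ℕ) : A) = x := by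
    intro x; rw [hIdef]; exact Ideal.mem_span_singleton'
  letI : DistribMulAction H (A ⧸ I) := DistribMulAction.compHom (A ⧸ I) ι
  have hsmul : ∀ (h : H) (v : A ⧸ I), h • v = (ι h) • v := fun h v => rfl
  have htors : ∀ v : A ⧸ I, (q : ℤ) • v = 0 := by
    intro v
    obtain ⟨a, rfl⟩ := Submodule.Quotient.mk_surjective I v
    rw [← Submodule.Quotient.mk_smul, Submodule.Quotient.mk_eq_zero, hImem]
    refine ⟨a, ?_⟩
    rw [zsmul_eq_mul, Int.cast_natCast, Nat.cast_comm]
  haveI hAfin : Module.Finite ℤ A := Module.Finite.iff_fg.mpr hAfg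
  haveI : Module.Finite ℤ (A ⧸ I) :=
    Module.Finite.of_surjective ((Submodule.mkQ I).toAddMonoidHom.toIntLinearMap)
      (Submodule.mkQ_surjective I)
  haveI : Finite (A ⧸ I) := by
    apply Module.finite_of_fg_torsion
    intro v
    refine ⟨⟨(q : ℤ), mem_nonZeroDivisors_of_ne_zero (by exact_mod_cast hq.ne_zero)⟩, ?_⟩
    exact htors v
  have h1I : (1 : A) ∉ I := by
    intro h
    obtain ⟨a, ha⟩ := (hImem 1).mp h
    have ha' : (a : D) * (q : D) = 1 := by
      have h5 := congrArg Subtype.val ha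
      simpa using h5
    have hle : Subalgebra.toSubmodule A ≤
        (Ideal.span {(q : ℤ)} : Ideal ℤ) • Subalgebra.toSubmodule A := by
      intro s hs
      rw [Submodule.ideal_span_singleton_smul, Submodule.mem_smul_pointwise_iff_exists]
      refine ⟨s * (a : D), A.mul_mem hs a.2, ?_⟩
      rw [zsmul_eq_mul, Int.cast_natCast, Nat.cast_comm, mul_assoc, ha', mul_one]
    obtain ⟨c, hc1, hc2⟩ :=
      Submodule.exists_sub_one_mem_and_smul_eq_zero_of_fg_of_le_smul _ _ hAfg hle
    have h3 : (c : D) = 0 := by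
      have h5 := hc2 1 (A.one_mem)
      simpa using h5
    have h4 := hqD c h3
    have h5 : (q : ℤ) ∣ c - 1 := Ideal.mem_span_singleton.mp hc1
    have h6 : (q : ℤ) ∣ 1 := by
      have h7 := dvd_sub h4 h5
      simpa using h7
    have h7 : q ∣ 1 := by exact_mod_cast h6
    exact hq.one_lt.ne' (Nat.dvd_one.mp h7)
  haveI : Nontrivial (A ⧸ I) :=
    ⟨⟨Submodule.Quotient.mk 1, 0, fun h => h1I ((Submodule.Quotient.mk_eq_zero I).mp h)⟩⟩
  haveI : Nontrivial H := (Subgroup.nontrivial_iff_ne_bot H).mpr hH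
  have hfpf : ∀ k : H, k ≠ 1 → ∀ v : A ⧸ I, k • v = v → v = 0 := by
    intro k hk v hv
    have hord : orderOf k ≠ 1 := fun h => hk (orderOf_eq_one_iff.mp h)
    obtain ⟨r, hr, hrdvd⟩ := Nat.exists_prime_and_dvd hord
    have hkpos : 0 < orderOf k := orderOf_pos k
    obtain ⟨k', hk'def⟩ : ∃ k' : H, k' = k ^ (orderOf k / r) := ⟨_, rfl⟩
    have hk'ord : orderOf k' = r := by
      rw [hk'def]; exact orderOf_pow_orderOf_div hkpos.ne' hrdvd
    have hpowv : ∀ n : ℕ, (k ^ n) • v = v := by
      intro n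
      induction n with
      | zero => simp
      | succ n ih => rw [pow_succ, mul_smul, hv, ih]
    have hk'v : (ι k') • v = v := by
      rw [← hsmul, hk'def]; exact hpowv _
    have hk'1 : ((k' : Dˣ) : D) ≠ 1 := by
      intro h
      have h5 : k' = 1 := by
        apply Subtype.ext; apply Units.ext; simpa using h
      rw [h5, orderOf_one] at hk'ord
      exact hr.one_lt.ne hk'ord
    have hgeom : ∑ i ∈ Finset.range r, ((k' : Dˣ) : D) ^ i = 0 := by
      have h1 := mul_geom_sum ((k' : Dˣ) : D) r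
      have h2 : ((k' : Dˣ) : D) ^ r = 1 := by
        have h5 := pow_orderOf_eq_one k'
        rw [hk'ord] at h5
        have h6 := congrArg (fun x : H => ((x : Dˣ) : D)) h5
        simpa using h6
      rw [h2, sub_self] at h1
      rcases mul_eq_zero.mp h1 with h | h
      · exact absurd (sub_eq_zero.mp h) hk'1
      · exact h
    have hgeomA : ∑ i ∈ Finset.range r, (ι k') ^ i = 0 := by
      apply Subtype.ext
      push_cast
      rw [hι]
      exact hgeom
    have hpowv' : ∀ i : ℕ, ((ι k') ^ i) • v = v := by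
      intro i
      induction i with
      | zero => simp
      | succ n ih => rw [pow_succ, mul_smul, hk'v, ih]
    have h5 : (∑ i ∈ Finset.range r, (ι k') ^ i) • v = (r : ℤ) • v := by
      rw [Finset.sum_smul, Finset.sum_congr rfl (fun i _ => hpowv' i), Finset.sum_const,
        Finset.card_range, natCast_zsmul]
    rw [hgeomA, zero_smul] at h5
    have h6 : (q : ℤ) • v = 0 := htors v
    have hrq : r ≠ q := by
      rintro rfl
      exact hqH (dvd_trans hrdvd (orderOf_dvd_natCard k))
    have hcop : Nat.Coprime r q := (Nat.coprime_primes hr hq).mpr hrq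
    have hb := Int.gcd_eq_gcd_ab r q
    rw [Int.gcd_natCast_natCast, hcop.gcd_eq_one] at hb
    have h7 : v = ((r : ℤ) * Int.gcdA r q + (q : ℤ) * Int.gcdB r q) • v := by
      rw [← hb]; simp
    rw [h7, add_smul, mul_comm (r : ℤ), mul_comm (q : ℤ), mul_smul, mul_smul, ← h5, h6]
    simp
  exact Cfsg.Agent.Lib.Helper7.exists_frob_of_fpf (K := H) (V := A ⧸ I) hfpf

end Cfsg.Agent.S4293
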