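import Mathlib
import Cfsg.Statements.S4298
import Cfsg.Agent.H4Tab

set_option autoImplicit false

open Cfsg

namespace Cfsg.Agent.S4298

open Cfsg.Agent.H4Sharp Cfsg.Agent.H4Tab

/-- The table of an embedding of `SL₂(3)` into `GL₂(5)`. -/
def tbl : List (Q × Q) := [
  ((1, 0, 0, 1), (1, 0, 0, 1)), ((0, 2, 1, 0), (2, 0, 0, 3)), ((1, 1, 0, 1), (1, 2, 1, 3)),
  ((2, 0, 0, 2), (4, 0, 0, 4)), ((0, 2, 1, 1), (2, 4, 3, 4)), ((1, 2, 1, 0), (2, 1, 2, 4)),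
  ((1, 2, 0, 1), (3, 3, 4, 1)), ((0, 1, 2, 0), (3, 0, 0, 2)), ((2, 2, 0, 2), (4, 3, 4, 2)),
  ((2, 0, 1, 2), (4, 2, 1, 2)), ((0, 2, 1, 2), (1, 1, 2, 3)), ((1, 0, 1, 1), (3, 2, 1, 1)),
  ((2, 2, 1, 0), (1, 4, 3, 3)), ((0, 1, 2, 2), (3, 1, 2, 1)), ((2, 1, 2, 0), (3, 4, 3, 1)),
  ((2, 1, 0, 2), (2, 2, 1, 4)), ((2, 0, 2, 2), (2, 3, 4, 4)), ((1, 1, 1, 2), (0, 2, 2, 0)),
  ((2, 1, 1, 1), (0, 4, 1, 0)), ((1, 0, 2, 1), (1, 3, 4, 3)), ((0, 1, 2, 1), (4, 4, 3, 2)),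
  ((1, 1, 2, 0), (4, 1, 2, 2)), ((2, 2, 2, 1), (0, 3, 3, 0)), ((1, 2, 2, 2), (0, 1, 4, 0))]

theorem c_hom : chkHom 3 5 tbl = true := by decide +kernel
theorem c_keys : chkKeys 3 tbl = true := by decide +kernel
theorem c_fpf : chkFpf 5 tbl = true := by decide +kernel
theorem c_one : look tbl one = one := by decide +kernel

/-- The group SL(2,3) of order 24 (the binary tetrahedral group) occurs as a Frobenius complement of some finite Frobenius group. -/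
theorem result :
    ∃ (L : Type) (_ : Group L) (_ : Finite L) (H : Subgroup L), Cfsg.IsFrobeniusComplement H ∧ Nonempty (H ≃* Matrix.SpecialLinearGroup (Fin 2) (ZMod 3)) := by
  haveI : Fact (Nat.Prime 3) := ⟨by norm_num⟩
  haveI : Fact (Nat.Prime 5) := ⟨by norm_num⟩
  exact frob_of_tbl 3 5 tbl c_hom c_keys c_fpf c_one

end Cfsg.Agent.S4298
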