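import Cfsg.Statements.S4299
-- import your own Cfsg.Agent.* helpers here
import Mathlib
import Cfsg.Agent.S4252

set_option autoImplicit false
open Cfsg

namespace Cfsg.Agent.S4299

/-- Every nontrivial finite cyclic group occurs as a Frobenius complement of some finite Frobenius group. -/
theorem result {C : Type*} [Group C] [Finite C] [IsCyclic C] [Nontrivial C] :
    ∃ (L : Type) (_ : Group L) (_ : Finite L) (H : Subgroup L), Cfsg.IsFrobeniusComplement H ∧ Nonempty (C ≃* H) := by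
  classical
  have hn2 : 2 ≤ Nat.card C := by
    have h1 := Finite.one_lt_card_iff_nontrivial.mpr (inferInstance : Nontrivial C)
    omega
  obtain ⟨q, hq, -, hqn⟩ := Nat.exists_prime_gt_modEq_one (k := Nat.card C) 0 (by omega)
  haveI := Fact.mk hq
  have hdvd : Nat.card C ∣ q - 1 := (Nat.modEq_iff_dvd' hq.one_lt.le).mp hqn.symm
  obtain ⟨gen, hgen⟩ :=
    isCyclic_iff_exists_orderOf_eq_natCard.mp (inferInstance : IsCyclic (ZMod q)ˣ)
  have hcardU : Nat.card (ZMod q)ˣ = q - 1 := by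
    rw [Nat.card_eq_fintype_card, ZMod.card_units]
  rw [hcardU] at hgen
  obtain ⟨d, hd⟩ := hdvd
  have hd0 : d ≠ 0 := by
    rintro rfl
    have := hq.one_lt
    omega
  obtain ⟨g₀, hg₀⟩ : ∃ g₀ : (ZMod q)ˣ, orderOf g₀ = Nat.card C := by
    refine ⟨gen ^ d, ?_⟩
    rw [orderOf_pow_of_dvd hd0 (by rw [hgen, hd]; exact dvd_mul_left d _), hgen, hd]
    exact Nat.mul_div_cancel _ (Nat.pos_of_ne_zero hd0)
  obtain ⟨ψ, hψ⟩ : ∃ ψ : (ZMod q)ˣ →* Equiv.Perm (ZMod q),
      ∀ (u : (ZMod q)ˣ) (x : ZMod q), ψ u x = (u : ZMod q) * x :=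
    ⟨MulAction.toPermHom (ZMod q)ˣ (ZMod q), fun u x => rfl⟩
  have hψinj : Function.Injective ψ := by
    intro u v huv
    have h1 := congrArg (fun σ : Equiv.Perm (ZMod q) => σ 1) huv
    simp only [hψ, mul_one] at h1
    exact Units.ext h1
  obtain ⟨Lsub, hLsub⟩ : ∃ Lsub : Subgroup (Equiv.Perm (ZMod q)), ∀ σ, σ ∈ Lsub ↔
      ∃ u ∈ Subgroup.zpowers g₀, ∃ b : ZMod q, ∀ x, σ x = (u : ZMod q) * x + b :=
    ⟨{ carrier := {σ | ∃ u ∈ Subgroup.zpowers g₀, ∃ b : ZMod q, ∀ x, σ x = (u : ZMod q) * x + b}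
       mul_mem' := by
        rintro σ τ ⟨u, hu, b, hσ⟩ ⟨v, hv, c, hτ⟩
        refine ⟨u * v, Subgroup.mul_mem _ hu hv, (u : ZMod q) * c + b, fun x => ?_⟩
        rw [Equiv.Perm.mul_apply, hτ, hσ, Units.val_mul]; ring
       one_mem' := ⟨1, Subgroup.one_mem _, 0, fun x => by simp⟩
       inv_mem' := by
        rintro σ ⟨u, hu, b, hσ⟩
        refine ⟨u⁻¹, Subgroup.inv_mem _ hu, -((u⁻¹ : (ZMod q)ˣ) : ZMod q) * b, fun x => ?_⟩
        rw [Equiv.Perm.inv_eq_iff_eq, hσ]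
        have h1 : (u : ZMod q) * ((u⁻¹ : (ZMod q)ˣ) : ZMod q) = 1 := Units.mul_inv u
        linear_combination (b - x) * h1 }, fun σ => Iff.rfl⟩
  have hsmul : ∀ (g : Lsub) (x : ZMod q), g • x = (g : Equiv.Perm (ZMod q)) x := fun g x => rfl
  have hΩ : 1 < Fintype.card (ZMod q) := by rw [ZMod.card]; exact hq.one_lt
  have htrans : ∀ α β : ZMod q, ∃ g : Lsub, g • α = β := by
    intro α β
    refine ⟨⟨Equiv.addRight (β - α), (hLsub _).mpr ⟨1, Subgroup.one_mem _, β - α, fun x => ?_⟩⟩, ?_⟩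
    · simp
    · rw [hsmul]; simp
  have hmem0 : ψ g₀ ∈ Lsub :=
    (hLsub _).mpr ⟨g₀, Subgroup.mem_zpowers g₀, 0, fun x => by rw [hψ, add_zero]⟩
  have hg₀1 : g₀ ≠ 1 := by
    intro h
    rw [h, orderOf_one] at hg₀
    omega
  have hnreg : ∃ g : Lsub, g ≠ 1 ∧ ∃ α : ZMod q, g • α = α := by
    refine ⟨⟨ψ g₀, hmem0⟩, ?_, 0, ?_⟩
    · intro h
      apply hg₀1
      apply hψinj
      rw [map_one]
      exact congrArg Subtype.val h
    · rw [hsmul]
      show ψ g₀ 0 = 0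
      rw [hψ, mul_zero]
  have hfix : ∀ g : Lsub, g ≠ 1 → ∀ α β : ZMod q, g • α = α → g • β = β → α = β := by
    intro g hg α β hα hβ
    obtain ⟨u, hu, b, hσ⟩ := (hLsub g.1).mp g.2
    rw [hsmul, hσ] at hα hβ
    by_contra hne
    have h1 : ((u : ZMod q) - 1) * (α - β) = 0 := by linear_combination hα - hβ
    have h2 : (u : ZMod q) - 1 = 0 := by
      rcases mul_eq_zero.mp h1 with h | h
      · exact h
      · exact absurd (sub_eq_zero.mp h) hne
    have h3 : (u : ZMod q) = 1 := sub_eq_zero.mp h2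
    have h4 : b = 0 := by
      rw [h3] at hα
      linear_combination hα
    apply hg
    apply Subtype.ext
    ext x
    rw [hσ, h3, h4]
    simp
  have hfrob := Cfsg.Agent.S4252.frob_of_action (G := Lsub) (Ω := ZMod q) hΩ htrans hnreg hfix 0
  have hstab : MulAction.stabilizer Lsub (0 : ZMod q) =
      Subgroup.zpowers (⟨ψ g₀, hmem0⟩ : Lsub) := by
    apply le_antisymm
    · intro g hg
      rw [MulAction.mem_stabilizer_iff, hsmul] at hg
      obtain ⟨u, hu, b, hσ⟩ := (hLsub g.1).mp g.2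
      rw [hσ, mul_zero, zero_add] at hg
      obtain ⟨k, hk⟩ := Subgroup.mem_zpowers_iff.mp hu
      rw [Subgroup.mem_zpowers_iff]
      refine ⟨k, ?_⟩
      apply Subtype.ext
      rw [Subgroup.coe_zpow]
      show (ψ g₀) ^ k = (g : Equiv.Perm (ZMod q))
      rw [← map_zpow, hk]
      ext x
      rw [hψ, hσ, hg, add_zero]
    · rw [Subgroup.zpowers_le, MulAction.mem_stabilizer_iff, hsmul]
      show ψ g₀ 0 = 0
      rw [hψ, mul_zero]
  rw [hstab] at hfrob
  have horder : orderOf (⟨ψ g₀, hmem0⟩ : Lsub) = Nat.card C := by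
    rw [← Subgroup.orderOf_coe]
    show orderOf (ψ g₀) = Nat.card C
    rw [orderOf_injective ψ hψinj g₀, hg₀]
  refine ⟨Lsub, inferInstance, inferInstance, Subgroup.zpowers (⟨ψ g₀, hmem0⟩ : Lsub), hfrob, ?_⟩
  exact ⟨mulEquivOfCyclicCardEq (by rw [Nat.card_zpowers, horder])⟩

end Cfsg.Agent.S4299
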