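import Cfsg.Statements.S4331
import Cfsg.Agent.Lib.Helper3.EA
import Cfsg.Agent.Lib.Helper7.PCore
import Cfsg.Agent.Lib.Helper8.Subnormal

set_option autoImplicit false
open Cfsg

namespace Cfsg.Agent.S4331

open Cfsg.Agent.Lib.Helper7 Cfsg.Agent.Lib.Helper8 Cfsg.Agent.Lib.Helper3

/-- Relative subnormality restricts to intermediate subgroups. -/
theorem sdx_subn_of_le {G : Type*} [Group G] {B K K' : Subgroup G}
    (h : (B.subgroupOf K).IsSubnormal) (hle : K' ≤ K) : (B.subgroupOf K').IsSubnormal := by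
  have h1 := h.comap (Subgroup.inclusion hle)
  have e : (B.subgroupOf K).comap (Subgroup.inclusion hle) = B.subgroupOf K' := by
    ext x
    rw [Subgroup.mem_comap, Subgroup.mem_subgroupOf, Subgroup.mem_subgroupOf]
    rfl
  rw [e] at h1; exact h1

/-- Coprime action on an abelian group: every element is a fixed point times a commutator. -/
theorem sdx_decomp {N : Type*} [CommGroup N] [Finite N] (α : MulAut N) (n : ℕ)
    (hn : α ^ n = 1) (hcop : (Nat.card N).Coprime n) (v : N) :
    ∃ u f : N, α f = f ∧ v = f * (u * (α u)⁻¹) := by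
  classical
  obtain ⟨ψ, hψ⟩ : ∃ ψ : N →* N, ∀ u, ψ u = u * (α u)⁻¹ :=
    ⟨MonoidHom.mk' (fun u => u * (α u)⁻¹) (by
      intro x y
      show x * y * (α (x * y))⁻¹ = x * (α x)⁻¹ * (y * (α y)⁻¹)
      rw [map_mul, mul_inv_rev, mul_comm (α y)⁻¹ (α x)⁻¹, mul_mul_mul_comm]), fun u => rfl⟩
  have hinf : ψ.ker ⊓ ψ.range = ⊥ := by
    rw [eq_bot_iff]
    rintro x ⟨hx1, u, hux⟩
    have hαx : α x = x := by
      have h0 := MonoidHom.mem_ker.mp hx1
      rw [hψ] at h0
      exact (mul_inv_eq_one.mp h0).symm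
    have hαu : α u = x⁻¹ * u := by
      rw [← hux, hψ, mul_inv_rev, inv_inv, inv_mul_cancel_right]
    have key : ∀ i : ℕ, (α ^ i) u = (x ^ i)⁻¹ * u := by
      intro i
      induction i with
      | zero => simp
      | succ i ih =>
        rw [pow_succ', MulAut.mul_apply, ih, map_mul, map_inv, map_pow, hαx, hαu, ← mul_assoc,
          ← mul_inv_rev, ← pow_succ']
    have h1 := key n
    rw [hn, MulAut.one_apply] at h1
    have hxn : x ^ n = 1 := by
      have h3 : (x ^ n)⁻¹ = 1 := by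
        have h2 : (x ^ n)⁻¹ * u = 1 * u := by rw [one_mul]; exact h1.symm
        exact mul_right_cancel h2
      exact inv_eq_one.mp h3
    have hd1 : orderOf x ∣ n := orderOf_dvd_of_pow_eq_one hxn
    have hd2 : orderOf x ∣ Nat.card N := orderOf_dvd_natCard x
    have h4 : orderOf x ∣ 1 := by
      have h5 := Nat.dvd_gcd hd2 hd1
      rwa [hcop.gcd_eq_one] at h5
    exact Subgroup.mem_bot.mpr (orderOf_eq_one_iff.mp (Nat.dvd_one.mp h4))
  have hcard := card_sup_mul_card_inf ψ.ker ψ.range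
    (by rw [Subgroup.normalizer_eq_top_iff.mpr inferInstance]; exact le_top)
  rw [hinf, Subgroup.card_bot, mul_one] at hcard
  have h2 : Nat.card ψ.ker * Nat.card ψ.range = Nat.card N := by
    rw [← Subgroup.index_ker]; exact Subgroup.card_mul_index _
  have htop : ψ.ker ⊔ ψ.range = ⊤ := Subgroup.eq_top_of_card_eq _ (hcard.trans h2)
  have hv : v ∈ ψ.ker ⊔ ψ.range := htop ▸ Subgroup.mem_top v
  obtain ⟨f, hf, z, ⟨u, rfl⟩, hfz⟩ := Subgroup.mem_sup.mp hv
  refine ⟨u, f, ?_, ?_⟩
  · have h0 := MonoidHom.mem_ker.mp hf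
    rw [hψ] at h0
    exact (mul_inv_eq_one.mp h0).symm
  · rw [← hfz, hψ]

/-- Abstract criterion: an abelian group `N` of odd order extended by a `2`-group `H`, with an
involution `a ∈ H` acting nontrivially such that every nontrivial element of `N` is moved by `H`
into the fixed points of `a`. -/
theorem sdx_main {N H : Type} [CommGroup N] [Finite N] [Group H] [Finite H] (φ : H →* MulAut N)
    (hH : IsPGroup 2 H) (hN : Odd (Nat.card N)) (a : H) (ha : orderOf a = 2)
    (hfix : ∀ v : N, v ≠ 1 → ∃ k : H, φ a (φ k v) = φ k v)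
    (hnt : ∃ w : N, φ a w ≠ w) :
    Group.IsSolvable (N ⋊[φ] H) ∧
      Nat.card (Subgroup.zpowers (SemidirectProduct.inr a : N ⋊[φ] H)) = 2 ∧
      (∀ c : N ⋊[φ] H, ∃ g, IsConj c g ∧
        ((Subgroup.zpowers (SemidirectProduct.inr a : N ⋊[φ] H)).subgroupOf
          (Subgroup.zpowers (SemidirectProduct.inr a : N ⋊[φ] H) ⊔
            Subgroup.zpowers g)).IsSubnormal) ∧
      ¬ Subgroup.zpowers (SemidirectProduct.inr a : N ⋊[φ] H) ≤ Cfsg.pCore 2 (N ⋊[φ] H) := by
  classical
  haveI : Fact (Nat.Prime 2) := ⟨Nat.prime_two⟩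
  haveI hfinG : Finite (N ⋊[φ] H) := Finite.of_equiv _ SemidirectProduct.equivProd.symm
  have hcop2 : ∀ j : ℕ, (Nat.card N).Coprime (2 ^ j) := fun j =>
    Nat.Coprime.pow_right j (Nat.Coprime.symm (Nat.coprime_two_left.mpr hN))
  refine ⟨?_, ?_, ?_, ?_⟩
  · haveI : Group.IsNilpotent H := hH.isNilpotent
    exact Group.isSolvable_of_ker_le_range (SemidirectProduct.inl : N →* N ⋊[φ] H)
      SemidirectProduct.rightHom (le_of_eq SemidirectProduct.range_inl_eq_ker_rightHom.symm)
  · rw [Nat.card_zpowers, orderOf_injective _ SemidirectProduct.inr_injective, ha]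
  · intro c
    obtain ⟨j, hj⟩ := hH c.right
    have hα : (φ c.right) ^ (2 ^ j) = 1 := by rw [← map_pow, hj, map_one]
    obtain ⟨u, f, hf, hv⟩ := sdx_decomp (φ c.right) (2 ^ j) hα (hcop2 j) c.left
    obtain ⟨k, hk⟩ : ∃ k : H, φ a (φ k f) = φ k f := by
      by_cases hf1 : f = 1
      · exact ⟨1, by rw [hf1]; simp⟩
      · exact hfix f hf1
    have hc1 : SemidirectProduct.inl u⁻¹ * c * (SemidirectProduct.inl u⁻¹ : N ⋊[φ] H)⁻¹ =
        SemidirectProduct.inl f * SemidirectProduct.inr c.right := by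
      have e1 : f = u⁻¹ * c.left * φ c.right u := by
        rw [hv, ← mul_assoc f u, mul_comm f u, mul_assoc u f, inv_mul_cancel_left, mul_assoc,
          inv_mul_cancel, mul_one]
      conv_lhs => rw [← SemidirectProduct.inl_left_mul_inr_right c]
      rw [e1, map_mul, map_mul, SemidirectProduct.inl_aut, map_inv, map_inv]
      group
    have hc2 : SemidirectProduct.inr k * (SemidirectProduct.inl f * SemidirectProduct.inr c.right) *
        (SemidirectProduct.inr k : N ⋊[φ] H)⁻¹ =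
        SemidirectProduct.inl (φ k f) * SemidirectProduct.inr (k * c.right * k⁻¹) := by
      rw [SemidirectProduct.inl_aut, map_mul, map_mul, map_inv]
      group
    obtain ⟨f', hf'⟩ : ∃ f' : N, f' = φ k f := ⟨_, rfl⟩
    obtain ⟨h', hh'⟩ : ∃ h' : H, h' = k * c.right * k⁻¹ := ⟨_, rfl⟩
    rw [← hf', ← hh'] at hc2
    rw [← hf'] at hk
    have hh'f : φ h' f' = f' := by
      rw [hh', hf', map_mul, map_mul, MulAut.mul_apply, MulAut.mul_apply, map_inv,
        MulAut.inv_apply_self, hf]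
    refine ⟨SemidirectProduct.inl f' * SemidirectProduct.inr h', ?_, ?_⟩
    · rw [isConj_iff]
      refine ⟨SemidirectProduct.inr k * SemidirectProduct.inl u⁻¹, ?_⟩
      rw [← hc2, ← hc1]; group
    · obtain ⟨x, hx⟩ : ∃ x : N ⋊[φ] H, x = SemidirectProduct.inl f' := ⟨_, rfl⟩
      have hxa : x * SemidirectProduct.inr a = SemidirectProduct.inr a * x := by
        have h0 := SemidirectProduct.inl_aut (φ := φ) a f'
        rw [hk, map_inv] at h0
        rw [hx]
        conv_lhs => rw [h0]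
        group
      have hxh : x * SemidirectProduct.inr h' = SemidirectProduct.inr h' * x := by
        have h0 := SemidirectProduct.inl_aut (φ := φ) h' f'
        rw [hh'f, map_inv] at h0
        rw [hx]
        conv_lhs => rw [h0]
        group
      obtain ⟨T, hT⟩ : ∃ T : Subgroup (N ⋊[φ] H), T =
          (SemidirectProduct.inr : H →* N ⋊[φ] H).range ⊓
            Subgroup.centralizer ({x} : Set (N ⋊[φ] H)) := ⟨_, rfl⟩
      have hTp : IsPGroup 2 T := by
        have hR : IsPGroup 2 (SemidirectProduct.inr : H →* N ⋊[φ] H).range :=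
          hH.of_surjective (SemidirectProduct.inr : H →* N ⋊[φ] H).rangeRestrict
            (MonoidHom.rangeRestrict_surjective _)
        rw [hT]
        exact hR.to_le inf_le_left
      haveI : Group.IsNilpotent T := hTp.isNilpotent
      have haT : SemidirectProduct.inr a ∈ T := by
        rw [hT]
        refine Subgroup.mem_inf.mpr ⟨⟨a, rfl⟩, ?_⟩
        rw [Subgroup.mem_centralizer_iff]
        intro y hy
        rw [Set.mem_singleton_iff.mp hy]; exact hxa
      have hhT : SemidirectProduct.inr h' ∈ T := by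
        rw [hT]
        refine Subgroup.mem_inf.mpr ⟨⟨h', rfl⟩, ?_⟩
        rw [Subgroup.mem_centralizer_iff]
        intro y hy
        rw [Set.mem_singleton_iff.mp hy]; exact hxh
      have hcomm : ∀ (m : Multiplicative ℤ) (t : T),
          Commute ((zpowersHom (N ⋊[φ] H) x) m) (T.subtype t) := by
        intro m t
        have hTle : T ≤ Subgroup.centralizer ({x} : Set (N ⋊[φ] H)) := by
          rw [hT]; exact inf_le_right
        have ht2 : (t : N ⋊[φ] H) ∈ Subgroup.centralizer ({x} : Set (N ⋊[φ] H)) := hTle t.2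
        have ht : x * (t : N ⋊[φ] H) = t * x :=
          Subgroup.mem_centralizer_iff.mp ht2 x (Set.mem_singleton x)
        rw [zpowersHom_apply]
        exact Commute.zpow_left ht _
      obtain ⟨F, hF⟩ : ∃ F : Multiplicative ℤ × T →* N ⋊[φ] H,
          ∀ mn, F mn = (zpowersHom (N ⋊[φ] H) x) mn.1 * T.subtype mn.2 :=
        ⟨MonoidHom.noncommCoprod (zpowersHom (N ⋊[φ] H) x) T.subtype hcomm,
          fun mn => MonoidHom.noncommCoprod_apply _ _ _ _⟩
      haveI : Group.IsNilpotent F.range :=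
        Group.nilpotent_of_surjective F.rangeRestrict F.rangeRestrict_surjective
      have hAD : Subgroup.zpowers (SemidirectProduct.inr a : N ⋊[φ] H) ≤ F.range := by
        rw [Subgroup.zpowers_le]
        refine ⟨(1, ⟨_, haT⟩), ?_⟩
        rw [hF, map_one, one_mul]
        rfl
      have hgD : SemidirectProduct.inl f' * SemidirectProduct.inr h' ∈ F.range := by
        refine ⟨(Multiplicative.ofAdd 1, ⟨_, hhT⟩), ?_⟩
        rw [hF, zpowersHom_apply, hx]
        simp
      have hLD : Subgroup.zpowers (SemidirectProduct.inr a : N ⋊[φ] H) ⊔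
          Subgroup.zpowers (SemidirectProduct.inl f' * SemidirectProduct.inr h') ≤ F.range :=
        sup_le hAD (Subgroup.zpowers_le.mpr hgD)
      exact sdx_subn_of_le (h8_isSubnormal_of_isNilpotent _) hLD
  · intro hle
    obtain ⟨w, hw⟩ := hnt
    have hOn : (Cfsg.pCore 2 (N ⋊[φ] H)).Normal := pCore_normal 2 _
    have hOp : IsPGroup 2 (Cfsg.pCore 2 (N ⋊[φ] H)) := pCore_isPGroup 2 _
    have haO : SemidirectProduct.inr a ∈ Cfsg.pCore 2 (N ⋊[φ] H) := hle (Subgroup.mem_zpowers _)
    have hxO : SemidirectProduct.inl (φ a w * w⁻¹) ∈ Cfsg.pCore 2 (N ⋊[φ] H) := by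
      have e : (SemidirectProduct.inl (φ a w * w⁻¹) : N ⋊[φ] H) =
          SemidirectProduct.inr a * (SemidirectProduct.inl w * (SemidirectProduct.inr a)⁻¹ *
            (SemidirectProduct.inl w)⁻¹) := by
        rw [map_mul, SemidirectProduct.inl_aut, map_inv, map_inv]; group
      rw [e]
      exact Subgroup.mul_mem _ haO (hOn.conj_mem _ (Subgroup.inv_mem _ haO) _)
    obtain ⟨j, hj⟩ := hOp ⟨_, hxO⟩
    have hj' : (φ a w * w⁻¹) ^ (2 ^ j) = 1 := by
      have h1 : (SemidirectProduct.inl (φ a w * w⁻¹) : N ⋊[φ] H) ^ (2 ^ j) = 1 :=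
        congrArg Subtype.val hj
      rw [← map_pow] at h1
      exact SemidirectProduct.inl_injective (h1.trans (map_one _).symm)
    have hd1 : orderOf (φ a w * w⁻¹) ∣ 2 ^ j := orderOf_dvd_of_pow_eq_one hj'
    have hd2 : orderOf (φ a w * w⁻¹) ∣ Nat.card N := orderOf_dvd_natCard _
    have h1 : orderOf (φ a w * w⁻¹) ∣ 1 := by
      have h2 := Nat.dvd_gcd hd2 hd1
      rwa [(hcop2 j).gcd_eq_one] at h2
    have h3 : φ a w * w⁻¹ = 1 := orderOf_eq_one_iff.mp (Nat.dvd_one.mp h1)
    exact hw (mul_inv_eq_one.mp h3)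

/-- complex conjugation on `𝔽₃[i]` -/
def sdxA : (ZMod 3 × ZMod 3) ≃+ (ZMod 3 × ZMod 3) where
  toFun v := (v.1, -v.2)
  invFun v := (v.1, -v.2)
  left_inv := by intro v; revert v; decide
  right_inv := by intro v; revert v; decide
  map_add' := by decide

/-- multiplication by `1 + i` on `𝔽₃[i]` -/
def sdxB : (ZMod 3 × ZMod 3) ≃+ (ZMod 3 × ZMod 3) where
  toFun v := (v.1 - v.2, v.1 + v.2)
  invFun v := (-v.1 - v.2, v.1 - v.2)
  left_inv := by intro v; revert v; decide
  right_inv := by intro v; revert v; decide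
  map_add' := by decide

/-- conjugation as an automorphism of the multiplicative copy -/
def sdxa : MulAut (Multiplicative (ZMod 3 × ZMod 3)) := AddEquiv.toMultiplicative sdxA
/-- multiplication by `1 + i` as an automorphism of the multiplicative copy -/
def sdxb : MulAut (Multiplicative (ZMod 3 × ZMod 3)) := AddEquiv.toMultiplicative sdxB

theorem sdx_f1 : ∀ v : Multiplicative (ZMod 3 × ZMod 3), sdxa (sdxa v) = v := by decide
theorem sdx_f2 : ∀ v : Multiplicative (ZMod 3 × ZMod 3),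
    sdxb (sdxb (sdxb (sdxb (sdxb (sdxb (sdxb (sdxb v))))))) = v := by decide
theorem sdx_f3 : ∀ v : Multiplicative (ZMod 3 × ZMod 3),
    sdxa (sdxb (sdxa v)) = sdxb (sdxb (sdxb v)) := by decide
theorem sdx_f4 : ∀ v : Multiplicative (ZMod 3 × ZMod 3), v ≠ 1 →
    ∃ i : Fin 8, sdxa ((⇑sdxb)^[i] v) = (⇑sdxb)^[i] v := by decide
theorem sdx_f5 : sdxa (Multiplicative.ofAdd ((0 : ZMod 3), (1 : ZMod 3))) ≠
    Multiplicative.ofAdd ((0 : ZMod 3), (1 : ZMod 3)) := by decide
theorem sdx_card : Nat.card (Multiplicative (ZMod 3 × ZMod 3)) = 9 := by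
  rw [Nat.card_eq_fintype_card]; rfl

theorem sdx_aa : sdxa * sdxa = 1 := by
  refine DFunLike.ext _ _ (fun v => ?_)
  rw [MulAut.mul_apply, MulAut.one_apply]
  exact sdx_f1 v

theorem sdx_ainv : sdxa⁻¹ = sdxa := inv_eq_of_mul_eq_one_right sdx_aa

theorem sdx_b8 : sdxb ^ 8 = 1 := by
  refine DFunLike.ext _ _ (fun v => ?_)
  simp only [pow_succ, pow_zero, one_mul, MulAut.mul_apply, MulAut.one_apply]
  exact sdx_f2 v

theorem sdx_aba : sdxa * sdxb * sdxa⁻¹ = sdxb ^ 3 := by
  rw [sdx_ainv]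
  refine DFunLike.ext _ _ (fun v => ?_)
  simp only [pow_succ, pow_zero, one_mul, MulAut.mul_apply]
  exact sdx_f3 v

theorem sdx_pow_apply (n : ℕ) (v : Multiplicative (ZMod 3 × ZMod 3)) :
    (sdxb ^ n) v = (⇑sdxb)^[n] v := by
  induction n with
  | zero => simp
  | succ n ih => rw [pow_succ', MulAut.mul_apply, ih, Function.iterate_succ_apply']

theorem sdx_conj_mem : ∀ y ∈ Subgroup.zpowers sdxb, sdxa * y * sdxa⁻¹ ∈ Subgroup.zpowers sdxb := by
  intro y hy
  obtain ⟨i, rfl⟩ := Subgroup.mem_zpowers_iff.mp hy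
  rw [← conj_zpow, sdx_aba]
  exact Subgroup.zpow_mem _ (Subgroup.pow_mem _ (Subgroup.mem_zpowers _) 3) i

theorem sdx_norm : Subgroup.zpowers sdxa ≤
    Subgroup.normalizer (Subgroup.zpowers sdxb : Set (MulAut (Multiplicative (ZMod 3 × ZMod 3)))) := by
  rw [Subgroup.zpowers_le, Subgroup.mem_normalizer_iff]
  intro y
  constructor
  · exact sdx_conj_mem y
  · intro hy
    have h1 := sdx_conj_mem _ hy
    have h2 : sdxa * (sdxa * y * sdxa⁻¹) * sdxa⁻¹ = y := by
      rw [sdx_ainv]
      calc sdxa * (sdxa * y * sdxa) * sdxa = (sdxa * sdxa) * y * (sdxa * sdxa) := by group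
        _ = y := by rw [sdx_aa, one_mul, mul_one]
    rw [h2] at h1
    exact h1

theorem sdx_pgroup : IsPGroup 2 ↥(Subgroup.zpowers sdxb ⊔ Subgroup.zpowers sdxa) := by
  have h1 := Cfsg.Agent.Lib.Helper3.card_sup_mul_card_inf (Subgroup.zpowers sdxa)
    (Subgroup.zpowers sdxb) sdx_norm
  have h2 : Nat.card ↥(Subgroup.zpowers sdxb ⊔ Subgroup.zpowers sdxa) ∣ 2 ^ 4 := by
    have h3 : Nat.card ↥(Subgroup.zpowers sdxa ⊔ Subgroup.zpowers sdxb) ∣
        Nat.card ↥(Subgroup.zpowers sdxa) * Nat.card ↥(Subgroup.zpowers sdxb) :=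
      Dvd.intro _ h1
    rw [sup_comm]
    refine h3.trans ?_
    rw [Nat.card_zpowers, Nat.card_zpowers]
    have h4 : orderOf sdxa ∣ 2 := orderOf_dvd_of_pow_eq_one (by rw [pow_two]; exact sdx_aa)
    have h5 : orderOf sdxb ∣ 8 := orderOf_dvd_of_pow_eq_one sdx_b8
    exact (Nat.mul_dvd_mul h4 h5).trans (by norm_num)
  obtain ⟨m, -, hm⟩ := (Nat.dvd_prime_pow Nat.prime_two).mp h2
  exact IsPGroup.of_card hm

/-- There is a finite solvable group G with a subgroup A of order 2 such that every conjugacy class of G contains an element g for which A is subnormal in the subgroup generated by A and g, and yet A is not contained in O_2(G). (So the corresponding criteria for odd primes fail at the prime 2, even for solvable groups.) -/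
theorem result :
    ∃ (G : Type) (_ : Group G) (_ : Finite G) (A : Subgroup G), Group.IsSolvable G ∧ Nat.card A = 2 ∧
      (∀ c : G, ∃ g : G, IsConj c g ∧ (A.subgroupOf (A ⊔ Subgroup.zpowers g)).IsSubnormal) ∧
      ¬ A ≤ Cfsg.pCore 2 G := by
  classical
  have hamem : sdxa ∈ Subgroup.zpowers sdxb ⊔ Subgroup.zpowers sdxa :=
    Subgroup.mem_sup_right (Subgroup.mem_zpowers _)
  have hane : sdxa ≠ 1 := by
    intro h
    apply sdx_f5
    rw [h, MulAut.one_apply]
  haveI : Fact (Nat.Prime 2) := ⟨Nat.prime_two⟩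
  have hao : orderOf (⟨sdxa, hamem⟩ : ↥(Subgroup.zpowers sdxb ⊔ Subgroup.zpowers sdxa)) = 2 := by
    rw [Subgroup.orderOf_mk]
    exact orderOf_eq_prime (by rw [pow_two]; exact sdx_aa) hane
  have hodd : Odd (Nat.card (Multiplicative (ZMod 3 × ZMod 3))) := by
    rw [sdx_card]; decide
  have hmain := sdx_main (N := Multiplicative (ZMod 3 × ZMod 3))
    (H := ↥(Subgroup.zpowers sdxb ⊔ Subgroup.zpowers sdxa))
    (Subgroup.zpowers sdxb ⊔ Subgroup.zpowers sdxa).subtype sdx_pgroup hodd ⟨sdxa, hamem⟩ hao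
    (by
      intro v hv
      obtain ⟨i, hi⟩ := sdx_f4 v hv
      refine ⟨⟨sdxb ^ (i : ℕ), Subgroup.mem_sup_left
        (Subgroup.pow_mem _ (Subgroup.mem_zpowers _) _)⟩, ?_⟩
      show sdxa ((sdxb ^ (i : ℕ)) v) = (sdxb ^ (i : ℕ)) v
      rw [sdx_pow_apply]
      exact hi)
    ⟨_, sdx_f5⟩
  exact ⟨_, inferInstance, Finite.of_equiv _ SemidirectProduct.equivProd.symm, _, hmain⟩

end Cfsg.Agent.S4331
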