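import Cfsg.Statements.S4332
import Cfsg.Agent.Lib.Helper7.PCore

set_option autoImplicit false
open Pointwise
open Cfsg

namespace Cfsg.Agent.S4332

open Cfsg.Agent.Lib.Helper7

/-- A six-element enumeration with at least six distinct values has (some) distinct entries. -/
theorem tcs_nodup (a b c d e f : Fin 8)
    (h : 6 ≤ ({a, b, c, d, e, f} : Finset (Fin 8)).card) :
    b ≠ c ∧ b ≠ f ∧ c ≠ e ∧ e ≠ f := by
  refine ⟨?_, ?_, ?_, ?_⟩
  · rintro rfl
    have h1 : ({a, b, b, d, e, f} : Finset (Fin 8)) ⊆ {a, b, d, e, f} := by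
      intro i hi
      simp only [Finset.mem_insert, Finset.mem_singleton] at hi ⊢
      rcases hi with h' | h' | h' | h' | h' | h' <;> simp [h']
    exact absurd (h.trans ((Finset.card_le_card h1).trans Finset.card_le_five)) (by norm_num)
  · rintro rfl
    have h1 : ({a, b, c, d, e, b} : Finset (Fin 8)) ⊆ {a, b, c, d, e} := by
      intro i hi
      simp only [Finset.mem_insert, Finset.mem_singleton] at hi ⊢
      rcases hi with h' | h' | h' | h' | h' | h' <;> simp [h']
    exact absurd (h.trans ((Finset.card_le_card h1).trans Finset.card_le_five)) (by norm_num)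
  · rintro rfl
    have h1 : ({a, b, c, d, c, f} : Finset (Fin 8)) ⊆ {a, b, c, d, f} := by
      intro i hi
      simp only [Finset.mem_insert, Finset.mem_singleton] at hi ⊢
      rcases hi with h' | h' | h' | h' | h' | h' <;> simp [h']
    exact absurd (h.trans ((Finset.card_le_card h1).trans Finset.card_le_five)) (by norm_num)
  · rintro rfl
    have h1 : ({a, b, c, d, e, e} : Finset (Fin 8)) ⊆ {a, b, c, d, e} := by
      intro i hi
      simp only [Finset.mem_insert, Finset.mem_singleton] at hi ⊢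
      rcases hi with h' | h' | h' | h' | h' | h' <;> simp [h']
    exact absurd (h.trans ((Finset.card_le_card h1).trans Finset.card_le_five)) (by norm_num)

/-- Every permutation of `Fin 8` has three distinct points that are all fixed, or form a
`3`-cycle, or are moved off themselves. -/
theorem tcs_triple (c : Equiv.Perm (Fin 8)) :
    ∃ x y z : Fin 8, x ≠ y ∧ x ≠ z ∧ y ≠ z ∧
      ((c x = x ∧ c y = y ∧ c z = z) ∨ (c x = y ∧ c y = z ∧ c z = x) ∨
       (c x ≠ x ∧ c x ≠ y ∧ c x ≠ z ∧ c y ≠ x ∧ c y ≠ y ∧ c y ≠ z ∧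
         c z ≠ x ∧ c z ≠ y ∧ c z ≠ z)) := by
  classical
  by_cases hA : ∃ x y z : Fin 8, x ≠ y ∧ x ≠ z ∧ y ≠ z ∧ c x = x ∧ c y = y ∧ c z = z
  · obtain ⟨x, y, z, h1, h2, h3, h4, h5, h6⟩ := hA
    exact ⟨x, y, z, h1, h2, h3, Or.inl ⟨h4, h5, h6⟩⟩
  obtain ⟨N, hN⟩ : ∃ N : Finset (Fin 8), N = Finset.univ.filter (fun i => ¬ (c i = i)) :=
    ⟨_, rfl⟩
  have hmemN : ∀ i, i ∈ N ↔ c i ≠ i := by
    intro i; rw [hN]; simp
  have hNcard : 6 ≤ N.card := by
    have h1 : (Finset.univ.filter (fun i : Fin 8 => c i = i)).card ≤ 2 := by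
      by_contra hcon
      push Not at hcon
      obtain ⟨x, hx, y, hy, z, hz, hxy, hxz, hyz⟩ := Finset.two_lt_card.mp hcon
      simp only [Finset.mem_filter, Finset.mem_univ, true_and] at hx hy hz
      exact hA ⟨x, y, z, hxy, hxz, hyz, hx, hy, hz⟩
    have h2 := Finset.card_filter_add_card_filter_not (s := (Finset.univ : Finset (Fin 8)))
      (fun i => c i = i)
    rw [Finset.card_univ, Fintype.card_fin] at h2
    rw [hN]
    omega
  have hNne : N.Nonempty := Finset.card_pos.mp (by omega)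
  obtain ⟨x, hx⟩ := hNne
  have hcx : c x ≠ x := (hmemN x).mp hx
  obtain ⟨y, hyN, hyB⟩ : ∃ y ∈ N, y ∉ ({x, c x, c⁻¹ x} : Finset (Fin 8)) := by
    by_contra hcon
    push Not at hcon
    have hsub : N ⊆ ({x, c x, c⁻¹ x} : Finset (Fin 8)) := fun i hi => hcon i hi
    have h1 := Finset.card_le_card hsub
    have h3 : ({x, c x, c⁻¹ x} : Finset (Fin 8)).card ≤ 3 := Finset.card_le_three
    omega
  simp only [Finset.mem_insert, Finset.mem_singleton, not_or] at hyB
  obtain ⟨hyx, hycx, hycix⟩ := hyB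
  have hcy : c y ≠ y := (hmemN y).mp hyN
  by_cases hz : ∃ z ∈ N, z ∉ ({x, c x, c⁻¹ x, y, c y, c⁻¹ y} : Finset (Fin 8))
  · obtain ⟨z, hzN, hzB⟩ := hz
    simp only [Finset.mem_insert, Finset.mem_singleton, not_or] at hzB
    obtain ⟨hzx, hzcx, hzcix, hzy, hzcy, hzciy⟩ := hzB
    have hcz : c z ≠ z := (hmemN z).mp hzN
    refine ⟨x, y, z, fun h => hyx h.symm, fun h => hzx h.symm, fun h => hzy h.symm,
      Or.inr (Or.inr ⟨hcx, fun h => hycx h.symm, fun h => hzcx h.symm, ?_, hcy,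
        fun h => hzcy h.symm, ?_, ?_, hcz⟩)⟩
    · intro h
      exact hycix (Equiv.Perm.eq_inv_iff_eq.mpr h)
    · intro h
      exact hzcix (Equiv.Perm.eq_inv_iff_eq.mpr h)
    · intro h
      exact hzciy (Equiv.Perm.eq_inv_iff_eq.mpr h)
  · push Not at hz
    have hsub : N ⊆ ({x, c x, c⁻¹ x, y, c y, c⁻¹ y} : Finset (Fin 8)) := fun i hi => hz i hi
    have hLcard : 6 ≤ ({x, c x, c⁻¹ x, y, c y, c⁻¹ y} : Finset (Fin 8)).card :=
      le_trans hNcard (Finset.card_le_card hsub)
    obtain ⟨d1, d2, d5, d7⟩ := tcs_nodup _ _ _ _ _ _ hLcard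
    have hw : c (c x) ∈ N := by
      rw [hmemN]
      intro h
      exact hcx (c.injective (c.injective h))
    have hwL := hsub hw
    simp only [Finset.mem_insert, Finset.mem_singleton] at hwL
    rcases hwL with h | h | h | h | h | h
    · exfalso
      exact d1 (Equiv.Perm.eq_inv_iff_eq.mpr h)
    · exfalso
      exact hcx (c.injective h)
    · refine ⟨x, c x, c⁻¹ x, fun h' => hcx h'.symm, ?_, d1, Or.inr (Or.inl ⟨rfl, h, ?_⟩)⟩
      · intro h'
        exact hcx (Equiv.Perm.eq_inv_iff_eq.mp h')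
      · exact (Equiv.Perm.inv_eq_iff_eq.mp rfl).symm
    · exfalso
      exact d2 (Equiv.Perm.eq_inv_iff_eq.mpr h)
    · exfalso
      exact hycx (c.injective h).symm
    · have e1 : c (c⁻¹ y) = y := (Equiv.Perm.inv_eq_iff_eq.mp rfl).symm
      refine ⟨x, c⁻¹ y, c y, ?_, ?_, fun h' => d7 h'.symm,
        Or.inr (Or.inr ⟨hcx, d2, ?_, ?_, ?_, ?_, ?_, ?_, ?_⟩)⟩
      · intro h'
        exact hycx (Equiv.Perm.eq_inv_iff_eq.mp h').symm
      · intro h'
        exact hycix (Equiv.Perm.eq_inv_iff_eq.mpr h'.symm)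
      · intro h'
        exact hyx (c.injective h').symm
      · rw [e1]; exact hyx
      · rw [e1]
        intro h'
        exact hcy (Equiv.Perm.eq_inv_iff_eq.mp h')
      · rw [e1]; exact fun h' => hcy h'.symm
      · intro h'
        exact d5 (Equiv.Perm.eq_inv_iff_eq.mpr h').symm
      · intro h'
        exact hyx (c.injective (c.injective (h'.trans h.symm)))
      · intro h'
        exact hcy (c.injective h')

/-- A `3`-cycle built from the triple commutes with its conjugate by `c`. -/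
theorem tcs_commute (c : Equiv.Perm (Fin 8)) :
    ∃ s : Equiv.Perm (Fin 8), s.IsThreeCycle ∧ Commute s (c * s * c⁻¹) := by
  classical
  obtain ⟨x, y, z, hxy, hxz, hyz, h⟩ := tcs_triple c
  refine ⟨Equiv.swap x y * Equiv.swap x z,
    Equiv.Perm.isThreeCycle_swap_mul_swap_same hxy hxz hyz, ?_⟩
  have hconj : c * (Equiv.swap x y * Equiv.swap x z) * c⁻¹
      = Equiv.swap (c x) (c y) * Equiv.swap (c x) (c z) := by
    rw [Equiv.swap_apply_apply, Equiv.swap_apply_apply]
    group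
  rw [hconj]
  rcases h with ⟨h1, h2, h3⟩ | ⟨h1, h2, h3⟩ | ⟨h1, h2, h3, h4, h5, h6, h7, h8, h9⟩
  · rw [h1, h2, h3]
  · rw [h1, h2, h3]
    have e : Equiv.swap y z * Equiv.swap y x = Equiv.swap x y * Equiv.swap x z := by
      ext i
      simp only [Equiv.Perm.mul_apply, Equiv.swap_apply_def]
      split_ifs <;> simp_all
    rw [e]
  · apply Equiv.Perm.Disjoint.commute
    intro i
    by_cases hi : i = x ∨ i = y ∨ i = z
    · right
      have hi1 : i ≠ c x := by
        rcases hi with rfl | rfl | rfl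
        · exact fun h' => h1 h'.symm
        · exact fun h' => h2 h'.symm
        · exact fun h' => h3 h'.symm
      have hi2 : i ≠ c y := by
        rcases hi with rfl | rfl | rfl
        · exact fun h' => h4 h'.symm
        · exact fun h' => h5 h'.symm
        · exact fun h' => h6 h'.symm
      have hi3 : i ≠ c z := by
        rcases hi with rfl | rfl | rfl
        · exact fun h' => h7 h'.symm
        · exact fun h' => h8 h'.symm
        · exact fun h' => h9 h'.symm
      rw [Equiv.Perm.mul_apply, Equiv.swap_apply_of_ne_of_ne hi1 hi3,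
        Equiv.swap_apply_of_ne_of_ne hi1 hi2]
    · left
      push Not at hi
      rw [Equiv.Perm.mul_apply, Equiv.swap_apply_of_ne_of_ne hi.1 hi.2.2,
        Equiv.swap_apply_of_ne_of_ne hi.1 hi.2.1]

/-- If `s` commutes with its conjugate by `g` then `⟨s⟩` is subnormal in `⟨s⟩ ⊔ ⟨s⟩^g`. -/
theorem tcs_subn {G : Type*} [Group G] (s g : G) (h : Commute s (g * s * g⁻¹)) :
    ((Subgroup.zpowers s).subgroupOf
      (Subgroup.zpowers s ⊔ MulAut.conj g • Subgroup.zpowers s)).IsSubnormal := by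
  have h1 : MulAut.conj g • Subgroup.zpowers s ≤
      Subgroup.centralizer ((Subgroup.zpowers s : Subgroup G) : Set G) := by
    intro b hb
    rw [Subgroup.mem_smul_pointwise_iff_exists] at hb
    obtain ⟨t, ht, rfl⟩ := hb
    obtain ⟨k, rfl⟩ := Subgroup.mem_zpowers_iff.mp ht
    rw [Subgroup.mem_centralizer_iff]
    intro a ha
    obtain ⟨j, rfl⟩ := Subgroup.mem_zpowers_iff.mp ha
    have e : MulAut.conj g • s ^ k = (g * s * g⁻¹) ^ k := by
      rw [conj_zpow]; rfl
    rw [e]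
    exact ((h.zpow_left j).zpow_right k).eq
  have h2 : Subgroup.zpowers s ⊔ MulAut.conj g • Subgroup.zpowers s ≤
      Subgroup.normalizer ((Subgroup.zpowers s : Subgroup G) : Set G) :=
    sup_le Subgroup.le_normalizer (h1.trans (Subgroup.centralizer_le_normalizer _))
  have h3 : ((Subgroup.zpowers s).subgroupOf
      (Subgroup.zpowers s ⊔ MulAut.conj g • Subgroup.zpowers s)).Normal :=
    (Subgroup.normal_subgroupOf_iff_le_normalizer le_sup_left).mpr h2
  exact h3.isSubnormal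

theorem tcs_pcore : Cfsg.pCore 3 (Equiv.Perm (Fin 8)) = ⊥ := by
  classical
  have hp : Fact (Nat.Prime 3) := ⟨Nat.prime_three⟩
  have hNn0 := pCore_normal 3 (Equiv.Perm (Fin 8))
  have hNp0 := pCore_isPGroup 3 (Equiv.Perm (Fin 8))
  obtain ⟨N, hN⟩ : ∃ N, Cfsg.pCore 3 (Equiv.Perm (Fin 8)) = N := ⟨_, rfl⟩
  rw [hN] at hNn0 hNp0 ⊢
  have hle : N ≤ alternatingGroup (Fin 8) := by
    intro x hx
    rw [Equiv.Perm.mem_alternatingGroup]
    obtain ⟨k, hk⟩ := hNp0 ⟨x, hx⟩
    have hk' : x ^ (3 ^ k) = 1 := congrArg Subtype.val hk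
    have h1 : (Equiv.Perm.sign x) ^ (3 ^ k) = 1 := by rw [← map_pow, hk', map_one]
    rcases Int.units_eq_one_or (Equiv.Perm.sign x) with h | h
    · exact h
    · exfalso
      rw [h] at h1
      have hodd : Odd (3 ^ k) := Odd.pow (by decide)
      rw [Odd.neg_one_pow hodd] at h1
      exact absurd h1 (by decide)
  have hsn : (N.subgroupOf (alternatingGroup (Fin 8))).Normal := inferInstance
  have hsimple : IsSimpleGroup (alternatingGroup (Fin 8)) :=
    alternatingGroup.isSimpleGroup (by simp)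
  rcases hsn.eq_bot_or_eq_top with h | h
  · rw [Subgroup.subgroupOf_eq_bot] at h
    exact le_bot_iff.mp (h le_rfl hle)
  · exfalso
    rw [Subgroup.subgroupOf_eq_top] at h
    obtain ⟨t, ht⟩ : ∃ t : Equiv.Perm (Fin 8), t = Equiv.swap 0 1 * Equiv.swap 2 3 :=
      ⟨_, rfl⟩
    have htA : t ∈ alternatingGroup (Fin 8) := by
      rw [Equiv.Perm.mem_alternatingGroup, ht, Equiv.Perm.sign_mul,
        Equiv.Perm.sign_swap (by decide), Equiv.Perm.sign_swap (by decide)]
      simp
    have ht2 : t ^ 2 = 1 := by rw [ht]; decide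
    have ht1 : t ≠ 1 := by rw [ht]; decide
    obtain ⟨k, hk⟩ := hNp0 ⟨t, h htA⟩
    have hk' : t ^ (3 ^ k) = 1 := congrArg Subtype.val hk
    have h2 : orderOf t ∣ 2 := orderOf_dvd_of_pow_eq_one ht2
    have h3 : orderOf t ∣ 3 ^ k := orderOf_dvd_of_pow_eq_one hk'
    have h4 : orderOf t ∣ Nat.gcd 2 (3 ^ k) := Nat.dvd_gcd h2 h3
    have h5 : Nat.gcd 2 (3 ^ k) = 1 := Nat.Coprime.pow_right k (by decide)
    rw [h5, Nat.dvd_one, orderOf_eq_one_iff] at h4
    exact ht1 h4

/-- In the symmetric group of degree 8, let A be the subgroup generated by a 3-cycle. Then every conjugacy class contains an element g for which A is subnormal in the subgroup generated by A and its conjugate by g, although O_3 of the symmetric group of degree 8 is trivial. -/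
theorem result
    (σ : Equiv.Perm (Fin 8)) (hσ : σ.IsThreeCycle) :
    (∀ c : Equiv.Perm (Fin 8), ∃ g : Equiv.Perm (Fin 8), IsConj c g ∧
      ((Subgroup.zpowers σ).subgroupOf (Subgroup.zpowers σ ⊔ MulAut.conj g • Subgroup.zpowers σ)).IsSubnormal) ∧
    Cfsg.pCore 3 (Equiv.Perm (Fin 8)) = ⊥ := by
  classical
  refine ⟨?_, tcs_pcore⟩
  intro c
  obtain ⟨s, hs3, hscomm⟩ := tcs_commute c
  have hconj : IsConj σ s := Equiv.Perm.isConj_iff_cycleType_eq.mpr (hσ.trans hs3.symm)
  obtain ⟨τ, hτ⟩ := isConj_iff.mp hconj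
  obtain ⟨g, hg⟩ : ∃ g : Equiv.Perm (Fin 8), g = τ⁻¹ * c * τ := ⟨_, rfl⟩
  refine ⟨g, isConj_iff.mpr ⟨τ⁻¹, by rw [hg, inv_inv]⟩, ?_⟩
  apply tcs_subn
  have e0 := hscomm.eq
  rw [← hτ] at e0
  have e1 : σ * (g * σ * g⁻¹)
      = τ⁻¹ * ((τ * σ * τ⁻¹) * (c * (τ * σ * τ⁻¹) * c⁻¹)) * τ := by
    rw [hg]; group
  have e2 : (g * σ * g⁻¹) * σ
      = τ⁻¹ * ((c * (τ * σ * τ⁻¹) * c⁻¹) * (τ * σ * τ⁻¹)) * τ := by
    rw [hg]; group
  show σ * (g * σ * g⁻¹) = (g * σ * g⁻¹) * σ
  rw [e1, e2, e0]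

end Cfsg.Agent.S4332
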