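import Cfsg.Statements.S4333
import Mathlib
import Cfsg.Agent.Lib.Helper9.Zipper
import Cfsg.Agent.Lib.Helper3.Glauberman

set_option autoImplicit false
open Pointwise
open Cfsg

namespace Cfsg.Agent.S4333

open Cfsg.Agent.Lib.Helper9 Cfsg.Agent.Lib.Helper3
open Subgroup
open scoped Pointwise

universe u

theorem sharp_aux : ∀ (n : ℕ) (G : Type u) [Group G] [Finite G], Nat.card G = n →
    ∀ A : Subgroup G,
      (∀ a ∈ A, ∀ g : G, (A.subgroupOf (A ⊔ MulAut.conj (g⁻¹ * a * g) • A)).IsSubnormal) →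
      A.IsSubnormal := by
  intro n
  induction n using Nat.strong_induction_on with
  | _ n ih =>
  intro G _ _ hcard A h
  by_contra hA
  have hprop : ∀ H : Subgroup G, A ≤ H → H ≠ ⊤ → (A.subgroupOf H).IsSubnormal := by
    intro H hAH hH
    have hlt : Nat.card H < n := by
      rw [← hcard, ← Subgroup.card_top (G := G)]
      exact card_lt_card_of_lt_sub (lt_top_iff_ne_top.mpr hH)
    apply ih _ hlt H rfl
    intro a ha g
    have ha' : (a : G) ∈ A := mem_subgroupOf.mp ha
    have hcgen : ∀ x : H, MulAut.conj (x : G) • A ≤ H := by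
      intro x s hs
      rw [mem_conj_smul_iff] at hs
      have h1 := H.mul_mem (H.mul_mem x.2 (hAH hs)) (H.inv_mem x.2)
      have h5 : (x : G) * ((x : G)⁻¹ * s * (x : G)) * (x : G)⁻¹ = s := by group
      rwa [h5] at h1
    have hc := hcgen (g⁻¹ * a * g)
    rw [Cfsg.Agent.Lib.Helper9.conj_smul_subgroupOf, ← Subgroup.subgroupOf_sup hAH hc]
    exact isSubnormal_subgroupOf_subgroupOf A _ H (sup_le hAH hc) (h (a : G) ha' (g : G))
  obtain ⟨M, hAM, hMtop, hM⟩ := zipper _ A le_rfl hA hprop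
  have hconj : ∀ a ∈ A, ∀ g : G, MulAut.conj (g⁻¹ * a * g) • A ≤ M := by
    intro a ha g
    have hJ : A ⊔ MulAut.conj (g⁻¹ * a * g) • A ≠ ⊤ := by
      intro htop
      apply hA
      have h1 := h a ha g
      exact IsSubnormal.trans le_sup_left h1 (htop ▸ IsSubnormal.top)
    exact le_sup_right.trans (hM _ le_sup_left hJ)
  have hxN : ∀ a ∈ A, ∀ g : G, g⁻¹ * a * g ∈ normalizer (M : Set G) := by
    intro a ha g
    have h1 : MulAut.conj (g⁻¹ * a * g) • A ≤ M := hconj a ha g
    obtain ⟨x, hx⟩ : ∃ x : G, x = g⁻¹ * a * g := ⟨_, rfl⟩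
    rw [← hx] at h1 ⊢
    have h2 : A ≤ MulAut.conj x⁻¹ • M := (conj_smul_le_iff x A M).mp h1
    have h3 : MulAut.conj x⁻¹ • M ≠ ⊤ := by
      intro htop
      apply hMtop
      rw [eq_top_iff]
      intro y _
      have h4 : x⁻¹ * y * x⁻¹⁻¹ ∈ MulAut.conj x⁻¹ • M := htop ▸ mem_top _
      rw [mem_conj_smul_iff] at h4
      have h5 : x⁻¹⁻¹ * (x⁻¹ * y * x⁻¹⁻¹) * x⁻¹ = y := by group
      rwa [h5] at h4
    have h6 := hM _ h2 h3
    have h7 : x⁻¹ ∈ normalizer (M : Set G) := by
      apply fin_mem_normalizer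
      intro m hm
      apply h6
      rw [mem_conj_smul_iff]
      have h5 : x⁻¹⁻¹ * (x⁻¹ * m * x⁻¹⁻¹) * x⁻¹ = m := by group
      rw [h5]; exact hm
    have h8 := inv_mem h7
    rwa [inv_inv] at h8
  have hNM : normalClosure (A : Set G) ≤ normalizer (M : Set G) := by
    rw [normalClosure, closure_le]
    intro y hy
    obtain ⟨a, ha, hconj'⟩ := Group.mem_conjugatesOfSet_iff.mp hy
    obtain ⟨c, rfl⟩ := isConj_iff.mp hconj'
    have h1 := hxN a ha c⁻¹
    rwa [inv_inv] at h1
  by_cases hN : normalizer (M : Set G) = ⊤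
  · have hMn : M.Normal := normalizer_eq_top_iff.mp hN
    exact hA (IsSubnormal.trans hAM (hprop M hAM hMtop) hMn.isSubnormal)
  · have hNtop : normalClosure (A : Set G) ≠ ⊤ := fun htop =>
      hN (top_le_iff.mp (htop ▸ hNM))
    exact hA (IsSubnormal.trans le_normalClosure (hprop _ le_normalClosure hNtop)
      (normalClosure_normal.isSubnormal))


/-- Let A be a subgroup of a finite group G. If A is subnormal in the subgroup generated by A and its conjugate by g⁻¹ a g, for every a ∈ A and every g ∈ G, then A is subnormal in G. (A sharpening of Wielandt's subnormality criterion: only conjugates of A by conjugates of elements of A are needed.) -/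
theorem result {G : Type*} [Group G] [Finite G]
    (A : Subgroup G)
    (h : ∀ a ∈ A, ∀ g : G, (A.subgroupOf (A ⊔ MulAut.conj (g⁻¹ * a * g) • A)).IsSubnormal) :
    A.IsSubnormal := by
  exact sharp_aux _ G rfl A h

end Cfsg.Agent.S4333
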