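import Cfsg.Statements.S4337
-- import your own Cfsg.Agent.* helpers here
import Mathlib
import Cfsg.Agent.Lib.Lead.CharBurnside

set_option autoImplicit false
open Cfsg

namespace Cfsg.Agent.S4337

section
open Cfsg.Agent.Lib.Lead

theorem solv_of_card_dvd {G : Type*} [Group G] [Finite G] (h : Nat.card G ∣ 24) :
    Group.IsSolvable G := by
  have h1 : ∀ d ∈ Nat.divisors 24, ∃ a ∈ Finset.range 4, ∃ b ∈ Finset.range 2,
      d = 2 ^ a * 3 ^ b := by decide
  obtain ⟨a, _, b, _, hab⟩ := h1 _ (Nat.mem_divisors.mpr ⟨h, by norm_num⟩)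
  exact burnside_paqb 2 3 a b Nat.prime_two Nat.prime_three hab

theorem solv_of_support (n : ℕ) (S : Set (Equiv.Perm (Fin n))) (T : Finset (Fin n))
    (hT : T.card ≤ 4) (hS : ∀ σ ∈ S, ∀ x, x ∉ T → σ x = x) :
    Group.IsSolvable (Subgroup.closure S) := by
  classical
  apply solv_of_card_dvd
  have hfix : ∀ σ ∈ Subgroup.closure S, ∀ x, x ∉ T → σ x = x := by
    intro σ hσ
    induction hσ using Subgroup.closure_induction with
    | mem σ h => exact hS σ h
    | one => intro x _; rfl
    | mul σ τ _ _ h1 h2 => intro x hx; rw [Equiv.Perm.mul_apply, h2 x hx, h1 x hx]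
    | inv σ _ h =>
      intro x hx
      have h3 := h x hx
      rw [Equiv.Perm.inv_eq_iff_eq]
      exact h3.symm
  have hle : Subgroup.closure S ≤
      (Equiv.Perm.ofSubtype : Equiv.Perm {x // x ∈ T} →* Equiv.Perm (Fin n)).range := by
    intro σ hσ
    have h2 : ∀ x, σ x ≠ x → x ∈ T := fun x hx => by
      by_contra h
      exact hx (hfix σ hσ x h)
    have h1 : ∀ x, σ x ∈ T ↔ x ∈ T := by
      intro x
      constructor
      · intro hx
        by_contra hxT
        rw [hfix σ hσ x hxT] at hx
        exact hxT hx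
      · intro hx
        by_contra hσx
        have h3 := hfix σ hσ (σ x) hσx
        have h4 : σ x = x := σ.injective h3
        rw [h4] at hσx
        exact hσx hx
    exact ⟨Equiv.Perm.subtypePerm σ h1, Equiv.Perm.ofSubtype_subtypePerm h1 h2⟩
  have hc1 := Subgroup.card_dvd_of_le hle
  have hc2 := Subgroup.card_range_dvd
    (Equiv.Perm.ofSubtype : Equiv.Perm {x // x ∈ T} →* Equiv.Perm (Fin n))
  have hc3 : Nat.card (Equiv.Perm {x // x ∈ T}) = (T.card).factorial := by
    rw [Nat.card_eq_fintype_card, Fintype.card_perm, Fintype.card_coe]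
  have hc4 : (T.card).factorial ∣ 24 := by
    have h5 : (T.card).factorial ∣ (4).factorial := Nat.factorial_dvd_factorial hT
    exact h5
  rw [hc3] at hc2
  exact dvd_trans hc1 (dvd_trans hc2 hc4)

theorem solv2 (n : ℕ) (a b : Equiv.Perm (Fin n)) (ha : a.IsSwap) (hb : b.IsSwap) :
    Group.IsSolvable (Subgroup.closure ({a, b} : Set (Equiv.Perm (Fin n)))) := by
  classical
  apply solv_of_support n _ (a.support ∪ b.support)
  · have ha2 : a.support.card = 2 := Equiv.Perm.card_support_eq_two.mpr ha
    have hb2 : b.support.card = 2 := Equiv.Perm.card_support_eq_two.mpr hb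
    have := Finset.card_union_le a.support b.support
    omega
  · intro σ hσ x hx
    rw [Finset.mem_union, not_or] at hx
    rcases hσ with rfl | rfl
    · exact Equiv.Perm.notMem_support.mp hx.1
    · exact Equiv.Perm.notMem_support.mp hx.2

theorem solv_of_central (n : ℕ) (a b c : Equiv.Perm (Fin n)) (hca : Commute c a)
    (hcb : Commute c b)
    (hab : Group.IsSolvable (Subgroup.closure ({a, b} : Set (Equiv.Perm (Fin n))))) :
    Group.IsSolvable (Subgroup.closure ({a, b, c} : Set (Equiv.Perm (Fin n)))) := by
  haveI := hab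
  have h1 : ∀ d ∈ Subgroup.closure ({a, b} : Set (Equiv.Perm (Fin n))), Commute d c := by
    intro d hd
    induction hd using Subgroup.closure_induction with
    | mem d h =>
      rcases h with rfl | rfl
      · exact hca.symm
      · exact hcb.symm
    | one => exact Commute.one_left c
    | mul x y _ _ h1 h2 => exact h1.mul_left h2
    | inv x _ h => exact h.inv_left
  have hcomm : ∀ (m : Subgroup.closure ({a, b} : Set (Equiv.Perm (Fin n))))
      (k : Subgroup.zpowers c),
      Commute ((Subgroup.closure ({a, b} : Set (Equiv.Perm (Fin n)))).subtype m)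
        ((Subgroup.zpowers c).subtype k) := by
    intro m k
    obtain ⟨j, hj⟩ := Subgroup.mem_zpowers_iff.mp k.2
    show Commute (m : Equiv.Perm (Fin n)) (k : Equiv.Perm (Fin n))
    rw [← hj]
    exact (h1 m m.2).zpow_right j
  haveI : Group.IsSolvable (Subgroup.zpowers c) := by
    apply Group.isSolvable_of_comm
    intro x y
    apply Subtype.ext
    obtain ⟨j, hj⟩ := Subgroup.mem_zpowers_iff.mp x.2
    obtain ⟨l, hl⟩ := Subgroup.mem_zpowers_iff.mp y.2
    rw [Subgroup.coe_mul, Subgroup.coe_mul, ← hj, ← hl]
    exact Commute.zpow_zpow_self c j l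
  obtain ⟨ψ, hψ⟩ : ∃ ψ : (Subgroup.closure ({a, b} : Set (Equiv.Perm (Fin n)))) ×
      (Subgroup.zpowers c) →* Equiv.Perm (Fin n), ∀ p, ψ p = (p.1 : Equiv.Perm (Fin n)) * p.2 :=
    ⟨MonoidHom.noncommCoprod (Subgroup.closure ({a, b} : Set _)).subtype
      (Subgroup.zpowers c).subtype hcomm, fun p => rfl⟩
  haveI : Group.IsSolvable ψ.range :=
    Group.isSolvable_of_surjective (f := ψ.rangeRestrict) ψ.rangeRestrict_surjective
  have hle : Subgroup.closure ({a, b, c} : Set (Equiv.Perm (Fin n))) ≤ ψ.range := by
    rw [Subgroup.closure_le]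
    rintro x (rfl | rfl | rfl)
    · refine ⟨(⟨x, Subgroup.subset_closure (by simp)⟩, 1), ?_⟩
      rw [hψ]; simp
    · refine ⟨(⟨x, Subgroup.subset_closure (by simp)⟩, 1), ?_⟩
      rw [hψ]; simp
    · refine ⟨(1, ⟨x, Subgroup.mem_zpowers x⟩), ?_⟩
      rw [hψ]; simp
  exact Group.isSolvable_of_isSolvable_injective (f := Subgroup.inclusion hle)
    (Subgroup.inclusion_injective hle)

theorem card_union3 {α : Type*} [DecidableEq α] (X Y Z : Finset α) (hX : X.card = 2)
    (hY : Y.card = 2) (hZ : Z.card = 2) (h1 : 1 ≤ (X ∩ Y).card) (h2 : 1 ≤ (X ∩ Z).card) :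
    (X ∪ Y ∪ Z).card ≤ 4 := by
  have e1 := Finset.card_union_add_card_inter X Y
  have e2 := Finset.card_union_add_card_inter (X ∪ Y) Z
  have e3 : (X ∩ Z).card ≤ ((X ∪ Y) ∩ Z).card := by
    apply Finset.card_le_card
    intro x hx
    rw [Finset.mem_inter] at hx ⊢
    exact ⟨Finset.mem_union_left _ hx.1, hx.2⟩
  omega

end

/-- In a finite symmetric group, any three transpositions generate a solvable subgroup. -/
theorem result (n : ℕ) (a b c : Equiv.Perm (Fin n))
    (ha : a.IsSwap) (hb : b.IsSwap) (hc : c.IsSwap) :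
    Group.IsSolvable (Subgroup.closure ({a, b, c} : Set (Equiv.Perm (Fin n)))) := by
  classical
  have ha2 : a.support.card = 2 := Equiv.Perm.card_support_eq_two.mpr ha
  have hb2 : b.support.card = 2 := Equiv.Perm.card_support_eq_two.mpr hb
  have hc2 : c.support.card = 2 := Equiv.Perm.card_support_eq_two.mpr hc
  by_cases hA : Commute a b ∧ Commute a c
  · have hset : ({a, b, c} : Set (Equiv.Perm (Fin n))) = {b, c, a} := by
      ext x
      simp only [Set.mem_insert_iff, Set.mem_singleton_iff]
      tauto
    rw [hset]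
    exact solv_of_central n b c a hA.1 hA.2 (solv2 n b c hb hc)
  by_cases hB : Commute b a ∧ Commute b c
  · have hset : ({a, b, c} : Set (Equiv.Perm (Fin n))) = {a, c, b} := by
      ext x
      simp only [Set.mem_insert_iff, Set.mem_singleton_iff]
      tauto
    rw [hset]
    exact solv_of_central n a c b hB.1 hB.2 (solv2 n a c ha hc)
  by_cases hC : Commute c a ∧ Commute c b
  · exact solv_of_central n a b c hC.1 hC.2 (solv2 n a b ha hb)
  have key : ∀ u v : Equiv.Perm (Fin n), ¬ Commute u v → 1 ≤ (u.support ∩ v.support).card := by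
    intro u v huv
    rw [Nat.one_le_iff_ne_zero, Ne, Finset.card_eq_zero, ← Finset.disjoint_iff_inter_eq_empty]
    intro hd
    exact huv ((Equiv.Perm.disjoint_iff_disjoint_support.mpr hd).commute)
  have hsymm : ∀ u v : Equiv.Perm (Fin n), Commute u v ↔ Commute v u :=
    fun u v => ⟨fun h => h.symm, fun h => h.symm⟩
  apply solv_of_support n _ (a.support ∪ b.support ∪ c.support)
  · by_cases hab : Commute a b
    · have hac : ¬ Commute a c := fun h => hA ⟨hab, h⟩
      have hbc : ¬ Commute b c := fun h => hB ⟨hab.symm, h⟩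
      have h1 := card_union3 c.support a.support b.support hc2 ha2 hb2
        (key c a (fun h => hac h.symm)) (key c b (fun h => hbc h.symm))
      have hset : c.support ∪ a.support ∪ b.support = a.support ∪ b.support ∪ c.support := by
        ext x
        simp only [Finset.mem_union]
        tauto
      rw [hset] at h1
      exact h1
    · by_cases hac : Commute a c
      · have hbc : ¬ Commute b c := fun h => hC ⟨hac.symm, h.symm⟩
        have h1 := card_union3 b.support a.support c.support hb2 ha2 hc2
          (key b a (fun h => hab h.symm)) (key b c hbc)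
        have hset : b.support ∪ a.support ∪ c.support = a.support ∪ b.support ∪ c.support := by
          ext x
          simp only [Finset.mem_union]
          tauto
        rw [hset] at h1
        exact h1
      · exact card_union3 a.support b.support c.support ha2 hb2 hc2 (key a b hab) (key a c hac)
  · intro σ hσ x hx
    rw [Finset.mem_union, Finset.mem_union, not_or, not_or] at hx
    rcases hσ with rfl | rfl | rfl
    · exact Equiv.Perm.notMem_support.mp hx.1.1
    · exact Equiv.Perm.notMem_support.mp hx.1.2
    · exact Equiv.Perm.notMem_support.mp hx.2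

end Cfsg.Agent.S4337
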