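import Cfsg.Statements.S4342
-- import your own Cfsg.Agent.* helpers here
import Mathlib
import Cfsg.Agent.Lib.Helper7.SylowCount

set_option autoImplicit false
open Cfsg

namespace Cfsg.Agent.S4342

/-- Let H be a normal subgroup of a finite group G and p a prime not dividing the index of H. Then the number of Sylow p-subgroups of H/Z(H) equals the number of Sylow p-subgroups of G. -/
theorem result {G : Type*} [Group G] [Finite G]
    (p : ℕ) [Fact p.Prime] (H : Subgroup G) [H.Normal] (hp : ¬ p ∣ H.index) :
    Nat.card (Sylow p (H ⧸ Subgroup.center H)) = Nat.card (Sylow p G) := by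
  obtain ⟨P⟩ : Nonempty (Sylow p G) := inferInstance
  have hPH : (P : Subgroup G) ≤ H := by
    rw [← Subgroup.relIndex_eq_one]
    have h1 : H.relIndex (P : Subgroup G) ∣ H.index := by
      rw [← Subgroup.relIndex_sup_right]
      exact Subgroup.relIndex_dvd_index_of_le le_sup_right
    have h2 : H.relIndex (P : Subgroup G) ∣ Nat.card (P : Subgroup G) :=
      Subgroup.relIndex_dvd_card _ _
    obtain ⟨k, hk⟩ := IsPGroup.iff_card.mp P.isPGroup'
    rw [hk] at h2
    obtain ⟨j, _, hj⟩ := (Nat.dvd_prime_pow Fact.out).mp h2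
    rcases Nat.eq_zero_or_pos j with h0 | h0
    · rw [hj, h0, pow_zero]
    · exfalso
      apply hp
      rw [hj] at h1
      exact (dvd_pow_self p h0.ne').trans h1
  have e1 : Nat.card (Sylow p G) =
      (Subgroup.normalizer ((P : Subgroup G) : Set G)).index := P.card_eq_index_normalizer
  have e2 := Cfsg.Agent.Lib.Helper7.card_sylow_of_le P H hPH
  have e3 : (Subgroup.normalizer ((P : Subgroup G) : Set G)).relIndex H =
      (Subgroup.normalizer ((P : Subgroup G) : Set G)).index := by
    have h1 := Cfsg.Agent.Lib.Helper7.relIndex_eq_relIndex_sup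
      (Subgroup.normalizer ((P : Subgroup G) : Set G)) H
    have h2 : Subgroup.normalizer ((P : Subgroup G) : Set G) ⊔ H = ⊤ :=
      Sylow.normalizer_sup_eq_top' P hPH
    rw [h2, Subgroup.relIndex_top_right] at h1
    exact h1
  have e4 := Cfsg.Agent.Lib.Helper7.card_sylow_eq_mul (P.subtype hPH) (Subgroup.center H)
  have e5 : Nat.card (Sylow p (((P.subtype hPH : Sylow p H) : Subgroup H) ⊔ Subgroup.center H :
      Subgroup H)) = 1 := by
    rw [Cfsg.Agent.Lib.Helper7.card_sylow_of_le (P.subtype hPH) _ le_sup_left,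
      Subgroup.relIndex_eq_one]
    exact sup_le Subgroup.le_normalizer (Subgroup.center_le_normalizer _)
  rw [e5, mul_one] at e4
  rw [← e4, e2, e3, e1]

end Cfsg.Agent.S4342
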