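import Cfsg.Statements.S4343
-- import your own Cfsg.Agent.* helpers here
import Mathlib
import Cfsg.Agent.Lib.Helper7.PCore
import Cfsg.Agent.Lib.Helper7.Compl

set_option autoImplicit false
open Cfsg

namespace Cfsg.Agent.S4343

section
open Pointwise
universe u
variable {S : Type u} [Group S] [Finite S] {p : ℕ} [Fact p.Prime]

theorem inter_card (hn : Nat.card (Sylow p S) < p ^ 2) (A B : Sylow p S) (hAB : A ≠ B) :
    ((A : Subgroup S) ⊓ B).relIndex A = p ∧ (MulAction.orbit (A : Subgroup S) B).ncard = p := by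
  have hA : IsPGroup p (A : Subgroup S) := A.isPGroup'
  obtain ⟨k, hk⟩ := hA.card_orbit (α := Sylow p S) B
  have hk0 : k ≠ 0 := by
    rintro rfl
    rw [pow_zero] at hk
    have hfix : B ∈ MulAction.fixedPoints (A : Subgroup S) (Sylow p S) := by
      rw [← MulAction.subsingleton_orbit_iff_mem_fixedPoints]
      rw [← Set.subsingleton_coe]
      exact (Nat.card_eq_one_iff_unique.mp hk).1
    have hle := (hA.sylow_mem_fixedPoints_iff).mp hfix
    exact hAB (Sylow.ext (A.is_maximal' B.isPGroup' hle).symm)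
  have hle : Nat.card (MulAction.orbit (A : Subgroup S) B) ≤ Nat.card (Sylow p S) :=
    Nat.card_le_card_of_injective _ Subtype.val_injective
  have hk1 : k = 1 := by
    have h1 : p ^ k < p ^ 2 := by rw [← hk]; exact lt_of_le_of_lt hle hn
    have h2 := (Nat.pow_lt_pow_iff_right (Fact.out : p.Prime).one_lt).mp h1
    omega
  subst hk1
  rw [pow_one] at hk
  have hnc : (MulAction.orbit (A : Subgroup S) B).ncard = p := by
    rw [← Nat.card_coe_set_eq, hk]
  refine ⟨?_, hnc⟩
  have h1 := MulAction.index_stabilizer (A : Subgroup S) B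
  have h2 : MulAction.stabilizer (A : Subgroup S) B
      = (Subgroup.normalizer ((B : Subgroup S) : Set S)).subgroupOf A := by
    ext x
    rw [MulAction.mem_stabilizer_iff, Subgroup.mem_subgroupOf]
    exact Sylow.smul_eq_iff_mem_normalizer
  rw [h2, hnc] at h1
  have h3 : ((A : Subgroup S) ⊓ B).relIndex A
      = (Subgroup.normalizer ((B : Subgroup S) : Set S)).relIndex A := by
    rw [← hA.inf_normalizer_sylow B, Subgroup.inf_relIndex_left]
    rfl
  rw [h3]; exact h1

theorem inter_card' (hn : Nat.card (Sylow p S) < p ^ 2) (A B : Sylow p S) (hAB : A ≠ B) :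
    Nat.card ↥((A : Subgroup S) ⊓ B) * p = p ^ (Nat.card S).factorization p := by
  have h := (inter_card hn A B hAB).1
  have h1 := Cfsg.Agent.Lib.Helper7.card_mul_relIndex_of_le
    (inf_le_left : (A : Subgroup S) ⊓ B ≤ A)
  rw [h] at h1
  rw [h1]; exact A.card_eq_multiplicity

theorem inter_card_eq (hn : Nat.card (Sylow p S) < p ^ 2) (A B C D : Sylow p S) (hAB : A ≠ B)
    (hCD : C ≠ D) :
    Nat.card ↥((A : Subgroup S) ⊓ B) = Nat.card ↥((C : Subgroup S) ⊓ D) := by
  have h1 := inter_card' hn A B hAB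
  have h2 := inter_card' hn C D hCD
  exact Nat.eq_of_mul_eq_mul_right (Fact.out : p.Prime).pos (h1.trans h2.symm)

theorem inter_eq (hn : Nat.card (Sylow p S) < p ^ 2) (A B C : Sylow p S) (hAB : A ≠ B)
    (hAC : A ≠ C) (hle : (A : Subgroup S) ⊓ B ≤ C) :
    (A : Subgroup S) ⊓ C = (A : Subgroup S) ⊓ B := by
  symm
  exact Subgroup.eq_of_le_of_card_ge (le_inf inf_le_left hle)
    (inter_card_eq hn A C A B hAC hAB).le

theorem inter_normal (hn : Nat.card (Sylow p S) < p ^ 2) (A B : Sylow p S) (hAB : A ≠ B)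
    {x y : S} (hx : x ∈ A) (hy : y ∈ (A : Subgroup S) ⊓ B) :
    x * y * x⁻¹ ∈ (A : Subgroup S) ⊓ B := by
  have h := (inter_card hn A B hAB).1
  have hcardA : Nat.card (A : Subgroup S) = p ^ (Nat.card S).factorization p :=
    A.card_eq_multiplicity
  have hne : (Nat.card S).factorization p ≠ 0 := by
    intro h0
    have h1 := inter_card' hn A B hAB
    rw [h0, pow_zero] at h1
    exact (Fact.out : p.Prime).one_lt.ne' (Nat.dvd_one.mp ⟨_, (by rw [mul_comm]; exact h1.symm)⟩)
  have hnorm : (((A : Subgroup S) ⊓ B).subgroupOf A).Normal := by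
    apply Subgroup.normal_of_index_eq_minFac_card
    show ((A : Subgroup S) ⊓ B).relIndex A = _
    rw [h, hcardA, Nat.Prime.pow_minFac Fact.out hne]
  have h2 := hnorm.conj_mem ⟨y, hy.1⟩ (Subgroup.mem_subgroupOf.mpr hy) ⟨x, hx⟩
  exact Subgroup.mem_subgroupOf.mp h2

theorem F_card (hn : Nat.card (Sylow p S) < p ^ 2) (A B : Sylow p S) (hAB : A ≠ B) :
    p + 1 ≤ {C : Sylow p S | (A : Subgroup S) ⊓ B ≤ C}.ncard := by
  have h := (inter_card hn A B hAB).2
  have hA : A ∉ MulAction.orbit (A : Subgroup S) B := by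
    rintro ⟨x, hx⟩
    have hx1 : (x⁻¹ : (A : Subgroup S)) • A = A :=
      Sylow.smul_eq_iff_mem_normalizer.mpr (Subgroup.le_normalizer (x⁻¹).2)
    apply hAB
    have hx2 : x • B = A := hx
    calc A = x⁻¹ • A := hx1.symm
      _ = x⁻¹ • (x • B) := by rw [hx2]
      _ = B := inv_smul_smul x B
  have hsub : insert A (MulAction.orbit (A : Subgroup S) B)
      ⊆ {C : Sylow p S | (A : Subgroup S) ⊓ B ≤ C} := by
    intro C hC
    rcases hC with rfl | ⟨x, rfl⟩
    · show (C : Subgroup S) ⊓ B ≤ C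
      exact inf_le_left
    · show (A : Subgroup S) ⊓ B ≤ ((x • B : Sylow p S) : Subgroup S)
      intro y hy
      have h1 : ((x • B : Sylow p S) : Subgroup S) = MulAut.conj (x : S) • (B : Subgroup S) := rfl
      rw [h1, Cfsg.Agent.Lib.Helper7.mem_conj_smul_iff]
      have h2 := inter_normal hn A B hAB (A.inv_mem x.2) hy
      rw [inv_inv] at h2
      exact h2.2
  have h3 := Set.ncard_le_ncard hsub (Set.toFinite _)
  rw [Set.ncard_insert_of_notMem hA (Set.toFinite _), h] at h3
  exact h3

theorem all_contain (hn : Nat.card (Sylow p S) < p ^ 2) (P Q : Sylow p S) (hPQ : P ≠ Q)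
    (R : Sylow p S) : (P : Subgroup S) ⊓ Q ≤ R := by
  classical
  by_contra hR
  let _ : Fintype (Sylow p S) := Fintype.ofFinite _
  let F : Finset (Sylow p S) := Finset.univ.filter (fun T => (P : Subgroup S) ⊓ Q ≤ T)
  have hFc : ∀ A B : Sylow p S, A ≠ B →
      p + 1 ≤ (Finset.univ.filter (fun T : Sylow p S => (A : Subgroup S) ⊓ B ≤ T)).card := by
    intro A B hAB
    have h1 := F_card hn A B hAB
    rw [← Set.ncard_coe_finset]
    convert h1 using 2
    ext T
    simp
  have hF : p + 1 ≤ F.card := hFc P Q hPQ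
  have hRT : ∀ T ∈ F, R ≠ T := by
    intro T hT h
    apply hR
    rw [h]
    exact (Finset.mem_filter.mp hT).2
  let t : Sylow p S → Finset (Sylow p S) := fun T =>
    (Finset.univ.filter (fun U : Sylow p S => (R : Subgroup S) ⊓ T ≤ U)).erase R
  have ht : ∀ T ∈ F, p ≤ (t T).card := by
    intro T hT
    have h1 := hFc R T (hRT T hT)
    have h2 : R ∈ Finset.univ.filter (fun U : Sylow p S => (R : Subgroup S) ⊓ T ≤ U) := by
      simp
    show p ≤ ((Finset.univ.filter (fun U : Sylow p S => (R : Subgroup S) ⊓ T ≤ U)).erase R).card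
    rw [Finset.card_erase_of_mem h2]
    omega
  have hdisj : (F : Set (Sylow p S)).PairwiseDisjoint t := by
    intro T hT T' hT' hne
    rw [Function.onFun, Finset.disjoint_left]
    intro U hU hU'
    simp only [t, Finset.mem_erase, Finset.mem_filter, Finset.mem_univ, true_and] at hU hU'
    obtain ⟨hUR, hU1⟩ := hU
    obtain ⟨_, hU2⟩ := hU'
    have hT1 : (P : Subgroup S) ⊓ Q ≤ T := (Finset.mem_filter.mp hT).2
    have hT1' : (P : Subgroup S) ⊓ Q ≤ T' := (Finset.mem_filter.mp hT').2
    have e1 : (R : Subgroup S) ⊓ U = (R : Subgroup S) ⊓ T := inter_eq hn R T U (hRT T hT) (Ne.symm hUR) hU1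
    have e2 : (R : Subgroup S) ⊓ U = (R : Subgroup S) ⊓ T' := inter_eq hn R T' U (hRT T' hT') (Ne.symm hUR) hU2
    have e3 : (P : Subgroup S) ⊓ Q = (T : Subgroup S) ⊓ T' :=
      Subgroup.eq_of_le_of_card_ge (le_inf hT1 hT1') (inter_card_eq hn T T' P Q hne hPQ).le
    have e4 : (R : Subgroup S) ⊓ T ≤ (P : Subgroup S) ⊓ Q := by
      rw [e3]
      refine le_inf inf_le_right ?_
      rw [← e1, e2]
      exact inf_le_right
    have e5 : (R : Subgroup S) ⊓ T = (P : Subgroup S) ⊓ Q :=
      Subgroup.eq_of_le_of_card_ge e4 (inter_card_eq hn P Q R T hPQ (hRT T hT)).le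
    exact hR (by rw [← e5]; exact inf_le_left)
  have hsub : F.biUnion t ⊆ Finset.univ.erase R := by
    intro U hU
    obtain ⟨T, hT, hUT⟩ := Finset.mem_biUnion.mp hU
    simp only [t, Finset.mem_erase] at hUT
    exact Finset.mem_erase.mpr ⟨hUT.1, Finset.mem_univ _⟩
  have hcard := Finset.card_le_card hsub
  rw [Finset.card_biUnion hdisj, Finset.card_erase_of_mem (Finset.mem_univ R),
    Finset.card_univ] at hcard
  have hsum : F.card • p ≤ ∑ T ∈ F, (t T).card := Finset.card_nsmul_le_sum F _ p ht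
  rw [Nat.card_eq_fintype_card] at hn
  have h5 : (p + 1) * p ≤ F.card * p := Nat.mul_le_mul_right p hF
  simp only [smul_eq_mul] at hsum
  have hpos : 0 < Fintype.card (Sylow p S) := Fintype.card_pos_iff.mpr ⟨R⟩
  have h6 : ∑ u ∈ F, (t u).card + 1 ≤ Fintype.card (Sylow p S) := by omega
  have h7 : (p + 1) * p = p ^ 2 + p := by ring
  rw [h7] at h5
  linarith

theorem main [IsSimpleGroup S] (hS : ¬ IsMulCommutative S) (hp : p ∣ Nat.card S)
    (hn : Nat.card (Sylow p S) < p ^ 2) (P : Sylow p S) : Nat.card P = p := by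
  have hex : ∃ Q : Sylow p S, P ≠ Q := by
    by_contra hcon
    push Not at hcon
    have : Subsingleton (Sylow p S) := ⟨fun A B => (hcon A).symm.trans (hcon B)⟩
    have hnorm : (P : Subgroup S).Normal := Sylow.normal_of_subsingleton P
    rcases hnorm.eq_bot_or_eq_top with h | h
    · have h1 : Nat.card (P : Subgroup S) = 1 := by rw [h]; exact Subgroup.card_bot
      have h2 : p ∣ Nat.card (P : Subgroup S) := P.dvd_card_of_dvd_card hp
      rw [h1] at h2
      exact (Fact.out : p.Prime).one_lt.ne' (Nat.dvd_one.mp h2)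
    · have hSp : IsPGroup p S := by
        intro g
        obtain ⟨k, hk⟩ := P.isPGroup' ⟨g, by rw [h]; trivial⟩
        exact ⟨k, congrArg Subtype.val hk⟩
      have : Nontrivial S := IsSimpleGroup.toNontrivial
      have hc := hSp.center_nontrivial
      have hct : Subgroup.center S = ⊤ := by
        refine ((inferInstance : (Subgroup.center S).Normal).eq_bot_or_eq_top).resolve_left ?_
        intro hb
        rw [hb] at hc
        exact not_nontrivial _ hc
      apply hS
      exact ⟨⟨fun a b => (Subgroup.mem_center_iff.mp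
        (by rw [hct]; trivial : b ∈ Subgroup.center S) a)⟩⟩
  obtain ⟨Q, hPQ⟩ := hex
  have hall := all_contain hn P Q hPQ
  have hD : (P : Subgroup S) ⊓ Q ≤ (P : Subgroup S).normalCore := by
    intro d hd b
    have h1 := hall (b⁻¹ • P) hd
    have h2 : ((b⁻¹ • P : Sylow p S) : Subgroup S) = MulAut.conj (b⁻¹ : S) • (P : Subgroup S) := rfl
    rw [h2, Cfsg.Agent.Lib.Helper7.mem_conj_smul_iff, inv_inv] at h1
    exact h1
  rcases (Subgroup.normalCore_normal (P : Subgroup S)).eq_bot_or_eq_top with h | h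
  · have hbot : (P : Subgroup S) ⊓ Q = ⊥ := le_bot_iff.mp (h ▸ hD)
    have h1 := Cfsg.Agent.Lib.Helper7.card_mul_relIndex_of_le
      (inf_le_left : (P : Subgroup S) ⊓ Q ≤ P)
    rw [(inter_card hn P Q hPQ).1, hbot, Subgroup.card_bot, one_mul] at h1
    exact h1.symm
  · exfalso
    have hPtop : (P : Subgroup S) = ⊤ := top_le_iff.mp (h ▸ Subgroup.normalCore_le _)
    apply hPQ
    exact Sylow.ext (Q.is_maximal' P.isPGroup' (by rw [hPtop]; exact le_top))

end

/-- Let S be a finite non-abelian simple group and p a prime dividing its order. If S has fewer than p² Sylow p-subgroups, then its Sylow p-subgroups have order p. -/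
theorem result {S : Type*} [Group S] [Finite S]
    [IsSimpleGroup S] (hS : ¬ IsMulCommutative S) (p : ℕ) [Fact p.Prime] (hp : p ∣ Nat.card S)
    (hn : Nat.card (Sylow p S) < p ^ 2) (P : Sylow p S) : Nat.card P = p := by
  exact main hS hp hn P

end Cfsg.Agent.S4343
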