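import Cfsg.Statements.S4344
-- import your own Cfsg.Agent.* helpers here
import Mathlib
import Cfsg.Agent.Lib.Helper7.Compl

set_option autoImplicit false
open Cfsg

namespace Cfsg.Agent.S4344

section
universe u
open scoped Pointwise
open Cfsg.Agent.Lib.Helper7

theorem main {S : Type u} [Group S] [Finite S]
    [IsSimpleGroup S] (hS : ¬ IsMulCommutative S) (p : ℕ) [Fact p.Prime] (hp : p ∣ Nat.card S)
    (M : Subgroup S) (hM : IsCoatom M) (C : Subgroup S) (hCM : C ≤ M) (hCn : (C.subgroupOf M).Normal)
    (hC : IsCyclic C) (P : Sylow p S) (hP : (P : Subgroup S) ≤ C) :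
    Nat.card (Sylow p S) = M.index := by
  have hcomm : ∀ a ∈ C, ∀ b ∈ C, a * b = b * a := by
    intro a ha b hb
    have := mul_comm' (⟨a, ha⟩ : ↥C) ⟨b, hb⟩
    exact congrArg Subtype.val this
  have hconjC : ∀ m ∈ M, ∀ c ∈ C, m * c * m⁻¹ ∈ C := by
    intro m hm c hc
    have h1 : (⟨c, hCM hc⟩ : ↥M) ∈ C.subgroupOf M := Subgroup.mem_subgroupOf.2 hc
    have h2 := hCn.conj_mem _ h1 ⟨m, hm⟩
    rw [Subgroup.mem_subgroupOf] at h2
    simpa using h2
  have hconjP : ∀ m ∈ M, ∀ y ∈ (P : Subgroup S), m * y * m⁻¹ ∈ (P : Subgroup S) := by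
    intro m hm y hy
    have hP'C : ((m • P : Sylow p S) : Subgroup S) ≤ C := by
      intro v hv
      rw [Sylow.coe_subgroup_smul, mem_conj_smul_iff] at hv
      have h1 := hconjC m hm _ (hP hv)
      have h2 : m * (m⁻¹ * v * m) * m⁻¹ = v := by group
      rwa [h2] at h1
    have hnorm : (P : Subgroup S) ≤ Subgroup.normalizer (((m • P : Sylow p S) : Subgroup S) : Set S) := by
      intro u hu
      rw [Subgroup.mem_normalizer_iff]
      intro v
      constructor
      · intro hv
        have h1 := hcomm u (hP hu) v (hP'C hv)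
        rw [h1, mul_inv_cancel_right]
        exact hv
      · intro hv
        have h1 := hcomm u⁻¹ (inv_mem (hP hu)) _ (hP'C hv)
        have h2 : u⁻¹ * (u * v * u⁻¹) = v * u⁻¹ := by group
        rw [h2] at h1
        have h3 : v = u * v * u⁻¹ := by
          calc v = v * u⁻¹ * u := by group
            _ = u * v * u⁻¹ * u⁻¹ * u := by rw [h1]
            _ = u * v * u⁻¹ := by group
        rw [h3]; exact hv
    have hsup := IsPGroup.to_sup_of_normal_right' P.isPGroup' (m • P : Sylow p S).isPGroup' hnorm
    have heq := P.is_maximal' hsup le_sup_left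
    have hle : ((m • P : Sylow p S) : Subgroup S) ≤ (P : Subgroup S) := by
      rw [← heq]; exact le_sup_right
    apply hle
    rw [Sylow.coe_subgroup_smul, mem_conj_smul_iff]
    have : m⁻¹ * (m * y * m⁻¹) * m = y := by group
    rw [this]; exact hy
  have hMN : M ≤ Subgroup.normalizer ((P : Subgroup S) : Set S) := by
    intro m hm
    rw [Subgroup.mem_normalizer_iff]
    intro h
    constructor
    · intro hh
      exact hconjP m hm h hh
    · intro hh
      have h1 := hconjP m⁻¹ (inv_mem hm) _ hh
      have h2 : m⁻¹ * (m * h * m⁻¹) * m⁻¹⁻¹ = h := by group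
      rwa [h2] at h1
  have hNtop : Subgroup.normalizer ((P : Subgroup S) : Set S) ≠ ⊤ := by
    intro htop
    have hnormal : (P : Subgroup S).Normal := Subgroup.normalizer_eq_top_iff.1 htop
    rcases hnormal.eq_bot_or_eq_top with hbot | htop'
    · exact P.ne_bot_of_dvd_card hp hbot
    · apply hS
      have hCtop : ∀ a : S, a ∈ C := fun a => hP (htop' ▸ Subgroup.mem_top a)
      exact ⟨⟨fun a b => hcomm a (hCtop a) b (hCtop b)⟩⟩
  have hEq : Subgroup.normalizer ((P : Subgroup S) : Set S) = M := by
    by_contra hne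
    have hlt : M < Subgroup.normalizer ((P : Subgroup S) : Set S) :=
      lt_of_le_of_ne hMN (fun h => hne h.symm)
    exact hNtop (hM.2 _ hlt)
  rw [P.card_eq_index_normalizer]
  exact congrArg Subgroup.index hEq

end

/-- Let S be a finite non-abelian simple group, M a maximal subgroup of S and C a cyclic normal subgroup of M. If a Sylow p-subgroup P of S (for a prime p dividing the order of S) is contained in C, then the number of Sylow p-subgroups of S equals the index of M. -/
theorem result {S : Type*} [Group S] [Finite S]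
    [IsSimpleGroup S] (hS : ¬ IsMulCommutative S) (p : ℕ) [Fact p.Prime] (hp : p ∣ Nat.card S)
    (M : Subgroup S) (hM : IsCoatom M) (C : Subgroup S) (hCM : C ≤ M) (hCn : (C.subgroupOf M).Normal)
    (hC : IsCyclic C) (P : Sylow p S) (hP : (P : Subgroup S) ≤ C) :
    Nat.card (Sylow p S) = M.index := by
  exact main hS p hp M hM C hCM hCn hC P hP

end Cfsg.Agent.S4344
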