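import Cfsg.Statements.S4345
-- import your own Cfsg.Agent.* helpers here
import Mathlib
import Cfsg.Agent.Lib.Helper7.Hall
import Cfsg.Agent.Lib.Helper7.SylowCount

set_option autoImplicit false
open Cfsg

namespace Cfsg.Agent.S4345

section
universe u

open Cfsg.Agent.Lib.Helper7 in
theorem main : ∀ (n : ℕ) (G : Type u) [Group G] [Finite G], Nat.card G ≤ n →
    Group.IsSolvable G → ∀ (p ℓ : ℕ) [Fact p.Prime], ℓ.Prime →
    ℓ ^ (Nat.card (Sylow p G)).factorization ℓ ≡ 1 [MOD p] := by
  intro n
  induction n with
  | zero =>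
    intro G _ _ h
    have := Nat.card_pos (α := G)
    omega
  | succ n ih =>
    intro G _ _ hn hsol p ℓ _ hℓ
    by_cases htriv : Subsingleton G
    · have h1 : Nat.card (Sylow p G) = 1 := by
        have : Subsingleton (Sylow p G) := ⟨fun A B => Sylow.ext (Subsingleton.elim _ _)⟩
        exact Nat.card_unique
      rw [h1]
      simp [Nat.ModEq]
    · have : Nontrivial G := not_subsingleton_iff_nontrivial.mp htriv
      obtain ⟨K, q, hKn, hKne, hq, hKq⟩ := exists_normal_pgroup G
      obtain ⟨P⟩ : Nonempty (Sylow p G) := inferInstance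
      have h1 := card_sylow_eq_mul P K
      have h2 : Nat.card (G ⧸ K) ≤ n := by
        have e1 := Subgroup.card_eq_card_quotient_mul_card_subgroup K
        have e2 : 2 ≤ Nat.card K := by
          have : Nontrivial K := (Subgroup.nontrivial_iff_ne_bot K).mpr hKne
          exact Finite.one_lt_card
        have e3 : 0 < Nat.card (G ⧸ K) := Nat.card_pos
        nlinarith
      have h3 := ih (G ⧸ K) h2 inferInstance p ℓ hℓ
      have h4 := card_sylow_sup_dvd P K
      have := Fact.mk hq
      obtain ⟨a, ha⟩ := IsPGroup.iff_card.mp hKq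
      rw [ha] at h4
      obtain ⟨t, _, ht⟩ := (Nat.dvd_prime_pow hq).mp h4
      have h5 : Nat.card (Sylow p ((P : Subgroup G) ⊔ K : Subgroup G)) ≡ 1 [MOD p] :=
        card_sylow_modEq_one p _
      have h6 : ℓ ^ (Nat.card (Sylow p ((P : Subgroup G) ⊔ K : Subgroup G))).factorization ℓ
          ≡ 1 [MOD p] := by
        by_cases hlq : ℓ = q
        · subst hlq
          rw [ht] at h5 ⊢
          rw [Nat.Prime.factorization_pow hℓ]
          simpa using h5
        · rw [ht, Nat.Prime.factorization_pow hq]
          simp [Ne.symm hlq, Nat.ModEq]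
      rw [h1, Nat.factorization_mul Nat.card_pos.ne' Nat.card_pos.ne', Finsupp.add_apply, pow_add]
      simpa using h3.mul h6

end

/-- Let G be a finite solvable group and p, ℓ primes. Then the largest power of ℓ dividing the number of Sylow p-subgroups of G is congruent to 1 modulo p. -/
theorem result {G : Type*} [Group G] [Finite G]
    (hG : Group.IsSolvable G) (p ℓ : ℕ) [Fact p.Prime] (hℓ : ℓ.Prime) :
    ℓ ^ (Nat.card (Sylow p G)).factorization ℓ ≡ 1 [MOD p] := by
  exact main (Nat.card G) G le_rfl hG p ℓ hℓ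

end Cfsg.Agent.S4345
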