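import Cfsg.Statements.S4365
-- import your own Cfsg.Agent.* helpers here
import Mathlib
import Cfsg.Agent.Lib.Helper6.ConjCount

set_option autoImplicit false
open Cfsg

namespace Cfsg.Agent.S4365

/-- Let P be a finite p-group whose conjugacy class sizes are exactly 1 and pᵃ for some a ≥ 1. Then every element of P has its p-th power in the center of P (P/Z(P) has exponent p). -/
theorem result {P : Type*} [Group P] [Finite P] (p : ℕ) [Fact p.Prime]
    (hP : IsPGroup p P) (a : ℕ) (ha : 1 ≤ a)
    (hcs : {k : ℕ | ∃ x : P, (Subgroup.centralizer ({x} : Set P)).index = k} = {1, p ^ a}) (x : P) :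
    x ^ p ∈ Subgroup.center P := by
  classical
  have hp : p.Prime := Fact.out
  obtain ⟨Cn, hCn⟩ : ∃ Cn : P → Subgroup P, ∀ x, Cn x = Subgroup.centralizer ({x} : Set P) :=
    ⟨fun x => Subgroup.centralizer ({x} : Set P), fun _ => rfl⟩
  have hC : ∀ x y : P, y ∈ Cn x ↔ x * y = y * x := by
    intro x y
    rw [hCn, Subgroup.mem_centralizer_iff]
    constructor
    · intro h; exact h x rfl
    · intro h z hz; rw [Set.mem_singleton_iff] at hz; rw [hz]; exact h
  have hidx : ∀ x : P, (Cn x).index = 1 ∨ (Cn x).index = p ^ a := by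
    intro x
    have h1 : (Cn x).index ∈ {k : ℕ | ∃ x : P,
        (Subgroup.centralizer ({x} : Set P)).index = k} := ⟨x, by rw [hCn]⟩
    rw [hcs] at h1
    exact h1
  have hZc : ∀ z ∈ Subgroup.center P, ∀ w : P, w * z = z * w :=
    fun z hz w => Subgroup.mem_center_iff.mp hz w
  have hZ : ∀ x : P, x ∈ Subgroup.center P ↔ (Cn x).index = 1 := by
    intro x
    rw [Subgroup.index_eq_one, Subgroup.mem_center_iff]
    constructor
    · intro h; rw [eq_top_iff]; intro y _; rw [hC]; exact (h y).symm
    · intro h y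
      have h1 : y ∈ Cn x := by rw [h]; trivial
      exact ((hC x y).mp h1).symm
  have hidx' : ∀ x : P, x ∉ Subgroup.center P → (Cn x).index = p ^ a := by
    intro x hx
    rcases hidx x with h | h
    · exact absurd ((hZ x).mpr h) hx
    · exact h
  have hpapos : 0 < p ^ a := pow_pos hp.pos a
  have hF2 : ∀ x y : P, x ∉ Subgroup.center P → y ∉ Subgroup.center P → Cn x ≤ Cn y →
      Cn x = Cn y := by
    intro x y hx hy hle
    apply Subgroup.eq_of_le_of_card_ge hle
    have h1 := Subgroup.card_mul_index (Cn x)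
    have h2 := Subgroup.card_mul_index (Cn y)
    rw [hidx' x hx] at h1
    rw [hidx' y hy] at h2
    have h3 : Nat.card (Cn y) * p ^ a = Nat.card (Cn x) * p ^ a := by rw [h1, h2]
    exact le_of_eq (Nat.eq_of_mul_eq_mul_right hpapos h3)
  by_contra hbad
  obtain ⟨π, hπdef⟩ : ∃ π : P →* P ⧸ Subgroup.center P,
      π = QuotientGroup.mk' (Subgroup.center P) := ⟨_, rfl⟩
  have hπ : ∀ x : P, π x = 1 ↔ x ∈ Subgroup.center P := by
    intro x; rw [hπdef]; exact QuotientGroup.eq_one_iff x
  have hπsurj : Function.Surjective π := hπdef ▸ QuotientGroup.mk'_surjective _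
  have hxZ : x ∉ Subgroup.center P := fun h => hbad (Subgroup.pow_mem _ h p)
  haveI : Nontrivial (P ⧸ Subgroup.center P) :=
    ⟨⟨π x, 1, fun h => hxZ ((hπ x).mp h)⟩⟩
  have hQ : IsPGroup p (P ⧸ Subgroup.center P) := hP.to_quotient _
  haveI := hQ.center_nontrivial
  obtain ⟨⟨y0, hy0⟩, hy01⟩ := exists_ne (1 : Subgroup.center (P ⧸ Subgroup.center P))
  have hy0ne : y0 ≠ 1 := fun h => hy01 (Subtype.ext h)
  obtain ⟨k, hk⟩ := hQ y0
  have hex : ∃ j, y0 ^ p ^ j = 1 := ⟨k, hk⟩
  have hj := Nat.find_spec hex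
  have hj0 : Nat.find hex ≠ 0 := by
    intro h0; rw [h0, pow_zero, pow_one] at hj; exact hy0ne hj
  obtain ⟨j, hjs⟩ := Nat.exists_eq_succ_of_ne_zero hj0
  have hjmin : y0 ^ p ^ j ≠ 1 := Nat.find_min hex (by omega : j < Nat.find hex)
  obtain ⟨u, hu⟩ := hπsurj (y0 ^ p ^ j)
  have huZ : u ∉ Subgroup.center P := fun h => hjmin (by rw [← hu]; exact (hπ u).mpr h)
  have hup : u ^ p ∈ Subgroup.center P := by
    rw [← hπ, map_pow, hu, ← pow_mul, ← pow_succ, ← Nat.succ_eq_add_one, ← hjs]; exact hj
  have hucomm : ∀ y : P, π u * π y = π y * π u := by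
    intro y
    rw [hu]
    have h1 : y0 ^ p ^ j ∈ Subgroup.center (P ⧸ Subgroup.center P) := Subgroup.pow_mem _ hy0 _
    exact (Subgroup.mem_center_iff.mp h1 (π y)).symm
  have h3 : ∀ y : P, u * y ≠ y * u → y ^ p ∈ Subgroup.center P := by
    intro y hy
    by_contra hyp
    have hyZ : y ∉ Subgroup.center P := fun h => hyp (Subgroup.pow_mem _ h p)
    have h31 : π ((y * u) ^ p) = π (y ^ p) := by
      have hc : Commute (π y) (π u) := (hucomm y).symm
      rw [map_pow, map_mul, hc.mul_pow, ← map_pow, ← map_pow, (hπ (u ^ p)).mpr hup, mul_one]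
    have hyup : (y * u) ^ p ∉ Subgroup.center P := by
      intro h; apply hyp; rw [← hπ, ← h31]; exact (hπ _).mpr h
    have hyuZ : y * u ∉ Subgroup.center P := fun h => hyup (Subgroup.pow_mem _ h p)
    have hz : (y ^ p)⁻¹ * (y * u) ^ p ∈ Subgroup.center P := by
      rw [← hπ, map_mul, map_inv, h31, inv_mul_cancel]
    have e1 : Cn y = Cn (y ^ p) := hF2 y (y ^ p) hyZ hyp (by
      intro w hw
      rw [hC] at hw ⊢
      exact Commute.pow_left hw p)
    have e2 : Cn (y * u) = Cn ((y * u) ^ p) := hF2 _ _ hyuZ hyup (by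
      intro w hw
      rw [hC] at hw ⊢
      exact Commute.pow_left hw p)
    have e3 : Cn ((y * u) ^ p) = Cn (y ^ p) := by
      obtain ⟨z, hzdef⟩ : ∃ z, z = (y ^ p)⁻¹ * (y * u) ^ p := ⟨_, rfl⟩
      have hzZ : z ∈ Subgroup.center P := hzdef ▸ hz
      have hpz : (y * u) ^ p = y ^ p * z := by rw [hzdef]; group
      ext w
      rw [hC, hC, hpz]
      have hzw : w * z = z * w := hZc z hzZ w
      constructor
      · intro h
        have h5 : y ^ p * w * z = w * y ^ p * z := by
          calc y ^ p * w * z = y ^ p * (w * z) := by group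
            _ = y ^ p * (z * w) := by rw [hzw]
            _ = y ^ p * z * w := by group
            _ = w * (y ^ p * z) := h
            _ = w * y ^ p * z := by group
        exact mul_right_cancel h5
      · intro h
        calc y ^ p * z * w = y ^ p * (z * w) := by group
          _ = y ^ p * (w * z) := by rw [hzw]
          _ = (y ^ p * w) * z := by group
          _ = (w * y ^ p) * z := by rw [h]
          _ = w * (y ^ p * z) := by group
    have h32 : y * u ∈ Cn y := by
      rw [e1, ← e3, ← e2, hC]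
    rw [hC] at h32
    apply hy
    have h33 : y * (y * u) = y * (u * y) := by rw [h32]; group
    exact (mul_left_cancel h33).symm
  have hnc : ∀ t g : P, u * g = g * u → u * t ≠ t * u → u * (t * g) ≠ (t * g) * u := by
    intro t g hgu htu h
    apply htu
    have h5 : u * t * g = t * u * g := by
      calc u * t * g = u * (t * g) := by group
        _ = t * g * u := h
        _ = t * (g * u) := by group
        _ = t * (u * g) := by rw [hgu]
        _ = t * u * g := by group
    exact mul_right_cancel h5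
  have h4 : ∀ g : P, g ^ p ∉ Subgroup.center P → Cn g = Cn u := by
    intro g hg
    have hgZ : g ∉ Subgroup.center P := fun h => hg (Subgroup.pow_mem _ h p)
    apply hF2 g u hgZ huZ
    intro t ht
    rw [hC] at ht ⊢
    by_contra htu
    have ht_p := h3 t htu
    have hgu : u * g = g * u := by
      by_contra h; exact hg (h3 g h)
    have htg_p := h3 (t * g) (hnc t g hgu htu)
    have h5 : (t * g) ^ p = t ^ p * g ^ p := (show Commute t g from ht.symm).mul_pow p
    apply hg
    have h6 : g ^ p = (t ^ p)⁻¹ * (t * g) ^ p := by rw [h5]; group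
    rw [h6]
    exact Subgroup.mul_mem _ (Subgroup.inv_mem _ ht_p) htg_p
  have h4x := h4 x hbad
  have hxu : u * x = x * u := by
    by_contra h; exact hbad (h3 x h)
  have hHab : ∀ h k : P, u * h = h * u → u * k = k * u → h * k = k * h := by
    intro h k hh hk
    have hxh : x * h = h * x := by rw [← hC, h4x, hC]; exact hh
    have hxk : x * k = k * x := by rw [← hC, h4x, hC]; exact hk
    by_cases hb1 : h ^ p ∈ Subgroup.center P
    · by_cases hb2 : (x * h) ^ p ∈ Subgroup.center P
      · exfalso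
        apply hbad
        have h5 : (x * h) ^ p = x ^ p * h ^ p := (show Commute x h from hxh).mul_pow p
        have h6 : x ^ p = (x * h) ^ p * (h ^ p)⁻¹ := by rw [h5]; group
        rw [h6]; exact Subgroup.mul_mem _ hb2 (Subgroup.inv_mem _ hb1)
      · have e := h4 (x * h) hb2
        have h5 : (x * h) * k = k * (x * h) := by rw [← hC, e, hC]; exact hk
        have h6 : x * (h * k) = x * (k * h) := by
          calc x * (h * k) = x * h * k := by group
            _ = k * (x * h) := h5
            _ = (k * x) * h := by group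
            _ = (x * k) * h := by rw [hxk]
            _ = x * (k * h) := by group
        exact mul_left_cancel h6
    · have e := h4 h hb1
      rw [← hC, e, hC]; exact hk
  have hunorm : ∀ y h : P, u * h = h * u → u * (y * h * y⁻¹) = y * h * y⁻¹ * u := by
    intro y h hh
    obtain ⟨z, hzdef⟩ : ∃ z, z = (y * u)⁻¹ * (u * y) := ⟨_, rfl⟩
    have hz : z ∈ Subgroup.center P := by
      rw [hzdef, ← hπ, map_mul, map_inv, map_mul, map_mul, hucomm y, inv_mul_cancel]
    have h1 : u * y = y * u * z := by rw [hzdef]; group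
    have hzc := hZc z hz
    have h2 : u * z * y⁻¹ = y⁻¹ * u := by
      have h5 : y * (u * z * y⁻¹) = y * (y⁻¹ * u) := by
        calc y * (u * z * y⁻¹) = (y * u * z) * y⁻¹ := by group
          _ = (u * y) * y⁻¹ := by rw [h1]
          _ = y * (y⁻¹ * u) := by group
      exact mul_left_cancel h5
    calc u * (y * h * y⁻¹) = (u * y) * h * y⁻¹ := by group
      _ = (y * u * z) * h * y⁻¹ := by rw [h1]
      _ = y * u * (z * h) * y⁻¹ := by group
      _ = y * u * (h * z) * y⁻¹ := by rw [hzc h]
      _ = y * (u * h) * (z * y⁻¹) := by group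
      _ = y * (h * u) * (z * y⁻¹) := by rw [hh]
      _ = y * h * (u * z * y⁻¹) := by group
      _ = y * h * (y⁻¹ * u) := by rw [h2]
      _ = y * h * y⁻¹ * u := by group
  have hkey : ∀ r : P, u * r ≠ r * u → π (r * x * r⁻¹) ≠ π x := by
    intro r hr heq
    have hcomm : Commute (π r) (π x) := by
      have h5 : π r * π x * (π r)⁻¹ = π x := by
        rw [← map_inv, ← map_mul, ← map_mul]; exact heq
      show π r * π x = π x * π r
      calc π r * π x = π r * π x * (π r)⁻¹ * π r := by group
        _ = π x * π r := by rw [h5]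
    have hr_p := h3 r hr
    have hrx_p := h3 (r * x) (hnc r x hxu hr)
    apply hbad
    rw [← hπ]
    have h6 : π ((r * x) ^ p) = π (r ^ p) * π (x ^ p) := by
      rw [map_pow, map_mul, hcomm.mul_pow, ← map_pow, ← map_pow]
    rw [(hπ _).mpr hrx_p, (hπ _).mpr hr_p, one_mul] at h6
    exact h6.symm
  have hHidx : (Cn u).index = p ^ a := hidx' u huZ
  obtain ⟨t, ht⟩ : ∃ t : P, u * t ≠ t * u := by
    by_contra hcon
    apply huZ
    rw [Subgroup.mem_center_iff]
    intro y
    by_contra h
    exact hcon ⟨y, fun h2 => h h2.symm⟩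
  have htZ : t ∉ Subgroup.center P := fun h => ht (hZc t h u)
  have hinf : Cn u ⊓ Cn t ≤ Subgroup.center P := by
    intro k hk
    rw [Subgroup.mem_inf, hC, hC] at hk
    by_contra hkZ
    have hle : Cn u ≤ Cn k := by
      intro h hh
      rw [hC] at hh ⊢
      exact hHab k h hk.1 hh
    have e := hF2 u k huZ hkZ hle
    apply ht
    rw [← hC, e, hC]
    exact hk.2.symm
  have hZidx : (Subgroup.center P).index ≤ p ^ a * p ^ a := by
    have h1 : (Subgroup.center P).index ∣ (Cn u ⊓ Cn t).index := Subgroup.index_dvd_of_le hinf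
    have h2 : (Cn u ⊓ Cn t).index ≤ (Cn u).index * (Cn t).index := Subgroup.index_inf_le
    rw [hHidx, hidx' t htZ] at h2
    exact le_trans (Nat.le_of_dvd (Nat.pos_of_ne_zero Subgroup.index_ne_zero_of_finite) h1) h2
  have hcardH : Nat.card (Cn u) * p ^ a = Nat.card P := by
    rw [← hHidx]; exact Subgroup.card_mul_index _
  have hcardZ : Nat.card (Subgroup.center P) * (Subgroup.center P).index = Nat.card P :=
    Subgroup.card_mul_index _
  have hHle : Nat.card (Cn u) ≤ Nat.card (Subgroup.center P) * p ^ a := by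
    have h5 : Nat.card (Cn u) * p ^ a ≤ Nat.card (Subgroup.center P) * p ^ a * p ^ a := by
      rw [hcardH, ← hcardZ, mul_assoc]
      exact Nat.mul_le_mul_left _ hZidx
    exact Nat.le_of_mul_le_mul_right h5 hpapos
  have hclass : Nat.card {y : P // IsConj x y} = p ^ a := by
    have h1 := Cfsg.Agent.Lib.Helper6.cc_card_class_mul_card_centralizer x
    rw [← hCn] at h1
    have h2 := Subgroup.card_mul_index (Cn x)
    rw [hidx' x hxZ] at h2
    have hpos : 0 < Nat.card (Cn x) := Nat.card_pos
    have h5 : Nat.card {y : P // IsConj x y} * Nat.card (Cn x) = p ^ a * Nat.card (Cn x) := by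
      rw [h1, ← h2, mul_comm]
    exact Nat.eq_of_mul_eq_mul_right hpos h5
  have hconjH : ∀ k : P, IsConj x k → u * k = k * u ∧ k ∉ Subgroup.center P := by
    intro k hk
    obtain ⟨r, hr⟩ := isConj_iff.mp hk
    rw [← hr]
    refine ⟨hunorm r x hxu, ?_⟩
    intro h
    apply hxZ
    have h5 := (inferInstance : (Subgroup.center P).Normal).conj_mem _ h r⁻¹
    have h6 : r⁻¹ * (r * x * r⁻¹) * r⁻¹⁻¹ = x := by group
    rw [h6] at h5
    exact h5
  have hm1 : ∀ (k : P) (z : P), IsConj x k → z ∈ Subgroup.center P → k * z ∈ Cn u := by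
    intro k z hk hz
    rw [hC]
    have h5 := (hconjH k hk).1
    have h6 : u * z = z * u := hZc z hz u
    calc u * (k * z) = (u * k) * z := by group
      _ = (k * u) * z := by rw [h5]
      _ = k * (u * z) := by group
      _ = k * (z * u) := by rw [h6]
      _ = k * z * u := by group
  have hm2 : ∀ z : P, z ∈ Subgroup.center P → z ∈ Cn u := by
    intro z hz
    rw [hC]
    exact hZc z hz u
  obtain ⟨F, hF⟩ : ∃ F : ({y : P // IsConj x y} × Subgroup.center P) ⊕ Subgroup.center P → Cn u,
      (∀ q, ((F (Sum.inl q) : Cn u) : P) = (q.1 : P) * (q.2 : P)) ∧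
      (∀ z, ((F (Sum.inr z) : Cn u) : P) = (z : P)) :=
    ⟨fun s => Sum.elim (fun q => (⟨q.1.1 * q.2.1, hm1 _ _ q.1.2 q.2.2⟩ : Cn u))
      (fun z => (⟨z.1, hm2 _ z.2⟩ : Cn u)) s, fun q => rfl, fun z => rfl⟩
  have hFinj : Function.Injective F := by
    rintro (q | z) (q' | z') hqq
    · have h1 : (q.1 : P) * (q.2 : P) = (q'.1 : P) * (q'.2 : P) := by
        rw [← hF.1, ← hF.1, hqq]
      have h2 : π (q.1 : P) = π (q'.1 : P) := by
        have h5 := congrArg π h1
        rw [map_mul, map_mul, (hπ _).mpr q.2.2, (hπ _).mpr q'.2.2, mul_one, mul_one] at h5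
        exact h5
      obtain ⟨r, hr⟩ := isConj_iff.mp q.1.2
      obtain ⟨s, hs⟩ := isConj_iff.mp q'.1.2
      have h3 : (q.1 : P) = q'.1 := by
        have h4' : π ((s⁻¹ * r) * x * (s⁻¹ * r)⁻¹) = π x := by
          have h5 : (s⁻¹ * r) * x * (s⁻¹ * r)⁻¹ = s⁻¹ * (r * x * r⁻¹) * s := by group
          rw [h5, hr, map_mul, map_mul, h2, ← hs]
          simp only [map_mul, map_inv]
          group
        have h5 : u * (s⁻¹ * r) = (s⁻¹ * r) * u := by
          by_contra h
          exact hkey _ h h4'
        have h6 : x * (s⁻¹ * r) = (s⁻¹ * r) * x := by rw [← hC, h4x, hC]; exact h5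
        rw [← hr, ← hs]
        calc r * x * r⁻¹ = s * ((s⁻¹ * r) * x) * r⁻¹ := by group
          _ = s * (x * (s⁻¹ * r)) * r⁻¹ := by rw [h6]
          _ = s * x * s⁻¹ := by group
      have h7 : (q.2 : P) = q'.2 := by rw [h3] at h1; exact mul_left_cancel h1
      exact congrArg Sum.inl (Prod.ext (Subtype.ext h3) (Subtype.ext h7))
    · exfalso
      have h1 : (q.1 : P) * (q.2 : P) = (z' : P) := by rw [← hF.1, ← hF.2, hqq]
      apply (hconjH _ q.1.2).2
      have h5 : (q.1 : P) = (z' : P) * (q.2 : P)⁻¹ := by rw [← h1]; group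
      rw [h5]; exact Subgroup.mul_mem _ z'.2 (Subgroup.inv_mem _ q.2.2)
    · exfalso
      have h1 : (q'.1 : P) * (q'.2 : P) = (z : P) := by rw [← hF.1, ← hF.2, hqq]
      apply (hconjH _ q'.1.2).2
      have h5 : (q'.1 : P) = (z : P) * (q'.2 : P)⁻¹ := by rw [← h1]; group
      rw [h5]; exact Subgroup.mul_mem _ z.2 (Subgroup.inv_mem _ q'.2.2)
    · have h1 : (z : P) = (z' : P) := by rw [← hF.2, ← hF.2, hqq]
      exact congrArg Sum.inr (Subtype.ext h1)
  have hcount := Nat.card_le_card_of_injective F hFinj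
  rw [Nat.card_sum, Nat.card_prod, hclass] at hcount
  have hZpos : 0 < Nat.card (Subgroup.center P) := Nat.card_pos
  have h9 : p ^ a * Nat.card (Subgroup.center P) = Nat.card (Subgroup.center P) * p ^ a :=
    mul_comm _ _
  omega

end Cfsg.Agent.S4365
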