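import Cfsg.Statements.S4377
-- import your own Cfsg.Agent.* helpers here
import Mathlib

set_option autoImplicit false
open Cfsg

namespace Cfsg.Agent.S4377

section
universe u v

theorem card_pow_eq_one_eq_sum {G : Type u} [Group G] [Finite G] (n : ℕ) (hn : n ≠ 0) :
    Nat.card {g : G // g ^ n = 1} = ∑ d ∈ n.divisors, Nat.card {g : G // orderOf g = d} := by
  classical
  have := Fintype.ofFinite G
  have h1 : Nat.card {g : G // g ^ n = 1} = (Finset.univ.filter (fun g : G => g ^ n = 1)).card := by
    rw [Nat.card_eq_fintype_card, Fintype.card_subtype]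
  have h2 : ∀ d : ℕ, Nat.card {g : G // orderOf g = d}
      = (Finset.univ.filter (fun g : G => orderOf g = d)).card := by
    intro d
    rw [Nat.card_eq_fintype_card, Fintype.card_subtype]
  rw [h1, Finset.card_eq_sum_card_fiberwise (f := fun g : G => orderOf g) (t := n.divisors)]
  · apply Finset.sum_congr rfl
    intro d hd
    rw [h2 d]
    congr 1
    ext g
    simp only [Finset.mem_filter, Finset.mem_univ, true_and]
    constructor
    · rintro ⟨_, h⟩; exact h
    · intro h
      refine ⟨?_, h⟩
      rw [← orderOf_dvd_iff_pow_eq_one, h]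
      exact Nat.dvd_of_mem_divisors hd
  · intro g hg
    rw [Finset.mem_coe, Finset.mem_filter] at hg
    exact Finset.mem_coe.2 (Nat.mem_divisors.2 ⟨orderOf_dvd_of_pow_eq_one hg.2, hn⟩)

theorem card_order_zero {G : Type u} [Group G] [Finite G] :
    Nat.card {g : G // orderOf g = 0} = 0 := by
  have : IsEmpty {g : G // orderOf g = 0} := ⟨fun g => (orderOf_pos g.1).ne' g.2⟩
  exact Nat.card_of_isEmpty

theorem card_pow_card {G : Type u} [Group G] [Finite G] (m : ℕ) :
    Nat.card {g : G // g ^ (Nat.card G * m) = 1} = Nat.card G := by
  apply Nat.card_congr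
  refine Equiv.subtypeUnivEquiv ?_
  intro g
  rw [pow_mul, pow_card_eq_one', one_pow]

theorem main {G : Type u} {H : Type v} [Group G] [Finite G] [Group H] [Finite H] :
    (∀ n : ℕ, Nat.card {g : G // orderOf g = n} = Nat.card {h : H // orderOf h = n}) ↔
      ∀ n : ℕ, Nat.card {g : G // g ^ n = 1} = Nat.card {h : H // h ^ n = 1} := by
  constructor
  · intro h
    have hpos : ∀ n : ℕ, n ≠ 0 →
        Nat.card {g : G // g ^ n = 1} = Nat.card {h : H // h ^ n = 1} := by
      intro n hn
      rw [card_pow_eq_one_eq_sum n hn, card_pow_eq_one_eq_sum n hn]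
      exact Finset.sum_congr rfl (fun d _ => h d)
    have hcard : Nat.card G = Nat.card H := by
      have hN : Nat.card G * Nat.card H ≠ 0 := Nat.mul_ne_zero Nat.card_pos.ne' Nat.card_pos.ne'
      have e := hpos _ hN
      rw [card_pow_card] at e
      rw [e, mul_comm, card_pow_card]
    intro n
    rcases Nat.eq_zero_or_pos n with rfl | hn
    · have e1 := card_pow_card (G := G) 0
      have e2 := card_pow_card (G := H) 0
      rw [mul_zero] at e1 e2
      rw [e1, e2, hcard]
    · exact hpos n hn.ne'
  · intro h n
    induction n using Nat.strong_induction_on with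
    | _ n ih =>
      rcases Nat.eq_zero_or_pos n with rfl | hn
      · rw [card_order_zero, card_order_zero]
      · have e := h n
        have hd : n.divisors = insert n n.properDivisors :=
          (Nat.insert_self_properDivisors hn.ne').symm
        have hnm : n ∉ n.properDivisors := fun h => lt_irrefl n (Nat.mem_properDivisors.1 h).2
        rw [card_pow_eq_one_eq_sum n hn.ne', card_pow_eq_one_eq_sum n hn.ne', hd,
          Finset.sum_insert hnm, Finset.sum_insert hnm] at e
        have e2 : ∑ d ∈ n.properDivisors, Nat.card {g : G // orderOf g = d}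
            = ∑ d ∈ n.properDivisors, Nat.card {h : H // orderOf h = d} :=
          Finset.sum_congr rfl (fun d hd => ih d (Nat.mem_properDivisors.1 hd).2)
        rw [e2] at e
        exact Nat.add_right_cancel e

end

/-- Two finite groups have the same number of elements of each order if and only if, for every n, they have the same number of elements g with gⁿ = 1. -/
theorem result {G H : Type*} [Group G] [Finite G] [Group H] [Finite H] :
    (∀ n : ℕ, Nat.card {g : G // orderOf g = n} = Nat.card {h : H // orderOf h = n}) ↔
      ∀ n : ℕ, Nat.card {g : G // g ^ n = 1} = Nat.card {h : H // h ^ n = 1} := by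
  exact main

end Cfsg.Agent.S4377
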