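import Cfsg.Statements.S4387
-- import your own Cfsg.Agent.* helpers here
import Mathlib
import Cfsg.Agent.Lib.Helper7.ConjUnion

set_option autoImplicit false
open Pointwise
open Cfsg

namespace Cfsg.Agent.S4387

/-- Let G be a non-trivial finite group in which any two maximal subgroups are conjugate. Then G is cyclic of prime-power order. -/
theorem result {G : Type*} [Group G] [Finite G] [Nontrivial G]
    (h : ∀ M N : Subgroup G, IsCoatom M → IsCoatom N → ∃ g : G, N = MulAut.conj g • M) :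
    IsCyclic G ∧ IsPrimePow (Nat.card G) := by
  obtain ⟨M, hM⟩ : ∃ M : Subgroup G, IsCoatom M := by
    rcases eq_top_or_exists_le_coatom (⊥ : Subgroup G) with h1 | ⟨M, hM, _⟩
    · exact absurd h1 bot_ne_top
    · exact ⟨M, hM⟩
  obtain ⟨x, hx⟩ := Cfsg.Agent.Lib.Helper7.exists_not_mem_conj M hM.1
  have hzp : Subgroup.zpowers x = ⊤ := by
    by_contra hne
    obtain ⟨N, hN, hle⟩ := (eq_top_or_exists_le_coatom (Subgroup.zpowers x)).resolve_left hne
    obtain ⟨g, hg⟩ := h M N hM hN
    apply hx g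
    rw [← hg]
    exact hle (Subgroup.mem_zpowers x)
  have hmem : ∀ y : G, y ∈ Subgroup.zpowers x := fun y => by rw [hzp]; trivial
  have hcyc : IsCyclic G := ⟨⟨x, hmem⟩⟩
  refine ⟨hcyc, ?_⟩
  have hcomm : ∀ a b : G, a * b = b * a := fun a b => by
    obtain ⟨i, rfl⟩ := hmem a
    obtain ⟨j, rfl⟩ := hmem b
    rw [← zpow_add, ← zpow_add, add_comm]
  have huniq : ∀ N : Subgroup G, IsCoatom N → N = M := by
    intro N hN
    obtain ⟨g, hg⟩ := h M N hM hN
    rw [hg]
    ext y
    rw [Cfsg.Agent.Lib.Helper7.mem_conj_smul_iff]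
    have : g⁻¹ * y * g = y := by rw [hcomm g⁻¹ y, mul_assoc, inv_mul_cancel, mul_one]
    rw [this]
  have hcard1 : Nat.card G ≠ 1 := (Finite.one_lt_card (α := G)).ne'
  have hord : orderOf x = Nat.card G := orderOf_eq_card_of_forall_mem_zpowers hmem
  have hxM : x ∉ M := fun hx' => hM.1 (by
    rw [eq_top_iff, ← hzp]; exact (Subgroup.zpowers_le.mpr hx'))
  have key : ∀ p : ℕ, p.Prime → p ∣ Nat.card G → x ^ p ∈ M := by
    intro p hp hdvd
    have hne : Subgroup.zpowers (x ^ p) ≠ ⊤ := by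
      intro htop
      have h1 : Nat.card (Subgroup.zpowers (x ^ p)) = Nat.card G := by
        rw [htop, Subgroup.card_top]
      rw [Nat.card_zpowers, orderOf_pow_of_dvd hp.ne_zero (hord ▸ hdvd), hord] at h1
      have : Nat.card G / p < Nat.card G := Nat.div_lt_self Nat.card_pos hp.one_lt
      omega
    obtain ⟨N, hN, hle⟩ := (eq_top_or_exists_le_coatom _).resolve_left hne
    rw [huniq N hN] at hle
    exact hle (Subgroup.mem_zpowers _)
  obtain ⟨p, hp, hdvd⟩ := Nat.exists_prime_and_dvd hcard1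
  have huq : ∀ {q : ℕ}, q.Prime → q ∣ Nat.card G → q = p := by
    intro q hq hqd
    by_contra hne
    have hcop : Nat.Coprime q p := (Nat.coprime_primes hq hp).mpr hne
    apply hxM
    have h1 := key p hp hdvd
    have h2 := key q hq hqd
    have hx1 : x = (x ^ q) ^ (Nat.gcdA q p) * (x ^ p) ^ (Nat.gcdB q p) := by
      rw [← zpow_natCast, ← zpow_natCast, ← zpow_mul, ← zpow_mul, ← zpow_add,
        ← Nat.gcd_eq_gcd_ab, hcop.gcd_eq_one]
      simp
    rw [hx1]
    exact M.mul_mem (M.zpow_mem h2 _) (M.zpow_mem h1 _)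
  have hpow := Nat.eq_prime_pow_of_unique_prime_dvd (Nat.card_pos (α := G)).ne' huq
  rw [isPrimePow_nat_iff]
  refine ⟨p, (Nat.card G).primeFactorsList.length, hp, ?_, hpow.symm⟩
  by_contra h0
  rw [Nat.eq_zero_of_not_pos h0, pow_zero] at hpow
  exact hcard1 hpow

end Cfsg.Agent.S4387
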