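import Mathlib
import Cfsg.Statements.S4405
import Cfsg.Agent.S0099
import Cfsg.Agent.S3763
import Cfsg.Agent.S1784
import Cfsg.Agent.Lib.Helper7.PCore

set_option autoImplicit false

namespace Cfsg.Agent.S4405

open scoped commutatorElement Pointwise
open Cfsg.Agent.S0099 Cfsg.Agent.S3763

universe u

section elevel

variable {E : Type u} [Group E] [Finite E]

theorem aut_fix (hXS : XS 2 E) (α : MulAut E) (w : E) (hw : w ∈ Subgroup.center E) :
    α w = w := by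
  by_cases hw1 : w = 1
  · rw [hw1, map_one]
  · have h1 : α w ∈ Subgroup.center E := by
      rw [Subgroup.mem_center_iff]
      intro g
      have h2 := Subgroup.mem_center_iff.1 hw (α⁻¹ g)
      have h3 := congrArg α h2
      rw [map_mul, map_mul, MulAut.apply_inv_self] at h3
      exact h3
    rcases central_cases hXS w hw hw1 (α w) h1 with h | h
    · exfalso; apply hw1
      have : α w = α 1 := by rw [h, map_one]
      exact α.injective this
    · exact h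

/-- fixed points of an automorphism -/
def fixS (α : MulAut E) : Subgroup E where
  carrier := {e | α e = e}
  one_mem' := map_one α
  mul_mem' := by
    intro a b ha hb
    have ha' : α a = a := ha
    have hb' : α b = b := hb
    show α (a * b) = a * b
    rw [map_mul, ha', hb']
  inv_mem' := by
    intro a ha
    have ha' : α a = a := ha
    show α a⁻¹ = a⁻¹
    rw [map_inv, ha']

theorem mem_fixS (α : MulAut E) (e : E) : e ∈ fixS α ↔ α e = e := Iff.rfl

theorem count5 (τ : MulAut E) (hτ5 : τ ^ 5 = 1) (X : Subgroup E) (hX : ∀ x ∈ X, τ x ∈ X) :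
    Nat.card X ≡ Nat.card ↥(X ⊓ fixS τ) [MOD 5] := by
  classical
  haveI := Fintype.ofFinite ↥X
  haveI : Fact (Nat.Prime 5) := ⟨by norm_num⟩
  obtain ⟨f, hf⟩ : ∃ f : Function.End ↥X, ∀ x : ↥X, ((f x : ↥X) : E) = τ x :=
    ⟨fun x => ⟨τ x, hX x x.2⟩, fun x => rfl⟩
  have hpow : ∀ n : ℕ, ∀ x : ↥X, (((f ^ n) x : ↥X) : E) = (τ ^ n) x := by
    intro n
    induction n with
    | zero => intro x; rfl
    | succ n ih =>
      intro x
      have e1 : f ^ (n + 1) = f ^ n * f := pow_succ f n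
      have e2 : τ ^ (n + 1) = τ ^ n * τ := pow_succ τ n
      rw [e1, e2]
      show (((f ^ n) (f x) : ↥X) : E) = (τ ^ n) (τ x)
      rw [ih (f x), hf]
  have hf5 : f ^ 5 ^ 1 = 1 := by
    rw [pow_one]
    funext x
    apply Subtype.ext
    rw [hpow 5 x, hτ5]
    rfl
  have h := Equiv.Perm.card_fixedPoints_modEq (p := 5) (n := 1) hf5
  rw [Fintype.card_eq_nat_card, Fintype.card_eq_nat_card] at h
  have e : Nat.card ↥(X ⊓ fixS τ) = Nat.card ↥(Function.fixedPoints f) := Nat.card_congr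
    { toFun := fun w => ⟨⟨w.1, (Subgroup.mem_inf.1 w.2).1⟩,
        Subtype.ext ((hf _).trans (Subgroup.mem_inf.1 w.2).2)⟩
      invFun := fun v => ⟨v.1.1, Subgroup.mem_inf.2 ⟨v.1.2,
        ((hf v.1).symm.trans (congrArg Subtype.val v.2) : τ (v.1 : E) = v.1)⟩⟩
      left_inv := fun w => rfl
      right_inv := fun v => rfl }
  rw [e]
  exact h

theorem fix5 (hXS : XS 2 E) (h32 : Nat.card E = 32) (τ : MulAut E) (hτ5 : τ ^ 5 = 1)
    (hτ1 : τ ≠ 1) (e : E) (he : τ e = e) : e ∈ Subgroup.center E := by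
  have h1 := count5 τ hτ5 ⊤ (fun x _ => Subgroup.mem_top _)
  rw [Subgroup.card_top, h32, top_inf_eq] at h1
  have h2 : Nat.card ↥(fixS τ) ∣ 2 ^ 5 := by
    have : Nat.card ↥(fixS τ) ∣ Nat.card E := Subgroup.card_subgroup_dvd_card _
    rw [h32] at this
    exact this
  have h3 : Subgroup.center E ≤ fixS τ := fun w hw => aut_fix hXS τ w hw
  have h4 : Nat.card ↥(fixS τ) ≠ 32 := by
    intro h
    apply hτ1
    have htop : fixS τ = ⊤ := Subgroup.eq_top_of_card_eq _ (by rw [h, h32])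
    ext x
    have : x ∈ fixS τ := by rw [htop]; exact Subgroup.mem_top x
    exact this
  have h5 : Nat.card ↥(fixS τ) = 2 := by
    obtain ⟨k, hk, hk'⟩ := (Nat.dvd_prime_pow Nat.prime_two).1 h2
    rw [hk'] at h1 h4 ⊢
    unfold Nat.ModEq at h1
    interval_cases k <;> revert h1 h4 <;> decide
  have h6 : Subgroup.center E = fixS τ :=
    Subgroup.eq_of_le_of_card_ge h3 (by rw [h5, hXS.2.2])
  rw [h6]; exact he

theorem pow_fix (hXS : XS 2 E) (γ : MulAut E) (e : E) (he : γ e * e⁻¹ ∈ Subgroup.center E) :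
    ∀ n : ℕ, (γ ^ n) e = e * (γ e * e⁻¹) ^ n := by
  intro n
  induction n with
  | zero => rw [pow_zero, pow_zero, mul_one]; rfl
  | succ n ih =>
    have h1 : γ ^ (n + 1) = γ * γ ^ n := pow_succ' γ n
    rw [h1, MulAut.mul_apply, ih, map_mul, map_pow, aut_fix hXS γ _ he, pow_succ]
    calc γ e * (γ e * e⁻¹) ^ n = (γ e * e⁻¹) * e * (γ e * e⁻¹) ^ n := by group
      _ = e * (γ e * e⁻¹) * (γ e * e⁻¹) ^ n := by rw [Subgroup.mem_center_iff.1 he e]
      _ = e * ((γ e * e⁻¹) ^ n * (γ e * e⁻¹)) := by rw [mul_assoc, ← pow_succ', pow_succ]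

theorem fpf (hXS : XS 2 E) (h32 : Nat.card E = 32) (φ : MulAut E) (hφ5 : φ ^ 5 = 1)
    (hφ1 : φ ≠ 1) (e : E) (he : φ e * e⁻¹ ∈ Subgroup.center E) : e ∈ Subgroup.center E := by
  have h1 := pow_fix hXS φ e he 5
  rw [hφ5] at h1
  have h2 : (φ e * e⁻¹) ^ 5 = 1 := by
    have h1' : e * 1 = e * (φ e * e⁻¹) ^ 5 := by rw [mul_one]; exact h1
    exact (mul_left_cancel h1').symm
  have h3 : (φ e * e⁻¹) ^ 2 = 1 := central_sq hXS _ he
  have h4 : φ e * e⁻¹ = 1 := by
    have h5 : (φ e * e⁻¹) ^ Nat.gcd 5 2 = 1 := pow_gcd_eq_one.2 ⟨h2, h3⟩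
    have hg : Nat.gcd 5 2 = 1 := by decide
    rw [hg, pow_one] at h5
    exact h5
  exact fix5 hXS h32 φ hφ5 hφ1 e (mul_inv_eq_one.1 h4)

theorem inner_of_trivial (hXS : XS 2 E) (h32 : Nat.card E = 32) (σ : MulAut E)
    (htriv : ∀ e, σ e * e⁻¹ ∈ Subgroup.center E) : ∃ h : E, σ = MulAut.conj h := by
  have hcl := hXS.2.1
  by_cases hσ1 : σ = 1
  · exact ⟨1, by rw [hσ1, map_one]⟩
  obtain ⟨χ, hχ⟩ : ∃ χ : E →* ↥(Subgroup.center E), ∀ e, (χ e : E) = σ e * e⁻¹ :=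
    ⟨MonoidHom.mk' (fun e => ⟨σ e * e⁻¹, htriv e⟩) (by
      intro a b
      apply Subtype.ext
      show σ (a * b) * (a * b)⁻¹ = (σ a * a⁻¹) * (σ b * b⁻¹)
      have h1 := Subgroup.mem_center_iff.1 (htriv b) a⁻¹
      rw [map_mul, mul_inv_rev]
      calc σ a * σ b * (b⁻¹ * a⁻¹) = σ a * (a⁻¹ * (σ b * b⁻¹)) := by rw [h1]; group
        _ = σ a * a⁻¹ * (σ b * b⁻¹) := by group), fun e => rfl⟩
  have hker : ∀ e, e ∈ χ.ker ↔ σ e = e := by
    intro e
    rw [MonoidHom.mem_ker]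
    constructor
    · intro h
      have h1 : (χ e : E) = 1 := by rw [h]; rfl
      rw [hχ] at h1
      exact mul_inv_eq_one.1 h1
    · intro h
      apply Subtype.ext
      rw [hχ, h, mul_inv_cancel]; rfl
  have hk : χ.ker ≠ ⊤ := by
    intro htop
    apply hσ1
    ext x
    exact (hker x).1 (by rw [htop]; exact Subgroup.mem_top x)
  have hcard := Cfsg.Agent.S1784.ker_dich χ hXS.2.2 hk
  have hZle : Subgroup.center E ≤ χ.ker := fun w hw => (hker w).2 (aut_fix hXS σ w hw)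
  have hcount := Cfsg.Agent.S1784.count hcl hXS.2.2 χ.ker hZle
  have hc4 : Nat.card ↥(Subgroup.centralizer (χ.ker : Set E)) = 4 := by
    have h16 : Nat.card ↥χ.ker = 16 := by omega
    rw [h16, h32] at hcount
    omega
  obtain ⟨h, hhC, hhZ⟩ : ∃ h ∈ Subgroup.centralizer (χ.ker : Set E), h ∉ Subgroup.center E := by
    by_contra hno
    push Not at hno
    have : Nat.card ↥(Subgroup.centralizer (χ.ker : Set E)) ≤ Nat.card ↥(Subgroup.center E) :=
      Subgroup.card_le_of_le hno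
    rw [hc4, hXS.2.2] at this
    omega
  have hhk : ∀ m ∈ χ.ker, m * h = h * m := Subgroup.mem_centralizer_iff.1 hhC
  rw [Subgroup.mem_center_iff] at hhZ
  push Not at hhZ
  obtain ⟨e₀, he₀⟩ := hhZ
  have he₀k : e₀ ∉ χ.ker := fun hmem => he₀ (hhk e₀ hmem)
  have hz1 : ⁅h, e₀⁆ ≠ 1 := fun hc => he₀ (commutatorElement_eq_one_iff_commute.1 hc).eq.symm
  have hzc : ⁅h, e₀⁆ ∈ Subgroup.center E := hcl h e₀
  have hval : ∀ e, e ∉ χ.ker → σ e * e⁻¹ = ⁅h, e₀⁆ := by
    intro e hek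
    rcases central_cases hXS _ hzc hz1 (σ e * e⁻¹) (htriv e) with h1 | h1
    · exact absurd ((hker e).2 (mul_inv_eq_one.1 h1)) hek
    · exact h1
  refine ⟨h, ?_⟩
  ext e
  rw [MulAut.conj_apply]
  by_cases hek : e ∈ χ.ker
  · rw [(hker e).1 hek, ← hhk e hek, mul_inv_cancel_right]
  · have h1 := hval e hek
    have h2 := hval e₀ he₀k
    have hm : e₀⁻¹ * e ∈ χ.ker := by
      rw [hker, map_mul, map_inv]
      have e1 : σ e = ⁅h, e₀⁆ * e := by rw [← h1]; group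
      have e2 : σ e₀ = ⁅h, e₀⁆ * e₀ := by rw [← h2]; group
      rw [e1, e2]; group
    have h3 := hhk _ hm
    have e1 : σ e = ⁅h, e₀⁆ * e := by rw [← h1]; group
    rw [e1]
    calc ⁅h, e₀⁆ * e = h * e₀ * h⁻¹ * e₀⁻¹ * e := by rw [commutatorElement_def]
      _ = h * e₀ * (h⁻¹ * ((e₀⁻¹ * e) * h)) * h⁻¹ := by group
      _ = h * e₀ * (h⁻¹ * (h * (e₀⁻¹ * e))) * h⁻¹ := by rw [h3]
      _ = h * e * h⁻¹ := by group

end elevel

section elevel2

variable {E : Type u} [Group E] [Finite E]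

theorem ecore (hXS : XS 2 E) (h32 : Nat.card E = 32)
    (hminus : ∀ A : Subgroup E, (∀ a ∈ A, ∀ b ∈ A, a * b = b * a) → (∀ a ∈ A, a ^ 2 = 1) →
      Nat.card A ≤ 4)
    (σ τ : MulAut E) (hσ2 : σ * σ = 1) (hτ5 : τ ^ 5 = 1) (hτ1 : τ ≠ 1)
    (hinn : ∀ h : E, σ ≠ MulAut.conj h)
    (hg5 : ((σ * τ * σ⁻¹ * τ⁻¹) ^ 2048) ^ 5 = 1)
    (hC : (σ * τ * σ⁻¹ * τ⁻¹) ^ 2048 = 1 → ∃ h : E, σ * τ * σ⁻¹ * τ⁻¹ = MulAut.conj h)
    (D : Subgroup E) (hD : ∀ e, e ∈ D ↔ σ e = e) : Nat.card D ≤ 4 := by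
  have hcl := hXS.2.1
  have hZ := hXS.2.2
  have hσ2' : ∀ e, σ (σ e) = e := by
    intro e
    have : (σ * σ) e = (1 : MulAut E) e := by rw [hσ2]
    exact this
  have hσz : ∀ w ∈ Subgroup.center E, σ w = w := fun w hw => aut_fix hXS σ w hw
  have hσ1 : ∃ e, σ e ≠ e := by
    by_contra hno
    push Not at hno
    apply hinn 1
    rw [map_one]
    ext x
    exact hno x
  have hσinv : σ⁻¹ = σ := inv_eq_of_mul_eq_one_left hσ2
  obtain ⟨K, hK⟩ : ∃ K : Subgroup E,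
    K = Subgroup.closure (Set.range fun e : E => σ e * e⁻¹) := ⟨_, rfl⟩
  have hZK : Subgroup.center E ≤ K := by
    rw [hK]; exact Cfsg.Agent.S1784.coreE hXS σ hσ1
  have hgenK : ∀ e, σ e * e⁻¹ ∈ K := fun e => by
    rw [hK]; exact Subgroup.subset_closure ⟨e, rfl⟩
  obtain ⟨E₁, hE₁⟩ : ∃ E₁ : Subgroup E, E₁ = Subgroup.centralizer (K : Set E) := ⟨_, rfl⟩
  have hE₁mem : ∀ e, e ∈ E₁ ↔ σ e * e⁻¹ ∈ Subgroup.center E := by
    intro e
    rw [hE₁, Subgroup.mem_centralizer_iff]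
    constructor
    · intro h
      exact Cfsg.Agent.S1784.coreD hXS σ hσ2' hσz e (fun e' => h _ (hgenK e'))
    · intro h
      have hall : ∀ k ∈ Subgroup.closure (Set.range fun e : E => σ e * e⁻¹),
          k * e = e * k := by
        intro k hk'
        induction hk' using Subgroup.closure_induction with
        | mem x hx =>
          obtain ⟨e', rfl⟩ := hx
          exact (Cfsg.Agent.S1784.coreI hXS σ hσ2' hσz e').2 e h
        | one => rw [one_mul, mul_one]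
        | mul x y _ _ ihx ihy => rw [mul_assoc, ihy, ← mul_assoc, ihx, mul_assoc]
        | inv x _ ih =>
          have : x⁻¹ * e = x⁻¹ * (e * x) * x⁻¹ := by group
          rw [this, ← ih]; group
      intro k hk
      exact hall k (by rw [← hK]; exact hk)
  have hcount := Cfsg.Agent.S1784.count hcl hZ K hZK
  rw [← hE₁, h32] at hcount
  have hE₁dvd : Nat.card ↥E₁ ∣ 2 ^ 5 := by
    have : Nat.card ↥E₁ ∣ Nat.card E := Subgroup.card_subgroup_dvd_card _
    rw [h32] at this; exact this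
  have hZE₁ : Subgroup.center E ≤ E₁ := by
    intro w hw
    rw [hE₁mem, hσz w hw, mul_inv_cancel]
    exact one_mem _
  have hstep1 : Nat.card ↥E₁ ≠ 32 := by
    intro h
    have htop : E₁ = ⊤ := Subgroup.eq_top_of_card_eq _ (by rw [h, h32])
    obtain ⟨h', hh'⟩ := inner_of_trivial hXS h32 σ
      (fun e => (hE₁mem e).1 (by rw [htop]; exact Subgroup.mem_top e))
    exact hinn h' hh'
  have hstep2 : Nat.card ↥E₁ ≠ 16 := by
    intro h16
    obtain ⟨γ, hγ⟩ : ∃ γ : MulAut E, γ = σ * τ * σ⁻¹ * τ⁻¹ := ⟨_, rfl⟩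
    rw [← hγ] at hg5 hC
    by_cases hφ : γ ^ 2048 = 1
    · obtain ⟨h, hh⟩ := hC hφ
      have hinv : ∀ x ∈ E₁, τ x ∈ E₁ := by
        intro x hx
        rw [hE₁mem] at hx ⊢
        have h1 : σ (τ x) = h * τ (σ x) * h⁻¹ := by
          have h2 : σ * τ = MulAut.conj h * τ * σ := by
            rw [← hh, hγ]; group
          have h3 : (σ * τ) x = (MulAut.conj h * τ * σ) x := by rw [h2]
          rw [MulAut.mul_apply, MulAut.mul_apply, MulAut.mul_apply, MulAut.conj_apply] at h3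
          exact h3
        obtain ⟨ζ, hζ⟩ : ∃ ζ, ζ = σ x * x⁻¹ := ⟨_, rfl⟩
        have hζc : ζ ∈ Subgroup.center E := by rw [hζ]; exact hx
        have h4 : σ x = ζ * x := by rw [hζ]; group
        have h5 : τ (σ x) = ζ * τ x := by rw [h4, map_mul, aut_fix hXS τ ζ hζc]
        rw [h1, h5]
        have h6 : h * (ζ * τ x) * h⁻¹ * (τ x)⁻¹ = ζ * ⁅h, τ x⁆ := by
          rw [commutatorElement_def]
          have h7 := Subgroup.mem_center_iff.1 hζc h
          calc h * (ζ * τ x) * h⁻¹ * (τ x)⁻¹ = (h * ζ) * τ x * h⁻¹ * (τ x)⁻¹ := by group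
            _ = (ζ * h) * τ x * h⁻¹ * (τ x)⁻¹ := by rw [h7]
            _ = ζ * (h * τ x * h⁻¹ * (τ x)⁻¹) := by group
        rw [h6]
        exact Subgroup.mul_mem _ hζc (hcl _ _)
      have hc := count5 τ hτ5 E₁ hinv
      have heq : E₁ ⊓ fixS τ = Subgroup.center E := by
        apply le_antisymm
        · intro x hx
          exact fix5 hXS h32 τ hτ5 hτ1 x (Subgroup.mem_inf.1 hx).2
        · exact le_inf hZE₁ (fun w hw => aut_fix hXS τ w hw)
      rw [heq, hZ, h16] at hc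
      exact absurd hc (by decide)
    · have hφ5 : (γ ^ 2048) ^ 5 = 1 := hg5
      obtain ⟨E₂, hE₂⟩ : ∃ E₂ : Subgroup E, E₂ = E₁.map τ.toMonoidHom := ⟨_, rfl⟩
      have hE₂card : Nat.card ↥E₂ = 16 := by
        rw [hE₂, Subgroup.card_map_of_injective (MulEquiv.injective τ), h16]
      have hi1 : E₁.index = 2 := by
        have := Subgroup.card_mul_index E₁; rw [h16, h32] at this; omega
      have hi2 : E₂.index = 2 := by
        have := Subgroup.card_mul_index E₂; rw [hE₂card, h32] at this; omega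
      have hi3 : (E₁ ⊓ E₂).index ≤ 4 := by
        have := Subgroup.index_inf_le (H := E₁) (K := E₂); rw [hi1, hi2] at this; exact this
      have hc8 : 8 ≤ Nat.card ↥(E₁ ⊓ E₂) := by
        have h1 := Subgroup.card_mul_index (E₁ ⊓ E₂)
        rw [h32] at h1
        have h2 := Nat.mul_le_mul_left (Nat.card ↥(E₁ ⊓ E₂)) hi3
        rw [h1] at h2
        omega
      obtain ⟨e, heI, heZ⟩ : ∃ e ∈ E₁ ⊓ E₂, e ∉ Subgroup.center E := by
        by_contra hno
        push Not at hno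
        have := Subgroup.card_le_of_le hno
        rw [hZ] at this
        omega
      obtain ⟨he1, he2⟩ := Subgroup.mem_inf.1 heI
      rw [hE₂] at he2
      obtain ⟨e₀, he₀, he₀e⟩ := Subgroup.mem_map.1 he2
      have he₀e' : τ e₀ = e := he₀e
      rw [hE₁mem] at he1
      have he₀' := (hE₁mem e₀).1 he₀
      obtain ⟨ζ₁, hζ₁⟩ : ∃ ζ, ζ = σ e * e⁻¹ := ⟨_, rfl⟩
      obtain ⟨ζ₀, hζ₀⟩ : ∃ ζ, ζ = σ e₀ * e₀⁻¹ := ⟨_, rfl⟩
      have hζ₁c : ζ₁ ∈ Subgroup.center E := by rw [hζ₁]; exact he1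
      have hζ₀c : ζ₀ ∈ Subgroup.center E := by rw [hζ₀]; exact he₀'
      have h4 : σ e = ζ₁ * e := by rw [hζ₁]; group
      have h5 : σ e₀ = ζ₀ * e₀ := by rw [hζ₀]; group
      have hγe : γ e = ζ₁ * ζ₀ * e := by
        rw [hγ, hσinv, MulAut.mul_apply, MulAut.mul_apply, MulAut.mul_apply]
        have h6 : τ⁻¹ e = e₀ := by rw [← he₀e', MulAut.inv_apply_self]
        rw [h6, h5, map_mul, aut_fix hXS τ ζ₀ hζ₀c, he₀e', map_mul, aut_fix hXS σ ζ₀ hζ₀c, h4,
          ← mul_assoc, Subgroup.mem_center_iff.1 hζ₁c ζ₀]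
      have hγc : γ e * e⁻¹ ∈ Subgroup.center E := by
        rw [hγe, mul_inv_cancel_right]
        exact Subgroup.mul_mem _ hζ₁c hζ₀c
      have hφc : (γ ^ 2048) e * e⁻¹ ∈ Subgroup.center E := by
        rw [pow_fix hXS γ e hγc 2048]
        have hX : (γ e * e⁻¹) ^ 2048 ∈ Subgroup.center E := Subgroup.pow_mem _ hγc _
        rw [Subgroup.mem_center_iff.1 hX e, mul_inv_cancel_right]
        exact hX
      exact heZ (fpf hXS h32 (γ ^ 2048) hφ5 hφ e hφc)
  have hE₁8 : Nat.card ↥E₁ ≤ 8 := by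
    obtain ⟨k, hk, hk'⟩ := (Nat.dvd_prime_pow Nat.prime_two).1 hE₁dvd
    rw [hk'] at hstep1 hstep2 ⊢
    interval_cases k <;> revert hstep1 hstep2 <;> decide
  have hDE₁ : D ≤ E₁ := by
    intro e he
    rw [hE₁mem, (hD e).1 he, mul_inv_cancel]
    exact one_mem _
  by_contra hgt
  push Not at hgt
  have hDdvd : Nat.card ↥D ∣ 2 ^ 5 := by
    have : Nat.card ↥D ∣ Nat.card E := Subgroup.card_subgroup_dvd_card _
    rw [h32] at this; exact this
  have hDle : Nat.card ↥D ≤ Nat.card ↥E₁ := Subgroup.card_le_of_le hDE₁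
  have hD8 : Nat.card ↥D = 8 := by
    obtain ⟨k, hk, hk'⟩ := (Nat.dvd_prime_pow Nat.prime_two).1 hDdvd
    rw [hk'] at hgt hDle ⊢
    have h8 : 2 ^ k ≤ 8 := hDle.trans hE₁8
    interval_cases k <;> revert hgt h8 <;> decide
  have hE₁eq : Nat.card ↥E₁ = 8 := by omega
  have hDeq : D = E₁ := Subgroup.eq_of_le_of_card_ge hDE₁ (by rw [hD8, hE₁eq])
  have hK8 : Nat.card ↥K = 8 := by
    rw [hE₁eq] at hcount; omega
  have hgen_sq : ∀ a ∈ (Set.range fun e : E => σ e * e⁻¹), a ^ 2 = 1 := by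
    rintro _ ⟨e, rfl⟩
    have h1 : σ e * e⁻¹ ∈ E₁ :=
      (hE₁mem _).2 (Cfsg.Agent.S1784.coreI hXS σ hσ2' hσz e).1
    rw [← hDeq, hD] at h1
    rw [map_mul, map_inv, hσ2'] at h1
    show (σ e * e⁻¹) ^ 2 = 1
    rw [pow_two]
    calc σ e * e⁻¹ * (σ e * e⁻¹) = (e * (σ e)⁻¹) * (σ e * e⁻¹) := by rw [h1]
      _ = 1 := by group
  have hgen_comm : ∀ a ∈ (Set.range fun e : E => σ e * e⁻¹),
      ∀ b ∈ (Set.range fun e : E => σ e * e⁻¹), a * b = b * a := by
    rintro _ ⟨e, rfl⟩ _ ⟨e', rfl⟩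
    exact (Cfsg.Agent.S1784.coreI hXS σ hσ2' hσz e).2 _
      (Cfsg.Agent.S1784.coreI hXS σ hσ2' hσz e').1
  obtain ⟨hKc, hKs⟩ := elem_closure _ hgen_comm hgen_sq
  have hfin := hminus K (by rw [hK]; exact hKc) (by rw [hK]; exact hKs)
  omega

end elevel2


section glevel

variable {G : Type u} [Group G] [Finite G]

theorem h_five (H : Subgroup G) (h32 : Nat.card ↥H = 32) (x : G) (hx : x ∈ H)
    (h5 : x ^ 5 = 1) : x = 1 := by
  have h1 : (⟨x, hx⟩ : ↥H) ^ Nat.card ↥H = 1 := pow_card_eq_one'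
  rw [h32] at h1
  have h2 : x ^ 32 = 1 := congrArg Subtype.val h1
  have h3 : x ^ Nat.gcd 32 5 = 1 := pow_gcd_eq_one.2 ⟨h2, h5⟩
  have hg : Nat.gcd 32 5 = 1 := by decide
  rw [hg, pow_one] at h3
  exact h3

theorem N_normal (hG : Nat.card G = 320) (H : Subgroup G) (h32 : Nat.card ↥H = 32) (f : G)
    (hf : orderOf f = 5) : (H ⊔ Subgroup.zpowers f).Normal := by
  have h1 : 32 ∣ Nat.card ↥(H ⊔ Subgroup.zpowers f) := by
    rw [← h32]; exact Subgroup.card_dvd_of_le le_sup_left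
  have h2 : 5 ∣ Nat.card ↥(H ⊔ Subgroup.zpowers f) := by
    have : Nat.card ↥(Subgroup.zpowers f) ∣ Nat.card ↥(H ⊔ Subgroup.zpowers f) :=
      Subgroup.card_dvd_of_le le_sup_right
    rwa [Nat.card_zpowers, hf] at this
  have h4 := Subgroup.card_mul_index (H ⊔ Subgroup.zpowers f)
  rw [hG] at h4
  obtain ⟨c, hc⟩ := Nat.Coprime.mul_dvd_of_dvd_of_dvd (by decide : Nat.Coprime 32 5) h1 h2
  rw [hc] at h4
  have h6 : c * (H ⊔ Subgroup.zpowers f).index = 2 :=
    Nat.eq_of_mul_eq_mul_left (by norm_num : 0 < 160)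
      (by calc 160 * (c * (H ⊔ Subgroup.zpowers f).index)
            = 32 * 5 * c * (H ⊔ Subgroup.zpowers f).index := by ring
          _ = 320 := h4
          _ = 160 * 2 := by norm_num)
  have h7 : (H ⊔ Subgroup.zpowers f).index ∣ 2 := Dvd.intro_left c h6
  rcases (Nat.dvd_prime Nat.prime_two).1 h7 with h | h
  · rw [Subgroup.index_eq_one.1 h]
    infer_instance
  · exact Subgroup.normal_of_index_eq_two h

theorem two_elt (H : Subgroup G) [H.Normal] (h32 : Nat.card ↥H = 32) (f : G) (hf : f ^ 5 = 1)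
    (x : G) (hx : x ∈ H ⊔ Subgroup.zpowers f) (k : ℕ) (hxk : x ^ (2 ^ k) = 1) : x ∈ H := by
  have h1 : x ∈ ((H ⊔ Subgroup.zpowers f : Subgroup G) : Set G) := hx
  rw [Subgroup.normal_mul, Set.mem_mul] at h1
  obtain ⟨h, hh, w, hw, rfl⟩ := h1
  obtain ⟨j, rfl⟩ := Subgroup.mem_zpowers_iff.1 hw
  have hw5 : (f ^ j) ^ 5 = 1 := by
    rw [← zpow_natCast, ← zpow_mul, mul_comm, zpow_mul, zpow_natCast, hf, one_zpow]
  have h2 : ((h * f ^ j : G) : G ⧸ H) = ((f ^ j : G) : G ⧸ H) := by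
    rw [QuotientGroup.mk_mul, (QuotientGroup.eq_one_iff h).2 hh, one_mul]
  have h3 : (((f ^ j) ^ (2 ^ k) : G) : G ⧸ H) = 1 := by
    rw [QuotientGroup.mk_pow, ← h2, ← QuotientGroup.mk_pow, hxk]; rfl
  have h4 : (f ^ j) ^ (2 ^ k) ∈ H := (QuotientGroup.eq_one_iff _).1 h3
  have h5 : ((f ^ j) ^ (2 ^ k)) ^ 5 = 1 := by
    rw [← pow_mul, mul_comm, pow_mul, hw5, one_pow]
  have h6 : (f ^ j) ^ (2 ^ k) = 1 := h_five H h32 _ h4 h5
  have h7 : f ^ j = 1 := by
    have h8 : orderOf (f ^ j) ∣ 2 ^ k := orderOf_dvd_of_pow_eq_one h6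
    have h9 : orderOf (f ^ j) ∣ 5 := orderOf_dvd_of_pow_eq_one hw5
    rcases (Nat.dvd_prime (by norm_num : Nat.Prime 5)).1 h9 with h | h
    · exact orderOf_eq_one_iff.1 h
    · exfalso
      rw [h] at h8
      have := Nat.Prime.dvd_of_dvd_pow (by norm_num : Nat.Prime 5) h8
      omega
  rw [h7, mul_one]; exact hh

theorem cent_le (hG : Nat.card G = 320) (H : Subgroup G) [hHn : H.Normal]
    (h32 : Nat.card ↥H = 32)
    (hO2 : ∀ N : Subgroup G, N.Normal → IsPGroup 2 ↥N → N ≤ H)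
    (hF : ∀ N : Subgroup G, N.Normal → Group.IsNilpotent ↥N → N ≤ H) :
    Subgroup.centralizer (H : Set G) ≤ H := by
  have hCn : (Subgroup.centralizer (H : Set G)).Normal := Subgroup.normal_centralizer
  apply hO2 _ hCn
  have hdvd : Nat.card ↥(Subgroup.centralizer (H : Set G)) ∣ 2 ^ 6 * 5 := by
    have := Subgroup.card_subgroup_dvd_card (Subgroup.centralizer (H : Set G))
    rw [hG] at this; exact this
  have h5 : ¬ 5 ∣ Nat.card ↥(Subgroup.centralizer (H : Set G)) := by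
    intro h5
    haveI : Fact (Nat.Prime 5) := ⟨by norm_num⟩
    obtain ⟨x, hx⟩ := exists_prime_orderOf_dvd_card'
      (G := ↥(Subgroup.centralizer (H : Set G))) 5 h5
    have hf : orderOf (x : G) = 5 := by rw [Subgroup.orderOf_coe]; exact hx
    have hxC : ∀ h ∈ H, h * (x : G) = x * h := Subgroup.mem_centralizer_iff.1 x.2
    have hf5 : (x : G) ^ 5 = 1 := by rw [← hf]; exact pow_orderOf_eq_one _
    have hNn := N_normal hG H h32 (x : G) hf
    have hzn : (Subgroup.zpowers (x : G)).Normal := by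
      constructor
      intro n hn g
      obtain ⟨j, rfl⟩ := Subgroup.mem_zpowers_iff.1 hn
      rw [← conj_zpow]
      apply Subgroup.zpow_mem
      have h1 : g * (x : G) * g⁻¹ ∈ H ⊔ Subgroup.zpowers (x : G) :=
        hNn.conj_mem _ (Subgroup.mem_sup_right (Subgroup.mem_zpowers _)) g
      have h1' : g * (x : G) * g⁻¹ ∈ ((H ⊔ Subgroup.zpowers (x : G) : Subgroup G) : Set G) := h1
      rw [Subgroup.normal_mul, Set.mem_mul] at h1'
      obtain ⟨h, hh, w, hw, hhw⟩ := h1'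
      have hwc : Commute h w := by
        obtain ⟨i, rfl⟩ := Subgroup.mem_zpowers_iff.1 hw
        exact Commute.zpow_right (hxC h hh) i
      have hw5 : w ^ 5 = 1 := by
        obtain ⟨i, rfl⟩ := Subgroup.mem_zpowers_iff.1 hw
        rw [← zpow_natCast, ← zpow_mul, mul_comm, zpow_mul, zpow_natCast, hf5, one_zpow]
      have h2 : (h * w) ^ 5 = 1 := by
        rw [hhw, conj_pow, hf5]; group
      have h3 : h ^ 5 = 1 := by
        have h4 := hwc.mul_pow 5
        rw [h2, hw5, mul_one] at h4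
        exact h4.symm
      have h4 : h = 1 := h_five H h32 h hh h3
      rw [← hhw, h4, one_mul]
      exact hw
    have hnil : Group.IsNilpotent ↥(Subgroup.zpowers (x : G)) :=
      ⟨⟨1, Subgroup.upperCentralSeries_one_eq_top_iff.2 (Subgroup.zpowers_isMulCommutative _)⟩⟩
    have hle := hF _ hzn hnil
    have hxH : (x : G) ∈ H := hle (Subgroup.mem_zpowers _)
    have hx1 : (x : G) = 1 := h_five H h32 _ hxH hf5
    rw [hx1, orderOf_one] at hf
    omega
  have hpow : Nat.card ↥(Subgroup.centralizer (H : Set G)) ∣ 2 ^ 6 :=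
    Nat.Coprime.dvd_of_dvd_mul_right
      ((Nat.Prime.coprime_iff_not_dvd (by norm_num : Nat.Prime 5)).2 h5).symm hdvd
  obtain ⟨k, -, hk⟩ := (Nat.dvd_prime_pow Nat.prime_two).1 hpow
  exact IsPGroup.of_card hk

theorem core (hG : Nat.card G = 320) (H : Subgroup G) [hHn : H.Normal]
    (hXS : XS 2 ↥H) (h32 : Nat.card ↥H = 32)
    (hO2 : ∀ N : Subgroup G, N.Normal → IsPGroup 2 ↥N → N ≤ H)
    (hF : ∀ N : Subgroup G, N.Normal → Group.IsNilpotent ↥N → N ≤ H)
    (hminus : ∀ A : Subgroup G, A ≤ H → Cfsg.IsElementaryAbelian 2 A → Nat.card ↥A ≤ 4)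
    (T : G) (hT : orderOf T = 2) (hTH : T ∉ H) :
    Nat.card ↥(H ⊓ Subgroup.centralizer ({T} : Set G)) ≤ 4 := by
  have hcent := cent_le hG H h32 hO2 hF
  obtain ⟨ρ, hρ⟩ : ∃ ρ : G →* MulAut ↥H,
      ∀ (g : G) (h : ↥H), ((ρ g h : ↥H) : G) = g * h * g⁻¹ :=
    ⟨MulAut.conjNormal, fun g h => MulAut.conjNormal_apply g h⟩
  have hρker : ∀ g : G, ρ g = 1 → g ∈ H := by
    intro g hg
    apply hcent
    rw [Subgroup.mem_centralizer_iff]
    intro h hh
    have h1 := hρ g ⟨h, hh⟩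
    rw [hg] at h1
    have h2 : h = g * h * g⁻¹ := h1
    calc h * g = (g * h * g⁻¹) * g := by rw [← h2]
      _ = g * h := by group
  have hρH : ∀ h : ↥H, ρ (h : G) = MulAut.conj h := by
    intro h
    refine MulEquiv.ext (fun x => Subtype.ext ?_)
    rw [hρ, MulAut.conj_apply]
    rfl
  haveI : Fact (Nat.Prime 5) := ⟨by norm_num⟩
  obtain ⟨f, hf⟩ := exists_prime_orderOf_dvd_card' (G := G) 5 (by rw [hG]; norm_num)
  have hf5 : f ^ 5 = 1 := by rw [← hf]; exact pow_orderOf_eq_one f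
  have hT2 : T * T = 1 := by
    have := pow_orderOf_eq_one T
    rw [hT, pow_two] at this
    exact this
  have hfH : f ∉ H := by
    intro h
    have h1 := h_five H h32 f h hf5
    rw [h1, orderOf_one] at hf
    omega
  have hminusE : ∀ A : Subgroup ↥H, (∀ a ∈ A, ∀ b ∈ A, a * b = b * a) →
      (∀ a ∈ A, a ^ 2 = 1) → Nat.card A ≤ 4 := by
    intro A hc hs
    have h1 := hminus (A.map H.subtype) (Subgroup.map_subtype_le A) ⟨⟨⟨?_⟩⟩, ?_⟩
    · rw [Subgroup.card_map_of_injective H.subtype_injective] at h1; exact h1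
    · rintro ⟨a, ha⟩ ⟨b, hb⟩
      obtain ⟨a', ha', rfl⟩ := ha
      obtain ⟨b', hb', rfl⟩ := hb
      apply Subtype.ext
      show (a' : G) * (b' : G) = (b' : G) * (a' : G)
      rw [← Subgroup.coe_mul, ← Subgroup.coe_mul, hc a' ha' b' hb']
    · rintro a ⟨a', ha', rfl⟩
      exact congrArg Subtype.val (hs a' ha')
  obtain ⟨D, hDdef⟩ : ∃ D : Subgroup ↥H,
      D = (H ⊓ Subgroup.centralizer ({T} : Set G)).subgroupOf H := ⟨_, rfl⟩
  have hDmem : ∀ e : ↥H, e ∈ D ↔ ρ T e = e := by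
    intro e
    rw [hDdef, Subgroup.mem_subgroupOf, Subgroup.mem_inf, Subgroup.mem_centralizer_iff]
    constructor
    · rintro ⟨-, h⟩
      apply Subtype.ext
      rw [hρ]
      have h1 : T * (e : G) = e * T := h T rfl
      rw [h1]; group
    · intro h
      refine ⟨e.2, ?_⟩
      intro g hg
      rw [Set.mem_singleton_iff.1 hg]
      have h1 := hρ T e
      rw [h] at h1
      calc T * (e : G) = T * (e : G) * T⁻¹ * T := by group
        _ = (e : G) * T := by rw [← h1]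
  have hcardD : Nat.card ↥D = Nat.card ↥(H ⊓ Subgroup.centralizer ({T} : Set G)) := by
    rw [hDdef]
    exact Nat.card_congr (Subgroup.subgroupOfEquivOfLe inf_le_left).toEquiv
  rw [← hcardD]
  have hγ : ρ T * ρ f * (ρ T)⁻¹ * (ρ f)⁻¹ = ρ (T * f * T⁻¹ * f⁻¹) := by
    rw [map_mul, map_mul, map_mul, map_inv, map_inv]
  apply ecore hXS h32 hminusE (ρ T) (ρ f) ?_ ?_ ?_ ?_ ?_ ?_ D hDmem
  · rw [← map_mul, hT2, map_one]
  · rw [← map_pow, hf5, map_one]
  · intro h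
    exact hfH (hρker f h)
  · intro h hh
    apply hTH
    have h1 : ρ (T * (h : G)⁻¹) = 1 := by
      rw [map_mul, map_inv, hρH, hh, mul_inv_cancel]
    have h2 := hρker _ h1
    have h3 : T = T * (h : G)⁻¹ * h := by group
    rw [h3]
    exact H.mul_mem h2 h.2
  · rw [hγ, ← map_pow, ← map_pow, ← pow_mul]
    have h0 : (T * f * T⁻¹ * f⁻¹) ^ (2048 * 5) = 1 := by
      have h1 : (T * f * T⁻¹ * f⁻¹) ^ Nat.card G = 1 := pow_card_eq_one'
      rw [hG] at h1
      have h2 : (2048 * 5 : ℕ) = 320 * 32 := by norm_num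
      rw [h2, pow_mul, h1, one_pow]
    rw [h0, map_one]
  · intro h
    rw [hγ] at h ⊢
    rw [← map_pow] at h
    have h1 := hρker _ h
    have hNn := N_normal hG H h32 f hf
    have hgN : T * f * T⁻¹ * f⁻¹ ∈ H ⊔ Subgroup.zpowers f :=
      Subgroup.mul_mem _ (hNn.conj_mem _ (Subgroup.mem_sup_right (Subgroup.mem_zpowers f)) T)
        (Subgroup.inv_mem _ (Subgroup.mem_sup_right (Subgroup.mem_zpowers f)))
    have h2 : ((T * f * T⁻¹ * f⁻¹) ^ 2048) ^ 32 = 1 := by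
      have h3 : (⟨_, h1⟩ : ↥H) ^ Nat.card ↥H = 1 := pow_card_eq_one'
      rw [h32] at h3
      exact congrArg Subtype.val h3
    have h4 : (T * f * T⁻¹ * f⁻¹) ^ (2 ^ 16) = 1 := by
      rw [← pow_mul] at h2
      have h5 : (2048 * 32 : ℕ) = 2 ^ 16 := by norm_num
      rw [h5] at h2; exact h2
    have hgH := two_elt H h32 f hf5 _ hgN 16 h4
    exact ⟨⟨_, hgH⟩, hρH ⟨_, hgH⟩⟩

end glevel


/-- Let G be a finite group of order 320 = 64·5 whose largest normal 2-subgroup H = O₂(G) equals the Fitting subgroup F(G) and is extraspecial of order 32 containing no elementary abelian subgroup of order 8 (so H is the central product of a quaternion group and a dihedral group of order 8). If T is an involution of G outside H whose centralizer in H contains an elementary abelian subgroup of order 4, then C_H(T) itself is elementary abelian of order 4. -/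
theorem result {G : Type*} [Group G] [Finite G]
    (hG : Nat.card G = 320) (hHF : Cfsg.pCore 2 G = Cfsg.fittingSubgroup G)
    (hex : Cfsg.IsExtraspecial 2 ↥(Cfsg.pCore 2 G)) (h32 : Nat.card ↥(Cfsg.pCore 2 G) = 32)
    (hminus : ∀ A : Subgroup G, A ≤ Cfsg.pCore 2 G → Cfsg.IsElementaryAbelian 2 A → Nat.card ↥A ≤ 4)
    (T : G) (hT : orderOf T = 2) (hTH : T ∉ Cfsg.pCore 2 G)
    (V : Subgroup G) (hV : V ≤ Cfsg.pCore 2 G ⊓ Subgroup.centralizer ({T} : Set G)) (hV4 : Nat.card ↥V = 4) (hVe : Cfsg.IsElementaryAbelian 2 V) :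
    Nat.card ↥(Cfsg.pCore 2 G ⊓ Subgroup.centralizer ({T} : Set G)) = 4 ∧
      Cfsg.IsElementaryAbelian 2 (Cfsg.pCore 2 G ⊓ Subgroup.centralizer ({T} : Set G)) := by
  haveI hHn : (Cfsg.pCore 2 G).Normal := Cfsg.Agent.Lib.Helper7.pCore_normal 2 G
  have hle := core hG (Cfsg.pCore 2 G) (xs_of_extraspecial hex) h32
    (fun N hN hp => Cfsg.Agent.Lib.Helper7.le_pCore hN hp)
    (fun N hN hnil => by rw [hHF]; exact le_sSup ⟨hN, hnil⟩)
    hminus T hT hTH
  have hge : 4 ≤ Nat.card ↥(Cfsg.pCore 2 G ⊓ Subgroup.centralizer ({T} : Set G)) := by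
    rw [← hV4]; exact Subgroup.card_le_of_le hV
  have heq : Nat.card ↥(Cfsg.pCore 2 G ⊓ Subgroup.centralizer ({T} : Set G)) = 4 := by omega
  have hVeq : V = Cfsg.pCore 2 G ⊓ Subgroup.centralizer ({T} : Set G) :=
    Subgroup.eq_of_le_of_card_ge hV (by rw [heq, hV4])
  exact ⟨heq, hVeq ▸ hVe⟩

end Cfsg.Agent.S4405
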