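import Cfsg.Statements.S4406
-- import your own Cfsg.Agent.* helpers here

set_option autoImplicit false
open Cfsg

namespace Cfsg.Agent.S4406

theorem a4_grp1 {G : Type*} [Group G] (g h : G) :
    g * (g * (g * h * g⁻¹) * g⁻¹) * g⁻¹ = g ^ 3 * h * (g ^ 3)⁻¹ := by
  simp only [pow_succ, pow_zero, one_mul, mul_inv_rev, mul_assoc]

theorem a4_grp2 {G : Type*} [Group G] (g h : G) :
    g ^ 3 * (g⁻¹ * h * g) * (g ^ 3)⁻¹ = g * (g * h * g⁻¹) * g⁻¹ := by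
  simp only [pow_succ, pow_zero, one_mul, mul_inv_rev, mul_assoc, mul_inv_cancel_left,
    inv_mul_cancel_left]

theorem a4_grp3 {G : Type*} [Group G] (g b d : G) :
    g * (b * d) * g⁻¹ = (g * b * g⁻¹) * (g * d * g⁻¹) := by group

set_option maxRecDepth 100000 in
theorem a4_ord : ∀ a : (↥(alternatingGroup (Fin 4))), a ^ 3 = 1 ∨ a ^ 2 = 1 := by decide

set_option maxRecDepth 100000 in
theorem a4_conj : ∀ q v : (↥(alternatingGroup (Fin 4))), q ^ 3 = 1 → q ≠ 1 → v ^ 2 = 1 → v ≠ 1 →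
    q * v * q⁻¹ ≠ v ∧ q * v * q⁻¹ ≠ 1 ∧ (q * v * q⁻¹) ^ 2 = 1 ∧
      q * (q * v * q⁻¹) * q⁻¹ = v * (q * v * q⁻¹) := by decide

set_option maxRecDepth 100000 in
theorem a4_klein : ∀ v v' u : (↥(alternatingGroup (Fin 4))),
    (v ^ 2 = 1 ∧ v' ^ 2 = 1 ∧ v ≠ 1 ∧ v' ≠ 1 ∧ v ≠ v' ∧ u ^ 2 = 1) →
    (u = 1 ∨ u = v ∨ u = v' ∨ u = v * v') := by decide

set_option maxRecDepth 100000 in
theorem a4_three : ∃ c : (↥(alternatingGroup (Fin 4))), c ≠ 1 ∧ c ^ 3 = 1 := by decide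

theorem a4_pow3 (a : (↥(alternatingGroup (Fin 4)))) (k : ℕ) (h : a ^ 3 ^ k = 1) : a ^ 3 = 1 := by
  rcases a4_ord a with h3 | h2
  · exact h3
  · have hc : Nat.Coprime (3 ^ k) 2 := Nat.Coprime.pow_left k (by decide)
    have h1 : a ^ Nat.gcd (3 ^ k) 2 = 1 := pow_gcd_eq_one.mpr ⟨h, h2⟩
    rw [Nat.Coprime.gcd_eq_one hc, pow_one] at h1
    rw [h1]; exact one_pow 3

theorem a4_pow2 (a : (↥(alternatingGroup (Fin 4)))) (k : ℕ) (h : a ^ 2 ^ k = 1) : a ^ 2 = 1 := by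
  rcases a4_ord a with h3 | h2
  · have hc : Nat.Coprime (2 ^ k) 3 := Nat.Coprime.pow_left k (by decide)
    have h1 : a ^ Nat.gcd (2 ^ k) 3 = 1 := pow_gcd_eq_one.mpr ⟨h, h3⟩
    rw [Nat.Coprime.gcd_eq_one hc, pow_one] at h1
    rw [h1]; exact one_pow 2
  · exact h2

theorem a4_prod3 (H K : Subgroup (↥(alternatingGroup (Fin 4)))) (hH : ∀ a ∈ H, a ^ 3 = 1) (hK : ∀ a ∈ K, a ^ 3 = 1) :
    IsPGroup 3 ↥(H.prod K) := by
  intro g
  refine ⟨1, ?_⟩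
  apply Subtype.ext
  have hg := Subgroup.mem_prod.mp g.2
  rw [Subgroup.coe_pow, Subgroup.coe_one, pow_one]
  refine Prod.ext ?_ ?_
  · rw [Prod.pow_fst]; exact hH _ hg.1
  · rw [Prod.pow_snd]; exact hK _ hg.2

/-- In the direct product P = A₄ × A₄, let X be the Sylow 2-subgroup, X₁ and X₂ its intersections with the two direct factors, Q a Sylow 3-subgroup and Q₁, Q₂ its intersections with the two factors. Then every subgroup B of X of order 4 either meets X₁ or X₂ nontrivially, or is normalized by one of the two subgroups of Q of order 3 other than Q₁ and Q₂. -/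
theorem result
    (X : Sylow 2 (↥(alternatingGroup (Fin 4)) × ↥(alternatingGroup (Fin 4))))
    (Q : Sylow 3 (↥(alternatingGroup (Fin 4)) × ↥(alternatingGroup (Fin 4))))
    (B : Subgroup (↥(alternatingGroup (Fin 4)) × ↥(alternatingGroup (Fin 4)))) (hBX : B ≤ (X : Subgroup _)) (hB4 : Nat.card ↥B = 4) :
    B ⊓ ((X : Subgroup _) ⊓ Subgroup.prod ⊤ ⊥) ≠ ⊥ ∨ B ⊓ ((X : Subgroup _) ⊓ Subgroup.prod ⊥ ⊤) ≠ ⊥ ∨
      ∃ R : Subgroup (↥(alternatingGroup (Fin 4)) × ↥(alternatingGroup (Fin 4))), R ≤ (Q : Subgroup _) ∧ Nat.card ↥R = 3 ∧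
        R ≠ (Q : Subgroup _) ⊓ Subgroup.prod ⊤ ⊥ ∧ R ≠ (Q : Subgroup _) ⊓ Subgroup.prod ⊥ ⊤ ∧ R ≤ Subgroup.normalizer (B : Set _) := by
  classical
  by_cases h1 : B ⊓ ((X : Subgroup (↥(alternatingGroup (Fin 4)) × ↥(alternatingGroup (Fin 4)))) ⊓ Subgroup.prod ⊤ ⊥) = ⊥
  swap
  · exact Or.inl h1
  by_cases h2 : B ⊓ ((X : Subgroup (↥(alternatingGroup (Fin 4)) × ↥(alternatingGroup (Fin 4)))) ⊓ Subgroup.prod ⊥ ⊤) = ⊥
  swap
  · exact Or.inr (Or.inl h2)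
  refine Or.inr (Or.inr ?_)
  have hBsq : ∀ y ∈ B, y.1 ^ 2 = 1 ∧ y.2 ^ 2 = 1 := by
    intro y hy
    obtain ⟨k, hk⟩ := X.isPGroup' ⟨y, hBX hy⟩
    have hk' : y ^ 2 ^ k = 1 := by
      have := congrArg Subtype.val hk
      simpa using this
    have e1 : y.1 ^ 2 ^ k = 1 := by
      have := congrArg Prod.fst hk'
      rw [Prod.pow_fst] at this; exact this
    have e2 : y.2 ^ 2 ^ k = 1 := by
      have := congrArg Prod.snd hk'
      rw [Prod.pow_snd] at this; exact this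
    exact ⟨a4_pow2 _ k e1, a4_pow2 _ k e2⟩
  have hB1 : ∀ y ∈ B, y.2 = 1 → y = 1 := by
    intro y hy h
    have : y ∈ B ⊓ ((X : Subgroup (↥(alternatingGroup (Fin 4)) × ↥(alternatingGroup (Fin 4)))) ⊓ Subgroup.prod ⊤ ⊥) :=
      Subgroup.mem_inf.mpr ⟨hy, Subgroup.mem_inf.mpr ⟨hBX hy,
        Subgroup.mem_prod.mpr ⟨Subgroup.mem_top _, Subgroup.mem_bot.mpr h⟩⟩⟩
    rw [h1] at this
    exact Subgroup.mem_bot.mp this
  have hB2 : ∀ y ∈ B, y.1 = 1 → y = 1 := by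
    intro y hy h
    have : y ∈ B ⊓ ((X : Subgroup (↥(alternatingGroup (Fin 4)) × ↥(alternatingGroup (Fin 4)))) ⊓ Subgroup.prod ⊥ ⊤) :=
      Subgroup.mem_inf.mpr ⟨hy, Subgroup.mem_inf.mpr ⟨hBX hy,
        Subgroup.mem_prod.mpr ⟨Subgroup.mem_bot.mpr h, Subgroup.mem_top _⟩⟩⟩
    rw [h2] at this
    exact Subgroup.mem_bot.mp this
  have hQ3 : ∀ y ∈ (Q : Subgroup (↥(alternatingGroup (Fin 4)) × ↥(alternatingGroup (Fin 4)))), y.1 ^ 3 = 1 ∧ y.2 ^ 3 = 1 := by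
    intro y hy
    obtain ⟨k, hk⟩ := Q.isPGroup' ⟨y, hy⟩
    have hk' : y ^ 3 ^ k = 1 := by
      have := congrArg Subtype.val hk
      simpa using this
    have e1 : y.1 ^ 3 ^ k = 1 := by
      have := congrArg Prod.fst hk'
      rw [Prod.pow_fst] at this; exact this
    have e2 : y.2 ^ 3 ^ k = 1 := by
      have := congrArg Prod.snd hk'
      rw [Prod.pow_snd] at this; exact this
    exact ⟨a4_pow3 _ k e1, a4_pow3 _ k e2⟩
  obtain ⟨Qa, hQa⟩ : ∃ Qa : Subgroup (↥(alternatingGroup (Fin 4))), Qa = (Q : Subgroup (↥(alternatingGroup (Fin 4)) × ↥(alternatingGroup (Fin 4)))).map (MonoidHom.fst (↥(alternatingGroup (Fin 4))) (↥(alternatingGroup (Fin 4)))) :=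
    ⟨_, rfl⟩
  obtain ⟨Qb, hQb⟩ : ∃ Qb : Subgroup (↥(alternatingGroup (Fin 4))), Qb = (Q : Subgroup (↥(alternatingGroup (Fin 4)) × ↥(alternatingGroup (Fin 4)))).map (MonoidHom.snd (↥(alternatingGroup (Fin 4))) (↥(alternatingGroup (Fin 4)))) :=
    ⟨_, rfl⟩
  have hQa3 : ∀ a ∈ Qa, a ^ 3 = 1 := by
    intro a ha
    rw [hQa] at ha
    obtain ⟨y, hy, rfl⟩ := ha
    exact (hQ3 y hy).1
  have hQb3 : ∀ a ∈ Qb, a ^ 3 = 1 := by
    intro a ha
    rw [hQb] at ha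
    obtain ⟨y, hy, rfl⟩ := ha
    exact (hQ3 y hy).2
  have hQle : (Q : Subgroup (↥(alternatingGroup (Fin 4)) × ↥(alternatingGroup (Fin 4)))) ≤ Qa.prod Qb := by
    intro y hy
    rw [Subgroup.mem_prod, hQa, hQb]
    exact ⟨⟨y, hy, rfl⟩, ⟨y, hy, rfl⟩⟩
  have hQeq : Qa.prod Qb = (Q : Subgroup (↥(alternatingGroup (Fin 4)) × ↥(alternatingGroup (Fin 4)))) := Q.is_maximal' (a4_prod3 Qa Qb hQa3 hQb3) hQle
  obtain ⟨c, hc1, hc3⟩ := a4_three
  have hz3 : ∀ a ∈ Subgroup.zpowers c, a ^ 3 = 1 := by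
    intro a ha
    obtain ⟨n, rfl⟩ := Subgroup.mem_zpowers_iff.mp ha
    have : (c ^ n) ^ 3 = (c ^ 3) ^ n := by
      rw [← zpow_natCast (c ^ n) 3, ← zpow_mul, mul_comm, zpow_mul, zpow_natCast]
    rw [this, hc3, one_zpow]
  have hQa_ne : ∃ q₁ ∈ Qa, q₁ ≠ 1 := by
    by_contra hcon
    push Not at hcon
    have hle : (Q : Subgroup (↥(alternatingGroup (Fin 4)) × ↥(alternatingGroup (Fin 4)))) ≤ (Subgroup.zpowers c).prod Qb := by
      intro y hy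
      have hy' := hQle hy
      rw [Subgroup.mem_prod] at hy' ⊢
      refine ⟨?_, hy'.2⟩
      rw [hcon _ hy'.1]; exact one_mem _
    have heq := Q.is_maximal' (a4_prod3 _ Qb hz3 hQb3) hle
    have hmem : ((c, 1) : (↥(alternatingGroup (Fin 4))) × (↥(alternatingGroup (Fin 4)))) ∈ (Q : Subgroup (↥(alternatingGroup (Fin 4)) × ↥(alternatingGroup (Fin 4)))) := by
      rw [← heq, Subgroup.mem_prod]
      exact ⟨Subgroup.mem_zpowers c, one_mem _⟩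
    have := hQle hmem
    rw [Subgroup.mem_prod] at this
    exact hc1 (hcon _ this.1)
  have hQb_ne : ∃ q₂ ∈ Qb, q₂ ≠ 1 := by
    by_contra hcon
    push Not at hcon
    have hle : (Q : Subgroup (↥(alternatingGroup (Fin 4)) × ↥(alternatingGroup (Fin 4)))) ≤ Qa.prod (Subgroup.zpowers c) := by
      intro y hy
      have hy' := hQle hy
      rw [Subgroup.mem_prod] at hy' ⊢
      refine ⟨hy'.1, ?_⟩
      rw [hcon _ hy'.2]; exact one_mem _
    have heq := Q.is_maximal' (a4_prod3 Qa _ hQa3 hz3) hle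
    have hmem : ((1, c) : (↥(alternatingGroup (Fin 4))) × (↥(alternatingGroup (Fin 4)))) ∈ (Q : Subgroup (↥(alternatingGroup (Fin 4)) × ↥(alternatingGroup (Fin 4)))) := by
      rw [← heq, Subgroup.mem_prod]
      exact ⟨one_mem _, Subgroup.mem_zpowers c⟩
    have := hQle hmem
    rw [Subgroup.mem_prod] at this
    exact hc1 (hcon _ this.2)
  obtain ⟨q₁, hq₁, hq₁1⟩ := hQa_ne
  obtain ⟨q₂, hq₂, hq₂1⟩ := hQb_ne
  have hq₁3 := hQa3 q₁ hq₁
  have hq₂3 := hQb3 q₂ hq₂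
  have hQmem : ∀ a ∈ Qa, ∀ b ∈ Qb, ((a, b) : (↥(alternatingGroup (Fin 4))) × (↥(alternatingGroup (Fin 4)))) ∈ (Q : Subgroup (↥(alternatingGroup (Fin 4)) × ↥(alternatingGroup (Fin 4)))) := by
    intro a ha b hb
    rw [← hQeq, Subgroup.mem_prod]; exact ⟨ha, hb⟩
  -- elements of B
  have hBne : ∃ b ∈ B, b ≠ 1 := by
    by_contra hcon
    push Not at hcon
    have : B = ⊥ := (Subgroup.eq_bot_iff_forall B).mpr hcon
    rw [this, Subgroup.card_bot] at hB4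
    omega
  obtain ⟨b, hb, hb1⟩ := hBne
  have hBne2 : ∃ b' ∈ B, b' ≠ 1 ∧ b' ≠ b := by
    by_contra hcon
    push Not at hcon
    have hsub : (B : Set ((↥(alternatingGroup (Fin 4))) × (↥(alternatingGroup (Fin 4))))) ⊆ {1, b} := by
      intro y hy
      by_cases hy1 : y = 1
      · exact Or.inl hy1
      · exact Or.inr (hcon y hy hy1)
    have hle := Set.ncard_le_ncard hsub (Set.toFinite _)
    have h2' : ({1, b} : Set ((↥(alternatingGroup (Fin 4))) × (↥(alternatingGroup (Fin 4))))).ncard ≤ 2 := by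
      have := Set.ncard_insert_le (1 : (↥(alternatingGroup (Fin 4))) × (↥(alternatingGroup (Fin 4)))) ({b} : Set ((↥(alternatingGroup (Fin 4))) × (↥(alternatingGroup (Fin 4)))))
      rw [Set.ncard_singleton] at this
      exact this
    have h4 : (B : Set ((↥(alternatingGroup (Fin 4))) × (↥(alternatingGroup (Fin 4))))).ncard = 4 := by
      exact (Nat.card_coe_set_eq _).symm.trans hB4
    omega
  obtain ⟨b', hb', hb'1, hb'b⟩ := hBne2
  have hv1 : b.1 ≠ 1 := fun h => hb1 (hB2 b hb h)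
  have hw1 : b.2 ≠ 1 := fun h => hb1 (hB1 b hb h)
  have hv'1 : b'.1 ≠ 1 := fun h => hb'1 (hB2 b' hb' h)
  have hvv' : b.1 ≠ b'.1 := by
    intro h
    have hmem : b⁻¹ * b' ∈ B := B.mul_mem (B.inv_mem hb) hb'
    have h1' : (b⁻¹ * b').1 = 1 := by
      show b.1⁻¹ * b'.1 = 1
      rw [h]; exact inv_mul_cancel _
    exact hb'b (inv_mul_eq_one.mp (hB2 _ hmem h1')).symm
  have hsq := hBsq b hb
  have hsq' := hBsq b' hb'
  obtain ⟨hc1', hc2', hc3', hc4'⟩ := a4_conj q₁ b.1 hq₁3 hq₁1 hsq.1 hv1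
  obtain ⟨d, hd, hd1⟩ : ∃ d ∈ B, d.1 = q₁ * b.1 * q₁⁻¹ := by
    rcases a4_klein b.1 b'.1 (q₁ * b.1 * q₁⁻¹) ⟨hsq.1, hsq'.1, hv1, hv'1, hvv', hc3'⟩ with
      h | h | h | h
    · exact absurd h hc2'
    · exact absurd h hc1'
    · exact ⟨b', hb', h.symm⟩
    · exact ⟨b * b', B.mul_mem hb hb', h.symm⟩
  have hd11 : d.1 ≠ 1 := by rw [hd1]; exact hc2'
  have hd_1 : d ≠ 1 := fun h => hd11 (by rw [h]; rfl)
  have hdw1 : d.2 ≠ 1 := fun h => hd_1 (hB1 d hd h)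
  have hbd1 : b.1 ≠ d.1 := by rw [hd1]; exact fun h => hc1' h.symm
  have hdw : b.2 ≠ d.2 := by
    intro h
    have hmem : b⁻¹ * d ∈ B := B.mul_mem (B.inv_mem hb) hd
    have h1' : (b⁻¹ * d).2 = 1 := by
      show b.2⁻¹ * d.2 = 1
      rw [h]; exact inv_mul_cancel _
    have hbd : b = d := inv_mul_eq_one.mp (hB1 _ hmem h1')
    exact hbd1 (by rw [← hbd])
  have hsqd := hBsq d hd
  have hBelts : ∀ y ∈ B, y = 1 ∨ y = b ∨ y = d ∨ y = b * d := by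
    intro y hy
    have hy2 := (hBsq y hy).1
    rcases a4_klein b.1 d.1 y.1 ⟨hsq.1, hsqd.1, hv1, hd11, hbd1, hy2⟩ with h | h | h | h
    · exact Or.inl (hB2 y hy h)
    · right; left
      have hmem : b⁻¹ * y ∈ B := B.mul_mem (B.inv_mem hb) hy
      have : (b⁻¹ * y).1 = 1 := by
        show b.1⁻¹ * y.1 = 1
        rw [h]; exact inv_mul_cancel _
      exact (inv_mul_eq_one.mp (hB2 _ hmem this)).symm
    · right; right; left
      have hmem : d⁻¹ * y ∈ B := B.mul_mem (B.inv_mem hd) hy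
      have : (d⁻¹ * y).1 = 1 := by
        show d.1⁻¹ * y.1 = 1
        rw [h]; exact inv_mul_cancel _
      exact (inv_mul_eq_one.mp (hB2 _ hmem this)).symm
    · right; right; right
      have hmem : (b * d)⁻¹ * y ∈ B := B.mul_mem (B.inv_mem (B.mul_mem hb hd)) hy
      have : ((b * d)⁻¹ * y).1 = 1 := by
        show (b.1 * d.1)⁻¹ * y.1 = 1
        rw [h]; exact inv_mul_cancel _
      exact (inv_mul_eq_one.mp (hB2 _ hmem this)).symm
  have hc4'' : q₁ * d.1 * q₁⁻¹ = b.1 * d.1 := by rw [hd1]; exact hc4'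
  have hnorm : ∀ q : (↥(alternatingGroup (Fin 4))), q ^ 3 = 1 → q ≠ 1 → q * b.2 * q⁻¹ = d.2 →
      ((q₁, q) : (↥(alternatingGroup (Fin 4))) × (↥(alternatingGroup (Fin 4)))) ∈ Subgroup.normalizer (B : Set ((↥(alternatingGroup (Fin 4))) × (↥(alternatingGroup (Fin 4))))) := by
    intro q hq3 hq1 hqw
    obtain ⟨-, -, -, hqq⟩ := a4_conj q b.2 hq3 hq1 hsq.2 hw1
    rw [hqw] at hqq
    obtain ⟨g, hg⟩ : ∃ g : (↥(alternatingGroup (Fin 4))) × (↥(alternatingGroup (Fin 4))), g = (q₁, q) := ⟨_, rfl⟩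
    have hg1 : g.1 = q₁ := by rw [hg]
    have hg2 : g.2 = q := by rw [hg]
    rw [← hg]
    have hgb : g * b * g⁻¹ = d := by
      refine Prod.ext ?_ ?_
      · show g.1 * b.1 * g.1⁻¹ = d.1
        rw [hg1]; exact hd1.symm
      · show g.2 * b.2 * g.2⁻¹ = d.2
        rw [hg2]; exact hqw
    have hgd : g * d * g⁻¹ = b * d := by
      refine Prod.ext ?_ ?_
      · show g.1 * d.1 * g.1⁻¹ = b.1 * d.1
        rw [hg1]; exact hc4''
      · show g.2 * d.2 * g.2⁻¹ = b.2 * d.2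
        rw [hg2]; exact hqq
    have hfwd : ∀ y ∈ B, g * y * g⁻¹ ∈ B := by
      intro y hy
      rcases hBelts y hy with h | h | h | h
      · rw [h, mul_one, mul_inv_cancel]; exact B.one_mem
      · rw [h, hgb]; exact hd
      · rw [h, hgd]; exact B.mul_mem hb hd
      · have e : g * (b * d) * g⁻¹ = (g * b * g⁻¹) * (g * d * g⁻¹) := a4_grp3 g b d
        rw [h, e, hgb, hgd]
        exact B.mul_mem hd (B.mul_mem hb hd)
    have hg3 : g ^ 3 = 1 := by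
      refine Prod.ext ?_ ?_
      · rw [Prod.pow_fst, hg1]; exact hq₁3
      · rw [Prod.pow_snd, hg2]; exact hq3
    rw [Subgroup.mem_normalizer_iff]
    intro h
    constructor
    · exact hfwd h
    · intro hh
      have h1' := hfwd _ hh
      have h2' := hfwd _ h1'
      have e : g * (g * (g * h * g⁻¹) * g⁻¹) * g⁻¹ = g ^ 3 * h * (g ^ 3)⁻¹ := a4_grp1 g h
      rw [e, hg3, one_mul, inv_one, mul_one] at h2'
      exact h2'
  obtain ⟨hw_ne, hw_ne1, hw_sq, hw_qq⟩ := a4_conj q₂ b.2 hq₂3 hq₂1 hsq.2 hw1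
  have key : ∃ q : (↥(alternatingGroup (Fin 4))), q ∈ Qb ∧ q ≠ 1 ∧ q ^ 3 = 1 ∧ q * b.2 * q⁻¹ = d.2 := by
    rcases a4_klein b.2 d.2 (q₂ * b.2 * q₂⁻¹) ⟨hsq.2, hsqd.2, hw1, hdw1, hdw, hw_sq⟩ with
      h | h | h | h
    · exact absurd h hw_ne1
    · exact absurd h hw_ne
    · exact ⟨q₂, hq₂, hq₂1, hq₂3, h⟩
    · refine ⟨q₂⁻¹, Qb.inv_mem hq₂, inv_ne_one.mpr hq₂1, ?_, ?_⟩
      · rw [inv_pow, hq₂3, inv_one]
      · rw [h] at hw_qq
        have hb2 : b.2 * b.2 = 1 := by rw [← pow_two]; exact hsq.2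
        have e1 : q₂ * (b.2 * d.2) * q₂⁻¹ = d.2 := by rw [hw_qq, ← mul_assoc, hb2, one_mul]
        calc q₂⁻¹ * b.2 * (q₂⁻¹)⁻¹ = q₂ ^ 3 * (q₂⁻¹ * b.2 * q₂) * (q₂ ^ 3)⁻¹ := by
              rw [hq₂3, one_mul, inv_one, mul_one, inv_inv]
          _ = q₂ * (q₂ * b.2 * q₂⁻¹) * q₂⁻¹ := a4_grp2 q₂ b.2
          _ = q₂ * (b.2 * d.2) * q₂⁻¹ := by rw [h]
          _ = d.2 := e1
  obtain ⟨q, hqQ, hq1, hq3, hqw⟩ := key
  obtain ⟨g, hg⟩ : ∃ g : (↥(alternatingGroup (Fin 4))) × (↥(alternatingGroup (Fin 4))), g = (q₁, q) := ⟨_, rfl⟩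
  have hgQ : g ∈ (Q : Subgroup (↥(alternatingGroup (Fin 4)) × ↥(alternatingGroup (Fin 4)))) := by rw [hg]; exact hQmem q₁ hq₁ q hqQ
  have hg3 : g ^ 3 = 1 := by
    rw [hg]
    refine Prod.ext ?_ ?_
    · rw [Prod.pow_fst]; exact hq₁3
    · rw [Prod.pow_snd]; exact hq3
  have hg1 : g ≠ 1 := fun h => hq₁1 (by
    have := congrArg Prod.fst h
    rw [hg] at this; exact this)
  refine ⟨Subgroup.zpowers g, ?_, ?_, ?_, ?_, ?_⟩
  · exact (Subgroup.zpowers_le).mpr hgQ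
  · rw [Nat.card_zpowers]; exact orderOf_eq_prime hg3 hg1
  · intro h
    have hm : g ∈ (Q : Subgroup (↥(alternatingGroup (Fin 4)) × ↥(alternatingGroup (Fin 4)))) ⊓ Subgroup.prod ⊤ ⊥ := by
      rw [← h]; exact Subgroup.mem_zpowers g
    have h2' := (Subgroup.mem_prod.mp (Subgroup.mem_inf.mp hm).2).2
    rw [Subgroup.mem_bot, hg] at h2'
    exact hq1 h2'
  · intro h
    have hm : g ∈ (Q : Subgroup (↥(alternatingGroup (Fin 4)) × ↥(alternatingGroup (Fin 4)))) ⊓ Subgroup.prod ⊥ ⊤ := by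
      rw [← h]; exact Subgroup.mem_zpowers g
    have h2' := (Subgroup.mem_prod.mp (Subgroup.mem_inf.mp hm).2).1
    rw [Subgroup.mem_bot, hg] at h2'
    exact hq₁1 h2'
  · exact (Subgroup.zpowers_le).mpr (by rw [hg]; exact hnorm q hq3 hq1 hqw)

end Cfsg.Agent.S4406
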