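import Cfsg.Statements.S4420
-- import your own Cfsg.Agent.* helpers here
import Mathlib
import Cfsg.Agent.Lib.Helper2.PGroup

set_option autoImplicit false
open Cfsg

namespace Cfsg.Agent.S4420

section
variable {H : Type*} [Group H]

lemma comm_of_sq (h : ∀ x : H, x ^ 2 = 1) (a b : H) : a * b = b * a := by
  have key : ∀ c : H, c⁻¹ = c := by
    intro c
    rw [inv_eq_iff_mul_eq_one, ← pow_two]; exact h c
  calc a * b = (a * b)⁻¹ := (key _).symm
    _ = b⁻¹ * a⁻¹ := mul_inv_rev a b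
    _ = b * a := by rw [key a, key b]

lemma uniq [Finite H] (B B' : Subgroup H) (hB' : IsMulCommutative B')
    (hi : B.index = 2) (hi' : B'.index = 2)
    (hg : ∀ x : H, x ∉ B → x ^ 2 = 1 ∧ ∀ b ∈ B, x * b * x⁻¹ = b⁻¹)
    (hg' : ∀ x : H, x ∉ B' → x ^ 2 = 1 ∧ ∀ b ∈ B', x * b * x⁻¹ = b⁻¹)
    (hne : B' ≠ B) : ∀ x : H, x ^ 2 = 1 := by
  have hnle : ¬ B' ≤ B := by
    intro hle
    apply hne
    refine Subgroup.eq_of_le_of_card_ge hle ?_
    have h1 := B.card_mul_index
    have h2 := B'.card_mul_index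
    rw [hi] at h1; rw [hi'] at h2
    omega
  obtain ⟨x, hx', hx⟩ := SetLike.not_le_iff_exists.mp hnle
  intro y
  by_cases hyB : y ∈ B
  · by_cases hyB' : y ∈ B'
    · have h1 := (hg x hx).2 y hyB
      have h2 : x * y = y * x := Subgroup.mul_comm_of_mem_isMulCommutative (H := B') hx' hyB'
      have h3 : y = y⁻¹ := by
        rw [← h1, h2]; group
      rw [pow_two]; nth_rewrite 2 [h3]; exact mul_inv_cancel y
    · exact (hg' y hyB').1
  · exact (hg y hyB).1

end

/-- Structure of groups in which every element outside some proper subgroup has square 1. Let H be a finite group with a proper subgroup A such that every element outside A has square 1. Then H has an abelian normal subgroup B of index 2 such that every element outside B is an involution inverting every element of B; and if H is not an elementary abelian 2-group, B is the only abelian normal subgroup of index 2 with this property. -/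
theorem result {H : Type*} [Group H] [Finite H] (A : Subgroup H) (hA : A ≠ ⊤) (hD : ∀ x : H, x ∉ A → x ^ 2 = 1) :
    ∃ B : Subgroup H, B.Normal ∧ IsMulCommutative ↥B ∧ B.index = 2 ∧
      (∀ x : H, x ∉ B → x ^ 2 = 1 ∧ ∀ b ∈ B, x * b * x⁻¹ = b⁻¹) ∧
      (¬ (IsMulCommutative H ∧ ∀ x : H, x ^ 2 = 1) →
        ∀ B' : Subgroup H, B'.Normal → IsMulCommutative ↥B' → B'.index = 2 →
          (∀ x : H, x ∉ B' → x ^ 2 = 1 ∧ ∀ b ∈ B', x * b * x⁻¹ = b⁻¹) → B' = B) := by
  classical
  obtain ⟨x, hx⟩ : ∃ x : H, x ∉ A := by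
    by_contra hcon
    push Not at hcon
    exact hA (eq_top_iff.mpr fun y _ => hcon y)
  have hinv : ∀ y : H, y ∉ A → ∀ a ∈ A, y * a * y⁻¹ = a⁻¹ := by
    intro y hy a ha
    have hya : y * a ∉ A := fun h => hy (by simpa using A.mul_mem h (A.inv_mem ha))
    have h1 := hD _ hya
    have h2 := hD _ hy
    have h3 : y⁻¹ = y := by
      rw [inv_eq_iff_mul_eq_one, ← pow_two]; exact h2
    rw [h3]
    rw [eq_inv_iff_mul_eq_one]
    rw [pow_two] at h1
    calc y * a * y * a = y * a * (y * a) := by group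
      _ = 1 := h1
  have hAcomm : IsMulCommutative A := by
    refine ⟨⟨fun a b => ?_⟩⟩
    apply Subtype.ext
    have ha := hinv x hx a a.2
    have hb := hinv x hx b b.2
    have hab := hinv x hx (a * b) (A.mul_mem a.2 b.2)
    have h1 : (a:H)⁻¹ * (b:H)⁻¹ = (b:H)⁻¹ * (a:H)⁻¹ := by
      calc (a:H)⁻¹ * (b:H)⁻¹ = (x * a * x⁻¹) * (x * b * x⁻¹) := by rw [ha, hb]
        _ = x * (a * b) * x⁻¹ := by group
        _ = ((a:H) * b)⁻¹ := hab
        _ = (b:H)⁻¹ * (a:H)⁻¹ := mul_inv_rev _ _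
    have h2 := congrArg Inv.inv h1
    simp only [mul_inv_rev, inv_inv] at h2
    exact h2.symm
  by_cases hcase : ∀ y z : H, y ∉ A → z ∉ A → y * z ∈ A
  · have hidx : A.index = 2 := by
      rw [Subgroup.index_eq_two_iff]
      refine ⟨x, fun b => ?_⟩
      by_cases hb : b ∈ A
      · right; exact ⟨hb, fun h => hx (by simpa using A.mul_mem (A.inv_mem hb) h)⟩
      · left; exact ⟨hcase b x hb hx, hb⟩
    have hAn : A.Normal := Subgroup.normal_of_index_eq_two hidx
    refine ⟨A, hAn, hAcomm, hidx, fun y hy => ⟨hD y hy, hinv y hy⟩, ?_⟩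
    intro hnot B' hB'n hB'c hB'i hB'g
    by_contra hne
    have hsq := uniq A B' hB'c hidx hB'i (fun y hy => ⟨hD y hy, hinv y hy⟩) hB'g hne
    exact hnot ⟨⟨⟨comm_of_sq hsq⟩⟩, hsq⟩
  · push Not at hcase
    obtain ⟨y, z, hy, hz, hyz⟩ := hcase
    have hsq : ∀ h : H, h ^ 2 = 1 := by
      intro h
      by_cases hh : h ∈ A
      · have h1 := hinv y hy h hh
        have h2 := hinv z hz h hh
        have h3 := hinv (y * z) hyz h hh
        have h4 : y * z * h * (y * z)⁻¹ = h := by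
          have h6 : y * z * h * (y * z)⁻¹ = (y * (z * h * z⁻¹)⁻¹ * y⁻¹)⁻¹ := by group
          rw [h6, h2, inv_inv, h1, inv_inv]
        have h5 : h = h⁻¹ := by
          rw [← h3, h4]
        rw [pow_two]; nth_rewrite 2 [h5]; exact mul_inv_cancel h
      · exact hD h hh
    have hcomm := comm_of_sq hsq
    have hP : IsPGroup 2 H := fun h => ⟨1, by rw [pow_one]; exact hsq h⟩
    haveI : Fact (Nat.Prime 2) := ⟨Nat.prime_two⟩
    obtain ⟨B, hB⟩ : ∃ B : Subgroup H, IsCoatom B := by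
      obtain ⟨B, hB, _⟩ := (eq_top_or_exists_le_coatom A).resolve_left hA
      exact ⟨B, hB⟩
    refine ⟨B, Cfsg.Agent.Lib.Helper2.coatom_normal_of_pGroup hP B hB, ⟨⟨fun a b => Subtype.ext (hcomm a b)⟩⟩,
      Cfsg.Agent.Lib.Helper2.coatom_index_of_pGroup hP B hB, fun w hw => ⟨hsq w, fun b hb => ?_⟩,
      fun hnot => absurd ⟨⟨⟨hcomm⟩⟩, hsq⟩ hnot⟩
    rw [hcomm w b, mul_inv_cancel_right]
    rw [eq_inv_iff_mul_eq_one, ← pow_two]; exact hsq b

end Cfsg.Agent.S4420
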