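import Mathlib
import Cfsg.Statements.S4495
import Cfsg.Agent.S1900
import Cfsg.Agent.Lib.Helper7.Coprime
import Cfsg.Agent.Lib.Helper8.Basic

set_option autoImplicit false
open Cfsg
open scoped commutatorElement

namespace Cfsg.Agent.S4495

/-- the data common to both parts -/
theorem core {G : Type*} [Group G] [Finite G] (p : ℕ) [Fact p.Prime] (x : G)
    (hx : orderOf x = p) (hC : Subgroup.centralizer ({x} : Set G) = Subgroup.zpowers x) :
    (∃ Q : Sylow p G, (Q : Subgroup G) = Subgroup.zpowers x) ∧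
    (∀ y ∈ Subgroup.zpowers x, y ≠ 1 → orderOf y = p ∧
      ∀ g : G, g * y = y * g → g ∈ Subgroup.zpowers x) := by
  have hp : p.Prime := Fact.out
  have hcard : Nat.card (Subgroup.zpowers x) = p := by rw [Nat.card_zpowers, hx]
  have hgen : ∀ y ∈ Subgroup.zpowers x, y ≠ 1 → orderOf y = p ∧ x ∈ Subgroup.zpowers y := by
    intro y hy hy1
    have h1 : orderOf y ∣ p := by
      have := orderOf_dvd_natCard (⟨y, hy⟩ : Subgroup.zpowers x)
      rw [hcard, Subgroup.orderOf_mk] at this
      exact this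
    have h2 : orderOf y = p := by
      rcases (Nat.dvd_prime hp).mp h1 with h | h
      · exact absurd (orderOf_eq_one_iff.mp h) hy1
      · exact h
    refine ⟨h2, ?_⟩
    have h3 : Subgroup.zpowers y = Subgroup.zpowers x := by
      apply Subgroup.eq_of_le_of_card_ge (Subgroup.zpowers_le.mpr hy)
      rw [Nat.card_zpowers, Nat.card_zpowers, hx, h2]
    rw [h3]; exact Subgroup.mem_zpowers x
  have hcent : ∀ y ∈ Subgroup.zpowers x, y ≠ 1 →
      ∀ g : G, g * y = y * g → g ∈ Subgroup.zpowers x := by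
    intro y hy hy1 g hg
    obtain ⟨k, hk⟩ := Subgroup.mem_zpowers_iff.mp (hgen y hy hy1).2
    rw [← hC, Subgroup.mem_centralizer_singleton_iff, ← hk]
    have c : Commute g y := hg
    exact (c.zpow_right k).eq
  refine ⟨?_, fun y hy hy1 => ⟨(hgen y hy hy1).1, hcent y hy hy1⟩⟩
  have hPp : IsPGroup p (Subgroup.zpowers x) := IsPGroup.of_card (n := 1) (by rw [hcard, pow_one])
  obtain ⟨Q, hQ⟩ := hPp.exists_le_sylow
  refine ⟨Q, le_antisymm ?_ hQ⟩
  haveI : Nontrivial (Q : Subgroup G) := by
    refine ⟨⟨⟨x, hQ (Subgroup.mem_zpowers x)⟩, 1, ?_⟩⟩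
    intro h
    have h1 : x = 1 := congrArg Subtype.val h
    rw [h1, orderOf_one] at hx
    exact hp.one_lt.ne hx
  haveI := Q.isPGroup'.center_nontrivial
  obtain ⟨z, hz⟩ := exists_ne (1 : Subgroup.center (Q : Subgroup G))
  have hz1 : ((z : (Q : Subgroup G)) : G) ≠ 1 := by
    intro h
    apply hz
    apply Subtype.ext
    apply Subtype.ext
    exact h
  have hzx : ((z : (Q : Subgroup G)) : G) ∈ Subgroup.zpowers x := by
    rw [← hC, Subgroup.mem_centralizer_singleton_iff]
    have h1 := Subgroup.mem_center_iff.mp z.2 ⟨x, hQ (Subgroup.mem_zpowers x)⟩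
    have h2 := congrArg Subtype.val h1
    exact h2.symm
  intro q hq
  apply hcent _ hzx hz1
  have h1 := Subgroup.mem_center_iff.mp z.2 ⟨q, hq⟩
  exact congrArg Subtype.val h1

/-- Let the finite group G contain an element x of prime order p with C_G(x) = ⟨x⟩, and let t be the number of conjugacy classes of elements of order p. If t ≠ p − 1 then the commutator subgroup has index at most (p − 1)/t; if t = p − 1 it has index exactly p. -/
theorem result {G : Type*} [Group G] [Finite G] (p : ℕ) (hp : p.Prime) (x : G) (hx : orderOf x = p) (hC : Subgroup.centralizer ({x} : Set G) = Subgroup.zpowers x) (t : ℕ) (ht : Nat.card {C : ConjClasses G // ∃ g ∈ C.carrier, orderOf g = p} = t) : (t ≠ p - 1 → (commutator G).index * t ≤ p - 1) ∧ (t = p - 1 → (commutator G).index = p) := by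
  classical
  haveI : Fact p.Prime := ⟨hp⟩
  obtain ⟨⟨Q, hQ⟩, hP⟩ := core p x hx hC
  have hcard : Nat.card (Subgroup.zpowers x) = p := by rw [Nat.card_zpowers, hx]
  -- the map from P∖1 to classes
  obtain ⟨φ, hφ⟩ : ∃ φ : ↥(((Subgroup.zpowers x : Subgroup G) : Set G) \ {1}) →
      {C : ConjClasses G // ∃ g ∈ C.carrier, orderOf g = p},
      ∀ y, (φ y : ConjClasses G) = ConjClasses.mk (y : G) :=
    ⟨fun y => ⟨ConjClasses.mk (y : G), (y : G), ConjClasses.mem_carrier_mk,
      (hP y.1 y.2.1 y.2.2).1⟩, fun y => rfl⟩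
  have hsurj : Function.Surjective φ := by
    rintro ⟨C, g, hg, hgo⟩
    have hpg : IsPGroup p (Subgroup.zpowers g) :=
      IsPGroup.of_card (n := 1) (by rw [Nat.card_zpowers, hgo, pow_one])
    obtain ⟨h, hh⟩ := Cfsg.Agent.Lib.Helper8.h8_exists_conj_sylow_ge Q hpg
    have h1 : h⁻¹ * g * h ∈ Subgroup.zpowers x := by
      rw [← hQ]; exact hh g (Subgroup.mem_zpowers g)
    have h2 : h⁻¹ * g * h ≠ 1 := by
      intro h3
      have : g = 1 := by
        have h4 : g = h * (h⁻¹ * g * h) * h⁻¹ := by group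
        rw [h4, h3]; group
      rw [this, orderOf_one] at hgo
      exact hp.one_lt.ne hgo
    refine ⟨⟨h⁻¹ * g * h, h1, h2⟩, ?_⟩
    apply Subtype.ext
    rw [hφ]
    show ConjClasses.mk (h⁻¹ * g * h) = C
    rw [← ConjClasses.mem_carrier_iff_mk_eq.mp hg, ConjClasses.mk_eq_mk_iff_isConj]
    refine IsConj.symm (isConj_iff.mpr ⟨h⁻¹, ?_⟩)
    rw [inv_inv]
  have hdom : Nat.card ↥(((Subgroup.zpowers x : Subgroup G) : Set G) \ {1}) = p - 1 := by
    rw [Nat.card_coe_set_eq, Set.ncard_sdiff_singleton_of_mem (one_mem _)]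
    have : ((Subgroup.zpowers x : Subgroup G) : Set G).ncard = p := by
      rw [← Nat.card_coe_set_eq]; exact hcard
    rw [this]
  have hxP : x ∈ Subgroup.zpowers x := Subgroup.mem_zpowers x
  have hx1 : x ≠ 1 := by
    rintro h
    rw [h, orderOf_one] at hx
    exact hp.one_lt.ne hx
  constructor
  · intro hne
    -- φ is not injective
    have hninj : ¬ Function.Injective φ := by
      intro hinj
      apply hne
      rw [← ht, ← hdom]
      exact (Nat.card_congr (Equiv.ofBijective φ ⟨hinj, hsurj⟩)).symm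
    rw [Function.Injective] at hninj
    push_neg at hninj
    obtain ⟨y, y', hyy, hne'⟩ := hninj
    have hcl : ConjClasses.mk (y : G) = ConjClasses.mk (y' : G) := by
      rw [← hφ, ← hφ, hyy]
    obtain ⟨g, hg⟩ := isConj_iff.mp (ConjClasses.mk_eq_mk_iff_isConj.mp hcl)
    -- P ≤ G'
    have hPG' : Subgroup.zpowers x ≤ commutator G := by
      have h1 : (y' : G) * (y : G)⁻¹ ∈ commutator G := by
        have h2 : (y' : G) * (y : G)⁻¹ = ⁅g, (y : G)⁆ := by
          rw [commutatorElement_def, hg]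
        rw [h2]
        exact Subgroup.commutator_mem_commutator (Subgroup.mem_top _) (Subgroup.mem_top _)
      have h3 : (y' : G) * (y : G)⁻¹ ∈ Subgroup.zpowers x := mul_mem y'.2.1 (inv_mem y.2.1)
      have h4 : (y' : G) * (y : G)⁻¹ ≠ 1 := by
        intro h
        apply hne'
        apply Subtype.ext
        exact (mul_inv_eq_one.mp h).symm
      obtain ⟨-, hcent⟩ := hP _ h3 h4
      -- x is a power of y' y⁻¹
      have h5 : Subgroup.zpowers ((y' : G) * (y : G)⁻¹) = Subgroup.zpowers x := by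
        apply Subgroup.eq_of_le_of_card_ge (Subgroup.zpowers_le.mpr h3)
        rw [Nat.card_zpowers, Nat.card_zpowers, hx, (hP _ h3 h4).1]
      rw [← h5, Subgroup.zpowers_le]
      exact h1
    -- Frattini
    have hfr : Subgroup.normalizer ((Q : Subgroup G) : Set G) ⊔ commutator G = ⊤ :=
      Sylow.normalizer_sup_eq_top' Q (by rw [hQ]; exact hPG')
    have hrep : ∀ q : G ⧸ commutator G, ∃ n ∈ Subgroup.normalizer ((Q : Subgroup G) : Set G),
        (QuotientGroup.mk n : G ⧸ commutator G) = q := by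
      intro q
      obtain ⟨g, rfl⟩ := QuotientGroup.mk_surjective q
      have hg : g ∈ commutator G ⊔ Subgroup.normalizer ((Q : Subgroup G) : Set G) := by
        rw [sup_comm, hfr]; exact Subgroup.mem_top g
      obtain ⟨c, hc, n, hn, hgcn⟩ := Cfsg.Agent.Lib.Helper7.exists_mul_of_mem_sup
        (Subgroup.le_normalizer_of_normal) hg
      refine ⟨n, hn, ?_⟩
      rw [hgcn, QuotientGroup.mk_mul, (QuotientGroup.eq_one_iff c).mpr hc, one_mul]
    choose rep hrepN hrepq using hrep
    -- fibre bound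
    have hfib : ∀ c : {C : ConjClasses G // ∃ g ∈ C.carrier, orderOf g = p},
        (commutator G).index ≤ Nat.card {y // φ y = c} := by
      intro c
      obtain ⟨y₀, hy₀⟩ := hsurj c
      have hconjP : ∀ q : G ⧸ commutator G,
          rep q * (y₀ : G) * (rep q)⁻¹ ∈ ((Subgroup.zpowers x : Subgroup G) : Set G) \ {1} := by
        intro q
        refine ⟨?_, ?_⟩
        · have := (Subgroup.mem_normalizer_iff.mp (hrepN q) (y₀ : G)).mp (by rw [hQ]; exact y₀.2.1)
          rw [hQ] at this
          exact this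
        · intro h
          apply y₀.2.2
          have h1 : rep q * (y₀ : G) * (rep q)⁻¹ = 1 := h
          have h4 : (y₀ : G) = (rep q)⁻¹ * (rep q * (y₀ : G) * (rep q)⁻¹) * rep q := by group
          show (y₀ : G) = 1
          rw [h4, h1]; group
      have hinj : Function.Injective (fun q : G ⧸ commutator G =>
          (⟨⟨rep q * (y₀ : G) * (rep q)⁻¹, hconjP q⟩, by
            apply Subtype.ext
            rw [hφ, ← hy₀, hφ, ConjClasses.mk_eq_mk_iff_isConj]
            exact IsConj.symm (isConj_iff.mpr ⟨rep q, rfl⟩)⟩ : {y // φ y = c})) := by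
        intro q q' hqq
        have h1 : rep q * (y₀ : G) * (rep q)⁻¹ = rep q' * (y₀ : G) * (rep q')⁻¹ :=
          congrArg (fun z : {y // φ y = c} => ((z : ↥(((Subgroup.zpowers x : Subgroup G) : Set G) \ {1})) : G)) hqq
        have h2 : ((rep q')⁻¹ * rep q) * (y₀ : G) = (y₀ : G) * ((rep q')⁻¹ * rep q) := by
          calc ((rep q')⁻¹ * rep q) * (y₀ : G)
              = (rep q')⁻¹ * (rep q * (y₀ : G) * (rep q)⁻¹) * rep q := by group
            _ = (rep q')⁻¹ * (rep q' * (y₀ : G) * (rep q')⁻¹) * rep q := by rw [h1]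
            _ = (y₀ : G) * ((rep q')⁻¹ * rep q) := by group
        have h3 : (rep q')⁻¹ * rep q ∈ commutator G :=
          hPG' ((hP _ y₀.2.1 y₀.2.2).2 _ h2)
        rw [← hrepq q, ← hrepq q']
        exact (QuotientGroup.eq.mpr h3).symm
      have := Nat.card_le_card_of_injective _ hinj
      exact this
    -- count
    haveI : Fintype {C : ConjClasses G // ∃ g ∈ C.carrier, orderOf g = p} := Fintype.ofFinite _
    have hsum : Nat.card ↥(((Subgroup.zpowers x : Subgroup G) : Set G) \ {1}) =
        ∑ c : {C : ConjClasses G // ∃ g ∈ C.carrier, orderOf g = p}, Nat.card {y // φ y = c} := by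
      rw [← Nat.card_sigma]
      exact Nat.card_congr (Equiv.sigmaFiberEquiv φ).symm
    rw [hdom] at hsum
    rw [hsum]
    calc (commutator G).index * t
        = ∑ _c : {C : ConjClasses G // ∃ g ∈ C.carrier, orderOf g = p}, (commutator G).index := by
          rw [Finset.sum_const, Finset.card_univ, ← Nat.card_eq_fintype_card, ht, smul_eq_mul,
            mul_comm]
      _ ≤ _ := Finset.sum_le_sum (fun c _ => hfib c)
  · intro hteq
    have hbij : Function.Bijective φ :=
      hsurj.bijective_of_nat_card_le (by rw [hdom, ht, hteq])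
    -- N = P
    have hNC : Subgroup.normalizer ((Q : Subgroup G) : Set G) ≤
        Subgroup.centralizer ((Q : Subgroup G) : Set G) := by
      intro n hn
      have h1 : n * x * n⁻¹ ∈ Subgroup.zpowers x := by
        have := (Subgroup.mem_normalizer_iff.mp hn x).mp (by rw [hQ]; exact hxP)
        rw [hQ] at this
        exact this
      have h2 : n * x * n⁻¹ ≠ 1 := by
        intro h
        apply hx1
        have h4 : x = n⁻¹ * (n * x * n⁻¹) * n := by group
        rw [h4, h]; group
      have h3 : φ ⟨n * x * n⁻¹, h1, h2⟩ = φ ⟨x, hxP, hx1⟩ := by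
        apply Subtype.ext
        rw [hφ, hφ, ConjClasses.mk_eq_mk_iff_isConj]
        exact IsConj.symm (isConj_iff.mpr ⟨n, rfl⟩)
      have h4 := congrArg (fun z : ↥(((Subgroup.zpowers x : Subgroup G) : Set G) \ {1}) => (z : G))
        (hbij.1 h3)
      have h5 : n * x * n⁻¹ = x := h4
      have h6 : n ∈ Subgroup.zpowers x := by
        apply (hP x hxP hx1).2
        calc n * x = n * x * n⁻¹ * n := by group
          _ = x * n := by rw [h5]
      rw [hQ, Subgroup.mem_centralizer_iff]
      intro z hz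
      obtain ⟨i, rfl⟩ := Subgroup.mem_zpowers_iff.mp hz
      obtain ⟨j, rfl⟩ := Subgroup.mem_zpowers_iff.mp h6
      rw [← zpow_add, ← zpow_add, add_comm]
    obtain ⟨K, hK⟩ : ∃ K : Subgroup G, K = (MonoidHom.transferSylow Q hNC).ker := ⟨_, rfl⟩
    have hKn : K.Normal := by rw [hK]; exact MonoidHom.normal_ker _
    have hKc : K.IsComplement' (Q : Subgroup G) := by
      rw [hK]; exact MonoidHom.ker_transferSylow_isComplement' Q hNC
    have hKidx : K.index = p := by
      rw [hKc.symm.index_eq_card, hQ, hcard]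
    have hKP : ∀ g ∈ K, g ∈ Subgroup.zpowers x → g = 1 := by
      intro g hgK hgP
      have := hKc.disjoint
      rw [Subgroup.disjoint_def] at this
      exact this hgK (by rw [hQ]; exact hgP)
    -- G' ≤ K
    have h1 : commutator G ≤ K := by
      haveI : IsCyclic (G ⧸ K) := by
        apply isCyclic_of_prime_card (p := p)
        rw [← Subgroup.index_eq_card, hKidx]
      have hcomm : ∀ a b : G ⧸ K, a * b = b * a := fun a b => by
        obtain ⟨g, hg⟩ := IsCyclic.exists_generator (α := G ⧸ K)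
        obtain ⟨i, rfl⟩ := Subgroup.mem_zpowers_iff.mp (hg a)
        obtain ⟨j, rfl⟩ := Subgroup.mem_zpowers_iff.mp (hg b)
        rw [← zpow_add, ← zpow_add, add_comm]
      rw [commutator_eq_closure, Subgroup.closure_le]
      rintro _ ⟨a, b, rfl⟩
      rw [SetLike.mem_coe, ← QuotientGroup.eq_one_iff, commutatorElement_def]
      simp only [QuotientGroup.mk_mul, QuotientGroup.mk_inv]
      rw [hcomm (a : G ⧸ K) (b : G ⧸ K)]
      group
    -- K ≤ G'
    have h2 : K ≤ commutator G := by
      have hmap : ∀ k : K, x * (k : G) * x⁻¹ * (k : G)⁻¹ ∈ K := fun k =>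
        mul_mem (hKn.conj_mem _ k.2 x) (inv_mem k.2)
      have hinj : Function.Injective (fun k : K => (⟨x * (k : G) * x⁻¹ * (k : G)⁻¹, hmap k⟩ : K)) := by
        intro k k' hkk
        have h3 : x * (k : G) * x⁻¹ * (k : G)⁻¹ = x * (k' : G) * x⁻¹ * (k' : G)⁻¹ :=
          congrArg Subtype.val hkk
        have h4 : ((k' : G)⁻¹ * (k : G)) * x = x * ((k' : G)⁻¹ * (k : G)) := by
          have h5 : (k : G) * x⁻¹ * (k : G)⁻¹ = (k' : G) * x⁻¹ * (k' : G)⁻¹ := by
            have : x * ((k : G) * x⁻¹ * (k : G)⁻¹) = x * ((k' : G) * x⁻¹ * (k' : G)⁻¹) := by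
              rw [← mul_assoc, ← mul_assoc, ← mul_assoc, ← mul_assoc]; exact h3
            exact mul_left_cancel this
          have h6 : ((k' : G)⁻¹ * (k : G)) * x⁻¹ = x⁻¹ * ((k' : G)⁻¹ * (k : G)) := by
            calc ((k' : G)⁻¹ * (k : G)) * x⁻¹
                = (k' : G)⁻¹ * ((k : G) * x⁻¹ * (k : G)⁻¹) * (k : G) := by group
              _ = (k' : G)⁻¹ * ((k' : G) * x⁻¹ * (k' : G)⁻¹) * (k : G) := by rw [h5]
              _ = x⁻¹ * ((k' : G)⁻¹ * (k : G)) := by group
          have c : Commute ((k' : G)⁻¹ * (k : G)) x⁻¹ := h6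
          have c2 := c.inv_right
          rw [inv_inv] at c2
          exact c2
        have h7 : (k' : G)⁻¹ * (k : G) ∈ Subgroup.zpowers x := (hP x hxP hx1).2 _ h4
        have h8 := hKP _ (mul_mem (inv_mem k'.2) k.2) h7
        apply Subtype.ext
        exact (inv_mul_eq_one.mp h8).symm
      have hsurjK : Function.Surjective
          (fun k : K => (⟨x * (k : G) * x⁻¹ * (k : G)⁻¹, hmap k⟩ : K)) :=
        Finite.surjective_of_injective hinj
      intro k hk
      obtain ⟨k₀, hk₀⟩ := hsurjK ⟨k, hk⟩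
      have h3 : x * (k₀ : G) * x⁻¹ * (k₀ : G)⁻¹ = k := congrArg Subtype.val hk₀
      rw [← h3]
      have h4 : x * (k₀ : G) * x⁻¹ * (k₀ : G)⁻¹ = ⁅x, (k₀ : G)⁆ := by
        rw [commutatorElement_def]
      rw [h4]
      exact Subgroup.commutator_mem_commutator (Subgroup.mem_top _) (Subgroup.mem_top _)
    rw [le_antisymm h1 h2, hKidx]

end Cfsg.Agent.S4495
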