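import Cfsg.Statements.S4518
import Cfsg.Agent.Lib.Lead.CharPowMap
import Cfsg.Agent.Lib.Lead.CharOp
import Cfsg.Agent.Lib.Lead.CharClifford

set_option autoImplicit false
set_option maxHeartbeats 1600000

namespace Cfsg.Agent.S4518

open Cfsg Cfsg.Agent.Lib.Lead Cfsg.Agent.Lib.Helper2
open scoped ComplexConjugate

theorem result {G : Type*} [Group G] [Fintype G] (p : ℕ) [Fact p.Prime] (N : Subgroup G) [N.Normal] [Fintype N] (hidx : ¬ p ∣ N.index) (k e : ℕ) (hk : Nat.Coprime k (Nat.card G)) (hke : k ^ (p ^ e) ≡ 1 [MOD Nat.card G]) (χ : Cfsg.IrrCharacter G) (hχ : ∀ g : G, (χ : G → ℂ) (g ^ k) = (χ : G → ℂ) g) (θ : Cfsg.IrrCharacter N) (hθ : Cfsg.classInner (fun n : N => (χ : G → ℂ) n) (θ : N → ℂ) ≠ 0) : ∀ n : N, (θ : N → ℂ) (n ^ k) = (θ : N → ℂ) n := by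
  classical
  have hN : N.Normal := inferInstance
  have hkN : k.Coprime (Nat.card N) :=
    Nat.Coprime.coprime_dvd_right (Subgroup.card_subgroup_dvd_card N) hk
  obtain ⟨σ, hσ⟩ : ∃ σ : (N → ℂ) → (N → ℂ), σ = fun ψ n => ψ (n ^ k) := ⟨_, rfl⟩
  have hσapp : ∀ (ψ : N → ℂ) (n : N), σ ψ n = ψ (n ^ k) := by intro ψ n; rw [hσ]
  have hθσ_irr : IsIrrCharacter N (σ θ) := by
    rw [hσ]; exact isIrrCharacter_pow_coprime θ.2 hkN
  have hθσ_con : classInner (fun n : N => (χ : G → ℂ) n) (σ θ) ≠ 0 := by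
    have : classInner (fun n : N => (χ : G → ℂ) n) (σ θ) =
        classInner (fun n : N => (χ : G → ℂ) n) θ := by
      unfold classInner; congr 1
      have h1 : ∀ n : N, (χ : G → ℂ) n * conj (σ θ n) =
          (fun m : N => (χ : G → ℂ) m * conj ((θ : N → ℂ) m)) (n ^ k) := by
        intro n
        show _ = (χ : G → ℂ) ((n ^ k : N) : G) * conj ((θ : N → ℂ) (n ^ k))
        rw [Subgroup.coe_pow, hχ, hσapp]
      rw [Finset.sum_congr rfl (fun n _ => h1 n)]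
      exact Equiv.sum_comp (powCoprime hkN.symm)
        (fun m : N => (χ : G → ℂ) m * conj ((θ : N → ℂ) m))
    rw [this]; exact hθ
  have hcl := clifford N χ.2 θ.2 hθ
  have hmem : σ θ ∈ conjFinset N (θ : N → ℂ) := by
    by_contra hnot
    apply hθσ_con
    rw [hcl, classInner_smul_left, classInner_sum_left, Finset.sum_eq_zero, mul_zero]
    intro ψ hψ
    obtain ⟨g, rfl⟩ := (mem_conjFinset N _ ψ).mp hψ
    rw [irr_orthonormal (isIrrCharacter_twist N g θ.2) hθσ_irr, if_neg]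
    intro h; exact hnot (h ▸ hψ)
  have hcomm : ∀ (g : G) (ψ : N → ℂ), σ (twist N g ψ) = twist N g (σ ψ) := by
    intro g ψ
    funext n
    rw [hσapp]
    show ψ ⟨g * ((n ^ k : N) : G) * g⁻¹, _⟩ = σ ψ ⟨g * n * g⁻¹, _⟩
    rw [hσapp]
    congr 1
    apply Subtype.ext
    simp [conj_pow]
  have hσS : ∀ ψ ∈ conjFinset N (θ : N → ℂ), σ ψ ∈ conjFinset N (θ : N → ℂ) := by
    intro ψ hψ
    obtain ⟨g, rfl⟩ := (mem_conjFinset N _ ψ).mp hψ
    obtain ⟨h, hh⟩ := (mem_conjFinset N _ _).mp hmem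
    rw [mem_conjFinset]
    exact ⟨h * g, by rw [hcomm, hh, twist_twist]⟩
  obtain ⟨f, hf⟩ : ∃ f : Function.End {ψ // ψ ∈ conjFinset N (θ : N → ℂ)},
      f = fun ψ => ⟨σ ψ.1, hσS ψ.1 ψ.2⟩ := ⟨_, rfl⟩
  have hfapp : ∀ ψ : {ψ // ψ ∈ conjFinset N (θ : N → ℂ)}, (f ψ).1 = σ ψ.1 := by
    intro ψ; rw [hf]
  have hfpow : ∀ j : ℕ, ∀ ψ : {ψ // ψ ∈ conjFinset N (θ : N → ℂ)},
      ((f ^ j) ψ).1 = fun n => ψ.1 (n ^ (k ^ j)) := by
    intro j
    induction j with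
    | zero =>
      intro ψ
      show ψ.1 = _
      funext n
      rw [pow_zero, pow_one]
    | succ j ih =>
      intro ψ
      rw [pow_succ']
      show (f ((f ^ j) ψ)).1 = _
      rw [hfapp, ih ψ]
      funext n
      rw [hσapp, ← pow_mul, pow_succ']
  have hfp : f ^ p ^ e = 1 := by
    funext ψ
    apply Subtype.ext
    rw [hfpow]
    funext n
    show ψ.1 (n ^ (k ^ p ^ e)) = ψ.1 n
    congr 1
    have : n ^ (k ^ p ^ e) = n ^ 1 := by
      rw [pow_eq_pow_iff_modEq]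
      exact hke.of_dvd (dvd_trans (orderOf_dvd_natCard n) (Subgroup.card_subgroup_dvd_card N))
    rw [this, pow_one]
  have hmod := Equiv.Perm.card_fixedPoints_modEq (p := p) (n := e) hfp
  have hcardS : ¬ p ∣ (conjFinset N (θ : N → ℂ)).card := fun h =>
    hidx (dvd_trans h (card_conjFinset_dvd_index N (isClassFunction_irr θ)
      (isIrrCharacter_one_ne_zero θ.2)))
  have hfix : ∃ ψ : {ψ // ψ ∈ conjFinset N (θ : N → ℂ)}, f ψ = ψ := by
    by_contra hne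
    push_neg at hne
    have h0 : ∀ inst : Fintype (Function.fixedPoints f), @Fintype.card _ inst = 0 :=
      fun inst => (@Fintype.card_eq_zero_iff _ inst).mpr ⟨fun x => hne x.1 x.2⟩
    rw [h0, Fintype.card_coe] at hmod
    exact hcardS ((Nat.modEq_zero_iff_dvd).mp hmod)
  obtain ⟨⟨ψ₀, hψ₀S⟩, hψ₀⟩ := hfix
  have hψ₀' : σ ψ₀ = ψ₀ := by
    have := congrArg Subtype.val hψ₀
    rw [hfapp] at this
    exact this
  obtain ⟨g₀, hg₀⟩ := (mem_conjFinset N _ ψ₀).mp hψ₀S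
  have hθeq : (θ : N → ℂ) = twist N g₀⁻¹ ψ₀ := by
    rw [hg₀, twist_twist, mul_inv_cancel, twist_one]
  have hfin : σ (θ : N → ℂ) = θ := by
    conv_lhs => rw [hθeq]
    rw [hcomm, hψ₀', ← hθeq]
  intro n
  have := congrFun hfin n
  rw [hσapp] at this
  exact this

end Cfsg.Agent.S4518
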