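import Cfsg.Statements.S4550
import Cfsg.Agent.S0907
import Cfsg.Agent.Lib.Helper6.BlockOrtho
import Cfsg.Agent.Lib.Helper6.BlockBrauer
import Cfsg.Agent.Lib.Lead.CharBurnside
import Cfsg.Agent.Lib.Lead.CharPowMap
import Cfsg.Agent.Lib.Lead.CharGalois
import Cfsg.Agent.Lib.Lead.CharDeg
import Cfsg.Agent.Lib.Lead.CharBasic
import Cfsg.Agent.Lib.Lead.CharComplete

set_option autoImplicit false
open Cfsg
open scoped ComplexConjugate

namespace Cfsg.Agent.S4550
open Cfsg.Agent.Lib.Lead Cfsg.Agent.Lib.Helper6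

theorem three_pow (n : ℕ) : ∃ c : ℕ, 3 ^ (2 ^ n) = 1 + 2 ^ (n + 1) * c := by
  induction n with
  | zero => exact ⟨1, by norm_num⟩
  | succ n ih =>
    obtain ⟨c, hc⟩ := ih
    refine ⟨c + 2 ^ n * c ^ 2, ?_⟩
    rw [pow_succ 2 n, pow_mul, hc]
    ring

theorem pow_k_fix {G : Type*} [Group G] [Finite G] (k : ℕ)
    (hk₁ : ∀ g : G, (∃ j : ℕ, orderOf g = 2 ^ j) → g ^ k = g ^ 3)
    (hk₂ : ∀ g : G, Odd (orderOf g) → g ^ k = g) (g : G) :
    g ^ (k ^ (2 ^ Nat.card G)) = g := by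
  haveI : Fact (Nat.Prime 2) := ⟨Nat.prime_two⟩
  obtain ⟨x, y, hxy, hc, ⟨i, hi⟩, hy⟩ := exists_ppart 2 g
  have hyodd : Odd (orderOf y) := Nat.odd_iff.mpr (Nat.two_dvd_ne_zero.mp hy)
  have hy' : ∀ j : ℕ, y ^ (k ^ j) = y := by
    intro j
    induction j with
    | zero => simp
    | succ j ih => rw [pow_succ k j, pow_mul, ih, hk₂ y hyodd]
  have hx' : ∀ j : ℕ, x ^ (k ^ j) = x ^ (3 ^ j) := by
    intro j
    induction j with
    | zero => simp
    | succ j ih =>
      rw [pow_succ k j, pow_mul, ih, pow_succ 3 j, pow_mul]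
      apply hk₁
      have hdvd : orderOf (x ^ 3 ^ j) ∣ 2 ^ i := by rw [← hi]; exact orderOf_pow_dvd _
      obtain ⟨j', _, hj'⟩ := (Nat.dvd_prime_pow Nat.prime_two).mp hdvd
      exact ⟨j', hj'⟩
  obtain ⟨c, hc3⟩ := three_pow (Nat.card G)
  have hile : i ≤ Nat.card G + 1 := by
    have h1 : 2 ^ i ≤ Nat.card G := by
      rw [← hi]; exact Nat.le_of_dvd Nat.card_pos (orderOf_dvd_natCard x)
    have h2 : i < 2 ^ i := Nat.lt_two_pow_self
    omega
  have hx1 : x ^ (2 ^ (Nat.card G + 1)) = 1 := by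
    apply orderOf_dvd_iff_pow_eq_one.mp
    rw [hi]; exact pow_dvd_pow 2 hile
  rw [← hxy, hc.mul_pow, hy', hx', hc3, pow_add, pow_one, pow_mul, hx1, one_pow, mul_one]

theorem k_coprime {G : Type*} [Group G] [Finite G] (k : ℕ)
    (hk₁ : ∀ g : G, (∃ j : ℕ, orderOf g = 2 ^ j) → g ^ k = g ^ 3)
    (hk₂ : ∀ g : G, Odd (orderOf g) → g ^ k = g) : Nat.Coprime k (Nat.card G) := by
  by_contra hnc
  obtain ⟨r, hr, hrk, hrG⟩ := Nat.Prime.not_coprime_iff_dvd.mp hnc
  haveI : Fact r.Prime := ⟨hr⟩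
  obtain ⟨g, hg⟩ := exists_prime_orderOf_dvd_card' r hrG
  have hgk : g ^ k = 1 := orderOf_dvd_iff_pow_eq_one.mp (by rw [hg]; exact hrk)
  rcases hr.eq_two_or_odd' with h2 | hodd
  · have h3 : g ^ 3 = 1 := by rw [← hk₁ g ⟨1, by rw [hg, h2, pow_one]⟩]; exact hgk
    have hd : orderOf g ∣ 3 := orderOf_dvd_of_pow_eq_one h3
    rw [hg, h2] at hd
    exact absurd hd (by norm_num)
  · have h1 : g = 1 := by rw [← hk₂ g (by rw [hg]; exact hodd)]; exact hgk
    rw [h1, orderOf_one] at hg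
    exact hr.one_lt.ne' hg.symm

theorem invol_value {G : Type*} [Group G] [Finite G] (χ : IrrCharacter G) (t : G)
    (ht : orderOf t = 2) :
    ∃ j : ℕ, (χ : G → ℂ) t = (charDegree (χ : G → ℂ) : ℂ) - 2 * j := by
  classical
  obtain ⟨m, ρ, hirr, hρ⟩ := χ.2
  obtain ⟨ι, _, b, μ, h1, h2⟩ := exists_eigen_data ρ t
  have e1 : ρ.character t = ∑ i, μ i := trace_eq_sum_of_eigenbasis b (ρ t) μ h1
  have hn : Module.finrank ℂ (Fin m → ℂ) = Fintype.card ι := Module.finrank_eq_card_basis b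
  have hμ : ∀ i, μ i = 1 ∨ μ i = -1 := by
    intro i
    have h3 := h2 i
    rw [ht] at h3
    have h4 : (μ i - 1) * (μ i + 1) = 0 := by linear_combination h3
    rcases mul_eq_zero.mp h4 with h | h
    · exact Or.inl (sub_eq_zero.mp h)
    · exact Or.inr (eq_neg_of_add_eq_zero_left h)
  refine ⟨(Finset.univ.filter (fun i => μ i = -1)).card, ?_⟩
  rw [← hρ, charDegree_character, e1, hn]
  have h5 : ∀ i, μ i = 1 - 2 * (if μ i = -1 then (1 : ℂ) else 0) := by
    intro i
    rcases hμ i with h | h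
    · rw [h, if_neg (by norm_num)]; ring
    · rw [h, if_pos rfl]; ring
  rw [Finset.sum_congr rfl (fun i _ => h5 i), Finset.sum_sub_distrib, ← Finset.mul_sum,
    Finset.sum_boole]
  simp

theorem pow_mem_principal {G : Type*} [Group G] [Finite G] (M : Ideal AlgInt) {k : ℕ}
    (hk : k.Coprime (Nat.card G)) (χ ψ : IrrCharacter G)
    (hψ : ∀ g, (ψ : G → ℂ) g = (χ : G → ℂ) (g ^ k)) (hχ : χ ∈ principalBlock M G) :
    ψ ∈ principalBlock M G := by
  show ∀ g : G, MemLocalIdeal M (centralChar (fun _ : G => (1 : ℂ)) g - centralChar (ψ : G → ℂ) g)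
  intro g
  have h : MemLocalIdeal M (centralChar (fun _ : G => (1 : ℂ)) (g ^ k) -
      centralChar (χ : G → ℂ) (g ^ k)) := hχ (g ^ k)
  have hC : Subgroup.centralizer ({g ^ k} : Set G) = Subgroup.centralizer ({g} : Set G) := by
    obtain ⟨l, hl⟩ := exists_pow_pow_eq g hk
    ext x
    rw [Subgroup.mem_centralizer_singleton_iff, Subgroup.mem_centralizer_singleton_iff]
    constructor
    · intro h
      have h' : Commute x ((g ^ k) ^ l) := (show Commute x _ from h).pow_right l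
      rw [hl] at h'
      exact h'
    · intro h
      exact (show Commute x g from h).pow_right _
  unfold centralChar at h ⊢
  rw [hC] at h
  rw [hψ g, hψ 1, one_pow]
  exact h

/-- The Galois action `χ ↦ χ ∘ (· ^ k)` on the odd-degree members of the principal block. -/
noncomputable def galMap {G : Type*} [Group G] [Finite G] (M : Ideal AlgInt) (k : ℕ)
    (hkc : k.Coprime (Nat.card G)) :
    {χ : IrrCharacter G // χ ∈ principalBlock M G ∧ Odd (charDegree (χ : G → ℂ))} →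
    {χ : IrrCharacter G // χ ∈ principalBlock M G ∧ Odd (charDegree (χ : G → ℂ))} := fun s =>
  ⟨⟨fun g => (s.1 : G → ℂ) (g ^ k), by
      haveI := Fintype.ofFinite G
      exact isIrrCharacter_pow_coprime s.1.2 hkc⟩,
    pow_mem_principal M hkc s.1 _ (fun g => rfl) s.2.1,
    by
      have h : charDegree (fun g => (s.1 : G → ℂ) (g ^ k)) = charDegree (s.1 : G → ℂ) := by
        show ⌊((s.1 : G → ℂ) (1 ^ k)).re⌋₊ = ⌊((s.1 : G → ℂ) 1).re⌋₊
        rw [one_pow]
      rw [h]; exact s.2.2⟩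

theorem result {G : Type*} [Group G] [Finite G] (M : Ideal Cfsg.AlgInt) (hM : Cfsg.IsPModular 2 M) (hev : Even (Nat.card G)) (k : ℕ) (hk₁ : ∀ g : G, (∃ j : ℕ, orderOf g = 2 ^ j) → g ^ k = g ^ 3) (hk₂ : ∀ g : G, Odd (orderOf g) → g ^ k = g) : Even (Nat.card {χ : Cfsg.IrrCharacter G // χ ∈ Cfsg.principalBlock M G ∧ Odd (Cfsg.charDegree (χ : G → ℂ)) ∧ ∀ g : G, (χ : G → ℂ) (g ^ k) = (χ : G → ℂ) g}) := by
  classical
  haveI : Fact (Nat.Prime 2) := ⟨Nat.prime_two⟩
  letI := Fintype.ofFinite G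
  haveI : Finite (IrrCharacter G) := irr_finite
  letI : Fintype (IrrCharacter G) := Fintype.ofFinite _
  have hkc := k_coprime k hk₁ hk₂
  have hpow := pow_k_fix k hk₁ hk₂
  have hpar : Even (Nat.card {χ : IrrCharacter G //
      χ ∈ principalBlock M G ∧ Odd (charDegree (χ : G → ℂ))}) := by
    obtain ⟨t, ht⟩ := exists_prime_orderOf_dvd_card' 2 (even_iff_two_dvd.mp hev)
    obtain ⟨χ₁, hχ₁⟩ : ∃ χ₁ : IrrCharacter G, (χ₁ : G → ℂ) = fun _ => 1 :=
      ⟨⟨_, isIrrCharacter_one G⟩, rfl⟩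
    have hBblock : IsPBlock M (principalBlock M G) := ⟨χ₁, by rw [hχ₁]; rfl⟩
    have hortho := Cfsg.Agent.S0907.result 2 M hM (principalBlock M G) hBblock 1 t
      (by rw [orderOf_one]; norm_num) (by rw [ht])
    rw [finsum_mem_ite] at hortho
    choose j hj using fun χ : IrrCharacter G => invol_value χ t ht
    have hZ : (∑ χ : IrrCharacter G, if χ ∈ principalBlock M G then
        ((charDegree (χ : G → ℂ) : ℤ) ^ 2 -
          2 * ((charDegree (χ : G → ℂ) : ℤ) * (j χ : ℤ))) else 0) = 0 := by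
      have h : ((∑ χ : IrrCharacter G, if χ ∈ principalBlock M G then
          ((charDegree (χ : G → ℂ) : ℤ) ^ 2 -
            2 * ((charDegree (χ : G → ℂ) : ℤ) * (j χ : ℤ))) else 0 : ℤ) : ℂ) = 0 := by
        rw [← hortho]; push_cast
        apply Finset.sum_congr rfl; intro χ _
        split_ifs
        · have h2 : (starRingEnd ℂ) (2 : ℂ) = 2 := map_ofNat (starRingEnd ℂ) 2
          rw [isIrrCharacter_one_eq_charDegree χ.2, hj χ, map_sub, map_mul,
            Complex.conj_natCast, Complex.conj_natCast, h2]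
          ring
        · rfl
      exact_mod_cast h
    have hZ2 : (∑ χ : IrrCharacter G,
        if (χ ∈ principalBlock M G ∧ Odd (charDegree (χ : G → ℂ))) then (1 : ZMod 2) else 0) = 0 := by
      have h := congrArg (fun z : ℤ => (z : ZMod 2)) hZ
      simp only [Int.cast_sum, Int.cast_zero] at h
      refine Eq.trans ?_ h
      apply Finset.sum_congr rfl; intro χ _
      by_cases hχ : χ ∈ principalBlock M G
      · by_cases hodd : Odd (charDegree (χ : G → ℂ))
        · rw [if_pos ⟨hχ, hodd⟩, if_pos hχ]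
          have h1 : ((charDegree (χ : G → ℂ) : ℕ) : ZMod 2) = 1 :=
            ZMod.natCast_eq_one_iff_odd.mpr hodd
          have h2 : (2 : ZMod 2) = 0 := rfl
          push_cast
          rw [h1, h2]; ring
        · rw [if_neg (fun h => hodd h.2), if_pos hχ]
          have h1 : ((charDegree (χ : G → ℂ) : ℕ) : ZMod 2) = 0 :=
            ZMod.natCast_eq_zero_iff_even.mpr (Nat.not_odd_iff_even.mp hodd)
          push_cast
          rw [h1]; ring
      · rw [if_neg (fun h => hχ h.1), if_neg hχ]; simp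
    rw [Finset.sum_boole] at hZ2
    have hev2 := ZMod.natCast_eq_zero_iff_even.mp hZ2
    rw [Nat.card_eq_fintype_card, Fintype.card_subtype]
    exact hev2
  obtain ⟨f, hfdef⟩ : ∃ f : Function.End {χ : IrrCharacter G //
      χ ∈ principalBlock M G ∧ Odd (charDegree (χ : G → ℂ))}, f = galMap M k hkc := ⟨_, rfl⟩
  have hfval : ∀ s, ((f s).1 : G → ℂ) = fun g => (s.1 : G → ℂ) (g ^ k) := by
    intro s; rw [hfdef]; rfl
  have hiter : ∀ (j : ℕ) (s : {χ : IrrCharacter G //
      χ ∈ principalBlock M G ∧ Odd (charDegree (χ : G → ℂ))}),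
      (((f ^ j) s).1 : G → ℂ) = fun g => (s.1 : G → ℂ) (g ^ (k ^ j)) := by
    intro j
    induction j with
    | zero =>
      intro s
      rw [pow_zero]
      funext g
      show (s.1 : G → ℂ) g = (s.1 : G → ℂ) (g ^ (k ^ 0))
      rw [pow_zero, pow_one]
    | succ j ih =>
      intro s
      rw [pow_succ]
      show (((f ^ j) (f s)).1 : G → ℂ) = _
      rw [ih (f s), hfval s]
      funext g
      show (s.1 : G → ℂ) ((g ^ (k ^ j)) ^ k) = (s.1 : G → ℂ) (g ^ (k ^ (j + 1)))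
      rw [← pow_mul, ← pow_succ]
  have hf : f ^ 2 ^ (Nat.card G) = 1 := by
    have h : ∀ s, (f ^ 2 ^ (Nat.card G)) s = s := by
      intro s
      apply Subtype.ext; apply Subtype.ext
      rw [hiter]
      funext g
      rw [hpow g]
    exact funext h
  have hmod := Equiv.Perm.card_fixedPoints_modEq (p := 2) (n := Nat.card G) hf
  unfold Nat.ModEq at hmod
  rw [Fintype.card_eq_nat_card, Fintype.card_eq_nat_card] at hmod
  have hT : Nat.card {χ : IrrCharacter G // χ ∈ principalBlock M G ∧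
      Odd (charDegree (χ : G → ℂ)) ∧ ∀ g : G, (χ : G → ℂ) (g ^ k) = (χ : G → ℂ) g} =
      Nat.card (Function.fixedPoints f) := by
    apply Nat.card_congr
    refine ⟨fun t => ⟨⟨t.1, t.2.1, t.2.2.1⟩, ?_⟩, fun s => ⟨s.1.1, s.1.2.1, s.1.2.2, ?_⟩, ?_, ?_⟩
    · show f _ = _
      apply Subtype.ext; apply Subtype.ext
      rw [hfval]
      funext g
      exact t.2.2.2 g
    · intro g
      have h1 : f s.1 = s.1 := s.2
      have h2 := hfval s.1
      rw [h1] at h2
      exact (congrFun h2 g).symm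
    · intro t; rfl
    · intro s; rfl
  rw [hT, Nat.even_iff, ← hmod]
  exact Nat.even_iff.mp hpar

end Cfsg.Agent.S4550
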