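import Cfsg.Statements.S4558
import Cfsg.Agent.Lib.Lead.CharDeg

set_option autoImplicit false
open Cfsg

namespace Cfsg.Agent.S4558

/-- Let χ be a character of the finite group G and g an element of p-power order for the prime p. If χ g = 0, then p divides the degree of χ. -/
theorem result {G : Type*} [Group G] [Finite G] (p : ℕ) [Fact p.Prime] (χ : G → ℂ) (hχ : Cfsg.IsCharacter G χ) (g : G) (hg : ∃ j : ℕ, orderOf g = p ^ j) (h0 : χ g = 0) : p ∣ Cfsg.charDegree χ := by
  classical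
  obtain ⟨n, ρ, rfl⟩ := hχ
  obtain ⟨j, hj⟩ := hg
  rw [Cfsg.Agent.Lib.Lead.charDegree_character]
  obtain ⟨ι, _, b, μ, h1, h2⟩ := Cfsg.Agent.Lib.Lead.exists_eigen_data ρ g
  have e1 : ρ.character g = ∑ i, μ i :=
    Cfsg.Agent.Lib.Lead.trace_eq_sum_of_eigenbasis b (ρ g) μ h1
  rw [Module.finrank_eq_card_basis b]
  rw [hj] at h2
  rcases j with _ | j
  · have h3 : ∀ i, μ i = 1 := fun i => by simpa using h2 i
    rw [e1, Finset.sum_congr rfl (fun i _ => h3 i)] at h0
    simp only [Finset.sum_const, Finset.card_univ, nsmul_eq_mul, mul_one] at h0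
    have h4 : Fintype.card ι = 0 := by exact_mod_cast h0
    rw [h4]; exact dvd_zero p
  · have hp := (Fact.out : p.Prime)
    have hq : 0 < p ^ (j+1) := pow_pos hp.pos _
    obtain ⟨ζ, hζ⟩ : ∃ ζ : ℂ, IsPrimitiveRoot ζ (p^(j+1)) :=
      ⟨_, Complex.isPrimitiveRoot_exp _ hq.ne'⟩
    have he : ∀ i, ∃ e : ℕ, ζ ^ e = μ i := fun i => by
      obtain ⟨e, _, he⟩ := hζ.eq_pow_of_pow_eq_one (h2 i)
      exact ⟨e, he⟩
    choose e he using he
    let f : Polynomial ℤ := ∑ i, Polynomial.X ^ (e i)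
    have hf : Polynomial.aeval ζ f = 0 := by
      simp only [f, map_sum, map_pow, Polynomial.aeval_X]
      rw [← h0, e1]; exact Finset.sum_congr rfl (fun i _ => he i)
    have hdvd : Polynomial.cyclotomic (p^(j+1)) ℤ ∣ f := by
      rw [Polynomial.cyclotomic_eq_minpoly hζ hq]
      exact minpoly.isIntegrallyClosed_dvd (hζ.isIntegral hq) hf
    obtain ⟨h, hh⟩ := hdvd
    have h5 := congrArg (Polynomial.eval 1) hh
    simp only [f, Polynomial.eval_finsetSum, Polynomial.eval_pow, Polynomial.eval_X, one_pow,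
      Polynomial.eval_mul, Polynomial.eval_one_cyclotomic_prime_pow] at h5
    exact Int.natCast_dvd_natCast.mp ⟨_, by simpa using h5⟩

end Cfsg.Agent.S4558
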