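import Cfsg.Statements.S4565
import Cfsg.Agent.Lib.Lead.CharRam
import Cfsg.Agent.Lib.Lead.CharApps2
import Cfsg.Agent.Lib.Lead.CharIntegral

set_option autoImplicit false
open Cfsg

namespace Cfsg.Agent.S4565

open Cfsg.Agent.Lib.Lead Module
open scoped ComplexConjugate

theorem go_sum {G : Type*} [Group G] [Fintype G] {χ : G → ℂ} (hχ : IsIrrCharacter G χ) :
    ∃ d : ℂ, d ≠ 0 ∧ ∀ a b : G,
      ∑ h : G, χ (h * a * h⁻¹ * b) = (Nat.card G : ℂ) * χ a * χ b / d := by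
  obtain ⟨n, ρ, hρ, rfl⟩ := hχ
  haveI := hρ
  have hpos := finrank_pos_of_irreducible ρ
  have hne : (finrank ℂ (Fin n → ℂ) : ℂ) ≠ 0 := by exact_mod_cast hpos.ne'
  refine ⟨(finrank ℂ (Fin n → ℂ) : ℂ), hne, ?_⟩
  intro a b
  have h2 : ∑ h : G, ρ.character (h * a * h⁻¹ * b) =
      LinearMap.trace ℂ (Fin n → ℂ) ((∑ h : G, ρ (h * a * h⁻¹)) * ρ b) := by
    rw [Finset.sum_mul, map_sum]
    apply Finset.sum_congr rfl
    intro h _
    rw [← map_mul]
    rfl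
  rw [h2, sum_conj_rho ρ a, smul_mul_assoc, map_smul]
  have h3 : LinearMap.trace ℂ (Fin n → ℂ) (LinearMap.id * ρ b) = ρ.character b := by
    rw [show (LinearMap.id : (Fin n → ℂ) →ₗ[ℂ] (Fin n → ℂ)) * ρ b = ρ b from one_mul (ρ b)]; rfl
  rw [h3, smul_eq_mul]
  ring

theorem comm_of_eq_one {G : Type*} [Group G] {a b : G} (h : a * b⁻¹ * a⁻¹ * b = 1) :
    b * a = a * b := by
  have e1 : a * b = b * (a * b⁻¹ * a⁻¹ * b)⁻¹ * a := by group
  rw [e1, h, inv_one, mul_one]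

/-- Let χ be an irreducible character of the finite group H that is fully ramified over the normal subgroup Z: the restriction of χ to Z is e times an irreducible character of Z with e ^ 2 equal to the index of Z. If Z ≠ H, then H/Z has no cyclic subgroup that is its own centralizer. -/
theorem result {H : Type*} [Group H] [Finite H] (Z : Subgroup H) [Z.Normal] (χ : Cfsg.IrrCharacter H) (hfr : ∃ (θ : Cfsg.IrrCharacter ↥Z) (e : ℕ), e ^ 2 = Z.index ∧ ∀ z : ↥Z, (χ : H → ℂ) z = (e : ℂ) * (θ : ↥Z → ℂ) z) (hZ : Z ≠ ⊤) (C : Subgroup (H ⧸ Z)) (hC : IsCyclic C) : Subgroup.centralizer (C : Set (H ⧸ Z)) ≠ C := by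
  classical
  letI : Fintype H := Fintype.ofFinite H
  letI : Fintype ↥Z := Fintype.ofFinite ↥Z
  obtain ⟨θ, e, he, hres⟩ := hfr
  intro hcent
  have hres' : (fun n : ↥Z => (χ : H → ℂ) n) = (e : ℂ) • (θ : ↥Z → ℂ) := by
    funext z
    simp [hres z]
  have hvan : ∀ g : H, g ∉ Z → (χ : H → ℂ) g = 0 :=
    (sq_eq_index_iff_vanish Z χ.2 θ.2 hres').1 he
  have he0 : (e : ℂ) ≠ 0 := by
    have hidx : Z.index ≠ 0 := Subgroup.index_ne_zero_of_finite
    have : e ≠ 0 := by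
      rintro rfl
      exact hidx (by rw [← he]; norm_num)
    exact_mod_cast this
  have hχch : IsCharacter H (χ : H → ℂ) := isCharacter_of_isIrrCharacter χ.2
  have hχcf : IsClassFunction H (χ : H → ℂ) := isClassFunction_of_isCharacter hχch
  obtain ⟨dχ, hdχ, goχ⟩ := go_sum χ.2
  obtain ⟨dθ, hdθ, goθ⟩ := go_sum θ.2
  haveI := hC
  obtain ⟨⟨xb, hxbC⟩, hgen⟩ := IsCyclic.exists_generator (α := C)
  obtain ⟨x, rfl⟩ := QuotientGroup.mk_surjective xb
  have hCz : ∀ c : H ⧸ Z, c ∈ C → ∃ k : ℤ, (QuotientGroup.mk x : H ⧸ Z) ^ k = c := by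
    intro c hc
    obtain ⟨k, hk⟩ := Subgroup.mem_zpowers_iff.1 (hgen ⟨c, hc⟩)
    refine ⟨k, ?_⟩
    have := congrArg Subtype.val hk
    simpa using this
  have hxZ : x ∉ Z := by
    intro hx
    have h1 : (QuotientGroup.mk x : H ⧸ Z) = 1 := (QuotientGroup.eq_one_iff x).2 hx
    have hCbot : ∀ c : H ⧸ Z, c ∈ C → c = 1 := by
      intro c hc
      obtain ⟨k, hk⟩ := hCz c hc
      rw [← hk, h1, one_zpow]
    apply hZ
    rw [eq_top_iff]
    intro g _
    have hg : (QuotientGroup.mk g : H ⧸ Z) ∈ Subgroup.centralizer (C : Set (H ⧸ Z)) := by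
      rw [Subgroup.mem_centralizer_iff]
      intro c hc
      rw [hCbot c hc, one_mul, mul_one]
    rw [hcent] at hg
    exact (QuotientGroup.eq_one_iff g).1 (hCbot _ hg)
  -- key vanishing
  have key : ∀ y : H, (QuotientGroup.mk y : H ⧸ Z) = QuotientGroup.mk x →
      ∑ z : ↥Z, (χ : H → ℂ) ((z : H) * y⁻¹ * (z : H)⁻¹ * y) = 0 := by
    intro y hy
    have hyZ : y ∉ Z := by
      intro hyz
      apply hxZ
      rw [← QuotientGroup.eq_one_iff (N := Z), ← hy]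
      exact (QuotientGroup.eq_one_iff y).2 hyz
    obtain ⟨f, hf⟩ : ∃ f : H → ℂ, ∀ h : H, f h = (χ : H → ℂ) (h * y⁻¹ * h⁻¹ * y) :=
      ⟨_, fun _ => rfl⟩
    have hsum0 : ∑ h : H, f h = 0 := by
      have h1 := goχ y⁻¹ y
      rw [hvan y hyZ, mul_zero, zero_div] at h1
      rw [← h1]
      exact Finset.sum_congr rfl (fun h _ => hf h)
    have hT : ∑ z : ↥Z, (χ : H → ℂ) ((z : H) * y⁻¹ * (z : H)⁻¹ * y) = ∑ z : ↥Z, f (z : H) :=
      Finset.sum_congr rfl (fun z _ => (hf _).symm)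
    rw [hT]
    have hg : ∀ h : H, ∑ z : ↥Z, f (h * (z : H)) =
        if (QuotientGroup.mk h : H ⧸ Z) ∈ C then ∑ z : ↥Z, f (z : H) else 0 := by
      intro h
      split_ifs with hh
      · obtain ⟨t, hty, hth⟩ : ∃ t : H, t * y = y * t ∧
            (QuotientGroup.mk t : H ⧸ Z) = QuotientGroup.mk h := by
          obtain ⟨k, hk⟩ := hCz _ hh
          refine ⟨y ^ k, ?_, ?_⟩
          · exact (Commute.zpow_self y k).eq
          · rw [QuotientGroup.mk_zpow, hy]; exact hk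
        have hz0 : t⁻¹ * h ∈ Z := QuotientGroup.eq.1 hth
        apply Fintype.sum_equiv (Equiv.mulLeft (⟨t⁻¹ * h, hz0⟩ : ↥Z))
        intro z
        simp only [Equiv.coe_mulLeft, Subgroup.coe_mul, hf]
        rw [← hχcf (h * (z : H) * y⁻¹ * (h * (z : H))⁻¹ * y) t⁻¹]
        congr 1
        simp only [mul_inv_rev, inv_inv, mul_assoc]
        rw [hty]
      · apply Finset.sum_eq_zero
        intro z _
        rw [hf]
        apply hvan
        intro hmem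
        apply hh
        have hcen : (QuotientGroup.mk h : H ⧸ Z) ∈ Subgroup.centralizer (C : Set (H ⧸ Z)) := by
          rw [Subgroup.mem_centralizer_iff]
          intro c hc
          obtain ⟨k, rfl⟩ := hCz c hc
          have h1 : (QuotientGroup.mk (h * (z : H) * y⁻¹ * (h * (z : H))⁻¹ * y) : H ⧸ Z) = 1 :=
            (QuotientGroup.eq_one_iff _).2 hmem
          have hz1 : (QuotientGroup.mk (z : H) : H ⧸ Z) = 1 := (QuotientGroup.eq_one_iff _).2 z.2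
          simp only [QuotientGroup.mk_mul, QuotientGroup.mk_inv, hz1, mul_one, hy] at h1
          have h2 : Commute (QuotientGroup.mk x : H ⧸ Z) (QuotientGroup.mk h) :=
            comm_of_eq_one h1
          exact (h2.zpow_left k).eq
        rw [hcent] at hcen
        exact hcen
    have hdouble : ∑ h : H, ∑ z : ↥Z, f (h * (z : H)) = 0 := by
      rw [Finset.sum_comm]
      apply Finset.sum_eq_zero
      intro z _
      rw [← hsum0]
      exact Fintype.sum_equiv (Equiv.mulRight (z : H)) _ _ (fun h => rfl)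
    rw [Finset.sum_congr rfl (fun h _ => hg h)] at hdouble
    rw [Finset.sum_ite, Finset.sum_const_zero, add_zero, Finset.sum_const, nsmul_eq_mul] at hdouble
    rcases mul_eq_zero.1 hdouble with h0 | h0
    · exfalso
      have hcard : (Finset.univ.filter (fun h : H => (QuotientGroup.mk h : H ⧸ Z) ∈ C)).card ≠ 0 := by
        apply Finset.card_ne_zero_of_mem (a := 1)
        simp [Subgroup.one_mem]
      exact hcard (by exact_mod_cast h0)
    · exact h0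
  -- second stage
  have hw : ∀ z : ↥Z, x⁻¹ * (z : H)⁻¹ * x ∈ Z := fun z =>
    (inferInstance : Z.Normal).conj_mem' _ (Z.inv_mem z.2) x
  have hθw : ∀ z : ↥Z, (θ : ↥Z → ℂ) ⟨x⁻¹ * (z : H)⁻¹ * x, hw z⟩ = conj ((θ : ↥Z → ℂ) z) := by
    intro z
    have h1 := hres ⟨x⁻¹ * (z : H)⁻¹ * x, hw z⟩
    have h2 : (χ : H → ℂ) (x⁻¹ * (z : H)⁻¹ * x) = (χ : H → ℂ) (z : H)⁻¹ := by
      have := hχcf (z : H)⁻¹ x⁻¹
      rwa [inv_inv] at this
    have h3 : (χ : H → ℂ) (z : H)⁻¹ = conj ((χ : H → ℂ) (z : H)) :=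
      isCharacter_inv_eq_conj hχch _
    have h4 : (e : ℂ) * (θ : ↥Z → ℂ) ⟨x⁻¹ * (z : H)⁻¹ * x, hw z⟩ =
        (e : ℂ) * conj ((θ : ↥Z → ℂ) z) := by
      rw [← h1]
      show (χ : H → ℂ) (x⁻¹ * (z : H)⁻¹ * x) = _
      rw [h2, h3, hres z, map_mul, Complex.conj_natCast]
    exact mul_left_cancel₀ he0 h4
  have hterm : ∀ (z₁ z : ↥Z),
      (χ : H → ℂ) ((z : H) * (x * (z₁ : H))⁻¹ * (z : H)⁻¹ * (x * (z₁ : H))) =
      (e : ℂ) * (θ : ↥Z → ℂ) (z₁ * z * z₁⁻¹ * ⟨x⁻¹ * (z : H)⁻¹ * x, hw z⟩) := by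
    intro z₁ z
    have e1 : (z₁ : H) * ((z : H) * (x * (z₁ : H))⁻¹ * (z : H)⁻¹ * (x * (z₁ : H))) * (z₁ : H)⁻¹
        = ((z₁ * z * z₁⁻¹ * ⟨x⁻¹ * (z : H)⁻¹ * x, hw z⟩ : ↥Z) : H) := by
      simp only [Subgroup.coe_mul, Subgroup.coe_inv, Subgroup.coe_mk]
      group
    rw [← hres, ← e1, hχcf]
  have hfinal : ∑ z₁ : ↥Z, ∑ z : ↥Z,
      (χ : H → ℂ) ((z : H) * (x * (z₁ : H))⁻¹ * (z : H)⁻¹ * (x * (z₁ : H))) = 0 := by
    apply Finset.sum_eq_zero
    intro z₁ _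
    apply key
    rw [QuotientGroup.mk_mul, (QuotientGroup.eq_one_iff (z₁ : H)).2 z₁.2, mul_one]
  rw [Finset.sum_comm] at hfinal
  have hZ0 : (Nat.card ↥Z : ℂ) ≠ 0 := card_ne_zero_complex
  have hnorm : ∑ z : ↥Z, (θ : ↥Z → ℂ) z * conj ((θ : ↥Z → ℂ) z) = (Nat.card ↥Z : ℂ) := by
    have h := irr_orthonormal θ.2 θ.2
    rw [if_pos rfl] at h
    unfold classInner at h
    field_simp at h
    exact h
  have hcomp : ∀ z : ↥Z, ∑ z₁ : ↥Z,
      (χ : H → ℂ) ((z : H) * (x * (z₁ : H))⁻¹ * (z : H)⁻¹ * (x * (z₁ : H))) =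
      (e : ℂ) * (Nat.card ↥Z : ℂ) / dθ * ((θ : ↥Z → ℂ) z * conj ((θ : ↥Z → ℂ) z)) := by
    intro z
    rw [Finset.sum_congr rfl (fun z₁ _ => hterm z₁ z), ← Finset.mul_sum,
      goθ z ⟨x⁻¹ * (z : H)⁻¹ * x, hw z⟩, hθw z]
    ring
  rw [Finset.sum_congr rfl (fun z _ => hcomp z), ← Finset.mul_sum, hnorm] at hfinal
  have hne : (e : ℂ) * (Nat.card ↥Z : ℂ) / dθ * (Nat.card ↥Z : ℂ) ≠ 0 :=
    mul_ne_zero (div_ne_zero (mul_ne_zero he0 hZ0) hdθ) hZ0
  exact hne hfinal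

end Cfsg.Agent.S4565
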