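import Cfsg.Statements.S4566
import Cfsg.Agent.Lib.Lead.CharCentral2

set_option autoImplicit false
open Cfsg

namespace Cfsg.Agent.S4566

open Cfsg.Agent.Lib.Lead in
open scoped ComplexConjugate in
theorem result {G : Type*} [Group G] [Fintype G] (N : Subgroup G) [Fintype N] (hN : N ≤ Subgroup.center G) (ψ : Cfsg.IrrCharacter ↥N) (hfaith : ∀ n : ↥N, (ψ : ↥N → ℂ) n = (ψ : ↥N → ℂ) 1 → n = 1) (χ : Cfsg.IrrCharacter G) (hover : Cfsg.classInner (fun n : ↥N => (χ : G → ℂ) n) (ψ : ↥N → ℂ) ≠ 0) (g x : G) (hcomm : x⁻¹ * g⁻¹ * x * g ∈ N) (hne : x⁻¹ * g⁻¹ * x * g ≠ 1) : (χ : G → ℂ) g = 0 := by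
  classical
  set z : G := x⁻¹ * g⁻¹ * x * g with hz
  have hzc : z⁻¹ ∈ Subgroup.center G := (Subgroup.center G).inv_mem (hN hcomm)
  obtain ⟨c, hc⟩ := irr_central_scalar χ z⁻¹ hzc
  let w : N := ⟨z⁻¹, N.inv_mem hcomm⟩
  have hwc : w ∈ Subgroup.center N := by
    rw [Subgroup.mem_center_iff]; intro n; apply Subtype.ext
    show (n : G) * z⁻¹ = z⁻¹ * n
    exact Subgroup.mem_center_iff.mp hzc n
  obtain ⟨s, hs⟩ := irr_central_scalar ψ w hwc
  have hS : ∑ n : N, (χ : G → ℂ) n * conj ((ψ : N → ℂ) n) ≠ 0 := by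
    intro h0; apply hover; unfold Cfsg.classInner; rw [h0, mul_zero]
  have hS2 : ∑ n : N, (χ : G → ℂ) n * conj ((ψ : N → ℂ) n) =
      (c * conj s) * ∑ n : N, (χ : G → ℂ) n * conj ((ψ : N → ℂ) n) := by
    rw [Finset.mul_sum]
    rw [← Equiv.sum_comp (Equiv.mulRight w) (fun n : N => (χ : G → ℂ) n * conj ((ψ : N → ℂ) n))]
    apply Finset.sum_congr rfl; intro n _
    simp only [Equiv.coe_mulRight]
    rw [hs n, Subgroup.coe_mul, show ((w : N) : G) = z⁻¹ from rfl, hc (n : G), map_mul]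
    ring
  have hcs : c * conj s = 1 := by
    have : (c * conj s - 1) * ∑ n : N, (χ : G → ℂ) n * conj ((ψ : N → ℂ) n) = 0 := by
      linear_combination -hS2
    rcases mul_eq_zero.mp this with h | h
    · exact sub_eq_zero.mp h
    · exact absurd h hS
  have h1 : (χ : G → ℂ) (g * z⁻¹) = (χ : G → ℂ) g := by
    have : g * z⁻¹ = x⁻¹ * g * x⁻¹⁻¹ := by rw [hz]; group
    rw [this]; exact isClassFunction_irr χ g x⁻¹
  rw [hc g] at h1
  by_contra hne0
  have hc1 : c = 1 := by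
    have : (c - 1) * (χ : G → ℂ) g = 0 := by linear_combination h1
    rcases mul_eq_zero.mp this with h | h
    · exact sub_eq_zero.mp h
    · exact absurd h hne0
  rw [hc1, one_mul] at hcs
  have hs1 : s = 1 := by
    have := congrArg conj hcs
    simpa using this
  have h2 := hs 1
  rw [one_mul, hs1, one_mul] at h2
  have h3 := hfaith w h2
  apply hne
  have : z⁻¹ = 1 := congrArg Subtype.val h3
  exact inv_eq_one.mp this

end Cfsg.Agent.S4566
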