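import Cfsg.Statements.S4574
import Cfsg.Agent.Lib.Lead.CharGalois

set_option autoImplicit false
open Cfsg

namespace Cfsg.Agent.S4574

theorem aux {G : Type*} [Group G] [Fintype G] [DecidableEq G] (χ : G → ℂ)
    (hχ : Cfsg.IsIrrCharacter G χ) (Zc Z0 : Finset G)
    (hZc : ∀ g, g ∈ Zc ↔ ‖χ g‖ = (Cfsg.charDegree χ : ℝ)) (hZ0 : ∀ g, g ∈ Z0 ↔ χ g = 0) :
    (Cfsg.charDegree χ ^ 2 - 1) * Zc.card ≤ Z0.card ∧
    ((∀ g : G, ‖χ g‖ = 0 ∨ ‖χ g‖ = 1 ∨ ‖χ g‖ = (Cfsg.charDegree χ : ℝ)) →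
      (Cfsg.charDegree χ ^ 2 - 1) * Zc.card = Z0.card) := by
  classical
  have hd : 0 < Cfsg.charDegree χ := Cfsg.Agent.Lib.Lead.charDegree_pos_of_irr hχ
  have hsum := Cfsg.Agent.Lib.Lead.sum_norm_sq_irr hχ
  have hchar := Cfsg.Agent.Lib.Lead.isCharacter_of_isIrrCharacter hχ
  -- F2
  have F2 : ∀ (g : G) (k : ℕ), ‖χ g‖ = (Cfsg.charDegree χ : ℝ) →
      ‖χ (g ^ k)‖ = (Cfsg.charDegree χ : ℝ) := by
    obtain ⟨n, ρ, hirr, rfl⟩ := hχ
    intro g k hg
    rw [Cfsg.Agent.Lib.Lead.charDegree_character] at hg ⊢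
    rw [Cfsg.Agent.Lib.Lead.norm_char_eq_finrank_iff] at hg ⊢
    obtain ⟨ω, hω⟩ := hg
    refine ⟨ω ^ k, ?_⟩
    rw [map_pow, hω]
    ext v
    simp [smul_pow]
  set S : Finset G := Finset.univ.filter (fun g : G => g ∉ Zc) with hSdef
  have key := Cfsg.Agent.Lib.Lead.isCharacter_card_nonvanishing_le_sum_norm_sq hchar S (by
    intro g hg k hk
    rw [hSdef, Finset.mem_filter] at hg ⊢
    refine ⟨Finset.mem_univ _, fun h => hg.2 ?_⟩
    rw [hZc] at h ⊢
    obtain ⟨l, hl⟩ := Cfsg.Agent.Lib.Lead.exists_pow_pow_eq g hk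
    have := F2 (g ^ k) l h
    rwa [hl] at this)
  have hS0 : S.filter (fun g => χ g = 0) = Z0 := by
    ext g
    rw [Finset.mem_filter, hSdef, Finset.mem_filter, hZ0, hZc]
    constructor
    · exact fun h => h.2
    · intro h
      refine ⟨⟨Finset.mem_univ _, ?_⟩, h⟩
      rw [h, norm_zero]
      intro h0
      have : (Cfsg.charDegree χ : ℝ) ≠ 0 := by exact_mod_cast hd.ne'
      exact this h0.symm
  have hcard1 : (S.filter (fun g => χ g ≠ 0)).card + Z0.card = S.card := by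
    rw [← hS0, add_comm]
    exact Finset.card_filter_add_card_filter_not (s := S) (fun g => χ g = 0)
  have hcard2 : Zc.card + S.card = Fintype.card G := by
    have h1 := Finset.card_filter_add_card_filter_not (s := (Finset.univ : Finset G))
      (fun g : G => g ∈ Zc)
    rw [Finset.card_univ] at h1
    have h2 : (Finset.univ.filter (fun g : G => g ∈ Zc)) = Zc := by ext g; simp
    rw [h2] at h1
    exact h1
  have hsplit : ∑ g : G, ‖χ g‖ ^ 2 = (Cfsg.charDegree χ : ℝ) ^ 2 * Zc.card + ∑ g ∈ S, ‖χ g‖ ^ 2 := by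
    rw [← Finset.sum_filter_add_sum_filter_not (Finset.univ : Finset G) (fun g : G => g ∈ Zc)]
    congr 1
    have h2 : (Finset.univ.filter (fun g : G => g ∈ Zc)) = Zc := by ext g; simp
    rw [h2, mul_comm, ← nsmul_eq_mul, ← Finset.sum_const]
    apply Finset.sum_congr rfl
    intro g hg
    rw [(hZc g).mp hg]
  rw [Nat.card_eq_fintype_card] at hsum
  have hdcast : ((Cfsg.charDegree χ ^ 2 - 1 : ℕ) : ℝ) = (Cfsg.charDegree χ : ℝ) ^ 2 - 1 := by
    rw [Nat.cast_sub (Nat.one_le_pow _ _ hd)]; push_cast; ring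
  have e1 : ((S.filter (fun g => χ g ≠ 0)).card : ℝ) + (Z0.card : ℝ) = (S.card : ℝ) := by
    exact_mod_cast hcard1
  have e2 : (Zc.card : ℝ) + (S.card : ℝ) = (Fintype.card G : ℝ) := by exact_mod_cast hcard2
  constructor
  · have : ((Cfsg.charDegree χ ^ 2 - 1 : ℕ) : ℝ) * (Zc.card : ℝ) ≤ (Z0.card : ℝ) := by
      rw [hdcast]; nlinarith
    exact_mod_cast this
  · intro hyp
    have hSsum : ∑ g ∈ S, ‖χ g‖ ^ 2 = ((S.filter (fun g => χ g ≠ 0)).card : ℝ) := by
      rw [Finset.card_filter]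
      push_cast
      apply Finset.sum_congr rfl
      intro g hg
      rw [hSdef, Finset.mem_filter, hZc] at hg
      rcases hyp g with h | h | h
      · rw [h]; rw [norm_eq_zero] at h; simp [h]
      · rw [h]
        have : χ g ≠ 0 := by
          intro h0; rw [h0, norm_zero] at h; exact zero_ne_one h
        simp [this]
      · exact absurd h hg.2
    have : ((Cfsg.charDegree χ ^ 2 - 1 : ℕ) : ℝ) * (Zc.card : ℝ) = (Z0.card : ℝ) := by
      rw [hdcast]; nlinarith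
    exact_mod_cast this

theorem result {G : Type*} [Group G] [Fintype G] [DecidableEq G] (χ : G → ℂ) (hχ : Cfsg.IsIrrCharacter G χ) : (Cfsg.charDegree χ ^ 2 - 1) * (Finset.univ.filter (fun g : G => ‖χ g‖ = (Cfsg.charDegree χ : ℝ))).card ≤ (Finset.univ.filter (fun g : G => χ g = 0)).card ∧ ((∀ g : G, ‖χ g‖ = 0 ∨ ‖χ g‖ = 1 ∨ ‖χ g‖ = (Cfsg.charDegree χ : ℝ)) → (Cfsg.charDegree χ ^ 2 - 1) * (Finset.univ.filter (fun g : G => ‖χ g‖ = (Cfsg.charDegree χ : ℝ))).card = (Finset.univ.filter (fun g : G => χ g = 0)).card) := by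
  exact aux χ hχ _ _ (fun g => by simp) (fun g => by simp)

end Cfsg.Agent.S4574
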