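import Mathlib
import Cfsg.Statements.S4582
import Cfsg.Agent.Lib.Helper7.Coprime

set_option autoImplicit false
open Cfsg

namespace Cfsg.Agent.S4582

theorem two_odd {A : Type*} [Group A] (hA : IsPGroup 2 A) (a : A) (m : ℕ) (hm : Odd m)
    (h : a ^ m = 1) : a = 1 := by
  obtain ⟨k, hk⟩ := hA a
  have h1 : orderOf a ∣ m := orderOf_dvd_of_pow_eq_one h
  have h2 : orderOf a ∣ 2 ^ k := orderOf_dvd_of_pow_eq_one hk
  have hc : Nat.Coprime m (2 ^ k) := Nat.Coprime.pow_right k (Nat.coprime_two_right.mpr hm)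
  have h3 : orderOf a ∣ Nat.gcd m (2 ^ k) := Nat.dvd_gcd h1 h2
  rw [hc.gcd_eq_one, Nat.dvd_one] at h3
  exact orderOf_eq_one_iff.mp h3

theorem transfer_sq {K : Type*} [Group K] (H : Subgroup K) [H.FiniteIndex] {A : Type*}
    [CommGroup A] (ϕ : H →* A)
    (hfus : ∀ (h : K) (hh : h ∈ H) (g : K) (hconj : g⁻¹ * h * g ∈ H),
      (ϕ ⟨g⁻¹ * h * g, hconj⟩) ^ 2 = (ϕ ⟨h, hh⟩) ^ 2) (x : H) :
    (MonoidHom.transfer ϕ (x : K)) ^ 2 = ((ϕ x) ^ 2) ^ H.index := by
  classical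
  haveI : Fintype (Quotient (MulAction.orbitRel (Subgroup.zpowers (x : K)) (K ⧸ H))) :=
    Fintype.ofFinite _
  rw [Subgroup.index_eq_sum_minimalPeriod H (x : K), ← Finset.prod_pow_eq_pow_sum,
    MonoidHom.transfer_eq_prod_quotient_orbitRel_zpowers_quot, ← Finset.prod_pow]
  apply Finset.prod_congr rfl
  intro q _
  rw [hfus ((x : K) ^ Function.minimalPeriod ((x : K) • ·) q.out) (pow_mem x.2 _) q.out.out]
  have h1 : (⟨(x : K) ^ Function.minimalPeriod ((x : K) • ·) q.out, pow_mem x.2 _⟩ : H) =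
      x ^ Function.minimalPeriod ((x : K) • ·) q.out := Subtype.ext rfl
  rw [h1, map_pow, ← pow_mul, ← pow_mul, mul_comm]

/-- Let N be a normal subgroup of the finite group G, P a Sylow 2-subgroup of G and Q = P ∩ N. Suppose that P/QP' and Q/Q' are elementary abelian (every square of an element of P lies in the subgroup generated by Q and the derived subgroup of P, and every square of an element of Q lies in the derived subgroup of Q), and that the commutator factor group N/N' has odd order. Then P/P' is elementary abelian. -/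
theorem result {G : Type*} [Group G] [Finite G] (N : Subgroup G) [N.Normal] (P : Sylow 2 G)
    (hP : ∀ x ∈ (P : Subgroup G), x ^ 2 ∈ ((P : Subgroup G) ⊓ N) ⊔ ⁅(P : Subgroup G), (P : Subgroup G)⁆)
    (hQ : ∀ x ∈ (P : Subgroup G) ⊓ N, x ^ 2 ∈ ⁅(P : Subgroup G) ⊓ N, (P : Subgroup G) ⊓ N⁆)
    (hodd : Odd (Nat.card (Abelianization N))) :
    ∀ x ∈ (P : Subgroup G), x ^ 2 ∈ ⁅(P : Subgroup G), (P : Subgroup G)⁆ := by
  classical
  have hNn : N.Normal := inferInstance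
  obtain ⟨K, hK⟩ : ∃ K : Subgroup G, K = N ⊔ (P : Subgroup G) := ⟨_, rfl⟩
  have hPK : (P : Subgroup G) ≤ K := by rw [hK]; exact le_sup_right
  have hNK : N ≤ K := by rw [hK]; exact le_sup_left
  obtain ⟨H, hH⟩ : ∃ H : Subgroup K, H = (P : Subgroup G).subgroupOf K := ⟨_, rfl⟩
  have hmemH : ∀ k : K, k ∈ H ↔ (k : G) ∈ (P : Subgroup G) := by
    intro k; rw [hH, Subgroup.mem_subgroupOf]
  obtain ⟨ι, hι⟩ : ∃ ι : H →* (P : Subgroup G), ∀ y : H, ((ι y : (P : Subgroup G)) : G) = ((y : K) : G) :=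
    ⟨{ toFun := fun y => ⟨((y : K) : G), (hmemH y.1).mp y.2⟩
       map_one' := rfl
       map_mul' := fun a b => rfl }, fun y => rfl⟩
  obtain ⟨ϕ, hϕ⟩ : ∃ ϕ : H →* Abelianization (P : Subgroup G), ϕ = Abelianization.of.comp ι :=
    ⟨_, rfl⟩
  have hϕ1 : ∀ y : H, ((y : K) : G) ∈ ⁅(P : Subgroup G), (P : Subgroup G)⁆ → ϕ y = 1 := by
    intro y hy
    rw [hϕ]
    show Abelianization.of (ι y) = 1
    rw [← Subgroup.map_subtype_commutator] at hy
    obtain ⟨w, hw, hwy⟩ := hy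
    have : ι y = w := Subtype.ext ((hι y).trans hwy.symm)
    rw [this]
    exact (QuotientGroup.eq_one_iff w).mpr hw
  have hϕ1' : ∀ y : H, ϕ y = 1 → ((y : K) : G) ∈ ⁅(P : Subgroup G), (P : Subgroup G)⁆ := by
    intro y hy
    rw [hϕ] at hy
    have h1 : ι y ∈ commutator (P : Subgroup G) := (QuotientGroup.eq_one_iff (ι y)).mp hy
    rw [← Subgroup.map_subtype_commutator]
    exact ⟨ι y, h1, hι y⟩
  have hA2 : IsPGroup 2 (Abelianization (P : Subgroup G)) := P.isPGroup'.to_quotient _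
  obtain ⟨V, hV⟩ : ∃ V : K →* Abelianization (P : Subgroup G), V = MonoidHom.transfer ϕ :=
    ⟨_, rfl⟩
  -- V kills N
  have hVN : ∀ n : K, (n : G) ∈ N → V n = 1 := by
    intro n hn
    obtain ⟨f, hf⟩ : ∃ f : N →* Abelianization (P : Subgroup G),
      f = V.comp (Subgroup.inclusion hNK) := ⟨_, rfl⟩
    have h1 : V n = Abelianization.lift f (Abelianization.of ⟨(n : G), hn⟩) := by
      rw [Abelianization.lift_apply_of, hf]
      show V n = V (Subgroup.inclusion hNK ⟨(n : G), hn⟩)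
      congr 1
    have h2 : (Abelianization.of (⟨(n : G), hn⟩ : N)) ^ (Nat.card (Abelianization N)) = 1 :=
      pow_card_eq_one'
    have h3 : (V n) ^ (Nat.card (Abelianization N)) = 1 := by
      rw [h1, ← map_pow, h2, map_one]
    exact two_odd hA2 _ _ hodd h3
  -- V kills commutators of P
  have hVc : ∀ c : K, (c : G) ∈ ⁅(P : Subgroup G), (P : Subgroup G)⁆ → V c = 1 := by
    intro c hc
    have h1 : (c : G) ∈ ⁅K, K⁆ := Subgroup.commutator_mono hPK hPK hc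
    rw [← Subgroup.map_subtype_commutator] at h1
    obtain ⟨w, hw, hwc⟩ := h1
    have : w = c := Subtype.ext hwc
    rw [← this]
    exact MonoidHom.mem_ker.mp (Abelianization.commutator_subset_ker V hw)
  -- fusion
  have hfus : ∀ (h : K) (hh : h ∈ H) (g : K) (hconj : g⁻¹ * h * g ∈ H),
      (ϕ ⟨g⁻¹ * h * g, hconj⟩) ^ 2 = (ϕ ⟨h, hh⟩) ^ 2 := by
    intro h hh g hconj
    have hg : (g : G) ∈ N ⊔ (P : Subgroup G) := by rw [← hK]; exact g.2
    obtain ⟨n, hn, p, hp, hgnp⟩ := Cfsg.Agent.Lib.Helper7.exists_mul_of_mem_sup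
      (Subgroup.le_normalizer_of_normal) hg
    have hhP : (h : G) ∈ (P : Subgroup G) := (hmemH h).mp hh
    have hyP : (g : G)⁻¹ * (h : G) * (g : G) ∈ (P : Subgroup G) := (hmemH _).mp hconj
    obtain ⟨r, hr⟩ : ∃ r : G, r = (h : G)⁻¹ * (n⁻¹ * (h : G) * n) := ⟨_, rfl⟩
    have hrN : r ∈ N := by
      have h1 : r = ((h : G)⁻¹ * n⁻¹ * (h : G)⁻¹⁻¹) * n := by rw [hr]; group
      rw [h1]
      exact mul_mem (hNn.conj_mem _ (inv_mem hn) _) hn
    have hrP : r ∈ (P : Subgroup G) := by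
      have h1 : r = (h : G)⁻¹ * (p * ((g : G)⁻¹ * (h : G) * (g : G)) * p⁻¹) := by
        rw [hr, hgnp]; group
      rw [h1]
      exact mul_mem (inv_mem hhP) (mul_mem (mul_mem hp hyP) (inv_mem hp))
    have hr2 : r ^ 2 ∈ ⁅(P : Subgroup G), (P : Subgroup G)⁆ :=
      Subgroup.commutator_mono inf_le_left inf_le_left (hQ r ⟨hrP, hrN⟩)
    obtain ⟨rH, hrH⟩ : ∃ rH : H, ((rH : K) : G) = r :=
      ⟨⟨⟨r, hPK hrP⟩, (hmemH _).mpr hrP⟩, rfl⟩
    obtain ⟨pH, hpH⟩ : ∃ pH : H, ((pH : K) : G) = p :=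
      ⟨⟨⟨p, hPK hp⟩, (hmemH _).mpr hp⟩, rfl⟩
    have e1 : (⟨g⁻¹ * h * g, hconj⟩ : H) = pH⁻¹ * (⟨h, hh⟩ * rH) * pH := by
      apply Subtype.ext
      apply Subtype.ext
      show (g : G)⁻¹ * (h : G) * (g : G) = ((pH : K) : G)⁻¹ * ((h : G) * ((rH : K) : G)) * ((pH : K) : G)
      rw [hrH, hpH, hr, hgnp]; group
    have e2 : ϕ rH ^ 2 = 1 := by
      rw [← map_pow]
      apply hϕ1
      show ((rH : K) : G) ^ 2 ∈ _
      rw [hrH]; exact hr2
    rw [e1, map_mul, map_mul, map_inv, map_mul]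
    rw [mul_comm (ϕ pH)⁻¹, mul_assoc, inv_mul_cancel, mul_one, mul_pow, e2, mul_one]
  -- main
  intro x hx
  obtain ⟨xH, hxH⟩ : ∃ xH : H, ((xH : K) : G) = x :=
    ⟨⟨⟨x, hPK hx⟩, (hmemH _).mpr hx⟩, rfl⟩
  have h1 := transfer_sq H ϕ hfus xH
  rw [← hV] at h1
  have h2 : V (xH : K) ^ 2 = 1 := by
    rw [← map_pow]
    have hx2 := hP x hx
    rw [sup_comm] at hx2
    have hnorm : (P : Subgroup G) ⊓ N ≤
        Subgroup.normalizer ((⁅(P : Subgroup G), (P : Subgroup G)⁆ : Subgroup G) : Set G) := by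
      intro q hq
      rw [Subgroup.mem_normalizer_iff]
      intro c
      have hqP : q ∈ (P : Subgroup G) := hq.1
      constructor
      · intro hc
        rw [← Subgroup.map_subtype_commutator] at hc ⊢
        obtain ⟨w, hw, rfl⟩ := hc
        refine ⟨⟨q, hqP⟩ * w * ⟨q, hqP⟩⁻¹, ?_, rfl⟩
        exact (inferInstance : (commutator (P : Subgroup G)).Normal).conj_mem w hw _
      · intro hc
        rw [← Subgroup.map_subtype_commutator] at hc ⊢
        obtain ⟨w, hw, hwc⟩ := hc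
        refine ⟨⟨q, hqP⟩⁻¹ * w * ⟨q, hqP⟩⁻¹⁻¹, ?_, ?_⟩
        · exact (inferInstance : (commutator (P : Subgroup G)).Normal).conj_mem w hw _
        · show q⁻¹ * (w : G) * q⁻¹⁻¹ = c
          have : (w : G) = q * c * q⁻¹ := hwc
          rw [this]; group
    obtain ⟨c, hc, q, hq, hxcq⟩ := Cfsg.Agent.Lib.Helper7.exists_mul_of_mem_sup hnorm hx2
    have hcK : c ∈ K := hPK (Subgroup.commutator_le_self _ hc)
    have hqK : q ∈ K := hPK hq.1
    have e3 : (xH : K) ^ 2 = ⟨c, hcK⟩ * ⟨q, hqK⟩ := by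
      apply Subtype.ext
      show ((xH : K) : G) ^ 2 = c * q
      rw [hxH]; exact hxcq
    rw [e3, map_mul, hVc ⟨c, hcK⟩ hc, hVN ⟨q, hqK⟩ hq.2, mul_one]
  rw [h2] at h1
  have hidx : Odd H.index := by
    rw [hH]
    have h3 : ¬ 2 ∣ ((P : Subgroup G).subgroupOf K).index := by
      intro hdvd
      have h4 : ((P : Subgroup G).subgroupOf K).index ∣ (P : Subgroup G).index :=
        Subgroup.relIndex_dvd_index_of_le hPK
      exact P.not_dvd_index (hdvd.trans h4)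
    exact Nat.odd_iff.mpr (Nat.two_dvd_ne_zero.mp h3)
  have h5 : ϕ xH ^ 2 = 1 := two_odd hA2 _ _ hidx h1.symm
  rw [← map_pow] at h5
  have h6 := hϕ1' _ h5
  have h7 : (((xH ^ 2 : H) : K) : G) = x ^ 2 := by
    show ((xH : K) : G) ^ 2 = x ^ 2
    rw [hxH]
  rw [h7] at h6
  exact h6

end Cfsg.Agent.S4582
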