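import Cfsg.Statements.S4602
import Cfsg.Agent.Lib.Helper1.UpperP
import Cfsg.Agent.Lib.Helper7.CoprimeSylow

set_option autoImplicit false
open Cfsg

open Cfsg.Agent.Lib.Helper1 Cfsg.Agent.Lib.Helper7

namespace Cfsg.Agent.S4602

/-- Let G be a finite p-solvable group and q a prime different from p. Some Sylow p-subgroup of G normalizes some Sylow q-subgroup of G if and only if q does not divide the order of G/O_{p'}(G), the quotient by the largest normal subgroup of order prime to p. -/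
theorem result {G : Type*} [Group G] [Finite G] (p q : ℕ) [Fact p.Prime] [Fact q.Prime] (hpq : p ≠ q) (hsolv : Cfsg.IsPSolvable p G) :
    (∃ (P : Sylow p G) (Q : Sylow q G), (P : Subgroup G) ≤ Subgroup.normalizer ((Q : Subgroup G) : Set G)) ↔ ¬ q ∣ (Cfsg.pPrimeCore p G).index := by
  have hOn : (Cfsg.pPrimeCore p G).Normal := pPrimeCore_normal p G
  constructor
  · rintro ⟨P, Q, hPQ⟩
    rw [Subgroup.index_eq_card]
    intro hdvd
    have hπs : Function.Surjective (QuotientGroup.mk' (Cfsg.pPrimeCore p G)) :=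
      QuotientGroup.mk'_surjective _
    have hUn : (Cfsg.pCore p (G ⧸ Cfsg.pPrimeCore p G)).Normal := pCore_normal p _
    have hUp := pCore_isPGroup p (G ⧸ Cfsg.pPrimeCore p G)
    have hC := centralizer_pCore_le_of_isPSolvable p _
      (isPSolvable_of_surjective p _ hπs hsolv) (pPrimeCore_quotient_eq_bot p G)
    -- `O_p` lies in the image of `P`
    have hUP : Cfsg.pCore p (G ⧸ Cfsg.pPrimeCore p G)
        ≤ (P : Subgroup G).map (QuotientGroup.mk' (Cfsg.pPrimeCore p G)) := by
      have h1 : IsPGroup p ↥(((P.mapSurjective hπs : Sylow p (G ⧸ Cfsg.pPrimeCore p G)) :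
          Subgroup (G ⧸ Cfsg.pPrimeCore p G)) ⊔ Cfsg.pCore p (G ⧸ Cfsg.pPrimeCore p G)) :=
        (P.mapSurjective hπs).isPGroup'.to_sup_of_normal_right hUp
      have h2 := (P.mapSurjective hπs).is_maximal' h1 le_sup_left
      rw [← Sylow.coe_mapSurjective hπs P, ← h2]
      exact le_sup_right
    have hQn : Cfsg.pCore p (G ⧸ Cfsg.pPrimeCore p G) ≤ Subgroup.normalizer
        (((Q : Subgroup G).map (QuotientGroup.mk' (Cfsg.pPrimeCore p G)) :
          Subgroup (G ⧸ Cfsg.pPrimeCore p G)) : Set (G ⧸ Cfsg.pPrimeCore p G)) :=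
      hUP.trans ((Subgroup.map_mono hPQ).trans (Subgroup.le_normalizer_map _))
    have hQq : IsPGroup q ↥((Q : Subgroup G).map (QuotientGroup.mk' (Cfsg.pPrimeCore p G))) :=
      Q.isPGroup'.map _
    have hcop : (Nat.card ↥((Q : Subgroup G).map (QuotientGroup.mk' (Cfsg.pPrimeCore p G)))).Coprime
        (Nat.card ↥(Cfsg.pCore p (G ⧸ Cfsg.pPrimeCore p G))) := by
      obtain ⟨a, ha⟩ := IsPGroup.iff_card.mp hQq
      obtain ⟨b, hb⟩ := IsPGroup.iff_card.mp hUp
      rw [ha, hb]
      exact Nat.Coprime.pow _ _ ((Nat.coprime_primes Fact.out Fact.out).mpr hpq.symm)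
    have h3 := commutator_eq_bot_of_coprime_of_le_normalizer
      (by rw [Subgroup.normalizer_eq_top_iff.mpr hUn]; exact le_top) hQn hcop
    have h4 := (Subgroup.commutator_eq_bot_iff_le_centralizer.mp h3).trans hC
    have h5 : (Q : Subgroup G).map (QuotientGroup.mk' (Cfsg.pPrimeCore p G)) = ⊥ := by
      rw [eq_bot_iff, ← (Subgroup.disjoint_of_coprime_natCard hcop).eq_bot]
      exact le_inf le_rfl h4
    have h6 := Sylow.ne_bot_of_dvd_card (Q.mapSurjective hπs) hdvd
    rw [Sylow.coe_mapSurjective] at h6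
    exact h6 h5
  · intro hq
    obtain ⟨P⟩ : Nonempty (Sylow p G) := inferInstance
    have hcop : (Nat.card ↥(P : Subgroup G)).Coprime (Nat.card ↥(Cfsg.pPrimeCore p G)) :=
      (coprime_card_of_isPGroup (pPrimeCore_coprime p G) P.isPGroup').symm
    obtain ⟨Q₀, hQ₀⟩ := exists_invariant_sylow (P : Subgroup G) (Cfsg.pPrimeCore p G)
      (by rw [Subgroup.normalizer_eq_top_iff.mpr hOn]; exact le_top) hcop
      (Or.inl (isSolvable_of_isPGroup P.isPGroup')) q
    have hQp : IsPGroup q ↥((Q₀ : Subgroup ↥(Cfsg.pPrimeCore p G)).map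
        (Cfsg.pPrimeCore p G).subtype) := Q₀.isPGroup'.map _
    have hidx : ¬ q ∣ ((Q₀ : Subgroup ↥(Cfsg.pPrimeCore p G)).map
        (Cfsg.pPrimeCore p G).subtype).index := by
      rw [Subgroup.index_map_subtype, Nat.Prime.dvd_mul Fact.out]
      rintro (h | h)
      · exact Q₀.not_dvd_index h
      · exact hq h
    refine ⟨P, hQp.toSylow hidx, ?_⟩
    rw [IsPGroup.toSylow_coe]
    exact hQ₀

end Cfsg.Agent.S4602
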