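import Cfsg.Statements.S4601
import Cfsg.Agent.S4602
import Cfsg.Agent.Lib.Helper2.Index
import Cfsg.Agent.Lib.Helper7.HallSystem
import Cfsg.Agent.Lib.Helper8.DirectFactor
import Cfsg.Agent.Lib.Helper6.FixedPts

set_option autoImplicit false
open Cfsg

open Cfsg Cfsg.Agent.Lib.Helper1 Cfsg.Agent.Lib.Helper7 Cfsg.Agent.Lib.Helper8 Cfsg.Agent.Lib.Helper2 Cfsg.Agent.Lib.Helper6
open scoped Pointwise

namespace Cfsg.Agent.S4601

universe u

theorem exists_lift_qelement {G : Type*} [Group G] [Finite G] (q : ℕ) [hq : Fact q.Prime]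
    (N : Subgroup G) [N.Normal] (z : G ⧸ N) (hz : ∃ k : ℕ, orderOf z = q ^ k) :
    ∃ y : G, (∃ k : ℕ, orderOf y = q ^ k) ∧ QuotientGroup.mk' N y = z := by
  obtain ⟨k, hk⟩ := hz
  obtain ⟨y₀, rfl⟩ := QuotientGroup.mk'_surjective N z
  have ho : orderOf y₀ ≠ 0 := (orderOf_pos y₀).ne'
  obtain ⟨a, m, hm, hom⟩ := Nat.exists_eq_pow_mul_and_not_dvd ho q hq.out.ne_one
  have hcop : m.Coprime (orderOf (QuotientGroup.mk' N y₀)) := by
    rw [hk]
    exact Nat.Coprime.pow_right _ ((Nat.Prime.coprime_iff_not_dvd hq.out).mpr hm).symm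
  obtain ⟨j, hj⟩ := exists_pow_eq_self_of_coprime hcop
  refine ⟨(y₀ ^ m) ^ j, ?_, ?_⟩
  · have h1 : ((y₀ ^ m) ^ j) ^ (q ^ a) = 1 := by
      have e : m * (j * q ^ a) = orderOf y₀ * j := by rw [hom]; ring
      rw [← pow_mul, ← pow_mul, e, pow_mul, pow_orderOf_eq_one, one_pow]
    obtain ⟨b, -, hb⟩ := (Nat.dvd_prime_pow hq.out).mp (orderOf_dvd_of_pow_eq_one h1)
    exact ⟨b, hb⟩
  · rw [map_pow, map_pow]; exact hj

theorem hyp_quotient {G : Type*} [Group G] [Finite G] (p q : ℕ) [Fact q.Prime] (N : Subgroup G)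
    [N.Normal]
    (h : ∀ y : G, (∃ k : ℕ, orderOf y = q ^ k) →
      ¬ p ∣ (Subgroup.centralizer ({y} : Set G)).index) :
    ∀ z : G ⧸ N, (∃ k : ℕ, orderOf z = q ^ k) →
      ¬ p ∣ (Subgroup.centralizer ({z} : Set (G ⧸ N))).index := by
  intro z hz hd
  obtain ⟨y, hy, rfl⟩ := exists_lift_qelement q N z hz
  apply h y hy
  have h1 : (Subgroup.centralizer ({y} : Set G)).map (QuotientGroup.mk' N) ≤
      Subgroup.centralizer ({QuotientGroup.mk' N y} : Set (G ⧸ N)) := by
    rintro _ ⟨c, hc0, rfl⟩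
    have hc : c ∈ Subgroup.centralizer ({y} : Set G) := hc0
    rw [Subgroup.mem_centralizer_iff] at hc ⊢
    intro w hw
    rw [Set.mem_singleton_iff] at hw
    subst hw
    rw [← map_mul, ← map_mul, hc y (Set.mem_singleton y)]
  exact dvd_trans hd (dvd_trans (Subgroup.index_dvd_of_le h1)
    (Subgroup.index_map_dvd _ (QuotientGroup.mk'_surjective N)))

theorem case_p {G : Type*} [Group G] [Finite G] (p q : ℕ) [Fact p.Prime] [Fact q.Prime]
    (hpq : p ≠ q) (hsolv : Cfsg.IsPSolvable p G)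
    (h : ∀ y : G, (∃ k : ℕ, orderOf y = q ^ k) →
      ¬ p ∣ (Subgroup.centralizer ({y} : Set G)).index) :
    ∃ (P : Sylow p G) (Q : Sylow q G),
      (P : Subgroup G) ≤ Subgroup.normalizer ((Q : Subgroup G) : Set G) := by
  rw [Cfsg.Agent.S4602.result p q hpq hsolv]
  haveI hOn : (Cfsg.pPrimeCore p G).Normal := pPrimeCore_normal p G
  rw [Subgroup.index_eq_card]
  intro hdvd
  obtain ⟨z, hz⟩ := exists_prime_orderOf_dvd_card' q hdvd
  have hsol' := isPSolvable_of_surjective p _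
    (QuotientGroup.mk'_surjective (Cfsg.pPrimeCore p G)) hsolv
  have hC := centralizer_pCore_le_of_isPSolvable p _ hsol' (pPrimeCore_quotient_eq_bot p G)
  have hidx := hyp_quotient p q (Cfsg.pPrimeCore p G) h z ⟨1, by rw [hz, pow_one]⟩
  obtain ⟨R, hR⟩ := h8_exists_sylow_le_of_not_dvd_index _ hidx
  have hUR : Cfsg.pCore p (G ⧸ Cfsg.pPrimeCore p G) ≤ R := by
    haveI := pCore_normal p (G ⧸ Cfsg.pPrimeCore p G)
    exact (pCore_isPGroup p _).le_sylow_of_normal R
  have hzC : z ∈ Subgroup.centralizer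
      (Cfsg.pCore p (G ⧸ Cfsg.pPrimeCore p G) : Set (G ⧸ Cfsg.pPrimeCore p G)) := by
    rw [Subgroup.mem_centralizer_iff]
    intro u hu
    exact (Subgroup.mem_centralizer_iff.mp (hR (hUR hu)) z (Set.mem_singleton z)).symm
  have hzU := hC hzC
  obtain ⟨k, hk⟩ := (IsPGroup.iff_orderOf.mp (pCore_isPGroup p (G ⧸ Cfsg.pPrimeCore p G))) ⟨z, hzU⟩
  rw [Subgroup.orderOf_mk, hz] at hk
  exact hpq ((Nat.Prime.pow_eq_iff (Fact.out : q.Prime)).mp hk.symm).1

theorem lift_sylows {G : Type*} [Group G] [Finite G] (p q : ℕ) [Fact p.Prime] [Fact q.Prime]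
    (M : Subgroup G) [M.Normal]
    (hex : ∃ (P : Sylow p (G ⧸ M)) (Q : Sylow q (G ⧸ M)), (P : Subgroup (G ⧸ M)) ≤
      Subgroup.normalizer ((Q : Subgroup (G ⧸ M)) : Set (G ⧸ M))) :
    ∃ (P : Sylow p G) (Q : Sylow q G), ∀ x ∈ (P : Subgroup G), ∀ y ∈ (Q : Subgroup G),
      x * y * x⁻¹ ∈ (Q : Subgroup G) ⊔ M := by
  obtain ⟨P', Q', hPQ⟩ := hex
  have hπ := QuotientGroup.mk'_surjective M
  obtain ⟨P, rfl⟩ := Sylow.mapSurjective_surjective hπ p P'
  obtain ⟨Q, rfl⟩ := Sylow.mapSurjective_surjective hπ q Q'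
  refine ⟨P, Q, fun x hx y hy => ?_⟩
  rw [Sylow.coe_mapSurjective, Sylow.coe_mapSurjective] at hPQ
  have h1 : QuotientGroup.mk' M x ∈ Subgroup.normalizer
      (((Q : Subgroup G).map (QuotientGroup.mk' M) : Subgroup (G ⧸ M)) : Set (G ⧸ M)) :=
    hPQ (Subgroup.mem_map_of_mem _ hx)
  have h2 := conj_mem_of_mem_normalizer h1 (Subgroup.mem_map_of_mem (QuotientGroup.mk' M) hy)
  obtain ⟨y', hy', he⟩ := h2
  have h3 : y'⁻¹ * (x * y * x⁻¹) ∈ M := by
    rw [← QuotientGroup.ker_mk' M, MonoidHom.mem_ker]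
    simp only [map_mul, map_inv]
    rw [he]; group
  have e : x * y * x⁻¹ = y' * (y'⁻¹ * (x * y * x⁻¹)) := by group
  rw [e]
  exact Subgroup.mul_mem_sup hy' h3

theorem case_b {G : Type*} [Group G] [Finite G] (p q : ℕ) [hp : Fact p.Prime] [hq : Fact q.Prime]
    (M : Subgroup G) [hMn : M.Normal] (hM : (Nat.card M).Coprime q)
    (h : ∀ y : G, (∃ k : ℕ, orderOf y = q ^ k) →
      ¬ p ∣ (Subgroup.centralizer ({y} : Set G)).index)
    (P : Sylow p G) (Q : Sylow q G)
    (hPQ : ∀ x ∈ (P : Subgroup G), ∀ y ∈ (Q : Subgroup G), x * y * x⁻¹ ∈ (Q : Subgroup G) ⊔ M) :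
    ∃ (P : Sylow p G) (Q : Sylow q G),
      (P : Subgroup G) ≤ Subgroup.normalizer ((Q : Subgroup G) : Set G) := by
  have hQM : (Q : Subgroup G) ≤ Subgroup.normalizer (M : Set G) := by
    rw [Subgroup.normalizer_eq_top_iff.mpr hMn]; exact le_top
  -- Step 1: `P ≤ M N(Q)`
  have h1 : (P : Subgroup G) ≤ M ⊔ Subgroup.normalizer ((Q : Subgroup G) : Set G) := by
    intro x hx
    have hR : (Q : Subgroup G).map (MulAut.conj x).toMonoidHom ≤ (Q : Subgroup G) ⊔ M := by
      rintro _ ⟨y, hy, rfl⟩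
      exact hPQ x hx y hy
    have hidx : ¬ q ∣ (Q : Subgroup G).relIndex ((Q : Subgroup G) ⊔ M) := fun hd =>
      Q.not_dvd_index (dvd_trans hd (Subgroup.relIndex_dvd_index_of_le le_sup_left))
    obtain ⟨l, hl, hle⟩ := h8_exists_conj_le_of_relIndex
      (le_sup_left : (Q : Subgroup G) ≤ (Q : Subgroup G) ⊔ M) hR Q.2 (Q.2.map _) hidx
    obtain ⟨n, hn, a, ha, hla⟩ := exists_mul_of_mem_sup (N := M) (A := (Q : Subgroup G)) hQM
      (g := l⁻¹) (by rw [sup_comm]; exact Subgroup.inv_mem _ hl)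
    have hnx : n⁻¹ * x ∈ Subgroup.normalizer ((Q : Subgroup G) : Set G) := by
      apply sy_mem_normalizer_of_conj_le
      intro y hy
      have h2 : l * (x * y * x⁻¹) * l⁻¹ ∈ (Q : Subgroup G) :=
        hle (Subgroup.mem_map_of_mem _ (Subgroup.mem_map_of_mem _ hy))
      have e : n⁻¹ * x * y * (n⁻¹ * x)⁻¹ = a * (l * (x * y * x⁻¹) * l⁻¹) * a⁻¹ := by
        have hl' : l = a⁻¹ * n⁻¹ := by
          rw [← inv_inv l, hla]; group
        rw [hl']; group
      rw [e]
      exact Subgroup.mul_mem _ (Subgroup.mul_mem _ ha h2) (Subgroup.inv_mem _ ha)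
    have e : x = n * (n⁻¹ * x) := by group
    rw [e]
    exact Subgroup.mul_mem_sup hn hnx
  -- Step 2: a `Q`-invariant Sylow `p`-subgroup of `M` is centralised by `Q`
  have hcop : (Nat.card (Q : Subgroup G)).Coprime (Nat.card M) := by
    obtain ⟨k, hk⟩ := IsPGroup.iff_card.mp Q.2
    rw [hk]; exact Nat.Coprime.pow_left _ hM.symm
  obtain ⟨P₀, hP₀⟩ := exists_invariant_sylow (Q : Subgroup G) M hQM hcop
    (Or.inl (isSolvable_of_isPGroup Q.2)) p
  have key : ∀ y ∈ (Q : Subgroup G), ∀ u ∈ (P₀ : Subgroup M), y * (u : G) = (u : G) * y := by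
    intro y hy
    obtain ⟨k, hk⟩ := (IsPGroup.iff_orderOf.mp Q.2) ⟨y, hy⟩
    rw [Subgroup.orderOf_mk] at hk
    have hidx := h y ⟨k, hk⟩
    have hidx2 : ¬ p ∣ ((Subgroup.centralizer ({y} : Set G)).subgroupOf M).index := fun hd =>
      hidx (dvd_trans hd (relIndex_dvd_index_of_normal_right _ M))
    obtain ⟨P₁, hP₁⟩ := h8_exists_sylow_le_of_not_dvd_index _ hidx2
    have hyQ : Subgroup.zpowers y ≤ (Q : Subgroup G) := (Subgroup.zpowers_le).mpr hy
    have hyM : Subgroup.zpowers y ≤ Subgroup.normalizer (M : Set G) := le_trans hyQ hQM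
    have hcop' : (Nat.card (Subgroup.zpowers y)).Coprime (Nat.card M) :=
      Nat.Coprime.coprime_dvd_left (Subgroup.card_dvd_of_le hyQ) hcop
    have hP₁n : Subgroup.zpowers y ≤ Subgroup.normalizer
        (((P₁ : Subgroup M).map M.subtype : Subgroup G) : Set G) := by
      rw [Subgroup.zpowers_le]
      apply sy_mem_normalizer_of_conj_le
      rintro _ ⟨u, hu, rfl⟩
      have := hP₁ hu
      rw [Subgroup.mem_subgroupOf, Subgroup.mem_centralizer_iff] at this
      have e := this y (Set.mem_singleton y)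
      have e2 : y * M.subtype u * y⁻¹ = M.subtype u := by
        show y * (u : G) * y⁻¹ = (u : G)
        rw [e]; group
      rw [e2]
      exact Subgroup.mem_map_of_mem M.subtype hu
    have hP₀n : Subgroup.zpowers y ≤ Subgroup.normalizer
        (((P₀ : Subgroup M).map M.subtype : Subgroup G) : Set G) := le_trans hyQ hP₀
    obtain ⟨c, hc, hcP⟩ := invariant_sylow_conj (Subgroup.zpowers y) M hyM hcop'
      (Or.inl (isSolvable_of_isPGroup (Q.2.to_le hyQ))) p P₁ P₀ hP₁n hP₀n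
    intro u hu
    rw [← hcP] at hu
    change u ∈ MulAut.conj c • (P₁ : Subgroup ↥M) at hu
    rw [Subgroup.mem_pointwise_smul_iff_inv_smul_mem,
      MulAut.smul_def, MulAut.conj_inv_apply] at hu
    have hv := hP₁ hu
    rw [Subgroup.mem_subgroupOf, Subgroup.mem_centralizer_iff] at hv
    have hv' : Commute y ((c⁻¹ * u * c : M) : G) := hv y (Set.mem_singleton y)
    have hcy : Commute y (c : G) :=
      Subgroup.mem_centralizer_iff.mp hc y (Subgroup.mem_zpowers y)
    have e : (u : G) = (c : G) * ((c⁻¹ * u * c : M) : G) * (c : G)⁻¹ := by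
      simp only [Subgroup.coe_mul, Subgroup.coe_inv]; group
    rw [e]
    exact ((hcy.mul_right hv').mul_right hcy.inv_right)
  -- Step 3
  have h3 : ¬ p ∣ (Subgroup.normalizer ((Q : Subgroup G) : Set G)).relIndex
      (M ⊔ Subgroup.normalizer ((Q : Subgroup G) : Set G)) := by
    rw [sup_comm, ← relIndex_eq_relIndex_sup]
    intro hd
    have hle : (P₀ : Subgroup M) ≤
        (Subgroup.normalizer ((Q : Subgroup G) : Set G)).subgroupOf M := by
      intro u hu
      rw [Subgroup.mem_subgroupOf]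
      apply Subgroup.centralizer_le_normalizer
      rw [Subgroup.mem_centralizer_iff]
      intro y hy
      exact key y hy u hu
    exact P₀.not_dvd_index (dvd_trans hd (Subgroup.index_dvd_of_le hle))
  have h4 : ¬ p ∣ (Subgroup.normalizer ((Q : Subgroup G) : Set G)).index := by
    rw [← Subgroup.relIndex_mul_index (le_sup_right :
      Subgroup.normalizer ((Q : Subgroup G) : Set G) ≤
        M ⊔ Subgroup.normalizer ((Q : Subgroup G) : Set G))]
    intro hd
    rcases (Nat.Prime.dvd_mul hp.out).mp hd with hd | hd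
    · exact h3 hd
    · exact P.not_dvd_index (dvd_trans hd (Subgroup.index_dvd_of_le h1))
  obtain ⟨S, hS⟩ := h8_exists_sylow_le_of_not_dvd_index _ h4
  exact ⟨S, Q, hS⟩

theorem main_q (p q : ℕ) [hp : Fact p.Prime] [hq : Fact q.Prime] : ∀ n : ℕ,
    ∀ (G : Type u) [Group G] [Finite G], Nat.card G = n → Cfsg.IsPSolvable q G →
    (∀ y : G, (∃ k : ℕ, orderOf y = q ^ k) →
      ¬ p ∣ (Subgroup.centralizer ({y} : Set G)).index) →
    ∃ (P : Sylow p G) (Q : Sylow q G),
      (P : Subgroup G) ≤ Subgroup.normalizer ((Q : Subgroup G) : Set G) := by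
  intro n
  induction n using Nat.strong_induction_on with
  | _ n ih =>
    intro G _ _ hn hG h
    have step : ∀ M : Subgroup G, M.Normal → M ≠ ⊥ → ∃ (P : Sylow p G) (Q : Sylow q G),
        ∀ x ∈ (P : Subgroup G), ∀ y ∈ (Q : Subgroup G), x * y * x⁻¹ ∈ (Q : Subgroup G) ⊔ M := by
      intro M hM hMne
      haveI := hM
      have hcard : Nat.card (G ⧸ M) < n := by
        rw [← hn, ← Subgroup.index_eq_card, ← Subgroup.index_mul_card M]
        have h1 : 1 < Nat.card M := (Subgroup.one_lt_card_iff_ne_bot _).mpr hMne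
        have h2 : 0 < M.index := Nat.pos_of_ne_zero Subgroup.index_ne_zero_of_finite
        nlinarith
      exact lift_sylows p q M (ih _ hcard (G ⧸ M) rfl
        (isPSolvable_of_surjective q _ (QuotientGroup.mk'_surjective M) hG)
        (hyp_quotient p q M h))
    by_cases hU : Cfsg.pCore q G = ⊥
    · by_cases hO : Cfsg.pPrimeCore q G = ⊥
      · obtain ⟨P⟩ : Nonempty (Sylow p G) := inferInstance
        obtain ⟨Q⟩ : Nonempty (Sylow q G) := inferInstance
        refine ⟨P, Q, fun x _ => ?_⟩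
        have hle := centralizer_pCore_le_of_isPSolvable q G hG hO
        rw [hU] at hle
        have hx1 : x ∈ (⊥ : Subgroup G) := hle (Subgroup.mem_centralizer_iff.mpr (fun h hh => by
          have := Subgroup.mem_bot.mp hh; subst this; simp))
        rw [Subgroup.mem_bot.mp hx1]; exact Subgroup.one_mem _
      · haveI hMn : (Cfsg.pPrimeCore q G).Normal := pPrimeCore_normal q G
        obtain ⟨P, Q, hPQ⟩ := step _ hMn hO
        exact case_b p q _ (pPrimeCore_coprime q G) h P Q hPQ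
    · haveI hUn : (Cfsg.pCore q G).Normal := pCore_normal q G
      obtain ⟨P, Q, hPQ⟩ := step _ hUn hU
      refine ⟨P, Q, ?_⟩
      have hUQ : Cfsg.pCore q G ≤ Q := (pCore_isPGroup q G).le_sylow_of_normal Q
      rw [sup_eq_left.mpr hUQ] at hPQ
      exact Subgroup.le_normalizer_iff.mpr hPQ

/-- Let p and q be primes and G a finite group that is p-solvable or q-solvable, in which no q-element has conjugacy class size divisible by p. Then some Sylow p-subgroup of G normalizes some Sylow q-subgroup of G. -/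
theorem result {G : Type*} [Group G] [Finite G] (p q : ℕ) [Fact p.Prime] [Fact q.Prime] (hsolv : Cfsg.IsPSolvable p G ∨ Cfsg.IsPSolvable q G)
    (h : ∀ y : G, (∃ k : ℕ, orderOf y = q ^ k) → ¬ p ∣ (Subgroup.centralizer ({y} : Set G)).index) :
    ∃ (P : Sylow p G) (Q : Sylow q G), (P : Subgroup G) ≤ Subgroup.normalizer ((Q : Subgroup G) : Set G) := by
  by_cases hpq : p = q
  · subst hpq
    obtain ⟨P⟩ : Nonempty (Sylow p G) := inferInstance
    exact ⟨P, P, Subgroup.le_normalizer⟩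
  · rcases hsolv with hs | hs
    · exact case_p p q hpq hs h
    · exact main_q p q _ G rfl hs h

end Cfsg.Agent.S4601
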