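import Cfsg.Statements.S4604
import Cfsg.Agent.Lib.Lead.CharPMod2
import Cfsg.Agent.S0876

set_option maxHeartbeats 1600000

namespace Cfsg.Agent.S4604

open Cfsg Cfsg.Agent.Lib.Lead Cfsg.Agent.Lib.Helper2

theorem result {G : Type*} [Group G] [Finite G] (p : ℕ) [Fact p.Prime] (x y x' y' : G)
    (hx : (∃ k : ℕ, orderOf (x * x'⁻¹) = p ^ k) ∧ Commute (x * x'⁻¹) x' ∧ ¬ p ∣ orderOf x')
    (hy : (∃ k : ℕ, orderOf (y * y'⁻¹) = p ^ k) ∧ Commute (y * y'⁻¹) y' ∧ ¬ p ∣ orderOf y') :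
    IsConj x' y' ↔ ∀ χ : Cfsg.IrrCharacter G, ∃ γ : Cfsg.AlgInt,
      (χ : G → ℂ) x ^ (p ^ (Nat.card G).factorization p) - (χ : G → ℂ) y ^ (p ^ (Nat.card G).factorization p) = (p : ℂ) * (γ : ℂ) := by
  classical
  letI := Fintype.ofFinite G
  have hp : p.Prime := Fact.out
  have hN0 : Nat.card G ≠ 0 := Nat.card_pos.ne'
  obtain ⟨a, ha⟩ : ∃ a, a = (Nat.card G).factorization p := ⟨_, rfl⟩
  rw [← ha]
  obtain ⟨⟨k, hk⟩, hcx, hx'⟩ := hx
  obtain ⟨⟨l, hl⟩, hcy, hy'⟩ := hy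
  have hpow : ∀ (u : G) (k : ℕ), orderOf u = p ^ k → u ^ (p ^ a) = 1 := by
    intro u k hu
    have h1 : p ^ k ∣ Nat.card G := hu ▸ orderOf_dvd_natCard u
    have h2 : k ≤ a := by rw [ha]; exact (hp.pow_dvd_iff_le_factorization hN0).mp h1
    apply orderOf_dvd_iff_pow_eq_one.mp
    rw [hu]; exact pow_dvd_pow p h2
  have hxe : (x * x'⁻¹) * x' = x := by group
  have hye : (y * y'⁻¹) * y' = y := by group
  have key1 : ∀ χ : IrrCharacter G, ∃ γ : AlgInt,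
      (χ : G → ℂ) x ^ (p ^ a) - (χ : G → ℂ) x' ^ (p ^ a) = (p : ℂ) * (γ : ℂ) := by
    intro χ
    have := char_pow_sub_preg hp (isCharacter_of_isIrrCharacter χ.2) (x * x'⁻¹) x' hcx a
      (hpow _ k hk)
    rwa [hxe] at this
  have key2 : ∀ χ : IrrCharacter G, ∃ γ : AlgInt,
      (χ : G → ℂ) y ^ (p ^ a) - (χ : G → ℂ) y' ^ (p ^ a) = (p : ℂ) * (γ : ℂ) := by
    intro χ
    have := char_pow_sub_preg hp (isCharacter_of_isIrrCharacter χ.2) (y * y'⁻¹) y' hcy a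
      (hpow _ l hl)
    rwa [hye] at this
  constructor
  · intro hconj χ
    obtain ⟨γ1, h1⟩ := key1 χ
    obtain ⟨γ2, h2⟩ := key2 χ
    have hrs : (χ : G → ℂ) x' = (χ : G → ℂ) y' := by
      obtain ⟨c, hc⟩ := isConj_iff.mp hconj
      rw [← hc]; exact (isClassFunction_irr χ x' c).symm
    refine ⟨γ1 - γ2, ?_⟩
    push_cast
    rw [hrs] at h1
    linear_combination h1 - h2
  · intro h
    obtain ⟨M, hM⟩ := exists_pmodular p hp
    have hMax := hM.2.1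
    have hpM := hM.2.2
    have hprime : M.IsPrime := hMax.isPrime
    have h1x : IsPPart p x' 1 := ⟨x', one_mul _, Commute.one_left _, ⟨0, by simp⟩, hx'⟩
    have h1y : IsPPart p y' 1 := ⟨y', one_mul _, Commute.one_left _, ⟨0, by simp⟩, hy'⟩
    have hfin := (Cfsg.Agent.S0876.result p M hM x' y' 1 1 h1x h1y).mpr ?_
    · simpa using hfin
    intro χ
    obtain ⟨γ, hγ⟩ := h χ
    obtain ⟨γ1, h1⟩ := key1 χ
    obtain ⟨γ2, h2⟩ := key2 χ
    have hir : IsIntegral ℤ ((χ : G → ℂ) x') :=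
      isCharacter_isIntegral (isCharacter_of_isIrrCharacter χ.2) x'
    have his : IsIntegral ℤ ((χ : G → ℂ) y') :=
      isCharacter_isIntegral (isCharacter_of_isIrrCharacter χ.2) y'
    obtain ⟨s, hs⟩ : ∃ s : AlgInt, (s : ℂ) = (χ : G → ℂ) x' := ⟨⟨_, hir⟩, rfl⟩
    obtain ⟨t, ht⟩ : ∃ t : AlgInt, (t : ℂ) = (χ : G → ℂ) y' := ⟨⟨_, his⟩, rfl⟩
    have h3 : s ^ (p ^ a) - t ^ (p ^ a) = (p : AlgInt) * (γ - γ1 + γ2) := by
      apply Subtype.ext
      push_cast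
      rw [hs, ht]
      linear_combination hγ - h1 + h2
    obtain ⟨r, hr⟩ := exists_add_pow_prime_pow_eq hp (s - t) t a
    rw [sub_add_cancel] at hr
    have h4 : (s - t) ^ (p ^ a) = (p : AlgInt) * ((γ - γ1 + γ2) - (s - t) * t * r) := by
      linear_combination h3 - hr
    have h5 : s - t ∈ M := by
      apply hprime.mem_of_pow_mem (p ^ a)
      rw [h4]; exact M.mul_mem_right _ hpM
    have h6 := memLocalIdeal_of_mem M hMax h5
    rw [← hs, ← ht]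
    convert h6 using 1
    push_cast
    rfl

end Cfsg.Agent.S4604
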