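import Cfsg.Statements.S4713
import Cfsg.Agent.S0169
import Cfsg.Agent.Lib.Lead.CharIto

set_option autoImplicit false
set_option maxHeartbeats 800000

namespace Cfsg.Agent.S4713

open Cfsg Cfsg.Agent.Lib.Lead Cfsg.Agent.Lib.Helper2 Module
open scoped ComplexConjugate

theorem result {G : Type*} [Group G] [Finite G] (p : ℕ) [Fact p.Prime] (hsolv : Cfsg.IsPSolvable p G) (P : Sylow p G) : ((P : Subgroup G).Normal ∧ IsMulCommutative P) ↔ ∀ χ : Cfsg.IrrCharacter G, ¬ p ∣ Cfsg.charDegree (χ : G → ℂ) := by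
  constructor
  · rintro ⟨hPn, ⟨⟨hc⟩⟩⟩ χ hdiv
    obtain ⟨n, ρ, hirr, hρ⟩ := χ.2
    haveI := hirr
    haveI := hPn
    have h1 := Cfsg.Agent.S0169.result ρ (P : Subgroup G)
      (fun a ha b hb => congrArg Subtype.val (hc ⟨a, ha⟩ ⟨b, hb⟩))
    rw [← hρ, charDegree_character] at hdiv
    exact P.not_dvd_index (dvd_trans hdiv h1)
  · intro hdeg
    obtain ⟨P', hPn, hPab, hPp, hPidx⟩ := ito_converse_aux p (Nat.card G) G rfl hsolv hdeg
    haveI := hPn
    have hcoe : ((hPp.toSylow hPidx : Sylow p G) : Subgroup G) = P' := IsPGroup.toSylow_coe hPp hPidx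
    haveI : ((hPp.toSylow hPidx : Sylow p G) : Subgroup G).Normal := by rw [hcoe]; exact hPn
    obtain ⟨g, hg⟩ := MulAction.exists_smul_eq G (hPp.toSylow hPidx : Sylow p G) P
    rw [Sylow.smul_eq_of_normal] at hg
    have hPP' : (P : Subgroup G) = P' := by rw [← hg, hcoe]
    refine ⟨by rw [hPP']; exact hPn, ⟨⟨fun a b => ?_⟩⟩⟩
    apply Subtype.ext
    have ha : (a : G) ∈ P' := by rw [← hPP']; exact a.2
    have hb : (b : G) ∈ P' := by rw [← hPP']; exact b.2
    exact hPab a ha b hb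

end Cfsg.Agent.S4713
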