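import Cfsg.Statements.S4736
import Cfsg.Agent.S4713
import Cfsg.Agent.S0915
import Cfsg.Agent.S0938
import Cfsg.Agent.Lib.Lead.CharLin
import Cfsg.Agent.Lib.Lead.CharBasic
import Cfsg.Agent.Lib.Lead.CharBurnside
import Cfsg.Agent.Lib.Lead.CharDeg
import Cfsg.Agent.Lib.Helper6.BlockIdem
import Cfsg.Agent.Lib.Helper6.BlockBasic
import Cfsg.Agent.Lib.Helper1.UpperP
import Cfsg.Agent.Lib.Helper1.PSolv
import Cfsg.Agent.Lib.Helper1.PCore2
import Cfsg.Agent.Lib.Helper7.PCore

set_option autoImplicit false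
open Cfsg
open scoped ComplexConjugate

namespace Cfsg.Agent.S4736
open Cfsg.Agent.Lib.Lead Cfsg.Agent.Lib.Helper6 Cfsg.Agent.Lib.Helper1 Cfsg.Agent.Lib.Helper7

/-- The central character of an inflated function is a natural multiple of the central
character of the original function. -/
theorem centralChar_inflate {G : Type*} [Group G] [Finite G] (N : Subgroup G) [N.Normal] (g : G) :
    ∃ r : ℕ, ∀ f : G ⧸ N → ℂ, centralChar (f ∘ QuotientGroup.mk' N) g =
      (r : ℂ) * centralChar f (QuotientGroup.mk' N g) := by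
  have hle : Subgroup.centralizer ({g} : Set G) ≤
      (Subgroup.centralizer ({(QuotientGroup.mk' N g)} : Set (G ⧸ N))).comap
        (QuotientGroup.mk' N) := by
    intro c hc
    rw [Subgroup.mem_comap, Subgroup.mem_centralizer_singleton_iff]
    have := Subgroup.mem_centralizer_singleton_iff.mp hc
    rw [← map_mul, ← map_mul, this]
  have hidx : ((Subgroup.centralizer ({(QuotientGroup.mk' N g)} : Set (G ⧸ N))).comap
        (QuotientGroup.mk' N)).index =
      (Subgroup.centralizer ({(QuotientGroup.mk' N g)} : Set (G ⧸ N))).index :=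
    Subgroup.index_comap_of_surjective _ (QuotientGroup.mk'_surjective N)
  refine ⟨(Subgroup.centralizer ({g} : Set G)).relIndex
    ((Subgroup.centralizer ({(QuotientGroup.mk' N g)} : Set (G ⧸ N))).comap
        (QuotientGroup.mk' N)), fun f => ?_⟩
  unfold centralChar
  simp only [Function.comp_apply, map_one]
  rw [← Subgroup.relIndex_mul_index hle, hidx]
  push_cast
  ring

theorem sameBlock_inflate {G : Type*} [Group G] [Finite G] (N : Subgroup G) [N.Normal]
    {M : Ideal AlgInt} (hMp : M.IsPrime) (f₁ f₂ : G ⧸ N → ℂ) (h : SameBlock M f₁ f₂) :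
    SameBlock M (f₁ ∘ QuotientGroup.mk' N) (f₂ ∘ QuotientGroup.mk' N) := by
  intro g
  obtain ⟨r, hr⟩ := centralChar_inflate N g
  rw [hr f₁, hr f₂, ← mul_sub]
  exact li_mul hMp ⟨(r : AlgInt), 1, (Ideal.ne_top_iff_one M).1 hMp.ne_top, by simp⟩
    (h (QuotientGroup.mk' N g))

theorem rho_trivial {G : Type*} [Group G] [Finite G] {k : ℕ}
    (ρ : Representation ℂ G (Fin k → ℂ)) (N : Subgroup G)
    (h : ∀ n ∈ N, ρ.character n = ρ.character 1) : ∀ x ∈ N, ρ x = 1 := by
  intro x hx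
  have h1 : ρ.character x = (Module.finrank ℂ (Fin k → ℂ) : ℂ) := by
    rw [h x hx]; exact Representation.char_one ρ
  exact (char_eq_finrank_iff ρ x).mp h1

theorem one_mem_principal {G : Type*} [Group G] {M : Ideal AlgInt} (hMp : M.IsPrime) :
    (⟨fun _ => 1, isIrrCharacter_one G⟩ : IrrCharacter G) ∈ principalBlock M G :=
  sb_refl hMp _

theorem principal_iff {G : Type*} [Group G] [Finite G] (p : ℕ) [Fact p.Prime] (M : Ideal AlgInt)
    (hM : IsPModular p M) (hsolv : IsPSolvable p G) (χ : IrrCharacter G) :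
    χ ∈ principalBlock M G ↔ ∀ n ∈ pPrimeCore p G, (χ : G → ℂ) n = (χ : G → ℂ) 1 := by
  have hp : p.Prime := Fact.out
  have hMp : M.IsPrime := hM.2.1.isPrime
  constructor
  · intro hχ n hn
    have hB : IsPBlock M (principalBlock M G) := ⟨⟨fun _ => 1, isIrrCharacter_one G⟩, rfl⟩
    obtain ⟨K, hKn', hKeq, -, -, hKmax⟩ := Cfsg.Agent.S0938.result p M hM (principalBlock M G) hB
      ⟨fun _ => 1, isIrrCharacter_one G⟩ (one_mem_principal hMp)
    have hle : pPrimeCore p G ≤ K := hKmax (pPrimeCore p G) (pPrimeCore_normal p G)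
      (fun hdvd => (Nat.Prime.coprime_iff_not_dvd hp).mp (pPrimeCore_coprime p G).symm hdvd)
      (fun g _ => rfl)
    have hnK : n ∈ blockKer (principalBlock M G) := by rw [← hKeq]; exact hle hn
    exact hnK χ hχ
  · intro hχ
    obtain ⟨k, ρ, hirr, hρ⟩ := χ.2
    haveI := hirr
    have hρN : ∀ x ∈ pPrimeCore p G, ρ x = 1 :=
      rho_trivial ρ (pPrimeCore p G) (fun n hn => by rw [hρ]; exact hχ n hn)
    obtain ⟨ψ, hψ, hψeq⟩ := isIrrCharacter_descend ρ (pPrimeCore p G) hρN
    have hQs : IsPSolvable p (G ⧸ pPrimeCore p G) :=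
      isPSolvable_of_surjective p (QuotientGroup.mk' (pPrimeCore p G))
        (QuotientGroup.mk'_surjective _) hsolv
    have hQO : pPrimeCore p (G ⧸ pPrimeCore p G) = ⊥ := pPrimeCore_quotient_eq_bot p G
    have hsb := Cfsg.Agent.S0915.result p M hM hQs hQO
      ⟨fun _ => 1, isIrrCharacter_one (G ⧸ pPrimeCore p G)⟩ ⟨ψ, hψ⟩
    have h2 := sameBlock_inflate (pPrimeCore p G) hMp _ _ hsb
    show SameBlock M (fun _ : G => (1 : ℂ)) (χ : G → ℂ)
    rw [← hρ, hψeq]
    exact h2

theorem height_zero_iff {G : Type*} [Group G] [Finite G] (p : ℕ) [Fact p.Prime]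
    (M : Ideal AlgInt) (hM : IsPModular p M) (χ : IrrCharacter G) :
    blockHeight p (principalBlock M G) (χ : G → ℂ) = 0 ↔ ¬ p ∣ charDegree (χ : G → ℂ) := by
  have hp : p.Prime := Fact.out
  have hMp : M.IsPrime := hM.2.1.isPrime
  have hinf : sInf ((fun ψ : IrrCharacter G => (charDegree (ψ : G → ℂ)).factorization p) ''
      principalBlock M G) = 0 := by
    apply Nat.eq_zero_of_le_zero
    apply Nat.sInf_le
    refine ⟨⟨fun _ => 1, isIrrCharacter_one G⟩, one_mem_principal hMp, ?_⟩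
    show (charDegree (fun _ : G => (1 : ℂ))).factorization p = 0
    have h1 : charDegree (fun _ : G => (1 : ℂ)) = 1 := by
      unfold charDegree; simp
    rw [h1]; simp
  unfold blockHeight
  rw [hinf, Nat.sub_zero, Nat.factorization_eq_zero_iff]
  have hd := charDegree_pos_of_irr χ.2
  constructor
  · rintro (h | h | h)
    · exact absurd hp h
    · exact h
    · omega
  · intro h; exact Or.inr (Or.inl h)

theorem result {G : Type*} [Group G] [Finite G] (p : ℕ) [Fact p.Prime] (M : Ideal Cfsg.AlgInt) (hM : Cfsg.IsPModular p M) (hsolv : Cfsg.IsPSolvable p G) (P : Sylow p G) : IsMulCommutative P ↔ ∀ χ ∈ Cfsg.principalBlock M G, Cfsg.blockHeight p (Cfsg.principalBlock M G) (χ : G → ℂ) = 0 := by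
  classical
  have hp : p.Prime := Fact.out
  have hMp : M.IsPrime := hM.2.1.isPrime
  have hsurj : Function.Surjective (QuotientGroup.mk' (pPrimeCore p G)) := QuotientGroup.mk'_surjective (pPrimeCore p G)
  have hQs : IsPSolvable p (G ⧸ (pPrimeCore p G)) :=
    isPSolvable_of_surjective p (QuotientGroup.mk' (pPrimeCore p G)) hsurj hsolv
  have hQO : pPrimeCore p (G ⧸ (pPrimeCore p G)) = ⊥ := pPrimeCore_quotient_eq_bot p G
  have hA : (∀ ψ : IrrCharacter (G ⧸ (pPrimeCore p G)), ¬ p ∣ charDegree (ψ : G ⧸ (pPrimeCore p G) → ℂ)) ↔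
      ∀ χ ∈ principalBlock M G, blockHeight p (principalBlock M G) (χ : G → ℂ) = 0 := by
    constructor
    · intro h χ hχ
      rw [height_zero_iff p M hM χ]
      have hχK := (principal_iff p M hM hsolv χ).mp hχ
      obtain ⟨k, ρ, hirr, hρ⟩ := χ.2
      haveI := hirr
      have hρN : ∀ x ∈ (pPrimeCore p G), ρ x = 1 :=
        rho_trivial ρ (pPrimeCore p G) (fun n hn => by rw [hρ]; exact hχK n hn)
      obtain ⟨ψ, hψ, hψeq⟩ := isIrrCharacter_descend ρ (pPrimeCore p G) hρN
      have hdeg : charDegree (χ : G → ℂ) = charDegree ψ := by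
        rw [← hρ, hψeq]; unfold charDegree; simp
      rw [hdeg]
      exact h ⟨ψ, hψ⟩
    · intro h ψ
      obtain ⟨k, σ, hirr, hσ⟩ := ψ.2
      have hinfl : IsIrrCharacter G ((ψ : G ⧸ (pPrimeCore p G) → ℂ) ∘ QuotientGroup.mk' (pPrimeCore p G)) := by
        refine ⟨k, (σ.comp (QuotientGroup.mk' (pPrimeCore p G)) : Representation ℂ G (Fin k → ℂ)),
          (isIrreducible_comp_iff_of_surjective σ (QuotientGroup.mk' (pPrimeCore p G)) hsurj).mpr hirr, ?_⟩
        rw [← hσ]
        rfl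
      have hχB : (⟨(ψ : G ⧸ (pPrimeCore p G) → ℂ) ∘ QuotientGroup.mk' (pPrimeCore p G), hinfl⟩ : IrrCharacter G) ∈
          principalBlock M G := by
        rw [principal_iff p M hM hsolv]
        intro n hn
        show (ψ : G ⧸ (pPrimeCore p G) → ℂ) (QuotientGroup.mk' (pPrimeCore p G) n) = (ψ : G ⧸ (pPrimeCore p G) → ℂ) (QuotientGroup.mk' (pPrimeCore p G) 1)
        have h1 : QuotientGroup.mk' (pPrimeCore p G) n = QuotientGroup.mk' (pPrimeCore p G) 1 := by
          rw [map_one]; exact (QuotientGroup.eq_one_iff n).mpr hn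
        rw [h1]
      have h0 := (height_zero_iff p M hM _).mp (h _ hχB)
      have hdeg : charDegree ((ψ : G ⧸ (pPrimeCore p G) → ℂ) ∘ QuotientGroup.mk' (pPrimeCore p G)) =
          charDegree (ψ : G ⧸ (pPrimeCore p G) → ℂ) := by
        unfold charDegree; simp
      rw [← hdeg]; exact h0
  have hRab_of : (∀ a b : ↥P, a * b = b * a) →
      ∀ a ∈ (P : Subgroup G).map (QuotientGroup.mk' (pPrimeCore p G)),
      ∀ b ∈ (P : Subgroup G).map (QuotientGroup.mk' (pPrimeCore p G)), a * b = b * a := by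
    intro hc
    rintro _ ⟨x, hx, rfl⟩ _ ⟨y, hy, rfl⟩
    have h1 : x * y = y * x := congrArg Subtype.val (hc ⟨x, hx⟩ ⟨y, hy⟩)
    rw [← map_mul, ← map_mul, h1]
  have hB : IsMulCommutative P ↔
      (((P.mapSurjective hsurj : Sylow p (G ⧸ (pPrimeCore p G))) : Subgroup (G ⧸ (pPrimeCore p G))).Normal ∧
        IsMulCommutative (P.mapSurjective hsurj : Sylow p (G ⧸ (pPrimeCore p G)))) := by
    constructor
    · rintro ⟨⟨hc⟩⟩
      have hRab := hRab_of hc
      have hHH := centralizer_pCore_le_of_isPSolvable p (G ⧸ (pPrimeCore p G)) hQs hQO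
      haveI : (pCore p (G ⧸ (pPrimeCore p G))).Normal := pCore_normal p (G ⧸ (pPrimeCore p G))
      have hOR : pCore p (G ⧸ (pPrimeCore p G)) ≤ ((P.mapSurjective hsurj : Sylow p (G ⧸ (pPrimeCore p G))) : Subgroup (G ⧸ (pPrimeCore p G))) :=
        (pCore_isPGroup p (G ⧸ (pPrimeCore p G))).le_sylow_of_normal _
      have hRO : ((P.mapSurjective hsurj : Sylow p (G ⧸ (pPrimeCore p G))) : Subgroup (G ⧸ (pPrimeCore p G))) ≤
          pCore p (G ⧸ (pPrimeCore p G)) := by
        intro a ha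
        apply hHH
        rw [Subgroup.mem_centralizer_iff]
        intro b hb
        exact (hRab a ha b (hOR hb)).symm
      have hReq : ((P.mapSurjective hsurj : Sylow p (G ⧸ (pPrimeCore p G))) : Subgroup (G ⧸ (pPrimeCore p G))) =
          pCore p (G ⧸ (pPrimeCore p G)) := le_antisymm hRO hOR
      refine ⟨by rw [hReq]; exact pCore_normal p (G ⧸ (pPrimeCore p G)), ⟨⟨fun a b => ?_⟩⟩⟩
      exact Subtype.ext (hRab a a.2 b b.2)
    · rintro ⟨-, ⟨⟨hc⟩⟩⟩
      refine ⟨⟨fun a b => ?_⟩⟩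
      apply Subtype.ext
      show (a : G) * (b : G) = (b : G) * (a : G)
      have hab : QuotientGroup.mk' (pPrimeCore p G) (a : G) * QuotientGroup.mk' (pPrimeCore p G) (b : G) =
          QuotientGroup.mk' (pPrimeCore p G) (b : G) * QuotientGroup.mk' (pPrimeCore p G) (a : G) :=
        congrArg Subtype.val (hc ⟨QuotientGroup.mk' (pPrimeCore p G) (a : G), ⟨a, a.2, rfl⟩⟩
          ⟨QuotientGroup.mk' (pPrimeCore p G) (b : G), ⟨b, b.2, rfl⟩⟩)
      have hmem : ((b : G) * (a : G))⁻¹ * ((a : G) * (b : G)) ∈ (pPrimeCore p G) :=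
        QuotientGroup.eq.mp hab.symm
      have hcP : ((b : G) * (a : G))⁻¹ * ((a : G) * (b : G)) ∈ (P : Subgroup G) :=
        Subgroup.mul_mem _ (Subgroup.inv_mem _ (Subgroup.mul_mem _ b.2 a.2))
          (Subgroup.mul_mem _ a.2 b.2)
      obtain ⟨k1, hk1⟩ := P.isPGroup' ⟨_, hcP⟩
      have h1 : (((b : G) * (a : G))⁻¹ * ((a : G) * (b : G))) ^ p ^ k1 = 1 := by
        simpa using congrArg Subtype.val hk1
      have h3 : orderOf (((b : G) * (a : G))⁻¹ * ((a : G) * (b : G))) ∣
          Nat.gcd (p ^ k1) (Nat.card (pPrimeCore p G)) :=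
        Nat.dvd_gcd (orderOf_dvd_of_pow_eq_one h1) (Subgroup.orderOf_dvd_natCard (pPrimeCore p G) hmem)
      have h4 : Nat.gcd (p ^ k1) (Nat.card (pPrimeCore p G)) = 1 :=
        Nat.Coprime.pow_left k1 (pPrimeCore_coprime p G).symm
      rw [h4] at h3
      have h5 : ((b : G) * (a : G))⁻¹ * ((a : G) * (b : G)) = 1 :=
        orderOf_eq_one_iff.mp (Nat.dvd_one.mp h3)
      exact (inv_mul_eq_one.mp h5).symm
  have hS := Cfsg.Agent.S4713.result p hQs (P.mapSurjective hsurj : Sylow p (G ⧸ (pPrimeCore p G)))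
  exact hB.trans (hS.trans hA)

end Cfsg.Agent.S4736
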