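import Cfsg.Statements.S4611
import Cfsg.Agent.S4736
import Cfsg.Agent.Lib.Helper8.PSolvOfSolv
import Cfsg.Agent.Lib.Lead.CharComplete
import Cfsg.Agent.Lib.Lead.CharOrtho

set_option autoImplicit false
open Cfsg
open scoped ComplexConjugate

namespace Cfsg.Agent.S4611
open Cfsg.Agent.Lib.Lead Cfsg.Agent.Lib.Helper6 Cfsg.Agent.Lib.Helper1 Cfsg.Agent.Lib.Helper7
  Cfsg.Agent.Lib.Helper8

/-- A nontrivial finite group has a nonprincipal irreducible character. -/
theorem exists_nonprincipal (Q : Type*) [Group Q] [Finite Q] [Nontrivial Q] :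
    ∃ ψ : IrrCharacter Q, (ψ : Q → ℂ) ≠ fun _ => 1 := by
  classical
  letI := Fintype.ofFinite Q
  by_contra hcon
  simp only [not_exists, not_not] at hcon
  haveI : Subsingleton (IrrCharacter Q) :=
    ⟨fun a b => Subtype.ext ((hcon a).trans (hcon b).symm)⟩
  haveI : Finite (IrrCharacter Q) := irr_finite
  have h1 : Nat.card (IrrCharacter Q) ≤ 1 := Finite.card_le_one_iff_subsingleton.mpr inferInstance
  rw [card_irr_eq_card_conjClasses] at h1
  haveI : Subsingleton (ConjClasses Q) := Finite.card_le_one_iff_subsingleton.mp h1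
  obtain ⟨g, hg⟩ := exists_ne (1 : Q)
  have h2 : ConjClasses.mk g = ConjClasses.mk 1 := Subsingleton.elim _ _
  exact hg (isConj_one_left.mp (ConjClasses.mk_eq_mk_iff_isConj.mp h2))

theorem result {G : Type*} [Group G] [Finite G] [Group.IsSolvable G] (π : Set ℕ) (hπ : ∀ p ∈ π, p.Prime ∧ p ∣ Nat.card G) (hne : π.Nonempty) (M : ℕ → Ideal Cfsg.AlgInt) (hM : ∀ p ∈ π, Cfsg.IsPModular p (M p)) :
    (∀ χ : Cfsg.IrrCharacter G, (∀ p ∈ π, χ ∈ Cfsg.principalBlock (M p) G) → (χ : G → ℂ) = fun _ => 1) ↔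
      ⨆ p ∈ π, Cfsg.pPrimeCore p G = ⊤ := by
  classical
  letI := Fintype.ofFinite G
  have hps : ∀ p ∈ π, IsPSolvable p G := fun p hp => by
    haveI : Fact p.Prime := ⟨(hπ p hp).1⟩
    exact h8_isPSolvable_of_isSolvable p inferInstance
  have hkey : ∀ χ : IrrCharacter G, (∀ p ∈ π, χ ∈ principalBlock (M p) G) ↔
      ∀ n ∈ (⨆ p ∈ π, pPrimeCore p G), (χ : G → ℂ) n = (χ : G → ℂ) 1 := by
    intro χ
    obtain ⟨k, ρ, hirr, hρ⟩ := χ.2
    have hker : ∀ n : G, (χ : G → ℂ) n = (χ : G → ℂ) 1 ↔ n ∈ MonoidHom.ker ρ := by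
      intro n
      rw [MonoidHom.mem_ker, ← hρ]
      constructor
      · intro h
        have h1 : ρ.character n = (Module.finrank ℂ (Fin k → ℂ) : ℂ) := by
          rw [h]; exact Representation.char_one ρ
        exact (char_eq_finrank_iff ρ n).mp h1
      · intro h
        show LinearMap.trace ℂ _ (ρ n) = LinearMap.trace ℂ _ (ρ 1)
        rw [h, show ρ (1 : G) = 1 from map_one ρ]
    constructor
    · intro h n hn
      rw [hker]
      have hle : (⨆ p ∈ π, pPrimeCore p G) ≤ MonoidHom.ker ρ := by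
        apply iSup₂_le
        intro p hp n' hn'
        haveI : Fact p.Prime := ⟨(hπ p hp).1⟩
        rw [← hker]
        exact (S4736.principal_iff p (M p) (hM p hp) (hps p hp) χ).mp (h p hp) n' hn'
      exact hle hn
    · intro h p hp
      haveI : Fact p.Prime := ⟨(hπ p hp).1⟩
      rw [S4736.principal_iff p (M p) (hM p hp) (hps p hp) χ]
      intro n hn
      exact h n (le_iSup₂ (f := fun p (_ : p ∈ π) => pPrimeCore p G) p hp hn)
  constructor
  · intro h
    by_contra hL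
    haveI hLn : (⨆ p ∈ π, pPrimeCore p G).Normal :=
      Subgroup.biSup_normal π (fun p => pPrimeCore p G) (fun p _ => pPrimeCore_normal p G)
    obtain ⟨g, hg⟩ : ∃ g, g ∉ (⨆ p ∈ π, pPrimeCore p G) := by
      by_contra hc
      simp only [not_exists, not_not] at hc
      exact hL ((Subgroup.eq_top_iff' _).mpr hc)
    haveI : Nontrivial (G ⧸ (⨆ p ∈ π, pPrimeCore p G)) :=
      ⟨⟨QuotientGroup.mk g, 1, fun h => hg ((QuotientGroup.eq_one_iff g).mp h)⟩⟩
    obtain ⟨ψ, hψ⟩ := exists_nonprincipal (G ⧸ (⨆ p ∈ π, pPrimeCore p G))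
    obtain ⟨k, σ, hirr, hσ⟩ := ψ.2
    have hsurj : Function.Surjective (QuotientGroup.mk' (⨆ p ∈ π, pPrimeCore p G)) :=
      QuotientGroup.mk'_surjective _
    have hinfl : IsIrrCharacter G ((ψ : G ⧸ (⨆ p ∈ π, pPrimeCore p G) → ℂ) ∘
        QuotientGroup.mk' (⨆ p ∈ π, pPrimeCore p G)) := by
      refine ⟨k, (σ.comp (QuotientGroup.mk' (⨆ p ∈ π, pPrimeCore p G)) :
          Representation ℂ G (Fin k → ℂ)),
        (isIrreducible_comp_iff_of_surjective σ (QuotientGroup.mk' _) hsurj).mpr hirr, ?_⟩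
      rw [← hσ]
      rfl
    have h1 := h ⟨_, hinfl⟩ ((hkey _).mpr (fun n hn => by
      show (ψ : G ⧸ (⨆ p ∈ π, pPrimeCore p G) → ℂ) (QuotientGroup.mk' _ n) =
        (ψ : G ⧸ (⨆ p ∈ π, pPrimeCore p G) → ℂ) (QuotientGroup.mk' _ 1)
      have h1 : QuotientGroup.mk' (⨆ p ∈ π, pPrimeCore p G) n =
          QuotientGroup.mk' (⨆ p ∈ π, pPrimeCore p G) 1 := by
        rw [map_one]; exact (QuotientGroup.eq_one_iff n).mpr hn
      rw [h1]))
    apply hψ
    funext q
    obtain ⟨g', rfl⟩ := hsurj q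
    exact congrFun h1 g'
  · intro hL χ hχ
    have h1 := (hkey χ).mp hχ
    rw [hL] at h1
    have hconst : ∀ g : G, (χ : G → ℂ) g = (χ : G → ℂ) 1 := fun g => h1 g (Subgroup.mem_top g)
    have hd0 := charDegree_pos_of_irr χ.2
    have hχ1 := isIrrCharacter_one_eq_charDegree χ.2
    have hnorm := irr_orthonormal χ.2 χ.2
    rw [if_pos rfl] at hnorm
    unfold classInner at hnorm
    have hsum : ∑ g : G, (χ : G → ℂ) g * conj ((χ : G → ℂ) g) =
        (Nat.card G : ℂ) * ((charDegree (χ : G → ℂ) : ℂ)) ^ 2 := by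
      have hterm : ∀ g : G, (χ : G → ℂ) g * conj ((χ : G → ℂ) g) =
          ((charDegree (χ : G → ℂ) : ℂ)) ^ 2 := by
        intro g
        rw [hconst g, hχ1, Complex.conj_natCast]; ring
      rw [Finset.sum_congr rfl (fun g _ => hterm g), Finset.sum_const, Finset.card_univ,
        nsmul_eq_mul, Nat.card_eq_fintype_card]
    rw [hsum] at hnorm
    have hG0 : (Nat.card G : ℂ) ≠ 0 := by exact_mod_cast (Nat.card_pos (α := G)).ne'
    rw [← mul_assoc, inv_mul_cancel₀ hG0, one_mul] at hnorm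
    have hd2 : (charDegree (χ : G → ℂ)) ^ 2 = 1 := by exact_mod_cast hnorm
    have hd1 : charDegree (χ : G → ℂ) = 1 := (Nat.pow_eq_one.mp hd2).resolve_right (by norm_num)
    funext g
    rw [hconst g, hχ1, hd1]
    simp

end Cfsg.Agent.S4611
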