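import Mathlib
import Cfsg.Statements.S4619

set_option autoImplicit false
open scoped Pointwise
open Cfsg

namespace Cfsg.Agent.S4619

/-- Let P be a Sylow p-subgroup of the finite group G that is a trivial-intersection set: P meets each conjugate g P g⁻¹ with g outside N_G(P) trivially. Then for every nontrivial subgroup Q of P the normalizer of Q lies in the normalizer of P, and any g ∈ G conjugating Q into P lies in N_G(P). -/
theorem result {G : Type*} [Group G] [Finite G] (p : ℕ) [Fact p.Prime] (P : Sylow p G) (hTI : (∀ g : G, g ∉ Subgroup.normalizer ((P : Subgroup G) : Set G) → (P : Subgroup G) ⊓ (MulAut.conj g • (P : Subgroup G)) = ⊥)) (Q : Subgroup G) (hQ : Q ≤ (P : Subgroup G)) (hQ1 : Q ≠ ⊥) :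
    Subgroup.normalizer (Q : Set G) ≤ Subgroup.normalizer ((P : Subgroup G) : Set G) ∧
      ∀ g : G, MulAut.conj g • Q ≤ (P : Subgroup G) → g ∈ Subgroup.normalizer ((P : Subgroup G) : Set G) := by
-----
  have hmem : ∀ (g x : G) (S : Subgroup G), x ∈ MulAut.conj g • S ↔ g⁻¹ * x * g ∈ S := by
    intro g x S
    rw [Subgroup.mem_pointwise_smul_iff_inv_smul_mem]
    simp [MulAut.smul_def]
  have key : ∀ g : G, MulAut.conj g • Q ≤ (P : Subgroup G) →
      g ∈ Subgroup.normalizer ((P : Subgroup G) : Set G) := by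
    intro g hg
    by_contra hgN
    have hbot := hTI g hgN
    obtain ⟨⟨q, hq⟩, hq1⟩ := Subgroup.ne_bot_iff_exists_ne_one.mp hQ1
    have e : g⁻¹ * (g * q * g⁻¹) * g = q := by group
    have h1 : g * q * g⁻¹ ∈ (P : Subgroup G) := hg ((hmem g _ Q).mpr (by rw [e]; exact hq))
    have h2 : g * q * g⁻¹ ∈ MulAut.conj g • (P : Subgroup G) :=
      (hmem g _ _).mpr (by rw [e]; exact hQ hq)
    have h3 : g * q * g⁻¹ ∈ (P : Subgroup G) ⊓ MulAut.conj g • (P : Subgroup G) := ⟨h1, h2⟩
    rw [hbot, Subgroup.mem_bot] at h3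
    apply hq1
    apply Subtype.ext
    show q = 1
    rw [← e, h3]
    group
  refine ⟨?_, key⟩
  intro g hg
  apply key
  intro x hx
  rw [hmem] at hx
  have := (Subgroup.mem_set_normalizer_iff.mp hg (g⁻¹ * x * g)).mp hx
  have e : g * (g⁻¹ * x * g) * g⁻¹ = x := by group
  rw [e] at this
  exact hQ this

end Cfsg.Agent.S4619
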