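import Cfsg.Statements.S4743
import Cfsg.Agent.S4742

set_option autoImplicit false
set_option maxHeartbeats 400000
open Cfsg

namespace Cfsg.Agent.S4743

theorem psolv_step {G : Type*} [Group G] [Finite G] (p : ℕ) [Fact p.Prime]
    (h : Cfsg.IsPSolvable p G) (hpG : p ∣ Nat.card G) :
    ∃ K L : Subgroup G, K.Normal ∧ L.Normal ∧ K ≤ L ∧ ¬ p ∣ Nat.card K ∧
      ∃ m : ℕ, K.relIndex L = p ^ m ∧ p ∣ Nat.card L := by
  have hp : p.Prime := Fact.out
  obtain ⟨n, H, h0, hn, hmono, hnorm, hfac⟩ := h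
  have key : ∀ i : Fin (n + 1), p ∣ Nat.card (H i) →
      ∃ j : Fin n, ¬ p ∣ Nat.card (H j.castSucc) ∧ p ∣ Nat.card (H j.succ) := by
    intro i
    induction i using Fin.induction with
    | zero =>
      intro hd
      rw [h0, Subgroup.card_bot] at hd
      exact absurd hd hp.not_dvd_one
    | succ j ih =>
      intro hd
      by_cases hj : p ∣ Nat.card (H j.castSucc)
      · exact ih hj
      · exact ⟨j, hj, hd⟩
  obtain ⟨j, hj1, hj2⟩ := key (Fin.last n) (by rw [hn, Subgroup.card_top]; exact hpG)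
  have hle : H j.castSucc ≤ H j.succ := hmono (Fin.castSucc_lt_succ).le
  have hcard : Nat.card (H j.castSucc) * (H j.castSucc).relIndex (H j.succ) =
      Nat.card (H j.succ) := by
    have h1 := Subgroup.relIndex_mul_relIndex (⊥ : Subgroup G) (H j.castSucc) (H j.succ) bot_le hle
    rw [Subgroup.relIndex_bot_left, Subgroup.relIndex_bot_left] at h1
    exact h1
  refine ⟨H j.castSucc, H j.succ, hnorm _, hnorm _, hle, hj1, ?_⟩
  rcases hfac j with ⟨m, hm⟩ | hcop
  · exact ⟨m, hm, hj2⟩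
  · exfalso
    rw [← hcard] at hj2
    rcases hp.dvd_mul.mp hj2 with h1 | h1
    · exact hj1 h1
    · exact (Nat.Prime.coprime_iff_not_dvd hp).mp hcop.symm h1

theorem main_psolv {G : Type*} [Group G] [Finite G] (p q : ℕ) [Fact p.Prime] [Fact q.Prime]
    (hpq : p ≠ q) (hpG : p ∣ Nat.card G) (hqG : q ∣ Nat.card G)
    (hC : ∀ g : G, g ≠ 1 → (∃ k : ℕ, orderOf g = p ^ k) →
      ¬ q ∣ Nat.card ↥(Subgroup.centralizer ({g} : Set G)))
    (hC' : ∀ g : G, g ≠ 1 → (∃ k : ℕ, orderOf g = q ^ k) →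
      ¬ p ∣ Nat.card ↥(Subgroup.centralizer ({g} : Set G)))
    (hs : Cfsg.IsPSolvable p G) :
    (∃ χ : Cfsg.IrrCharacter G, (Cfsg.charDegree (χ : G → ℂ)).factorization p =
        (Nat.card G).factorization p) ∨
      (∃ χ : Cfsg.IrrCharacter G, (Cfsg.charDegree (χ : G → ℂ)).factorization q =
        (Nat.card G).factorization q) := by
  have hp : p.Prime := Fact.out
  have hq : q.Prime := Fact.out
  by_contra hcon
  have hnp : ¬ ∃ χ : Cfsg.IrrCharacter G, (Cfsg.charDegree (χ : G → ℂ)).factorization p =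
      (Nat.card G).factorization p := fun h => hcon (Or.inl h)
  have hnq : ¬ ∃ χ : Cfsg.IrrCharacter G, (Cfsg.charDegree (χ : G → ℂ)).factorization q =
      (Nat.card G).factorization q := fun h => hcon (Or.inr h)
  have hA := (Cfsg.Agent.S4742.result p q hpq hpG hqG hC).resolve_left hnp
  have hB := (Cfsg.Agent.S4742.result q p hpq.symm hqG hpG hC').resolve_left hnq
  obtain ⟨K, L, hKn, hLn, hKL, hpK, m, hm, hpL⟩ := psolv_step p hs hpG
  by_cases hqK : q ∣ Nat.card K
  · obtain ⟨z, hz⟩ := exists_prime_orderOf_dvd_card' q hqK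
    have hz1 : (z : G) ≠ 1 := by
      intro h
      have h1 : orderOf (z : G) = 1 := by rw [h, orderOf_one]
      rw [Subgroup.orderOf_coe, hz] at h1
      exact hq.one_lt.ne' h1
    obtain ⟨g, h, hzg, hzh, hx1, k, hk⟩ :=
      hA (z : G) hz1 ⟨1, by rw [Subgroup.orderOf_coe, hz, pow_one]⟩
    have hconjK : ∀ y : G, IsConj (z : G) y → y ∈ K := by
      intro y hy
      obtain ⟨c, hc⟩ := isConj_iff.mp hy
      rw [← hc]
      exact hKn.conj_mem _ z.2 c
    have hxK : g * h⁻¹ ∈ K := K.mul_mem (hconjK g hzg) (K.inv_mem (hconjK h hzh))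
    have hk0 : k ≠ 0 := by
      intro h0
      rw [h0, pow_zero] at hk
      exact hx1 (orderOf_eq_one_iff.mp hk)
    apply hpK
    have h1 : orderOf (g * h⁻¹) ∣ Nat.card K := Subgroup.orderOf_dvd_natCard K hxK
    rw [hk] at h1
    exact (dvd_pow_self p hk0).trans h1
  · obtain ⟨w, hw⟩ := exists_prime_orderOf_dvd_card' p hpL
    have hw1 : (w : G) ≠ 1 := by
      intro h
      have h1 : orderOf (w : G) = 1 := by rw [h, orderOf_one]
      rw [Subgroup.orderOf_coe, hw] at h1
      exact hp.one_lt.ne' h1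
    obtain ⟨g, h, hwg, hwh, hy1, k, hk⟩ :=
      hB (w : G) hw1 ⟨1, by rw [Subgroup.orderOf_coe, hw, pow_one]⟩
    have hconjL : ∀ y : G, IsConj (w : G) y → y ∈ L := by
      intro y hy
      obtain ⟨c, hc⟩ := isConj_iff.mp hy
      rw [← hc]
      exact hLn.conj_mem _ w.2 c
    have hyL : g * h⁻¹ ∈ L := L.mul_mem (hconjL g hwg) (L.inv_mem (hconjL h hwh))
    have hpow : (g * h⁻¹) ^ (p ^ m) ∈ K := by
      have h1 := Subgroup.pow_index_mem (K.subgroupOf L) (⟨g * h⁻¹, hyL⟩ : ↥L)
      rw [Subgroup.mem_subgroupOf] at h1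
      have h2 : (K.subgroupOf L).index = p ^ m := hm
      rw [h2] at h1
      simpa using h1
    have hyK : g * h⁻¹ ∈ K := by
      have hcop : (p ^ m).Coprime (orderOf (g * h⁻¹)) := by
        rw [hk]
        exact Nat.Coprime.pow _ _ ((Nat.coprime_primes hp hq).mpr hpq)
      obtain ⟨u, hu⟩ := exists_pow_eq_self_of_coprime hcop
      rw [← hu]
      exact K.pow_mem hpow u
    have hk0 : k ≠ 0 := by
      intro h0
      rw [h0, pow_zero] at hk
      exact hy1 (orderOf_eq_one_iff.mp hk)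
    apply hqK
    have h1 : orderOf (g * h⁻¹) ∣ Nat.card K := Subgroup.orderOf_dvd_natCard K hyK
    rw [hk] at h1
    exact (dvd_pow_self q hk0).trans h1

/-- Let p ≠ q be primes dividing the order of the finite group G, suppose the centralizer of every non-identity p-element has order prime to q, and suppose G is p-solvable or q-solvable. Then G has an irreducible character of p-defect zero or an irreducible character of q-defect zero. -/
theorem result {G : Type*} [Group G] [Finite G] (p q : ℕ) [Fact p.Prime] [Fact q.Prime] (hppq : p ≠ q) (hpG : p ∣ Nat.card G) (hqG : q ∣ Nat.card G) (hC : ∀ g : G, g ≠ 1 → (∃ k : ℕ, orderOf g = p ^ k) → ¬ q ∣ Nat.card ↥(Subgroup.centralizer ({g} : Set G))) (hsolv : Cfsg.IsPSolvable p G ∨ Cfsg.IsPSolvable q G) : (∃ χ : Cfsg.IrrCharacter G, (Cfsg.charDegree (χ : G → ℂ)).factorization p = (Nat.card G).factorization p) ∨ (∃ χ : Cfsg.IrrCharacter G, (Cfsg.charDegree (χ : G → ℂ)).factorization q = (Nat.card G).factorization q) := by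
  have hp : p.Prime := Fact.out
  have hq : q.Prime := Fact.out
  have hC' : ∀ g : G, g ≠ 1 → (∃ k : ℕ, orderOf g = q ^ k) →
      ¬ p ∣ Nat.card ↥(Subgroup.centralizer ({g} : Set G)) := by
    rintro g hg ⟨k, hk⟩ hdvd
    obtain ⟨x, hx⟩ := exists_prime_orderOf_dvd_card' p hdvd
    have hx1 : (x : G) ≠ 1 := by
      intro h
      have h1 : orderOf (x : G) = 1 := by rw [h, orderOf_one]
      rw [Subgroup.orderOf_coe, hx] at h1
      exact hp.one_lt.ne' h1
    apply hC (x : G) hx1 ⟨1, by rw [Subgroup.orderOf_coe, hx, pow_one]⟩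
    have hgC : g ∈ Subgroup.centralizer ({(x : G)} : Set G) := by
      rw [Subgroup.mem_centralizer_singleton_iff]
      exact (Subgroup.mem_centralizer_singleton_iff.mp x.2).symm
    have hk0 : k ≠ 0 := by
      intro h0
      rw [h0, pow_zero] at hk
      exact hg (orderOf_eq_one_iff.mp hk)
    have h1 : q ∣ orderOf g := by rw [hk]; exact dvd_pow_self q hk0
    exact h1.trans (Subgroup.orderOf_dvd_natCard _ hgC)
  rcases hsolv with hs | hs
  · exact main_psolv p q hppq hpG hqG hC hC' hs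
  · exact (main_psolv q p hppq.symm hqG hpG hC' hC hs).symm

end Cfsg.Agent.S4743
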