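import Cfsg.Statements.S4746
import Cfsg.Agent.S4742
import Cfsg.Agent.Lib.Lead.ClassMulP
import Cfsg.Agent.Lib.Lead.CharIntegral

set_option autoImplicit false
set_option maxHeartbeats 400000
open Cfsg

namespace Cfsg.Agent.S4746

open Cfsg.Agent.Lib.Lead
open scoped ComplexConjugate

theorem sq_sum_mod_two {ι : Type*} (s : Finset ι) (a : ι → ℂ) (ha : ∀ i ∈ s, IsIntegral ℤ (a i)) :
    ∃ B : ℂ, IsIntegral ℤ B ∧ (∑ i ∈ s, a i) ^ 2 = ∑ i ∈ s, a i ^ 2 + 2 * B := by
  classical
  induction s using Finset.induction_on with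
  | empty => exact ⟨0, isIntegral_zero, by simp⟩
  | insert i s hi ih =>
    obtain ⟨B, hB, hBe⟩ := ih (fun j hj => ha j (Finset.mem_insert_of_mem hj))
    refine ⟨B + a i * ∑ j ∈ s, a j, hB.add ((ha i (Finset.mem_insert_self i s)).mul
      (IsIntegral.sum _ (fun j hj => ha j (Finset.mem_insert_of_mem hj)))), ?_⟩
    rw [Finset.sum_insert hi, Finset.sum_insert hi, add_sq, hBe]
    ring

/-- Let p be an odd prime and G a finite group of even order divisible by p in which the centralizer of every non-identity p-element has odd order. Then G has an irreducible character of p-defect zero or an irreducible character of even degree. -/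
theorem result {G : Type*} [Group G] [Finite G] (p : ℕ) [Fact p.Prime] (hp2 : p ≠ 2) (hpG : p ∣ Nat.card G) (h2G : 2 ∣ Nat.card G) (hC : ∀ g : G, g ≠ 1 → (∃ k : ℕ, orderOf g = p ^ k) → Odd (Nat.card ↥(Subgroup.centralizer ({g} : Set G)))) : (∃ χ : Cfsg.IrrCharacter G, (Cfsg.charDegree (χ : G → ℂ)).factorization p = (Nat.card G).factorization p) ∨ ∃ χ : Cfsg.IrrCharacter G, Even (Cfsg.charDegree (χ : G → ℂ)) := by
  classical
  letI : Fintype G := Fintype.ofFinite G
  have : Finite (IrrCharacter G) := irr_finite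
  letI : Fintype (IrrCharacter G) := Fintype.ofFinite _
  have hC' : ∀ g : G, g ≠ 1 → (∃ k : ℕ, orderOf g = p ^ k) →
      ¬ 2 ∣ Nat.card ↥(Subgroup.centralizer ({g} : Set G)) := by
    intro g hg hk h2
    exact (Nat.not_even_iff_odd.mpr (hC g hg hk)) (even_iff_two_dvd.mpr h2)
  rcases Cfsg.Agent.S4742.result p 2 hp2 hpG h2G hC' with hdef | hreal
  · exact Or.inl hdef
  right
  obtain ⟨z, hz⟩ := exists_prime_orderOf_dvd_card' 2 h2G
  have hz1 : z ≠ 1 := by
    intro h
    rw [h, orderOf_one] at hz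
    norm_num at hz
  have hzz : z * z = 1 := by
    have h := pow_orderOf_eq_one z
    rw [hz, pow_two] at h
    exact h
  obtain ⟨g, h, hzg, hzh, hx1, k, hk⟩ := hreal z hz1 ⟨1, by rw [hz, pow_one]⟩
  have hsq1 : ∀ y : G, IsConj z y → y * y = 1 := by
    intro y hy
    obtain ⟨c, hc⟩ := isConj_iff.mp hy
    rw [← hc]
    calc c * z * c⁻¹ * (c * z * c⁻¹) = c * (z * z) * c⁻¹ := by group
      _ = 1 := by rw [hzz]; group
  have hg2 := hsq1 g hzg
  have hh2 := hsq1 h hzh
  obtain ⟨x, hx⟩ : ∃ x : G, x = g * h⁻¹ := ⟨_, rfl⟩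
  rw [← hx] at hx1 hk
  have hrealx : IsConj x x⁻¹ := by
    rw [isConj_iff]
    refine ⟨g, ?_⟩
    have hginv : g⁻¹ = g := inv_eq_of_mul_eq_one_left hg2
    have hhinv : h⁻¹ = h := inv_eq_of_mul_eq_one_left hh2
    rw [hx, hhinv, mul_inv_rev, hhinv, hginv]
    calc g * (g * h) * g = (g * g) * h * g := by group
      _ = h * g := by rw [hg2, one_mul]
  have hCodd := hC x hx1 ⟨k, hk⟩
  by_contra hcon
  push Not at hcon
  have hodd : ∀ χ : IrrCharacter G, ∃ k : ℕ, Cfsg.charDegree (χ : G → ℂ) = 2 * k + 1 :=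
    fun χ => Nat.not_even_iff_odd.mp (hcon χ)
  choose kk hkk using hodd
  have hint : ∀ χ : IrrCharacter G, IsIntegral ℤ ((χ : G → ℂ) x) :=
    fun χ => isCharacter_isIntegral (isCharacter_of_isIrrCharacter χ.2) x
  have hrealv : ∀ χ : IrrCharacter G, conj ((χ : G → ℂ) x) = (χ : G → ℂ) x := by
    intro χ
    rw [← isCharacter_inv_eq_conj (isCharacter_of_isIrrCharacter χ.2) x]
    exact irr_eq_of_isConj χ hrealx
  have hS : ∑ χ : IrrCharacter G, (χ : G → ℂ) x =
      2 * (-∑ χ : IrrCharacter G, (kk χ : ℂ) * (χ : G → ℂ) x) := by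
    have h0 := second_orthogonality (G := G) x 1
    rw [if_neg (by rw [isConj_one_left]; exact hx1)] at h0
    have h' : ∑ χ : IrrCharacter G, (χ : G → ℂ) x * ((2 * kk χ + 1 : ℕ) : ℂ) = 0 := by
      rw [← h0]
      apply Finset.sum_congr rfl
      intro χ _
      rw [isIrrCharacter_one_eq_charDegree χ.2, Complex.conj_natCast, hkk χ]
    have h'' : ∑ χ : IrrCharacter G, (χ : G → ℂ) x +
        2 * ∑ χ : IrrCharacter G, (kk χ : ℂ) * (χ : G → ℂ) x = 0 := by
      rw [← h', Finset.mul_sum, ← Finset.sum_add_distrib]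
      apply Finset.sum_congr rfl
      intro χ _
      push_cast
      ring
    linear_combination h''
  obtain ⟨B, hB, hBe⟩ := sq_sum_mod_two (Finset.univ : Finset (IrrCharacter G))
    (fun χ => (χ : G → ℂ) x) (fun χ _ => hint χ)
  have hsq : ∑ χ : IrrCharacter G, (χ : G → ℂ) x ^ 2 =
      (Nat.card (Subgroup.centralizer ({x} : Set G)) : ℂ) := by
    have h0 := second_orthogonality (G := G) x x
    rw [if_pos (IsConj.refl x)] at h0
    rw [← h0]
    apply Finset.sum_congr rfl
    intro χ _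
    rw [hrealv χ, pow_two]
  obtain ⟨A, hA⟩ : ∃ A : ℂ, A = -∑ χ : IrrCharacter G, (kk χ : ℂ) * (χ : G → ℂ) x := ⟨_, rfl⟩
  have hAint : IsIntegral ℤ A := by
    rw [hA]
    exact (IsIntegral.sum _ (fun χ _ => (isIntegral_natCast_complex _).mul (hint χ))).neg
  rw [← hA] at hS
  rw [hS, hsq] at hBe
  have h2i : IsIntegral ℤ (2 : ℂ) := by exact_mod_cast isIntegral_natCast_complex 2
  have hdiv : IsIntegral ℤ ((Nat.card (Subgroup.centralizer ({x} : Set G)) : ℂ) /
      ((2 : ℕ) : ℂ)) := by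
    have h3 : (Nat.card (Subgroup.centralizer ({x} : Set G)) : ℂ) / ((2 : ℕ) : ℂ) =
        2 * A ^ 2 - B := by
      push_cast
      field_simp
      linear_combination -hBe
    rw [h3]
    exact (h2i.mul (hAint.pow 2)).sub hB
  have h2dvd := nat_dvd_of_isIntegral_div (by norm_num) hdiv
  exact (Nat.not_even_iff_odd.mpr hCodd) (even_iff_two_dvd.mpr h2dvd)

end Cfsg.Agent.S4746
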