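import Cfsg.Statements.S4754
import Cfsg.Agent.Lib.Lead.CharClassProd

set_option autoImplicit false
open Cfsg

namespace Cfsg.Agent.S4754

open Cfsg.Agent.Lib.Lead Module in
theorem result {G : Type*} [Group G] [Finite G] (x y : G) : (∀ z : G, IsConj (x * y) z ↔ ∃ a b : G, z = a * x * a⁻¹ * (b * y * b⁻¹)) ↔ ∀ (a b : G) (χ : Cfsg.IrrCharacter G), (χ : G → ℂ) 1 * (χ : G → ℂ) (a * x * a⁻¹ * (b * y * b⁻¹)) = (χ : G → ℂ) x * (χ : G → ℂ) y := by
  classical
  letI := Fintype.ofFinite G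
  constructor
  · intro hcl a b χ
    have hconst : ∀ a b : G, (χ : G → ℂ) (a * x * a⁻¹ * (b * y * b⁻¹)) = (χ : G → ℂ) (x * y) := by
      intro a b
      exact irr_eq_of_isConj χ ((hcl _).mpr ⟨a, b, rfl⟩)
    obtain ⟨n, ρ, hirr, hρ⟩ := χ.2
    haveI := hirr
    have hsum := sum_char_conj_mul ρ x y
    rw [hρ] at hsum
    simp only [hconst, Finset.sum_const, Finset.card_univ, nsmul_eq_mul] at hsum
    have hd : (χ : G → ℂ) 1 = (finrank ℂ (Fin n → ℂ) : ℂ) := by
      rw [← hρ, Representation.char_one]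
    have hpos := finrank_pos_of_irreducible ρ
    have hne : (finrank ℂ (Fin n → ℂ) : ℂ) ≠ 0 := by exact_mod_cast hpos.ne'
    have hG0 : (Fintype.card G : ℂ) ≠ 0 := by exact_mod_cast Fintype.card_ne_zero
    rw [Nat.card_eq_fintype_card, eq_div_iff hne] at hsum
    rw [hconst a b, hd]
    have h3 : (Fintype.card G : ℂ) ^ 2 * ((finrank ℂ (Fin n → ℂ) : ℂ) * (χ : G → ℂ) (x * y) -
        (χ : G → ℂ) x * (χ : G → ℂ) y) = 0 := by
      linear_combination hsum
    rcases mul_eq_zero.mp h3 with h4 | h4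
    · exact absurd ((pow_eq_zero_iff (two_ne_zero)).mp h4) hG0
    · exact sub_eq_zero.mp h4
  · intro hchar z
    constructor
    · intro hz
      obtain ⟨g, rfl⟩ := isConj_iff.mp hz
      exact ⟨g, g, by group⟩
    · rintro ⟨a, b, rfl⟩
      apply isConj_of_forall_irr_eq
      intro χ
      have h1 := hchar a b χ
      have h2 := hchar 1 1 χ
      simp only [one_mul, inv_one, mul_one] at h2
      have hd : (χ : G → ℂ) 1 ≠ 0 := isIrrCharacter_one_ne_zero χ.2
      exact mul_left_cancel₀ hd (h2.trans h1.symm)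

end Cfsg.Agent.S4754
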