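import Cfsg.Statements.S4755
import Cfsg.Agent.Lib.Lead.CharClassProd

set_option autoImplicit false
open Cfsg

namespace Cfsg.Agent.S4755

open Cfsg.Agent.Lib.Lead Module in
open scoped ComplexConjugate in
theorem result {G : Type*} [Group G] [Finite G] (x y : G) (hx : x ≠ 1) (hy : y ≠ 1) (h : ∀ (a b : G) (χ : Cfsg.IrrCharacter G), (χ : G → ℂ) (a * x * a⁻¹ * (b * y * b⁻¹)) = (χ : G → ℂ) (a * x * a⁻¹) * (χ : G → ℂ) (b * y * b⁻¹)) : (∀ z : G, IsConj (x * y) z ↔ ∃ a b : G, z = a * x * a⁻¹ * (b * y * b⁻¹)) ∧ (∀ χ : Cfsg.IrrCharacter G, (χ : G → ℂ) 1 ≠ 1 → (χ : G → ℂ) (x * y) = 0) ∧ (∀ z : G, IsConj (x * y) z ↔ (x * y)⁻¹ * z ∈ commutator G) := by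
  classical
  letI := Fintype.ofFinite G
  haveI : Finite (Cfsg.IrrCharacter G) := irr_finite
  letI : Fintype (Cfsg.IrrCharacter G) := Fintype.ofFinite _
  have hprod : ∀ (a b : G) (χ : Cfsg.IrrCharacter G),
      (χ : G → ℂ) (a * x * a⁻¹ * (b * y * b⁻¹)) = (χ : G → ℂ) x * (χ : G → ℂ) y := by
    intro a b χ
    rw [h a b χ, isClassFunction_irr χ x a, isClassFunction_irr χ y b]
  have hxy : ∀ χ : Cfsg.IrrCharacter G,
      (χ : G → ℂ) (x * y) = (χ : G → ℂ) x * (χ : G → ℂ) y := by
    intro χ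
    have := hprod 1 1 χ
    simpa using this
  have h2 : ∀ χ : Cfsg.IrrCharacter G, (χ : G → ℂ) 1 ≠ 1 → (χ : G → ℂ) (x * y) = 0 := by
    intro χ hχ1
    obtain ⟨n, ρ, hirr, hρ⟩ := χ.2
    haveI := hirr
    have hsum := sum_char_conj_mul ρ x y
    rw [hρ] at hsum
    simp only [hprod, Finset.sum_const, Finset.card_univ, nsmul_eq_mul] at hsum
    have hd : (χ : G → ℂ) 1 = (finrank ℂ (Fin n → ℂ) : ℂ) := by
      rw [← hρ, Representation.char_one]
    have hpos := finrank_pos_of_irreducible ρ
    have hne : (finrank ℂ (Fin n → ℂ) : ℂ) ≠ 0 := by exact_mod_cast hpos.ne'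
    have hG0 : (Fintype.card G : ℂ) ≠ 0 := by exact_mod_cast Fintype.card_ne_zero
    rw [Nat.card_eq_fintype_card, eq_div_iff hne] at hsum
    rw [hxy χ]
    have h3 : (Fintype.card G : ℂ) ^ 2 * (((χ : G → ℂ) x * (χ : G → ℂ) y) *
        ((finrank ℂ (Fin n → ℂ) : ℂ) - 1)) = 0 := by
      linear_combination hsum
    rcases mul_eq_zero.mp h3 with h4 | h4
    · exact absurd ((pow_eq_zero_iff (two_ne_zero)).mp h4) hG0
    · rcases mul_eq_zero.mp h4 with h5 | h5
      · exact h5
      · exfalso; apply hχ1; rw [hd]; linear_combination h5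
  have h1 : ∀ z : G, IsConj (x * y) z ↔ ∃ a b : G, z = a * x * a⁻¹ * (b * y * b⁻¹) := by
    intro z; constructor
    · intro hz
      obtain ⟨g, rfl⟩ := isConj_iff.mp hz
      exact ⟨g, g, by group⟩
    · rintro ⟨a, b, rfl⟩
      apply isConj_of_forall_irr_eq
      intro χ
      rw [hprod a b χ, hxy χ]
  refine ⟨h1, h2, ?_⟩
  have hfwd : ∀ z : G, IsConj (x * y) z → (x * y)⁻¹ * z ∈ commutator G := by
    intro z hz
    obtain ⟨g, rfl⟩ := isConj_iff.mp hz
    have : (x * y)⁻¹ * (g * (x * y) * g⁻¹) = (x * y)⁻¹ * g * (x * y)⁻¹⁻¹ * g⁻¹ := by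
      group
    rw [this, commutator_def, ← commutatorElement_def]
    exact Subgroup.commutator_mem_commutator (Subgroup.mem_top _) (Subgroup.mem_top _)
  have hsub : classFinset (x * y) ⊆
      Finset.univ.filter (fun z : G => (x * y)⁻¹ * z ∈ commutator G) := by
    intro z hz
    rw [mem_classFinset] at hz
    rw [Finset.mem_filter]; exact ⟨Finset.mem_univ _, hfwd z hz⟩
  have hcard2 : (Finset.univ.filter (fun z : G => (x * y)⁻¹ * z ∈ commutator G)).card =
      Nat.card (commutator G) := by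
    rw [← Fintype.card_subtype, ← Nat.card_eq_fintype_card]
    apply Nat.card_congr
    exact {
      toFun := fun z => ⟨(x * y)⁻¹ * z.1, z.2⟩
      invFun := fun c => ⟨(x * y) * c.1, by
        show (x * y)⁻¹ * ((x * y) * c.1) ∈ commutator G
        rw [inv_mul_cancel_left]; exact c.2⟩
      left_inv := fun z => by apply Subtype.ext; show (x * y) * ((x * y)⁻¹ * z.1) = z.1; group
      right_inv := fun c => by apply Subtype.ext; show (x * y)⁻¹ * ((x * y) * c.1) = c.1; group }
  -- centralizer order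
  have hcent : Nat.card (Subgroup.centralizer ({x * y} : Set G)) = (commutator G).index := by
    have hso := second_orthogonality (x * y) (x * y)
    rw [if_pos (IsConj.refl _)] at hso
    have hterm : ∀ χ : Cfsg.IrrCharacter G, (χ : G → ℂ) (x * y) * conj ((χ : G → ℂ) (x * y)) =
        if (χ : G → ℂ) 1 = 1 then 1 else 0 := by
      intro χ
      split_ifs with hc
      · exact irr_linear_mul_conj χ hc (x * y)
      · rw [h2 χ hc, zero_mul]
    rw [Finset.sum_congr rfl (fun χ _ => hterm χ), Finset.sum_boole] at hso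
    rw [← card_linear_irr,
      Nat.card_eq_fintype_card (α := {χ : Cfsg.IrrCharacter G // (χ : G → ℂ) 1 = 1}),
      Fintype.card_subtype]
    exact_mod_cast hso.symm
  have hcardcl : (classFinset (x * y)).card = Nat.card (commutator G) := by
    rw [card_classFinset]
    have e1 := Subgroup.index_mul_card (Subgroup.centralizer ({x * y} : Set G))
    have e2 := Subgroup.index_mul_card (commutator G)
    rw [hcent] at e1
    have hpos : 0 < (commutator G).index := Nat.pos_of_ne_zero (Subgroup.index_ne_zero_of_finite)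
    have : (Subgroup.centralizer ({x * y} : Set G)).index * (commutator G).index =
        Nat.card (commutator G) * (commutator G).index := by
      rw [e1, mul_comm, e2]
    exact Nat.eq_of_mul_eq_mul_right hpos this
  have heq := Finset.eq_of_subset_of_card_le hsub (by rw [hcard2, hcardcl])
  intro z
  constructor
  · exact hfwd z
  · intro hz
    have : z ∈ Finset.univ.filter (fun z : G => (x * y)⁻¹ * z ∈ commutator G) := by
      rw [Finset.mem_filter]; exact ⟨Finset.mem_univ _, hz⟩
    rw [← heq, mem_classFinset] at this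
    exact this

end Cfsg.Agent.S4755
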