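import Cfsg.Statements.S4757
import Cfsg.Agent.Lib.Lead.DihCent
import Cfsg.Agent.Lib.Lead.CharLin
import Cfsg.Agent.Lib.Helper7.PCore

set_option autoImplicit false
set_option maxHeartbeats 1600000
open Cfsg

namespace Cfsg.Agent.S4757

open Cfsg.Agent.Lib.Lead
open Cfsg.Agent.Lib.Helper2 (irr_degree_pos)
open scoped ComplexConjugate
open scoped commutatorElement

/-- Let u ≠ 1 be an element of the finite group G and c a complex number such that every non-principal irreducible character χ satisfies χ(1) − χ(u) = c or χ(u) = 0. Then the following are equivalent: (a) u has order 2, G is generated by u together with O(G), the largest normal subgroup of G of odd order, and the centralizer of u is {1, u}; (b) G is not perfect; (c) c = 2. -/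
theorem result {G : Type*} [Group G] [Finite G] (u : G) (hu : u ≠ 1) (c : ℂ) (hyp : ∀ χ : Cfsg.IrrCharacter G, (χ : G → ℂ) ≠ (fun _ => (1 : ℂ)) → ((χ : G → ℂ) 1 - (χ : G → ℂ) u = c ∨ (χ : G → ℂ) u = 0)) : ((orderOf u = 2 ∧ Subgroup.zpowers u ⊔ Cfsg.oddCore G = ⊤ ∧ Subgroup.centralizer ({u} : Set G) = Subgroup.zpowers u) ↔ commutator G ≠ ⊤) ∧ (commutator G ≠ ⊤ ↔ c = 2) := by
  classical
  letI : Fintype G := Fintype.ofFinite G
  have : Finite (IrrCharacter G) := irr_finite
  letI : Fintype (IrrCharacter G) := Fintype.ofFinite _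
  obtain ⟨χ₀, hχ₀⟩ : ∃ χ₀ : IrrCharacter G, χ₀ = ⟨fun _ => 1, isIrrCharacter_one G⟩ := ⟨_, rfl⟩
  have hχ₀app : ∀ g : G, (χ₀ : G → ℂ) g = 1 := by intro g; rw [hχ₀]
  have hne0 : ∀ χ : IrrCharacter G, χ ≠ χ₀ → (χ : G → ℂ) ≠ (fun _ => (1 : ℂ)) := by
    intro χ h h'
    apply h
    apply Subtype.ext
    rw [h', hχ₀]
  have hdeg : ∀ χ : IrrCharacter G, ∃ d : ℕ, 0 < d ∧ (χ : G → ℂ) 1 = d :=
    fun χ => irr_degree_pos χ.2
  choose d hdpos hd using hdeg
  have hnc : ¬ IsConj u 1 := fun h => hu (isConj_one_left.mp h)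
  have hO : ∑ χ : IrrCharacter G, (χ : G → ℂ) u * conj ((χ : G → ℂ) 1) = 0 := by
    rw [second_orthogonality, if_neg hnc]
  have hO' : ∑ χ : IrrCharacter G, (χ : G → ℂ) u * (d χ : ℂ) = 0 := by
    rw [← hO]; apply Finset.sum_congr rfl; intro χ _; rw [hd χ, Complex.conj_natCast]
  have hT : (∀ χ : IrrCharacter G, χ ≠ χ₀ →
      ∃ r : ℝ, 0 ≤ r ∧ (χ : G → ℂ) u * (d χ : ℂ) = (r : ℂ)) → False := by
    intro h
    have h' : ∀ χ : IrrCharacter G, ∃ r : ℝ, 0 ≤ r ∧ (χ = χ₀ → r = 1) ∧
        (χ : G → ℂ) u * (d χ : ℂ) = (r : ℂ) := by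
      intro χ
      by_cases hχ : χ = χ₀
      · refine ⟨1, zero_le_one, fun _ => rfl, ?_⟩
        have hd0 : (d χ : ℂ) = 1 := by rw [← hd χ, hχ, hχ₀app]
        rw [hd0, hχ, hχ₀app]; norm_num
      · obtain ⟨r, hr, hr'⟩ := h χ hχ
        exact ⟨r, hr, fun h => absurd h hχ, hr'⟩
    choose r hr0 hr1 hr using h'
    have hsum : ∑ χ : IrrCharacter G, r χ = 0 := by
      have : ((∑ χ : IrrCharacter G, r χ : ℝ) : ℂ) = 0 := by
        push_cast
        rw [← hO']
        exact Finset.sum_congr rfl (fun χ _ => (hr χ).symm)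
      exact_mod_cast this
    have hle : r χ₀ ≤ ∑ χ : IrrCharacter G, r χ :=
      Finset.single_le_sum (fun χ _ => hr0 χ) (Finset.mem_univ χ₀)
    rw [hsum, hr1 χ₀ rfl] at hle
    linarith
  have hlin_ex : commutator G ≠ ⊤ → ∃ lam : G →* ℂˣ, ∃ g : G, lam g ≠ 1 := by
    intro hperf
    have hidx : (commutator G).index ≠ 1 := fun h => hperf (Subgroup.index_eq_one.mp h)
    have hcard := card_linear_irr (G := G)
    have h2 : 1 < Nat.card {χ : IrrCharacter G // (χ : G → ℂ) 1 = 1} := by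
      rw [hcard]
      have hpos : 0 < (commutator G).index := Nat.pos_of_ne_zero Subgroup.index_ne_zero_of_finite
      omega
    haveI := Finite.one_lt_card_iff_nontrivial.mp h2
    obtain ⟨⟨χ, hχ1⟩, hχne⟩ :=
      exists_ne (⟨χ₀, hχ₀app 1⟩ : {χ : IrrCharacter G // (χ : G → ℂ) 1 = 1})
    obtain ⟨lam, hlam⟩ := exists_hom_of_linear χ.2 hχ1
    refine ⟨lam, ?_⟩
    by_contra hcon
    push Not at hcon
    apply hχne
    apply Subtype.ext
    apply Subtype.ext
    funext g
    show (χ : G → ℂ) g = (χ₀ : G → ℂ) g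
    rw [hlam g, hcon g, hχ₀app]; rfl
  have hhom : ∀ lam : G →* ℂˣ, (∃ g : G, lam g ≠ 1) → (1 - ((lam u : ℂˣ) : ℂ) = c) := by
    rintro lam ⟨g, hg⟩
    have hirr := isIrrCharacter_of_hom lam
    have hne : (fun x => ((lam x : ℂˣ) : ℂ)) ≠ (fun _ => (1 : ℂ)) := by
      intro h
      apply hg
      have := congrFun h g
      exact Units.ext this
    rcases hyp ⟨_, hirr⟩ hne with h | h
    · simpa using h
    · exfalso; exact (lam u).ne_zero h
  have hP1 : commutator G ≠ ⊤ → c = 2 := by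
    intro hperf
    obtain ⟨lam, g, hg⟩ := hlin_ex hperf
    have h1 := hhom lam ⟨g, hg⟩
    have hc0 : c ≠ 0 := by
      intro hc0
      apply hT
      intro χ hχ
      rcases hyp χ (hne0 χ hχ) with h | h
      · refine ⟨(d χ : ℝ) * (d χ : ℝ), by positivity, ?_⟩
        have : (χ : G → ℂ) u = (d χ : ℂ) := by
          rw [← hd χ]; rw [hc0] at h; linear_combination -h
        rw [this]; push_cast; ring
      · exact ⟨0, le_refl 0, by rw [h]; simp⟩
    by_cases hsq : ∃ g' : G, (lam * lam) g' ≠ 1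
    · have h2 := hhom (lam * lam) hsq
      rw [MonoidHom.mul_apply, Units.val_mul] at h2
      exfalso
      have hz : ((lam u : ℂˣ) : ℂ) ≠ 0 := (lam u).ne_zero
      have h3 : ((lam u : ℂˣ) : ℂ) * (((lam u : ℂˣ) : ℂ) - 1) = 0 := by
        linear_combination h1 - h2
      rcases mul_eq_zero.mp h3 with h | h
      · exact hz h
      · apply hc0; rw [← h1]; linear_combination -h
    · push Not at hsq
      have h2 := hsq u
      have h3 : ((lam u : ℂˣ) : ℂ) * ((lam u : ℂˣ) : ℂ) = 1 := by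
        have := congrArg (fun z : ℂˣ => (z : ℂ)) h2
        simpa using this
      have h4 : c * (c - 2) = 0 := by
        have hz : ((lam u : ℂˣ) : ℂ) = 1 - c := by linear_combination -h1
        rw [hz] at h3
        linear_combination h3
      rcases mul_eq_zero.mp h4 with h | h
      · exact absurd h hc0
      · linear_combination h
  have hP2 : c = 2 → commutator G ≠ ⊤ := by
    intro hc hperf
    apply hT
    intro χ hχ
    have hd2 : 2 ≤ d χ := by
      by_contra hlt
      have hd1 : d χ = 1 := by have := hdpos χ; omega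
      apply hχ
      have hχ11 : (χ : G → ℂ) 1 = 1 := by rw [hd χ, hd1]; norm_num
      obtain ⟨lam, hlam⟩ := exists_hom_of_linear χ.2 hχ11
      apply Subtype.ext
      funext g
      have h2 : g ∈ lam.ker :=
        Abelianization.commutator_subset_ker lam (by rw [hperf]; exact Subgroup.mem_top g)
      have h3 : lam g = 1 := h2
      rw [hlam g, h3, hχ₀app]; rfl
    rcases hyp χ (hne0 χ hχ) with h | h
    · refine ⟨((d χ : ℝ) - 2) * (d χ : ℝ), ?_, ?_⟩
      · have : (2 : ℝ) ≤ (d χ : ℝ) := by exact_mod_cast hd2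
        nlinarith
      · have : (χ : G → ℂ) u = (d χ : ℂ) - 2 := by
          rw [← hd χ]; rw [hc] at h; linear_combination -h
        rw [this]; push_cast; ring
    · exact ⟨0, le_refl 0, by rw [h]; simp⟩
  have hP3 : (orderOf u = 2 ∧ Subgroup.zpowers u ⊔ Cfsg.oddCore G = ⊤ ∧
      Subgroup.centralizer ({u} : Set G) = Subgroup.zpowers u) → commutator G ≠ ⊤ := by
    rintro ⟨ho, hsup, -⟩ hperf
    haveI hOn : (Cfsg.oddCore G).Normal := Cfsg.Agent.Lib.Helper7.pPrimeCore_normal 2 G
    have hcop : (Nat.card (Cfsg.oddCore G)).Coprime 2 :=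
      Cfsg.Agent.Lib.Helper7.pPrimeCore_coprime 2 G
    have hle : commutator G ≤ Cfsg.oddCore G := by
      rw [commutator_def, Subgroup.commutator_le]
      intro a _ b _
      have ha : a ∈ Subgroup.zpowers u ⊔ Cfsg.oddCore G := by rw [hsup]; exact Subgroup.mem_top a
      have hb : b ∈ Subgroup.zpowers u ⊔ Cfsg.oddCore G := by rw [hsup]; exact Subgroup.mem_top b
      rw [← SetLike.mem_coe, Subgroup.mul_normal] at ha hb
      obtain ⟨y, hy, z, hz, rfl⟩ := Set.mem_mul.mp ha
      obtain ⟨y', hy', z', hz', rfl⟩ := Set.mem_mul.mp hb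
      obtain ⟨i, rfl⟩ := Subgroup.mem_zpowers_iff.mp hy
      obtain ⟨j, rfl⟩ := Subgroup.mem_zpowers_iff.mp hy'
      have hza : (QuotientGroup.mk (u ^ i * z) : G ⧸ Cfsg.oddCore G) = (QuotientGroup.mk u) ^ i := by
        rw [QuotientGroup.mk_mul, (QuotientGroup.eq_one_iff z).mpr hz, mul_one,
          QuotientGroup.mk_zpow]
      have hzb : (QuotientGroup.mk (u ^ j * z') : G ⧸ Cfsg.oddCore G) = (QuotientGroup.mk u) ^ j := by
        rw [QuotientGroup.mk_mul, (QuotientGroup.eq_one_iff z').mpr hz', mul_one,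
          QuotientGroup.mk_zpow]
      have h1 : (QuotientGroup.mk ⁅u ^ i * z, u ^ j * z'⁆ : G ⧸ Cfsg.oddCore G) = 1 := by
        rw [← QuotientGroup.mk'_apply, map_commutatorElement, QuotientGroup.mk'_apply,
          QuotientGroup.mk'_apply, hza, hzb, commutatorElement_eq_one_iff_commute]
        exact Commute.zpow_zpow_self _ i j
      exact (QuotientGroup.eq_one_iff _).mp h1
    rw [hperf] at hle
    have htop : Cfsg.oddCore G = ⊤ := top_le_iff.mp hle
    have h2 : 2 ∣ Nat.card G := ho ▸ orderOf_dvd_natCard u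
    have h3 : Nat.card (Cfsg.oddCore G) = Nat.card G := by rw [htop]; exact Subgroup.card_top
    rw [h3] at hcop
    have h4 : Nat.gcd (Nat.card G) 2 = 2 := Nat.gcd_eq_right h2
    rw [Nat.Coprime.gcd_eq_one hcop] at h4
    omega
  have hP4 : commutator G ≠ ⊤ → (orderOf u = 2 ∧ Subgroup.zpowers u ⊔ Cfsg.oddCore G = ⊤ ∧
      Subgroup.centralizer ({u} : Set G) = Subgroup.zpowers u) := by
    intro hperf
    have hc := hP1 hperf
    obtain ⟨lam, g₀, hg₀⟩ := hlin_ex hperf
    have hval : ∀ mu : G →* ℂˣ, (∃ g : G, mu g ≠ 1) → ((mu u : ℂˣ) : ℂ) = -1 := by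
      intro mu hmu
      have := hhom mu hmu
      rw [hc] at this
      linear_combination -this
    obtain ⟨χ₁, hχ₁⟩ : ∃ χ₁ : IrrCharacter G,
        χ₁ = ⟨fun x => ((lam x : ℂˣ) : ℂ), isIrrCharacter_of_hom lam⟩ := ⟨_, rfl⟩
    have hχ₁app : ∀ x : G, (χ₁ : G → ℂ) x = ((lam x : ℂˣ) : ℂ) := by intro x; rw [hχ₁]
    have h10 : χ₁ ≠ χ₀ := by
      intro h
      apply hg₀
      have := congrArg (fun χ : IrrCharacter G => (χ : G → ℂ) g₀) h
      simp only [hχ₁app, hχ₀app] at this
      exact Units.ext this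
    have hother : ∀ χ : IrrCharacter G, χ ≠ χ₀ → χ ≠ χ₁ → 2 ≤ d χ := by
      intro χ h0 h1
      by_contra hlt
      have hd1 : d χ = 1 := by have := hdpos χ; omega
      have hχ11 : (χ : G → ℂ) 1 = 1 := by rw [hd χ, hd1]; norm_num
      obtain ⟨mu, hmu⟩ := exists_hom_of_linear χ.2 hχ11
      have hmu1 : ∃ g : G, mu g ≠ 1 := by
        by_contra hcon
        push Not at hcon
        apply h0
        apply Subtype.ext
        funext g
        rw [hmu g, hcon g, hχ₀app]; rfl
      have hne : ∃ g : G, (lam * mu⁻¹) g ≠ 1 := by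
        by_contra hcon
        push Not at hcon
        apply h1
        apply Subtype.ext
        funext g
        have := hcon g
        rw [MonoidHom.mul_apply, MonoidHom.inv_apply, mul_inv_eq_one] at this
        rw [hmu g, hχ₁app, this]
      have h3 := hval (lam * mu⁻¹) hne
      rw [MonoidHom.mul_apply, MonoidHom.inv_apply, Units.val_mul, Units.val_inv_eq_inv_val,
        hval lam ⟨g₀, hg₀⟩, hval mu hmu1] at h3
      norm_num at h3
    obtain ⟨s, hs⟩ : ∃ s : Finset (IrrCharacter G), s = (Finset.univ.erase χ₀).erase χ₁ :=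
      ⟨_, rfl⟩
    have hmem1 : χ₁ ∈ Finset.univ.erase χ₀ := Finset.mem_erase.mpr ⟨h10, Finset.mem_univ _⟩
    have hsplit : ∀ f : IrrCharacter G → ℂ,
        ∑ χ : IrrCharacter G, f χ = f χ₀ + (f χ₁ + ∑ χ ∈ s, f χ) := by
      intro f
      rw [hs, Finset.add_sum_erase _ f hmem1, Finset.add_sum_erase _ f (Finset.mem_univ χ₀)]
    have hs_mem : ∀ χ ∈ s, χ ≠ χ₀ ∧ χ ≠ χ₁ := by
      intro χ hχ
      rw [hs] at hχ
      have h1 := Finset.mem_erase.mp hχ
      have h2 := Finset.mem_erase.mp h1.2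
      exact ⟨h2.1, h1.1⟩
    have hd0 : d χ₀ = 1 := by
      have : ((d χ₀ : ℕ) : ℂ) = ((1 : ℕ) : ℂ) := by rw [← hd χ₀, hχ₀app]; norm_num
      exact_mod_cast this
    have hd1 : d χ₁ = 1 := by
      have : ((d χ₁ : ℕ) : ℂ) = ((1 : ℕ) : ℂ) := by rw [← hd χ₁, hχ₁app, map_one]; norm_num
      exact_mod_cast this
    have hu1 : (χ₁ : G → ℂ) u = -1 := by rw [hχ₁app]; exact hval lam ⟨g₀, hg₀⟩
    have hsum_s : ∑ χ ∈ s, (χ : G → ℂ) u * (d χ : ℂ) = 0 := by
      have := hsplit (fun χ => (χ : G → ℂ) u * (d χ : ℂ))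
      rw [hO', hχ₀app, hd0, hu1, hd1] at this
      push_cast at this
      linear_combination -this
    have hr : ∀ χ : IrrCharacter G, ∃ r : ℝ, (χ ≠ χ₀ → χ ≠ χ₁ →
        0 ≤ r ∧ (χ : G → ℂ) u * (d χ : ℂ) = (r : ℂ) ∧ (r = 0 → (χ : G → ℂ) u = 0)) := by
      intro χ
      by_cases h0 : χ = χ₀
      · exact ⟨0, fun h => absurd h0 h⟩
      by_cases h1 : χ = χ₁
      · exact ⟨0, fun _ h => absurd h1 h⟩
      have hd2 := hother χ h0 h1
      rcases hyp χ (hne0 χ h0) with h | h
      · have hχu : (χ : G → ℂ) u = (d χ : ℂ) - 2 := by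
          rw [← hd χ]; rw [hc] at h; linear_combination -h
        have h2le : (2 : ℝ) ≤ (d χ : ℝ) := by exact_mod_cast hd2
        refine ⟨((d χ : ℝ) - 2) * (d χ : ℝ), fun _ _ =>
          ⟨by nlinarith, by rw [hχu]; push_cast; ring, ?_⟩⟩
        intro hr0
        have h3 : (d χ : ℝ) - 2 = 0 := by
          rcases mul_eq_zero.mp hr0 with h' | h'
          · exact h'
          · linarith
        have h4 : (d χ : ℝ) = 2 := by linarith
        have h5 : d χ = 2 := by exact_mod_cast h4
        rw [hχu, h5]; norm_num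
      · exact ⟨0, fun _ _ => ⟨le_refl 0, by rw [h]; simp, fun _ => h⟩⟩
    choose r hr using hr
    have hvan : ∀ χ ∈ s, (χ : G → ℂ) u = 0 := by
      have hsumr : ∑ χ ∈ s, r χ = 0 := by
        have : ((∑ χ ∈ s, r χ : ℝ) : ℂ) = 0 := by
          push_cast
          rw [← hsum_s]
          apply Finset.sum_congr rfl
          intro χ hχ
          exact ((hr χ (hs_mem χ hχ).1 (hs_mem χ hχ).2).2.1).symm
        exact_mod_cast this
      have hall := (Finset.sum_eq_zero_iff_of_nonneg
        (fun χ hχ => (hr χ (hs_mem χ hχ).1 (hs_mem χ hχ).2).1)).mp hsumr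
      intro χ hχ
      exact (hr χ (hs_mem χ hχ).1 (hs_mem χ hχ).2).2.2 (hall χ hχ)
    have hcent : Nat.card (Subgroup.centralizer ({u} : Set G)) = 2 := by
      have h := second_orthogonality (G := G) u u
      rw [if_pos (IsConj.refl u), hsplit, hχ₀app, hu1] at h
      have hz : ∑ χ ∈ s, (χ : G → ℂ) u * conj ((χ : G → ℂ) u) = 0 :=
        Finset.sum_eq_zero (fun χ hχ => by rw [hvan χ hχ, zero_mul])
      rw [hz] at h
      have : ((Nat.card (Subgroup.centralizer ({u} : Set G)) : ℕ) : ℂ) = ((2 : ℕ) : ℂ) := by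
        rw [← h]; norm_num [map_neg, map_one]
      exact_mod_cast this
    have hzle : Subgroup.zpowers u ≤ Subgroup.centralizer ({u} : Set G) := by
      rw [Subgroup.zpowers_le]; exact Subgroup.mem_centralizer_singleton_iff.mpr rfl
    have hord : orderOf u = 2 := by
      have h1 : orderOf u ∣ 2 := by
        rw [← hcent, ← Nat.card_zpowers]
        exact Subgroup.card_dvd_of_le hzle
      have h2 : orderOf u ≠ 1 := fun h => hu (orderOf_eq_one_iff.mp h)
      rcases (Nat.dvd_prime Nat.prime_two).mp h1 with h | h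
      · exact absurd h h2
      · exact h
    have hceq : Subgroup.centralizer ({u} : Set G) = Subgroup.zpowers u := by
      symm
      apply Subgroup.eq_of_le_of_card_ge hzle
      rw [hcent, Nat.card_zpowers, hord]
    refine ⟨hord, ?_, hceq⟩
    haveI : Fact (Nat.Prime 2) := ⟨Nat.prime_two⟩
    have hpz : IsPGroup 2 (Subgroup.zpowers u) := by
      apply IsPGroup.of_card (n := 1)
      rw [Nat.card_zpowers, hord, pow_one]
    obtain ⟨S, hS⟩ := hpz.exists_le_sylow
    have huS : u ∈ (S : Subgroup G) := hS (Subgroup.mem_zpowers u)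
    have hu2 : u ^ (2 : ℤ) = 1 := by
      have := pow_orderOf_eq_one u
      rw [hord] at this
      exact_mod_cast this
    have hSeq : (S : Subgroup G) = Subgroup.zpowers u := by
      apply le_antisymm _ hS
      haveI : Nontrivial ↥(S : Subgroup G) :=
        ⟨⟨⟨u, huS⟩, 1, fun h => hu (congrArg Subtype.val h)⟩⟩
      haveI := IsPGroup.center_nontrivial S.2
      obtain ⟨z, hz⟩ := exists_ne (1 : Subgroup.center ↥(S : Subgroup G))
      have hzu : ((z : ↥(S : Subgroup G)) : G) ∈ Subgroup.centralizer ({u} : Set G) := by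
        rw [Subgroup.mem_centralizer_singleton_iff]
        have := Subgroup.mem_center_iff.mp z.2 ⟨u, huS⟩
        exact (congrArg Subtype.val this).symm
      rw [hceq] at hzu
      have hzval : ((z : ↥(S : Subgroup G)) : G) = u := by
        obtain ⟨k, hk⟩ := Subgroup.mem_zpowers_iff.mp hzu
        rcases Int.emod_two_eq_zero_or_one k with h | h
        · exfalso
          apply hz
          apply Subtype.ext
          apply Subtype.ext
          show ((z : ↥(S : Subgroup G)) : G) = 1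
          rw [← hk]
          obtain ⟨m, hm⟩ : ∃ m, k = 2 * m := ⟨k / 2, by omega⟩
          rw [hm, zpow_mul, hu2, one_zpow]
        · rw [← hk]
          obtain ⟨m, hm⟩ : ∃ m, k = 2 * m + 1 := ⟨k / 2, by omega⟩
          rw [hm, zpow_add, zpow_mul, hu2, one_zpow, one_mul, zpow_one]
      intro x hx
      rw [← hceq, Subgroup.mem_centralizer_singleton_iff]
      have := Subgroup.mem_center_iff.mp z.2 ⟨x, hx⟩
      have h' := congrArg Subtype.val this
      rw [Subgroup.coe_mul, Subgroup.coe_mul, hzval] at h'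
      exact h'
    have hcyc : IsCyclic (S : Subgroup G) := by rw [hSeq]; infer_instance
    obtain ⟨N, hNn, hNc, hNodd⟩ := cyc_syl2_complement S hcyc
    have hNcop : (Nat.card N).Coprime 2 := by
      apply Nat.Coprime.symm
      rw [Nat.Prime.coprime_iff_not_dvd Nat.prime_two]
      intro h2
      obtain ⟨x, hx⟩ := exists_prime_orderOf_dvd_card' 2 h2
      have h3 := (hNodd (x : G)).mp x.2
      rw [Subgroup.orderOf_coe, hx] at h3
      exact absurd h3 (by decide)
    have hNle : N ≤ Cfsg.oddCore G := Cfsg.Agent.Lib.Helper7.le_pPrimeCore hNn hNcop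
    have hsup : Subgroup.zpowers u ⊔ N = ⊤ := by
      rw [← hSeq, sup_comm]
      exact hNc.sup_eq_top
    have hfin : Subgroup.zpowers u ⊔ N ≤ Subgroup.zpowers u ⊔ Cfsg.oddCore G :=
      sup_le_sup_left hNle _
    rw [hsup] at hfin
    exact top_le_iff.mp hfin
  exact ⟨⟨hP3, hP4⟩, ⟨hP1, hP2⟩⟩

end Cfsg.Agent.S4757
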