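import Cfsg.Statements.S4762
import Cfsg.Agent.Lib.Lead.CharSpecial
import Cfsg.Agent.Lib.Lead.CharCenter
import Cfsg.Agent.Lib.Lead.CharCentral2
import Cfsg.Agent.Lib.Lead.CharKer
import Cfsg.Agent.Lib.Lead.CharLin
import Cfsg.Agent.Lib.Lead.CharMore
import Cfsg.Agent.Lib.Lead.CharAbQuot
import Cfsg.Agent.Lib.Lead.CharApps
import Cfsg.Agent.Lib.Lead.CharMGroup
import Cfsg.Agent.Lib.Lead.CharCodeg
import Cfsg.Agent.Lib.Lead.CharDeg
import Cfsg.Agent.Lib.Lead.CharRing
import Cfsg.Agent.Lib.Lead.CharBurnside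
import Cfsg.Agent.Lib.Helper2.PGroup
import Cfsg.Agent.Lib.Helper7.PCore

set_option autoImplicit false
set_option maxHeartbeats 800000
open Cfsg

namespace Cfsg.Agent.S4762

open Cfsg.Agent.Lib.Lead
open scoped ComplexConjugate

theorem nu_char_degree_dvd_index_center {G : Type*} [Group G] [Finite G] (χ : IrrCharacter G)
    (n : ℕ) (h : (χ : G → ℂ) 1 = (n : ℂ)) : n ∣ (Subgroup.center G).index := by
  obtain ⟨m, ρ, hirr, hρ⟩ := χ.2
  haveI := hirr
  have hone : (χ : G → ℂ) 1 = (m : ℂ) := by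
    rw [← hρ, Representation.char_one]; simp
  have hdvd : m ∣ (Subgroup.center G).index := by
    have := degree_dvd_index_of_scalar ρ (Subgroup.center G) (fun a ha => by
      obtain ⟨c, hc, -⟩ := exists_central_scalar ρ a ha
      exact ⟨c, hc⟩)
    rwa [Module.finrank_fin_fun] at this
  have : n = m := by
    rw [hone] at h; exact_mod_cast h.symm
  rwa [this]

theorem nu_char_degree_sq_le {G : Type*} [Group G] [Finite G] (χ : IrrCharacter G)
    (n : ℕ) (h : (χ : G → ℂ) 1 = (n : ℂ)) :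
    n ^ 2 * Nat.card (Subgroup.center G) ≤ Nat.card G := by
  letI : Fintype G := Fintype.ofFinite G
  obtain ⟨m, ρ, hirr, hρ⟩ := χ.2
  haveI := hirr
  have hone : (χ : G → ℂ) 1 = (m : ℂ) := by
    rw [← hρ, Representation.char_one]; simp
  have hle : m ^ 2 * Nat.card (Subgroup.center G) ≤ Nat.card G := by
    have := degree_sq_mul_card_le_of_scalar ρ (Subgroup.center G) (fun a ha => by
      obtain ⟨c, hc, -⟩ := exists_central_scalar ρ a ha
      exact ⟨c, hc⟩)
    rwa [Module.finrank_fin_fun] at this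
  have : n = m := by
    rw [hone] at h; exact_mod_cast h.symm
  rwa [this]

theorem nu_unit_sq_one {u : ℂˣ} (h : u * u = 1) (h1 : u ≠ 1) : (u : ℂ) = -1 := by
  have h2 : (u : ℂ) * (u : ℂ) = 1 := by rw [← Units.val_mul, h, Units.val_one]
  have h3 : ((u : ℂ) - 1) * ((u : ℂ) + 1) = 0 := by linear_combination h2
  rcases mul_eq_zero.mp h3 with h4 | h4
  · exfalso
    apply h1
    apply Units.ext
    rw [Units.val_one]
    linear_combination h4
  · linear_combination h4

/-- Linear characters separate elements outside the derived subgroup. -/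
theorem nu_sep_linear {G : Type*} [Group G] [Finite G] (g : G) (hg : g ∉ commutator G) :
    ∃ lam : G →* ℂˣ, lam g ≠ 1 := by
  classical
  letI : Fintype (Abelianization G) := Fintype.ofFinite _
  haveI : Finite (IrrCharacter (Abelianization G)) := irr_finite
  letI : Fintype (IrrCharacter (Abelianization G)) := Fintype.ofFinite _
  have hall := (comm_iff_all_degree_one (G := Abelianization G)).mp (fun a b => mul_comm a b)
  have hne : Abelianization.of g ≠ 1 := by
    intro h
    apply hg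
    have h1 : g ∈ (Abelianization.of : G →* Abelianization G).ker := MonoidHom.mem_ker.mpr h
    rwa [Abelianization.ker_of] at h1
  have h := second_orthogonality (G := Abelianization G) (Abelianization.of g) 1
  rw [if_neg (by rw [isConj_one_left]; exact hne)] at h
  by_contra hcon
  push Not at hcon
  have hval : ∀ φ : IrrCharacter (Abelianization G),
      (φ : Abelianization G → ℂ) (Abelianization.of g) = 1 := by
    intro φ
    obtain ⟨mu, hmu⟩ := exists_hom_of_linear φ.2 (hall φ)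
    have h1 := hcon (mu.comp Abelianization.of)
    rw [MonoidHom.comp_apply] at h1
    rw [hmu, h1, Units.val_one]
  have hsum : ∑ φ : IrrCharacter (Abelianization G),
      (φ : Abelianization G → ℂ) (Abelianization.of g) *
        conj ((φ : Abelianization G → ℂ) 1) =
      (Fintype.card (IrrCharacter (Abelianization G)) : ℂ) := by
    rw [Finset.sum_congr rfl (fun φ _ => by rw [hval φ, hall φ, map_one, mul_one])]
    rw [Finset.sum_const, Finset.card_univ, nsmul_eq_mul, mul_one]
  rw [hsum] at h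
  haveI : Nonempty (IrrCharacter (Abelianization G)) := ⟨⟨_, isIrrCharacter_one _⟩⟩
  have hpos : 0 < Fintype.card (IrrCharacter (Abelianization G)) := Fintype.card_pos
  have h0 : Fintype.card (IrrCharacter (Abelianization G)) = 0 := by exact_mod_cast h
  omega

theorem nu_extraspecial_count {G : Type*} [Group G] [Finite G]
    (hes : Cfsg.IsExtraspecial 2 G) :
    Nat.card {χ : Cfsg.IrrCharacter G // 2 ∣ Cfsg.charDegree (χ : G → ℂ)} = 1 := by
  classical
  obtain ⟨⟨h2G, -, hcomm⟩, hZ2⟩ := hes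
  letI : Fintype G := Fintype.ofFinite G
  haveI : Finite (IrrCharacter G) := irr_finite
  letI : Fintype (IrrCharacter G) := Fintype.ofFinite _
  obtain ⟨z', hz'1, hz'u⟩ := (Nat.card_eq_two_iff' (1 : Subgroup.center G)).mp hZ2
  obtain ⟨z, hz⟩ : ∃ z : G, z = (z' : G) := ⟨_, rfl⟩
  have hzZ : z ∈ Subgroup.center G := by rw [hz]; exact z'.2
  have hz1 : z ≠ 1 := by
    rw [hz]
    intro h
    exact hz'1 (Subtype.ext h)
  have hZall : ∀ w ∈ Subgroup.center G, w ≠ 1 → w = z := by
    intro w hw hw1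
    have h1 := hz'u ⟨w, hw⟩ (by intro h; exact hw1 (congrArg Subtype.val h))
    rw [hz, ← h1]
  have hzz : z * z = 1 := by
    by_contra h
    have h1 := hZall (z * z) (Subgroup.mul_mem _ hzZ hzZ) h
    have h2 : z * z = z * 1 := by rw [h1, mul_one]
    exact hz1 (mul_left_cancel h2)
  obtain ⟨d, hd⟩ : ∃ d : IrrCharacter G → ℕ, ∀ χ, d χ = Cfsg.charDegree (χ : G → ℂ) :=
    ⟨_, fun χ => rfl⟩
  have hd1 : ∀ χ : IrrCharacter G, (χ : G → ℂ) 1 = (d χ : ℂ) := fun χ => by
    rw [hd]; exact isIrrCharacter_one_eq_charDegree χ.2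
  have hdpos : ∀ χ : IrrCharacter G, 1 ≤ d χ := fun χ => by
    rw [hd]; exact charDegree_pos_of_irr χ.2
  have hcex : ∀ χ : IrrCharacter G, ∃ c : ℂ, (c = 1 ∨ c = -1) ∧
      ∀ g : G, (χ : G → ℂ) (g * z) = c * (χ : G → ℂ) g := by
    intro χ
    obtain ⟨c, hc⟩ := irr_central_scalar χ z hzZ
    refine ⟨c, ?_, hc⟩
    have h1 := hc 1
    have h2 := hc z
    rw [one_mul] at h1
    rw [hzz, h1, hd1 χ] at h2
    have hdne : (d χ : ℂ) ≠ 0 := by
      have := hdpos χ
      exact_mod_cast (by omega : d χ ≠ 0)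
    have h3 : (c - 1) * (c + 1) = 0 := by
      have h4 : (d χ : ℂ) * ((c - 1) * (c + 1)) = 0 := by linear_combination -h2
      rcases mul_eq_zero.mp h4 with h | h
      · exact absurd h hdne
      · exact h
    rcases mul_eq_zero.mp h3 with h | h
    · left; linear_combination h
    · right; linear_combination h
  choose c hc1 hc using hcex
  have hvan : ∀ χ : IrrCharacter G, c χ = -1 → ∀ g : G, g ≠ 1 → g ≠ z →
      (χ : G → ℂ) g = 0 := by
    intro χ hcχ g hg1 hgz
    have hgZ : g ∉ Subgroup.center G := by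
      intro h
      exact hgz (hZall g h hg1)
    rw [Subgroup.mem_center_iff] at hgZ
    push Not at hgZ
    obtain ⟨x, hx⟩ := hgZ
    have hw : x * g * x⁻¹ * g⁻¹ ∈ Subgroup.center G := by
      rw [← hcomm, commutator_def]
      have h1 := Subgroup.commutator_mem_commutator (H₁ := ⊤) (H₂ := ⊤)
        (Subgroup.mem_top x) (Subgroup.mem_top g)
      rwa [commutatorElement_def] at h1
    have hw1 : x * g * x⁻¹ * g⁻¹ ≠ 1 := by
      intro h
      apply hx
      have h2 : x * g = (x * g * x⁻¹ * g⁻¹) * (g * x) := by group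
      rw [h2, h, one_mul]
    have hwz := hZall _ hw hw1
    have hconj : x * g * x⁻¹ = g * z := by
      rw [← hwz, Subgroup.mem_center_iff.mp hw g]
      group
    have h1 : (χ : G → ℂ) (x * g * x⁻¹) = (χ : G → ℂ) g :=
      isClassFunction_of_isCharacter (isCharacter_of_isIrrCharacter χ.2) g x
    rw [hconj, hc χ g, hcχ] at h1
    have h2 : (2 : ℂ) * (χ : G → ℂ) g = 0 := by linear_combination -h1
    rcases mul_eq_zero.mp h2 with h | h
    · norm_num at h
    · exact h
  have hdeg : ∀ χ : IrrCharacter G, c χ = -1 → 2 * d χ ^ 2 = Nat.card G := by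
    intro χ hcχ
    have h1 := irr_orthonormal χ.2 χ.2
    rw [if_pos rfl] at h1
    unfold classInner at h1
    have hG0 : (Nat.card G : ℂ) ≠ 0 := by
      exact_mod_cast (Nat.card_pos (α := G)).ne'
    have h2 : ∑ g : G, (χ : G → ℂ) g * conj ((χ : G → ℂ) g) = (Nat.card G : ℂ) := by
      have h3 : (Nat.card G : ℂ) * ((Nat.card G : ℂ)⁻¹ *
          ∑ g : G, (χ : G → ℂ) g * conj ((χ : G → ℂ) g)) = (Nat.card G : ℂ) * 1 := by
        rw [h1]
      rw [← mul_assoc, mul_inv_cancel₀ hG0, one_mul, mul_one] at h3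
      exact h3
    have h3 : ∑ g : G, (χ : G → ℂ) g * conj ((χ : G → ℂ) g) =
        ∑ g ∈ ({1, z} : Finset G), (χ : G → ℂ) g * conj ((χ : G → ℂ) g) := by
      symm
      apply Finset.sum_subset (Finset.subset_univ _)
      intro g _ hg
      rw [Finset.mem_insert, Finset.mem_singleton] at hg
      push Not at hg
      rw [hvan χ hcχ g hg.1 hg.2, zero_mul]
    rw [h3, Finset.sum_pair (Ne.symm hz1)] at h2
    have hχz : (χ : G → ℂ) z = -(d χ : ℂ) := by
      have h4 := hc χ 1
      rw [one_mul, hcχ, hd1 χ] at h4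
      rw [h4]; ring
    rw [hd1 χ, hχz, map_neg, Complex.conj_natCast] at h2
    have h4 : ((2 * d χ ^ 2 : ℕ) : ℂ) = (Nat.card G : ℂ) := by
      push_cast
      linear_combination h2
    exact_mod_cast h4
  have hE1 : ∑ χ : IrrCharacter G, d χ ^ 2 = Nat.card G := by
    have h := sum_sq_degree (G := G)
    have h' : ((∑ χ : IrrCharacter G, d χ ^ 2 : ℕ) : ℂ) = (Nat.card G : ℂ) := by
      rw [← h]
      push_cast
      apply Finset.sum_congr rfl
      intro χ _
      rw [hd1 χ]
    exact_mod_cast h'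
  have hE2 : ∑ χ : IrrCharacter G, c χ * (d χ : ℂ) ^ 2 = 0 := by
    have h := second_orthogonality (G := G) z 1
    rw [if_neg (by rw [isConj_one_left]; exact hz1)] at h
    rw [← h]
    apply Finset.sum_congr rfl
    intro χ _
    have hχz := hc χ 1
    rw [one_mul] at hχz
    rw [hχz, hd1 χ, Complex.conj_natCast]
    ring
  obtain ⟨Sm, hSm⟩ : ∃ Sm : Finset (IrrCharacter G),
      Sm = Finset.univ.filter (fun χ => c χ = -1) := ⟨_, rfl⟩
  obtain ⟨Sp, hSp⟩ : ∃ Sp : Finset (IrrCharacter G),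
      Sp = Finset.univ.filter (fun χ => ¬ c χ = -1) := ⟨_, rfl⟩
  have hsplitN : ∑ χ ∈ Sm, d χ ^ 2 + ∑ χ ∈ Sp, d χ ^ 2 = Nat.card G := by
    rw [hSm, hSp, Finset.sum_filter_add_sum_filter_not, hE1]
  have hsplitC : ((∑ χ ∈ Sp, d χ ^ 2 : ℕ) : ℂ) = ((∑ χ ∈ Sm, d χ ^ 2 : ℕ) : ℂ) := by
    have h := hE2
    rw [← Finset.sum_filter_add_sum_filter_not Finset.univ (fun χ => c χ = -1)] at h
    have h1 : ∑ χ ∈ Finset.univ.filter (fun χ => c χ = -1), c χ * (d χ : ℂ) ^ 2 =
        -((∑ χ ∈ Sm, d χ ^ 2 : ℕ) : ℂ) := by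
      rw [hSm]
      push_cast
      rw [← Finset.sum_neg_distrib]
      apply Finset.sum_congr rfl
      intro χ hχ
      rw [(Finset.mem_filter.mp hχ).2]
      ring
    have h2 : ∑ χ ∈ Finset.univ.filter (fun χ => ¬ c χ = -1), c χ * (d χ : ℂ) ^ 2 =
        ((∑ χ ∈ Sp, d χ ^ 2 : ℕ) : ℂ) := by
      rw [hSp]
      push_cast
      apply Finset.sum_congr rfl
      intro χ hχ
      have h3 := (Finset.mem_filter.mp hχ).2
      rcases hc1 χ with h4 | h4
      · rw [h4]; ring
      · exact absurd h4 h3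
    rw [h1, h2] at h
    linear_combination h
  have hAB : ∑ χ ∈ Sp, d χ ^ 2 = ∑ χ ∈ Sm, d χ ^ 2 := by exact_mod_cast hsplitC
  have h2B : 2 * ∑ χ ∈ Sm, d χ ^ 2 = Nat.card G := by omega
  have hSmcard : Sm.card * Nat.card G = Nat.card G := by
    have h1 : ∑ χ ∈ Sm, 2 * d χ ^ 2 = Sm.card * Nat.card G := by
      rw [Finset.sum_congr rfl (fun χ hχ => hdeg χ (by
        rw [hSm] at hχ; exact (Finset.mem_filter.mp hχ).2))]
      rw [Finset.sum_const, smul_eq_mul]
    rw [← h1, ← Finset.mul_sum]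
    exact h2B
  have hSm1 : Sm.card = 1 := by
    have hpos : 0 < Nat.card G := Nat.card_pos
    exact Nat.eq_of_mul_eq_mul_right hpos (by rw [hSmcard, one_mul])
  have hlin_not_Sm : ∀ χ : IrrCharacter G, c χ = -1 → d χ ≠ 1 := by
    intro χ hcχ hd1'
    have hχ1 : (χ : G → ℂ) 1 = 1 := by rw [hd1 χ, hd1']; simp
    obtain ⟨lam, hlam⟩ := exists_hom_of_linear χ.2 hχ1
    have hzker : z ∈ lam.ker :=
      Abelianization.commutator_subset_ker lam (by rw [hcomm]; exact hzZ)
    have h1 : (χ : G → ℂ) z = 1 := by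
      rw [hlam z, MonoidHom.mem_ker.mp hzker, Units.val_one]
    have h2 := hc χ 1
    rw [one_mul, hcχ, hχ1, h1] at h2
    norm_num at h2
  have heven : ∀ χ : IrrCharacter G, c χ = -1 → 2 ∣ d χ := by
    intro χ hcχ
    obtain ⟨k, hk⟩ := IsPGroup.iff_card.mp h2G
    have hdG : d χ ∣ Nat.card G := irr_degree_dvd_card χ _ (hd1 χ)
    rw [hk] at hdG
    obtain ⟨j, -, hj⟩ := (Nat.dvd_prime_pow Nat.prime_two).mp hdG
    have hj0 : j ≠ 0 := by
      intro h0
      rw [h0, pow_zero] at hj
      exact hlin_not_Sm χ hcχ hj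
    rw [hj]
    exact dvd_pow_self 2 hj0
  obtain ⟨L, hL⟩ : ∃ L : Finset (IrrCharacter G),
      L = Finset.univ.filter (fun χ : IrrCharacter G => (χ : G → ℂ) 1 = 1) := ⟨_, rfl⟩
  have hLd : ∀ χ ∈ L, d χ = 1 := by
    intro χ hχ
    rw [hL] at hχ
    have hχ1 := (Finset.mem_filter.mp hχ).2
    have h1 : (d χ : ℂ) = 1 := by rw [← hd1 χ]; exact hχ1
    exact_mod_cast h1
  have hLcard : 2 * L.card = Nat.card G := by
    have h1 := card_linear_irr (G := G)
    rw [Nat.card_eq_fintype_card, Fintype.card_subtype] at h1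
    rw [hL, h1, hcomm, ← hZ2]
    exact Subgroup.card_mul_index _
  have hLSp : L ⊆ Sp := by
    intro χ hχ
    rw [hSp]
    exact Finset.mem_filter.mpr ⟨Finset.mem_univ _, fun hcχ => hlin_not_Sm χ hcχ (hLd χ hχ)⟩
  have hSpdeg : ∀ χ ∈ Sp, d χ = 1 := by
    intro χ₁ hχ₁
    by_contra hne
    have hnotL : χ₁ ∉ L := fun h => hne (hLd χ₁ h)
    have hsub : insert χ₁ L ⊆ Sp := Finset.insert_subset hχ₁ hLSp
    have h1 : ∑ χ ∈ insert χ₁ L, d χ ^ 2 ≤ ∑ χ ∈ Sp, d χ ^ 2 :=
      Finset.sum_le_sum_of_subset hsub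
    rw [Finset.sum_insert hnotL] at h1
    have h2 : ∑ χ ∈ L, d χ ^ 2 = L.card := by
      rw [Finset.card_eq_sum_ones]
      apply Finset.sum_congr rfl
      intro χ hχ
      rw [hLd χ hχ]
      norm_num
    have h3 : 1 ≤ d χ₁ ^ 2 := Nat.one_le_pow _ _ (hdpos χ₁)
    omega
  rw [Nat.card_eq_fintype_card, Fintype.card_subtype, ← hSm1, hSm]
  congr 1
  apply Finset.filter_congr
  intro χ _
  constructor
  · intro h2d
    by_contra hcχ
    have hχSp : χ ∈ Sp := by
      rw [hSp]; exact Finset.mem_filter.mpr ⟨Finset.mem_univ _, hcχ⟩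
    have h1 := hSpdeg χ hχSp
    rw [← hd, h1] at h2d
    norm_num at h2d
  · intro hcχ
    rw [← hd]
    exact heven χ hcχ

theorem nu_unique_to_extraspecial {G : Type*} [Group G] [Finite G] [Group.IsNilpotent G]
    (p : ℕ) [Fact p.Prime]
    (h : Nat.card {χ : Cfsg.IrrCharacter G // p ∣ Cfsg.charDegree (χ : G → ℂ)} = 1) :
    p = 2 ∧ Cfsg.IsExtraspecial 2 G := by
  classical
  have hp : p.Prime := Fact.out
  letI : Fintype G := Fintype.ofFinite G
  haveI : Finite (IrrCharacter G) := irr_finite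
  letI : Fintype (IrrCharacter G) := Fintype.ofFinite _
  obtain ⟨hsub, ⟨⟨χ₀, hχ₀⟩⟩⟩ := Nat.card_eq_one_iff_unique.mp h
  have huniq : ∀ χ : IrrCharacter G, p ∣ Cfsg.charDegree (χ : G → ℂ) → χ = χ₀ :=
    fun χ hχ => congrArg Subtype.val (hsub.elim ⟨χ, hχ⟩ ⟨χ₀, hχ₀⟩)
  obtain ⟨d₀, hd₀⟩ : ∃ d₀ : ℕ, d₀ = Cfsg.charDegree (χ₀ : G → ℂ) := ⟨_, rfl⟩
  have hχ₀1 : (χ₀ : G → ℂ) 1 = (d₀ : ℂ) := by
    rw [hd₀]; exact isIrrCharacter_one_eq_charDegree χ₀.2
  have hpd₀ : p ∣ d₀ := by rw [hd₀]; exact hχ₀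
  have hd₀G : d₀ ∣ Nat.card G := irr_degree_dvd_card χ₀ _ hχ₀1
  have hd₀pos : 0 < d₀ := by rw [hd₀]; exact charDegree_pos_of_irr χ₀.2
  -- multiplication by linear characters fixes χ₀
  have hlinmul : ∀ lam : G →* ℂˣ, ∀ g : G, (χ₀ : G → ℂ) g ≠ 0 → lam g = 1 := by
    intro lam g hg
    have hirr := isIrrCharacter_of_hom lam
    have hnorm : ∀ x : G, ‖(fun y => ((lam y : ℂˣ) : ℂ)) x‖ = 1 := by
      intro x
      have h1 : ((lam x : ℂˣ) : ℂ) ^ Nat.card G = 1 := by
        rw [← Units.val_pow_eq_pow_val, ← map_pow, pow_card_eq_one', map_one, Units.val_one]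
      exact Complex.norm_eq_one_of_pow_eq_one h1 Nat.card_pos.ne'
    have hmul := isIrrCharacter_mul_of_norm_one (isCharacter_of_isIrrCharacter hirr) hnorm χ₀.2
    have hdeg : Cfsg.charDegree ((fun y => ((lam y : ℂˣ) : ℂ)) * (χ₀ : G → ℂ)) = d₀ := by
      apply charDegree_of_one_eq
      rw [Pi.mul_apply, map_one, Units.val_one, one_mul, hχ₀1]
    have heq := huniq ⟨_, hmul⟩ (by
      show p ∣ Cfsg.charDegree ((fun y => ((lam y : ℂˣ) : ℂ)) * (χ₀ : G → ℂ))
      rw [hdeg]; exact hpd₀)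
    have h2 : ((lam g : ℂˣ) : ℂ) * (χ₀ : G → ℂ) g = (χ₀ : G → ℂ) g := by
      have h3 := congrFun (congrArg Subtype.val heq) g
      exact h3
    have h4 : ((lam g : ℂˣ) : ℂ) = 1 := by
      have h5 : (((lam g : ℂˣ) : ℂ) - 1) * (χ₀ : G → ℂ) g = 0 := by linear_combination h2
      rcases mul_eq_zero.mp h5 with h6 | h6
      · linear_combination h6
      · exact absurd h6 hg
    apply Units.ext
    rw [h4, Units.val_one]
  -- the p'-core and the Sylow p-subgroup
  obtain ⟨H, hH⟩ : ∃ H : Subgroup G, H = Cfsg.pPrimeCore p G := ⟨_, rfl⟩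
  haveI hHn : H.Normal := by rw [hH]; exact Cfsg.Agent.Lib.Helper7.pPrimeCore_normal p G
  have hHcop : (Nat.card H).Coprime p := by
    rw [hH]; exact Cfsg.Agent.Lib.Helper7.pPrimeCore_coprime p G
  obtain ⟨P⟩ : Nonempty (Sylow p G) := inferInstance
  have hPn : (P : Subgroup G).Normal := inferInstance
  have hHidx : ∃ a : ℕ, H.index = p ^ a := by
    refine ⟨_, Nat.eq_prime_pow_of_unique_prime_dvd Subgroup.index_ne_zero_of_finite ?_⟩
    intro q hq hqd
    by_contra hqp
    haveI : Fact q.Prime := ⟨hq⟩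
    obtain ⟨Q⟩ : Nonempty (Sylow q G) := inferInstance
    have hQle : (Q : Subgroup G) ≤ H := by
      rw [hH]
      apply Cfsg.Agent.Lib.Helper7.le_pPrimeCore inferInstance
      rw [Sylow.card_eq_multiplicity]
      exact Nat.Coprime.pow_left _ ((Nat.coprime_primes hq hp).mpr hqp)
    have h1 : q ^ (Nat.card G).factorization q ∣ Nat.card H := by
      rw [← Sylow.card_eq_multiplicity Q]
      exact Subgroup.card_dvd_of_le hQle
    have h2 : Nat.card H * H.index = Nat.card G := Subgroup.card_mul_index H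
    have h3 : q ^ ((Nat.card G).factorization q + 1) ∣ Nat.card G := by
      rw [pow_succ]
      calc q ^ (Nat.card G).factorization q * q ∣ Nat.card H * H.index :=
            Nat.mul_dvd_mul h1 hqd
        _ = Nat.card G := h2
    exact Nat.pow_succ_factorization_not_dvd Nat.card_pos.ne' hq h3
  have hPH : (P : Subgroup G) ⊓ H = ⊥ := by
    apply (Subgroup.disjoint_of_coprime_natCard _).eq_bot
    rw [Sylow.card_eq_multiplicity]
    exact Nat.Coprime.pow_left _ hHcop.symm
  have hsup : H ⊔ (P : Subgroup G) = ⊤ := by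
    rw [← Subgroup.index_eq_one]
    have h1 : (H ⊔ (P : Subgroup G)).index ∣ H.index := Subgroup.index_dvd_of_le le_sup_left
    have h2 : (H ⊔ (P : Subgroup G)).index ∣ (P : Subgroup G).index :=
      Subgroup.index_dvd_of_le le_sup_right
    obtain ⟨a, ha⟩ := hHidx
    rw [ha] at h1
    have h3 : ¬ p ∣ (P : Subgroup G).index := P.not_dvd_index
    obtain ⟨j, -, hj⟩ := (Nat.dvd_prime_pow hp).mp h1
    rcases Nat.eq_zero_or_pos j with h0 | hpos
    · rw [hj, h0, pow_zero]
    · exfalso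
      apply h3
      rw [hj] at h2
      exact (dvd_pow_self p hpos.ne').trans h2
  -- G ⧸ H is nonabelian
  have hnonab : ¬ commutator G ≤ H := by
    intro hle
    have hPc : (P : Subgroup G) ≤ Subgroup.center G := by
      intro x hx
      rw [Subgroup.mem_center_iff]
      intro g
      have h1 : g * x * g⁻¹ * x⁻¹ ∈ (P : Subgroup G) :=
        (P : Subgroup G).mul_mem (hPn.conj_mem x hx g) ((P : Subgroup G).inv_mem hx)
      have h2 : g * x * g⁻¹ * x⁻¹ ∈ H := hle (by
        rw [commutator_def]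
        have h3 := Subgroup.commutator_mem_commutator (H₁ := ⊤) (H₂ := ⊤)
          (Subgroup.mem_top g) (Subgroup.mem_top x)
        rwa [commutatorElement_def] at h3)
      have h3 : g * x * g⁻¹ * x⁻¹ ∈ (P : Subgroup G) ⊓ H := ⟨h1, h2⟩
      rw [hPH] at h3
      have h4 : g * x * g⁻¹ * x⁻¹ = 1 := Subgroup.mem_bot.mp h3
      calc g * x = (g * x * g⁻¹ * x⁻¹) * (x * g) := by group
        _ = x * g := by rw [h4, one_mul]
    have h5 : d₀ ∣ (Subgroup.center G).index := nu_char_degree_dvd_index_center χ₀ d₀ hχ₀1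
    have h6 := h5.trans (Subgroup.index_dvd_of_le hPc)
    exact P.not_dvd_index (hpd₀.trans h6)
  letI : Fintype (G ⧸ H) := Fintype.ofFinite _
  have hnc : ¬ ∀ a b : G ⧸ H, a * b = b * a := by
    intro hcomm
    apply hnonab
    rw [commutator_def, Subgroup.commutator_le]
    intro x _ y _
    rw [← QuotientGroup.eq_one_iff, commutatorElement_def]
    simp only [QuotientGroup.mk_mul, QuotientGroup.mk_inv]
    rw [hcomm (x : G ⧸ H) (y : G ⧸ H)]
    group
  rw [comm_iff_all_degree_one (G := G ⧸ H)] at hnc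
  push Not at hnc
  obtain ⟨φ₀, hφ₀⟩ := hnc
  obtain ⟨e, he⟩ : ∃ e : ℕ, e = Cfsg.charDegree (φ₀ : G ⧸ H → ℂ) := ⟨_, rfl⟩
  have hφ₀1 : (φ₀ : G ⧸ H → ℂ) 1 = (e : ℂ) := by
    rw [he]; exact isIrrCharacter_one_eq_charDegree φ₀.2
  have hpe : p ∣ e := by
    have h1 : e ∣ Nat.card (G ⧸ H) := irr_degree_dvd_card φ₀ _ hφ₀1
    obtain ⟨a, ha⟩ := hHidx
    rw [← Subgroup.index_eq_card, ha] at h1
    obtain ⟨j, -, hj⟩ := (Nat.dvd_prime_pow hp).mp h1
    have hj0 : j ≠ 0 := by
      intro h0
      rw [h0, pow_zero] at hj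
      apply hφ₀
      rw [hφ₀1, hj]; simp
    rw [hj]
    exact dvd_pow_self p hj0
  have hχ₁ : IsIrrCharacter G ((φ₀ : G ⧸ H → ℂ) ∘ (QuotientGroup.mk' H)) :=
    isIrrCharacter_comp_of_surjective φ₀.2 (QuotientGroup.mk' H) (QuotientGroup.mk'_surjective H)
  have hχ₁eq : (⟨_, hχ₁⟩ : IrrCharacter G) = χ₀ := by
    apply huniq
    have h1 : Cfsg.charDegree ((φ₀ : G ⧸ H → ℂ) ∘ (QuotientGroup.mk' H)) = e := by
      apply charDegree_of_one_eq
      rw [Function.comp_apply, map_one, hφ₀1]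
    show p ∣ Cfsg.charDegree ((φ₀ : G ⧸ H → ℂ) ∘ (QuotientGroup.mk' H))
    rw [h1]; exact hpe
  have hχ₀H : ∀ g ∈ H, (χ₀ : G → ℂ) g ≠ 0 := by
    intro g hg
    have h1 : (χ₀ : G → ℂ) g = (φ₀ : G ⧸ H → ℂ) (QuotientGroup.mk' H g) :=
      (congrFun (congrArg Subtype.val hχ₁eq) g).symm
    rw [h1, QuotientGroup.mk'_apply, (QuotientGroup.eq_one_iff g).mpr hg, hφ₀1]
    have he0 : e ≠ 0 := by
      intro h0; rw [h0] at hpe
      have h2 : (φ₀ : G ⧸ H → ℂ) 1 = 0 := by rw [hφ₀1, h0]; simp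
      have h3 := charDegree_pos_of_irr φ₀.2
      rw [← he, h0] at h3
      exact absurd h3 (lt_irrefl 0)
    exact_mod_cast he0
  have hHker : ∀ lam : G →* ℂˣ, ∀ g ∈ H, lam g = 1 :=
    fun lam g hg => hlinmul lam g (hχ₀H g hg)
  -- G ⧸ P is trivial
  have hBtriv : Subsingleton (G ⧸ (P : Subgroup G)) := by
    by_contra hns
    rw [not_subsingleton_iff_nontrivial] at hns
    letI : Fintype (G ⧸ (P : Subgroup G)) := Fintype.ofFinite _
    haveI : Finite (IrrCharacter (G ⧸ (P : Subgroup G))) := irr_finite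
    have hlt := Group.IsSolvable.commutator_lt_top_of_nontrivial (G ⧸ (P : Subgroup G))
    have hcl := card_linear_irr (G := G ⧸ (P : Subgroup G))
    have key : ∀ θ : IrrCharacter (G ⧸ (P : Subgroup G)),
        (θ : G ⧸ (P : Subgroup G) → ℂ) 1 = 1 → ∀ b, (θ : G ⧸ (P : Subgroup G) → ℂ) b = 1 := by
      intro θ hθ b
      obtain ⟨mu, hmu⟩ := exists_hom_of_linear θ.2 hθ
      obtain ⟨g, rfl⟩ := QuotientGroup.mk_surjective b
      have hker : (mu.comp (QuotientGroup.mk' (P : Subgroup G))).ker = ⊤ := by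
        rw [eq_top_iff, ← hsup, sup_le_iff]
        constructor
        · intro x hx
          exact MonoidHom.mem_ker.mpr (hHker _ x hx)
        · intro x hx
          rw [MonoidHom.mem_ker, MonoidHom.comp_apply, QuotientGroup.mk'_apply,
            (QuotientGroup.eq_one_iff x).mpr hx, map_one]
      have h1 : mu (g : G ⧸ (P : Subgroup G)) = 1 := by
        have h2 : g ∈ (mu.comp (QuotientGroup.mk' (P : Subgroup G))).ker := by
          rw [hker]; trivial
        exact MonoidHom.mem_ker.mp h2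
      rw [hmu, h1, Units.val_one]
    have hss : Subsingleton {φ : IrrCharacter (G ⧸ (P : Subgroup G)) //
        (φ : G ⧸ (P : Subgroup G) → ℂ) 1 = 1} := by
      constructor
      rintro ⟨φ, hφ⟩ ⟨ψ, hψ⟩
      apply Subtype.ext
      apply Subtype.ext
      funext b
      rw [key φ hφ b, key ψ hψ b]
    have hcard1 := Finite.card_le_one_iff_subsingleton.mpr hss
    rw [hcl] at hcard1
    have hidx1 : (commutator (G ⧸ (P : Subgroup G))).index = 1 := by
      have h0 : (commutator (G ⧸ (P : Subgroup G))).index ≠ 0 :=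
        Subgroup.index_ne_zero_of_finite
      omega
    exact hlt.ne (Subgroup.index_eq_one.mp hidx1)
  have hPtop : (P : Subgroup G) = ⊤ := QuotientGroup.subgroup_eq_top_of_subsingleton _ hBtriv
  have ha0 : Nat.card G = p ^ (Nat.card G).factorization p := by
    have h5 := Sylow.card_eq_multiplicity P
    rw [hPtop, Subgroup.card_top] at h5
    exact h5
  obtain ⟨a, haa⟩ : ∃ a : ℕ, a = (Nat.card G).factorization p := ⟨_, rfl⟩
  have ha : Nat.card G = p ^ a := by rw [haa]; exact ha0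
  have hpG : IsPGroup p G := IsPGroup.of_card ha
  -- all other characters are linear
  have hlin : ∀ χ : IrrCharacter G, χ ≠ χ₀ → (χ : G → ℂ) 1 = 1 := by
    intro χ hne
    have hdG : Cfsg.charDegree (χ : G → ℂ) ∣ Nat.card G :=
      irr_degree_dvd_card χ _ (isIrrCharacter_one_eq_charDegree χ.2)
    rw [ha] at hdG
    obtain ⟨j, -, hj⟩ := (Nat.dvd_prime_pow hp).mp hdG
    have hj0 : j = 0 := by
      by_contra h0
      exact hne (huniq χ (by rw [hj]; exact dvd_pow_self p h0))
    rw [isIrrCharacter_one_eq_charDegree χ.2, hj, hj0, pow_zero]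
    simp
  have hd₀ne1 : d₀ ≠ 1 := by
    intro h1
    rw [h1] at hpd₀
    exact hp.one_lt.ne' (Nat.dvd_one.mp hpd₀)
  obtain ⟨m, hm⟩ : ∃ m : ℕ, m = (commutator G).index := ⟨_, rfl⟩
  have hcount : d₀ ^ 2 + m = Nat.card G := by
    have hsum := sum_sq_degree (G := G)
    have hcl := card_linear_irr (G := G)
    rw [Nat.card_eq_fintype_card, Fintype.card_subtype] at hcl
    have hfilter : Finset.univ.filter (fun χ : IrrCharacter G => (χ : G → ℂ) 1 = 1) =
        Finset.univ.erase χ₀ := by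
      ext χ
      simp only [Finset.mem_filter, Finset.mem_univ, true_and, Finset.mem_erase, and_true]
      constructor
      · intro h1 heq
        rw [heq, hχ₀1] at h1
        apply hd₀ne1
        exact_mod_cast h1
      · exact hlin χ
    rw [hfilter] at hcl
    have h2 : ∑ χ : IrrCharacter G, (χ : G → ℂ) 1 ^ 2 =
        (d₀ : ℂ) ^ 2 + ((Finset.univ.erase χ₀).card : ℂ) := by
      rw [← Finset.add_sum_erase Finset.univ _ (Finset.mem_univ χ₀), hχ₀1]
      congr 1
      rw [Finset.card_eq_sum_ones, Nat.cast_sum]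
      apply Finset.sum_congr rfl
      intro χ hχ
      rw [hlin χ (Finset.ne_of_mem_erase hχ)]
      simp
    rw [h2, hcl, ← hm] at hsum
    exact_mod_cast hsum
  obtain ⟨cG, hcG⟩ : ∃ cG : ℕ, cG = Nat.card (commutator G) := ⟨_, rfl⟩
  have hcm : cG * m = Nat.card G := by rw [hcG, hm]; exact Subgroup.card_mul_index _
  obtain ⟨j, -, hj⟩ := (Nat.dvd_prime_pow hp).mp (ha ▸ hd₀G)
  have hc1 : 1 ≤ cG := by rw [hcG]; exact Nat.card_pos
  have hkey : d₀ ^ 2 = m * (cG - 1) := by
    have h1 : d₀ ^ 2 + m = cG * m := by rw [hcm]; exact hcount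
    obtain ⟨c', rfl⟩ : ∃ c', cG = c' + 1 := ⟨cG - 1, by omega⟩
    simp only [Nat.add_sub_cancel]
    nlinarith
  have h1 : (cG - 1) ∣ p ^ (2 * j) := by
    rw [pow_mul', ← hj, hkey]
    exact dvd_mul_left _ _
  obtain ⟨u, -, hu⟩ := (Nat.dvd_prime_pow hp).mp h1
  have h2 : cG ∣ p ^ a := by rw [← ha, ← hcm]; exact dvd_mul_right _ _
  obtain ⟨v, -, hv⟩ := (Nat.dvd_prime_pow hp).mp h2
  have hc2 : cG - 1 ≠ 0 := by
    intro h0
    rw [h0, mul_zero] at hkey
    have h3 : 0 < d₀ ^ 2 := pow_pos hd₀pos 2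
    omega
  have h3 : p ^ v = p ^ u + 1 := by rw [← hv, ← hu]; omega
  have hu0 : u = 0 := by
    by_contra hu0
    have hv0 : v ≠ 0 := by
      intro hv0
      rw [hv0, pow_zero] at h3
      have h4 : 0 < p ^ u := pow_pos hp.pos u
      omega
    have hdv1 : p ∣ p ^ v := dvd_pow_self p hv0
    have hdv2 : p ∣ p ^ u := dvd_pow_self p hu0
    rw [h3] at hdv1
    have h4 : p ∣ 1 := (Nat.dvd_add_right hdv2).mp hdv1
    exact hp.one_lt.ne' (Nat.dvd_one.mp h4)
  rw [hu0, pow_zero] at hu h3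
  have hcG2 : cG = 2 := by omega
  have hp2 : p = 2 := by
    have hv0 : v ≠ 0 := by
      intro hv0
      rw [hv0, pow_zero] at h3
      omega
    have h4 : p ∣ 2 := by
      have h5 := dvd_pow_self p hv0
      rw [h3] at h5
      exact h5
    exact (Nat.prime_dvd_prime_iff_eq hp Nat.prime_two).mp h4
  have hcomm2 : Nat.card (commutator G) = 2 := by rw [← hcG, hcG2]
  have hdm : d₀ ^ 2 = m := by rw [hkey, hu, mul_one]
  have h2m : 2 * m = Nat.card G := by rw [← hcm, hcG2]
  -- the derived subgroup is central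
  obtain ⟨w', hw'1, hw'u⟩ := (Nat.card_eq_two_iff' (1 : commutator G)).mp hcomm2
  have hGZ : commutator G ≤ Subgroup.center G := by
    intro x hx
    by_cases hx1 : x = 1
    · rw [hx1]; exact Subgroup.one_mem _
    rw [Subgroup.mem_center_iff]
    intro g
    have hconj : g * x * g⁻¹ ∈ commutator G :=
      (inferInstance : (commutator G).Normal).conj_mem x hx g
    have hne : g * x * g⁻¹ ≠ 1 := by
      intro h5
      apply hx1
      calc x = g⁻¹ * (g * x * g⁻¹) * g := by group
        _ = 1 := by rw [h5]; group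
    have e1 := hw'u ⟨x, hx⟩ (by intro h5; exact hx1 (congrArg Subtype.val h5))
    have e2 := hw'u ⟨g * x * g⁻¹, hconj⟩ (by intro h5; exact hne (congrArg Subtype.val h5))
    have e3 : g * x * g⁻¹ = x := congrArg Subtype.val (e2.trans e1.symm)
    calc g * x = (g * x * g⁻¹) * g := by group
      _ = x * g := by rw [e3]
  have hsqone : ∀ w ∈ commutator G, w * w = 1 := by
    intro w hw
    by_cases hw1 : w = 1
    · rw [hw1, one_mul]
    by_contra hww
    have e1 := hw'u ⟨w, hw⟩ (by intro h5; exact hw1 (congrArg Subtype.val h5))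
    have e2 := hw'u ⟨w * w, Subgroup.mul_mem _ hw hw⟩
      (by intro h5; exact hww (congrArg Subtype.val h5))
    have e3 : w * w = w := congrArg Subtype.val (e2.trans e1.symm)
    have e4 : w * w = w * 1 := by rw [e3, mul_one]
    exact hw1 (mul_left_cancel e4)
  have hZle : Nat.card (Subgroup.center G) ≤ 2 := by
    have h5 := nu_char_degree_sq_le χ₀ d₀ hχ₀1
    rw [hdm, ← h2m] at h5
    have hmpos : 0 < m := by
      rw [← hdm]; exact pow_pos hd₀pos 2
    have h6 : m * Nat.card (Subgroup.center G) ≤ m * 2 := by rw [mul_comm m 2]; exact h5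
    exact Nat.le_of_mul_le_mul_left h6 hmpos
  have hZeq : commutator G = Subgroup.center G :=
    Subgroup.eq_of_le_of_card_ge hGZ (by rw [hcomm2]; exact hZle)
  have hZ2 : Nat.card (Subgroup.center G) = 2 := by rw [← hZeq, hcomm2]
  subst hp2
  -- the Frattini subgroup
  have hfrat : frattini G = Subgroup.center G := by
    apply le_antisymm
    · intro g hgF
      by_contra hgZ
      rw [← hZeq] at hgZ
      obtain ⟨lam, hlam⟩ := nu_sep_linear g hgZ
      have hsq : ∀ x : G, lam x * lam x = 1 := by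
        intro x
        rw [← map_mul]
        have hxx : x * x ∈ commutator G := by
          rw [hZeq, Subgroup.mem_center_iff]
          intro y
          obtain ⟨w, hwdef⟩ : ∃ w : G, w = x * y * x⁻¹ * y⁻¹ := ⟨_, rfl⟩
          have hwmem : w ∈ commutator G := by
            rw [hwdef, commutator_def]
            have h5 := Subgroup.commutator_mem_commutator (H₁ := ⊤) (H₂ := ⊤)
              (Subgroup.mem_top x) (Subgroup.mem_top y)
            rwa [commutatorElement_def] at h5
          have hww := hsqone w hwmem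
          have hwc : ∀ t : G, t * w = w * t := Subgroup.mem_center_iff.mp (hGZ hwmem)
          have hw : x * y = w * (y * x) := by rw [hwdef]; group
          symm
          calc (x * x) * y = x * (x * y) := by rw [mul_assoc]
            _ = x * (w * (y * x)) := by rw [hw]
            _ = (x * w) * (y * x) := by rw [mul_assoc]
            _ = (w * x) * (y * x) := by rw [hwc x]
            _ = w * ((x * y) * x) := by simp only [mul_assoc]
            _ = w * ((w * (y * x)) * x) := by rw [hw]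
            _ = (w * w) * (y * (x * x)) := by simp only [mul_assoc]
            _ = y * (x * x) := by rw [hww, one_mul]
        exact MonoidHom.mem_ker.mp (Abelianization.commutator_subset_ker lam hxx)
      have hKne : lam.ker ≠ ⊤ := by
        intro h5
        apply hlam
        have h6 : g ∈ lam.ker := by rw [h5]; trivial
        exact MonoidHom.mem_ker.mp h6
      have hcoatom : IsCoatom lam.ker := by
        refine ⟨hKne, fun K' hlt => ?_⟩
        obtain ⟨k, hkK', hkK⟩ := SetLike.exists_of_lt hlt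
        rw [eq_top_iff]
        intro x _
        by_cases hx : x ∈ lam.ker
        · exact hlt.le hx
        · have hx' : lam x ≠ 1 := fun h5 => hx (MonoidHom.mem_ker.mpr h5)
          have hk' : lam k ≠ 1 := fun h5 => hkK (MonoidHom.mem_ker.mpr h5)
          have hxk : lam x = lam k :=
            Units.ext (by rw [nu_unit_sq_one (hsq x) hx', nu_unit_sq_one (hsq k) hk'])
          have h5 : x * k⁻¹ ∈ lam.ker := by
            rw [MonoidHom.mem_ker, map_mul, map_inv, hxk, mul_inv_cancel]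
          have h6 := K'.mul_mem (hlt.le h5) hkK'
          rwa [inv_mul_cancel_right] at h6
      exact hlam (MonoidHom.mem_ker.mp (frattini_le_coatom hcoatom hgF))
    · rw [← hZeq]
      exact Cfsg.Agent.Lib.Helper2.commutator_le_frattini_of_pGroup hpG
  exact ⟨rfl, ⟨hpG, hfrat, hZeq⟩, hZ2⟩

/-- Let p be a prime and G a finite nilpotent group. Then G has exactly one irreducible complex character of degree divisible by p if and only if p = 2 and G is an extraspecial 2-group. -/
theorem result {G : Type*} [Group G] [Finite G] [Group.IsNilpotent G] (p : ℕ) [Fact p.Prime] : Nat.card {χ : Cfsg.IrrCharacter G // p ∣ Cfsg.charDegree (χ : G → ℂ)} = 1 ↔ (p = 2 ∧ Cfsg.IsExtraspecial 2 G) := by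
  constructor
  · exact nu_unique_to_extraspecial p
  · rintro ⟨rfl, hes⟩
    exact nu_extraspecial_count hes

end Cfsg.Agent.S4762
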