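import Cfsg.Statements.S4784
import Cfsg.Agent.Lib.Lead.CharQuot

set_option autoImplicit false
open Cfsg

namespace Cfsg.Agent.S4784

open Cfsg.Agent.Lib.Lead Module in
open scoped ComplexConjugate in
theorem result {G : Type*} [Group G] [Fintype G] (H : Subgroup G) : Nat.card {χ : Cfsg.IrrCharacter G // Cfsg.classInner (Cfsg.indFun H (fun _ : H => (1 : ℂ))) (χ : G → ℂ) ≠ 0 ∧ (∀ g : G, (starRingEnd ℂ) ((χ : G → ℂ) g) = (χ : G → ℂ) g) ∧ (Nat.card G : ℂ)⁻¹ * ∑ g : G, (χ : G → ℂ) (g * g) = 1} = 1 ↔ Odd H.normalCore.index := by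
  classical
  letI : Fintype H := Fintype.ofFinite H
  haveI : Finite (IrrCharacter G) := irr_finite
  letI : Fintype (IrrCharacter G) := Fintype.ofFinite _
  have hπc : IsCharacter G (Cfsg.indFun H (fun _ : H => (1 : ℂ))) :=
    isCharacter_indFun H isCharacter_one
  let τ : IrrCharacter G := ⟨fun _ => 1, isIrrCharacter_one G⟩
  have hGne : (Nat.card G : ℂ) ≠ 0 := by
    have : Nat.card G ≠ 0 := Nat.card_pos.ne'
    exact_mod_cast this
  have hHne : (Nat.card H : ℂ) ≠ 0 := by
    have : Nat.card H ≠ 0 := Nat.card_pos.ne'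
    exact_mod_cast this
  have hπτ : classInner (Cfsg.indFun H (fun _ : H => (1 : ℂ))) (τ : G → ℂ) = 1 := by
    rw [Cfsg.Agent.Lib.Helper2.frobenius_reciprocity H _ _ (isClassFunction_irr τ)]
    have := irr_orthonormal (isIrrCharacter_one H) (isIrrCharacter_one H)
    rw [if_pos rfl] at this
    exact this
  have hτS : classInner (Cfsg.indFun H (fun _ : H => (1 : ℂ))) (τ : G → ℂ) ≠ 0 ∧
      (∀ g : G, (starRingEnd ℂ) ((τ : G → ℂ) g) = (τ : G → ℂ) g) ∧
      (Nat.card G : ℂ)⁻¹ * ∑ g : G, (τ : G → ℂ) (g * g) = 1 := by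
    refine ⟨by rw [hπτ]; exact one_ne_zero, fun g => by simp [τ], ?_⟩
    exact fsInd_one
  have hext : ∀ y : G, extendByZero H (fun _ : H => (1 : ℂ)) y = if y ∈ H then 1 else 0 := by
    intro y
    split_ifs with h
    · exact Cfsg.Agent.Lib.Helper2.extendByZero_mem H _ h
    · exact Cfsg.Agent.Lib.Helper2.extendByZero_not_mem H _ h
  have hsumπ : ∀ (φ : G → G), ∑ g : G, Cfsg.indFun H (fun _ : H => (1 : ℂ)) (φ g) =
      (Nat.card H : ℂ)⁻¹ *
        ((Finset.univ.filter (fun p : G × G => p.2⁻¹ * φ p.1 * p.2 ∈ H)).card : ℂ) := by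
    intro φ
    simp only [Cfsg.indFun, hext]
    rw [← Finset.mul_sum, Finset.card_filter, Nat.cast_sum, ← Finset.univ_product_univ,
      Finset.sum_product]
    congr 1
    apply Finset.sum_congr rfl; intro g _
    apply Finset.sum_congr rfl; intro x _
    split_ifs <;> simp
  constructor
  · intro hcard
    obtain ⟨hsub, -⟩ := Nat.card_eq_one_iff_unique.mp hcard
    by_contra hodd
    rw [Nat.not_odd_iff_even] at hodd
    have hex : ∃ x g : G, x⁻¹ * (g * g) * x ∈ H ∧ x⁻¹ * g * x ∉ H := by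
      by_contra hcon
      push Not at hcon
      haveI : Fact (Nat.Prime 2) := ⟨Nat.prime_two⟩
      have h2 : 2 ∣ Nat.card (G ⧸ H.normalCore) := by
        rw [← Subgroup.index_eq_card]; exact even_iff_two_dvd.mp hodd
      obtain ⟨q, hq⟩ := exists_prime_orderOf_dvd_card' 2 h2
      obtain ⟨g, rfl⟩ := QuotientGroup.mk_surjective q
      have hg2 : g * g ∈ H.normalCore := by
        have : (QuotientGroup.mk g : G ⧸ H.normalCore) ^ 2 = 1 := by
          rw [← hq]; exact pow_orderOf_eq_one _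
        rw [← QuotientGroup.mk_pow, QuotientGroup.eq_one_iff, pow_two] at this
        exact this
      have hgK : g ∈ H.normalCore := by
        intro b
        have h3 := hcon b⁻¹ g (by
          have := hg2 b
          simpa using this)
        simpa using h3
      have : (QuotientGroup.mk g : G ⧸ H.normalCore) = 1 := (QuotientGroup.eq_one_iff g).mpr hgK
      rw [this, orderOf_one] at hq
      norm_num at hq
    obtain ⟨x₀, g₀, hA₀, hB₀⟩ := hex
    -- counting
    have hBA : Finset.univ.filter (fun p : G × G => p.2⁻¹ * p.1 * p.2 ∈ H) ⊂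
        Finset.univ.filter (fun p : G × G => p.2⁻¹ * (p.1 * p.1) * p.2 ∈ H) := by
      rw [Finset.ssubset_iff_of_subset]
      · refine ⟨(g₀, x₀), ?_, ?_⟩
        · rw [Finset.mem_filter]; exact ⟨Finset.mem_univ _, hA₀⟩
        · rw [Finset.mem_filter]; exact fun h => hB₀ h.2
      · intro p hp
        rw [Finset.mem_filter] at hp ⊢
        refine ⟨Finset.mem_univ _, ?_⟩
        have : p.2⁻¹ * (p.1 * p.1) * p.2 = (p.2⁻¹ * p.1 * p.2) * (p.2⁻¹ * p.1 * p.2) := by group
        rw [this]; exact H.mul_mem hp.2 hp.2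
    have hlt := Finset.card_lt_card hBA
    -- B.card = |G| |H|
    have hB : ((Finset.univ.filter (fun p : G × G => p.2⁻¹ * p.1 * p.2 ∈ H)).card : ℂ) =
        (Nat.card G : ℂ) * (Nat.card H : ℂ) := by
      have h1 := hπτ
      unfold Cfsg.classInner at h1
      have h2 : ∑ g : G, Cfsg.indFun H (fun _ : H => (1 : ℂ)) g * conj ((τ : G → ℂ) g) =
          ∑ g : G, Cfsg.indFun H (fun _ : H => (1 : ℂ)) ((fun g => g) g) := by
        apply Finset.sum_congr rfl; intro g _; simp [τ]
      rw [h2, hsumπ (fun g => g)] at h1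
      field_simp at h1
      linear_combination h1
    -- multiplicities and indicators
    have hm : ∀ φ : IrrCharacter G, ∃ n : ℕ,
        classInner (Cfsg.indFun H (fun _ : H => (1 : ℂ))) φ = (n : ℂ) := fun φ =>
      classInner_isCharacter_nat hπc (isCharacter_of_isIrrCharacter φ.2)
    choose m hm using hm
    have hε : ∀ φ : IrrCharacter G, ∃ e : ℤ, fsInd (φ : G → ℂ) = (e : ℂ) ∧
        (e = 0 ∨ e = 1 ∨ e = -1) := by
      intro φ
      rcases (fsInd_trichotomy φ.2).1 with h | h | h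
      · exact ⟨0, by rw [h]; simp, Or.inl rfl⟩
      · exact ⟨1, by rw [h]; simp, Or.inr (Or.inl rfl)⟩
      · exact ⟨-1, by rw [h]; simp, Or.inr (Or.inr rfl)⟩
    choose ε hε1 hε2 using hε
    have hexp := expansion (Cfsg.indFun H (fun _ : H => (1 : ℂ)))
      (isClassFunction_of_isCharacter hπc)
    have hfs : fsInd (Cfsg.indFun H (fun _ : H => (1 : ℂ))) =
        ∑ φ : IrrCharacter G, (m φ : ℂ) * (ε φ : ℂ) := by
      conv_lhs => rw [hexp]
      rw [fsInd_sum_smul]
      apply Finset.sum_congr rfl; intro φ _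
      rw [hm, hε1]
    have hA : ((Finset.univ.filter (fun p : G × G => p.2⁻¹ * (p.1 * p.1) * p.2 ∈ H)).card : ℂ) =
        (Nat.card G : ℂ) * (Nat.card H : ℂ) * ∑ φ : IrrCharacter G, (m φ : ℂ) * (ε φ : ℂ) := by
      rw [← hfs]
      unfold fsInd
      rw [hsumπ (fun g => g * g)]
      field_simp
    have hAint : ((Finset.univ.filter
        (fun p : G × G => p.2⁻¹ * (p.1 * p.1) * p.2 ∈ H)).card : ℤ) =
        (Nat.card G : ℤ) * (Nat.card H : ℤ) * ∑ φ : IrrCharacter G, (m φ : ℤ) * ε φ := by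
      exact_mod_cast hA
    have hBint : ((Finset.univ.filter (fun p : G × G => p.2⁻¹ * p.1 * p.2 ∈ H)).card : ℤ) =
        (Nat.card G : ℤ) * (Nat.card H : ℤ) := by
      exact_mod_cast hB
    have hGH : (0 : ℤ) < (Nat.card G : ℤ) * (Nat.card H : ℤ) := by
      have h1 : 0 < Nat.card G := Nat.card_pos
      have h2 : 0 < Nat.card H := Nat.card_pos
      positivity
    have hsumgt : (1 : ℤ) < ∑ φ : IrrCharacter G, (m φ : ℤ) * ε φ := by
      have h1 : ((Finset.univ.filter (fun p : G × G => p.2⁻¹ * p.1 * p.2 ∈ H)).card : ℤ) <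
          ((Finset.univ.filter (fun p : G × G => p.2⁻¹ * (p.1 * p.1) * p.2 ∈ H)).card : ℤ) := by
        exact_mod_cast hlt
      rw [hAint, hBint] at h1
      by_contra hle
      push Not at hle
      nlinarith
    have hmτ : m τ = 1 := by
      have := hm τ
      rw [hπτ] at this
      exact_mod_cast this.symm
    have hετ : ε τ = 1 := by
      have h1 := hε1 τ
      have h2 : fsInd (τ : G → ℂ) = 1 := fsInd_one
      rw [h2] at h1
      exact_mod_cast h1.symm
    rw [← Finset.add_sum_erase Finset.univ _ (Finset.mem_univ τ), hmτ, hετ] at hsumgt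
    have hpos : (0 : ℤ) < ∑ φ ∈ Finset.univ.erase τ, (m φ : ℤ) * ε φ := by
      simp only [Nat.cast_one, mul_one] at hsumgt
      linarith
    obtain ⟨χ, hχmem, hχpos⟩ : ∃ φ ∈ Finset.univ.erase τ, (0 : ℤ) < (m φ : ℤ) * ε φ := by
      by_contra hcon
      push Not at hcon
      have := Finset.sum_nonpos hcon
      linarith
    have hχne : χ ≠ τ := (Finset.mem_erase.mp hχmem).1
    have hmχ : m χ ≠ 0 := by
      intro h; rw [h] at hχpos; simp at hχpos
    have hεχ : ε χ = 1 := by
      rcases hε2 χ with h | h | h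
      · rw [h] at hχpos; simp at hχpos
      · exact h
      · rw [h] at hχpos
        have : (0 : ℤ) ≤ (m χ : ℤ) := Int.natCast_nonneg _
        linarith
    have hχfs : fsInd (χ : G → ℂ) = 1 := by rw [hε1, hεχ]; simp
    have hχS : classInner (Cfsg.indFun H (fun _ : H => (1 : ℂ))) (χ : G → ℂ) ≠ 0 ∧
        (∀ g : G, (starRingEnd ℂ) ((χ : G → ℂ) g) = (χ : G → ℂ) g) ∧
        (Nat.card G : ℂ)⁻¹ * ∑ g : G, (χ : G → ℂ) (g * g) = 1 := by
      refine ⟨by rw [hm]; exact_mod_cast hmχ, ?_, hχfs⟩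
      intro g
      rw [Complex.conj_eq_iff_im]
      by_contra him
      have := (fsInd_trichotomy χ.2).2.mpr ⟨g, him⟩
      rw [hχfs] at this
      exact one_ne_zero this
    have := hsub.elim ⟨χ, hχS⟩ ⟨τ, hτS⟩
    exact hχne (congrArg Subtype.val this)
  · intro hodd
    rw [Nat.card_eq_one_iff_unique]
    refine ⟨⟨?_⟩, ⟨⟨τ, hτS⟩⟩⟩
    have key : ∀ χ : IrrCharacter G,
        classInner (Cfsg.indFun H (fun _ : H => (1 : ℂ))) (χ : G → ℂ) ≠ 0 →
        (Nat.card G : ℂ)⁻¹ * ∑ g : G, (χ : G → ℂ) (g * g) = 1 → χ = τ := by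
      intro χ h1 h3
      have hπK : ∀ k ∈ H.normalCore, Cfsg.indFun H (fun _ : H => (1 : ℂ)) k =
          Cfsg.indFun H (fun _ : H => (1 : ℂ)) 1 := by
        intro k hk
        simp only [Cfsg.indFun, hext]
        congr 1
        apply Finset.sum_congr rfl; intro x _
        have h4 : x⁻¹ * k * x ∈ H := by
          have := hk x⁻¹
          simpa using this
        have h5 : x⁻¹ * 1 * x ∈ H := by simp [H.one_mem]
        rw [if_pos h4, if_pos h5]
      have hχK : ∀ k ∈ H.normalCore, (χ : G → ℂ) k = (χ : G → ℂ) 1 := fun k hk =>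
        constituent_eq_one_of_eq_one hπc χ h1 k (hπK k hk)
      obtain ⟨n, ρ, hirr, hρ⟩ := χ.2
      haveI := hirr
      have hpos := finrank_pos_of_irreducible ρ
      have hinv : ∀ (g k : G), k ∈ H.normalCore → (χ : G → ℂ) (g * k) = (χ : G → ℂ) g := by
        intro g k hk
        have hk1 : ρ k = 1 := rho_eq_one_of_char_eq ρ hpos k (by rw [hρ]; exact hχK k hk)
        rw [← hρ]
        show LinearMap.trace ℂ _ (ρ (g * k)) = LinearMap.trace ℂ _ (ρ g)
        rw [map_mul, hk1, mul_one]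
      rw [sum_sq_eq_sum_of_odd_index H.normalCore hodd (χ : G → ℂ) hinv] at h3
      have h6 := irr_orthonormal χ.2 τ.2
      have h7 : classInner (χ : G → ℂ) (τ : G → ℂ) = 1 := by
        unfold Cfsg.classInner
        rw [← h3]
        congr 1
        apply Finset.sum_congr rfl; intro g _; simp [τ]
      rw [h7] at h6
      by_contra hne
      rw [if_neg (fun h => hne (Subtype.ext h))] at h6
      exact one_ne_zero h6
    rintro ⟨χ, h1, -, h3⟩ ⟨χ', h1', -, h3'⟩
    apply Subtype.ext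
    show χ = χ'
    rw [key χ h1 h3, key χ' h1' h3']

end Cfsg.Agent.S4784
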