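import Cfsg.Statements.S4796
import Cfsg.Agent.Lib.Lead.CharFrobP
import Cfsg.Agent.S0034
import Cfsg.Agent.S0039

set_option autoImplicit false

namespace Cfsg.Agent.S4796

open Cfsg Cfsg.Agent.Lib.Lead

theorem result {G : Type*} [Group G] [Finite G] (χ : Cfsg.IrrCharacter G) (hfaith : ∀ g : G, (χ : G → ℂ) g = (χ : G → ℂ) 1 → g = 1) (p : ℕ) (hp : p.Prime) (hcod : Nat.card G = p * Cfsg.charDegree (χ : G → ℂ)) : (IsCyclic G ∧ Nat.card G = p) ∨ ∃ H : Subgroup G, Cfsg.IsFrobeniusComplement H ∧ Nat.card ↥(Cfsg.frobeniusKernel H) = p := by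
  classical
  haveI : Fact p.Prime := ⟨hp⟩
  by_cases hd1 : Cfsg.charDegree (χ : G → ℂ) = 1
  · left
    rw [hd1, mul_one] at hcod
    exact ⟨isCyclic_of_prime_card hcod, hcod⟩
  right
  obtain ⟨P, hPn, hPcard, hpd, hC⟩ := exists_self_centralizing_of_prime_codegree χ p hp hcod hd1
  haveI := hPn
  set d := Cfsg.charDegree (χ : G → ℂ) with hd
  have hidx : P.index = d := by
    have h1 := P.card_mul_index
    rw [hPcard, hcod] at h1
    exact Nat.eq_of_mul_eq_mul_left hp.pos h1
  have hcop : Nat.Coprime (Nat.card P) P.index := by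
    rw [hPcard, hidx]
    exact (Nat.Prime.coprime_iff_not_dvd hp).mpr hpd
  obtain ⟨H, hH⟩ := Subgroup.exists_right_complement'_of_coprime hcop
  have hHcard : Nat.card H = d := by
    have h1 := hH.card_mul_card
    rw [hPcard, hcod] at h1
    exact Nat.eq_of_mul_eq_mul_left hp.pos h1
  have hPne : P ≠ ⊥ := by
    intro h
    rw [h, Subgroup.card_bot] at hPcard
    exact hp.one_lt.ne hPcard
  have hHne : H ≠ ⊥ := by
    intro h
    rw [h, Subgroup.card_bot] at hHcard
    exact hd1 hHcard.symm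
  have hfrob : IsFrobeniusComplement H := by
    rw [Cfsg.Agent.S0039.result P H hH hPne hHne]
    intro h hh hh1
    rw [eq_bot_iff]
    intro x hx
    rw [Subgroup.mem_bot]
    by_contra hx1
    obtain ⟨hxP, hxC⟩ := hx
    have hxh : h * x = x * h := Subgroup.mem_centralizer_iff.mp hxC h (Set.mem_singleton h)
    have hzp : ∀ y ∈ P, y ∈ Subgroup.zpowers x := by
      intro y hy
      have hx1' : (⟨x, hxP⟩ : P) ≠ 1 := fun h0 => hx1 (congrArg Subtype.val h0)
      have htop := zpowers_eq_top_of_prime_card (G := P) hPcard hx1'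
      have hy' : (⟨y, hy⟩ : P) ∈ Subgroup.zpowers (⟨x, hxP⟩ : P) := by rw [htop]; trivial
      obtain ⟨k, hk⟩ := Subgroup.mem_zpowers_iff.mp hy'
      refine Subgroup.mem_zpowers_iff.mpr ⟨k, ?_⟩
      have := congrArg Subtype.val hk
      simpa using this
    have hcomm : ∀ y ∈ P, h * y = y * h := by
      intro y hy
      obtain ⟨k, rfl⟩ := Subgroup.mem_zpowers_iff.mp (hzp y hy)
      exact ((show Commute h x from hxh).zpow_right k).eq
    have hhP : h ∈ P := hC h hcomm
    have hdisj := hH.disjoint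
    have : h ∈ P ⊓ H := ⟨hhP, hh⟩
    rw [hdisj.eq_bot, Subgroup.mem_bot] at this
    exact hh1 this
  refine ⟨H, hfrob, ?_⟩
  rw [(Cfsg.Agent.S0034.result H hfrob).1]
  have h1 := H.card_mul_index
  rw [hHcard, hcod, mul_comm] at h1
  exact Nat.eq_of_mul_eq_mul_right (charDegree_pos_of_irr χ.2) h1

end Cfsg.Agent.S4796
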