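import Cfsg.Statements.S4797
import Cfsg.Agent.Lib.Lead.CharCodeg
import Cfsg.Agent.Lib.Lead.CharMGroup
import Cfsg.Agent.Lib.Lead.CharDeg
import Cfsg.Agent.Lib.Lead.CharIntegral

set_option autoImplicit false
open Cfsg

namespace Cfsg.Agent.S4797

open Cfsg.Agent.Lib.Lead Module

/-- The codegree of an irreducible complex character χ of a finite group G is [G : ker χ] / χ(1), where ker χ is the set of elements at which χ takes the value χ(1). A non-trivial finite group is perfect if and only if no irreducible complex character of it has prime codegree. -/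
theorem result {G : Type*} [Group G] [Finite G] [Nontrivial G] : commutator G = ⊤ ↔ ∀ χ : Cfsg.IrrCharacter G, ¬ ((Nat.card G / (Nat.card {g : G // (χ : G → ℂ) g = (χ : G → ℂ) 1} * Cfsg.charDegree (χ : G → ℂ)))).Prime := by
  classical
  letI := Fintype.ofFinite G
  constructor
  · intro hperf χ hprime
    obtain ⟨n, ρ, hirr, hχ⟩ := χ.2
    haveI := hirr
    set K : Subgroup G := (ρ : G →* _).ker with hK
    have hKmem : ∀ g, (χ : G → ℂ) g = (χ : G → ℂ) 1 ↔ g ∈ K := by
      intro g
      rw [← hχ, Representation.char_one, char_eq_finrank_iff, hK, MonoidHom.mem_ker]; rfl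
    have hcardK : Nat.card {g : G // (χ : G → ℂ) g = (χ : G → ℂ) 1} = Nat.card K :=
      Nat.card_congr (Equiv.subtypeEquivRight hKmem)
    have hdeg : Cfsg.charDegree (χ : G → ℂ) = finrank ℂ (Fin n → ℂ) := by
      rw [← hχ]; exact charDegree_character ρ
    rw [hcardK, hdeg] at hprime
    set d := finrank ℂ (Fin n → ℂ) with hd
    have hKtriv : ∀ x ∈ K, ρ x = 1 := fun x hx => MonoidHom.mem_ker.mp hx
    let σ := descendRep ρ K hKtriv
    haveI : σ.IsIrreducible := descendRep_isIrreducible ρ K hKtriv
    have hdvd : d ∣ Nat.card (G ⧸ K) := degree_dvd_card σ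
    have hidx : Nat.card G = Nat.card K * Nat.card (G ⧸ K) := by
      rw [← Subgroup.index_eq_card, Subgroup.card_mul_index]
    obtain ⟨c, hc⟩ := hdvd
    have hKpos : 0 < Nat.card K := Nat.card_pos
    have hdpos : 0 < d := by
      rcases Nat.eq_zero_or_pos d with h0 | h
      · rw [h0, mul_zero, Nat.div_zero] at hprime; exact absurd hprime Nat.not_prime_zero
      · exact h
    have hquot : Nat.card G / (Nat.card K * d) = c := by
      rw [hidx, hc, ← mul_assoc]; exact Nat.mul_div_cancel_left c (Nat.mul_pos hKpos hdpos)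
    rw [hquot] at hprime
    have hinj : Function.Injective σ := by
      rw [injective_iff_map_eq_one]
      intro x hx
      obtain ⟨g, rfl⟩ := QuotientGroup.mk_surjective x
      rw [descendRep_mk] at hx
      exact (QuotientGroup.eq_one_iff g).mpr (MonoidHom.mem_ker.mpr hx)
    have hperf' : commutator (G ⧸ K) = ⊤ := by
      rw [commutator_def, ← Subgroup.map_top_of_surjective (QuotientGroup.mk' K)
        (QuotientGroup.mk'_surjective K), ← Subgroup.map_commutator, ← commutator_def, hperf]
    exact perfect_faithful_false σ hinj hperf' c hprime (by rw [hc, mul_comm])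
  · intro h
    by_contra hne
    have h1 := card_linear_irr (G := G)
    have hidx : 1 < (commutator G).index := by
      have h0 : (commutator G).index ≠ 0 := Subgroup.index_ne_zero_of_finite
      have h1' : (commutator G).index ≠ 1 := fun h => hne (Subgroup.index_eq_one.mp h)
      omega
    rw [← h1] at hidx
    haveI : Finite (IrrCharacter G) := irr_finite
    obtain ⟨a, b, hab⟩ := Finite.one_lt_card_iff_nontrivial.mp hidx
    have : ∃ χ : IrrCharacter G, (χ : G → ℂ) 1 = 1 ∧ (χ : G → ℂ) ≠ fun _ => 1 := by
      by_cases ha : (a.1 : G → ℂ) = fun _ => 1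
      · refine ⟨b.1, b.2, fun hb => hab ?_⟩
        apply Subtype.ext; apply Subtype.ext; rw [ha, hb]
      · exact ⟨a.1, a.2, ha⟩
    obtain ⟨χ, hχ1, hχne⟩ := this
    obtain ⟨φ, hφ⟩ := exists_hom_of_linear χ.2 hχ1
    have hφne : φ ≠ 1 := by
      intro h1; apply hχne; funext g; rw [hφ g, h1]; simp
    have hpow : φ ^ (Nat.card G) = 1 := by
      ext g
      rw [MonoidHom.pow_apply, ← map_pow, pow_card_eq_one', map_one]; rfl
    have hord : orderOf φ ≠ 0 := by
      have := orderOf_dvd_of_pow_eq_one (G := G →* ℂˣ) (x := φ) (n := Nat.card G) hpow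
      intro h0; rw [h0, zero_dvd_iff] at this; exact Nat.card_pos.ne' this
    have hord1 : orderOf φ ≠ 1 := fun h => hφne (orderOf_eq_one_iff.mp h)
    obtain ⟨p, hp, hpd⟩ := Nat.exists_prime_and_dvd hord1
    set ψ := φ ^ (orderOf φ / p) with hψ
    have hψord : orderOf ψ = p := orderOf_pow_orderOf_div hord hpd
    haveI : Fact p.Prime := ⟨hp⟩
    have hrange : Nat.card ψ.range = p := by
      have hle : ψ.range ≤ rootsOfUnity p ℂ := by
        rintro _ ⟨g, rfl⟩
        rw [mem_rootsOfUnity]
        have : ψ ^ p = 1 := by rw [← hψord]; exact pow_orderOf_eq_one ψ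
        have := DFunLike.congr_fun this g
        simpa using this
      have h1 : Nat.card ψ.range ∣ p := by
        have := Subgroup.card_dvd_of_le hle
        rwa [Complex.card_rootsOfUnity] at this
      rcases (Nat.dvd_prime hp).mp h1 with h | h
      · exfalso
        have : ψ = 1 := by
          ext g
          have hsub : Subsingleton ψ.range := (Nat.card_eq_one_iff_unique.mp h).1
          have := Subsingleton.elim (⟨ψ g, g, rfl⟩ : ψ.range) 1
          simpa using congrArg Subtype.val this
        rw [this, orderOf_one] at hψord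
        exact hp.one_lt.ne hψord
      · exact h
    have hker : ψ.ker.index = p := by rw [Subgroup.index_ker, hrange]
    have hirr := isIrrCharacter_of_hom ψ
    apply h ⟨_, hirr⟩
    show (Nat.card G / (Nat.card {g : G // ((ψ g : ℂˣ) : ℂ) = ((ψ 1 : ℂˣ) : ℂ)} *
      Cfsg.charDegree (fun g => ((ψ g : ℂˣ) : ℂ)))).Prime
    have hdeg : Cfsg.charDegree (fun g => ((ψ g : ℂˣ) : ℂ)) = 1 :=
      charDegree_of_one_eq (by simp)
    have hcard : Nat.card {g : G // ((ψ g : ℂˣ) : ℂ) = ((ψ 1 : ℂˣ) : ℂ)} = Nat.card ψ.ker := by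
      apply Nat.card_congr
      apply Equiv.subtypeEquivRight
      intro g
      rw [MonoidHom.mem_ker, map_one]; simp
    rw [hdeg, hcard, mul_one]
    have h2 : Nat.card G = Nat.card ψ.ker * p := by rw [← hker, Subgroup.card_mul_index]
    rw [h2, Nat.mul_div_cancel_left _ Nat.card_pos]
    exact hp

end Cfsg.Agent.S4797
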