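import Cfsg.Statements.S4798
import Cfsg.Agent.Lib.Lead.CharCentral2
import Cfsg.Agent.Lib.Lead.CharClifford

set_option autoImplicit false
open Cfsg

namespace Cfsg.Agent.S4798

open Cfsg.Agent.Lib.Lead in
open scoped ComplexConjugate in
theorem result {G : Type*} [Group G] [Fintype G] (p : ℕ) [Fact p.Prime] (χ : Cfsg.IrrCharacter G) (hfaith : ∀ g : G, (χ : G → ℂ) g = (χ : G → ℂ) 1 → g = 1) : (∃ k : ℕ, Nat.card G = p ^ k * Cfsg.charDegree (χ : G → ℂ)) ↔ ∃ (P : Sylow p G) (θ : ↥(P : Subgroup G) → ℂ), Cfsg.IsCharacter ↥(P : Subgroup G) θ ∧ (χ : G → ℂ) = Cfsg.indFun (P : Subgroup G) θ := by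
  classical
  have hp : p.Prime := Fact.out
  have hdvd : Cfsg.charDegree (χ : G → ℂ) ∣ Nat.card G :=
    irr_degree_dvd_card χ _ (isIrrCharacter_one_eq_charDegree χ.2)
  constructor
  · rintro ⟨k, hk⟩
    let P : Sylow p G := default
    letI : Fintype (P : Subgroup G) := Fintype.ofFinite _
    haveI : Finite (Cfsg.IrrCharacter (P : Subgroup G)) := irr_finite
    letI : Fintype (Cfsg.IrrCharacter (P : Subgroup G)) := Fintype.ofFinite _
    obtain ⟨m, hm⟩ := IsPGroup.iff_card.mp P.isPGroup'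
    have hidx : ¬ p ∣ (P : Subgroup G).index := P.not_dvd_index
    have hcard := Subgroup.index_mul_card (P : Subgroup G)
    have hkm : k ≤ m := by
      have h1 : p ^ k ∣ Nat.card G := by rw [hk]; exact dvd_mul_right _ _
      have h2 := P.pow_dvd_card_of_pow_dvd_card h1
      rw [hm] at h2
      exact (Nat.pow_dvd_pow_iff_le_right hp.one_lt).mp h2
    have hd : Cfsg.charDegree (χ : G → ℂ) = (P : Subgroup G).index * p ^ (m - k) := by
      have : p ^ k * Cfsg.charDegree (χ : G → ℂ) =
          p ^ k * ((P : Subgroup G).index * p ^ (m - k)) := by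
        rw [← hk, ← hcard, hm]
        have : p ^ m = p ^ k * p ^ (m - k) := by rw [← pow_add]; congr 1; omega
        rw [this]; ring
      exact Nat.eq_of_mul_eq_mul_left (pow_pos hp.pos k) this
    have hres : Cfsg.IsCharacter (P : Subgroup G) (fun h : (P : Subgroup G) => (χ : G → ℂ) h) :=
      isCharacter_res _ (isCharacter_of_isIrrCharacter χ.2)
    have hmul : ∀ θ : Cfsg.IrrCharacter (P : Subgroup G), ∃ n : ℕ,
        Cfsg.classInner (fun h : (P : Subgroup G) => (χ : G → ℂ) h) (θ : ↥(P : Subgroup G) → ℂ) = (n : ℂ) :=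
      fun θ => classInner_isCharacter_nat hres (isCharacter_of_isIrrCharacter θ.2)
    choose mult hmult using hmul
    have hsum := charDegree_eq_sum hres mult hmult
    have hdegres : Cfsg.charDegree (fun h : (P : Subgroup G) => (χ : G → ℂ) h) =
        Cfsg.charDegree (χ : G → ℂ) := by
      apply charDegree_of_one_eq
      show (χ : G → ℂ) ((1 : (P : Subgroup G)) : G) = _
      rw [Subgroup.coe_one]; exact isIrrCharacter_one_eq_charDegree χ.2
    rw [hdegres, hd] at hsum
    have hex : ∃ θ : Cfsg.IrrCharacter (P : Subgroup G), mult θ ≠ 0 ∧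
        Cfsg.charDegree (θ : ↥(P : Subgroup G) → ℂ) ≤ p ^ (m - k) := by
      by_contra hcon
      push Not at hcon
      have hdiv : ∀ θ : Cfsg.IrrCharacter (P : Subgroup G),
          p ^ (m - k + 1) ∣ mult θ * Cfsg.charDegree (θ : ↥(P : Subgroup G) → ℂ) := by
        intro θ
        by_cases h0 : mult θ = 0
        · rw [h0, zero_mul]; exact dvd_zero _
        · have h1 := hcon θ h0
          have h2 : Cfsg.charDegree (θ : ↥(P : Subgroup G) → ℂ) ∣ p ^ m := by
            rw [← hm]; exact irr_degree_dvd_card θ _ (isIrrCharacter_one_eq_charDegree θ.2)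
          obtain ⟨j, hjm, hj⟩ := (Nat.dvd_prime_pow hp).mp h2
          rw [hj] at h1 ⊢
          have : m - k < j := (Nat.pow_lt_pow_iff_right hp.one_lt).mp h1
          exact Dvd.dvd.mul_left (pow_dvd_pow p (by omega)) _
      have h3 : p ^ (m - k + 1) ∣ (P : Subgroup G).index * p ^ (m - k) := by
        rw [hsum]; exact Finset.dvd_sum (fun θ _ => hdiv θ)
      rw [pow_succ, mul_comm ((P : Subgroup G).index)] at h3
      exact hidx (Nat.dvd_of_mul_dvd_mul_left (pow_pos hp.pos _) h3)
    obtain ⟨θ, hθ0, hθdeg⟩ := hex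
    refine ⟨P, (θ : ↥(P : Subgroup G) → ℂ), isCharacter_of_isIrrCharacter θ.2, ?_⟩
    symm
    apply eq_of_inner_ne_zero_of_charDegree_le
      (isCharacter_indFun _ (isCharacter_of_isIrrCharacter θ.2)) χ
    · rw [Cfsg.Agent.Lib.Helper2.frobenius_reciprocity (P : Subgroup G) (θ : ↥(P : Subgroup G) → ℂ) (χ : G → ℂ) (isClassFunction_irr χ)]
      rw [classInner_conj_symm (fun h : (P : Subgroup G) => (χ : G → ℂ) h) (θ : ↥(P : Subgroup G) → ℂ), hmult θ]
      simpa using hθ0
    · rw [charDegree_indFun _ (isCharacter_of_isIrrCharacter θ.2), hd]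
      exact Nat.mul_le_mul_left _ hθdeg
  · rintro ⟨P, θ, hθ, hχ⟩
    letI : Fintype (P : Subgroup G) := Fintype.ofFinite _
    obtain ⟨c, hc⟩ := hdvd
    have hdeg : Cfsg.charDegree (χ : G → ℂ) = (P : Subgroup G).index * Cfsg.charDegree θ := by
      rw [hχ]; exact charDegree_indFun _ hθ
    have hcard := Subgroup.index_mul_card (P : Subgroup G)
    obtain ⟨m, hm⟩ := IsPGroup.iff_card.mp P.isPGroup'
    have h1 : Nat.card (P : Subgroup G) = Cfsg.charDegree θ * c := by
      have hpos : 0 < (P : Subgroup G).index :=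
        Nat.pos_of_ne_zero Subgroup.index_ne_zero_of_finite
      apply Nat.eq_of_mul_eq_mul_left hpos
      rw [hcard, hc, hdeg]; ring
    have h2 : c ∣ p ^ m := by rw [← hm, h1]; exact dvd_mul_left _ _
    obtain ⟨k, -, hk⟩ := (Nat.dvd_prime_pow hp).mp h2
    exact ⟨k, by rw [hc, hk, mul_comm]⟩

end Cfsg.Agent.S4798
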