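import Cfsg.Statements.S4801
import Cfsg.Agent.Lib.Lead.DihCent
import Cfsg.Agent.Lib.Lead.CharKerSub

set_option autoImplicit false
set_option maxHeartbeats 1600000
open Cfsg

namespace Cfsg.Agent.S4801

open Cfsg.Agent.Lib.Lead
open Cfsg.Agent.Lib.Helper2 (irr_degree_pos irr_one_ne_zero)
open scoped ComplexConjugate

/-- The codegree of an irreducible complex character χ of a finite group G is [G : ker χ] / χ(1), where ker χ is the set of elements at which χ takes the value χ(1). Let S be a finite simple group and G a finite group such that every codegree of an irreducible character of S is a codegree of an irreducible character of G. Then the order of S divides the order of G. -/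
theorem result {S : Type*} [Group S] [Finite S] (hS : IsSimpleGroup S) {G : Type*} [Group G] [Finite G] (hsub : ∀ χ : Cfsg.IrrCharacter S, ∃ ψ : Cfsg.IrrCharacter G, (Nat.card S / (Nat.card {g : S // (χ : S → ℂ) g = (χ : S → ℂ) 1} * Cfsg.charDegree (χ : S → ℂ))) = (Nat.card G / (Nat.card {g : G // (ψ : G → ℂ) g = (ψ : G → ℂ) 1} * Cfsg.charDegree (ψ : G → ℂ)))) : Nat.card S ∣ Nat.card G := by
  classical
  letI : Fintype S := Fintype.ofFinite S
  have : Finite (IrrCharacter S) := irr_finite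
  letI : Fintype (IrrCharacter S) := Fintype.ofFinite _
  rw [Nat.dvd_iff_prime_pow_dvd_dvd]
  intro p k hp hpk
  rcases Nat.eq_zero_or_pos k with rfl | hkpos
  · simp
  have hpS : p ∣ Nat.card S := (dvd_pow_self p hkpos.ne').trans hpk
  obtain ⟨χ₀, hχ₀⟩ : ∃ χ₀ : IrrCharacter S, χ₀ = ⟨fun _ => 1, isIrrCharacter_one S⟩ := ⟨_, rfl⟩
  have hχ₀app : ∀ g : S, (χ₀ : S → ℂ) g = 1 := by intro g; rw [hχ₀]
  have hsumsq : ∑ χ : IrrCharacter S, (Cfsg.charDegree (χ : S → ℂ)) ^ 2 = Nat.card S := by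
    have h := sum_sq_degree (G := S)
    have h2 : ((∑ χ : IrrCharacter S, (Cfsg.charDegree (χ : S → ℂ)) ^ 2 : ℕ) : ℂ) =
        ((Nat.card S : ℕ) : ℂ) := by
      push_cast
      rw [← h]
      apply Finset.sum_congr rfl
      intro χ _
      rw [isIrrCharacter_one_eq_charDegree χ.2]
    exact_mod_cast h2
  have hdeg0 : Cfsg.charDegree (χ₀ : S → ℂ) = 1 := by
    apply charDegree_of_one_eq
    rw [hχ₀app]; norm_num
  obtain ⟨χ, hχne, hχp⟩ : ∃ χ : IrrCharacter S, χ ≠ χ₀ ∧ ¬ p ∣ Cfsg.charDegree (χ : S → ℂ) := by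
    by_contra hcon
    push Not at hcon
    have h1 := Finset.add_sum_erase Finset.univ
      (fun χ : IrrCharacter S => (Cfsg.charDegree (χ : S → ℂ)) ^ 2) (Finset.mem_univ χ₀)
    rw [hsumsq, hdeg0] at h1
    have h2 : p ∣ ∑ χ ∈ Finset.univ.erase χ₀, (Cfsg.charDegree (χ : S → ℂ)) ^ 2 := by
      apply Finset.dvd_sum
      intro χ hχ
      exact dvd_pow (hcon χ (Finset.ne_of_mem_erase hχ)) (by norm_num)
    have h3 : p ∣ 1 := by
      have h4 : p ∣ 1 ^ 2 + ∑ χ ∈ Finset.univ.erase χ₀, (Cfsg.charDegree (χ : S → ℂ)) ^ 2 := by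
        rw [h1]; exact hpS
      obtain ⟨a, ha⟩ := h2
      obtain ⟨b, hb⟩ := h4
      refine ⟨b - a, ?_⟩
      rw [Nat.mul_sub]
      omega
    exact hp.one_lt.ne' (Nat.dvd_one.mp h3)
  obtain ⟨K, hKn, hKmem, hKdvd⟩ := irr_ker_exists χ
  have hKbot : K = ⊥ := by
    rcases hKn.eq_bot_or_eq_top with h | h
    · exact h
    · exfalso
      apply hχne
      have hconst : ∀ g : S, (χ : S → ℂ) g = (χ : S → ℂ) 1 :=
        fun g => (hKmem g).mp (by rw [h]; exact Subgroup.mem_top g)
      have horth := irr_orthonormal χ.2 (isIrrCharacter_one S)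
      have hval : classInner (χ : S → ℂ) (fun _ => (1 : ℂ)) = (χ : S → ℂ) 1 := by
        unfold classInner
        simp only [hconst, map_one, mul_one, Finset.sum_const, Finset.card_univ, nsmul_eq_mul]
        rw [Nat.card_eq_fintype_card]
        have : (Fintype.card S : ℂ) ≠ 0 := by exact_mod_cast Fintype.card_ne_zero
        field_simp
      rw [hval] at horth
      by_cases hc : (χ : S → ℂ) = (fun _ => (1 : ℂ))
      · apply Subtype.ext; rw [hc, hχ₀]
      · rw [if_neg hc] at horth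
        exact absurd horth (irr_one_ne_zero χ.2)
  have hkerS : Nat.card {g : S // (χ : S → ℂ) g = (χ : S → ℂ) 1} = 1 := by
    have : Nat.card {g : S // (χ : S → ℂ) g = (χ : S → ℂ) 1} = Nat.card K := by
      apply Nat.card_congr
      exact (Equiv.subtypeEquivRight (fun g => (hKmem g))).symm
    rw [this, hKbot]; exact Subgroup.card_bot
  have hdvdS : Cfsg.charDegree (χ : S → ℂ) ∣ Nat.card S := by
    rw [hKbot, Subgroup.index_bot] at hKdvd; exact hKdvd
  obtain ⟨ψ, hψ⟩ := hsub χ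
  rw [hkerS, one_mul] at hψ
  obtain ⟨K', hK'n, hK'mem, hK'dvd⟩ := irr_ker_exists ψ
  have hkerG : Nat.card {g : G // (ψ : G → ℂ) g = (ψ : G → ℂ) 1} = Nat.card K' := by
    apply Nat.card_congr
    exact (Equiv.subtypeEquivRight (fun g => (hK'mem g))).symm
  rw [hkerG] at hψ
  have hdvdG : Nat.card K' * Cfsg.charDegree (ψ : G → ℂ) ∣ Nat.card G := by
    rw [← Subgroup.card_mul_index K']
    exact Nat.mul_dvd_mul_left _ hK'dvd
  obtain ⟨c, hc⟩ : ∃ c : ℕ, c = Nat.card S / Cfsg.charDegree (χ : S → ℂ) := ⟨_, rfl⟩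
  have hSc : Nat.card S = Cfsg.charDegree (χ : S → ℂ) * c := by
    rw [hc]; exact (Nat.mul_div_cancel' hdvdS).symm
  have hcG : c ∣ Nat.card G := by
    rw [hc, hψ]
    exact Nat.div_dvd_of_dvd hdvdG
  have hcop : Nat.Coprime (p ^ k) (Cfsg.charDegree (χ : S → ℂ)) :=
    Nat.Coprime.pow_left k ((Nat.Prime.coprime_iff_not_dvd hp).mpr hχp)
  rw [hSc] at hpk
  exact (hcop.dvd_of_dvd_mul_left hpk).trans hcG

end Cfsg.Agent.S4801
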