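import Cfsg.Statements.S4802
import Cfsg.Agent.Lib.Lead.CharCentral2

set_option autoImplicit false
open Cfsg

namespace Cfsg.Agent.S4802

open Cfsg.Agent.Lib.Lead in
open scoped ComplexConjugate in
theorem result {G : Type*} [Group G] [Finite G] (N M : Subgroup G) [N.Normal] [M.Normal] (hNM : N < M) (g : G) (hgM : g ∈ M) (hgN : g ∉ N) : {h : G | IsConj g h} = (M : Set G) \ (N : Set G) ↔ ((∀ χ : Cfsg.IrrCharacter G, (∀ x ∈ N, (χ : G → ℂ) x = (χ : G → ℂ) 1) → ∀ x ∈ M, x ∉ N → ∀ y ∈ M, y ∉ N → (χ : G → ℂ) x = (χ : G → ℂ) y) ∧ (∀ χ : Cfsg.IrrCharacter G, (∃ x ∈ N, (χ : G → ℂ) x ≠ (χ : G → ℂ) 1) → (χ : G → ℂ) g = 0)) := by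
  classical
  letI := Fintype.ofFinite G
  letI : Fintype N := Fintype.ofFinite N
  haveI : Finite (Cfsg.IrrCharacter G) := irr_finite
  letI : Fintype (Cfsg.IrrCharacter G) := Fintype.ofFinite _
  have hNcard : (Fintype.card N : ℂ) ≠ 0 := by exact_mod_cast Fintype.card_ne_zero
  have hfwd : ∀ h : G, IsConj g h → h ∈ M ∧ h ∉ N := by
    intro h hh
    obtain ⟨c, rfl⟩ := isConj_iff.mp hh
    refine ⟨‹M.Normal›.conj_mem g hgM c, fun hcon => hgN ?_⟩
    have := ‹N.Normal›.conj_mem _ hcon c⁻¹
    have h2 : c⁻¹ * (c * g * c⁻¹) * c⁻¹⁻¹ = g := by group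
    rwa [h2] at this
  constructor
  · intro hcl
    have hconj : ∀ h : G, h ∈ M → h ∉ N → IsConj g h := by
      intro h hM hN'
      have : h ∈ (M : Set G) \ (N : Set G) := ⟨hM, hN'⟩
      rw [← hcl] at this
      exact this
    constructor
    · intro χ _ x hxM hxN y hyM hyN
      rw [irr_eq_of_isConj χ (hconj x hxM hxN), irr_eq_of_isConj χ (hconj y hyM hyN)]
    · rintro χ ⟨x₀, hx₀N, hx₀⟩
      have h0 : ∑ n : N, (χ : G → ℂ) n = 0 := by
        by_contra h0
        have := irr_coset_const N χ.2 h0 ⟨x₀, hx₀N⟩ 1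
        rw [mul_one] at this
        exact hx₀ this
      have hsum := irr_coset_sum_zero N χ.2 h0 g
      have hterm : ∀ n : N, (χ : G → ℂ) ((n : G) * g) = (χ : G → ℂ) g := by
        intro n
        apply irr_eq_of_isConj χ
        apply hconj
        · exact M.mul_mem (hNM.le n.2) hgM
        · intro hcon
          apply hgN
          have := N.mul_mem (N.inv_mem n.2) hcon
          rwa [inv_mul_cancel_left] at this
      rw [Finset.sum_congr rfl (fun n _ => hterm n), Finset.sum_const, Finset.card_univ,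
        nsmul_eq_mul] at hsum
      rcases mul_eq_zero.mp hsum with h | h
      · exact absurd h hNcard
      · exact h
  · rintro ⟨hA, hB⟩
    ext h
    simp only [Set.mem_ofPred_eq, Set.mem_sdiff, SetLike.mem_coe]
    refine ⟨hfwd h, fun ⟨hM, hN'⟩ => ?_⟩
    have hterm : ∀ (x : G), x ∈ M → x ∉ N → ∀ χ : Cfsg.IrrCharacter G,
        (χ : G → ℂ) g * conj (∑ n : N, (χ : G → ℂ) ((n : G) * x)) =
          (Fintype.card N : ℂ) * ((χ : G → ℂ) g * conj ((χ : G → ℂ) g)) := by
      intro x hxM hxN χ
      by_cases hker : ∀ y ∈ N, (χ : G → ℂ) y = (χ : G → ℂ) 1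
      · have h0 : ∑ n : N, (χ : G → ℂ) n ≠ 0 := by
          rw [Finset.sum_congr rfl (fun (n : N) _ => hker (n : G) n.2), Finset.sum_const, Finset.card_univ,
            nsmul_eq_mul]
          exact mul_ne_zero hNcard (isIrrCharacter_one_ne_zero χ.2)
        have hc : ∀ n : N, (χ : G → ℂ) ((n : G) * x) = (χ : G → ℂ) g := by
          intro n
          rw [irr_coset_const N χ.2 h0 n x]
          exact hA χ hker x hxM hxN g hgM hgN
        rw [Finset.sum_congr rfl (fun n _ => hc n), Finset.sum_const, Finset.card_univ,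
          nsmul_eq_mul, map_mul, map_natCast]
        ring
      · push Not at hker
        obtain ⟨y, hyN, hy⟩ := hker
        rw [hB χ ⟨y, hyN, hy⟩]; simp
    have hT : ∀ (x : G), x ∈ M → x ∉ N →
        ∑ n : N, (if IsConj g ((n : G) * x) then
          (Nat.card (Subgroup.centralizer ({g} : Set G)) : ℂ) else 0) =
          (Fintype.card N : ℂ) * (Nat.card (Subgroup.centralizer ({g} : Set G)) : ℂ) := by
      intro x hxM hxN
      have h1 : ∀ n : N, (if IsConj g ((n : G) * x) then
          (Nat.card (Subgroup.centralizer ({g} : Set G)) : ℂ) else 0) =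
          ∑ χ : Cfsg.IrrCharacter G, (χ : G → ℂ) g * conj ((χ : G → ℂ) ((n : G) * x)) :=
        fun n => (second_orthogonality g ((n : G) * x)).symm
      rw [Finset.sum_congr rfl (fun n _ => h1 n), Finset.sum_comm]
      have h2 : ∀ χ : Cfsg.IrrCharacter G,
          ∑ n : N, (χ : G → ℂ) g * conj ((χ : G → ℂ) ((n : G) * x)) =
          (Fintype.card N : ℂ) * ((χ : G → ℂ) g * conj ((χ : G → ℂ) g)) := by
        intro χ
        rw [← Finset.mul_sum, ← map_sum]
        exact hterm x hxM hxN χ
      rw [Finset.sum_congr rfl (fun χ _ => h2 χ), ← Finset.mul_sum]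
      have h3 := second_orthogonality g g
      rw [if_pos (IsConj.refl g)] at h3
      rw [h3]
    have hTh := hT h hM hN'
    have hc0 : (Nat.card (Subgroup.centralizer ({g} : Set G)) : ℂ) ≠ 0 := by
      have : 0 < Nat.card (Subgroup.centralizer ({g} : Set G)) := Nat.card_pos
      exact_mod_cast this.ne'
    rw [← Finset.sum_filter, Finset.sum_const, nsmul_eq_mul] at hTh
    have hcard : (Finset.univ.filter (fun n : N => IsConj g ((n : G) * h))).card =
        Fintype.card N := by
      have := mul_right_cancel₀ hc0 hTh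
      exact_mod_cast this
    rw [← Finset.card_univ, Finset.card_filter_eq_iff] at hcard
    have := hcard 1 (Finset.mem_univ _)
    simpa using this

end Cfsg.Agent.S4802
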