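import Cfsg.Statements.S4808
import Cfsg.Agent.Lib.Lead.CharKerSub

set_option autoImplicit false

namespace Cfsg.Agent.S4808

open Cfsg Cfsg.Agent.Lib.Lead

theorem result {G : Type*} [Group G] [Finite G] (p : ℕ) (hp : p.Prime) : p ∣ Nat.card G ↔ ∃ χ : Cfsg.IrrCharacter G, p ∣ (Nat.card G / (Nat.card {g : G // (χ : G → ℂ) g = (χ : G → ℂ) 1} * Cfsg.charDegree (χ : G → ℂ))) := by
  classical
  haveI : Finite (IrrCharacter G) := irr_finite'
  letI : Fintype (IrrCharacter G) := Fintype.ofFinite _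
  -- codegree description
  have hcod : ∀ χ : IrrCharacter G, ∃ K : Subgroup G, K.Normal ∧
      (∀ g, g ∈ K ↔ (χ : G → ℂ) g = (χ : G → ℂ) 1) ∧
      ∃ c : ℕ, K.index = Cfsg.charDegree (χ : G → ℂ) * c ∧
        Nat.card G / (Nat.card {g : G // (χ : G → ℂ) g = (χ : G → ℂ) 1} *
          Cfsg.charDegree (χ : G → ℂ)) = c := by
    intro χ
    obtain ⟨K, hKn, hK, c, hc⟩ := irr_ker_exists χ
    refine ⟨K, hKn, hK, c, hc, ?_⟩
    have hcard : Nat.card {g : G // (χ : G → ℂ) g = (χ : G → ℂ) 1} = Nat.card K :=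
      Nat.card_congr (Equiv.subtypeEquivRight (fun g => (hK g).symm))
    have hd : 0 < Cfsg.charDegree (χ : G → ℂ) := charDegree_pos_of_irr χ.2
    have hKpos : 0 < Nat.card K := Nat.card_pos
    rw [hcard, ← K.card_mul_index, hc, ← mul_assoc]
    exact Nat.mul_div_cancel_left c (Nat.mul_pos hKpos hd)
  constructor
  · intro hpG
    by_contra hcon
    push Not at hcon
    -- (★)
    have hstar : ∀ (χ : IrrCharacter G) (K : Subgroup G),
        (∀ g, g ∈ K ↔ (χ : G → ℂ) g = (χ : G → ℂ) 1) → p ∣ K.index →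
        p ∣ Cfsg.charDegree (χ : G → ℂ) := by
      intro χ K hK hpK
      obtain ⟨K', _, hK', c, hc, hcc⟩ := hcod χ
      have hKK : K = K' := by
        ext g; rw [hK, hK']
      subst hKK
      have h1 := hcon χ
      rw [hcc] at h1
      rw [hc] at hpK
      exact (hp.dvd_mul.mp hpK).resolve_right h1
    -- maximal N
    have hSfin : {N : Subgroup G | N.Normal ∧ p ∣ N.index}.Finite := Set.toFinite _
    obtain ⟨N, hNmax⟩ := hSfin.exists_maximal ⟨⊥, Subgroup.normal_bot, by
      rw [Subgroup.index_bot]; exact hpG⟩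
    obtain ⟨hNn, hpN⟩ := hNmax.prop
    haveI := hNn
    have claim1 : ∀ K : Subgroup G, K.Normal → N < K → ¬ p ∣ K.index := by
      intro K hKn hNK hpK
      exact (not_le_of_gt hNK) (hNmax.le_of_ge ⟨hKn, hpK⟩ hNK.le)
    have hNtop : N ≠ ⊤ := by
      rintro rfl
      rw [Subgroup.index_top] at hpN
      exact hp.one_lt.ne' (Nat.dvd_one.mp hpN)
    have hTfin : {K : Subgroup G | K.Normal ∧ N < K}.Finite := Set.toFinite _
    obtain ⟨M, hMmin⟩ := hTfin.exists_minimal ⟨⊤, Subgroup.normal_top, lt_top_iff_ne_top.mpr hNtop⟩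
    obtain ⟨hMn, hNM⟩ := hMmin.prop
    haveI := hMn
    have claim2 : ∀ K : Subgroup G, K.Normal → N < K → M ≤ K := by
      intro K hKn hNK
      haveI := hKn
      have hle : N ≤ K ⊓ M := le_inf hNK.le hNM.le
      rcases eq_or_lt_of_le hle with heq | hlt
      · exfalso
        have h1 : N.relIndex K * K.index = N.index := Subgroup.relIndex_mul_index hNK.le
        have h2 : N.relIndex K = M.relIndex K := by
          rw [heq, inf_comm, Subgroup.inf_relIndex_right]
        have h3 : M.relIndex K ∣ M.index := Subgroup.relIndex_dvd_index_of_normal M K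
        rw [← h1] at hpN
        rcases hp.dvd_mul.mp hpN with h4 | h4
        · rw [h2] at h4
          exact claim1 M hMn hNM (dvd_trans h4 h3)
        · exact claim1 K hKn hNK h4
      · have h5 : M ≤ K ⊓ M := hMmin.le_of_le ⟨inferInstance, hlt⟩ inf_le_right
        exact le_trans h5 inf_le_left
    have hFN := sum_sq_degree_over (G := G) N
    have hFM := sum_sq_degree_over (G := G) M
    have hterm : ∀ χ : IrrCharacter G, ∃ c : ℕ, p ∣ c ∧
        (if (∀ n ∈ N, (χ : G → ℂ) n = (χ : G → ℂ) 1) then Cfsg.charDegree (χ : G → ℂ) ^ 2 else 0)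
        = (if (∀ n ∈ M, (χ : G → ℂ) n = (χ : G → ℂ) 1) then Cfsg.charDegree (χ : G → ℂ) ^ 2
            else 0) + c := by
      intro χ
      obtain ⟨K, hKn, hK, -⟩ := hcod χ
      by_cases hN : ∀ n ∈ N, (χ : G → ℂ) n = (χ : G → ℂ) 1
      · have hNK : N ≤ K := fun n hn => (hK n).mpr (hN n hn)
        rcases eq_or_lt_of_le hNK with heq | hlt
        · have hM : ¬ ∀ n ∈ M, (χ : G → ℂ) n = (χ : G → ℂ) 1 := by
            intro hM
            have hMK : M ≤ K := fun n hn => (hK n).mpr (hM n hn)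
            rw [← heq] at hMK
            exact (not_le_of_gt hNM) hMK
          rw [if_pos hN, if_neg hM]
          refine ⟨_, ?_, (zero_add _).symm⟩
          have := hstar χ K hK (heq ▸ hpN)
          exact dvd_pow this (by norm_num)
        · have hMK := claim2 K hKn hlt
          have hM : ∀ n ∈ M, (χ : G → ℂ) n = (χ : G → ℂ) 1 := fun n hn => (hK n).mp (hMK hn)
          rw [if_pos hN, if_pos hM]
          exact ⟨0, dvd_zero p, (add_zero _).symm⟩
      · have hM : ¬ ∀ n ∈ M, (χ : G → ℂ) n = (χ : G → ℂ) 1 := fun hM => hN (fun n hn => hM n (hNM.le hn))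
        rw [if_neg hN, if_neg hM]
        exact ⟨0, dvd_zero p, rfl⟩
    choose c hc1 hc2 using hterm
    rw [Finset.sum_congr rfl (fun χ _ => hc2 χ), Finset.sum_add_distrib, hFM] at hFN
    have h6 : p ∣ ∑ χ : IrrCharacter G, c χ := Finset.dvd_sum (fun χ _ => hc1 χ)
    have h7 : p ∣ M.index := by
      rw [← hFN] at hpN
      exact (Nat.dvd_add_left h6).mp hpN
    exact claim1 M hMn hNM h7
  · rintro ⟨χ, hχ⟩
    obtain ⟨K, hKn, hK, c, hc, hcc⟩ := hcod χ
    rw [hcc] at hχ
    rw [← K.card_mul_index, hc]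
    exact dvd_mul_of_dvd_right (dvd_mul_of_dvd_right hχ _) _

end Cfsg.Agent.S4808
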