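import Cfsg.Statements.S4814
import Cfsg.Agent.Lib.Lead.CharWord

set_option autoImplicit false
open Cfsg

namespace Cfsg.Agent.S4814

/-- Let G be a finite group such that the sum, over the irreducible complex characters χ of G, of 1/χ(1)² is less than 2. Then every element of G is a product of two commutators. -/
theorem result {G : Type*} [Group G] [Finite G]
    (h : ∑ᶠ χ : Cfsg.IrrCharacter G, 1 / ‖(χ : G → ℂ) 1‖ ^ 2 < (2 : ℝ)) (g : G) :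
    ∃ a b c d : G, (a * b * a⁻¹ * b⁻¹) * (c * d * c⁻¹ * d⁻¹) = g := by
  classical
  letI := Fintype.ofFinite G
  haveI : Finite (Cfsg.IrrCharacter G) := Cfsg.Agent.Lib.Lead.irr_finite
  letI : Fintype (Cfsg.IrrCharacter G) := Fintype.ofFinite _
  rw [finsum_eq_sum_of_fintype] at h
  have hcard := Cfsg.Agent.Lib.Lead.card_two_commutators_eq g
  let t : Cfsg.IrrCharacter G := ⟨fun _ => 1, Cfsg.Agent.Lib.Lead.isIrrCharacter_one G⟩
  have hS : ∑ χ : Cfsg.IrrCharacter G, (χ : G → ℂ) g / (χ : G → ℂ) 1 ^ 3 ≠ 0 := by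
    intro h0
    rw [← Finset.add_sum_erase Finset.univ _ (Finset.mem_univ t)] at h0 h
    have ht : (t : G → ℂ) g / (t : G → ℂ) 1 ^ 3 = 1 := by simp [t]
    have ht2 : 1 / ‖(t : G → ℂ) 1‖ ^ 2 = 1 := by simp [t]
    rw [ht] at h0
    rw [ht2] at h
    have h1 : ‖∑ χ ∈ Finset.univ.erase t, (χ : G → ℂ) g / (χ : G → ℂ) 1 ^ 3‖ = 1 := by
      rw [show ∑ χ ∈ Finset.univ.erase t, (χ : G → ℂ) g / (χ : G → ℂ) 1 ^ 3 = -1 from by
        linear_combination h0]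
      simp
    have h2 : ‖∑ χ ∈ Finset.univ.erase t, (χ : G → ℂ) g / (χ : G → ℂ) 1 ^ 3‖ ≤
        ∑ χ ∈ Finset.univ.erase t, 1 / ‖(χ : G → ℂ) 1‖ ^ 2 := by
      refine (norm_sum_le _ _).trans (Finset.sum_le_sum (fun χ _ => ?_))
      rw [norm_div, norm_pow]
      have h3 := Cfsg.Agent.Lib.Lead.norm_irr_le χ g
      have h4 := Cfsg.Agent.Lib.Lead.one_le_norm_irr_one χ
      rw [div_le_div_iff₀ (by positivity) (by positivity)]
      have h5 : 0 ≤ ‖(χ : G → ℂ) 1‖ ^ 2 := by positivity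
      nlinarith [norm_nonneg ((χ : G → ℂ) g), mul_le_mul_of_nonneg_right h3 h5]
    linarith
  have hne : (Nat.card {p : (G × G) × (G × G) //
        (p.1.1 * p.1.2 * p.1.1⁻¹ * p.1.2⁻¹) * (p.2.1 * p.2.2 * p.2.1⁻¹ * p.2.2⁻¹) = g} : ℂ) ≠ 0 := by
    rw [hcard]
    exact mul_ne_zero (pow_ne_zero _ Cfsg.Agent.Lib.Lead.card_ne_zero_complex) hS
  have h2 : Nat.card {p : (G × G) × (G × G) //
        (p.1.1 * p.1.2 * p.1.1⁻¹ * p.1.2⁻¹) * (p.2.1 * p.2.2 * p.2.1⁻¹ * p.2.2⁻¹) = g} ≠ 0 := by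
    intro h0; rw [h0] at hne; simp at hne
  obtain ⟨⟨p, hp⟩⟩ := (Nat.card_pos_iff.mp (Nat.pos_of_ne_zero h2)).1
  exact ⟨p.1.1, p.1.2, p.2.1, p.2.2, hp⟩

end Cfsg.Agent.S4814
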