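import Cfsg.Statements.S4835
import Cfsg.Agent.Lib.Lead.CharTwoClass

set_option autoImplicit false
open Cfsg

namespace Cfsg.Agent.S4835

open Cfsg.Agent.Lib.Lead in
theorem result {G : Type*} [Group G] [Finite G] (hG : 2 < Nat.card G) (χ : Cfsg.IrrCharacter G) (hχ : Nat.card {C : ConjClasses G // ∃ g ∈ C.carrier, (χ : G → ℂ) g ≠ 0} = 2) :
    ∃ N : Subgroup G, N.Normal ∧ N ≠ ⊥ ∧ (∀ K : Subgroup G, K.Normal → K ≠ ⊥ → N ≤ K) ∧
      (∃ p : ℕ, p.Prime ∧ Cfsg.IsElementaryAbelian p N) ∧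
      (∀ g : G, (χ : G → ℂ) g ≠ 0 ↔ g ∈ N) ∧
      (∀ x ∈ N, ∀ y ∈ N, x ≠ 1 → y ≠ 1 → ∃ g : G, g * x * g⁻¹ = y) := by
  classical
  letI := Fintype.ofFinite G
  obtain ⟨a, ha1, ha, hsupp⟩ := two_class_data χ hχ
  obtain ⟨hker, hne⟩ := two_class_main hG χ a ha1 hsupp
  obtain ⟨N, hN, hmem⟩ := two_class_normal hG χ a ha1 hsupp
  haveI := hN
  have hd : (χ : G → ℂ) 1 ≠ 0 := isIrrCharacter_one_ne_zero χ.2
  have haN : a ∈ N := (hmem a).mpr ha
  have hNcase : ∀ g ∈ N, g = 1 ∨ IsConj a g := fun g hg => hsupp g ((hmem g).mp hg)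
  have hNbot : N ≠ ⊥ := by
    intro h; rw [h, Subgroup.mem_bot] at haN; exact ha1 haN
  have hmin : ∀ K : Subgroup G, K.Normal → K ≠ ⊥ → N ≤ K := by
    intro K hK hKne
    haveI := hK
    by_contra hNK
    have haK : a ∉ K := by
      intro haK
      apply hNK
      intro g hg
      rcases hNcase g hg with h | h
      · rw [h]; exact K.one_mem
      · obtain ⟨c, rfl⟩ := isConj_iff.mp h
        exact hK.conj_mem a haK c
    have hvan : ∀ k : K, k ≠ 1 → (χ : G → ℂ) (k : G) = 0 := by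
      intro k hk1
      by_contra h0
      rcases hsupp _ h0 with h | h
      · exact hk1 (Subtype.ext h)
      · obtain ⟨c, hc⟩ := isConj_iff.mp h
        apply haK
        have : a = c⁻¹ * (k : G) * c⁻¹⁻¹ := by rw [← hc]; group
        rw [this]
        exact hK.conj_mem _ k.2 _
    obtain ⟨n, ρ, hirr, hρ⟩ := χ.2
    haveI := hirr
    letI : Fintype K := Fintype.ofFinite K
    have hsum : ∑ k : K, ρ.character (k : G) = ρ.character 1 := by
      rw [Finset.sum_eq_single (1 : K)]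
      · rfl
      · intro k _ hk1
        rw [hρ]; exact hvan k hk1
      · intro h; exact absurd (Finset.mem_univ _) h
    have hsum0 : ∑ k : K, ρ.character (k : G) ≠ 0 := by
      rw [hsum, hρ]; exact hd
    obtain ⟨k, hkK, hk1⟩ : ∃ k ∈ K, k ≠ 1 := by
      by_contra hcon
      push Not at hcon
      apply hKne
      rw [Subgroup.eq_bot_iff_forall]
      exact hcon
    have h1 : ρ k = 1 := rho_eq_one_of_sum_ne_zero ρ K hsum0 ⟨k, hkK⟩
    have h2 : (χ : G → ℂ) k = (χ : G → ℂ) 1 := by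
      rw [← hρ]
      show LinearMap.trace ℂ _ (ρ k) = LinearMap.trace ℂ _ (ρ 1)
      rw [h1, map_one ρ]
    have h3 : (χ : G → ℂ) k = 0 := hvan ⟨k, hkK⟩ (fun h => hk1 (congrArg Subtype.val h))
    rw [h2] at h3
    exact hd h3
  haveI : Nontrivial N := (Subgroup.nontrivial_iff_ne_bot _).mpr hNbot
  have hcard1 : Nat.card N ≠ 1 := by
    have := Finite.one_lt_card (α := N); omega
  obtain ⟨p, hp, hpd⟩ := Nat.exists_prime_and_dvd hcard1
  haveI : Fact p.Prime := ⟨hp⟩
  obtain ⟨x, hx⟩ := exists_prime_orderOf_dvd_card' (G := N) p hpd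
  have hx1 : (x : G) ≠ 1 := by
    intro h
    have : x = 1 := Subtype.ext h
    rw [this, orderOf_one] at hx
    exact hp.one_lt.ne hx
  have hap : a ^ p = 1 := by
    rcases hNcase x x.2 with h | h
    · exact absurd h hx1
    · obtain ⟨c, hc⟩ := isConj_iff.mp h
      have hxp : (x : G) ^ p = 1 := by
        rw [← Subgroup.coe_pow, ← hx, pow_orderOf_eq_one]; rfl
      rw [← hc, conj_pow] at hxp
      have : a ^ p = c⁻¹ * (c * a ^ p * c⁻¹) * c := by group
      rw [this, hxp]; group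
  have hexp : ∀ g ∈ N, g ^ p = 1 := by
    intro g hg
    rcases hNcase g hg with h | h
    · rw [h, one_pow]
    · obtain ⟨c, rfl⟩ := isConj_iff.mp h
      rw [conj_pow, hap]; group
  have hpN : IsPGroup p N := by
    intro g
    refine ⟨1, ?_⟩
    rw [pow_one]
    apply Subtype.ext
    rw [Subgroup.coe_pow]
    exact hexp g g.2
  have hcomm : ∀ x y : N, x * y = y * x := by
    haveI : Nontrivial (Subgroup.center N) := hpN.center_nontrivial
    have hZn : ((Subgroup.center N).map N.subtype).Normal :=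
      ConjAct.normal_of_characteristic_of_normal
    have hZne : (Subgroup.center N).map N.subtype ≠ ⊥ := by
      intro h
      rw [(Subgroup.map_eq_bot_iff_of_injective _ N.subtype_injective)] at h
      exact (Subgroup.nontrivial_iff_ne_bot _).mp ‹_› h
    have hle := hmin _ hZn hZne
    intro x y
    obtain ⟨z, hz, hzx⟩ := Subgroup.mem_map.mp (hle x.2)
    have : z = x := Subtype.ext hzx
    rw [← this]
    exact (Subgroup.mem_center_iff.mp hz y).symm
  refine ⟨N, hN, hNbot, hmin, ⟨p, hp, ⟨⟨⟨hcomm⟩⟩, hexp⟩⟩, fun g => (hmem g).symm, ?_⟩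
  intro x hx y hy hx1 hy1
  have h1 : IsConj a x := (hNcase x hx).resolve_left hx1
  have h2 : IsConj a y := (hNcase y hy).resolve_left hy1
  exact isConj_iff.mp (h1.symm.trans h2)

end Cfsg.Agent.S4835
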