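import Cfsg.Statements.S4836
import Cfsg.Agent.Lib.Lead.CharTwoClass

set_option autoImplicit false
open Cfsg

namespace Cfsg.Agent.S4836

open Cfsg.Agent.Lib.Lead in
theorem result {G : Type*} [Group G] [Finite G] (hG : 2 < Nat.card G) (χ : Cfsg.IrrCharacter G) (hχ : Nat.card {C : ConjClasses G // ∃ g ∈ C.carrier, (χ : G → ℂ) g ≠ 0} = 2) :
    (∀ g : G, (χ : G → ℂ) g = (χ : G → ℂ) 1 → g = 1) ∧
      (∀ ψ : Cfsg.IrrCharacter G, (∀ g : G, (ψ : G → ℂ) g = (ψ : G → ℂ) 1 → g = 1) → ψ = χ) ∧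
      (∀ ψ : Cfsg.IrrCharacter G, Nat.card {C : ConjClasses G // ∃ g ∈ C.carrier, (ψ : G → ℂ) g ≠ 0} = 2 → ψ = χ) := by
  classical
  obtain ⟨a, ha1, ha, hsupp⟩ := two_class_data χ hχ
  obtain ⟨hker, hne⟩ := two_class_main hG χ a ha1 hsupp
  refine ⟨?_, ?_, ?_⟩
  · intro g hg
    have hd : (χ : G → ℂ) 1 ≠ 0 := isIrrCharacter_one_ne_zero χ.2
    rcases hsupp g (by rw [hg]; exact hd) with h | h
    · exact h
    · exfalso; apply hne; rw [← irr_eq_of_isConj χ h]; exact hg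
  · intro ψ hψ
    by_contra hne'
    exact ha1 (hψ a (hker ψ hne'))
  · intro ψ hψ2
    by_contra hne'
    obtain ⟨b, hb1, hb, hsuppb⟩ := two_class_data ψ hψ2
    obtain ⟨hkerb, -⟩ := two_class_main hG ψ b hb1 hsuppb
    have h1 : (ψ : G → ℂ) a = (ψ : G → ℂ) 1 := hker ψ hne'
    have hd : (ψ : G → ℂ) 1 ≠ 0 := isIrrCharacter_one_ne_zero ψ.2
    rcases hsuppb a (by rw [h1]; exact hd) with h | h
    · exact ha1 h
    · apply hne
      rw [irr_eq_of_isConj χ h]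
      exact hkerb χ (fun h => hne' h.symm)

end Cfsg.Agent.S4836
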