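import Cfsg.Statements.S4837
import Cfsg.Agent.Lib.Lead.CharClifford
import Cfsg.Agent.Lib.Lead.CharCenter
import Cfsg.Agent.Lib.Lead.CharMore
import Cfsg.Agent.Lib.Lead.CharIntegral
import Cfsg.Agent.Lib.Lead.CharApps
import Cfsg.Agent.Lib.Lead.CharRing
import Cfsg.Agent.Lib.Lead.CharDeg
import Cfsg.Agent.Lib.Lead.CharBurnside
import Cfsg.Agent.Lib.Lead.TIFrob4

set_option autoImplicit false
open Cfsg
open scoped ComplexConjugate

namespace Cfsg.Agent.S4837
open Cfsg.Agent.Lib.Lead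

theorem sum_two_val {G : Type*} [Group G] [Fintype G] (N : Subgroup G) (F : G → ℂ) (v : ℂ)
    (h0 : ∀ g, g ∉ N → F g = 0) (h1 : ∀ g ∈ N, g ≠ 1 → F g = v) :
    ∑ g : G, F g = F 1 + ((Nat.card N : ℂ) - 1) * v := by
  classical
  have hdec : ∀ g : G, F g = (if g = 1 then F 1 - v else 0) + (if g ∈ N then v else 0) := by
    intro g
    by_cases hg1 : g = 1
    · rw [if_pos hg1, if_pos (hg1 ▸ N.one_mem), hg1]; ring
    · by_cases hgN : g ∈ N
      · rw [if_neg hg1, if_pos hgN, h1 g hgN hg1]; ring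
      · rw [if_neg hg1, if_neg hgN, h0 g hgN]; ring
  have hc : (Finset.univ.filter (fun g : G => g ∈ N)).card = Nat.card N := by
    rw [Nat.card_eq_fintype_card, Fintype.card_subtype]
  rw [Finset.sum_congr rfl (fun g _ => hdec g), Finset.sum_add_distrib,
    Finset.sum_ite_eq' Finset.univ (1 : G) (fun _ => F 1 - v), if_pos (Finset.mem_univ _),
    ← Finset.sum_filter, Finset.sum_const, nsmul_eq_mul, hc]
  ring

/-- The arithmetic data of a character that is nonzero on exactly two classes. -/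
theorem gagola_data {G : Type*} [Group G] [Fintype G] (hG : 2 < Nat.card G) (χ : IrrCharacter G)
    (hχ : Nat.card {C : ConjClasses G // ∃ g ∈ C.carrier, (χ : G → ℂ) g ≠ 0} = 2)
    (p : ℕ) [Fact p.Prime] (N : Subgroup G) [N.Normal] (hN : ∀ g : G, g ∈ N ↔ (χ : G → ℂ) g ≠ 0)
    (hNp : IsPGroup p N) (hN1 : N ≠ ⊥) :
    ∃ e m : ℕ, 0 < e ∧ 0 < m ∧ Nat.card N = m + 1 ∧ ¬ p ∣ m ∧
      (∀ x ∈ N, x ≠ 1 → (χ : G → ℂ) x = -(e : ℂ)) ∧
      (χ : G → ℂ) 1 = ((e * m : ℕ) : ℂ) ∧
      Nat.card G = e ^ 2 * (m + 1) * m ∧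
      (∀ x ∈ N, x ≠ 1 → Nat.card (Subgroup.centralizer ({x} : Set G)) = e ^ 2 * (m + 1)) ∧
      e ^ 2 * (m + 1) = p ^ (Nat.card G).factorization p := by
  classical
  have hp : p.Prime := Fact.out
  have hχchar := isCharacter_of_isIrrCharacter χ.2
  have hcf := isClassFunction_irr χ
  have hd0 : 0 < charDegree (χ : G → ℂ) := charDegree_pos_of_irr χ.2
  have hχ1 : (χ : G → ℂ) 1 = (charDegree (χ : G → ℂ) : ℂ) := isIrrCharacter_one_eq_charDegree χ.2
  have hχ1' : (χ : G → ℂ) 1 ≠ 0 := by rw [hχ1]; exact_mod_cast hd0.ne'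
  have hoff : ∀ g : G, g ∉ N → (χ : G → ℂ) g = 0 := by
    intro g hg
    by_contra h
    exact hg ((hN g).mpr h)
  have hconj : ∀ x ∈ N, x ≠ 1 → ∀ y ∈ N, y ≠ 1 → IsConj x y := by
    intro x hx hx1 y hy hy1
    obtain ⟨a, ha⟩ : ∃ a : {C : ConjClasses G // ∃ g ∈ C.carrier, (χ : G → ℂ) g ≠ 0},
        a.1 = ConjClasses.mk 1 := ⟨⟨ConjClasses.mk 1, 1, ConjClasses.mem_carrier_mk, hχ1'⟩, rfl⟩
    obtain ⟨bx, hbx⟩ : ∃ a : {C : ConjClasses G // ∃ g ∈ C.carrier, (χ : G → ℂ) g ≠ 0},
        a.1 = ConjClasses.mk x :=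
      ⟨⟨ConjClasses.mk x, x, ConjClasses.mem_carrier_mk, (hN x).mp hx⟩, rfl⟩
    obtain ⟨by', hby⟩ : ∃ a : {C : ConjClasses G // ∃ g ∈ C.carrier, (χ : G → ℂ) g ≠ 0},
        a.1 = ConjClasses.mk y :=
      ⟨⟨ConjClasses.mk y, y, ConjClasses.mem_carrier_mk, (hN y).mp hy⟩, rfl⟩
    obtain ⟨c, hc, huniq⟩ := (Nat.card_eq_two_iff' a).mp hχ
    have hbxa : bx ≠ a := by
      intro h
      have h' : ConjClasses.mk x = ConjClasses.mk 1 := by rw [← hbx, ← ha, h]
      exact hx1 (isConj_one_left.mp (ConjClasses.mk_eq_mk_iff_isConj.mp h'))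
    have hbya : by' ≠ a := by
      intro h
      have h' : ConjClasses.mk y = ConjClasses.mk 1 := by rw [← hby, ← ha, h]
      exact hy1 (isConj_one_left.mp (ConjClasses.mk_eq_mk_iff_isConj.mp h'))
    have hxy : bx = by' := (huniq bx hbxa).trans (huniq by' hbya).symm
    have h' : ConjClasses.mk x = ConjClasses.mk y := by rw [← hbx, ← hby, hxy]
    exact ConjClasses.mk_eq_mk_iff_isConj.mp h'
  obtain ⟨⟨x₀, hx₀⟩, hx₀1⟩ := (Subgroup.ne_bot_iff_exists_ne_one).mp hN1
  have hx₀1' : x₀ ≠ 1 := fun h => hx₀1 (Subtype.ext h)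
  have hval : ∀ x ∈ N, x ≠ 1 → (χ : G → ℂ) x = (χ : G → ℂ) x₀ := by
    intro x hx hx1
    obtain ⟨g, hg⟩ := isConj_iff.mp (hconj x₀ hx₀ hx₀1' x hx hx1)
    rw [← hg]; exact hcf x₀ g
  -- cardinality of N
  have hN2 : 2 ≤ Nat.card N := by
    have : Nontrivial N := ⟨⟨⟨x₀, hx₀⟩, 1, hx₀1⟩⟩
    exact Finite.one_lt_card
  obtain ⟨m, hm⟩ : ∃ m, Nat.card N = m + 1 := ⟨Nat.card N - 1, by omega⟩
  have hm0 : 0 < m := by omega
  have hmC : (Nat.card N : ℂ) - 1 = (m : ℂ) := by rw [hm]; push_cast; ring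
  -- class of a nonidentity element of N
  have hcent : ∀ x ∈ N, x ≠ 1 →
      Nat.card (Subgroup.centralizer ({x} : Set G)) * m = Nat.card G := by
    intro x hx hx1
    have hcl : classFinset x = (Finset.univ.filter (fun g : G => g ∈ N)).erase 1 := by
      ext g
      rw [mem_classFinset, Finset.mem_erase, Finset.mem_filter]
      constructor
      · intro h
        obtain ⟨c, hc⟩ := isConj_iff.mp h
        refine ⟨?_, Finset.mem_univ _, ?_⟩
        · intro hg1
          rw [hg1] at h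
          exact hx1 (isConj_one_left.mp h)
        · rw [← hc]; exact (inferInstance : N.Normal).conj_mem x hx c
      · rintro ⟨hg1, -, hgN⟩
        exact hconj x hx hx1 g hgN hg1
    have hcard : (classFinset x).card = m := by
      rw [hcl, Finset.card_erase_of_mem (by simp [N.one_mem])]
      have hc : (Finset.univ.filter (fun g : G => g ∈ N)).card = Nat.card N := by
        rw [Nat.card_eq_fintype_card, Fintype.card_subtype]
      rw [hc, hm]; rfl
    rw [← hcard, card_classFinset]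
    exact Subgroup.card_mul_index _
  -- the two sums
  have hsum1 : ∑ g : G, (χ : G → ℂ) g = (χ : G → ℂ) 1 + (m : ℂ) * (χ : G → ℂ) x₀ := by
    rw [sum_two_val N (χ : G → ℂ) ((χ : G → ℂ) x₀) hoff hval, hmC]
  have hsum2 : ∑ g : G, (χ : G → ℂ) g * conj ((χ : G → ℂ) g) =
      (χ : G → ℂ) 1 * conj ((χ : G → ℂ) 1) +
        (m : ℂ) * ((χ : G → ℂ) x₀ * conj ((χ : G → ℂ) x₀)) := by
    rw [sum_two_val N (fun g => (χ : G → ℂ) g * conj ((χ : G → ℂ) g))
      ((χ : G → ℂ) x₀ * conj ((χ : G → ℂ) x₀))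
      (fun g hg => by show (χ : G → ℂ) g * conj ((χ : G → ℂ) g) = 0; rw [hoff g hg, zero_mul])
      (fun g hg hg1 => by
        show (χ : G → ℂ) g * conj ((χ : G → ℂ) g) = _
        rw [hval g hg hg1]), hmC]
  have hG0 : (Nat.card G : ℂ) ≠ 0 := by exact_mod_cast (Nat.card_pos (α := G)).ne'
  have hnorm : ∑ g : G, (χ : G → ℂ) g * conj ((χ : G → ℂ) g) = (Nat.card G : ℂ) := by
    have h := irr_orthonormal χ.2 χ.2
    rw [if_pos rfl] at h
    unfold classInner at h
    field_simp at h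
    exact h
  -- χ is not the principal character
  have hne1 : (χ : G → ℂ) ≠ fun _ => 1 := by
    intro h1
    have hNtop : ∀ g : G, g ∈ N := by
      intro g; rw [hN g, h1]; exact one_ne_zero
    have hNG : Nat.card N = Nat.card G := by
      have : N = ⊤ := (Subgroup.eq_top_iff' N).mpr hNtop
      rw [this, Subgroup.card_top]
    have h2 := hcent x₀ hx₀ hx₀1'
    have h3 : m ∣ m + 1 := by
      rw [← hm, hNG, ← h2]; exact dvd_mul_left _ _
    have h4 : m ∣ 1 := (Nat.dvd_add_right (dvd_refl m)).mp h3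
    have h5 : m = 1 := Nat.dvd_one.mp h4
    omega
  have hzero : ∑ g : G, (χ : G → ℂ) g = 0 := by
    have h := irr_orthonormal χ.2 (isIrrCharacter_one G)
    rw [if_neg hne1] at h
    unfold classInner at h
    rcases mul_eq_zero.mp h with h | h
    · exact absurd (inv_eq_zero.mp h) hG0
    · simpa using h
  -- the value at x₀
  have hmC0 : (m : ℂ) ≠ 0 := by exact_mod_cast hm0.ne'
  have hc : (χ : G → ℂ) x₀ = -((charDegree (χ : G → ℂ) : ℂ) / (m : ℂ)) := by
    have h := hsum1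
    rw [hzero, hχ1] at h
    field_simp
    linear_combination -h
  have hint : IsIntegral ℤ ((charDegree (χ : G → ℂ) : ℂ) / (m : ℂ)) := by
    have h := (isCharacter_isIntegral hχchar x₀).neg
    rw [hc, neg_neg] at h
    exact h
  obtain ⟨e, he⟩ := nat_dvd_of_isIntegral_div hm0.ne' hint
  have he0 : 0 < e := by
    rcases Nat.eq_zero_or_pos e with h | h
    · rw [h, mul_zero] at he; omega
    · exact h
  have hcval : (χ : G → ℂ) x₀ = -(e : ℂ) := by
    rw [hc, he]; push_cast; field_simp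
  have hGcard : Nat.card G = e ^ 2 * (m + 1) * m := by
    have h := hsum2
    rw [hnorm, hχ1, hcval, he] at h
    have h' : (Nat.card G : ℂ) = ((e ^ 2 * (m + 1) * m : ℕ) : ℂ) := by
      rw [h]; push_cast
      simp only [map_neg, map_mul, Complex.conj_natCast]
      ring
    exact_mod_cast h'
  have hcentcard : ∀ x ∈ N, x ≠ 1 →
      Nat.card (Subgroup.centralizer ({x} : Set G)) = e ^ 2 * (m + 1) := by
    intro x hx hx1
    have h := hcent x hx hx1
    rw [hGcard] at h
    exact Nat.eq_of_mul_eq_mul_right hm0 h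
  -- N has p-power order
  obtain ⟨ν, hν⟩ := hNp.exists_card_eq
  have hν' : m + 1 = p ^ ν := by rw [← hm, hν]
  have hν0 : ν ≠ 0 := by
    intro h; rw [h, pow_zero] at hν'; omega
  have hpm : ¬ p ∣ m := by
    intro h
    have h1 : p ∣ m + 1 := by rw [hν']; exact dvd_pow_self p hν0
    have h2 : p ∣ 1 := (Nat.dvd_add_right h).mp h1
    exact hp.one_lt.ne' (Nat.dvd_one.mp h2)
  -- e is a power of p
  have hdeg : charDegree (χ : G → ℂ) = m * e := he
  have heprime : ∀ {q : ℕ}, q.Prime → q ∣ e → q = p := by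
    intro q hq hqe
    by_contra hqp
    haveI : Fact q.Prime := ⟨hq⟩
    obtain ⟨Q⟩ : Nonempty (Sylow q G) := inferInstance
    have hvan : ∀ g : G, g ∈ (Q : Subgroup G) → g ≠ 1 → (χ : G → ℂ) g = 0 := by
      intro g hg hg1
      by_contra hne
      have hgN : g ∈ N := (hN g).mpr hne
      obtain ⟨k1, hk1⟩ := Q.isPGroup' ⟨g, hg⟩
      obtain ⟨k2, hk2⟩ := hNp ⟨g, hgN⟩
      have h1 : g ^ q ^ k1 = 1 := by simpa using congrArg Subtype.val hk1
      have h2 : g ^ p ^ k2 = 1 := by simpa using congrArg Subtype.val hk2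
      have h3 : orderOf g ∣ Nat.gcd (q ^ k1) (p ^ k2) :=
        Nat.dvd_gcd (orderOf_dvd_of_pow_eq_one h1) (orderOf_dvd_of_pow_eq_one h2)
      have h4 : Nat.gcd (q ^ k1) (p ^ k2) = 1 :=
        Nat.Coprime.pow _ _ ((Nat.coprime_primes hq hp).mpr hqp)
      rw [h4] at h3
      exact hg1 (orderOf_eq_one_iff.mp (Nat.dvd_one.mp h3))
    obtain ⟨k, hk⟩ := card_dvd_degree_of_vanish (Q : Subgroup G) (χ : G → ℂ) hχchar hvan
    have hQd : Nat.card (Q : Subgroup G) ∣ charDegree (χ : G → ℂ) := by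
      refine ⟨k, ?_⟩
      rw [hχ1] at hk
      exact_mod_cast hk
    have hQc : Nat.card (Q : Subgroup G) = q ^ (Nat.card G).factorization q :=
      Q.card_eq_multiplicity
    rw [hQc] at hQd
    have hle := (Nat.Prime.pow_dvd_iff_le_factorization hq hd0.ne').mp hQd
    have hm1 : (m + 1).factorization q = 0 := by
      apply Nat.factorization_eq_zero_of_not_dvd
      rw [hν']
      intro h
      exact hqp ((Nat.prime_dvd_prime_iff_eq hq hp).mp (hq.dvd_of_dvd_pow h))
    have hfG : (Nat.card G).factorization q = 2 * e.factorization q + m.factorization q := by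
      rw [hGcard, Nat.factorization_mul (Nat.mul_ne_zero (pow_ne_zero 2 he0.ne') (Nat.succ_ne_zero m)) hm0.ne',
        Nat.factorization_mul (pow_ne_zero 2 he0.ne') (Nat.succ_ne_zero m), Nat.factorization_pow]
      simp [hm1]
    have hfd : (charDegree (χ : G → ℂ)).factorization q = m.factorization q + e.factorization q := by
      rw [hdeg, Nat.factorization_mul hm0.ne' he0.ne']; rfl
    have h1 : 1 ≤ e.factorization q := (hq.dvd_iff_one_le_factorization he0.ne').mp hqe
    omega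
  have hepow : e = p ^ e.primeFactorsList.length :=
    Nat.eq_prime_pow_of_unique_prime_dvd he0.ne' heprime
  obtain ⟨k, hk⟩ : ∃ k, e = p ^ k := ⟨_, hepow⟩
  have hpow : e ^ 2 * (m + 1) = p ^ (2 * k + ν) := by
    rw [hν', hk]; ring
  have hfact : (Nat.card G).factorization p = 2 * k + ν := by
    rw [hGcard, hpow, Nat.factorization_mul (pow_ne_zero _ hp.ne_zero) hm0.ne', Finsupp.add_apply,
      Nat.Prime.factorization_pow hp, Finsupp.single_eq_same,
      Nat.factorization_eq_zero_of_not_dvd hpm, add_zero]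
  refine ⟨e, m, he0, hm0, hm, hpm, ?_, ?_, hGcard, hcentcard, ?_⟩
  · intro x hx hx1
    rw [hval x hx hx1, hcval]
  · rw [hχ1, hdeg, mul_comm]
  · rw [hfact, hpow]

theorem result {G : Type*} [Group G] [Finite G] (hG : 2 < Nat.card G) (χ : Cfsg.IrrCharacter G) (hχ : Nat.card {C : ConjClasses G // ∃ g ∈ C.carrier, (χ : G → ℂ) g ≠ 0} = 2) (p : ℕ) [Fact p.Prime] (N : Subgroup G) [N.Normal] (hN : ∀ g : G, g ∈ N ↔ (χ : G → ℂ) g ≠ 0) (hNp : IsPGroup p N) (hN1 : N ≠ ⊥) :
    (∀ x ∈ N, x ≠ 1 → ∃ P : Sylow p G, Subgroup.centralizer ({x} : Set G) = P) ∧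
      (∀ μ : Cfsg.IrrCharacter N, (μ : N → ℂ) ≠ (fun _ => (1 : ℂ)) → ∃ P : Sylow p G, ∀ g : G, g ∈ (P : Subgroup G) ↔ ∀ n n' : N, (n' : G) = g * n * g⁻¹ → (μ : N → ℂ) n' = (μ : N → ℂ) n) := by
  classical
  letI := Fintype.ofFinite G
  letI : Fintype N := Fintype.ofFinite N
  have hp : p.Prime := Fact.out
  obtain ⟨e, m, he0, hm0, hm, hpm, hval, hχ1, hGcard, hcent, hpow⟩ :=
    gagola_data hG χ hχ p N hN hNp hN1
  refine ⟨fun x hx hx1 => ?_, fun μ hμ => ?_⟩
  · refine ⟨Sylow.ofCard (Subgroup.centralizer ({x} : Set G)) ?_, ?_⟩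
    · rw [hcent x hx hx1, hpow]
    · rw [Sylow.coe_ofCard]
  · -- the inner product with μ
    have hμ1 : (μ : N → ℂ) 1 = (charDegree (μ : N → ℂ) : ℂ) := isIrrCharacter_one_eq_charDegree μ.2
    have hf0 : 0 < charDegree (μ : N → ℂ) := charDegree_pos_of_irr μ.2
    have hN0 : (Nat.card N : ℂ) ≠ 0 := by exact_mod_cast (Nat.card_pos (α := N)).ne'
    have hμsum : ∑ n : N, conj ((μ : N → ℂ) n) = 0 := by
      have h := irr_orthonormal μ.2 (isIrrCharacter_one N)
      rw [if_neg hμ] at h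
      unfold classInner at h
      rcases mul_eq_zero.mp h with h | h
      · exact absurd (inv_eq_zero.mp h) hN0
      · have h2 : ∑ n : N, (μ : N → ℂ) n = 0 := by simpa using h
        rw [← map_sum, h2, map_zero]
    have hinner : classInner (fun h : N => (χ : G → ℂ) h) (μ : N → ℂ) =
        (e : ℂ) * (charDegree (μ : N → ℂ) : ℂ) := by
      unfold classInner
      have hterm : ∀ n : N, (χ : G → ℂ) n * conj ((μ : N → ℂ) n) =
          -(e : ℂ) * conj ((μ : N → ℂ) n) +
            (if n = 1 then ((e : ℂ) * ((m : ℂ) + 1)) * (charDegree (μ : N → ℂ) : ℂ) else 0) := by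
        intro n
        by_cases hn : n = 1
        · rw [if_pos hn, hn]
          show (χ : G → ℂ) 1 * conj ((μ : N → ℂ) 1) = _
          rw [hχ1, hμ1, Complex.conj_natCast]; push_cast; ring
        · rw [if_neg hn, add_zero, hval n n.2 (fun h => hn (Subtype.ext h))]
      rw [Finset.sum_congr rfl (fun n _ => hterm n), Finset.sum_add_distrib, ← Finset.mul_sum,
        hμsum, mul_zero, zero_add,
        Finset.sum_ite_eq' Finset.univ (1 : N)
          (fun _ => ((e : ℂ) * ((m : ℂ) + 1)) * (charDegree (μ : N → ℂ) : ℂ)),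
        if_pos (Finset.mem_univ _), hm]
      push_cast
      field_simp
    have he0C : (e : ℂ) ≠ 0 := by exact_mod_cast he0.ne'
    have hf0C : (charDegree (μ : N → ℂ) : ℂ) ≠ 0 := by exact_mod_cast hf0.ne'
    have hinner0 : classInner (fun h : N => (χ : G → ℂ) h) (μ : N → ℂ) ≠ 0 := by
      rw [hinner]; exact mul_ne_zero he0C hf0C
    have hdegf := clifford_degree N χ.2 μ.2 hinner0
    rw [hχ1, hinner, hμ1] at hdegf
    -- m = f^2 * t
    have hmt : m = charDegree (μ : N → ℂ) ^ 2 * (conjFinset N (μ : N → ℂ)).card := by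
      have h : ((m : ℕ) : ℂ) =
          ((charDegree (μ : N → ℂ) ^ 2 * (conjFinset N (μ : N → ℂ)).card : ℕ) : ℂ) := by
        have h2 : (e : ℂ) * (m : ℂ) = (e : ℂ) * ((charDegree (μ : N → ℂ) : ℂ) ^ 2 *
            ((conjFinset N (μ : N → ℂ)).card : ℂ)) := by
          have h3 := hdegf
          push_cast at h3
          rw [h3]; ring
        have h4 := mul_left_cancel₀ he0C h2
        rw [h4]; push_cast; ring
      exact_mod_cast h
    -- f = 1
    obtain ⟨ν, hν⟩ := hNp.exists_card_eq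
    have hfdvd : charDegree (μ : N → ℂ) ∣ Nat.card N := irr_degree_dvd_card μ _ hμ1
    have hf1 : charDegree (μ : N → ℂ) = 1 := by
      rw [hν] at hfdvd
      obtain ⟨i, -, hi⟩ := (Nat.dvd_prime_pow hp).mp hfdvd
      rcases Nat.eq_zero_or_pos i with h | h
      · rw [hi, h, pow_zero]
      · exfalso
        apply hpm
        rw [hmt, hi]
        exact dvd_mul_of_dvd_left (dvd_pow (dvd_pow_self p h.ne') (by norm_num)) _
    rw [hf1, one_pow, one_mul] at hmt
    have hμ1' : (μ : N → ℂ) 1 ≠ 0 := by rw [hμ1]; exact hf0C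
    have horb := card_conjFinset_mul N (μ : N → ℂ) hμ1'
    rw [← hmt, hGcard] at horb
    have hstab : Nat.card {y : G // twist N y (μ : N → ℂ) = (μ : N → ℂ)} = e ^ 2 * (m + 1) :=
      Nat.eq_of_mul_eq_mul_right hm0 horb
    have hIcard : Nat.card (charInertia N (μ : N → ℂ)) = e ^ 2 * (m + 1) := by
      rw [← hstab]
      apply Nat.card_congr
      apply Equiv.subtypeEquivRight
      intro g
      rw [mem_charInertia]
      constructor
      · intro h; funext n; exact h n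
      · intro h n; exact congrFun h n
    refine ⟨Sylow.ofCard (charInertia N (μ : N → ℂ)) (by rw [hIcard, hpow]), ?_⟩
    intro g
    rw [Sylow.coe_ofCard, mem_charInertia]
    constructor
    · intro h n n' hn'
      have : n' = ⟨g * n * g⁻¹, (inferInstance : N.Normal).conj_mem n n.2 g⟩ := Subtype.ext hn'
      rw [this]; exact h n
    · intro h n
      exact h n ⟨g * n * g⁻¹, (inferInstance : N.Normal).conj_mem n n.2 g⟩ rfl

end Cfsg.Agent.S4837
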