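import Cfsg.Statements.S4838
import Cfsg.Agent.S4837

set_option autoImplicit false
open Cfsg
open scoped ComplexConjugate

namespace Cfsg.Agent.S4838
open Cfsg.Agent.Lib.Lead

/-- All nonidentity elements of `N` are conjugate. -/
theorem conj_of_two {G : Type*} [Group G] [Fintype G] (χ : IrrCharacter G)
    (hχ : Nat.card {C : ConjClasses G // ∃ g ∈ C.carrier, (χ : G → ℂ) g ≠ 0} = 2)
    (N : Subgroup G) (hN : ∀ g : G, g ∈ N ↔ (χ : G → ℂ) g ≠ 0) :
    ∀ x ∈ N, x ≠ 1 → ∀ y ∈ N, y ≠ 1 → IsConj x y := by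
  classical
  have hd0 : 0 < charDegree (χ : G → ℂ) := charDegree_pos_of_irr χ.2
  have hχ1 : (χ : G → ℂ) 1 = (charDegree (χ : G → ℂ) : ℂ) := isIrrCharacter_one_eq_charDegree χ.2
  have hχ1' : (χ : G → ℂ) 1 ≠ 0 := by rw [hχ1]; exact_mod_cast hd0.ne'
  intro x hx hx1 y hy hy1
  obtain ⟨a, ha⟩ : ∃ a : {C : ConjClasses G // ∃ g ∈ C.carrier, (χ : G → ℂ) g ≠ 0},
      a.1 = ConjClasses.mk 1 := ⟨⟨ConjClasses.mk 1, 1, ConjClasses.mem_carrier_mk, hχ1'⟩, rfl⟩
  obtain ⟨bx, hbx⟩ : ∃ a : {C : ConjClasses G // ∃ g ∈ C.carrier, (χ : G → ℂ) g ≠ 0},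
      a.1 = ConjClasses.mk x :=
    ⟨⟨ConjClasses.mk x, x, ConjClasses.mem_carrier_mk, (hN x).mp hx⟩, rfl⟩
  obtain ⟨by', hby⟩ : ∃ a : {C : ConjClasses G // ∃ g ∈ C.carrier, (χ : G → ℂ) g ≠ 0},
      a.1 = ConjClasses.mk y :=
    ⟨⟨ConjClasses.mk y, y, ConjClasses.mem_carrier_mk, (hN y).mp hy⟩, rfl⟩
  obtain ⟨c, hc, huniq⟩ := (Nat.card_eq_two_iff' a).mp hχ
  have hbxa : bx ≠ a := by
    intro h
    have h' : ConjClasses.mk x = ConjClasses.mk 1 := by rw [← hbx, ← ha, h]
    exact hx1 (isConj_one_left.mp (ConjClasses.mk_eq_mk_iff_isConj.mp h'))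
  have hbya : by' ≠ a := by
    intro h
    have h' : ConjClasses.mk y = ConjClasses.mk 1 := by rw [← hby, ← ha, h]
    exact hy1 (isConj_one_left.mp (ConjClasses.mk_eq_mk_iff_isConj.mp h'))
  have hxy : bx = by' := (huniq bx hbxa).trans (huniq by' hbya).symm
  have h' : ConjClasses.mk x = ConjClasses.mk y := by rw [← hbx, ← hby, hxy]
  exact ConjClasses.mk_eq_mk_iff_isConj.mp h'

/-- Every irreducible character other than `χ` is trivial on `N`. -/
theorem other_trivial {G : Type*} [Group G] [Fintype G] (χ ψ : IrrCharacter G) (hne : ψ ≠ χ)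
    (N : Subgroup G) (e m : ℕ) (he : 0 < e) (hm : 0 < m) (hNm : Nat.card N = m + 1)
    (hoff : ∀ g : G, g ∉ N → (χ : G → ℂ) g = 0)
    (hval : ∀ x ∈ N, x ≠ 1 → (χ : G → ℂ) x = -(e : ℂ))
    (hχ1 : (χ : G → ℂ) 1 = ((e * m : ℕ) : ℂ))
    (hconj : ∀ x ∈ N, x ≠ 1 → ∀ y ∈ N, y ≠ 1 → IsConj x y) :
    ∀ n ∈ N, (ψ : G → ℂ) n = (ψ : G → ℂ) 1 := by
  classical
  intro n hn
  by_cases hn1 : n = 1
  · rw [hn1]
  have hcf := isClassFunction_irr ψ
  have hvalψ : ∀ x ∈ N, x ≠ 1 → (ψ : G → ℂ) x = (ψ : G → ℂ) n := by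
    intro x hx hx1
    obtain ⟨g, hg⟩ := isConj_iff.mp (hconj n hn hn1 x hx hx1)
    rw [← hg]; exact hcf n g
  have hG0 : (Nat.card G : ℂ) ≠ 0 := by exact_mod_cast (Nat.card_pos (α := G)).ne'
  have hzero : ∑ g : G, (ψ : G → ℂ) g * conj ((χ : G → ℂ) g) = 0 := by
    have h := irr_orthonormal ψ.2 χ.2
    rw [if_neg (fun h' => hne (Subtype.ext h'))] at h
    unfold classInner at h
    rcases mul_eq_zero.mp h with h | h
    · exact absurd (inv_eq_zero.mp h) hG0
    · exact h
  have hmC : (Nat.card N : ℂ) - 1 = (m : ℂ) := by rw [hNm]; push_cast; ring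
  have hsum : ∑ g : G, (ψ : G → ℂ) g * conj ((χ : G → ℂ) g) =
      (ψ : G → ℂ) 1 * conj ((χ : G → ℂ) 1) + (m : ℂ) * ((ψ : G → ℂ) n * conj (-(e : ℂ))) := by
    rw [S4837.sum_two_val N (fun g => (ψ : G → ℂ) g * conj ((χ : G → ℂ) g))
      ((ψ : G → ℂ) n * conj (-(e : ℂ)))
      (fun g hg => by
        show (ψ : G → ℂ) g * conj ((χ : G → ℂ) g) = 0
        rw [hoff g hg, map_zero, mul_zero])
      (fun g hg hg1 => by
        show (ψ : G → ℂ) g * conj ((χ : G → ℂ) g) = _
        rw [hvalψ g hg hg1, hval g hg hg1]), hmC]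
  rw [hzero, hχ1] at hsum
  simp only [map_neg, Complex.conj_natCast] at hsum
  push_cast at hsum
  have heC : (e : ℂ) ≠ 0 := by exact_mod_cast he.ne'
  have hmC0 : (m : ℂ) ≠ 0 := by exact_mod_cast hm.ne'
  have h3 : (e : ℂ) * (m : ℂ) * ((ψ : G → ℂ) 1 - (ψ : G → ℂ) n) = 0 := by
    linear_combination -hsum
  rcases mul_eq_zero.mp h3 with h | h
  · exact absurd h (mul_ne_zero heC hmC0)
  · exact (sub_eq_zero.mp h).symm

/-- A character trivial at `n` is constant on the cosets of `n`. -/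
theorem coset_const {G : Type*} [Group G] [Finite G] (ψ : G → ℂ) (hψ : IsIrrCharacter G ψ) (n : G)
    (h : ψ n = ψ 1) (g : G) : ψ (g * n) = ψ g := by
  obtain ⟨k, ρ, hρ, rfl⟩ := hψ
  have h1 : ρ.character 1 = (Module.finrank ℂ (Fin k → ℂ) : ℂ) := Representation.char_one ρ
  have h2 : ρ n = LinearMap.id := (char_eq_finrank_iff ρ n).mp (h.trans h1)
  show LinearMap.trace ℂ _ (ρ (g * n)) = LinearMap.trace ℂ _ (ρ g)
  rw [map_mul, h2]
  rfl

theorem conj_coset {G : Type*} [Group G] [Fintype G] (χ : IrrCharacter G) (N : Subgroup G)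
    (hoff : ∀ g : G, g ∉ N → (χ : G → ℂ) g = 0)
    (hK : ∀ ψ : IrrCharacter G, ψ ≠ χ → ∀ n ∈ N, (ψ : G → ℂ) n = (ψ : G → ℂ) 1)
    (x : G) (hx : x ∉ N) (n : G) (hn : n ∈ N) : IsConj (x * n) x := by
  classical
  haveI : Finite (IrrCharacter G) := irr_finite
  letI : Fintype (IrrCharacter G) := Fintype.ofFinite _
  have h1 := second_orthogonality (x * n) x
  have h2 := second_orthogonality x x
  rw [if_pos (IsConj.refl x)] at h2
  have hxn : x * n ∉ N := fun h => hx (by simpa using N.mul_mem h (N.inv_mem hn))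
  have h3 : ∑ ψ : IrrCharacter G, (ψ : G → ℂ) (x * n) * conj ((ψ : G → ℂ) x) =
      ∑ ψ : IrrCharacter G, (ψ : G → ℂ) x * conj ((ψ : G → ℂ) x) := by
    refine Finset.sum_congr rfl (fun ψ _ => ?_)
    by_cases hψ : ψ = χ
    · rw [hψ, hoff _ hxn, hoff _ hx]
    · rw [coset_const (ψ : G → ℂ) ψ.2 n (hK ψ hψ n hn) x]
  by_contra hc
  rw [if_neg hc, h3, h2] at h1
  have : (Nat.card (Subgroup.centralizer ({x} : Set G)) : ℂ) ≠ 0 := by
    exact_mod_cast (Nat.card_pos (α := Subgroup.centralizer ({x} : Set G))).ne'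
  exact this h1

theorem cent_card {G : Type*} [Group G] [Finite G] (N : Subgroup G) [N.Normal] (x : G)
    (hc : ∀ n ∈ N, IsConj (x * n) x) :
    Nat.card (Subgroup.centralizer ({x} : Set G)) =
      Nat.card (Subgroup.centralizer ({(x : G ⧸ N)} : Set (G ⧸ N))) := by
  classical
  have hmemS : ∀ g : G, g ∈ (Subgroup.centralizer ({(x : G ⧸ N)} : Set (G ⧸ N))).comap
      (QuotientGroup.mk' N) ↔ x⁻¹ * (g * x * g⁻¹) ∈ N := by
    intro g
    rw [Subgroup.mem_comap, Subgroup.mem_centralizer_singleton_iff, ← QuotientGroup.eq_one_iff]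
    have key : ∀ a b : G ⧸ N, a * b = b * a ↔ b⁻¹ * (a * b * a⁻¹) = 1 := by
      intro a b
      constructor
      · intro h; rw [h]; group
      · intro h
        have h1 : a * b * a⁻¹ = b := (inv_mul_eq_one.mp h).symm
        exact mul_inv_eq_iff_eq_mul.mp h1
    exact key _ _
  have hex : ∀ n : N, ∃ c : G, c * x * c⁻¹ = x * (n : G) :=
    fun n => isConj_iff.mp (hc n n.2).symm
  choose h hh using hex
  have conjform : ∀ (n : N) (c : Subgroup.centralizer ({x} : Set G)),
      h n * (c : G) * x * (h n * (c : G))⁻¹ = x * (n : G) := by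
    intro n c
    have hcx : (c : G) * x * (c : G)⁻¹ = x :=
      mul_inv_eq_iff_eq_mul.mpr (Subgroup.mem_centralizer_singleton_iff.mp c.2)
    rw [← hh n]
    calc h n * (c : G) * x * (h n * (c : G))⁻¹
        = h n * ((c : G) * x * (c : G)⁻¹) * (h n)⁻¹ := by group
      _ = h n * x * (h n)⁻¹ := by rw [hcx]
  have hcard : Nat.card ((Subgroup.centralizer ({(x : G ⧸ N)} : Set (G ⧸ N))).comap
      (QuotientGroup.mk' N)) = Nat.card N * Nat.card (Subgroup.centralizer ({x} : Set G)) := by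
    rw [← Nat.card_prod]
    apply Nat.card_congr
    symm
    refine Equiv.ofBijective (fun nc : N × Subgroup.centralizer ({x} : Set G) =>
      (⟨h nc.1 * (nc.2 : G), ?_⟩ : ((Subgroup.centralizer ({(x : G ⧸ N)} : Set (G ⧸ N))).comap
      (QuotientGroup.mk' N)))) ⟨?_, ?_⟩
    · rw [hmemS, conjform nc.1 nc.2]
      simp
    · rintro ⟨n, c⟩ ⟨n', c'⟩ heq
      have heq' : h n * (c : G) = h n' * (c' : G) := congrArg Subtype.val heq
      have e1 := conjform n c
      have e2 := conjform n' c'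
      rw [heq'] at e1
      have hnn : (n : G) = n' := mul_left_cancel (e1.symm.trans e2)
      have hnn' : n = n' := Subtype.ext hnn
      subst hnn'
      have hcc : (c : G) = c' := mul_left_cancel heq'
      rw [Subtype.ext hcc]
    · rintro ⟨g, hg⟩
      let n : N := ⟨x⁻¹ * (g * x * g⁻¹), (hmemS g).mp hg⟩
      have hxn : x * (n : G) = g * x * g⁻¹ := by
        show x * (x⁻¹ * (g * x * g⁻¹)) = _
        group
      have hcmem : (h n)⁻¹ * g ∈ Subgroup.centralizer ({x} : Set G) := by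
        rw [Subgroup.mem_centralizer_singleton_iff]
        have h1 : (h n)⁻¹ * g * x * ((h n)⁻¹ * g)⁻¹ = x := by
          calc (h n)⁻¹ * g * x * ((h n)⁻¹ * g)⁻¹ = (h n)⁻¹ * (g * x * g⁻¹) * h n := by group
            _ = (h n)⁻¹ * (h n * x * (h n)⁻¹) * h n := by rw [← hxn, hh n]
            _ = x := by group
        exact mul_inv_eq_iff_eq_mul.mp h1
      refine ⟨(n, ⟨(h n)⁻¹ * g, hcmem⟩), ?_⟩
      apply Subtype.ext
      show h n * ((h n)⁻¹ * g) = g
      group
  have hidx : ((Subgroup.centralizer ({(x : G ⧸ N)} : Set (G ⧸ N))).comap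
      (QuotientGroup.mk' N)).index =
      (Subgroup.centralizer ({(x : G ⧸ N)} : Set (G ⧸ N))).index :=
    Subgroup.index_comap_of_surjective _ (QuotientGroup.mk'_surjective N)
  have h1 := Subgroup.card_mul_index ((Subgroup.centralizer ({(x : G ⧸ N)} : Set (G ⧸ N))).comap
      (QuotientGroup.mk' N))
  have h2 := Subgroup.card_mul_index (Subgroup.centralizer ({(x : G ⧸ N)} : Set (G ⧸ N)))
  have h3 : Nat.card G = Nat.card (G ⧸ N) * Nat.card N :=
    Subgroup.card_eq_card_quotient_mul_card_subgroup N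
  have hidx0 : 0 < (Subgroup.centralizer ({(x : G ⧸ N)} : Set (G ⧸ N))).index :=
    Nat.pos_of_ne_zero Subgroup.index_ne_zero_of_finite
  have hN0 : 0 < Nat.card N := Nat.card_pos
  rw [hidx, hcard] at h1
  have h4 : Nat.card N * Nat.card (Subgroup.centralizer ({x} : Set G)) *
      (Subgroup.centralizer ({(x : G ⧸ N)} : Set (G ⧸ N))).index =
      Nat.card N * Nat.card (Subgroup.centralizer ({(x : G ⧸ N)} : Set (G ⧸ N))) *
      (Subgroup.centralizer ({(x : G ⧸ N)} : Set (G ⧸ N))).index := by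
    rw [h1, h3, ← h2]; ring
  exact Nat.eq_of_mul_eq_mul_left hN0 (Nat.eq_of_mul_eq_mul_right hidx0 h4)

theorem class_bound {G : Type*} [Group G] [Finite G] (N : Subgroup G) [N.Normal] (p : ℕ)
    [Fact p.Prime] (P : Sylow p G) (e m : ℕ) (he : 0 < e) (hpm : ¬ p ∣ m)
    (hGc : Nat.card G = e ^ 2 * (m + 1) * m) (hNm : Nat.card N = m + 1)
    (hPc : Nat.card (P : Subgroup G) = e ^ 2 * (m + 1))
    (ha : ∀ x : G, x ∉ N → Nat.card (Subgroup.centralizer ({x} : Set G)) =
      Nat.card (Subgroup.centralizer ({(x : G ⧸ N)} : Set (G ⧸ N))))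
    (i : ℕ) (y : ↥(P : Subgroup G))
    (hy : y ∈ Subgroup.upperCentralSeries ↥(P : Subgroup G) (i + 1))
    (hyN : (y : G) ∉ N) :
    m + 1 ≤ Nat.card (Subgroup.upperCentralSeries ↥(P : Subgroup G) i) := by
  classical
  have hp : p.Prime := Fact.out
  letI : Fintype ↥(P : Subgroup G) := Fintype.ofFinite _
  have hCdvd : Nat.card (Subgroup.centralizer ({y} : Set ↥(P : Subgroup G))) ∣ e ^ 2 := by
    have h1 : Nat.card ((Subgroup.centralizer ({y} : Set ↥(P : Subgroup G))).map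
        (P : Subgroup G).subtype) = Nat.card (Subgroup.centralizer ({y} : Set ↥(P : Subgroup G))) :=
      Subgroup.card_map_of_injective (Subgroup.subtype_injective _)
    have h2 : (Subgroup.centralizer ({y} : Set ↥(P : Subgroup G))).map (P : Subgroup G).subtype ≤
        Subgroup.centralizer ({(y : G)} : Set G) := by
      rintro _ ⟨c, hc, rfl⟩
      rw [Subgroup.mem_centralizer_singleton_iff]
      have := Subgroup.mem_centralizer_singleton_iff.mp hc
      exact congrArg Subtype.val this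
    have h3 := Subgroup.card_dvd_of_le h2
    rw [h1, ha (y : G) hyN] at h3
    have h4 : Nat.card (Subgroup.centralizer ({((y : G) : G ⧸ N)} : Set (G ⧸ N))) ∣
        Nat.card (G ⧸ N) := Subgroup.card_subgroup_dvd_card _
    have h5 : Nat.card (G ⧸ N) = e ^ 2 * m := by
      have := Subgroup.card_eq_card_quotient_mul_card_subgroup N
      rw [hGc, hNm] at this
      have h' : Nat.card (G ⧸ N) * (m + 1) = e ^ 2 * m * (m + 1) := by rw [← this]; ring
      exact Nat.eq_of_mul_eq_mul_right (Nat.succ_pos m) h'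
    have h6 : Nat.card (Subgroup.centralizer ({y} : Set ↥(P : Subgroup G))) ∣ e ^ 2 * m := by
      rw [← h5]; exact h3.trans h4
    obtain ⟨k, hk⟩ := (P.isPGroup'.to_subgroup
      (Subgroup.centralizer ({y} : Set ↥(P : Subgroup G)))).exists_card_eq
    rw [hk] at h6 ⊢
    exact Nat.Coprime.dvd_of_dvd_mul_right
      (Nat.Coprime.pow_left k ((Nat.Prime.coprime_iff_not_dvd hp).mpr hpm)) h6
  have hCle : Nat.card (Subgroup.centralizer ({y} : Set ↥(P : Subgroup G))) ≤ e ^ 2 :=
    Nat.le_of_dvd (by positivity) hCdvd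
  have hsub : classFinset y ⊆ (Finset.univ.filter (fun z : ↥(P : Subgroup G) =>
      z ∈ Subgroup.upperCentralSeries ↥(P : Subgroup G) i)).image (fun z => z * y) := by
    intro g hg
    rw [mem_classFinset] at hg
    obtain ⟨c, hc⟩ := isConj_iff.mp hg
    rw [Finset.mem_image]
    refine ⟨g * y⁻¹, ?_, by group⟩
    rw [Finset.mem_filter]
    refine ⟨Finset.mem_univ _, ?_⟩
    rw [← hc]
    have h1 := (Subgroup.mem_upperCentralSeries_succ_iff).mp hy c
    rw [commutatorElement_def] at h1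
    have h2 : c * y * c⁻¹ * y⁻¹ = (y * c * y⁻¹ * c⁻¹)⁻¹ := by group
    rw [h2]
    exact Subgroup.inv_mem _ h1
  have hcard1 : (classFinset y).card ≤
      Nat.card (Subgroup.upperCentralSeries ↥(P : Subgroup G) i) := by
    calc (classFinset y).card ≤ ((Finset.univ.filter (fun z : ↥(P : Subgroup G) =>
          z ∈ Subgroup.upperCentralSeries ↥(P : Subgroup G) i)).image (fun z => z * y)).card :=
          Finset.card_le_card hsub
      _ ≤ (Finset.univ.filter (fun z : ↥(P : Subgroup G) =>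
          z ∈ Subgroup.upperCentralSeries ↥(P : Subgroup G) i)).card := Finset.card_image_le
      _ = Nat.card (Subgroup.upperCentralSeries ↥(P : Subgroup G) i) := by
          rw [Nat.card_eq_fintype_card, Fintype.card_subtype]
  rw [card_classFinset] at hcard1
  have h7 := Subgroup.card_mul_index (Subgroup.centralizer ({y} : Set ↥(P : Subgroup G)))
  have h8 : e ^ 2 * (m + 1) ≤
      e ^ 2 * Nat.card (Subgroup.upperCentralSeries ↥(P : Subgroup G) i) := by
    calc e ^ 2 * (m + 1) = Nat.card (Subgroup.centralizer ({y} : Set ↥(P : Subgroup G))) *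
          (Subgroup.centralizer ({y} : Set ↥(P : Subgroup G))).index := by rw [h7, hPc]
      _ ≤ e ^ 2 * Nat.card (Subgroup.upperCentralSeries ↥(P : Subgroup G) i) :=
          Nat.mul_le_mul hCle hcard1
  exact Nat.le_of_mul_le_mul_left h8 (by positivity)

theorem result {G : Type*} [Group G] [Finite G] (hG : 2 < Nat.card G) (χ : Cfsg.IrrCharacter G) (hχ : Nat.card {C : ConjClasses G // ∃ g ∈ C.carrier, (χ : G → ℂ) g ≠ 0} = 2) (p : ℕ) [Fact p.Prime] (N : Subgroup G) [N.Normal] (hN : ∀ g : G, g ∈ N ↔ (χ : G → ℂ) g ≠ 0) (hNp : IsPGroup p N) (hN1 : N ≠ ⊥) (P : Sylow p G) :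
    (∀ x : G, x ∉ N → Nat.card (Subgroup.centralizer ({x} : Set G)) = Nat.card (Subgroup.centralizer ({(x : G ⧸ N)} : Set (G ⧸ N)))) ∧
      ((Subgroup.center ↥(P : Subgroup G)).map (P : Subgroup G).subtype ≤ N ∧
        ((Subgroup.center ↥(P : Subgroup G)).map (P : Subgroup G).subtype = N ↔ (P : Subgroup G).Normal)) ∧
      (∃ i : ℕ, Subgroup.upperCentralSeries ↥(P : Subgroup G) i = N.subgroupOf (P : Subgroup G)) := by
  classical
  letI : Fintype G := Fintype.ofFinite G
  have hp : p.Prime := Fact.out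
  obtain ⟨e, m, he, hm0, hNm, hpm, hval, hχ1, hGc, hcent, hpk⟩ :=
    S4837.gagola_data hG χ hχ p N hN hNp hN1
  have hoff : ∀ g : G, g ∉ N → (χ : G → ℂ) g = 0 := by
    intro g hg
    by_contra h
    exact hg ((hN g).mpr h)
  have hconj := conj_of_two χ hχ N hN
  have hK : ∀ ψ : IrrCharacter G, ψ ≠ χ → ∀ n ∈ N, (ψ : G → ℂ) n = (ψ : G → ℂ) 1 :=
    fun ψ hψ => other_trivial χ ψ hψ N e m he hm0 hNm hoff hval hχ1 hconj
  have ha : ∀ x : G, x ∉ N → Nat.card (Subgroup.centralizer ({x} : Set G)) =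
      Nat.card (Subgroup.centralizer ({(x : G ⧸ N)} : Set (G ⧸ N))) :=
    fun x hx => cent_card N x (fun n hn => conj_coset χ N hoff hK x hx n hn)
  have hPc : Nat.card (P : Subgroup G) = e ^ 2 * (m + 1) := by
    rw [hpk]; exact P.card_eq_multiplicity
  have hNP : N ≤ (P : Subgroup G) := hNp.le_sylow_of_normal P
  have hN'card : Nat.card (N.subgroupOf (P : Subgroup G)) = Nat.card N :=
    Nat.card_congr (Subgroup.subgroupOfEquivOfLe hNP).toEquiv
  have hL : ∀ i : ℕ, Subgroup.upperCentralSeries ↥(P : Subgroup G) i ≤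
      N.subgroupOf (P : Subgroup G) →
      Subgroup.upperCentralSeries ↥(P : Subgroup G) (i + 1) ≤ N.subgroupOf (P : Subgroup G) ∨
      Subgroup.upperCentralSeries ↥(P : Subgroup G) i = N.subgroupOf (P : Subgroup G) := by
    intro i hi
    by_cases h : Subgroup.upperCentralSeries ↥(P : Subgroup G) (i + 1) ≤
        N.subgroupOf (P : Subgroup G)
    · exact Or.inl h
    · right
      obtain ⟨y, hy, hyN⟩ := SetLike.not_le_iff_exists.mp h
      have hyN' : (y : G) ∉ N := fun h' => hyN (Subgroup.mem_subgroupOf.mpr h')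
      have hb := class_bound N p P e m he hpm hGc hNm hPc ha i y hy hyN'
      exact Subgroup.eq_of_le_of_card_ge hi (by rw [hN'card, hNm]; exact hb)
  have hc : ∃ i : ℕ, Subgroup.upperCentralSeries ↥(P : Subgroup G) i =
      N.subgroupOf (P : Subgroup G) := by
    by_contra hcon
    simp only [not_exists] at hcon
    have hall : ∀ i : ℕ, Subgroup.upperCentralSeries ↥(P : Subgroup G) i ≤
        N.subgroupOf (P : Subgroup G) := by
      intro i
      induction i with
      | zero => rw [Subgroup.upperCentralSeries_zero]; exact bot_le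
      | succ i ih => exact (hL i ih).resolve_right (hcon i)
    haveI : Group.IsNilpotent ↥(P : Subgroup G) := P.isPGroup'.isNilpotent
    obtain ⟨n, hn⟩ := (inferInstance : Group.IsNilpotent ↥(P : Subgroup G)).nilpotent'
    have h1 := hall n
    rw [hn] at h1
    exact hcon n (hn.trans (top_le_iff.mp h1).symm)
  have hN'ne : N.subgroupOf (P : Subgroup G) ≠ ⊥ := by
    intro h
    have h1 : Nat.card (N.subgroupOf (P : Subgroup G)) = 1 := by rw [h]; exact Subgroup.card_bot
    rw [hN'card, hNm] at h1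
    omega
  have hb1 : Subgroup.center ↥(P : Subgroup G) ≤ N.subgroupOf (P : Subgroup G) := by
    have h0 : Subgroup.upperCentralSeries ↥(P : Subgroup G) 0 ≤ N.subgroupOf (P : Subgroup G) := by
      rw [Subgroup.upperCentralSeries_zero]; exact bot_le
    rcases hL 0 h0 with h | h
    · rw [← Subgroup.upperCentralSeries_one]; exact h
    · rw [Subgroup.upperCentralSeries_zero] at h
      exact absurd h.symm hN'ne
  have hb1' : (Subgroup.center ↥(P : Subgroup G)).map (P : Subgroup G).subtype ≤ N := by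
    rintro _ ⟨z, hz, rfl⟩
    exact Subgroup.mem_subgroupOf.mp (hb1 hz)
  obtain ⟨⟨x₀, hx₀⟩, hx₀1⟩ := (Subgroup.ne_bot_iff_exists_ne_one).mp hN1
  have hx₀1' : x₀ ≠ 1 := fun h => hx₀1 (Subtype.ext h)
  have hb2 : (Subgroup.center ↥(P : Subgroup G)).map (P : Subgroup G).subtype = N ↔
      (P : Subgroup G).Normal := by
    constructor
    · intro hZN
      have hPC : ∀ x ∈ N, x ≠ 1 → (P : Subgroup G) = Subgroup.centralizer ({x} : Set G) := by
        intro x hx hx1
        have hx' : x ∈ (Subgroup.center ↥(P : Subgroup G)).map (P : Subgroup G).subtype := by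
          rw [hZN]; exact hx
        obtain ⟨z, hz, hzx⟩ := hx'
        have hcardeq : Nat.card (Subgroup.centralizer ({x} : Set G)) = Nat.card (P : Subgroup G) := by
          rw [hcent x hx hx1, hPc]
        apply Subgroup.eq_of_le_of_card_ge _ hcardeq.le
        intro g hg
        rw [Subgroup.mem_centralizer_singleton_iff, ← hzx]
        have := Subgroup.mem_center_iff.mp hz ⟨g, hg⟩
        exact congrArg Subtype.val this
      refine ⟨fun h hh g => ?_⟩
      have hgx : g * x₀ * g⁻¹ ∈ N := (inferInstance : N.Normal).conj_mem x₀ hx₀ g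
      have hgx1 : g * x₀ * g⁻¹ ≠ 1 := by
        intro h1
        apply hx₀1'
        have h2 : x₀ = g⁻¹ * (g * x₀ * g⁻¹) * g := by group
        rw [h2, h1]; group
      rw [hPC _ hgx hgx1, Subgroup.mem_centralizer_singleton_iff]
      rw [hPC x₀ hx₀ hx₀1', Subgroup.mem_centralizer_singleton_iff] at hh
      calc g * h * g⁻¹ * (g * x₀ * g⁻¹) = g * (h * x₀) * g⁻¹ := by group
        _ = g * (x₀ * h) * g⁻¹ := by rw [hh]
        _ = g * x₀ * g⁻¹ * (g * h * g⁻¹) := by group
    · intro hPn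
      apply le_antisymm hb1'
      haveI : Nontrivial ↥(P : Subgroup G) :=
        ⟨⟨⟨x₀, hNP hx₀⟩, 1, fun h => hx₀1' (congrArg Subtype.val h)⟩⟩
      obtain ⟨z, hz, hz1⟩ : ∃ z : ↥(P : Subgroup G),
          z ∈ Subgroup.center ↥(P : Subgroup G) ∧ z ≠ 1 := by
        haveI := P.isPGroup'.center_nontrivial
        obtain ⟨⟨z, hz⟩, hz1⟩ := exists_ne (1 : Subgroup.center ↥(P : Subgroup G))
        exact ⟨z, hz, fun h => hz1 (Subtype.ext h)⟩
      have hzN : (z : G) ∈ N := hb1' ⟨z, hz, rfl⟩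
      have hz1' : (z : G) ≠ 1 := fun h => hz1 (Subtype.ext h)
      intro y hy
      by_cases hy1 : y = 1
      · rw [hy1]; exact Subgroup.one_mem _
      obtain ⟨g, hg⟩ := isConj_iff.mp (hconj (z : G) hzN hz1' y hy hy1)
      have hyP : g * (z : G) * g⁻¹ ∈ (P : Subgroup G) := hPn.conj_mem _ z.2 g
      refine ⟨⟨g * (z : G) * g⁻¹, hyP⟩, ?_, hg⟩
      rw [SetLike.mem_coe, Subgroup.mem_center_iff]
      intro w
      apply Subtype.ext
      show (w : G) * (g * (z : G) * g⁻¹) = g * (z : G) * g⁻¹ * (w : G)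
      have hw' : g⁻¹ * (w : G) * g ∈ (P : Subgroup G) := by
        have := hPn.conj_mem _ w.2 g⁻¹
        simpa using this
      have hcz := Subgroup.mem_center_iff.mp hz ⟨g⁻¹ * (w : G) * g, hw'⟩
      have hcz' : g⁻¹ * (w : G) * g * (z : G) = (z : G) * (g⁻¹ * (w : G) * g) :=
        congrArg Subtype.val hcz
      calc (w : G) * (g * (z : G) * g⁻¹) = g * (g⁻¹ * (w : G) * g * (z : G)) * g⁻¹ := by group
        _ = g * ((z : G) * (g⁻¹ * (w : G) * g)) * g⁻¹ := by rw [hcz']
        _ = g * (z : G) * g⁻¹ * (w : G) := by group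
  exact ⟨ha, ⟨hb1', hb2⟩, hc⟩

end Cfsg.Agent.S4838
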