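import Cfsg.Statements.S4866
import Cfsg.Agent.Lib.Helper2.OddReal
-- import your own Cfsg.Agent.* helpers here

set_option autoImplicit false
open Cfsg

namespace Cfsg.Agent.S4866

/-- Let K be a normal subgroup of odd index in the finite group G. Then G has as many orbits on the real-valued irreducible complex characters of K (acting by conjugation) as it has orbits on the conjugacy classes of K that are real in K; equivalently, the number of G-orbits of real-valued irreducible characters of K equals the number of G-conjugacy classes of elements of K that are conjugate in K to their inverses. -/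
theorem result {G : Type*} [Group G] [Finite G] (K : Subgroup G) [K.Normal] (hodd : Odd K.index) : Nat.card (Quot (fun θ η : {θ : Cfsg.IrrCharacter ↥K // (∀ k : ↥K, ((θ : ↥K → ℂ) k).im = 0)} => ∃ g : G, ∀ k k' : ↥K, (k' : G) = g * (k : G) * g⁻¹ → (η.1 : ↥K → ℂ) k' = (θ.1 : ↥K → ℂ) k)) = Nat.card (Quot (fun x y : {x : ↥K // IsConj x x⁻¹} => ∃ g : G, (y.1 : G) = g * x.1 * g⁻¹)) := by
  classical
  letI := Fintype.ofFinite G
  letI : Fintype K := Fintype.ofFinite K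
  haveI : Finite (IrrCharacter K) := Cfsg.Agent.Lib.Lead.irr_finite'
  have hchar : ∀ (g : G) (χ : IrrCharacter K), (χ : K → ℂ) ∘ Cfsg.Agent.Lib.Helper2.OddReal.aMap K g = (χ : K → ℂ) ↔
      ((∀ k, ((χ : K → ℂ) k).im = 0) ∧ Cfsg.Agent.Lib.Helper2.OddReal.actF K g χ.1 = χ.1) := by
    intro g χ
    rw [Cfsg.Agent.Lib.Helper2.OddReal.comp_aMap K g (Cfsg.Agent.Lib.Lead.isCharacter_of_isIrrCharacter χ.2)]
    constructor
    · intro h
      have h' : Cfsg.Agent.Lib.Helper2.OddReal.actF K g χ.1 = (fun (θ : K → ℂ) k => (starRingEnd ℂ) (θ k)) χ.1 := by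
        funext k
        have := congrFun h k
        show _ = (starRingEnd ℂ) (χ.1 k)
        rw [← this, Complex.conj_conj]
      have := Cfsg.Agent.Lib.Helper2.OddReal.odd_fix (Cfsg.Agent.Lib.Helper2.OddReal.actF K) (Cfsg.Agent.Lib.Helper2.OddReal.actF_one K) (Cfsg.Agent.Lib.Helper2.OddReal.actF_mul K)
        (fun (θ : K → ℂ) k => (starRingEnd ℂ) (θ k)) (fun _ _ => rfl)
        (fun y => funext fun k => Complex.conj_conj _) K.index hodd g χ.1
        (Cfsg.Agent.Lib.Helper2.OddReal.actF_mem K (Subgroup.pow_index_mem K g) (Cfsg.Agent.Lib.Lead.isClassFunction_irr χ)) h'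
      exact ⟨fun k => Complex.conj_eq_iff_im.mp (congrFun this.1 k), this.2⟩
    · rintro ⟨hre, hfix⟩
      funext k
      rw [hfix]
      exact Complex.conj_eq_iff_im.mpr (hre k)
  have hcls : ∀ (g : G) (C : ConjClasses K),
      (∀ k : K, ConjClasses.mk k = C → IsConj (Cfsg.Agent.Lib.Helper2.OddReal.aMap K g k) k) ↔
      (Cfsg.Agent.Lib.Helper2.OddReal.invC K C = C ∧ Cfsg.Agent.Lib.Helper2.OddReal.actC K g C = C) := by
    intro g C
    obtain ⟨k₀, rfl⟩ := ConjClasses.mk_surjective C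
    constructor
    · intro h
      have h0 : Cfsg.Agent.Lib.Helper2.OddReal.invC K (Cfsg.Agent.Lib.Helper2.OddReal.actC K g⁻¹ (ConjClasses.mk k₀)) = ConjClasses.mk k₀ := by
        rw [← Cfsg.Agent.Lib.Helper2.OddReal.mk_aMap]
        exact ConjClasses.mk_eq_mk_iff_isConj.mpr (h k₀ rfl)
      have h' : Cfsg.Agent.Lib.Helper2.OddReal.actC K g⁻¹ (ConjClasses.mk k₀) = Cfsg.Agent.Lib.Helper2.OddReal.invC K (ConjClasses.mk k₀) := by
        conv_rhs => rw [← h0]
        rw [Cfsg.Agent.Lib.Helper2.OddReal.invC_invC]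
      have := Cfsg.Agent.Lib.Helper2.OddReal.odd_fix (Cfsg.Agent.Lib.Helper2.OddReal.actC K) (Cfsg.Agent.Lib.Helper2.OddReal.actC_one K) (Cfsg.Agent.Lib.Helper2.OddReal.actC_mul K)
        (Cfsg.Agent.Lib.Helper2.OddReal.invC K) (Cfsg.Agent.Lib.Helper2.OddReal.invC_actC K) (Cfsg.Agent.Lib.Helper2.OddReal.invC_invC K) K.index hodd g⁻¹
        (ConjClasses.mk k₀) (Cfsg.Agent.Lib.Helper2.OddReal.actC_mem K (Subgroup.pow_index_mem K g⁻¹) _) h'
      refine ⟨this.1, ?_⟩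
      have h3 := Cfsg.Agent.Lib.Helper2.OddReal.actC_mul K g g⁻¹ (ConjClasses.mk k₀)
      rw [mul_inv_cancel, Cfsg.Agent.Lib.Helper2.OddReal.actC_one, this.2] at h3
      exact h3.symm
    · rintro ⟨hinv, hfix⟩ k hk
      apply ConjClasses.mk_eq_mk_iff_isConj.mp
      rw [Cfsg.Agent.Lib.Helper2.OddReal.mk_aMap, hk]
      have h3 := Cfsg.Agent.Lib.Helper2.OddReal.actC_mul K g⁻¹ g (ConjClasses.mk k₀)
      rw [inv_mul_cancel, Cfsg.Agent.Lib.Helper2.OddReal.actC_one, hfix] at h3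
      rw [← h3, hinv]
  -- the two actions
  let Y₁ := {θ : Cfsg.IrrCharacter ↥K // (∀ k : ↥K, ((θ : ↥K → ℂ) k).im = 0)}
  let Y₂ := {C : ConjClasses K // Cfsg.Agent.Lib.Helper2.OddReal.invC K C = C}
  let act₁ : G → Y₁ → Y₁ := fun g θ =>
    ⟨⟨Cfsg.Agent.Lib.Helper2.OddReal.actF K g θ.1.1, Cfsg.Agent.Lib.Lead.isIrrCharacter_twist K g⁻¹ θ.1.2⟩, fun k => θ.2 _⟩
  let act₂ : G → Y₂ → Y₂ := fun g C =>
    ⟨Cfsg.Agent.Lib.Helper2.OddReal.actC K g C.1, by rw [Cfsg.Agent.Lib.Helper2.OddReal.invC_actC, C.2]⟩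
  haveI : Finite Y₁ := Subtype.finite
  haveI : Finite Y₂ := Subtype.finite
  have b1 := Cfsg.Agent.Lib.Helper2.OddReal.burnside act₁ (fun y => Subtype.ext (Subtype.ext (Cfsg.Agent.Lib.Helper2.OddReal.actF_one K _)))
    (fun g h y => Subtype.ext (Subtype.ext (Cfsg.Agent.Lib.Helper2.OddReal.actF_mul K g h _)))
  have b2 := Cfsg.Agent.Lib.Helper2.OddReal.burnside act₂ (fun y => Subtype.ext (Cfsg.Agent.Lib.Helper2.OddReal.actC_one K _))
    (fun g h y => Subtype.ext (Cfsg.Agent.Lib.Helper2.OddReal.actC_mul K g h _))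
  have hg : ∀ g : G, Nat.card {y : Y₁ // act₁ g y = y} = Nat.card {y : Y₂ // act₂ g y = y} := by
    intro g
    have key := Cfsg.Agent.Lib.Lead.brauer_perm_count (Cfsg.Agent.Lib.Helper2.OddReal.aMap K g) (Cfsg.Agent.Lib.Helper2.OddReal.aMap_irr K g)
      (Cfsg.Agent.Lib.Helper2.OddReal.aMap_conj K g)
    have e1 : Nat.card {y : Y₁ // act₁ g y = y} =
        Nat.card {χ : IrrCharacter K // (χ : K → ℂ) ∘ Cfsg.Agent.Lib.Helper2.OddReal.aMap K g = (χ : K → ℂ)} := by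
      apply Nat.card_congr
      exact ⟨fun y => ⟨y.1.1, (hchar g y.1.1).mpr
          ⟨y.1.2, congrArg (fun z : Y₁ => (z.1.1 : K → ℂ)) y.2⟩⟩,
        fun χ => ⟨⟨χ.1, ((hchar g χ.1).mp χ.2).1⟩,
          Subtype.ext (Subtype.ext ((hchar g χ.1).mp χ.2).2)⟩, fun y => rfl, fun χ => rfl⟩
    have e2 : Nat.card {y : Y₂ // act₂ g y = y} =
        Nat.card {C : ConjClasses K // ∀ k : K, ConjClasses.mk k = C →
          IsConj (Cfsg.Agent.Lib.Helper2.OddReal.aMap K g k) k} := by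
      apply Nat.card_congr
      exact ⟨fun y => ⟨y.1.1, (hcls g y.1.1).mpr
          ⟨y.1.2, congrArg (fun z : Y₂ => (z.1 : ConjClasses K)) y.2⟩⟩,
        fun C => ⟨⟨C.1, ((hcls g C.1).mp C.2).1⟩,
          Subtype.ext ((hcls g C.1).mp C.2).2⟩, fun y => rfl, fun C => rfl⟩
    rw [e1, e2, key]
  have hsum : Nat.card (Quot (fun y y' : Y₁ => ∃ g, act₁ g y = y')) * Nat.card G =
      Nat.card (Quot (fun y y' : Y₂ => ∃ g, act₂ g y = y')) * Nat.card G := by
    rw [b1, b2]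
    exact Finset.sum_congr rfl (fun g _ => hg g)
  have hq := Nat.eq_of_mul_eq_mul_right Nat.card_pos hsum
  -- identify the left quotient
  have hL : Nat.card (Quot (fun θ η : {θ : Cfsg.IrrCharacter ↥K // (∀ k : ↥K, ((θ : ↥K → ℂ) k).im = 0)} => ∃ g : G, ∀ k k' : ↥K, (k' : G) = g * (k : G) * g⁻¹ → (η.1 : ↥K → ℂ) k' = (θ.1 : ↥K → ℂ) k)) =
      Nat.card (Quot (fun y y' : Y₁ => ∃ g, act₁ g y = y')) := by
    apply Nat.card_congr
    refine Quot.congrRight (fun θ η => ⟨?_, ?_⟩)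
    · rintro ⟨g, h⟩
      refine ⟨g, Subtype.ext (Subtype.ext (funext fun k => ?_))⟩
      have hk : g⁻¹ * (k : G) * g⁻¹⁻¹ ∈ K := by
        have := (inferInstance : K.Normal).conj_mem k k.2 g⁻¹
        exact this
      have := h ⟨g⁻¹ * (k : G) * g⁻¹⁻¹, hk⟩ k (by simp [mul_assoc])
      exact this.symm
    · rintro ⟨g, h⟩
      refine ⟨g, fun k k' hk => ?_⟩
      rw [← h]
      show θ.1.1 ⟨g⁻¹ * (k' : G) * g⁻¹⁻¹, _⟩ = θ.1.1 k
      refine congrArg _ (Subtype.ext ?_)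
      show g⁻¹ * (k' : G) * g⁻¹⁻¹ = k
      rw [hk]
      group
  have hequiv : Equivalence (fun y y' : Y₂ => ∃ g, act₂ g y = y') := by
    refine ⟨fun y => ⟨1, Subtype.ext (Cfsg.Agent.Lib.Helper2.OddReal.actC_one K _)⟩, ?_, ?_⟩
    · rintro x y ⟨g, hg⟩
      refine ⟨g⁻¹, ?_⟩
      rw [← hg]
      apply Subtype.ext
      show Cfsg.Agent.Lib.Helper2.OddReal.actC K g⁻¹ (Cfsg.Agent.Lib.Helper2.OddReal.actC K g x.1) = x.1
      rw [← Cfsg.Agent.Lib.Helper2.OddReal.actC_mul, inv_mul_cancel, Cfsg.Agent.Lib.Helper2.OddReal.actC_one]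
    · rintro x y z ⟨g, hg⟩ ⟨h, hh⟩
      refine ⟨h * g, ?_⟩
      rw [← hh, ← hg]
      apply Subtype.ext
      exact Cfsg.Agent.Lib.Helper2.OddReal.actC_mul K h g x.1
  have hR : Nat.card (Quot (fun x y : {x : ↥K // IsConj x x⁻¹} => ∃ g : G, (y.1 : G) = g * x.1 * g⁻¹)) =
      Nat.card (Quot (fun y y' : Y₂ => ∃ g, act₂ g y = y')) := by
    apply Nat.card_eq_of_bijective
      (Quot.map (fun x : {x : ↥K // IsConj x x⁻¹} => (⟨ConjClasses.mk x.1, by
        rw [Cfsg.Agent.Lib.Helper2.OddReal.invC_mk]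
        exact (ConjClasses.mk_eq_mk_iff_isConj.mpr x.2).symm⟩ : Y₂)) (by
        rintro x y ⟨g, hg⟩
        refine ⟨g, Subtype.ext ?_⟩
        show Cfsg.Agent.Lib.Helper2.OddReal.actC K g (ConjClasses.mk x.1) = ConjClasses.mk y.1
        rw [Cfsg.Agent.Lib.Helper2.OddReal.actC_mk]
        congr 1
        apply Subtype.ext
        rw [MulAut.conjNormal_apply, hg]))
    constructor
    · rintro ⟨x⟩ ⟨y⟩ h
      apply Quot.sound
      have h1 := hequiv.eqvGen_iff.mp (Quot.eq.mp h)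
      obtain ⟨g, hg⟩ := h1
      have h2 : Cfsg.Agent.Lib.Helper2.OddReal.actC K g (ConjClasses.mk x.1) = ConjClasses.mk y.1 :=
        congrArg (fun z : Y₂ => (z.1 : ConjClasses K)) hg
      rw [Cfsg.Agent.Lib.Helper2.OddReal.actC_mk] at h2
      obtain ⟨c, hc⟩ := isConj_iff.mp (ConjClasses.mk_eq_mk_iff_isConj.mp h2)
      refine ⟨c * g, ?_⟩
      have := congrArg (Subtype.val : K → G) hc
      simp only [Subgroup.coe_mul, Subgroup.coe_inv, MulAut.conjNormal_apply] at this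
      rw [← this]
      group
    · rintro ⟨⟨C, hC⟩⟩
      obtain ⟨k, rfl⟩ := ConjClasses.mk_surjective C
      refine ⟨Quot.mk _ ⟨k, ?_⟩, rfl⟩
      rw [Cfsg.Agent.Lib.Helper2.OddReal.invC_mk] at hC
      exact (ConjClasses.mk_eq_mk_iff_isConj.mp hC).symm
  rw [hL, hR]
  exact hq

end Cfsg.Agent.S4866
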