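import Cfsg.Statements.S4870
import Cfsg.Agent.Lib.Lead.CharFrobP
import Cfsg.Agent.Lib.Lead.CharMGroup
import Cfsg.Agent.Lib.Lead.CharClifford3
import Cfsg.Agent.Lib.Lead.CharGallagher2
import Cfsg.Agent.Lib.Lead.CharAbQuot
import Cfsg.Agent.Lib.Lead.CharCodeg

set_option autoImplicit false
set_option maxHeartbeats 800000

namespace Cfsg.Agent.S4870

open Cfsg Cfsg.Agent.Lib.Lead Cfsg.Agent.Lib.Helper2 Module
open scoped ComplexConjugate

theorem result {G : Type*} [Group G] [Finite G] (N : Subgroup G) (hN : N.Normal) (hN1 : N ≠ ⊥) (hmin : ∀ M : Subgroup G, M.Normal → M ≤ N → M = ⊥ ∨ M = N) (hna : ¬ IsMulCommutative ↥N) (φ : Cfsg.IrrCharacter ↥N) (I : Subgroup G) (hI : ∀ g : G, g ∈ I ↔ ∀ n n' : ↥N, (n' : G) = g * (n : G) * g⁻¹ → (φ : ↥N → ℂ) n' = (φ : ↥N → ℂ) n) (hNI : N ≤ I) (hext : ∃ ψ : Cfsg.IrrCharacter ↥I, ∀ n : ↥N, (ψ : ↥I → ℂ) (Subgroup.inclusion hNI n) = (φ : ↥N → ℂ) n) : Nat.card {χ : Cfsg.IrrCharacter G // Cfsg.charDegree (χ : G → ℂ) = 1} ≤ I.index * Nat.card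 {χ : Cfsg.IrrCharacter G // Cfsg.charDegree (χ : G → ℂ) = Cfsg.charDegree (φ : ↥N → ℂ) * I.index} := by
  classical
  letI := Fintype.ofFinite G
  haveI := hN
  letI : Fintype N := Fintype.ofFinite N
  letI : Fintype I := Fintype.ofFinite I
  haveI : Finite (IrrCharacter G) := irr_finite
  letI : Fintype (IrrCharacter G) := Fintype.ofFinite _
  obtain ⟨ψ, hψ⟩ := hext
  have hT : ∀ g : G, g ∈ I ↔ ∀ h : N,
      (φ : N → ℂ) ⟨g * h * g⁻¹, hN.conj_mem h h.2 g⟩ = (φ : N → ℂ) h := by
    intro g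
    rw [hI]
    constructor
    · intro h n
      exact h n ⟨g * n * g⁻¹, hN.conj_mem n n.2 g⟩ rfl
    · intro h n n' hn'
      have := h n
      rwa [show (⟨g * n * g⁻¹, hN.conj_mem n n.2 g⟩ : N) = n' from Subtype.ext hn'.symm] at this
  have hψN : (fun n : N => (ψ : I → ℂ) ⟨n, hNI n.2⟩) = (φ : N → ℂ) := by
    funext n; exact hψ n
  have hφφ : classInner (φ : N → ℂ) (φ : N → ℂ) = 1 := by
    rw [irr_orthonormal φ.2 φ.2, if_pos rfl]
  have hc : classInner (fun n : N => (ψ : I → ℂ) ⟨n, hNI n.2⟩) (φ : N → ℂ) ≠ 0 := by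
    rw [hψN, hφφ]; exact one_ne_zero
  obtain ⟨hχ₀, -⟩ := clifford_corr_irr N I hNI φ.2 hT ψ.2 hc
  obtain ⟨χ₀, hχ₀def⟩ : ∃ χ₀ : G → ℂ, χ₀ = indFun I (ψ : I → ℂ) := ⟨_, rfl⟩
  rw [← hχ₀def] at hχ₀
  -- N is perfect
  have hperf : ⁅N, N⁆ = N := by
    have hle : ⁅N, N⁆ ≤ N := Subgroup.commutator_le_right N N
    rcases hmin ⁅N, N⁆ inferInstance hle with h | h
    · exfalso
      apply hna
      refine ⟨⟨fun a b => ?_⟩⟩
      have h1 : (a : G) * (b : G) * (a : G)⁻¹ * (b : G)⁻¹ ∈ ⁅N, N⁆ := by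
        rw [← commutatorElement_def]
        exact Subgroup.commutator_mem_commutator a.2 b.2
      rw [h, Subgroup.mem_bot] at h1
      apply Subtype.ext
      rw [← commutatorElement_def] at h1
      exact commutatorElement_eq_one_iff_mul_comm.mp h1
    · exact h
  have hlin : ∀ lam : IrrCharacter G, charDegree (lam : G → ℂ) = 1 →
      ∃ l : G →* ℂˣ, ∀ g, (lam : G → ℂ) g = (l g : ℂ) := by
    intro lam h
    exact exists_hom_of_linear lam.2 (by rw [isIrrCharacter_one_eq_charDegree lam.2, h]; simp)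
  have hlinN : ∀ lam : IrrCharacter G, charDegree (lam : G → ℂ) = 1 →
      ∀ n ∈ N, (lam : G → ℂ) n = 1 := by
    intro lam h n hn
    obtain ⟨l, hl⟩ := hlin lam h
    have hker : N ≤ l.ker := by
      rw [← hperf, Subgroup.commutator_le]
      intro a _ b _
      rw [MonoidHom.mem_ker, map_commutatorElement]
      exact commutatorElement_eq_one_iff_commute.mpr (Commute.all _ _)
    rw [hl, MonoidHom.mem_ker.mp (hker hn)]; simp
  have hnorm : ∀ lam : IrrCharacter G, charDegree (lam : G → ℂ) = 1 →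
      ∀ g, ‖(lam : G → ℂ) g‖ = 1 := by
    intro lam h g
    obtain ⟨l, hl⟩ := hlin lam h
    rw [hl]
    have h1 : (l g : ℂ) ^ Nat.card G = 1 := by
      have h2 : (l g) ^ Nat.card G = 1 := by rw [← map_pow, pow_card_eq_one', map_one]
      have := congrArg (fun u : ℂˣ => (u : ℂ)) h2
      simpa using this
    exact Complex.norm_eq_one_of_pow_eq_one h1 Nat.card_pos.ne'
  have hFirr : ∀ lam : IrrCharacter G, charDegree (lam : G → ℂ) = 1 →
      IsIrrCharacter G ((lam : G → ℂ) * χ₀) := fun lam h =>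
    isIrrCharacter_mul_of_norm_one (isCharacter_of_isIrrCharacter lam.2) (hnorm lam h) hχ₀
  have hψ1 : (ψ : I → ℂ) 1 = (charDegree (φ : N → ℂ) : ℂ) := by
    have := hψ 1
    rw [map_one] at this
    rw [this, isIrrCharacter_one_eq_charDegree φ.2]
  have hFdeg : ∀ lam : IrrCharacter G, charDegree (lam : G → ℂ) = 1 →
      charDegree ((lam : G → ℂ) * χ₀) = charDegree (φ : N → ℂ) * I.index := by
    intro lam h
    apply charDegree_of_one_eq
    rw [Pi.mul_apply, isIrrCharacter_one_eq_charDegree lam.2, h, hχ₀def, indFun_one, hψ1]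
    push_cast; ring
  let F : {χ : IrrCharacter G // charDegree (χ : G → ℂ) = 1} →
      {χ : IrrCharacter G // charDegree (χ : G → ℂ) = charDegree (φ : N → ℂ) * I.index} :=
    fun lam => ⟨⟨(lam.1 : G → ℂ) * χ₀, hFirr lam.1 lam.2⟩, hFdeg lam.1 lam.2⟩
  -- Gallagher in I
  haveI hN'n : (N.subgroupOf I).Normal := Subgroup.normal_subgroupOf
  letI : Fintype (N.subgroupOf I) := Fintype.ofFinite _
  have hres_irr : IsIrrCharacter (N.subgroupOf I) (resSub N I (φ : N → ℂ)) :=
    isIrrCharacter_resSub N I hNI φ.2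
  have hone_mul : ((fun _ : N.subgroupOf I => (1 : ℂ)) * resSub N I (φ : N → ℂ))
      = resSub N I (φ : N → ℂ) := by
    funext x; simp
  have hres_inv : ∀ (g : I) (n : N.subgroupOf I),
      resSub N I (φ : N → ℂ) ⟨g * n * g⁻¹, hN'n.conj_mem n n.2 g⟩ = resSub N I (φ : N → ℂ) n := by
    intro g n
    exact (hT g).mp g.2 ⟨((n : I) : G), Subgroup.mem_subgroupOf.mp n.2⟩
  have hgal := (gallagher_aux (G := I) (N.subgroupOf I)
    (φ := fun _ : N.subgroupOf I => (1 : ℂ)) (ϑ := resSub N I (φ : N → ℂ))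
    (isIrrCharacter_one _) (fun g n => rfl) (by rw [hone_mul]; exact hres_irr)
    (by rw [hone_mul]; exact hres_inv) (isCharacter_of_isIrrCharacter ψ.2)
    (by
      intro n
      have := hψ ⟨((n : I) : G), Subgroup.mem_subgroupOf.mp n.2⟩
      exact this)).2.1
  -- restriction of a linear character to I
  have hresI : ∀ lam : IrrCharacter G, charDegree (lam : G → ℂ) = 1 →
      IsIrrCharacter I (fun t : I => (lam : G → ℂ) t) := by
    intro lam h
    obtain ⟨l, hl⟩ := hlin lam h
    have := isIrrCharacter_of_hom (l.comp I.subtype)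
    have e : (fun t : I => (lam : G → ℂ) t) = fun g : I => ((l.comp I.subtype) g : ℂ) := by
      funext t; rw [hl]; rfl
    rw [e]; exact this
  have hover : ∀ lam : IrrCharacter G, charDegree (lam : G → ℂ) = 1 →
      classInner (indFun (N.subgroupOf I) (fun _ : N.subgroupOf I => (1 : ℂ)))
        (fun t : I => (lam : G → ℂ) t) ≠ 0 := by
    intro lam h
    rw [over_one_iff (N.subgroupOf I)
      (isClassFunction_irr (⟨_, hresI lam h⟩ : IrrCharacter I))]
    have : ∑ n : N.subgroupOf I, (lam : G → ℂ) ((n : I) : G) = (Nat.card (N.subgroupOf I) : ℂ) := by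
      rw [Finset.sum_congr rfl (fun n _ => hlinN lam h _ (Subgroup.mem_subgroupOf.mp n.2))]
      simp [Nat.card_eq_fintype_card]
    rw [this]
    exact_mod_cast (Nat.card_pos (α := N.subgroupOf I)).ne'
  -- key: equal images agree on I
  have hagree : ∀ lam mu : IrrCharacter G, charDegree (lam : G → ℂ) = 1 →
      charDegree (mu : G → ℂ) = 1 → (lam : G → ℂ) * χ₀ = (mu : G → ℂ) * χ₀ →
      (fun t : I => (lam : G → ℂ) t) = fun t : I => (mu : G → ℂ) t := by
    intro lam mu hl hm heq
    have e1 : indFun I ((ψ : I → ℂ) * fun t : I => (lam : G → ℂ) t) =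
        indFun I ((ψ : I → ℂ) * fun t : I => (mu : G → ℂ) t) := by
      rw [indFun_mul_res I _ (isClassFunction_irr lam), indFun_mul_res I _ (isClassFunction_irr mu),
        ← hχ₀def, mul_comm, heq, mul_comm]
    have hirr : ∀ nu : IrrCharacter G, charDegree (nu : G → ℂ) = 1 →
        IsIrrCharacter I ((ψ : I → ℂ) * fun t : I => (nu : G → ℂ) t) := by
      intro nu hnu
      rw [mul_comm]
      exact isIrrCharacter_mul_of_norm_one (isCharacter_of_isIrrCharacter (hresI nu hnu))
        (fun t => hnorm nu hnu t) ψ.2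
    have hov : ∀ nu : IrrCharacter G, charDegree (nu : G → ℂ) = 1 →
        classInner (fun n : N => ((ψ : I → ℂ) * fun t : I => (nu : G → ℂ) t) ⟨n, hNI n.2⟩)
          (φ : N → ℂ) ≠ 0 := by
      intro nu hnu
      have : (fun n : N => ((ψ : I → ℂ) * fun t : I => (nu : G → ℂ) t) ⟨n, hNI n.2⟩)
          = (φ : N → ℂ) := by
        funext n
        show (ψ : I → ℂ) ⟨n, hNI n.2⟩ * (nu : G → ℂ) (n : G) = _
        rw [hlinN nu hnu n n.2, mul_one]
        exact hψ n
      rw [this, hφφ]; exact one_ne_zero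
    have e2 := clifford_corr_inj N I hNI φ.2 hT (hirr lam hl) (hirr mu hm) (hov lam hl)
      (hov mu hm) e1
    have e3 := hgal ⟨_, hresI lam hl⟩ ⟨_, hresI mu hm⟩ (hover lam hl) (hover mu hm)
      (by
        show (fun t : I => (lam : G → ℂ) t) * (ψ : I → ℂ) = (fun t : I => (mu : G → ℂ) t) * (ψ : I → ℂ)
        rw [mul_comm, e2, mul_comm])
    exact congrArg (fun z : IrrCharacter I => (z : I → ℂ)) e3
  -- counting
  rw [Nat.card_eq_fintype_card, Nat.card_eq_fintype_card]
  have hfib : ∀ b ∈ (Finset.univ : Finset _).image F,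
      ((Finset.univ : Finset {χ : IrrCharacter G // charDegree (χ : G → ℂ) = 1}).filter
        (fun x => F x = b)).card ≤ I.index := by
    intro b hb
    obtain ⟨mu, -, rfl⟩ := Finset.mem_image.mp hb
    set S := (Finset.univ : Finset {χ : IrrCharacter G // charDegree (χ : G → ℂ) = 1}).filter
        (fun x => F x = F mu) with hS
    have hSag : ∀ lam ∈ S, (fun t : I => (lam.1 : G → ℂ) t) = fun t : I => (mu.1 : G → ℂ) t := by
      intro lam hlam
      have h1 : F lam = F mu := (Finset.mem_filter.mp hlam).2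
      have h2 := congrArg (fun z => ((z.1 : IrrCharacter G) : G → ℂ)) h1
      exact hagree lam.1 mu.1 lam.2 mu.2 h2
    have hνirr := hresI mu.1 mu.2
    have hπ : IsCharacter G (indFun I (fun t : I => (mu.1 : G → ℂ) t)) :=
      isCharacter_indFun I (isCharacter_of_isIrrCharacter hνirr)
    have hmex : ∀ χ : IrrCharacter G, ∃ m : ℕ,
        classInner (indFun I (fun t : I => (mu.1 : G → ℂ) t)) (χ : G → ℂ) = (m : ℂ) := fun χ =>
      classInner_isCharacter_nat hπ (isCharacter_of_isIrrCharacter χ.2)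
    choose m hm using hmex
    have hdeg := charDegree_eq_sum hπ m hm
    have hdeg2 : charDegree (indFun I (fun t : I => (mu.1 : G → ℂ) t)) = I.index := by
      rw [charDegree_indFun I (isCharacter_of_isIrrCharacter hνirr)]
      have : charDegree (fun t : I => (mu.1 : G → ℂ) t) = 1 := by
        apply charDegree_of_one_eq
        show (mu.1 : G → ℂ) ((1 : I) : G) = ((1 : ℕ) : ℂ)
        rw [Subgroup.coe_one, isIrrCharacter_one_eq_charDegree mu.1.2, mu.2]
      rw [this, mul_one]
    have hm1 : ∀ lam ∈ S, m lam.1 = 1 := by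
      intro lam hlam
      have h1 := hm lam.1
      rw [frobenius_reciprocity I _ _ (isClassFunction_irr lam.1), hSag lam hlam,
        irr_orthonormal hνirr hνirr, if_pos rfl] at h1
      exact_mod_cast h1.symm
    calc S.card = ∑ lam ∈ S, m lam.1 * charDegree (lam.1 : G → ℂ) := by
          rw [Finset.card_eq_sum_ones]
          apply Finset.sum_congr rfl
          intro lam hlam
          rw [hm1 lam hlam, lam.2]
      _ = ∑ χ ∈ S.image Subtype.val, m χ * charDegree (χ : G → ℂ) := by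
          rw [Finset.sum_image]
          intro a _ b _ hab
          exact Subtype.ext hab
      _ ≤ ∑ χ : IrrCharacter G, m χ * charDegree (χ : G → ℂ) :=
          Finset.sum_le_sum_of_subset (Finset.subset_univ _)
      _ = I.index := by rw [← hdeg, hdeg2]
  have h1 := Finset.card_le_mul_card_image (Finset.univ : Finset _) I.index hfib
  rw [Finset.card_univ] at h1
  refine le_trans h1 (Nat.mul_le_mul_left _ ?_)
  rw [← Finset.card_univ]
  exact Finset.card_le_card (Finset.subset_univ _)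

end Cfsg.Agent.S4870
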