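import Cfsg.Statements.S4916
import Cfsg.Agent.S0907
import Cfsg.Agent.S0914
import Cfsg.Agent.Lib.Helper6.BlockBrauer
import Cfsg.Agent.Lib.Helper6.BlockIdem
import Cfsg.Agent.Lib.Lead.CharBurnside
import Cfsg.Agent.Lib.Lead.CharIntegral
import Cfsg.Agent.Lib.Lead.CharRing
import Cfsg.Agent.Lib.Lead.TIFrob4
import Cfsg.Agent.Lib.Lead.CharDeg

set_option autoImplicit false
open Cfsg
open scoped ComplexConjugate

namespace Cfsg.Agent.S4916
open Cfsg.Agent.Lib.Lead Cfsg.Agent.Lib.Helper6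

theorem result {G : Type*} [Group G] [Finite G] (p : ℕ) [Fact p.Prime] (M : Ideal Cfsg.AlgInt) (hM : Cfsg.IsPModular p M) : (∀ χ : Cfsg.IrrCharacter G, χ ∈ Cfsg.principalBlock M G → ¬ p ∣ Cfsg.charDegree (χ : G → ℂ) → (χ : G → ℂ) = fun _ => (1 : ℂ)) ↔ ¬ p ∣ Nat.card G := by
  classical
  letI := Fintype.ofFinite G
  haveI : Finite (IrrCharacter G) := irr_finite
  letI : Fintype (IrrCharacter G) := Fintype.ofFinite _
  have hp : p.Prime := Fact.out
  have hMp : M.IsPrime := hM.2.1.isPrime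
  obtain ⟨χ₁, hχ₁⟩ : ∃ χ₁ : IrrCharacter G, (χ₁ : G → ℂ) = fun _ => 1 :=
    ⟨⟨_, isIrrCharacter_one G⟩, rfl⟩
  have hdeg1 : charDegree (χ₁ : G → ℂ) = 1 :=
    charDegree_of_one_eq (by rw [hχ₁]; simp)
  have hprin : principalBlock M G = blockOf M (χ₁ : G → ℂ) := by rw [hχ₁]; rfl
  constructor
  · intro h hdvd
    obtain ⟨y, hy⟩ := exists_prime_orderOf_dvd_card' p hdvd
    have hB : IsPBlock M (principalBlock M G) := ⟨χ₁, hprin⟩
    have hortho := Cfsg.Agent.S0907.result p M hM (principalBlock M G) hB 1 y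
      (by rw [orderOf_one]; exact fun h => hp.one_lt.ne' (Nat.dvd_one.mp h)) (by rw [hy])
    rw [finsum_mem_ite] at hortho
    obtain ⟨F, hF⟩ : ∃ F : IrrCharacter G → ℂ, F = fun χ =>
        if χ ∈ principalBlock M G then (χ : G → ℂ) 1 * conj ((χ : G → ℂ) y) else 0 := ⟨_, rfl⟩
    have hF0 : ∑ χ : IrrCharacter G, F χ = 0 := by rw [hF]; exact hortho
    have hmem1 : χ₁ ∈ principalBlock M G := by
      rw [hprin]; exact sb_refl hMp _
    have hF1 : F χ₁ = 1 := by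
      rw [hF]
      show (if χ₁ ∈ principalBlock M G then (χ₁ : G → ℂ) 1 * conj ((χ₁ : G → ℂ) y) else 0) = 1
      rw [if_pos hmem1, hχ₁]; simp
    have hterm : ∀ χ : IrrCharacter G, χ ≠ χ₁ → ∃ z : ℂ, IsIntegral ℤ z ∧ F χ = (p : ℂ) * z := by
      intro χ hne
      rw [hF]
      show ∃ z : ℂ, IsIntegral ℤ z ∧
        (if χ ∈ principalBlock M G then (χ : G → ℂ) 1 * conj ((χ : G → ℂ) y) else 0) = (p : ℂ) * z
      by_cases hχ : χ ∈ principalBlock M G
      · rw [if_pos hχ]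
        have hpd : p ∣ charDegree (χ : G → ℂ) := by
          by_contra hnd
          exact hne (Subtype.ext ((h χ hχ hnd).trans hχ₁.symm))
        obtain ⟨c, hc⟩ := hpd
        refine ⟨(c : ℂ) * conj ((χ : G → ℂ) y), ?_, ?_⟩
        · apply IsIntegral.mul (by simpa using (isIntegral_algebraMap (R := ℤ) (A := ℂ) (x := (c : ℤ))))
          rw [← isCharacter_inv_eq_conj (isCharacter_of_isIrrCharacter χ.2)]
          exact isCharacter_isIntegral (isCharacter_of_isIrrCharacter χ.2) _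
        · rw [isIrrCharacter_one_eq_charDegree χ.2, hc]; push_cast; ring
      · rw [if_neg hχ]; exact ⟨0, isIntegral_zero, by simp⟩
    choose z hz1 hz2 using hterm
    have hsplit : ∑ χ : IrrCharacter G, F χ = F χ₁ + ∑ χ ∈ Finset.univ.erase χ₁, F χ :=
      (Finset.add_sum_erase _ _ (Finset.mem_univ χ₁)).symm
    obtain ⟨S, hS⟩ : ∃ S : ℂ, S = ∑ χ ∈ (Finset.univ.erase χ₁).attach,
        z χ.1 (Finset.ne_of_mem_erase χ.2) := ⟨_, rfl⟩
    have hsum : ∑ χ ∈ Finset.univ.erase χ₁, F χ = (p : ℂ) * S := by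
      rw [hS, Finset.mul_sum, ← Finset.sum_attach]
      apply Finset.sum_congr rfl
      intro χ _
      exact hz2 χ.1 (Finset.ne_of_mem_erase χ.2)
    have hSint : IsIntegral ℤ S := by
      rw [hS]; exact IsIntegral.sum _ (fun χ _ => hz1 χ.1 _)
    have hortho' : (1 : ℂ) + (p : ℂ) * S = 0 := by
      rw [← hF1, ← hsum, ← hsplit]; exact hF0
    have hp0 : (p : ℂ) ≠ 0 := by exact_mod_cast hp.ne_zero
    have h2 : ((1 : ℕ) : ℂ) / (p : ℂ) = -S := by
      rw [Nat.cast_one, div_eq_iff hp0]; linear_combination hortho'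
    have h3 : IsIntegral ℤ (((1 : ℕ) : ℂ) / (p : ℂ)) := by rw [h2]; exact hSint.neg
    have h4 := nat_dvd_of_isIntegral_div hp.ne_zero h3
    exact hp.one_lt.ne' (Nat.dvd_one.mp h4)
  · intro hnd χ hχ _
    have h1 : ¬ p ∣ Nat.card G / charDegree (χ₁ : G → ℂ) := by
      rw [hdeg1, Nat.div_one]; exact hnd
    have h2 := (Cfsg.Agent.S0914.result p M hM χ₁).mp h1
    rw [hprin, h2] at hχ
    have h3 : χ = χ₁ := hχ
    rw [h3]; exact hχ₁

end Cfsg.Agent.S4916
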