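import Cfsg.Statements.S4989
import Cfsg.Agent.Lib.Lead.CharGalois

set_option autoImplicit false
open Cfsg

namespace Cfsg.Agent.S4989

theorem result {G : Type*} [Group G] [Finite G] (H : Subgroup G) (χ : Cfsg.IrrCharacter G) : (Nat.card ↥H : ℝ)⁻¹ * ∑ᶠ h : ↥H, ‖(χ : G → ℂ) h‖ ^ 2 ≤ 1 + (Set.ncard ({x : G | (χ : G → ℂ) x = 0} \ (H : Set G)) : ℝ) / (Nat.card ↥H : ℝ) := by
  classical
  letI := Fintype.ofFinite G
  letI : Fintype H := Fintype.ofFinite _
  rw [finsum_eq_sum_of_fintype]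
  have hsum := Cfsg.Agent.Lib.Lead.sum_norm_sq_irr χ.2
  have hsplit := Cfsg.Agent.Lib.Lead.sum_norm_sq_split H (χ : G → ℂ)
  have key := Cfsg.Agent.Lib.Lead.isCharacter_card_nonvanishing_le_sum_norm_sq
    (Cfsg.Agent.Lib.Lead.isCharacter_of_isIrrCharacter χ.2)
    (Finset.univ.filter (fun g : G => g ∉ H)) (by
      intro g hg k hk
      rw [Finset.mem_filter] at hg ⊢
      exact ⟨Finset.mem_univ _, fun h => hg.2 (Cfsg.Agent.Lib.Lead.mem_of_pow_mem_of_coprime H hk h)⟩)
  have hS : ∑ g ∈ Finset.univ.filter (fun g : G => g ∉ H), ‖(χ : G → ℂ) g‖ ^ 2 =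
      ∑ g : G, (if g ∈ H then 0 else ‖(χ : G → ℂ) g‖ ^ 2) := by
    rw [Finset.sum_filter]
    apply Finset.sum_congr rfl; intro g _
    by_cases hg : g ∈ H <;> simp [hg]
  have hZ : ({x : G | (χ : G → ℂ) x = 0} \ (H : Set G)) =
      ((Finset.univ.filter (fun g : G => g ∉ H)).filter (fun g => (χ : G → ℂ) g = 0) : Finset G) := by
    ext x; simp [and_comm]
  rw [hZ, Set.ncard_coe_finset]
  have hcard : ((Finset.univ.filter (fun g : G => g ∉ H)).filter (fun g => (χ : G → ℂ) g ≠ 0)).card +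
      ((Finset.univ.filter (fun g : G => g ∉ H)).filter (fun g => (χ : G → ℂ) g = 0)).card =
      (Finset.univ.filter (fun g : G => g ∉ H)).card := by
    rw [add_comm]
    exact Finset.card_filter_add_card_filter_not (s := Finset.univ.filter (fun g : G => g ∉ H))
      (fun g => (χ : G → ℂ) g = 0)
  have hcard2 : (Finset.univ.filter (fun g : G => g ∉ H)).card + Fintype.card H = Fintype.card G := by
    have h1 := Finset.card_filter_add_card_filter_not (s := (Finset.univ : Finset G))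
      (fun g : G => g ∈ H)
    rw [Finset.card_univ] at h1
    have h2 : (Finset.univ.filter (fun g : G => g ∈ H)).card = Fintype.card H := by
      rw [← Fintype.card_subtype]
    omega
  have hH : (0 : ℝ) < (Nat.card H : ℝ) := by exact_mod_cast Nat.card_pos
  rw [Nat.card_eq_fintype_card] at hsum hH ⊢
  have e1 : ((Finset.univ.filter (fun g : G => g ∉ H)).filter (fun g => (χ : G → ℂ) g ≠ 0)).card +
      ((Finset.univ.filter (fun g : G => g ∉ H)).filter (fun g => (χ : G → ℂ) g = 0)).card +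
      Fintype.card H = Fintype.card G := by omega
  have e2 : (((Finset.univ.filter (fun g : G => g ∉ H)).filter (fun g => (χ : G → ℂ) g ≠ 0)).card : ℝ) +
      (((Finset.univ.filter (fun g : G => g ∉ H)).filter (fun g => (χ : G → ℂ) g = 0)).card : ℝ) +
      (Fintype.card H : ℝ) = (Fintype.card G : ℝ) := by exact_mod_cast e1
  rw [hS] at key
  have e3 : ∑ n : H, ‖(χ : G → ℂ) n‖ ^ 2 ≤ (Fintype.card H : ℝ) +
      (((Finset.univ.filter (fun g : G => g ∉ H)).filter (fun g => (χ : G → ℂ) g = 0)).card : ℝ) := by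
    linarith
  rw [inv_mul_le_iff₀ hH]
  have e4 : (Fintype.card H : ℝ) * (1 +
      (((Finset.univ.filter (fun g : G => g ∉ H)).filter (fun g => (χ : G → ℂ) g = 0)).card : ℝ) /
        (Fintype.card H : ℝ)) = (Fintype.card H : ℝ) +
      (((Finset.univ.filter (fun g : G => g ∉ H)).filter (fun g => (χ : G → ℂ) g = 0)).card : ℝ) := by
    field_simp
  rw [e4]; exact e3

end Cfsg.Agent.S4989
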