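import Cfsg.Statements.S4996
import Cfsg.Agent.Lib.Lead.CharGalois2
import Cfsg.Agent.Lib.Lead.CharGallagher2
import Cfsg.Agent.Lib.Lead.CharRing
import Cfsg.Agent.Lib.Lead.CharApps2
import Cfsg.Agent.Lib.Lead.CharCons

set_option autoImplicit false
set_option maxHeartbeats 800000

namespace Cfsg.Agent.S4996

open Cfsg Cfsg.Agent.Lib.Lead Cfsg.Agent.Lib.Helper2 Module
open scoped ComplexConjugate

theorem result {G : Type*} [Group G] [Finite G] (N : Subgroup G) [N.Normal] (χ : Cfsg.IrrCharacter G) : ¬ Cfsg.IsIrrCharacter ↥N (fun n : ↥N => (χ : G → ℂ) n) ↔ ∃ x : G, ∀ n : ↥N, (χ : G → ℂ) ((n : G) * x) = 0 := by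
  classical
  letI := Fintype.ofFinite G
  letI : Fintype N := Fintype.ofFinite N
  have hN0 : (Nat.card N : ℂ) ≠ 0 := by exact_mod_cast (Nat.card_pos (α := N)).ne'
  have hχc := isCharacter_of_isIrrCharacter χ.2
  have hχcl := isClassFunction_of_isCharacter hχc
  constructor
  · intro hred
    -- the coset average
    obtain ⟨F, hF⟩ : ∃ F : G → ℂ, F = fun g => (χ : G → ℂ) g * conj ((χ : G → ℂ) g) := ⟨_, rfl⟩
    obtain ⟨α, hα⟩ : ∃ α : G → ℂ,
        α = fun g => (Nat.card N : ℂ)⁻¹ * ∑ n : N, F ((n : G) * g) := ⟨_, rfl⟩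
    have hFch : IsCharacter G F := by
      rw [hF]; exact isCharacter_mul hχc (isCharacter_conj hχc)
    have hFcl := isClassFunction_of_isCharacter hFch
    have hαcl : IsClassFunction G α := by
      intro g x
      rw [hα]
      show (Nat.card N : ℂ)⁻¹ * ∑ n : N, F ((n : G) * (x * g * x⁻¹)) =
        (Nat.card N : ℂ)⁻¹ * ∑ n : N, F ((n : G) * g)
      congr 1
      rw [← Equiv.sum_comp (conjEquivNormal N x) (fun n : N => F ((n : G) * (x * g * x⁻¹)))]
      apply Finset.sum_congr rfl; intro n _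
      have : ((conjEquivNormal N x n : N) : G) * (x * g * x⁻¹) = x * ((n : G) * g) * x⁻¹ := by
        show x * (n : G) * x⁻¹ * (x * g * x⁻¹) = x * ((n : G) * g) * x⁻¹
        group
      rw [this, hFcl]
    have hαinv : ∀ (m : N) (g : G), α ((m : G) * g) = α g := by
      intro m g
      rw [hα]
      show (Nat.card N : ℂ)⁻¹ * ∑ n : N, F ((n : G) * ((m : G) * g)) =
        (Nat.card N : ℂ)⁻¹ * ∑ n : N, F ((n : G) * g)
      congr 1
      rw [← Equiv.sum_comp (Equiv.mulRight m) (fun n : N => F ((n : G) * g))]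
      apply Finset.sum_congr rfl; intro n _
      rw [Equiv.coe_mulRight, Subgroup.coe_mul, mul_assoc]
    have hαch : IsCharacter G α := by
      apply isCharacter_of_inner_nat α hαcl
      intro β
      by_cases h0 : ∑ n : N, (β : G → ℂ) n = 0
      · refine ⟨0, ?_⟩
        rw [classInner_eq_zero_of_coset_invariant N hαinv (irr_coset_sum_zero N β.2 h0)]
        simp
      · have h1 : classInner α (β : G → ℂ) = classInner F (β : G → ℂ) := by
          rw [hα]
          exact classInner_coset_avg N F (irr_coset_const N β.2 h0)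
        rw [h1]
        exact classInner_isCharacter_nat hFch (isCharacter_of_isIrrCharacter β.2)
    -- values of α
    have hFval : ∀ g, F g = ((‖(χ : G → ℂ) g‖ ^ 2 : ℝ) : ℂ) := by
      intro g
      rw [hF]
      show (χ : G → ℂ) g * conj ((χ : G → ℂ) g) = _
      rw [Complex.mul_conj, Complex.normSq_eq_norm_sq]
    have hαval : ∀ g, α g = (((Nat.card N : ℝ)⁻¹ * ∑ n : N, ‖(χ : G → ℂ) ((n : G) * g)‖ ^ 2 : ℝ) : ℂ) := by
      intro g
      rw [hα]
      show (Nat.card N : ℂ)⁻¹ * ∑ n : N, F ((n : G) * g) = _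
      simp_rw [hFval]
      push_cast
      rfl
    have hαnn : ∀ g, (0 : ℝ) ≤ (Nat.card N : ℝ)⁻¹ * ∑ n : N, ‖(χ : G → ℂ) ((n : G) * g)‖ ^ 2 := by
      intro g; positivity
    have hαnorm : ∀ g, ‖α g‖ = (Nat.card N : ℝ)⁻¹ * ∑ n : N, ‖(χ : G → ℂ) ((n : G) * g)‖ ^ 2 := by
      intro g
      rw [hαval, Complex.norm_real, Real.norm_of_nonneg (hαnn g)]
    -- total sum
    have hNr : (Nat.card N : ℝ) ≠ 0 := by exact_mod_cast (Nat.card_pos (α := N)).ne'
    have htot : ∑ g : G, ‖α g‖ = (Nat.card G : ℝ) := by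
      simp_rw [hαnorm]
      rw [← Finset.mul_sum, Finset.sum_comm]
      have h1 : ∀ n : N, ∑ g : G, ‖(χ : G → ℂ) ((n : G) * g)‖ ^ 2 = (Nat.card G : ℝ) := by
        intro n
        rw [← sum_norm_sq_irr χ.2]
        exact Equiv.sum_comp (Equiv.mulLeft (n : G)) (fun g => ‖(χ : G → ℂ) g‖ ^ 2)
      rw [Finset.sum_congr rfl (fun n _ => h1 n), Finset.sum_const, Finset.card_univ, nsmul_eq_mul,
        ← Nat.card_eq_fintype_card, ← mul_assoc, inv_mul_cancel₀ hNr, one_mul]
    -- α(1) ≥ 2
    have hres := isCharacter_res N hχc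
    obtain ⟨m, hm⟩ := classInner_isCharacter_nat hres hres
    have hm0 : m ≠ 0 := by
      intro h0
      rw [h0] at hm
      have h1 : (fun n : N => (χ : G → ℂ) n) 1 ≠ 0 := by
        show (χ : G → ℂ) ((1 : N) : G) ≠ 0
        rw [Subgroup.coe_one]; exact isIrrCharacter_one_ne_zero χ.2
      exact classInner_self_ne_zero (f := fun n : N => (χ : G → ℂ) n) h1 (by simpa using hm)
    have hm1 : m ≠ 1 := by
      intro h1
      rw [h1] at hm
      exact hred (isIrrCharacter_of_norm_one hres (by simpa using hm))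
    have hm2 : 2 ≤ m := by omega
    have hα1 : ‖α 1‖ = (m : ℝ) := by
      have h1 : α 1 = (m : ℂ) := by
        rw [← hm, hα]
        unfold classInner
        show (Nat.card N : ℂ)⁻¹ * ∑ n : N, F ((n : G) * 1) = _
        congr 1
        apply Finset.sum_congr rfl; intro n _
        rw [mul_one, hF]
      rw [h1, Complex.norm_natCast]
    -- apply the Galois inequality on G \ {1}
    have hS : ∀ g ∈ (Finset.univ : Finset G).erase 1, ∀ k : ℕ, k.Coprime (Nat.card G) →
        g ^ k ∈ (Finset.univ : Finset G).erase 1 := by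
      intro g hg k hk
      rw [Finset.mem_erase] at hg ⊢
      exact ⟨pow_ne_one_of_coprime hg.1 hk, Finset.mem_univ _⟩
    have key := isCharacter_card_nonvanishing_le_sum_norm hαch _ hS
    have hsum : ∑ g ∈ (Finset.univ : Finset G).erase 1, ‖α g‖ = (Nat.card G : ℝ) - m := by
      rw [← htot, ← hα1, ← Finset.add_sum_erase _ _ (Finset.mem_univ (1 : G))]
      ring
    rw [hsum] at key
    by_contra hcon
    push Not at hcon
    have hall : ∀ g : G, α g ≠ 0 := by
      intro g h0
      obtain ⟨n, hn⟩ := hcon g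
      have h1 := hαnorm g
      rw [h0, norm_zero] at h1
      have h2 : ∑ n : N, ‖(χ : G → ℂ) ((n : G) * g)‖ ^ 2 = 0 := by
        rcases mul_eq_zero.mp h1.symm with h | h
        · exact absurd (inv_eq_zero.mp h) hNr
        · exact h
      have h3 := (Finset.sum_eq_zero_iff_of_nonneg (fun n _ => by positivity)).mp h2 n
        (Finset.mem_univ _)
      apply hn
      have h4 : ‖(χ : G → ℂ) ((n : G) * g)‖ = 0 := by
        exact pow_eq_zero_iff (two_ne_zero) |>.mp h3
      exact norm_eq_zero.mp h4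
    have hfil : ((Finset.univ : Finset G).erase 1).filter (fun g => α g ≠ 0) =
        (Finset.univ : Finset G).erase 1 := by
      apply Finset.filter_true_of_mem
      intro g _; exact hall g
    rw [hfil, Finset.card_erase_of_mem (Finset.mem_univ _), Finset.card_univ,
      ← Nat.card_eq_fintype_card] at key
    have hpos : 0 < Nat.card G := Nat.card_pos
    have h5 : ((Nat.card G - 1 : ℕ) : ℝ) = (Nat.card G : ℝ) - 1 := by
      rw [Nat.cast_sub hpos]; simp
    rw [h5] at key
    have h6 : (2 : ℝ) ≤ m := by exact_mod_cast hm2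
    linarith
  · rintro ⟨x, hx⟩ hirr
    obtain ⟨h1, -⟩ := gallagher_coset_avg N χ.2 hirr χ.2
    have h2 := h1 ⟨fun _ => 1, isIrrCharacter_one G⟩ (by
      show ∑ n : N, (1 : ℂ) ≠ 0
      rw [Finset.sum_const, Finset.card_univ, nsmul_eq_mul, mul_one, ← Nat.card_eq_fintype_card]
      exact hN0) (by
      funext g; simp)
    have h3 := congrFun h2 x
    simp only [hx, zero_mul, Finset.sum_const_zero, mul_zero] at h3
    exact zero_ne_one h3

end Cfsg.Agent.S4996
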