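import Cfsg.Statements.S5011

set_option autoImplicit false
open Cfsg

namespace Cfsg.Agent.S5011

theorem result {G : Type*} [Group G] [Finite G] [IsSimpleGroup G]
    (hG : ¬ IsMulCommutative G) {V : Type*} [AddCommGroup V] [Module ℂ V] [FiniteDimensional ℂ V]
    (ρ : Representation ℂ G V)
    (hirr : ∀ W : Submodule ℂ V, (∀ x : G, ∀ v ∈ W, ρ x v ∈ W) → W = ⊥ ∨ W = ⊤)
    (hdim : 1 < Module.finrank ℂ V) (g : G) (hg : g ≠ 1) :
    ∃ W : Submodule ℂ V, W ≠ ⊥ ∧ W ≠ ⊤ ∧ ∀ c ∈ Subgroup.centralizer ({g} : Set G), ∀ v ∈ W, ρ c v ∈ W := by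
  classical
  haveI : Nontrivial V := Module.nontrivial_of_finrank_pos (R := ℂ) (by omega)
  obtain ⟨μ, hμ⟩ := Module.End.exists_eigenvalue (ρ g)
  refine ⟨Module.End.eigenspace (ρ g) μ, hμ, ?_, ?_⟩
  · intro htop
    have hscal : ∀ v, ρ g v = μ • v := fun v =>
      Module.End.mem_eigenspace_iff.mp (by rw [htop]; trivial)
    rcases (MonoidHom.normal_ker (ρ : G →* _)).eq_bot_or_eq_top with hk | hk
    · have hinj : Function.Injective (ρ : G →* _) := (MonoidHom.ker_eq_bot_iff _).mp hk
      have hcen : g ∈ Subgroup.center G := by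
        rw [Subgroup.mem_center_iff]
        intro x
        have : ρ (x * g) = ρ (g * x) := by
          rw [map_mul, map_mul]
          ext v
          simp only [Module.End.mul_apply, hscal, map_smul]
        exact hinj this
      rcases (Subgroup.Normal.eq_bot_or_eq_top
        (inferInstance : (Subgroup.center G).Normal)) with hz | hz
      · rw [hz, Subgroup.mem_bot] at hcen; exact hg hcen
      · apply hG
        refine ⟨⟨fun a b => ?_⟩⟩
        have : b ∈ Subgroup.center G := by rw [hz]; trivial
        exact (Subgroup.mem_center_iff.mp this a)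
    · have htriv : ∀ x : G, ρ x = 1 := fun x => MonoidHom.mem_ker.mp (by rw [hk]; trivial)
      obtain ⟨v, hv⟩ := exists_ne (0 : V)
      have := hirr (Submodule.span ℂ {v}) (fun x w hw => by rw [htriv]; exact hw)
      rcases this with h0 | h0
      · apply hv
        have : v ∈ Submodule.span ℂ {v} := Submodule.mem_span_singleton_self v
        rw [h0] at this; exact (Submodule.mem_bot ℂ).mp this
      · have := finrank_span_singleton (K := ℂ) hv
        rw [h0, finrank_top] at this
        omega
  · intro c hc v hv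
    rw [Module.End.mem_eigenspace_iff] at hv ⊢
    have hcomm : g * c = c * g := Subgroup.mem_centralizer_iff.mp hc g (Set.mem_singleton g)
    rw [← Module.End.mul_apply, ← map_mul, hcomm, map_mul, Module.End.mul_apply, hv, map_smul]

end Cfsg.Agent.S5011
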