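import Cfsg.Statements.S5099
import Mathlib
import Cfsg.Agent.Lib.Helper1.FusNC
import Cfsg.Agent.S5111
import Cfsg.Agent.S5076

set_option autoImplicit false
open Cfsg

open Cfsg.Agent.Lib.Helper1 Cfsg.FusionSystem

namespace Cfsg.Agent.S5099

section
variable {Ω : Type*} [Group Ω] {S : Subgroup Ω}

/-- receptivity of `P ⊔ Q` in `F` gives receptivity of `P` in the centralizer system -/
theorem cent_receptive (F : Cfsg.FusionSystem S) (Q : Subgroup Ω)
    (E : Cfsg.FusionSystem (centralizerIn S Q)) (hE : F.IsCentralizerSystem Q E) (P : Subgroup Ω)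
    (hPC : P ≤ centralizerIn S Q) (hrec : F.IsReceptive (P ⊔ Q)) : E.IsReceptive P := by
  refine ⟨hPC, ?_⟩
  intro P₀ φ hφ hφr
  rw [hE P₀] at hφ
  obtain ⟨hφF, hP₀C, hφC, φb, hφb, hφbP, hφbQ⟩ := hφ
  have hrange : φb.range = P ⊔ Q := by
    apply le_antisymm
    · rintro _ ⟨z, rfl⟩
      refine nc_map_sup_mem φb (fun x => ?_) (fun x => ?_) z
      · rw [hφbP, ← hφr]; exact ⟨x, rfl⟩
      · rw [hφbQ]; exact x.2
    · apply sup_le
      · intro y hy
        rw [← hφr] at hy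
        obtain ⟨x, rfl⟩ := hy
        exact ⟨_, hφbP x⟩
      · intro q hq
        exact ⟨_, hφbQ ⟨q, hq⟩⟩
  obtain ⟨ψb, hψb, hext⟩ := hrec.2 (P₀ ⊔ Q) φb hφb hrange
  have hCS : centralizerIn S Q ≤ S := inf_le_left
  have hQle : P₀ ⊔ Q ≤ extender S (P₀ ⊔ Q) φb := fs_le_extender F hφb
  have hXle : extender (centralizerIn S Q) P₀ φ ≤ extender S (P₀ ⊔ Q) φb := by
    intro g hg
    obtain ⟨hgC, hgN, h, hhC, hgh⟩ := fs_mem_extender _ _ _ hg
    have hgcQ : ∀ q ∈ Q, g * q * g⁻¹ = q := by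
      intro q hq
      have := Subgroup.mem_centralizer_iff.mp (Subgroup.mem_inf.mp hgC).2 q hq
      rw [← this]; group
    have hhcQ : ∀ q ∈ Q, h * q * h⁻¹ = q := by
      intro q hq
      have := Subgroup.mem_centralizer_iff.mp (Subgroup.mem_inf.mp hhC).2 q hq
      rw [← this]; group
    have hgNQ : g ∈ Subgroup.normalizer (Q : Set Ω) :=
      (Subgroup.mem_inf.mp (fs_centralizerIn_le_normalizerIn S Q hgC)).2
    have hgNR : g ∈ Subgroup.normalizer ((P₀ ⊔ Q : Subgroup Ω) : Set Ω) :=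
      nc_normalizer_sup hgN hgNQ
    apply Subgroup.subset_closure
    refine ⟨hCS hgC, hgNR, h, hCS hhC, ?_⟩
    intro x hx
    have hAB : φb.comp ((P₀ ⊔ Q).normalizerMonoidHom ⟨g, hgNR⟩).toMonoidHom =
        (MulAut.conj h).toMonoidHom.comp φb := by
      apply nc_hom_eq_on_sup
      · intro y
        have hy : g * (y : Ω) * g⁻¹ ∈ P₀ := (Subgroup.mem_normalizer_iff.mp hgN _).mp y.2
        have e1 : ((P₀ ⊔ Q).normalizerMonoidHom ⟨g, hgNR⟩) (Subgroup.inclusion le_sup_left y) =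
            Subgroup.inclusion le_sup_left (⟨g * (y : Ω) * g⁻¹, hy⟩ : P₀) := Subtype.ext rfl
        show φb (((P₀ ⊔ Q).normalizerMonoidHom ⟨g, hgNR⟩) (Subgroup.inclusion le_sup_left y)) =
          h * φb (Subgroup.inclusion le_sup_left y) * h⁻¹
        rw [e1, hφbP, hφbP, hgh y hy]
      · intro q
        have e1 : ((P₀ ⊔ Q).normalizerMonoidHom ⟨g, hgNR⟩) (Subgroup.inclusion le_sup_right q) =
            Subgroup.inclusion le_sup_right q := Subtype.ext (hgcQ q q.2)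
        show φb (((P₀ ⊔ Q).normalizerMonoidHom ⟨g, hgNR⟩) (Subgroup.inclusion le_sup_right q)) =
          h * φb (Subgroup.inclusion le_sup_right q) * h⁻¹
        rw [e1, hφbQ, hhcQ q q.2]
    exact DFunLike.congr_fun hAB x
  have hXQle : extender (centralizerIn S Q) P₀ φ ⊔ Q ≤ extender S (P₀ ⊔ Q) φb :=
    sup_le hXle (le_sup_right.trans hQle)
  have hψbQ : ∀ (q : Ω) (hq : q ∈ Q) (hq' : q ∈ extender S (P₀ ⊔ Q) φb), ψb ⟨q, hq'⟩ = q := by
    intro q hq hq'
    rw [hext q (Subgroup.mem_sup_right hq) hq']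
    exact hφbQ ⟨q, hq⟩
  have hψbP : ∀ (x : Ω) (hx : x ∈ P₀) (hx' : x ∈ extender S (P₀ ⊔ Q) φb),
      ψb ⟨x, hx'⟩ = φ ⟨x, hx⟩ := by
    intro x hx hx'
    rw [hext x (Subgroup.mem_sup_left hx) hx']
    exact hφbP ⟨x, hx⟩
  refine ⟨ψb.comp (Subgroup.inclusion hXle), ?_, ?_⟩
  · rw [hE]
    refine ⟨fs_restrict F hXle hψb, fs_extender_le _ _ _, fun x => ?_,
      ψb.comp (Subgroup.inclusion hXQle), fs_restrict F hXQle hψb, fun x => rfl, fun q => ?_⟩
    · refine Subgroup.mem_inf.mpr ⟨(F.le_of_mem hψb).2 _, ?_⟩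
      rw [Subgroup.mem_centralizer_iff]
      intro q hq
      have hq' : q ∈ extender S (P₀ ⊔ Q) φb := hQle (Subgroup.mem_sup_right hq)
      have hxC := fs_extender_le _ _ _ x.2
      have hcomm : q * (x : Ω) = (x : Ω) * q :=
        Subgroup.mem_centralizer_iff.mp (Subgroup.mem_inf.mp hxC).2 q hq
      have h1 : (⟨q, hq'⟩ : extender S (P₀ ⊔ Q) φb) * Subgroup.inclusion hXle x =
          Subgroup.inclusion hXle x * ⟨q, hq'⟩ := Subtype.ext hcomm
      have h2 := congrArg ψb h1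
      rw [map_mul, map_mul, hψbQ q hq hq'] at h2
      exact h2
    · exact hψbQ q q.2 _
  · intro x hP hN
    exact hψbP x hP _

/-- for `P` fully normalized in the centralizer system, `P ⊔ Q` is fully centralized in `F` -/
theorem cent_fullyCentralized [Finite S] (p : ℕ) [Fact p.Prime] (hS : IsPGroup p S)
    (F : Cfsg.FusionSystem S) (hF : F.IsSaturated p) (Q : Subgroup Ω)
    (hQ : F.IsFullyCentralized Q)
    (E : Cfsg.FusionSystem (centralizerIn S Q)) (hE : F.IsCentralizerSystem Q E) (P : Subgroup Ω)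
    (hPfn : E.IsFullyNormalized P) : F.IsFullyCentralized (P ⊔ Q) := by
  have hQS : Q ≤ S := hQ.1
  have hCS : centralizerIn S Q ≤ S := inf_le_left
  have hPC : P ≤ centralizerIn S Q := hPfn.1
  have hPS : P ≤ S := hPC.trans hCS
  have hRS : P ⊔ Q ≤ S := sup_le hPS hQS
  have hQrec : F.IsReceptive Q := fs_receptive_of_fullyCentralized p hS F hF Q hQ
  obtain ⟨R', φ, hconj, hR'a, hR'r, hφ, hφN, hφR⟩ := fs_sat_setup p hS F hF (P ⊔ Q) hRS
  have hinj := F.injective_of_mem hφ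
  have hRN : P ⊔ Q ≤ normalizerIn S (P ⊔ Q) := fs_le_normalizerIn hRS
  have hPN : P ≤ normalizerIn S (P ⊔ Q) := le_sup_left.trans hRN
  have hQN : Q ≤ normalizerIn S (P ⊔ Q) := le_sup_right.trans hRN
  have hNle : normalizerIn (centralizerIn S Q) P ≤ normalizerIn S (P ⊔ Q) := by
    intro g hg
    obtain ⟨hgC, hgNP⟩ := Subgroup.mem_inf.mp hg
    exact Subgroup.mem_inf.mpr ⟨hCS hgC, nc_normalizer_sup hgNP
      (Subgroup.mem_inf.mp (fs_centralizerIn_le_normalizerIn S Q hgC)).2⟩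
  let χ : Q →* Ω := φ.comp (Subgroup.inclusion hQN)
  have hχ : χ ∈ F.Hom Q := fs_restrict F hQN hφ
  obtain ⟨χ', hχ', hχ'χ, hχ'r⟩ := fs_inv F hχ rfl
  obtain ⟨ψ₀, hψ₀, hext⟩ := hQrec.2 χ.range χ' hχ' hχ'r
  have hQ₁X : χ.range ≤ extender S χ.range χ' := fs_le_extender F hχ'
  have hCX : centralizerIn S χ.range ≤ extender S χ.range χ' :=
    fs_centralizer_le_extender S _ χ'
  have hψ₀Q : ∀ (q : Q) (h : φ ⟨q, hQN q.2⟩ ∈ extender S χ.range χ'),
      ψ₀ ⟨φ ⟨q, hQN q.2⟩, h⟩ = q := by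
    intro q h
    have hq1 : φ ⟨q, hQN q.2⟩ ∈ χ.range := ⟨q, rfl⟩
    rw [hext _ hq1 h]
    exact hχ'χ q hq1
  have hφcent : ∀ (g : Ω) (hg : g ∈ normalizerIn S (P ⊔ Q)),
      g ∈ Subgroup.centralizer (Q : Set Ω) → φ ⟨g, hg⟩ ∈ centralizerIn S χ.range := by
    intro g hg hgc
    refine Subgroup.mem_inf.mpr ⟨(F.le_of_mem hφ).2 _, ?_⟩
    rw [Subgroup.mem_centralizer_iff]
    rintro _ ⟨q, rfl⟩
    have h1 : (⟨q, hQN q.2⟩ : normalizerIn S (P ⊔ Q)) * ⟨g, hg⟩ = ⟨g, hg⟩ * ⟨q, hQN q.2⟩ :=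
      Subtype.ext (Subgroup.mem_centralizer_iff.mp hgc q q.2)
    have h2 := congrArg φ h1
    rw [map_mul, map_mul] at h2
    exact h2
  have hPcent : ∀ x ∈ P, x ∈ Subgroup.centralizer (Q : Set Ω) :=
    fun x hx => (Subgroup.mem_inf.mp (hPC hx)).2
  have hφPX : ∀ x : P, (φ.comp (Subgroup.inclusion hPN)) x ∈ extender S χ.range χ' :=
    fun x => hCX (hφcent x (hPN x.2) (hPcent x x.2))
  let θ : P →* Ω := ψ₀.comp ((φ.comp (Subgroup.inclusion hPN)).codRestrict _ hφPX)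
  have hθF : θ ∈ F.Hom P := F.comp_mem (fs_restrict F hPN hφ) hψ₀ hφPX
  have hφRX : ∀ z : ↥(P ⊔ Q),
      (φ.comp (Subgroup.inclusion hRN)) z ∈ extender S χ.range χ' := by
    intro z
    exact nc_sup_induction ((extender S χ.range χ').comap (φ.comp (Subgroup.inclusion hRN)))
      (fun x => hφPX x) (fun q => hQ₁X ⟨q, rfl⟩) z
  let θb : ↥(P ⊔ Q) →* Ω := ψ₀.comp ((φ.comp (Subgroup.inclusion hRN)).codRestrict _ hφRX)
  have hθbF : θb ∈ F.Hom (P ⊔ Q) := F.comp_mem (fs_restrict F hRN hφ) hψ₀ hφRX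
  have hθbQ : ∀ q : Q, θb (Subgroup.inclusion le_sup_right q) = q := fun q => hψ₀Q q _
  have hθbP : ∀ x : P, θb (Subgroup.inclusion le_sup_left x) = θ x := fun x => rfl
  have hθC : ∀ x : P, θ x ∈ centralizerIn S Q := by
    intro x
    refine Subgroup.mem_inf.mpr ⟨(F.le_of_mem hθF).2 x, ?_⟩
    rw [Subgroup.mem_centralizer_iff]
    intro q hq
    have h1 : Subgroup.inclusion (le_sup_right : Q ≤ P ⊔ Q) ⟨q, hq⟩ *
        Subgroup.inclusion le_sup_left x =
        Subgroup.inclusion le_sup_left x * Subgroup.inclusion le_sup_right ⟨q, hq⟩ :=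
      Subtype.ext (Subgroup.mem_centralizer_iff.mp (hPcent x x.2) q hq)
    have h2 := congrArg θb h1
    rw [map_mul, map_mul, hθbQ ⟨q, hq⟩, hθbP] at h2
    exact h2
  have hθE : θ ∈ E.Hom P := by
    rw [hE]
    exact ⟨hθF, hPC, hθC, θb, hθbF, hθbP, hθbQ⟩
  have hconjE : E.IsConj P θ.range := ⟨θ, hθE, rfl⟩
  have hcard1 := hPfn.2 θ.range hconjE
  have hM₁X : normalizerIn (centralizerIn S χ.range) (φ.comp (Subgroup.inclusion hPN)).range ≤
      extender S χ.range χ' := inf_le_left.trans hCX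
  have hψ₀M : ∀ m : normalizerIn (centralizerIn S χ.range) (φ.comp (Subgroup.inclusion hPN)).range,
      ψ₀ ⟨m, hM₁X m.2⟩ ∈ normalizerIn (centralizerIn S Q) θ.range := by
    intro m
    have hmC : (m : Ω) ∈ centralizerIn S χ.range := (Subgroup.mem_inf.mp m.2).1
    have hmN : (m : Ω) ∈ Subgroup.normalizer
        (((φ.comp (Subgroup.inclusion hPN)).range : Subgroup Ω) : Set Ω) :=
      (Subgroup.mem_inf.mp m.2).2
    refine Subgroup.mem_inf.mpr ⟨Subgroup.mem_inf.mpr ⟨(F.le_of_mem hψ₀).2 _, ?_⟩, ?_⟩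
    · rw [Subgroup.mem_centralizer_iff]
      intro q hq
      have hq1 : φ ⟨q, hQN hq⟩ ∈ χ.range := ⟨⟨q, hq⟩, rfl⟩
      have hcomm := Subgroup.mem_centralizer_iff.mp (Subgroup.mem_inf.mp hmC).2 _ hq1
      have h1 : (⟨φ ⟨q, hQN hq⟩, hQ₁X hq1⟩ : extender S χ.range χ') * ⟨m, hM₁X m.2⟩ =
          ⟨m, hM₁X m.2⟩ * ⟨φ ⟨q, hQN hq⟩, hQ₁X hq1⟩ := Subtype.ext hcomm
      have h2 := congrArg ψ₀ h1
      rw [map_mul, map_mul, hψ₀Q ⟨q, hq⟩] at h2
      exact h2
    · haveI : Finite θ.range := fs_finite_of_le (fs_range_le F hθF)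
      apply Cfsg.Agent.Lib.Helper6.sy_mem_normalizer_of_conj_le
      rintro _ ⟨x, rfl⟩
      have h1 : (m : Ω) * (φ.comp (Subgroup.inclusion hPN)) x * (m : Ω)⁻¹ ∈
          (φ.comp (Subgroup.inclusion hPN)).range :=
        (Subgroup.mem_normalizer_iff.mp hmN _).mp ⟨x, rfl⟩
      obtain ⟨x', hx'⟩ := h1
      refine ⟨x', ?_⟩
      have e : (⟨(φ.comp (Subgroup.inclusion hPN)) x', hφPX x'⟩ : extender S χ.range χ') =
          ⟨m, hM₁X m.2⟩ * ⟨(φ.comp (Subgroup.inclusion hPN)) x, hφPX x⟩ * ⟨m, hM₁X m.2⟩⁻¹ :=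
        Subtype.ext hx'
      show ψ₀ ⟨(φ.comp (Subgroup.inclusion hPN)) x', hφPX x'⟩ = _
      rw [e, map_mul, map_mul, map_inv]
      rfl
  haveI : Finite ↥(normalizerIn (centralizerIn S Q) θ.range) :=
    fs_finite_of_le (inf_le_left.trans hCS)
  haveI : Finite ↥(normalizerIn (centralizerIn S Q) P) :=
    fs_finite_of_le (inf_le_left.trans hCS)
  haveI : Finite ↥(normalizerIn (centralizerIn S χ.range)
      (φ.comp (Subgroup.inclusion hPN)).range) :=
    fs_finite_of_le (inf_le_left.trans inf_le_left)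
  have hcard2 : Nat.card (normalizerIn (centralizerIn S χ.range)
      (φ.comp (Subgroup.inclusion hPN)).range) ≤
      Nat.card (normalizerIn (centralizerIn S Q) θ.range) := by
    apply Nat.card_le_card_of_injective
      (fun m : normalizerIn (centralizerIn S χ.range) (φ.comp (Subgroup.inclusion hPN)).range =>
        (⟨ψ₀ ⟨m, hM₁X m.2⟩, hψ₀M m⟩ : normalizerIn (centralizerIn S Q) θ.range))
    intro a b hab
    have h1 := F.injective_of_mem hψ₀ (congrArg Subtype.val hab)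
    exact Subtype.ext (congrArg (fun z : extender S χ.range χ' => (z : Ω)) h1)
  have hφNM : ∀ n : normalizerIn (centralizerIn S Q) P, φ ⟨n, hNle n.2⟩ ∈
      normalizerIn (centralizerIn S χ.range) (φ.comp (Subgroup.inclusion hPN)).range := by
    intro n
    obtain ⟨hnC, hnN⟩ := Subgroup.mem_inf.mp n.2
    refine Subgroup.mem_inf.mpr ⟨hφcent n (hNle n.2) (Subgroup.mem_inf.mp hnC).2, ?_⟩
    haveI : Finite (φ.comp (Subgroup.inclusion hPN)).range :=
      fs_finite_of_le (fs_range_le F (fs_restrict F hPN hφ))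
    apply Cfsg.Agent.Lib.Helper6.sy_mem_normalizer_of_conj_le
    rintro _ ⟨x, rfl⟩
    have hx' : (n : Ω) * x * (n : Ω)⁻¹ ∈ P := (Subgroup.mem_normalizer_iff.mp hnN _).mp x.2
    refine ⟨⟨_, hx'⟩, ?_⟩
    have e : (⟨(n : Ω) * x * (n : Ω)⁻¹, hPN hx'⟩ : normalizerIn S (P ⊔ Q)) =
        ⟨n, hNle n.2⟩ * ⟨x, hPN x.2⟩ * ⟨n, hNle n.2⟩⁻¹ := Subtype.ext rfl
    show φ ⟨(n : Ω) * x * (n : Ω)⁻¹, hPN hx'⟩ =
      φ ⟨n, hNle n.2⟩ * φ ⟨x, hPN x.2⟩ * (φ ⟨n, hNle n.2⟩)⁻¹
    rw [e, map_mul, map_mul, map_inv]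
  have hbij : Function.Bijective (fun n : normalizerIn (centralizerIn S Q) P =>
      (⟨φ ⟨n, hNle n.2⟩, hφNM n⟩ :
        normalizerIn (centralizerIn S χ.range) (φ.comp (Subgroup.inclusion hPN)).range)) := by
    apply Function.Injective.bijective_of_nat_card_le
    · intro a b hab
      have h1 := hinj (congrArg Subtype.val hab)
      exact Subtype.ext (congrArg (fun z : normalizerIn S (P ⊔ Q) => (z : Ω)) h1)
    · exact hcard2.trans hcard1
  have hR'fc := fs_fullyCentralized_of_receptive F hR'r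
  refine ⟨hRS, fun R'' hconj'' => ?_⟩
  have h1 := hR'fc.2 R'' (fs_isConj_trans F (fs_isConj_symm F hconj) hconj'')
  refine h1.trans ?_
  have hφR' : ∀ z : ↥(P ⊔ Q), φ ⟨z, hRN z.2⟩ ∈ R' := by
    intro z
    rw [← hφR]
    exact ⟨⟨z, hRN z.2⟩, Subgroup.mem_subgroupOf.mpr z.2, rfl⟩
  have hsurj : ∀ c' ∈ centralizerIn S R', ∃ c : centralizerIn S (P ⊔ Q),
      φ ⟨c, fs_centralizerIn_le_normalizerIn S _ c.2⟩ = c' := by
    intro c' hc'
    obtain ⟨hc'S, hc'C⟩ := Subgroup.mem_inf.mp hc'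
    rw [Subgroup.mem_centralizer_iff] at hc'C
    have hc'M : c' ∈ normalizerIn (centralizerIn S χ.range)
        (φ.comp (Subgroup.inclusion hPN)).range := by
      refine Subgroup.mem_inf.mpr ⟨Subgroup.mem_inf.mpr ⟨hc'S, ?_⟩, ?_⟩
      · rw [Subgroup.mem_centralizer_iff]
        rintro _ ⟨q, rfl⟩
        exact hc'C _ (hφR' (Subgroup.inclusion le_sup_right q))
      · haveI : Finite (φ.comp (Subgroup.inclusion hPN)).range :=
          fs_finite_of_le (fs_range_le F (fs_restrict F hPN hφ))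
        apply Cfsg.Agent.Lib.Helper6.sy_mem_normalizer_of_conj_le
        rintro _ ⟨x, rfl⟩
        have hcomm : φ ⟨x, hPN x.2⟩ * c' = c' * φ ⟨x, hPN x.2⟩ :=
          hc'C _ (hφR' (Subgroup.inclusion le_sup_left x))
        have e : c' * (φ.comp (Subgroup.inclusion hPN)) x * c'⁻¹ =
            (φ.comp (Subgroup.inclusion hPN)) x := by
          show c' * φ ⟨x, hPN x.2⟩ * c'⁻¹ = φ ⟨x, hPN x.2⟩
          rw [← hcomm]; group
        rw [e]; exact ⟨x, rfl⟩
    obtain ⟨n, hn⟩ := hbij.2 ⟨c', hc'M⟩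
    have hn' : φ ⟨n, hNle n.2⟩ = c' := congrArg Subtype.val hn
    refine ⟨⟨n, Subgroup.mem_inf.mpr ⟨hCS (Subgroup.mem_inf.mp n.2).1, ?_⟩⟩, hn'⟩
    rw [Subgroup.mem_centralizer_iff]
    intro r hr
    have hcomm : φ ⟨r, hRN hr⟩ * c' = c' * φ ⟨r, hRN hr⟩ := hc'C _ (hφR' ⟨r, hr⟩)
    rw [← hn', ← map_mul, ← map_mul] at hcomm
    exact congrArg (fun z : normalizerIn S (P ⊔ Q) => (z : Ω)) (hinj hcomm)
  haveI : Finite ↥(centralizerIn S (P ⊔ Q)) := fs_finite_of_le inf_le_left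
  choose f hf using hsurj
  apply Nat.card_le_card_of_injective (fun c' : centralizerIn S R' => f c' c'.2)
  intro a b hab
  have hab' : f a a.2 = f b b.2 := hab
  apply Subtype.ext
  have e := congrArg (fun c : centralizerIn S (P ⊔ Q) =>
    φ ⟨c, fs_centralizerIn_le_normalizerIn S _ c.2⟩) hab'
  exact (hf a a.2).symm.trans (e.trans (hf b b.2))

/-- the centralizer `C_S(Q)` is fully automized in the centralizer system -/
theorem cent_top_automized [Finite S] (p : ℕ) [Fact p.Prime] (hS : IsPGroup p S)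
    (F : Cfsg.FusionSystem S) (hF : F.IsSaturated p) (Q : Subgroup Ω)
    (hQ : F.IsFullyCentralized Q)
    (E : Cfsg.FusionSystem (centralizerIn S Q)) (hE : F.IsCentralizerSystem Q E) :
    E.IsFullyAutomized p (centralizerIn S Q) := by
  have hp : p.Prime := Fact.out
  have hQS : Q ≤ S := hQ.1
  have hCS : centralizerIn S Q ≤ S := inf_le_left
  have hRS : centralizerIn S Q ⊔ Q ≤ S := sup_le hCS hQS
  haveI : Finite ↥(centralizerIn S Q) := fs_finite_of_le hCS
  haveI : Finite ↥(centralizerIn S Q ⊔ Q) := fs_finite_of_le hRS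
  refine ⟨le_rfl, ?_⟩
  have hUp : IsPGroup p ↥((autInducedBy (centralizerIn S Q) (centralizerIn S Q)).subgroupOf
      (E.autGroup (centralizerIn S Q))) := by
    apply IsPGroup.comap_subtype
    rw [Cfsg.Agent.S5076.autInducedBy_eq_map]
    exact ((hS.to_le hCS).comap_subtype).map _
  obtain ⟨R, hR⟩ := hUp.exists_le_sylow
  refine ⟨R, le_antisymm ?_ hR⟩
  intro a haR
  rw [Subgroup.mem_subgroupOf]
  obtain ⟨k, hk⟩ := R.isPGroup' ⟨a, haR⟩
  have hak : (a : MulAut ↥(centralizerIn S Q)) ^ (p ^ k) = 1 := by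
    have := congrArg (fun z : R => ((z : ↥(E.autGroup (centralizerIn S Q))) :
      MulAut ↥(centralizerIn S Q))) hk
    simpa using this
  have haE := (fs_mem_autGroup_iff E le_rfl (a : MulAut ↥(centralizerIn S Q))).mp a.2
  rw [hE] at haE
  obtain ⟨haF, -, -, ab, hab, habC, habQ⟩ := haE
  obtain ⟨θ, hθ, hθab⟩ := nc_aut_of_ext F ab hab
    (fun x => by rw [habC]; exact ((a : MulAut ↥(centralizerIn S Q)) x).2)
    (fun q => by rw [habQ]; exact q.2)
  have hθC : ∀ x : centralizerIn S Q, θ (Subgroup.inclusion le_sup_left x) =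
      Subgroup.inclusion le_sup_left ((a : MulAut ↥(centralizerIn S Q)) x) := by
    intro x
    apply Subtype.ext
    rw [hθab, habC]
    rfl
  have hθQ : ∀ q : Q, θ (Subgroup.inclusion le_sup_right q) = Subgroup.inclusion le_sup_right q := by
    intro q
    apply Subtype.ext
    rw [hθab, habQ]
    rfl
  have hpowC : ∀ i : ℕ, ∀ x : centralizerIn S Q, (θ ^ i) (Subgroup.inclusion le_sup_left x) =
      Subgroup.inclusion le_sup_left (((a : MulAut ↥(centralizerIn S Q)) ^ i) x) := by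
    intro i
    induction i with
    | zero => intro x; rfl
    | succ i ih =>
      intro x
      rw [pow_succ, MulAut.mul_apply, hθC, ih, pow_succ, MulAut.mul_apply]
  have hpowQ : ∀ i : ℕ, ∀ q : Q, (θ ^ i) (Subgroup.inclusion le_sup_right q) =
      Subgroup.inclusion le_sup_right q := by
    intro i
    induction i with
    | zero => intro q; rfl
    | succ i ih =>
      intro q
      rw [pow_succ, MulAut.mul_apply, hθQ, ih]
  have hθk : θ ^ (p ^ k) = 1 := by
    have h : (θ ^ (p ^ k)).toMonoidHom = MonoidHom.id _ := by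
      apply nc_hom_eq_on_sup
      · intro x
        show (θ ^ (p ^ k)) (Subgroup.inclusion le_sup_left x) = Subgroup.inclusion le_sup_left x
        rw [hpowC, hak]; rfl
      · intro q
        exact hpowQ _ q
    apply MulEquiv.ext
    intro z
    exact DFunLike.congr_fun h z
  obtain ⟨R', hconj, hR'a, hR'r⟩ := hF (centralizerIn S Q ⊔ Q) hRS
  obtain ⟨χ, hχ, rfl⟩ := hconj
  obtain ⟨χ₂, hχ₂, hχ₂r, n, hnS, hnN, hχ₂θ⟩ :=
    fs_pelement_conj p F (centralizerIn S Q ⊔ Q) hRS χ hχ hR'a θ hθ k hθk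
  have hχ₂inj := F.injective_of_mem hχ₂
  have hnQ : ∀ q : Q, χ₂ (Subgroup.inclusion le_sup_right q) * n =
      n * χ₂ (Subgroup.inclusion le_sup_right q) := by
    intro q
    have h := hχ₂θ (Subgroup.inclusion le_sup_right q)
    rw [hθQ] at h
    calc χ₂ (Subgroup.inclusion le_sup_right q) * n
        = (n * χ₂ (Subgroup.inclusion le_sup_right q) * n⁻¹) * n := by rw [← h]
      _ = n * χ₂ (Subgroup.inclusion le_sup_right q) := by group
  let χQ : Q →* Ω := χ₂.comp (Subgroup.inclusion (le_sup_right : Q ≤ centralizerIn S Q ⊔ Q))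
  have hχQ : χQ ∈ F.Hom Q := fs_restrict F le_sup_right hχ₂
  have hcard := hQ.2 χQ.range ⟨χQ, hχQ, rfl⟩
  have hmem : ∀ c : centralizerIn S Q,
      χ₂ (Subgroup.inclusion le_sup_left c) ∈ centralizerIn S χQ.range := by
    intro c
    refine Subgroup.mem_inf.mpr ⟨(F.le_of_mem hχ₂).2 _, ?_⟩
    rw [Subgroup.mem_centralizer_iff]
    rintro _ ⟨q, rfl⟩
    have h1 : Subgroup.inclusion (le_sup_right : Q ≤ centralizerIn S Q ⊔ Q) q *
        Subgroup.inclusion le_sup_left c =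
        Subgroup.inclusion le_sup_left c * Subgroup.inclusion le_sup_right q :=
      Subtype.ext (Subgroup.mem_centralizer_iff.mp (Subgroup.mem_inf.mp c.2).2 q q.2)
    have h2 := congrArg χ₂ h1
    rw [map_mul, map_mul] at h2
    exact h2
  haveI : Finite ↥(centralizerIn S χQ.range) := fs_finite_of_le inf_le_left
  have hbij : Function.Bijective (fun c : centralizerIn S Q =>
      (⟨χ₂ (Subgroup.inclusion le_sup_left c), hmem c⟩ : centralizerIn S χQ.range)) := by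
    apply Function.Injective.bijective_of_nat_card_le
    · intro c d hcd
      have h1 := hχ₂inj (congrArg Subtype.val hcd)
      exact Subtype.ext (congrArg (fun z : ↥(centralizerIn S Q ⊔ Q) => (z : Ω)) h1)
    · exact hcard
  have hnC : n ∈ centralizerIn S χQ.range := by
    refine Subgroup.mem_inf.mpr ⟨hnS, ?_⟩
    rw [Subgroup.mem_centralizer_iff]
    rintro _ ⟨q, rfl⟩
    exact hnQ q
  obtain ⟨c, hc⟩ := hbij.2 ⟨n, hnC⟩
  have hc' : χ₂ (Subgroup.inclusion le_sup_left c) = n := congrArg Subtype.val hc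
  apply Subgroup.subset_closure
  refine ⟨c, c.2, fun x => ?_⟩
  have h := hχ₂θ (Subgroup.inclusion le_sup_left x)
  rw [hθC, ← hc', ← map_inv, ← map_mul, ← map_mul] at h
  have h2 := hχ₂inj h
  exact congrArg (fun z : ↥(centralizerIn S Q ⊔ Q) => (z : Ω)) h2

end

/-- If F is a saturated fusion system over a finite p-group S and Q is fully centralized in F, then the centralizer system C_F(Q) is a saturated fusion system over C_S(Q). -/
theorem result {Ω : Type*} [Group Ω] {S : Subgroup Ω} [Finite S] (p : ℕ) [Fact p.Prime] (hS : IsPGroup p S) (F : Cfsg.FusionSystem S) (hF : F.IsSaturated p) (Q : Subgroup Ω) (hQ : F.IsFullyCentralized Q) (E : Cfsg.FusionSystem (Cfsg.FusionSystem.centralizerIn S Q)) (hE : F.IsCentralizerSystem Q E) : E.IsSaturated p := by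
  have hCS : Cfsg.FusionSystem.centralizerIn S Q ≤ S := inf_le_left
  haveI : Finite ↥(Cfsg.FusionSystem.centralizerIn S Q) := fs_finite_of_le hCS
  apply (Cfsg.Agent.S5111.result p (hS.to_le hCS) E).mpr
  refine ⟨cent_top_automized p hS F hF Q hQ E hE, fun P hPfn => ?_⟩
  have hfc := cent_fullyCentralized p hS F hF Q hQ E hE P hPfn
  exact cent_receptive F Q E hE P hPfn.1 (fs_receptive_of_fullyCentralized p hS F hF _ hfc)

end Cfsg.Agent.S5099
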