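import Cfsg.Statements.S5124
import Mathlib
import Cfsg.Agent.Lib.Helper1.FusFoc

set_option autoImplicit false
open Cfsg

open Cfsg.Agent.Lib.Helper1

namespace Cfsg.Agent.S5124

/-- every map of a saturated system is, modulo the hyperfocal subgroup, conjugation by an element
of `S` -/
theorem mod_hyp {Ω : Type*} [Group Ω] {S : Subgroup Ω} [Finite S] (p : ℕ) [Fact p.Prime]
    (hS : IsPGroup p S) (F : Cfsg.FusionSystem S) (hF : F.IsSaturated p) (P : Subgroup Ω)
    (φ : P →* Ω) (hφ : φ ∈ F.Hom P) :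
    ∃ s ∈ S, ∀ x : P, (s * (x : Ω) * s⁻¹)⁻¹ * φ x ∈ F.hyperfocalSubgroup p := by
  have hE : ∀ P : Subgroup Ω, (P = S ∨ F.IsEssential p P) → F.autGroup P ≤
      (fs_hypSys F (F.hyperfocalSubgroup p)
        (fun s hs y hy => fs_hyp_conj_mem F p hs hy)).autGroup P := by
    intro P hP α hα
    have hPa := fs_fullyAutomized_of_top_or_essential p hS F hF P hP
    have hPS := hPa.1
    rw [fs_mem_autGroup_iff _ hPS]
    refine ⟨(fs_mem_autGroup_iff F hPS α).mp hα, ?_⟩
    obtain ⟨r, hr, g, hgS, hgN, rfl⟩ := fs_aut_decomp p F P hPa α hα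
    refine ⟨g, hgS, fun x => ?_⟩
    apply Subgroup.subset_closure
    exact ⟨P, r, P.normalizerMonoidHom ⟨g, hgN⟩ x, hPS, hr, rfl⟩
  exact (fs_alperin p hS F hF _ hE P φ hφ).2

/-- In a saturated fusion system over a finite p-group S the hyperfocal subgroup is strongly closed in the system. -/
theorem result {Ω : Type*} [Group Ω] {S : Subgroup Ω} [Finite S] (p : ℕ) [Fact p.Prime] (hS : IsPGroup p S) (F : Cfsg.FusionSystem S) (hF : F.IsSaturated p) : F.StronglyClosed (F.hyperfocalSubgroup p) := by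
  refine ⟨fs_hyp_le F p, ?_⟩
  intro R hR φ hφ x
  obtain ⟨s, hs, h⟩ := mod_hyp p hS F hF R φ hφ
  have h1 := fs_hyp_conj_mem F p hs (hR x.2)
  have h2 := Subgroup.mul_mem _ h1 (h x)
  have e : s * (x : Ω) * s⁻¹ * ((s * (x : Ω) * s⁻¹)⁻¹ * φ x) = φ x := by group
  rw [e] at h2
  exact h2

end Cfsg.Agent.S5124
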