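import Cfsg.Statements.S5125
import Mathlib
import Cfsg.Agent.Lib.Helper1.FusStab
import Cfsg.Agent.S5086

set_option autoImplicit false
open Cfsg

open Cfsg.Agent.Lib.Helper1
open scoped commutatorElement

namespace Cfsg.Agent.S5125

/-- Let F be a saturated fusion system over a finite p-group S and Q a subgroup strongly closed in F. If Q has a subgroup Q₁ that is normal in F, with Q/Q₁ abelian and Aut_F(Q₁) a p-group, then Q is normal in F. -/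
theorem result {Ω : Type*} [Group Ω] {S : Subgroup Ω} [Finite S] (p : ℕ) [Fact p.Prime] (hS : IsPGroup p S) (F : Cfsg.FusionSystem S) (hF : F.IsSaturated p) (Q Q₁ : Subgroup Ω) (hQ : F.StronglyClosed Q) (hQ₁Q : Q₁ ≤ Q) (hQ₁ : F.IsNormal Q₁) (hab : ⁅Q, Q⁆ ≤ Q₁) (hAut : IsPGroup p ↥(F.autGroup Q₁)) : F.IsNormal Q := by
  rw [Cfsg.Agent.S5086.result p hS F hF Q]
  refine ⟨hQ, fun P hc hrad => ?_⟩
  have hPS := hc.1
  have hCP := hc.2 P (fs_isConj_refl F hPS)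
  have hQn := fs_stronglyClosed_normal F Q hQ
  haveI : Finite P := fs_finite_of_le hPS
  have hsc₁ := fs_normal_stronglyClosed F Q₁ hQ₁
  have hQ₁P : Q₁ ≤ P := fs_normal_le_centric_radical p hS F Q₁ hQ₁ P hCP hrad
  have hinv : ∀ γ ∈ F.autGroup P, ∀ x : P, (x : Ω) ∈ Q → ((γ x : P) : Ω) ∈ Q :=
    fun γ hγ x hx => fs_aut_stronglyClosed F Q hQ P hPS γ hγ x hx
  have hinv' : ∀ γ ∈ F.autGroup P, ∀ x ∈ Q.subgroupOf P, γ x ∈ Q.subgroupOf P :=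
    fun γ hγ x hx => Subgroup.mem_subgroupOf.mpr (hinv γ hγ x (Subgroup.mem_subgroupOf.mp hx))
  have hinv₁ : ∀ γ ∈ F.autGroup P, ∀ x : P, (x : Ω) ∈ Q₁ → ((γ x : P) : Ω) ∈ Q₁ :=
    fun γ hγ x hx => fs_aut_stronglyClosed F Q₁ hsc₁ P hPS γ hγ x hx
  have hinv₁' : ∀ γ ∈ F.autGroup P, ∀ x ∈ Q₁.subgroupOf P, γ x ∈ Q₁.subgroupOf P :=
    fun γ hγ x hx => Subgroup.mem_subgroupOf.mpr (hinv₁ γ hγ x (Subgroup.mem_subgroupOf.mp hx))
  apply fs_le_of_normal_pgroup p hS F Q hQ.1 hQn P hCP hrad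
    (F.autGroup P ⊓ stabSub (Q.subgroupOf P) ⊤ le_top ⊓
      stabSub (Q₁.subgroupOf P) (Q.subgroupOf P) (Subgroup.subgroupOf_mono P hQ₁Q))
  · exact inf_le_left.trans inf_le_left
  · constructor
    intro w hw a
    rw [Subgroup.mem_subgroupOf] at hw ⊢
    obtain ⟨hw12, hw3⟩ := Subgroup.mem_inf.mp hw
    obtain ⟨hw1, hw2⟩ := Subgroup.mem_inf.mp hw12
    refine Subgroup.mem_inf.mpr ⟨Subgroup.mem_inf.mpr ⟨?_, ?_⟩, ?_⟩
    · exact (a * w * a⁻¹).2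
    · exact stabSub_conj _ _ _ (a : MulAut P) (hinv' a a.2) (fun x _ => Subgroup.mem_top _) hw2
    · exact stabSub_conj _ _ _ (a : MulAut P) (hinv₁' a a.2)
        (fun x hx => hinv' _ (inv_mem a.2) x hx) hw3
  · apply isPGroup_of_forall_pow
    intro α hα
    obtain ⟨hα12, hα3⟩ := Subgroup.mem_inf.mp hα
    obtain ⟨hα1, hα2⟩ := Subgroup.mem_inf.mp hα12
    have hβ := restrictAut_mem F hPS Q₁ hQ₁P α hα1 (hinv₁ α hα1) (hinv₁ α⁻¹ (inv_mem hα1))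
    obtain ⟨a, ha⟩ := hAut ⟨_, hβ⟩
    have ha' : restrictAut Q₁ hQ₁P α (hinv₁ α hα1) (hinv₁ α⁻¹ (inv_mem hα1)) ^ (p ^ a) = 1 :=
      congrArg Subtype.val ha
    have hm : ∀ x ∈ Q₁.subgroupOf P, (α ^ (p ^ a)) x = x := by
      intro x hx
      have hx' : (x : Ω) ∈ Q₁ := Subgroup.mem_subgroupOf.mp hx
      have h := restrictAut_pow Q₁ hQ₁P α (hinv₁ α hα1) (hinv₁ α⁻¹ (inv_mem hα1)) (p ^ a) ⟨x, hx'⟩
      rw [ha'] at h
      apply Subtype.ext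
      exact h.symm
    have h1 := stab_step α (Q₁.subgroupOf P) (Q.subgroupOf P) (Subgroup.subgroupOf_mono P hQ₁Q)
      (fun x hx => (hα3 x hx).1) (p ^ a) hm
    have h2 := stab_step α (Q.subgroupOf P) ⊤ le_top (fun x hx => (hα2 x hx).1) _ h1
    obtain ⟨k₁, hk₁⟩ := IsPGroup.iff_card.mp ((hS.to_le hPS).to_subgroup (Q₁.subgroupOf P))
    obtain ⟨k₂, hk₂⟩ := IsPGroup.iff_card.mp ((hS.to_le hPS).to_subgroup (Q.subgroupOf P))
    refine ⟨a + k₁ + k₂, ?_⟩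
    ext x
    have h3 := h2 x (Subgroup.mem_top x)
    rw [hk₁, hk₂, ← pow_add, ← pow_add] at h3
    rw [h3]; rfl
  · intro n hn hnQ
    refine Subgroup.mem_inf.mpr ⟨Subgroup.mem_inf.mpr ⟨?_, ?_⟩, ?_⟩
    · exact fs_nmh_mem_autGroup F hPS ⟨n, hn⟩ (hQ.1 hnQ)
    · exact nmh_mem_stabSub_top Q (hPS.trans hQn) n hn hnQ
    · apply nmh_mem_stabSub Q₁ Q hQ₁Q n hn
      intro x _ hxQ
      constructor
      · have h := Subgroup.commutator_mem_commutator (Q.inv_mem hxQ) hnQ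
        have e : x⁻¹ * (n * x * n⁻¹) = ⁅x⁻¹, n⁆ := by
          rw [commutatorElement_def]; group
        rw [e]; exact hab h
      · have h := Subgroup.commutator_mem_commutator (Q.inv_mem hxQ) (Q.inv_mem hnQ)
        have e : x⁻¹ * (n⁻¹ * x * n) = ⁅x⁻¹, n⁻¹⁆ := by
          rw [commutatorElement_def]; group
        rw [e]; exact hab h

end Cfsg.Agent.S5125
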