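import Cfsg.Statements.S5135
import Mathlib
import Cfsg.Agent.Lib.Helper8.Basic
import Cfsg.Agent.Lib.Helper8.CoprimeSylow

set_option autoImplicit false
open Cfsg

namespace Cfsg.Agent.S5135

open Cfsg.Agent.Lib.Helper8

/-- Let G be a finite group, S a Sylow p-subgroup and H a normal subgroup of G. Then the fusion system of G/H on the image SH/H of S is the factor system of the fusion system of G on S modulo S ∩ H, read through the quotient map restricted to S: for each subgroup P' of SH/H, the conjugation maps by elements of G/H defined on P' with values in SH/H are exactly the homomorphisms induced by the conjugation maps by elements of G defined on the full preimage of P' in S with values in S. -/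
theorem result {G : Type*} [Group G] [Finite G] (p : ℕ) [Fact p.Prime] (S : Sylow p G) (H : Subgroup G) [H.Normal] : (Cfsg.groupFusionSystem (S : Subgroup G)).IsFactorSystem ((S : Subgroup G) ⊓ H) ((QuotientGroup.mk' H).comp (S : Subgroup G).subtype) (Cfsg.groupFusionSystem ((S : Subgroup G).map (QuotientGroup.mk' H))) := by
  have hSp : IsPGroup p (S : Subgroup G) := S.isPGroup'
  refine ⟨inf_le_left, ?_, ?_, ?_⟩
  · intro s
    show ((s : G) : G ⧸ H) = 1 ↔ _
    rw [QuotientGroup.eq_one_iff]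
    exact ⟨fun h => Subgroup.mem_inf.mpr ⟨s.2, h⟩, fun h => (Subgroup.mem_inf.mp h).2⟩
  · ext y
    constructor
    · rintro ⟨s, rfl⟩
      exact ⟨(s : G), s.2, rfl⟩
    · rintro ⟨s, hs, rfl⟩
      exact ⟨⟨s, hs⟩, rfl⟩
  · intro P' φ'
    set θ : ↥(S : Subgroup G) →* G ⧸ H := (QuotientGroup.mk' H).comp (S : Subgroup G).subtype
      with hθ
    have hPS : Cfsg.FusionSystem.preimageAlong θ P' ≤ (S : Subgroup G) := by
      rintro _ ⟨s, -, rfl⟩; exact s.2
    have hPmk : ∀ x ∈ Cfsg.FusionSystem.preimageAlong θ P', ((x : G) : G ⧸ H) ∈ P' := by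
      rintro _ ⟨s, hs, rfl⟩; exact hs
    have hmem : ∀ s ∈ (S : Subgroup G), ((s : G) : G ⧸ H) ∈ P' →
        s ∈ Cfsg.FusionSystem.preimageAlong θ P' := fun s hs h => ⟨⟨s, hs⟩, h, rfl⟩
    constructor
    · rintro ⟨hP'S, hφ'S, gbar, hgbar⟩
      refine ⟨hP'S, ?_⟩
      obtain ⟨g, rfl⟩ := QuotientGroup.mk_surjective gbar
      have hRL : (Cfsg.FusionSystem.preimageAlong θ P').map (MulAut.conj g).toMonoidHom ≤
          (S : Subgroup G) ⊔ H := by
        rintro _ ⟨x, hx, rfl⟩
        show g * x * g⁻¹ ∈ (S : Subgroup G) ⊔ H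
        have h1 := hφ'S ⟨(x : G ⧸ H), hPmk x hx⟩
        rw [hgbar] at h1
        obtain ⟨s, hs, hs2⟩ := h1
        have h2 : s⁻¹ * (g * x * g⁻¹) ∈ H := by
          rw [← QuotientGroup.eq]
          exact hs2
        have e : g * x * g⁻¹ = s * (s⁻¹ * (g * x * g⁻¹)) := by group
        rw [e]
        exact Subgroup.mul_mem _ (Subgroup.mem_sup_left hs) (Subgroup.mem_sup_right h2)
      have hidx : ¬ p ∣ (S : Subgroup G).relIndex ((S : Subgroup G) ⊔ H) := by
        intro hdvd
        apply S.not_dvd_index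
        rw [← Subgroup.relIndex_mul_index (le_sup_left : (S : Subgroup G) ≤ (S : Subgroup G) ⊔ H)]
        exact Dvd.dvd.mul_right hdvd _
      obtain ⟨l, hl, hconj⟩ := h8_exists_conj_le_of_relIndex (L := (S : Subgroup G) ⊔ H)
        (P := (S : Subgroup G))
        (R := (Cfsg.FusionSystem.preimageAlong θ P').map (MulAut.conj g).toMonoidHom)
        le_sup_left hRL hSp ((hSp.to_le hPS).map _) hidx
      have hl' : l ∈ (((S : Subgroup G) ⊔ H : Subgroup G) : Set G) := hl
      rw [Subgroup.mul_normal] at hl'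
      obtain ⟨s, hs, h, hh, rfl⟩ := Set.mem_mul.mp hl'
      have hval : ∀ x ∈ Cfsg.FusionSystem.preimageAlong θ P',
          (h * g) * x * (h * g)⁻¹ ∈ (S : Subgroup G) := by
        intro x hx
        have h1 : (s * h) * (g * x * g⁻¹) * (s * h)⁻¹ ∈ (S : Subgroup G) :=
          hconj ⟨g * x * g⁻¹, ⟨x, hx, rfl⟩, rfl⟩
        have e : (h * g) * x * (h * g)⁻¹ = s⁻¹ * ((s * h) * (g * x * g⁻¹) * (s * h)⁻¹) * s := by
          group
        rw [e]
        exact Subgroup.mul_mem _ (Subgroup.mul_mem _ (Subgroup.inv_mem _ hs) h1) hs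
      refine ⟨Cfsg.conjHom _ (h * g), ⟨hPS, fun x => hval x x.2, h * g, fun x => rfl⟩,
        hPS, fun x => hval x x.2, fun x => hPmk x x.2, ?_⟩
      intro x
      rw [hgbar]
      show ((g : G) : G ⧸ H) * ((x : G) : G ⧸ H) * ((g : G) : G ⧸ H)⁻¹ =
        (((h * g) * (x : G) * (h * g)⁻¹ : G) : G ⧸ H)
      have hh1 : ((h : G) : G ⧸ H) = 1 := (QuotientGroup.eq_one_iff h).mpr hh
      simp only [QuotientGroup.mk_mul, QuotientGroup.mk_inv, hh1, one_mul]
    · rintro ⟨hP'S, φ, ⟨-, hφS, g, hg⟩, hP, hφ, hP', hind⟩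
      have key : ∀ x' : P', ∃ x : Cfsg.FusionSystem.preimageAlong θ P',
          (((x : G) : G ⧸ H)) = (x' : G ⧸ H) := by
        intro x'
        obtain ⟨s, hs, hs2⟩ := hP'S x'.2
        have : ((s : G) : G ⧸ H) ∈ P' := by
          have e : ((s : G) : G ⧸ H) = x' := hs2
          rw [e]; exact x'.2
        exact ⟨⟨s, hmem s hs this⟩, hs2⟩
      have hval : ∀ x' : P', φ' x' = ((g : G) : G ⧸ H) * (x' : G ⧸ H) * ((g : G) : G ⧸ H)⁻¹ ∧
          φ' x' ∈ (S : Subgroup G).map (QuotientGroup.mk' H) := by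
        intro x'
        obtain ⟨x, hx⟩ := key x'
        have h1 := hind x
        have e : (⟨θ ⟨x, hP x.2⟩, hP' x⟩ : P') = x' := Subtype.ext hx
        rw [e] at h1
        rw [h1]
        constructor
        · show (((φ x : G)) : G ⧸ H) = _
          rw [hg x, ← hx]
          simp only [QuotientGroup.mk_mul, QuotientGroup.mk_inv]
        · exact ⟨φ x, hφ x, rfl⟩
      exact ⟨hP'S, fun x' => (hval x').2, ((g : G) : G ⧸ H), fun x' => (hval x').1⟩

end Cfsg.Agent.S5135
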