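import Cfsg.Statements.S5136
import Mathlib
import Cfsg.Agent.Lib.Helper1.FusBasic

set_option autoImplicit false
open Cfsg

namespace Cfsg.Agent.S5136

open Cfsg.Agent.Lib.Helper1

section
variable {Ω₁ Ω₂ : Type*} [Group Ω₁] [Group Ω₂] {S₁ : Subgroup Ω₁} {S₂ : Subgroup Ω₂}

/-- the maps of the product system -/
def prodHom (F₁ : Cfsg.FusionSystem S₁) (F₂ : Cfsg.FusionSystem S₂) (P : Subgroup (Ω₁ × Ω₂)) :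
    Set (P →* Ω₁ × Ω₂) :=
  {φ | P ≤ S₁.prod S₂ ∧
      ∃ φ₁ ∈ F₁.Hom (P.map (MonoidHom.fst Ω₁ Ω₂)), ∃ φ₂ ∈ F₂.Hom (P.map (MonoidHom.snd Ω₁ Ω₂)),
        ∀ (x : P) (h₁ : (x : Ω₁ × Ω₂).1 ∈ P.map (MonoidHom.fst Ω₁ Ω₂))
          (h₂ : (x : Ω₁ × Ω₂).2 ∈ P.map (MonoidHom.snd Ω₁ Ω₂)),
          φ x = (φ₁ ⟨(x : Ω₁ × Ω₂).1, h₁⟩, φ₂ ⟨(x : Ω₁ × Ω₂).2, h₂⟩)}

theorem fst_mem (P : Subgroup (Ω₁ × Ω₂)) (x : P) :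
    (x : Ω₁ × Ω₂).1 ∈ P.map (MonoidHom.fst Ω₁ Ω₂) := ⟨x, x.2, rfl⟩

theorem snd_mem (P : Subgroup (Ω₁ × Ω₂)) (x : P) :
    (x : Ω₁ × Ω₂).2 ∈ P.map (MonoidHom.snd Ω₁ Ω₂) := ⟨x, x.2, rfl⟩

theorem prod_le (F₁ : Cfsg.FusionSystem S₁) (F₂ : Cfsg.FusionSystem S₂)
    {P : Subgroup (Ω₁ × Ω₂)} {φ : P →* Ω₁ × Ω₂} (h : φ ∈ prodHom F₁ F₂ P) :
    P ≤ S₁.prod S₂ ∧ ∀ x : P, φ x ∈ S₁.prod S₂ := by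
  obtain ⟨hP, φ₁, hφ₁, φ₂, hφ₂, hφ⟩ := h
  refine ⟨hP, fun x => ?_⟩
  rw [hφ x (fst_mem P x) (snd_mem P x)]
  exact Subgroup.mem_prod.mpr ⟨(F₁.le_of_mem hφ₁).2 _, (F₂.le_of_mem hφ₂).2 _⟩

theorem prod_inj (F₁ : Cfsg.FusionSystem S₁) (F₂ : Cfsg.FusionSystem S₂)
    {P : Subgroup (Ω₁ × Ω₂)} {φ : P →* Ω₁ × Ω₂} (h : φ ∈ prodHom F₁ F₂ P) :
    Function.Injective φ := by
  obtain ⟨hP, φ₁, hφ₁, φ₂, hφ₂, hφ⟩ := h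
  intro x y hxy
  rw [hφ x (fst_mem P x) (snd_mem P x), hφ y (fst_mem P y) (snd_mem P y)] at hxy
  have h1 := F₁.injective_of_mem hφ₁ (congrArg Prod.fst hxy)
  have h2 := F₂.injective_of_mem hφ₂ (congrArg Prod.snd hxy)
  apply Subtype.ext
  exact Prod.ext (congrArg Subtype.val h1) (congrArg Subtype.val h2)

theorem prod_conj (F₁ : Cfsg.FusionSystem S₁) (F₂ : Cfsg.FusionSystem S₂)
    {P : Subgroup (Ω₁ × Ω₂)} {g : Ω₁ × Ω₂} (hP : P ≤ S₁.prod S₂) (hg : g ∈ S₁.prod S₂) :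
    Cfsg.conjHom P g ∈ prodHom F₁ F₂ P := by
  obtain ⟨hg1, hg2⟩ := Subgroup.mem_prod.mp hg
  have hP1 : P.map (MonoidHom.fst Ω₁ Ω₂) ≤ S₁ := by
    rintro _ ⟨x, hx, rfl⟩
    exact (Subgroup.mem_prod.mp (hP hx)).1
  have hP2 : P.map (MonoidHom.snd Ω₁ Ω₂) ≤ S₂ := by
    rintro _ ⟨x, hx, rfl⟩
    exact (Subgroup.mem_prod.mp (hP hx)).2
  exact ⟨hP, Cfsg.conjHom _ g.1, F₁.conj_mem hP1 hg1, Cfsg.conjHom _ g.2, F₂.conj_mem hP2 hg2,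
    fun x h₁ h₂ => rfl⟩

theorem prod_comp (F₁ : Cfsg.FusionSystem S₁) (F₂ : Cfsg.FusionSystem S₂)
    {P Q : Subgroup (Ω₁ × Ω₂)} {φ : P →* Ω₁ × Ω₂} {ψ : Q →* Ω₁ × Ω₂}
    (hφ : φ ∈ prodHom F₁ F₂ P) (hψ : ψ ∈ prodHom F₁ F₂ Q) (h : ∀ x : P, φ x ∈ Q) :
    ψ.comp (φ.codRestrict Q h) ∈ prodHom F₁ F₂ P := by
  obtain ⟨hP, φ₁, hφ₁, φ₂, hφ₂, hφe⟩ := hφ
  obtain ⟨hQ, ψ₁, hψ₁, ψ₂, hψ₂, hψe⟩ := hψ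
  have h1 : ∀ x : ↥(P.map (MonoidHom.fst Ω₁ Ω₂)), φ₁ x ∈ Q.map (MonoidHom.fst Ω₁ Ω₂) := by
    rintro ⟨_, x, hx, rfl⟩
    refine ⟨φ ⟨x, hx⟩, h ⟨x, hx⟩, ?_⟩
    rw [hφe ⟨x, hx⟩ (fst_mem P ⟨x, hx⟩) (snd_mem P ⟨x, hx⟩)]
    rfl
  have h2 : ∀ x : ↥(P.map (MonoidHom.snd Ω₁ Ω₂)), φ₂ x ∈ Q.map (MonoidHom.snd Ω₁ Ω₂) := by
    rintro ⟨_, x, hx, rfl⟩
    refine ⟨φ ⟨x, hx⟩, h ⟨x, hx⟩, ?_⟩
    rw [hφe ⟨x, hx⟩ (fst_mem P ⟨x, hx⟩) (snd_mem P ⟨x, hx⟩)]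
    rfl
  refine ⟨hP, ψ₁.comp (φ₁.codRestrict _ h1), F₁.comp_mem hφ₁ hψ₁ h1,
    ψ₂.comp (φ₂.codRestrict _ h2), F₂.comp_mem hφ₂ hψ₂ h2, ?_⟩
  intro x hx1 hx2
  show ψ ⟨φ x, h x⟩ = (ψ₁ ⟨φ₁ ⟨_, hx1⟩, _⟩, ψ₂ ⟨φ₂ ⟨_, hx2⟩, _⟩)
  rw [hψe ⟨φ x, h x⟩ (fst_mem Q ⟨φ x, h x⟩) (snd_mem Q ⟨φ x, h x⟩)]
  have e := hφe x hx1 hx2
  congr 2
  · exact Subtype.ext (congrArg Prod.fst e)
  · exact Subtype.ext (congrArg Prod.snd e)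

theorem prod_inv (F₁ : Cfsg.FusionSystem S₁) (F₂ : Cfsg.FusionSystem S₂)
    {P : Subgroup (Ω₁ × Ω₂)} {φ : P →* Ω₁ × Ω₂} (hφ : φ ∈ prodHom F₁ F₂ P) :
    ∃ ψ ∈ prodHom F₁ F₂ φ.range, ∀ x : P, ψ ⟨φ x, ⟨x, rfl⟩⟩ = (x : Ω₁ × Ω₂) := by
  have hle := prod_le F₁ F₂ hφ
  obtain ⟨hP, φ₁, hφ₁, φ₂, hφ₂, hφe⟩ := hφ
  obtain ⟨ψ₁, hψ₁, hψ₁φ⟩ := F₁.inv_mem hφ₁
  obtain ⟨ψ₂, hψ₂, hψ₂φ⟩ := F₂.inv_mem hφ₂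
  have hle1 : φ.range.map (MonoidHom.fst Ω₁ Ω₂) ≤ φ₁.range := by
    rintro _ ⟨_, ⟨x, rfl⟩, rfl⟩
    refine ⟨⟨_, fst_mem P x⟩, ?_⟩
    rw [hφe x (fst_mem P x) (snd_mem P x)]
    rfl
  have hle2 : φ.range.map (MonoidHom.snd Ω₁ Ω₂) ≤ φ₂.range := by
    rintro _ ⟨_, ⟨x, rfl⟩, rfl⟩
    refine ⟨⟨_, snd_mem P x⟩, ?_⟩
    rw [hφe x (fst_mem P x) (snd_mem P x)]
    rfl
  refine ⟨MonoidHom.prod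
      ((ψ₁.comp (Subgroup.inclusion hle1)).comp ((MonoidHom.fst Ω₁ Ω₂).subgroupMap φ.range))
      ((ψ₂.comp (Subgroup.inclusion hle2)).comp ((MonoidHom.snd Ω₁ Ω₂).subgroupMap φ.range)),
    ⟨?_, ψ₁.comp (Subgroup.inclusion hle1), fs_restrict F₁ hle1 hψ₁,
      ψ₂.comp (Subgroup.inclusion hle2), fs_restrict F₂ hle2 hψ₂, fun x h₁ h₂ => rfl⟩, ?_⟩
  · rintro _ ⟨x, rfl⟩
    exact hle.2 x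
  · intro x
    have e := hφe x (fst_mem P x) (snd_mem P x)
    apply Prod.ext
    · show ψ₁ ⟨(φ x).1, _⟩ = (x : Ω₁ × Ω₂).1
      refine Eq.trans ?_ (hψ₁φ ⟨_, fst_mem P x⟩)
      congr 1
      exact Subtype.ext (congrArg Prod.fst e)
    · show ψ₂ ⟨(φ x).2, _⟩ = (x : Ω₁ × Ω₂).2
      refine Eq.trans ?_ (hψ₂φ ⟨_, snd_mem P x⟩)
      congr 1
      exact Subtype.ext (congrArg Prod.snd e)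

/-- the product system -/
def prodSys (F₁ : Cfsg.FusionSystem S₁) (F₂ : Cfsg.FusionSystem S₂) :
    Cfsg.FusionSystem (S₁.prod S₂) where
  Hom P := prodHom F₁ F₂ P
  le_of_mem h := prod_le F₁ F₂ h
  injective_of_mem h := prod_inj F₁ F₂ h
  conj_mem := prod_conj F₁ F₂
  comp_mem := prod_comp F₁ F₂
  inv_mem := prod_inv F₁ F₂

end

/-- Let F₁ and F₂ be fusion systems over finite p-groups S₁ and S₂ (inside ambient groups Ω₁ and Ω₂). Then their direct product exists: there is a fusion system over S₁ × S₂ inside Ω₁ × Ω₂ whose maps with source P ≤ S₁ × S₂ are exactly the restrictions to P of the homomorphisms (x₁, x₂) ↦ (φ₁ x₁, φ₂ x₂) with φ₁ a map of F₁ on the first projection of P and φ₂ a map of F₂ on the second projection. -/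
theorem result {Ω₁ Ω₂ : Type*} [Group Ω₁] [Group Ω₂] {S₁ : Subgroup Ω₁} {S₂ : Subgroup Ω₂} [Finite S₁] [Finite S₂] (p : ℕ) [Fact p.Prime] (h₁ : IsPGroup p S₁) (h₂ : IsPGroup p S₂) (F₁ : Cfsg.FusionSystem S₁) (F₂ : Cfsg.FusionSystem S₂) : ∃ E : Cfsg.FusionSystem (S₁.prod S₂), Cfsg.FusionSystem.IsProductSystem F₁ F₂ E := by
  exact ⟨prodSys F₁ F₂, fun P φ => Iff.rfl⟩

end Cfsg.Agent.S5136
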