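import Mathlib
import Cfsg.Statements.S5164
import Cfsg.Agent.Lib.Helper4.SymSylow

set_option autoImplicit false
open Cfsg

namespace Cfsg.Agent.S5164

/-- the 4-cycle times a transposition -/
def x6 : Equiv.Perm (Fin 6) :=
  Equiv.swap 0 1 * Equiv.swap 1 2 * Equiv.swap 2 3 * Equiv.swap 4 5

/-- a double transposition inverting `x6` -/
def y6 : Equiv.Perm (Fin 6) := Equiv.swap 0 2 * Equiv.swap 4 5

theorem x6_pow : x6 ^ (2 ^ 2) = 1 := by decide
theorem y6_pow : y6 ^ (2 ^ 1) = 1 := by decide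
theorem y6_conj : y6 * x6 * y6⁻¹ = x6⁻¹ := by decide
theorem x6_y6 : x6 * y6 ≠ y6 * x6 := by decide
theorem x6_sign : Equiv.Perm.sign x6 = 1 := by decide
theorem y6_sign : Equiv.Perm.sign y6 = 1 := by decide

theorem exists_d8 : ∃ Q₀ : Subgroup (Equiv.Perm (Fin 6)), IsPGroup 2 Q₀ ∧
    (∀ σ ∈ Q₀, Equiv.Perm.sign σ = 1) ∧ ∃ a ∈ Q₀, ∃ b ∈ Q₀, a * b ≠ b * a := by
  have hX : IsPGroup 2 (Subgroup.zpowers x6) :=
    Cfsg.Agent.Lib.Helper4.h4_isPGroup_zpowers 2 x6 2 x6_pow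
  have hY : IsPGroup 2 (Subgroup.zpowers y6) :=
    Cfsg.Agent.Lib.Helper4.h4_isPGroup_zpowers 2 y6 1 y6_pow
  have hnorm : Subgroup.zpowers y6 ≤
      Subgroup.normalizer ((Subgroup.zpowers x6 : Subgroup (Equiv.Perm (Fin 6))) :
        Set (Equiv.Perm (Fin 6))) := by
    rw [Subgroup.zpowers_le]
    apply Cfsg.Agent.S1900.mem_normalizer_of_conj_mem
    rintro _ ⟨m, rfl⟩
    have e : y6 * x6 ^ m * y6⁻¹ = (x6⁻¹) ^ m := by
      rw [← y6_conj, conj_zpow]
    rw [e]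
    exact Subgroup.zpow_mem _ (Subgroup.inv_mem _ (Subgroup.mem_zpowers x6)) m
  refine ⟨Subgroup.zpowers y6 ⊔ Subgroup.zpowers x6, hY.to_sup_of_normal_right' hX hnorm,
    ?_, x6, ?_, y6, ?_, x6_y6⟩
  · intro σ hσ
    have h1 : Subgroup.zpowers y6 ⊔ Subgroup.zpowers x6 ≤ alternatingGroup (Fin 6) := by
      apply sup_le
      · rw [Subgroup.zpowers_le, Equiv.Perm.mem_alternatingGroup]; exact y6_sign
      · rw [Subgroup.zpowers_le, Equiv.Perm.mem_alternatingGroup]; exact x6_sign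
    exact Equiv.Perm.mem_alternatingGroup.1 (h1 hσ)
  · exact (le_sup_right : Subgroup.zpowers x6 ≤ _) (Subgroup.mem_zpowers _)
  · exact (le_sup_left : Subgroup.zpowers y6 ≤ _) (Subgroup.mem_zpowers _)

/-- For n ≥ 6 and a prime p, a nontrivial Sylow p-subgroup of the alternating group of degree n is abelian if and only if n < p². -/
theorem result (n p : ℕ) (hn : 6 ≤ n) [Fact p.Prime] (S : Sylow p (alternatingGroup (Fin n))) (hS : (S : Subgroup (alternatingGroup (Fin n))) ≠ ⊥) : IsMulCommutative S ↔ n < p ^ 2 := by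
  classical
  have hp := (Fact.out : p.Prime)
  constructor
  · intro hcomm
    by_contra hlt
    push_neg at hlt
    have hex : ∃ Q : Subgroup (alternatingGroup (Fin n)), IsPGroup p Q ∧
        ∃ x ∈ Q, ∃ y ∈ Q, x * y ≠ y * x := by
      by_cases hp2 : p = 2
      · subst hp2
        obtain ⟨Q₀, hQ₀, hsign, a, ha, b, hb, hab⟩ := exists_d8
        exact Cfsg.Agent.Lib.Helper4.h4_transport n 2 (Fin.castLEEmb hn) Q₀ hQ₀ hsign a b ha hb hab
      · obtain ⟨Q₀, hQ₀, a, ha, b, hb, hab⟩ := Cfsg.Agent.Lib.Helper4.h4_nonabelian p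
        have hcard : Fintype.card (ZMod p × ZMod p) ≤ Fintype.card (Fin n) := by
          rw [Fintype.card_prod, ZMod.card, Fintype.card_fin, ← pow_two]; exact hlt
        obtain ⟨ι⟩ := Function.Embedding.nonempty_of_card_le hcard
        refine Cfsg.Agent.Lib.Helper4.h4_transport n p ι Q₀ hQ₀ (fun σ hσ => ?_) a b ha hb hab
        obtain ⟨k, hk⟩ := hQ₀ ⟨σ, hσ⟩
        exact Cfsg.Agent.Lib.Helper4.h4_sign_of_pow p hp2 σ k (congrArg Subtype.val hk)
    obtain ⟨Q, hQ, x, hx, y, hy, hxy⟩ := hex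
    obtain ⟨S', hS'⟩ := hQ.exists_le_sylow
    obtain ⟨g, rfl⟩ := MulAction.exists_smul_eq (alternatingGroup (Fin n)) S S'
    have hx' : x ∈ ((g • S : Sylow p (alternatingGroup (Fin n))) :
        Subgroup (alternatingGroup (Fin n))) := hS' hx
    have hy' : y ∈ ((g • S : Sylow p (alternatingGroup (Fin n))) :
        Subgroup (alternatingGroup (Fin n))) := hS' hy
    rw [Sylow.coe_subgroup_smul, Subgroup.mem_pointwise_smul_iff_inv_smul_mem] at hx' hy'
    have hx'' : g⁻¹ * x * g ∈ (S : Subgroup (alternatingGroup (Fin n))) := by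
      simpa [MulAut.smul_def] using hx'
    have hy'' : g⁻¹ * y * g ∈ (S : Subgroup (alternatingGroup (Fin n))) := by
      simpa [MulAut.smul_def] using hy'
    have hc := @mul_comm' ↥S _ hcomm ⟨g⁻¹ * x * g, hx''⟩ ⟨g⁻¹ * y * g, hy''⟩
    have hc' : (g⁻¹ * x * g) * (g⁻¹ * y * g) = (g⁻¹ * y * g) * (g⁻¹ * x * g) :=
      congrArg Subtype.val hc
    apply hxy
    have e1 : x * y = g * ((g⁻¹ * x * g) * (g⁻¹ * y * g)) * g⁻¹ := by group
    have e2 : y * x = g * ((g⁻¹ * y * g) * (g⁻¹ * x * g)) * g⁻¹ := by group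
    rw [e1, e2, hc']
  · intro hlt
    refine ⟨⟨fun u v => ?_⟩⟩
    have hP : IsPGroup p ((S : Subgroup (alternatingGroup (Fin n))).map
        (alternatingGroup (Fin n)).subtype) := S.isPGroup'.map _
    have h1 := Cfsg.Agent.Lib.Helper4.h4_perm_pgroup_comm n p hlt _ hP
      ((u : alternatingGroup (Fin n)) : Equiv.Perm (Fin n))
      ((v : alternatingGroup (Fin n)) : Equiv.Perm (Fin n))
      ⟨u.1, u.2, rfl⟩ ⟨v.1, v.2, rfl⟩
    apply Subtype.ext
    apply Subtype.ext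
    exact h1

end Cfsg.Agent.S5164
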