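import Cfsg.Statements.S5198
import Mathlib
import Cfsg.Agent.Lib.Helper1.FusHyp
import Cfsg.Agent.Lib.Helper1.FusQuot
import Cfsg.Agent.Lib.Helper1.FusStab
import Cfsg.Agent.Lib.Helper1.FusNormal
import Cfsg.Agent.Lib.Helper6.PResidual

set_option autoImplicit false
open Cfsg

open Cfsg.Agent.Lib.Helper1

namespace Cfsg.Agent.S5198

theorem compat_mul {Ω : Type*} [Group Ω] {P T : Subgroup Ω} (α α' : MulAut P)
    (Ψ Ψ' : MulAut ↥(P ⊔ T)) (hΨT : ∀ y : ↥(P ⊔ T), (y : Ω) ∈ T → ((Ψ y : ↥(P ⊔ T)) : Ω) ∈ T)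
    (h : ∀ x : P, ((α x : P) : Ω)⁻¹ * ((Ψ (Subgroup.inclusion le_sup_left x) : ↥(P ⊔ T)) : Ω) ∈ T)
    (h' : ∀ x : P, ((α' x : P) : Ω)⁻¹ *
      ((Ψ' (Subgroup.inclusion le_sup_left x) : ↥(P ⊔ T)) : Ω) ∈ T) :
    ∀ x : P, (((α * α') x : P) : Ω)⁻¹ *
      (((Ψ * Ψ') (Subgroup.inclusion le_sup_left x) : ↥(P ⊔ T)) : Ω) ∈ T := by
  intro x
  rw [MulAut.mul_apply, MulAut.mul_apply]
  have ht1 := h' x
  let t1 : ↥(P ⊔ T) := (Subgroup.inclusion le_sup_left (α' x))⁻¹ *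
    Ψ' (Subgroup.inclusion le_sup_left x)
  have ht1' : (t1 : Ω) ∈ T := ht1
  have e1 : Ψ' (Subgroup.inclusion le_sup_left x) =
      Subgroup.inclusion le_sup_left (α' x) * t1 := by
    show _ = _ * (_⁻¹ * _)
    group
  rw [e1, map_mul, Subgroup.coe_mul, ← mul_assoc]
  exact T.mul_mem (h (α' x)) (hΨT t1 ht1')

/-- Let F be a saturated fusion system over a finite p-group S and T a subgroup of S strongly closed in F (so T is normal in S). Then every element x of the hyperfocal subgroup of F acts on T by conjugation as an element of O^p(Aut_F(T))·Inn(T): there is an automorphism of T in the subgroup generated by the elements of Aut_F(T) of order prime to p together with the inner automorphisms of T that agrees with conjugation by x. -/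
theorem result {Ω : Type*} [Group Ω] {S : Subgroup Ω} [Finite S] (p : ℕ) [Fact p.Prime] (hS : IsPGroup p S) (F : Cfsg.FusionSystem S) (hF : F.IsSaturated p) (T : Subgroup Ω) (hT : F.StronglyClosed T) : ∀ x ∈ F.hyperfocalSubgroup p, ∃ α ∈ ((Cfsg.pResidual p ↥(F.autGroup T)).map (F.autGroup T).subtype ⊔ Cfsg.Inn ↥T : Subgroup (MulAut ↥T)), ∀ t : ↥T, ((α t : ↥T) : Ω) = x * (t : Ω) * x⁻¹ := by
  have hTn : S ≤ Subgroup.normalizer (T : Set Ω) := fs_stronglyClosed_normal F T hT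
  have hTS : T ≤ S := hT.1
  set K : Subgroup (MulAut ↥T) :=
    (Cfsg.pResidual p ↥(F.autGroup T)).map (F.autGroup T).subtype ⊔ Cfsg.Inn ↥T with hK
  let c : ↥S →* MulAut ↥T := T.normalizerMonoidHom.comp (Subgroup.inclusion hTn)
  have hc : ∀ (s : ↥S) (t : ↥T), ((c s t : ↥T) : Ω) = (s : Ω) * t * (s : Ω)⁻¹ := fun s t => rfl
  let N : Subgroup Ω := (K.comap c).map S.subtype
  have hres_n : (Cfsg.pResidual p ↥(F.autGroup T)).Normal :=
    Cfsg.Agent.Lib.Helper6.pres_normal p _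
  have hcmem : ∀ s : ↥S, c s ∈ F.autGroup T := fun s =>
    fs_nmh_mem_autGroup F hTS (Subgroup.inclusion hTn s) s.2
  have hTN : T ≤ N := by
    intro t ht
    refine ⟨⟨t, hTS ht⟩, ?_, rfl⟩
    show c ⟨t, hTS ht⟩ ∈ K
    apply Subgroup.mem_sup_right
    refine ⟨⟨t, ht⟩, ?_⟩
    ext u
    rfl
  have hle : F.hyperfocalSubgroup p ≤ N := by
    apply fs_hyp_le_of_coprime
    intro P hPS α hαcop
    rw [mem_hypStab]
    have hPn : P ≤ Subgroup.normalizer (T : Set Ω) := hPS.trans hTn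
    have hPT : P ⊔ T ≤ S := sup_le hPS hTS
    haveI : Finite ↥(P ⊔ T) := fs_finite_of_le hPT
    have hφ : P.subtype.comp (α : MulAut P).toMonoidHom ∈ F.Hom P :=
      (fs_mem_autGroup_iff F hPS _).mp α.2
    obtain ⟨ψ, hψ, hψT⟩ := fs_extend_mod p hS F hF T hT P _ hφ
    have hψP : ∀ y : ↥(P ⊔ T), ψ y ∈ P ⊔ T := by
      intro y
      obtain ⟨x, hx, t, ht, e⟩ := mem_sup_of_le_normalizer hPn y.2
      have ey : y = Subgroup.inclusion le_sup_left (⟨x, hx⟩ : P) *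
          Subgroup.inclusion le_sup_right (⟨t, ht⟩ : T) := Subtype.ext e
      rw [ey, map_mul]
      refine Subgroup.mul_mem _ ?_ (Subgroup.mem_sup_right
        (fs_sc_mem F T hT hψ _ ht))
      have h1 := hψT ⟨x, hx⟩
      have e2 : ψ (Subgroup.inclusion le_sup_left (⟨x, hx⟩ : P)) =
          (((α : MulAut P) ⟨x, hx⟩ : P) : Ω) *
          ((P.subtype.comp (α : MulAut P).toMonoidHom) ⟨x, hx⟩)⁻¹ *
            ψ (Subgroup.inclusion le_sup_left (⟨x, hx⟩ : P)) := by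
        show _ = (((α : MulAut P) ⟨x, hx⟩ : P) : Ω) * ((((α : MulAut P) ⟨x, hx⟩ : P) : Ω))⁻¹ * _
        group
      rw [e2, mul_assoc]
      exact Subgroup.mul_mem _ (Subgroup.mem_sup_left (Subtype.property _))
        (Subgroup.mem_sup_right h1)
    obtain ⟨Ψ, hΨ, hΨv⟩ := fs_aut_of_hom F hPT hψ hψP
    have hΨT : ∀ j : ℕ, ∀ y : ↥(P ⊔ T), (y : Ω) ∈ T → (((Ψ ^ j) y : ↥(P ⊔ T)) : Ω) ∈ T :=
      fun j y hy => fs_aut_stronglyClosed F T hT _ hPT _ (Subgroup.pow_mem _ hΨ j) y hy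
    have hA : ∀ j : ℕ, ∀ x : P, ((((α : MulAut P) ^ j) x : P) : Ω)⁻¹ *
        (((Ψ ^ j) (Subgroup.inclusion le_sup_left x) : ↥(P ⊔ T)) : Ω) ∈ T := by
      intro j
      induction j with
      | zero =>
        intro x
        simp
      | succ j ih =>
        rw [pow_succ, pow_succ]
        apply compat_mul _ _ _ _ (hΨT j) ih
        intro x
        rw [hΨv]
        exact hψT x
    have hp : p.Prime := Fact.out
    have hΨ0 : orderOf Ψ ≠ 0 := (orderOf_pos Ψ).ne'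
    set a := (orderOf Ψ).factorization p with ha
    have hcop1 : Nat.Coprime (orderOf (Ψ ^ (p ^ a))) p := by
      rw [orderOf_pow' Ψ (pow_ne_zero _ hp.ne_zero), Nat.gcd_eq_right (Nat.ordProj_dvd _ _)]
      exact (Nat.coprime_ordCompl hp hΨ0).symm
    have hαcop' : Nat.Coprime (orderOf (α : MulAut P)) p := by
      rw [Subgroup.orderOf_coe]; exact hαcop
    obtain ⟨c', hc'⟩ := exists_pow_eq_self_of_coprime
      (x := (α : MulAut P)) (n := p ^ a) (Nat.Coprime.pow_left a hαcop'.symm)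
    set Ψ₁ := Ψ ^ (p ^ a * c') with hΨ₁
    have hΨ₁cop : Nat.Coprime (orderOf Ψ₁) p := by
      rw [hΨ₁, pow_mul]
      exact Nat.Coprime.coprime_dvd_left (orderOf_pow_dvd c') hcop1
    have hΨ₁mem : Ψ₁ ∈ F.autGroup (P ⊔ T) := Subgroup.pow_mem _ hΨ _
    have hA1 : ∀ x : P, (((α : MulAut P) x : P) : Ω)⁻¹ *
        ((Ψ₁ (Subgroup.inclusion le_sup_left x) : ↥(P ⊔ T)) : Ω) ∈ T := by
      intro x
      have h := hA (p ^ a * c') x
      rw [pow_mul, hc'] at h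
      exact h
    have h1 : ∀ y : ↥(P ⊔ T), (y : Ω) ∈ T → ((Ψ₁ y : ↥(P ⊔ T)) : Ω) ∈ T :=
      fun y hy => fs_aut_stronglyClosed F T hT _ hPT _ hΨ₁mem y hy
    have h2 : ∀ y : ↥(P ⊔ T), (y : Ω) ∈ T → ((Ψ₁⁻¹ y : ↥(P ⊔ T)) : Ω) ∈ T :=
      fun y hy => fs_aut_stronglyClosed F T hT _ hPT _ (Subgroup.inv_mem _ hΨ₁mem) y hy
    set τ₁ := restrictAut T le_sup_right Ψ₁ h1 h2 with hτ₁
    have hτ₁mem : τ₁ ∈ F.autGroup T := restrictAut_mem F hPT T le_sup_right Ψ₁ hΨ₁mem h1 h2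
    have hτ₁ord : orderOf τ₁ ∣ orderOf Ψ₁ := by
      apply orderOf_dvd_of_pow_eq_one
      ext t
      rw [restrictAut_pow, pow_orderOf_eq_one]
      rfl
    have hτ₁res : (⟨τ₁, hτ₁mem⟩ : F.autGroup T) ∈ Cfsg.pResidual p ↥(F.autGroup T) := by
      apply Subgroup.subset_closure
      show Nat.Coprime (orderOf (⟨τ₁, hτ₁mem⟩ : F.autGroup T)) p
      rw [← Subgroup.orderOf_coe]
      exact Nat.Coprime.coprime_dvd_left hτ₁ord hΨ₁cop
    intro x
    let sx : ↥S := ⟨x, hPS x.2⟩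
    let sy : ↥S := ⟨((Ψ₁ (Subgroup.inclusion le_sup_left x) : ↥(P ⊔ T)) : Ω),
      hPT (Subtype.property _)⟩
    have hcomm : c sy * τ₁ = τ₁ * c sx := by
      ext t
      rw [MulAut.mul_apply, MulAut.mul_apply, hc, restrictAut_apply, restrictAut_apply]
      have e : (⟨((c sx t : ↥T) : Ω), (le_sup_right : T ≤ P ⊔ T) (Subtype.property _)⟩ : ↥(P ⊔ T)) =
          Subgroup.inclusion le_sup_left x * ⟨(t : Ω), (le_sup_right : T ≤ P ⊔ T) t.2⟩ *
            (Subgroup.inclusion le_sup_left x)⁻¹ := Subtype.ext rfl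
      rw [e, map_mul, map_mul, map_inv]
      rfl
    have hcsy : c sy = τ₁ * c sx * τ₁⁻¹ := by
      rw [← hcomm]; group
    have hu : (x : Ω)⁻¹ * ((Ψ₁ (Subgroup.inclusion le_sup_left x) : ↥(P ⊔ T)) : Ω) ∈ N := by
      refine ⟨sx⁻¹ * sy, ?_, rfl⟩
      show c (sx⁻¹ * sy) ∈ K
      rw [map_mul, map_inv, hcsy]
      apply Subgroup.mem_sup_left
      have h3 : (⟨c sx, hcmem sx⟩ : F.autGroup T)⁻¹ * ⟨τ₁, hτ₁mem⟩ *
          (⟨c sx, hcmem sx⟩ : F.autGroup T)⁻¹⁻¹ ∈ Cfsg.pResidual p ↥(F.autGroup T) :=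
        hres_n.conj_mem _ hτ₁res _
      have h4 := Subgroup.mul_mem _ h3 (Subgroup.inv_mem _ hτ₁res)
      refine ⟨_, h4, ?_⟩
      show (c sx)⁻¹ * τ₁ * (c sx)⁻¹⁻¹ * τ₁⁻¹ = _
      group
    have e : (x : Ω)⁻¹ * (((α : MulAut P) x : P) : Ω) =
        ((x : Ω)⁻¹ * ((Ψ₁ (Subgroup.inclusion le_sup_left x) : ↥(P ⊔ T)) : Ω)) *
          ((((α : MulAut P) x : P) : Ω)⁻¹ *
            ((Ψ₁ (Subgroup.inclusion le_sup_left x) : ↥(P ⊔ T)) : Ω))⁻¹ := by
      group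
    rw [e]
    exact N.mul_mem hu (N.inv_mem (hTN (hA1 x)))
  intro x hx
  obtain ⟨s, hs, rfl⟩ := hle hx
  exact ⟨c s, hs, fun t => rfl⟩

end Cfsg.Agent.S5198
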