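import Cfsg.Statements.S5199
import Mathlib
import Cfsg.Agent.Lib.Helper1.FusSub
import Cfsg.Agent.Lib.Helper1.FusFoc
import Cfsg.Agent.Lib.Helper1.FusNormal

set_option autoImplicit false
open Cfsg

open Cfsg.Agent.Lib.Helper1

namespace Cfsg.Agent.S5199

/-- Let F be a saturated fusion system over a finite p-group S, E a normal subsystem of F over T, and F₀ a normal subsystem of F over a subgroup U containing both T and the hyperfocal subgroup of F, such that F₀ has p-power index in F. Then E is a subsystem of F₀. -/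
theorem result {Ω : Type*} [Group Ω] {S : Subgroup Ω} [Finite S] (p : ℕ) [Fact p.Prime] (hS : IsPGroup p S) (F : Cfsg.FusionSystem S) (hF : F.IsSaturated p) {T U : Subgroup Ω} (E : Cfsg.FusionSystem T) (hE : E.IsNormalIn F p) (F₀ : Cfsg.FusionSystem U) (hF₀ : F₀.IsNormalIn F p) (hU : T ⊔ F.hyperfocalSubgroup p ≤ U) (hidx : F₀.HasPPowerIndexIn F p) : E.IsSubsystemOf F₀ := by
  obtain ⟨⟨hEsat, -, hsubE, hTsc, -, -⟩, -⟩ := hE
  obtain ⟨hsub₀, -, hres⟩ := hidx
  have hTS := hTsc.1
  have hTU : T ≤ U := le_sup_left.trans hU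
  haveI : Finite T := fs_finite_of_le hTS
  have hTp : IsPGroup p T := hS.to_le hTS
  have key := fs_alperin p hTp E hEsat (fs_fullSub F₀ T hTU) ?_
  · intro P φ hφ
    exact (key P φ hφ).1
  intro P hP
  have hPT : P ≤ T := by
    rcases hP with rfl | h
    · exact le_rfl
    · exact h.1.1
  have hfa := fs_fullyAutomized_of_top_or_essential p hTp E hEsat P hP
  intro α hα
  obtain ⟨r, hr, g, hg, hgn, rfl⟩ := fs_aut_decomp p E P hfa α hα
  refine Subgroup.mul_mem _ ?_ ?_
  · have hle : Cfsg.pResidual p (E.autGroup P) ≤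
        ((fs_fullSub F₀ T hTU).autGroup P).subgroupOf (E.autGroup P) := by
      unfold Cfsg.pResidual
      rw [Subgroup.closure_le]
      intro β hβ
      rw [SetLike.mem_coe, Subgroup.mem_subgroupOf]
      have hβF : (β : MulAut P) ∈ F.autGroup P := by
        rw [fs_mem_autGroup_iff F (hPT.trans hTS)]
        exact hsubE P ((fs_mem_autGroup_iff E hPT _).mp β.2)
      have hβres : (⟨(β : MulAut P), hβF⟩ : F.autGroup P) ∈ Cfsg.pResidual p (F.autGroup P) := by
        apply Subgroup.subset_closure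
        have e : orderOf (⟨(β : MulAut P), hβF⟩ : F.autGroup P) = orderOf β := by
          rw [← Subgroup.orderOf_coe, ← Subgroup.orderOf_coe β]
        show Nat.Coprime (orderOf (⟨(β : MulAut P), hβF⟩ : F.autGroup P)) p
        rw [e]
        exact hβ
      have hβF₀ : (β : MulAut P) ∈ F₀.autGroup P := hres P (hPT.trans hTU) ⟨_, hβres, rfl⟩
      rw [fs_mem_autGroup_iff (fs_fullSub F₀ T hTU) hPT]
      exact ⟨(fs_mem_autGroup_iff F₀ (hPT.trans hTU) _).mp hβF₀, hPT,
        fun x => hPT (Subtype.property _)⟩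
    exact Subgroup.mem_subgroupOf.mp (hle hr)
  · exact fs_nmh_mem_autGroup (fs_fullSub F₀ T hTU) hPT ⟨g, hgn⟩ hg

end Cfsg.Agent.S5199
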