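import Cfsg.Statements.S5223
import Mathlib
import Cfsg.Agent.Lib.Helper1.FusStab
import Cfsg.Agent.S5083

set_option autoImplicit false
open Cfsg

open Cfsg.Agent.Lib.Helper1

namespace Cfsg.Agent.S5223

/-- Let F be a saturated fusion system over a finite p-group S. Suppose there are subgroups Q₀ = S, Q₁, …, Qₙ = 1 (not required to be nested) such that for each i < n the focal subgroup of Qᵢ (generated by the elements x⁻¹φ(x), x ∈ Qᵢ, φ a map of F defined on the cyclic group generated by x) lies in Qᵢ₊₁. Then F is the inner fusion system of S. -/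
theorem result {Ω : Type*} [Group Ω] {S : Subgroup Ω} [Finite S] (p : ℕ) [Fact p.Prime] (hS : IsPGroup p S) (F : Cfsg.FusionSystem S) (hF : F.IsSaturated p) (n : ℕ) (Q : Fin (n + 1) → Subgroup Ω) (hQ0 : Q 0 = S) (hQn : Q (Fin.last n) = ⊥) (hstep : ∀ i : Fin n, Subgroup.closure {y : Ω | ∃ x ∈ Q i.castSucc, ∃ φ ∈ F.Hom (Subgroup.zpowers x), y = x⁻¹ * φ ⟨x, Subgroup.mem_zpowers x⟩} ≤ Q i.succ) : ∀ P : Subgroup Ω, F.Hom P = (Cfsg.innerFusionSystem S).Hom P := by
  have h : ∀ P : Subgroup Ω, P ≤ S → IsPGroup p (F.autGroup P) := by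
    intro P hPS
    haveI : Finite P := fs_finite_of_le hPS
    apply isPGroup_of_forall_pow
    intro α hα
    apply pow_eq_one_of_commChain_bot p (hS.to_le hPS) α n
    have hmem : ∀ j (hj : j ≤ n), ∀ x ∈ commChain α j, (x : Ω) ∈ Q ⟨j, by omega⟩ := by
      intro j
      induction j with
      | zero =>
        intro hj x _
        have e : Q ⟨0, by omega⟩ = S := hQ0
        rw [e]; exact hPS x.2
      | succ j ih =>
        intro hj x hx
        have hle : commChain α (j + 1) ≤ (Q ⟨j + 1, by omega⟩).comap P.subtype := by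
          rw [commChain_succ, Subgroup.closure_le]
          rintro _ ⟨x, hx, k, rfl⟩
          show ((x⁻¹ * (α ^ k) x : P) : Ω) ∈ Q ⟨j + 1, _⟩
          have hxQ := ih (by omega) x hx
          have hstep' := hstep ⟨j, by omega⟩
          have hz : Subgroup.zpowers (x : Ω) ≤ P := by
            rw [Subgroup.zpowers_le]; exact x.2
          have hαk : P.subtype.comp (α ^ k).toMonoidHom ∈ F.Hom P :=
            (fs_mem_autGroup_iff F hPS _).mp (pow_mem hα k)
          apply hstep'
          apply Subgroup.subset_closure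
          exact ⟨(x : Ω), hxQ, (P.subtype.comp (α ^ k).toMonoidHom).comp (Subgroup.inclusion hz),
            fs_restrict F hz hαk, rfl⟩
        exact hle hx
    rw [eq_bot_iff]
    intro x hx
    have h1 := hmem n le_rfl x hx
    have e : Q ⟨n, by omega⟩ = ⊥ := hQn
    rw [e, Subgroup.mem_bot] at h1
    rw [Subgroup.mem_bot]; exact Subtype.ext h1
  have heq := Cfsg.Agent.S5083.result p hS F hF h
  intro P
  rw [heq]

end Cfsg.Agent.S5223
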