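import Cfsg.Statements.S5226
import Mathlib
import Cfsg.Agent.Lib.Helper1.FusStab
import Cfsg.Agent.Lib.Helper1.FusBasic2
import Cfsg.Agent.S5088

set_option autoImplicit false
open Cfsg

open Cfsg.Agent.Lib.Helper1
open scoped commutatorElement

namespace Cfsg.Agent.S5226

theorem weaklyClosed_of_stronglyClosed {Ω : Type*} [Group Ω] {S : Subgroup Ω} [Finite S]
    (F : Cfsg.FusionSystem S) (Q : Subgroup Ω) (h : F.StronglyClosed Q) : F.WeaklyClosed Q := by
  refine ⟨h.1, fun φ hφ => ?_⟩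
  haveI : Finite Q := fs_finite_of_le h.1
  have hle : φ.range ≤ Q := by
    rintro _ ⟨x, rfl⟩
    exact h.2 Q le_rfl φ hφ x
  apply Subgroup.eq_of_le_of_card_ge hle
  exact (Nat.card_congr (MonoidHom.ofInjective (F.injective_of_mem hφ)).toEquiv).le

theorem weaklyClosed_normal {Ω : Type*} [Group Ω] {S : Subgroup Ω} [Finite S]
    (F : Cfsg.FusionSystem S) (D : Subgroup Ω) (h : F.WeaklyClosed D) :
    S ≤ Subgroup.normalizer (D : Set Ω) := by
  intro g hg
  haveI : Finite D := fs_finite_of_le h.1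
  apply Cfsg.Agent.Lib.Helper6.sy_mem_normalizer_of_conj_le D
  intro y hy
  have h1 := h.2 _ (F.conj_mem (P := D) (g := g) h.1 hg)
  have h2 : Cfsg.conjHom D g ⟨y, hy⟩ ∈ (Cfsg.conjHom D g).range := ⟨_, rfl⟩
  rw [h1] at h2; exact h2

theorem weaklyClosed_aut_preserve {Ω : Type*} [Group Ω] {S : Subgroup Ω}
    (F : Cfsg.FusionSystem S) (D : Subgroup Ω) (h : F.WeaklyClosed D) (P : Subgroup Ω)
    (hPS : P ≤ S) (hDP : D ≤ P) (α : MulAut P) (hα : α ∈ F.autGroup P) :
    (D.subgroupOf P).map α.toMonoidHom = D.subgroupOf P := by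
  have hαF := (fs_mem_autGroup_iff F hPS α).mp hα
  have h1 := h.2 _ (fs_restrict F hDP hαF)
  ext y
  constructor
  · rintro ⟨z, hz, rfl⟩
    rw [Subgroup.mem_subgroupOf]
    have h2 : ((P.subtype.comp α.toMonoidHom).comp (Subgroup.inclusion hDP))
        ⟨z, Subgroup.mem_subgroupOf.mp hz⟩ ∈
        ((P.subtype.comp α.toMonoidHom).comp (Subgroup.inclusion hDP)).range := ⟨_, rfl⟩
    rw [h1] at h2; exact h2
  · intro hy
    have hy' : (y : Ω) ∈ ((P.subtype.comp α.toMonoidHom).comp (Subgroup.inclusion hDP)).range := by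
      rw [h1]; exact Subgroup.mem_subgroupOf.mp hy
    obtain ⟨w, hw⟩ := hy'
    exact ⟨Subgroup.inclusion hDP w, Subgroup.mem_subgroupOf.mpr w.2, Subtype.ext hw⟩

/-- one step up a central chain: a weakly closed `D ≤ Q` with `[D, Q] ≤ C j`, above a chain of
normal subgroups `C 0 = 1 ≤ … ≤ C j` with `[C (i+1), Q] ≤ C i`, is normal -/
theorem chain_step {Ω : Type*} [Group Ω] {S : Subgroup Ω} [Finite S] (p : ℕ) [Fact p.Prime]
    (hS : IsPGroup p S) (F : Cfsg.FusionSystem S) (hF : F.IsSaturated p) (Q : Subgroup Ω)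
    (hQ : F.StronglyClosed Q) (j : ℕ) (C : ℕ → Subgroup Ω) (hC0 : C 0 = ⊥)
    (hCn : ∀ i ≤ j, F.IsNormal (C i)) (hmono : ∀ i < j, C i ≤ C (i + 1)) (D : Subgroup Ω)
    (hCD : C j ≤ D) (hDQ : D ≤ Q) (hDw : F.WeaklyClosed D)
    (hcomm : ∀ i < j, ⁅C (i + 1), Q⁆ ≤ C i) (hcommD : ⁅D, Q⁆ ≤ C j) : F.IsNormal D := by
  have hDn := weaklyClosed_normal F D hDw
  have hQn := fs_stronglyClosed_normal F Q hQ
  apply fs_normal_of_alperin p hS F hF D
  intro P hP
  have hPS : P ≤ S := by
    rcases hP with rfl | hess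
    · exact le_rfl
    · exact hess.1.1
  have hDP : D ≤ P := by
    rcases hP with rfl | hess
    · exact hDw.1
    · have hCP := hess.1.2 P (fs_isConj_refl F hPS)
      have hrad := Cfsg.Agent.S5080.result p hS F hF P hess
      haveI : Finite P := fs_finite_of_le hPS
      have hinvQ : ∀ γ ∈ F.autGroup P, ∀ x ∈ Q.subgroupOf P, γ x ∈ Q.subgroupOf P :=
        fun γ hγ x hx => Subgroup.mem_subgroupOf.mpr
          (fs_aut_stronglyClosed F Q hQ P hPS γ hγ x (Subgroup.mem_subgroupOf.mp hx))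
      have hinvC : ∀ i ≤ j, ∀ γ ∈ F.autGroup P, ∀ x ∈ (C i).subgroupOf P,
          γ x ∈ (C i).subgroupOf P := fun i hi γ hγ x hx => Subgroup.mem_subgroupOf.mpr
        (fs_aut_stronglyClosed F _ (fs_normal_stronglyClosed F _ (hCn i hi)) P hPS γ hγ x
          (Subgroup.mem_subgroupOf.mp hx))
      have hCjQ : C j ≤ Q := hCD.trans hDQ
      apply fs_le_of_normal_pgroup p hS F D hDw.1 hDn P hCP hrad
        (F.autGroup P ⊓ stabSub (Q.subgroupOf P) ⊤ le_top ⊓
          stabSub ((C j).subgroupOf P) (Q.subgroupOf P) (Subgroup.subgroupOf_mono P hCjQ) ⊓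
          ⨅ i : Fin j, stabSub ((C (i : ℕ)).subgroupOf P) ((C ((i : ℕ) + 1)).subgroupOf P)
            (Subgroup.subgroupOf_mono P (hmono i i.2)))
      · exact inf_le_left.trans (inf_le_left.trans inf_le_left)
      · constructor
        intro w hw a
        rw [Subgroup.mem_subgroupOf] at hw ⊢
        obtain ⟨hw123, hw4⟩ := Subgroup.mem_inf.mp hw
        obtain ⟨hw12, hw3⟩ := Subgroup.mem_inf.mp hw123
        obtain ⟨hw1, hw2⟩ := Subgroup.mem_inf.mp hw12
        refine Subgroup.mem_inf.mpr ⟨Subgroup.mem_inf.mpr ⟨Subgroup.mem_inf.mpr ⟨?_, ?_⟩, ?_⟩, ?_⟩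
        · exact (a * w * a⁻¹).2
        · exact stabSub_conj _ _ _ (a : MulAut P) (hinvQ a a.2) (fun x _ => Subgroup.mem_top _) hw2
        · exact stabSub_conj _ _ _ (a : MulAut P) (hinvC j le_rfl a a.2)
            (fun x hx => hinvQ _ (inv_mem a.2) x hx) hw3
        · rw [Subgroup.mem_iInf] at hw4 ⊢
          intro i
          exact stabSub_conj _ _ _ (a : MulAut P) (hinvC i (le_of_lt i.2) a a.2)
            (fun x hx => hinvC _ i.2 _ (inv_mem a.2) x hx) (hw4 i)
      · apply isPGroup_of_forall_pow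
        intro α hα
        obtain ⟨hα123, hα4⟩ := Subgroup.mem_inf.mp hα
        obtain ⟨hα12, hα3⟩ := Subgroup.mem_inf.mp hα123
        obtain ⟨hα1, hα2⟩ := Subgroup.mem_inf.mp hα12
        rw [Subgroup.mem_iInf] at hα4
        have hchain : ∀ i : ℕ, i ≤ j → ∃ a : ℕ, ∀ x ∈ (C i).subgroupOf P,
            (α ^ (p ^ a)) x = x := by
          intro i
          induction i with
          | zero =>
            intro _
            refine ⟨0, fun x hx => ?_⟩
            rw [Subgroup.mem_subgroupOf, hC0, Subgroup.mem_bot] at hx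
            have : x = 1 := Subtype.ext hx
            rw [this, map_one]
          | succ i ih =>
            intro hi
            obtain ⟨a, ha⟩ := ih (by omega)
            have h1 := stab_step α ((C i).subgroupOf P) ((C (i + 1)).subgroupOf P)
              (Subgroup.subgroupOf_mono P (hmono i (by omega)))
              (fun x hx => (hα4 ⟨i, by omega⟩ x hx).1) (p ^ a) ha
            obtain ⟨k, hk⟩ := IsPGroup.iff_card.mp
              ((hS.to_le hPS).to_subgroup ((C i).subgroupOf P))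
            refine ⟨a + k, ?_⟩
            rw [pow_add, ← hk]; exact h1
        obtain ⟨a, ha⟩ := hchain j le_rfl
        have h1 := stab_step α ((C j).subgroupOf P) (Q.subgroupOf P)
          (Subgroup.subgroupOf_mono P hCjQ) (fun x hx => (hα3 x hx).1) (p ^ a) ha
        have h2 := stab_step α (Q.subgroupOf P) ⊤ le_top (fun x hx => (hα2 x hx).1) _ h1
        obtain ⟨k₁, hk₁⟩ := IsPGroup.iff_card.mp ((hS.to_le hPS).to_subgroup ((C j).subgroupOf P))
        obtain ⟨k₂, hk₂⟩ := IsPGroup.iff_card.mp ((hS.to_le hPS).to_subgroup (Q.subgroupOf P))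
        refine ⟨a + k₁ + k₂, ?_⟩
        ext x
        have h3 := h2 x (Subgroup.mem_top x)
        rw [hk₁, hk₂, ← pow_add, ← pow_add] at h3
        rw [h3]; rfl
      · intro n' hn' hn'D
        have hn'Q : n' ∈ Q := hDQ hn'D
        have hcD : ⁅Q, D⁆ ≤ C j := by rw [Subgroup.commutator_comm]; exact hcommD
        refine Subgroup.mem_inf.mpr ⟨Subgroup.mem_inf.mpr ⟨Subgroup.mem_inf.mpr ⟨?_, ?_⟩, ?_⟩, ?_⟩
        · exact fs_nmh_mem_autGroup F hPS ⟨n', hn'⟩ (hDw.1 hn'D)
        · exact nmh_mem_stabSub_top Q (hPS.trans hQn) n' hn' hn'Q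
        · apply nmh_mem_stabSub (C j) Q hCjQ n' hn'
          intro x _ hxQ
          constructor
          · have h := Subgroup.commutator_mem_commutator (Q.inv_mem hxQ) hn'D
            have e : x⁻¹ * (n' * x * n'⁻¹) = ⁅x⁻¹, n'⁆ := by
              rw [commutatorElement_def]; group
            rw [e]; exact hcD h
          · have h := Subgroup.commutator_mem_commutator (Q.inv_mem hxQ) (D.inv_mem hn'D)
            have e : x⁻¹ * (n'⁻¹ * x * n') = ⁅x⁻¹, n'⁻¹⁆ := by
              rw [commutatorElement_def]; group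
            rw [e]; exact hcD h
        · rw [Subgroup.mem_iInf]
          intro i
          apply nmh_mem_stabSub (C (i : ℕ)) (C ((i : ℕ) + 1)) (hmono i i.2) n' hn'
          intro x _ hx
          constructor
          · have h := Subgroup.commutator_mem_commutator ((C ((i : ℕ) + 1)).inv_mem hx) hn'Q
            have e : x⁻¹ * (n' * x * n'⁻¹) = ⁅x⁻¹, n'⁆ := by
              rw [commutatorElement_def]; group
            rw [e]; exact hcomm i i.2 h
          · have h := Subgroup.commutator_mem_commutator ((C ((i : ℕ) + 1)).inv_mem hx)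
              (Q.inv_mem hn'Q)
            have e : x⁻¹ * (n'⁻¹ * x * n') = ⁅x⁻¹, n'⁻¹⁆ := by
              rw [commutatorElement_def]; group
            rw [e]; exact hcomm i i.2 h
  exact ⟨hDP, fun α hα => weaklyClosed_aut_preserve F D hDw P hPS hDP α hα⟩

/-- Let F be a saturated fusion system over a finite p-group S and Q a subgroup of S. Then Q is normal in F (F equals the normalizer system of Q) if and only if Q is strongly closed in F and admits a central series 1 = Q₀ ≤ Q₁ ≤ ⋯ ≤ Qₙ = Q ([Qᵢ₊₁, Q] ≤ Qᵢ) all of whose proper terms are weakly closed in F. -/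
theorem result {Ω : Type*} [Group Ω] {S : Subgroup Ω} [Finite S] (p : ℕ) [Fact p.Prime] (hS : IsPGroup p S) (F : Cfsg.FusionSystem S) (hF : F.IsSaturated p) (Q : Subgroup Ω) : F.IsNormal Q ↔ F.StronglyClosed Q ∧ ∃ (n : ℕ) (C : Fin (n + 1) → Subgroup Ω), C 0 = ⊥ ∧ C (Fin.last n) = Q ∧ Monotone C ∧ (∀ i : Fin n, ⁅C i.succ, Q⁆ ≤ C i.castSucc) ∧ ∀ i : Fin n, F.WeaklyClosed (C i.castSucc) := by
  constructor
  · intro hQ
    refine ⟨fs_normal_stronglyClosed F Q hQ, ?_⟩
    haveI : Finite Q := fs_finite_of_le hQ.1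
    haveI : Group.IsNilpotent Q := (hS.to_le hQ.1).isNilpotent
    obtain ⟨n, hn⟩ := Group.IsNilpotent.nilpotent Q
    refine ⟨n, fun i => (Subgroup.upperCentralSeries Q (i : ℕ)).map Q.subtype, ?_, ?_, ?_, ?_, ?_⟩
    · show (Subgroup.upperCentralSeries Q ((0 : Fin (n + 1)) : ℕ)).map Q.subtype = ⊥
      rw [Fin.val_zero, Subgroup.upperCentralSeries_zero, Subgroup.map_bot]
    · show (Subgroup.upperCentralSeries Q ((Fin.last n : Fin (n + 1)) : ℕ)).map Q.subtype = Q
      rw [Fin.val_last, hn, ← MonoidHom.range_eq_map, Subgroup.range_subtype]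
    · intro i j hij
      exact Subgroup.map_mono (Subgroup.upperCentralSeries_mono Q hij)
    · intro i
      show ⁅(Subgroup.upperCentralSeries Q ((i.succ : Fin (n + 1)) : ℕ)).map Q.subtype, Q⁆ ≤
        (Subgroup.upperCentralSeries Q ((Fin.castSucc i : Fin (n + 1)) : ℕ)).map Q.subtype
      rw [Fin.val_succ, Fin.val_castSucc, Subgroup.commutator_le]
      rintro _ ⟨z, hz, rfl⟩ g₂ hg₂
      have h1 := Subgroup.mem_upperCentralSeries_succ_iff.mp hz ⟨g₂, hg₂⟩
      exact ⟨_, h1, rfl⟩
    · intro i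
      exact weaklyClosed_of_stronglyClosed F _ (Cfsg.Agent.S5088.char_stronglyClosed F Q hQ _)
  · rintro ⟨hsc, n, C, hC0, hCl, hmono, hcomm, hwc⟩
    have key : ∀ j : ℕ, ∀ hj : j ≤ n, F.IsNormal (C ⟨j, by omega⟩) := by
      intro j
      induction j using Nat.strong_induction_on with
      | _ j ih =>
      intro hj
      rcases Nat.eq_zero_or_pos j with rfl | hpos
      · have e : C ⟨0, by omega⟩ = ⊥ := hC0
        rw [e]; exact fs_normal_bot F
      · obtain ⟨m, rfl⟩ : ∃ m, j = m + 1 := ⟨j - 1, by omega⟩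
        have hidx : ∀ i : ℕ, ∀ hi : i ≤ n, (⟨min i n, by omega⟩ : Fin (n + 1)) = ⟨i, by omega⟩ :=
          fun i hi => Fin.ext (min_eq_left hi)
        apply chain_step p hS F hF Q hsc m (fun i => C ⟨min i n, by omega⟩)
        · show C ⟨min 0 n, _⟩ = ⊥
          rw [hidx 0 (by omega)]; exact hC0
        · intro i hi
          show F.IsNormal (C ⟨min i n, _⟩)
          rw [hidx i (by omega)]
          exact ih i (by omega) (by omega)
        · intro i hi
          show C ⟨min i n, _⟩ ≤ C ⟨min (i + 1) n, _⟩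
          rw [hidx i (by omega), hidx (i + 1) (by omega)]
          exact hmono (Fin.mk_le_mk.mpr (Nat.le_succ i))
        · show C ⟨min m n, _⟩ ≤ C ⟨m + 1, _⟩
          rw [hidx m (by omega)]
          exact hmono (Fin.mk_le_mk.mpr (Nat.le_succ m))
        · rw [← hCl]
          exact hmono (Fin.le_last _)
        · by_cases hmn : m + 1 = n
          · have e : C ⟨m + 1, by omega⟩ = Q := by
              rw [← hCl]; congr 1; exact Fin.ext hmn
            rw [e]; exact weaklyClosed_of_stronglyClosed F Q hsc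
          · exact hwc ⟨m + 1, by omega⟩
        · intro i hi
          show ⁅C ⟨min (i + 1) n, _⟩, Q⁆ ≤ C ⟨min i n, _⟩
          rw [hidx i (by omega), hidx (i + 1) (by omega)]
          exact hcomm ⟨i, by omega⟩
        · show ⁅C ⟨m + 1, _⟩, Q⁆ ≤ C ⟨min m n, _⟩
          rw [hidx m (by omega)]
          exact hcomm ⟨m, by omega⟩
    have h := key n le_rfl
    have e : C ⟨n, by omega⟩ = Q := hCl
    rw [e] at h; exact h

end Cfsg.Agent.S5226
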