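import Cfsg.Statements.S5236
import Cfsg.Agent.Lib.Helper1.FusStab
import Cfsg.Agent.Lib.Helper1.FusBasic2
import Cfsg.Agent.Lib.Helper1.FusCoprime
import Cfsg.Agent.S5086
import Cfsg.Agent.S5088

set_option autoImplicit false
open Cfsg

open Cfsg.Agent.Lib.Helper1
open scoped commutatorElement

namespace Cfsg.Agent.S5236

theorem omega_le {Ω : Type*} [Group Ω] (p : ℕ) (P : Subgroup Ω) : Cfsg.omegaOne p P ≤ P := by
  unfold Cfsg.omegaOne
  rw [Subgroup.closure_le]
  rintro x ⟨hx, _⟩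
  exact hx

theorem omega_conj {Ω : Type*} [Group Ω] (p : ℕ) (P : Subgroup Ω) (g : Ω) (hg : g ∈ P) (z : Ω)
    (hz : z ∈ Cfsg.omegaOne p P) : g * z * g⁻¹ ∈ Cfsg.omegaOne p P := by
  have hle : Cfsg.omegaOne p P ≤ (Cfsg.omegaOne p P).comap (MulAut.conj g).toMonoidHom := by
    conv_lhs => unfold Cfsg.omegaOne
    rw [Subgroup.closure_le]
    rintro x ⟨hx, hxp⟩
    show g * x * g⁻¹ ∈ Cfsg.omegaOne p P
    apply Subgroup.subset_closure
    refine ⟨P.mul_mem (P.mul_mem hg hx) (P.inv_mem hg), ?_⟩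
    rw [conj_pow, hxp, mul_one, mul_inv_cancel]
  exact hle hz

theorem omega_stronglyClosed {Ω : Type*} [Group Ω] {S : Subgroup Ω} (p : ℕ)
    (F : Cfsg.FusionSystem S) (P : Subgroup Ω) (hP : F.IsNormal P) :
    F.StronglyClosed (Cfsg.omegaOne p P) := by
  obtain ⟨C, hC⟩ : ∃ C : Subgroup P, C = Subgroup.closure {x : P | x ^ p = 1} := ⟨_, rfl⟩
  haveI : C.Characteristic := by
    rw [Subgroup.characteristic_iff_le_comap]
    intro φ
    conv_lhs => rw [hC]
    rw [Subgroup.closure_le]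
    intro x hx
    have hx' : x ^ p = 1 := hx
    show φ x ∈ C
    rw [hC]
    apply Subgroup.subset_closure
    show (φ x) ^ p = 1
    rw [← map_pow, hx', map_one]
  have e : C.map P.subtype = Cfsg.omegaOne p P := by
    rw [hC, MonoidHom.map_closure]
    unfold Cfsg.omegaOne
    congr 1
    ext x
    constructor
    · rintro ⟨y, hy, rfl⟩
      have hy' : y ^ p = 1 := hy
      exact ⟨y.2, by have h' := congrArg Subtype.val hy'; simpa using h'⟩
    · rintro ⟨hx, hxp⟩
      exact ⟨⟨x, hx⟩, Subtype.ext (by simpa using hxp), rfl⟩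
  rw [← e]
  exact Cfsg.Agent.S5088.char_stronglyClosed F P hP C

theorem sc_inf {Ω : Type*} [Group Ω] {S : Subgroup Ω} (F : Cfsg.FusionSystem S)
    (A B : Subgroup Ω) (hA : F.StronglyClosed A) (hB : F.StronglyClosed B) :
    F.StronglyClosed (A ⊓ B) := by
  refine ⟨inf_le_left.trans hA.1, fun R hR φ hφ x => ?_⟩
  exact Subgroup.mem_inf.mpr
    ⟨hA.2 R (hR.trans inf_le_left) φ hφ x, hB.2 R (hR.trans inf_le_right) φ hφ x⟩

theorem sc_bot {Ω : Type*} [Group Ω] {S : Subgroup Ω} (F : Cfsg.FusionSystem S) :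
    F.StronglyClosed (⊥ : Subgroup Ω) := by
  refine ⟨bot_le, fun R hR φ hφ x => ?_⟩
  have hx : (x : Ω) = 1 := Subgroup.mem_bot.mp (hR x.2)
  have hx1 : x = 1 := Subtype.ext hx
  rw [hx1, map_one]; exact Subgroup.one_mem _


/-- Let p be an odd prime, F a saturated fusion system over a finite p-group S and P a subgroup of S strongly closed in F. Then P is normal in F if and only if Ω₁(P) (the subgroup generated by the elements of order p of P) has a chain of subgroups 1 = Q₀ ≤ Q₁ ≤ ⋯ ≤ Qₙ = Ω₁(P), each strongly closed in F, with [Qᵢ₊₁, P] ≤ Qᵢ for all i. -/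
theorem result {Ω : Type*} [Group Ω] {S : Subgroup Ω} [Finite S] (p : ℕ) [Fact p.Prime] (hS : IsPGroup p S) (F : Cfsg.FusionSystem S) (hF : F.IsSaturated p) (hp : p ≠ 2) (P : Subgroup Ω) (hP : F.StronglyClosed P) : F.IsNormal P ↔ ∃ (n : ℕ) (Q : Fin (n + 1) → Subgroup Ω), Q 0 = ⊥ ∧ Q (Fin.last n) = Cfsg.omegaOne p P ∧ Monotone Q ∧ (∀ i : Fin (n + 1), F.StronglyClosed (Q i)) ∧ ∀ i : Fin n, ⁅Q i.succ, P⁆ ≤ Q i.castSucc := by
  have hpr : p.Prime := Fact.out
  constructor
  · intro hPn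
    obtain ⟨n, Qs, h0, hlast, hmono, hstep⟩ := (Cfsg.Agent.S5088.result p hS F hF P).mp hPn
    have hscQs : ∀ j : Fin (n + 1), F.StronglyClosed (Qs j) := by
      intro j
      refine Fin.cases ?_ (fun i => ?_) j
      · rw [h0]; exact sc_bot F
      · exact (hstep i).1
    have hΩ := omega_stronglyClosed p F P hPn
    refine ⟨n, fun i => Qs i ⊓ Cfsg.omegaOne p P, ?_, ?_, ?_, ?_, ?_⟩
    · show Qs 0 ⊓ Cfsg.omegaOne p P = ⊥
      rw [h0, bot_inf_eq]
    · show Qs (Fin.last n) ⊓ Cfsg.omegaOne p P = Cfsg.omegaOne p P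
      rw [hlast]; exact inf_eq_right.mpr (omega_le p P)
    · intro i j hij
      exact inf_le_inf_right _ (hmono hij)
    · intro i
      exact sc_inf F _ _ (hscQs i) hΩ
    · intro i
      show ⁅Qs i.succ ⊓ Cfsg.omegaOne p P, P⁆ ≤ Qs (Fin.castSucc i) ⊓ Cfsg.omegaOne p P
      rw [Subgroup.commutator_le]
      intro g₁ hg₁ g₂ hg₂
      obtain ⟨hg1a, hg1b⟩ := Subgroup.mem_inf.mp hg₁
      refine Subgroup.mem_inf.mpr ⟨?_, ?_⟩
      · apply (hstep i).2
        rw [Subgroup.commutator_comm]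
        exact Subgroup.commutator_mem_commutator hg1a hg₂
      · have e : ⁅g₁, g₂⁆ = g₁ * (g₂ * g₁⁻¹ * g₂⁻¹) := by
          rw [commutatorElement_def]; group
        rw [e]
        exact Subgroup.mul_mem _ hg1b (omega_conj p P g₂ hg₂ _ (Subgroup.inv_mem _ hg1b))
  · rintro ⟨n, Q, h0, hlast, hmono, hsc, hcomm⟩
    rw [Cfsg.Agent.S5086.result p hS F hF P]
    refine ⟨hP, fun R hc hrad => ?_⟩
    have hRS := hc.1
    have hCR := hc.2 R (fs_isConj_refl F hRS)
    have hPn := fs_stronglyClosed_normal F P hP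
    haveI : Finite R := fs_finite_of_le hRS
    have hinv : ∀ γ ∈ F.autGroup R, ∀ x : R, (x : Ω) ∈ P → ((γ x : R) : Ω) ∈ P :=
      fun γ hγ x hx => fs_aut_stronglyClosed F P hP R hRS γ hγ x hx
    have hinv' : ∀ γ ∈ F.autGroup R, ∀ x ∈ P.subgroupOf R, γ x ∈ P.subgroupOf R :=
      fun γ hγ x hx => Subgroup.mem_subgroupOf.mpr (hinv γ hγ x (Subgroup.mem_subgroupOf.mp hx))
    have hinvj : ∀ j : Fin (n + 1), ∀ γ ∈ F.autGroup R, ∀ x ∈ (Q j).subgroupOf R,
        γ x ∈ (Q j).subgroupOf R := by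
      intro j γ hγ x hx
      exact Subgroup.mem_subgroupOf.mpr
        (fs_aut_stronglyClosed F _ (hsc j) R hRS γ hγ x (Subgroup.mem_subgroupOf.mp hx))
    apply fs_le_of_normal_pgroup p hS F P hP.1 hPn R hCR hrad
      (F.autGroup R ⊓ stabSub (P.subgroupOf R) ⊤ le_top ⊓
        ⨅ i : Fin n, stabSub ((Q (Fin.castSucc i)).subgroupOf R) ((Q i.succ).subgroupOf R)
          (Subgroup.subgroupOf_mono R (hmono (Fin.castSucc_le_succ i))))
    · exact inf_le_left.trans inf_le_left
    · constructor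
      intro w hw a
      rw [Subgroup.mem_subgroupOf] at hw ⊢
      obtain ⟨hw12, hw3⟩ := Subgroup.mem_inf.mp hw
      obtain ⟨hw1, hw2⟩ := Subgroup.mem_inf.mp hw12
      refine Subgroup.mem_inf.mpr ⟨Subgroup.mem_inf.mpr ⟨?_, ?_⟩, ?_⟩
      · exact (a * w * a⁻¹).2
      · exact stabSub_conj _ _ _ (a : MulAut R) (hinv' a a.2) (fun x _ => Subgroup.mem_top _) hw2
      · rw [Subgroup.mem_iInf] at hw3 ⊢
        intro i
        exact stabSub_conj _ _ _ (a : MulAut R) (hinvj _ a a.2)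
          (fun x hx => hinvj _ _ (inv_mem a.2) x hx) (hw3 i)
    · apply isPGroup_of_forall_pow
      intro α hα
      obtain ⟨hα12, hα3⟩ := Subgroup.mem_inf.mp hα
      obtain ⟨hα1, hα2⟩ := Subgroup.mem_inf.mp hα12
      rw [Subgroup.mem_iInf] at hα3
      have hchain : ∀ j : Fin (n + 1), ∃ a : ℕ, ∀ x ∈ (Q j).subgroupOf R,
          (α ^ (p ^ a)) x = x := by
        intro j
        induction j using Fin.induction with
        | zero =>
          refine ⟨0, fun x hx => ?_⟩
          rw [Subgroup.mem_subgroupOf, h0, Subgroup.mem_bot] at hx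
          have hx1 : x = 1 := Subtype.ext hx
          rw [hx1, map_one]
        | succ i ih =>
          obtain ⟨a, ha⟩ := ih
          have h1 := stab_step α ((Q (Fin.castSucc i)).subgroupOf R) ((Q i.succ).subgroupOf R)
            (Subgroup.subgroupOf_mono R (hmono (Fin.castSucc_le_succ i)))
            (fun x hx => (hα3 i x hx).1) (p ^ a) ha
          obtain ⟨k, hk⟩ := IsPGroup.iff_card.mp
            ((hS.to_le hRS).to_subgroup ((Q (Fin.castSucc i)).subgroupOf R))
          refine ⟨a + k, ?_⟩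
          rw [pow_add, ← hk]; exact h1
      obtain ⟨a, ha⟩ := hchain (Fin.last n)
      rw [hlast] at ha
      obtain ⟨α', hα'def⟩ : ∃ α' : MulAut R, α' = α ^ (p ^ a) := ⟨_, rfl⟩
      rw [← hα'def] at ha
      have hn : 0 < orderOf α' := orderOf_pos_iff.mpr (isOfFinOrder_of_finite α')
      obtain ⟨b, m, hm, hnm⟩ := Nat.exists_eq_pow_mul_and_not_dvd hn.ne' p hpr.ne_one
      have hcop : Nat.Coprime m p := ((Nat.Prime.coprime_iff_not_dvd hpr).mpr hm).symm
      obtain ⟨β, hβdef⟩ : ∃ β : MulAut R, β = α' ^ (p ^ b) := ⟨_, rfl⟩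
      have hβm : β ^ m = 1 := by rw [hβdef, ← pow_mul, ← hnm]; exact pow_orderOf_eq_one α'
      have hβA : β ∈ F.autGroup R := by rw [hβdef, hα'def]; exact pow_mem (pow_mem hα1 _) _
      have hβfix : ∀ g ∈ P.subgroupOf R, β g = g := by
        apply cop_fix' p β m hcop hβm (P.subgroupOf R) ((hS.to_le hRS).to_subgroup _)
          (hinv' β hβA)
        intro g hg hcond
        rcases hcond with h | ⟨h2, _⟩
        · rw [hβdef]
          apply cop_pow_fix
          apply ha
          rw [Subgroup.mem_subgroupOf]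
          show (g : Ω) ∈ Subgroup.closure {x : Ω | x ∈ P ∧ x ^ p = 1}
          apply Subgroup.subset_closure
          refine ⟨Subgroup.mem_subgroupOf.mp hg, ?_⟩
          have h' := congrArg Subtype.val h
          simpa using h'
        · exact absurd h2 hp
      have hβα : β = α ^ (p ^ (a + b)) := by rw [hβdef, hα'def, ← pow_mul, ← pow_add]
      rw [hβα] at hβfix
      have h2 := stab_step α (P.subgroupOf R) ⊤ le_top (fun x hx => (hα2 x hx).1) _ hβfix
      obtain ⟨k₂, hk₂⟩ := IsPGroup.iff_card.mp ((hS.to_le hRS).to_subgroup (P.subgroupOf R))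
      refine ⟨a + b + k₂, ?_⟩
      ext x
      have h3 := h2 x (Subgroup.mem_top x)
      rw [hk₂, ← pow_add] at h3
      rw [h3]; rfl
    · intro n' hn' hnP
      refine Subgroup.mem_inf.mpr ⟨Subgroup.mem_inf.mpr ⟨?_, ?_⟩, ?_⟩
      · exact fs_nmh_mem_autGroup F hRS ⟨n', hn'⟩ (hP.1 hnP)
      · exact nmh_mem_stabSub_top P (hRS.trans hPn) n' hn' hnP
      · rw [Subgroup.mem_iInf]
        intro i
        have hci := hcomm i
        apply nmh_mem_stabSub (Q (Fin.castSucc i)) (Q i.succ)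
          (hmono (Fin.castSucc_le_succ i)) n' hn'
        intro x _ hx
        constructor
        · have h := Subgroup.commutator_mem_commutator ((Q i.succ).inv_mem hx) hnP
          have e : x⁻¹ * (n' * x * n'⁻¹) = ⁅x⁻¹, n'⁆ := by
            rw [commutatorElement_def]; group
          rw [e]; exact hci h
        · have h := Subgroup.commutator_mem_commutator ((Q i.succ).inv_mem hx) (P.inv_mem hnP)
          have e : x⁻¹ * (n'⁻¹ * x * n') = ⁅x⁻¹, n'⁻¹⁆ := by
            rw [commutatorElement_def]; group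
          rw [e]; exact hci h

end Cfsg.Agent.S5236
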