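import Cfsg.Statements.S5246
import Mathlib
import Cfsg.Agent.Lib.Helper1.FusGrp
import Cfsg.Agent.Lib.Helper7.PCore
import Cfsg.Agent.Lib.Helper8.Basic
import Cfsg.Agent.S5076
import Cfsg.Agent.S5100

set_option autoImplicit false
open Cfsg

namespace Cfsg.Agent.S5246

open Cfsg.Agent.Lib.Helper1 Cfsg.Agent.Lib.Helper7 Cfsg.Agent.Lib.Helper8 Cfsg.Agent.S5076
open scoped commutatorElement

theorem pCore_map_equiv {X Y : Type*} [Group X] [Group Y] [Finite X] (p : ℕ) [Fact p.Prime]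
    (e : X ≃* Y) : (Cfsg.pCore p X).map e.toMonoidHom ≤ Cfsg.pCore p Y := by
  haveI := pCore_normal p X
  exact le_pCore (Subgroup.Normal.map inferInstance _ e.surjective) ((pCore_isPGroup p X).map _)

theorem transfer {G : Type*} [Group G] [Finite G] (p : ℕ) [Fact p.Prime] (P Q₀ Q : Subgroup G)
    (k : G) (hQ : Q₀.map (MulAut.conj k).toMonoidHom = Q) (hQP : Q ≤ P)
    (n : Subgroup.normalizer (Q₀ : Set G)) (m : Subgroup.normalizer (Q : Set G))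
    (hm : (m : G) = k * n * k⁻¹) :
    (QuotientGroup.mk (s := (Subgroup.centralizer (Q₀ : Set G)).subgroupOf
        (Subgroup.normalizer (Q₀ : Set G))) n ∈
        Cfsg.pCore p (↥(Subgroup.normalizer (Q₀ : Set G)) ⧸
          (Subgroup.centralizer (Q₀ : Set G)).subgroupOf (Subgroup.normalizer (Q₀ : Set G)))) ↔
      Q.normalizerMonoidHom m ∈ (Cfsg.pCore p ↥((Cfsg.groupFusionSystem P).autGroup Q)).map
        ((Cfsg.groupFusionSystem P).autGroup Q).subtype := by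
  subst hQ
  have hNmap : (Subgroup.normalizer (Q₀ : Set G)).map (MulAut.conj k).toMonoidHom =
      Subgroup.normalizer ((Q₀.map (MulAut.conj k).toMonoidHom : Subgroup G) : Set G) :=
    Subgroup.map_equiv_normalizer_eq Q₀ (MulAut.conj k)
  let cmap : ↥(Subgroup.normalizer (Q₀ : Set G)) ≃*
      ↥(Subgroup.normalizer ((Q₀.map (MulAut.conj k).toMonoidHom : Subgroup G) : Set G)) :=
    ((MulAut.conj k).subgroupMap (Subgroup.normalizer (Q₀ : Set G))).trans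
      (MulEquiv.subgroupCongr hNmap)
  have hcmap : ∀ x : ↥(Subgroup.normalizer (Q₀ : Set G)), ((cmap x : _) : G) = k * x * k⁻¹ :=
    fun x => rfl
  let Φ : ↥(Subgroup.normalizer (Q₀ : Set G)) →*
      ↥((Cfsg.groupFusionSystem P).autGroup (Q₀.map (MulAut.conj k).toMonoidHom)) :=
    ((Q₀.map (MulAut.conj k).toMonoidHom).normalizerMonoidHom.codRestrict _
      (fun m => nmh_mem_autGroup P _ hQP m)).comp cmap.toMonoidHom
  have hΦsurj : Function.Surjective Φ := by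
    rintro ⟨α, hα⟩
    obtain ⟨m, rfl⟩ := autGroup_le_range P _ hα
    refine ⟨cmap.symm m, Subtype.ext ?_⟩
    show (Q₀.map (MulAut.conj k).toMonoidHom).normalizerMonoidHom (cmap (cmap.symm m)) = _
    rw [MulEquiv.apply_symm_apply]
  have hΦker : (Subgroup.centralizer (Q₀ : Set G)).subgroupOf
      (Subgroup.normalizer (Q₀ : Set G)) = Φ.ker := by
    ext x
    have h1 : Φ x = 1 ↔ cmap x ∈ (Q₀.map (MulAut.conj k).toMonoidHom).normalizerMonoidHom.ker := by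
      rw [MonoidHom.mem_ker]
      constructor
      · intro h; exact congrArg Subtype.val h
      · intro h; exact Subtype.ext h
    rw [MonoidHom.mem_ker, h1, Subgroup.normalizerMonoidHom_ker, Subgroup.mem_subgroupOf,
      Subgroup.mem_subgroupOf, hcmap, fg_centralizer_conj, h8_mem_map_conj]
    have e : k⁻¹ * (k * (x : G) * k⁻¹) * k = x := by group
    rw [e]
  let e := (QuotientGroup.quotientMulEquivOfEq hΦker).trans
    (QuotientGroup.quotientKerEquivOfSurjective Φ hΦsurj)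
  have he : e (QuotientGroup.mk n) = Φ n := rfl
  have hΦn : ((Φ n : _) : MulAut ↥(Q₀.map (MulAut.conj k).toMonoidHom)) =
      (Q₀.map (MulAut.conj k).toMonoidHom).normalizerMonoidHom m := by
    show (Q₀.map (MulAut.conj k).toMonoidHom).normalizerMonoidHom (cmap n) = _
    congr 1
    exact Subtype.ext (by rw [hcmap, hm])
  constructor
  · intro h
    have h2 := pCore_map_equiv p e ⟨_, h, rfl⟩
    exact ⟨Φ n, h2, hΦn⟩
  · rintro ⟨a, ha, ham⟩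
    have ha' : a = Φ n := Subtype.ext (ham.trans hΦn.symm)
    have h2 := pCore_map_equiv p e.symm ⟨a, ha, rfl⟩
    have h3 : e.symm.toMonoidHom a = QuotientGroup.mk n := by
      rw [ha', ← he]
      exact e.symm_apply_apply _
    rwa [h3] at h2

/-- the elementwise quadratic condition for conjugation by `g` -/
theorem quad_of_commute {G : Type*} [Group G] (g a : G)
    (h : Commute g (a⁻¹ * g * a * g⁻¹)) :
    (g * a⁻¹ * g⁻¹) * a * (g * a⁻¹ * g⁻¹) * (g * (g * a * g⁻¹) * g⁻¹) = 1 := by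
  have h1 : g * (a⁻¹ * g * a * g⁻¹) * g⁻¹ = a⁻¹ * g * a * g⁻¹ := by
    rw [h.eq, mul_assoc, mul_inv_cancel, mul_one]
  calc (g * a⁻¹ * g⁻¹) * a * (g * a⁻¹ * g⁻¹) * (g * (g * a * g⁻¹) * g⁻¹)
      = (a⁻¹ * g * a * g⁻¹)⁻¹ * (g * (a⁻¹ * g * a * g⁻¹) * g⁻¹) := by group
    _ = 1 := by rw [h1, inv_mul_cancel]

theorem commute_of_quad {G : Type*} [Group G] (g a : G)
    (h : (g * a⁻¹ * g⁻¹) * a * (g * a⁻¹ * g⁻¹) * (g * (g * a * g⁻¹) * g⁻¹) = 1) :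
    Commute g (a⁻¹ * g * a * g⁻¹) := by
  have h0 : (a⁻¹ * g * a * g⁻¹)⁻¹ * (g * (a⁻¹ * g * a * g⁻¹) * g⁻¹) = 1 := by
    rw [← h]; group
  have h1 : g * (a⁻¹ * g * a * g⁻¹) * g⁻¹ = a⁻¹ * g * a * g⁻¹ := (inv_mul_eq_one.mp h0).symm
  show g * (a⁻¹ * g * a * g⁻¹) = (a⁻¹ * g * a * g⁻¹) * g
  calc g * (a⁻¹ * g * a * g⁻¹) = (g * (a⁻¹ * g * a * g⁻¹) * g⁻¹) * g := by group
    _ = (a⁻¹ * g * a * g⁻¹) * g := by rw [h1]

/-- subgroup form of quadratic action from the elementwise form -/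
theorem quad_subgroup {G : Type*} [Group G] (Q : Subgroup G) (g : G)
    (h : ∀ a ∈ Q, Commute g (a * g * a⁻¹ * g⁻¹)) :
    ⁅⁅Q, Subgroup.zpowers g⁆, Subgroup.zpowers g⁆ = ⊥ := by
  rw [Subgroup.commutator_eq_bot_iff_le_centralizer, Subgroup.commutator_le]
  rintro a ha _ ⟨i, rfl⟩
  have hu : Commute g (a * g * a⁻¹) := by
    have h1 := h a ha
    have e : a * g * a⁻¹ = (a * g * a⁻¹ * g⁻¹) * g := by group
    rw [e]
    exact h1.mul_right (Commute.refl g)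
  have hc : Commute g ⁅a, g ^ i⁆ := by
    rw [commutatorElement_def]
    have e : a * g ^ i * a⁻¹ = (a * g * a⁻¹) ^ i := by
      rw [conj_zpow]
    rw [e]
    exact (hu.zpow_right i).mul_right ((Commute.refl g).zpow_right i).inv_right
  rw [Subgroup.mem_centralizer_iff]
  rintro _ ⟨j, rfl⟩
  exact (hc.zpow_left j).eq

/-- Let p be an odd prime, G a finite group and P a Sylow p-subgroup. Call a fusion system F p-stable when, for every fully normalized subgroup Q and every χ ∈ Aut_F(Q) acting quadratically on Q (that is, χ fixes a⁻¹χ(a) for every a ∈ Q; equivalently χ(a⁻¹)·a·χ(a⁻¹)·χ(χ(a)) = 1), χ lies in O_p(Aut_F(Q)). Then G is p-stable in the normalizer form (for every p-subgroup Q and x ∈ N_G(Q) with [Q, x, x] = 1, the image of x lies in O_p(N_G(Q)/C_G(Q))) if and only if the fusion system of G on P is p-stable. -/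
theorem result {Ω : Type*} [Group Ω] [Finite Ω] {p : ℕ} [Fact p.Prime] (hp : p ≠ 2) (P : Sylow p Ω) : Cfsg.IsNormalizerPStable p Ω ↔ (∀ Q : Subgroup Ω, (Cfsg.groupFusionSystem (P : Subgroup Ω)).IsFullyNormalized Q → ∀ χ : MulAut ↥Q, χ ∈ (Cfsg.groupFusionSystem (P : Subgroup Ω)).autGroup Q → (∀ a : ↥Q, (χ a⁻¹) * a * (χ a⁻¹) * (χ (χ a)) = 1) → χ ∈ ((Cfsg.pCore p ↥((Cfsg.groupFusionSystem (P : Subgroup Ω)).autGroup Q)).map ((Cfsg.groupFusionSystem (P : Subgroup Ω)).autGroup Q).subtype : Subgroup (MulAut ↥Q))) := by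
  have hPp : IsPGroup p (P : Subgroup Ω) := P.isPGroup'
  constructor
  · intro hst Q hfn χ hχ hquad
    have hQP : Q ≤ P := hfn.1
    obtain ⟨n, rfl⟩ := autGroup_le_range (P : Subgroup Ω) Q hχ
    have h1 : Q.map (MulAut.conj (1 : Ω)).toMonoidHom = Q := by
      ext x
      rw [h8_mem_map_conj]
      simp
    refine (transfer p (P : Subgroup Ω) Q Q 1 h1 hQP n n (by simp)).mp ?_
    apply hst Q (hPp.to_le hQP) (n : Ω) n.2
    apply quad_subgroup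
    intro a ha
    have h2 := hquad ⟨a⁻¹, Q.inv_mem ha⟩
    have h3 := congrArg Subtype.val h2
    have h4 := commute_of_quad (n : Ω) a⁻¹ h3
    rwa [inv_inv] at h4
  · intro hst Q₀ hQ₀ g hg hquad
    -- conjugate `Q₀` to a fully normalized subgroup of `P`
    obtain ⟨h, hh⟩ := h8_exists_conj_sylow_ge P hQ₀
    have hQ₁ : Q₀.map (MulAut.conj h⁻¹).toMonoidHom ≤ (P : Subgroup Ω) := by
      rintro _ ⟨x, hx, rfl⟩
      have := hh x hx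
      show h⁻¹ * x * h⁻¹⁻¹ ∈ (P : Subgroup Ω)
      rwa [inv_inv]
    obtain ⟨k₁, hk₁P, hk₁⟩ := exists_conj_sylow_normalizer p P _ hQ₁
    have hQeq : Q₀.map (MulAut.conj (k₁ * h⁻¹)).toMonoidHom =
        (Q₀.map (MulAut.conj h⁻¹).toMonoidHom).map (MulAut.conj k₁).toMonoidHom := by
      rw [Subgroup.map_map]
      congr 1
      ext x
      simp [mul_assoc]
    have hfn : (Cfsg.groupFusionSystem (P : Subgroup Ω)).IsFullyNormalized
        ((Q₀.map (MulAut.conj h⁻¹).toMonoidHom).map (MulAut.conj k₁).toMonoidHom) :=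
      (Cfsg.Agent.S5100.result p P _ hk₁P).mpr ((fg_syl_iff p (P : Subgroup Ω) _ hPp).mpr hk₁)
    have hm : (k₁ * h⁻¹) * g * (k₁ * h⁻¹)⁻¹ ∈ Subgroup.normalizer
        (((Q₀.map (MulAut.conj h⁻¹).toMonoidHom).map (MulAut.conj k₁).toMonoidHom :
          Subgroup Ω) : Set Ω) := by
      rw [← hQeq, ← Subgroup.map_equiv_normalizer_eq Q₀ (MulAut.conj (k₁ * h⁻¹))]
      exact ⟨g, hg, rfl⟩
    refine (transfer p (P : Subgroup Ω) Q₀ _ (k₁ * h⁻¹) hQeq hk₁P ⟨g, hg⟩ ⟨_, hm⟩ rfl).mpr ?_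
    apply hst _ hfn _ (nmh_mem_autGroup (P : Subgroup Ω) _ hk₁P _)
    intro a
    apply Subtype.ext
    have ha : (a : Ω) ∈ Q₀.map (MulAut.conj (k₁ * h⁻¹)).toMonoidHom := by rw [hQeq]; exact a.2
    obtain ⟨a₀, ha₀, ha₀a⟩ := ha
    have hc : Commute g (a₀⁻¹ * g * a₀ * g⁻¹) := by
      have h1 : ⁅a₀⁻¹, g⁆ ∈ ⁅Q₀, Subgroup.zpowers g⁆ :=
        Subgroup.commutator_mem_commutator (Q₀.inv_mem ha₀) (Subgroup.mem_zpowers g)
      have h2 : ⁅⁅a₀⁻¹, g⁆, g⁆ ∈ ⁅⁅Q₀, Subgroup.zpowers g⁆, Subgroup.zpowers g⁆ :=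
        Subgroup.commutator_mem_commutator h1 (Subgroup.mem_zpowers g)
      rw [hquad, Subgroup.mem_bot, commutatorElement_eq_one_iff_commute] at h2
      rw [commutatorElement_def, inv_inv] at h2
      exact h2.symm
    have hq := quad_of_commute g a₀ hc
    have hkey : ∀ y : Ω, (k₁ * h⁻¹) * g * (k₁ * h⁻¹)⁻¹ * ((k₁ * h⁻¹) * y * (k₁ * h⁻¹)⁻¹) *
        ((k₁ * h⁻¹) * g * (k₁ * h⁻¹)⁻¹)⁻¹ = (k₁ * h⁻¹) * (g * y * g⁻¹) * (k₁ * h⁻¹)⁻¹ := by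
      intro y; group
    have haa : (a : Ω) = (k₁ * h⁻¹) * a₀ * (k₁ * h⁻¹)⁻¹ := ha₀a.symm
    show ((k₁ * h⁻¹) * g * (k₁ * h⁻¹)⁻¹ * ((a : Ω))⁻¹ * ((k₁ * h⁻¹) * g * (k₁ * h⁻¹)⁻¹)⁻¹) * (a : Ω) *
      ((k₁ * h⁻¹) * g * (k₁ * h⁻¹)⁻¹ * ((a : Ω))⁻¹ * ((k₁ * h⁻¹) * g * (k₁ * h⁻¹)⁻¹)⁻¹) *
      ((k₁ * h⁻¹) * g * (k₁ * h⁻¹)⁻¹ * ((k₁ * h⁻¹) * g * (k₁ * h⁻¹)⁻¹ * (a : Ω) *
        ((k₁ * h⁻¹) * g * (k₁ * h⁻¹)⁻¹)⁻¹) * ((k₁ * h⁻¹) * g * (k₁ * h⁻¹)⁻¹)⁻¹) = 1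
    rw [haa]
    have e : ((k₁ * h⁻¹) * g * (k₁ * h⁻¹)⁻¹ * ((k₁ * h⁻¹) * a₀ * (k₁ * h⁻¹)⁻¹)⁻¹ *
          ((k₁ * h⁻¹) * g * (k₁ * h⁻¹)⁻¹)⁻¹) * ((k₁ * h⁻¹) * a₀ * (k₁ * h⁻¹)⁻¹) *
        ((k₁ * h⁻¹) * g * (k₁ * h⁻¹)⁻¹ * ((k₁ * h⁻¹) * a₀ * (k₁ * h⁻¹)⁻¹)⁻¹ *
          ((k₁ * h⁻¹) * g * (k₁ * h⁻¹)⁻¹)⁻¹) *
        ((k₁ * h⁻¹) * g * (k₁ * h⁻¹)⁻¹ * ((k₁ * h⁻¹) * g * (k₁ * h⁻¹)⁻¹ *
          ((k₁ * h⁻¹) * a₀ * (k₁ * h⁻¹)⁻¹) * ((k₁ * h⁻¹) * g * (k₁ * h⁻¹)⁻¹)⁻¹) *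
          ((k₁ * h⁻¹) * g * (k₁ * h⁻¹)⁻¹)⁻¹) =
        (k₁ * h⁻¹) * ((g * a₀⁻¹ * g⁻¹) * a₀ * (g * a₀⁻¹ * g⁻¹) * (g * (g * a₀ * g⁻¹) * g⁻¹)) *
          (k₁ * h⁻¹)⁻¹ := by group
    rw [e, hq]
    group

end Cfsg.Agent.S5246
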