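import Cfsg.Statements.S5255
import Mathlib
import Cfsg.Agent.Lib.Helper1.FusQuot

set_option autoImplicit false
open Cfsg

open Cfsg.Agent.Lib.Helper1

namespace Cfsg.Agent.S5255

/-- Let F be a saturated fusion system over a finite p-group S and T a subgroup of S strongly closed in F. Then T·C_S(T) is strongly closed in F. -/
theorem result {Ω : Type*} [Group Ω] {S : Subgroup Ω} [Finite S] (p : ℕ) [Fact p.Prime] (hS : IsPGroup p S) (F : Cfsg.FusionSystem S) (hF : F.IsSaturated p) (T : Subgroup Ω) (hT : F.StronglyClosed T) : F.StronglyClosed (T ⊔ Cfsg.FusionSystem.centralizerIn S T) := by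
  have hTS := hT.1
  have hTn : S ≤ Subgroup.normalizer (T : Set Ω) := fs_stronglyClosed_normal F T hT
  refine ⟨sup_le hTS inf_le_left, fun R hR φ hφ x => ?_⟩
  obtain ⟨ψ, hψ, hψT⟩ := fs_extend_mod p hS F hF T hT R φ hφ
  have hx : (x : Ω) ∈ FusionSystem.centralizerIn S T ⊔ T := by rw [sup_comm]; exact hR x.2
  obtain ⟨c, hc, t, ht, hxct⟩ := mem_sup_of_le_normalizer (inf_le_left.trans hTn) hx
  have htRT : t ∈ R ⊔ T := Subgroup.mem_sup_right ht
  have hcRT : c ∈ R ⊔ T := by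
    have e : c = x * t⁻¹ := by rw [hxct]; group
    rw [e]; exact Subgroup.mul_mem _ (Subgroup.mem_sup_left x.2) (Subgroup.inv_mem _ htRT)
  have hψt : ψ ⟨t, htRT⟩ ∈ T := fs_sc_mem F T hT hψ ⟨t, htRT⟩ ht
  have hψc : ψ ⟨c, hcRT⟩ ∈ FusionSystem.centralizerIn S T := by
    refine Subgroup.mem_inf.mpr ⟨(F.le_of_mem hψ).2 _, ?_⟩
    rw [Subgroup.mem_centralizer_iff]
    intro s hs
    obtain ⟨s', hs'T, rfl⟩ := fs_sc_surj F T hT le_sup_right hψ s hs
    rw [← map_mul, ← map_mul]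
    congr 1
    apply Subtype.ext
    exact (Subgroup.mem_centralizer_iff.mp (Subgroup.mem_inf.mp hc).2) _ hs'T
  have e1 : Subgroup.inclusion le_sup_left x = (⟨c, hcRT⟩ : ↥(R ⊔ T)) * ⟨t, htRT⟩ :=
    Subtype.ext hxct
  have e2 : φ x = ψ ⟨c, hcRT⟩ *
      (ψ ⟨t, htRT⟩ * ((φ x)⁻¹ * ψ (Subgroup.inclusion le_sup_left x))⁻¹) := by
    rw [e1, map_mul]; group
  rw [e2]
  exact Subgroup.mul_mem _ (Subgroup.mem_sup_right hψc)
    (Subgroup.mem_sup_left (T.mul_mem hψt (T.inv_mem (hψT x))))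

end Cfsg.Agent.S5255
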