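import Cfsg.Statements.S5294
import Mathlib
import Cfsg.Agent.Lib.Helper1.TraceFactor
import Cfsg.Agent.Lib.Helper1.FusAlpRel
import Cfsg.Agent.Lib.Helper1.FusStab
import Cfsg.Agent.S5076
import Cfsg.Agent.S5084
import Cfsg.Agent.S5106

set_option autoImplicit false
universe u
open Cfsg

open Cfsg.Agent.Lib.Helper1

namespace Cfsg.Agent.S5294

/-- Let F be a saturated fusion system over a finite p-group S whose centre Z(S) lies in the largest subgroup O_p(F) normal in F. Then the centre Z(F) of F is a direct factor of Z(S): there is a subgroup K of Z(S) with Z(F) ∩ K = 1 and Z(F)K = Z(S). -/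
theorem result {Ω : Type u} [Group Ω] {S : Subgroup Ω} [Finite S] (p : ℕ) [Fact p.Prime] (hS : IsPGroup p S)
    (F : Cfsg.FusionSystem S) (hF : F.IsSaturated p) (hZ : (S ⊓ Subgroup.centralizer (S : Set Ω)) ≤ F.core) :
    ∃ K : Subgroup Ω, K ≤ (S ⊓ Subgroup.centralizer (S : Set Ω)) ∧ F.center ⊓ K = ⊥ ∧ F.center ⊔ K = (S ⊓ Subgroup.centralizer (S : Set Ω)) := by
  have hfin : {Q : Subgroup Ω | F.IsCentral Q}.Finite := fs_finite_le.subset (fun Q hQ => hQ.1)
  have hcenC : F.IsCentral F.center := fs_central_sSup F hfin (fun Q hQ => hQ)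
  have hcen := (Cfsg.Agent.S5084.result p hS F hF F.center).mp hcenC
  have hQn : F.IsNormal F.core := fs_core_normal F
  have hQS : F.core ≤ S := hQn.1
  have hsc := fs_normal_stronglyClosed F F.core hQn
  have hQnorm : S ≤ Subgroup.normalizer (F.core : Set Ω) := fs_stronglyClosed_normal F F.core hsc
  have hfnQ := fs_sc_fullyNormalized F F.core hsc
  obtain ⟨-, R, hR⟩ := fs_fullyAutomized_of_fullyNormalized p hS F hF F.core hfnQ
  haveI : Finite ↥F.core := fs_finite_of_le hQS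
  have hfix1 : ∀ (x : F.core), (x : Ω) ∈ F.center → ∀ α ∈ F.autGroup F.core, α x = x := by
    intro x hx α hα
    have hz : Subgroup.zpowers (x : Ω) ≤ F.core := by rw [Subgroup.zpowers_le]; exact x.2
    have hαF := (fs_mem_autGroup_iff F hQS α).mp hα
    have h2 : F.IsConjElt (x : Ω) ((α x : F.core) : Ω) := ⟨_, fs_restrict F hz hαF, rfl⟩
    exact Subtype.ext (hcen.2 _ hx _ h2)
  have hfix2 : ∀ (x : F.core), (∀ α ∈ F.autGroup F.core, α x = x) → (x : Ω) ∈ F.center := by
    intro x hfix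
    have hz : Subgroup.zpowers (x : Ω) ≤ F.core := by rw [Subgroup.zpowers_le]; exact x.2
    have hzfix : ∀ y (hy : y ∈ Subgroup.zpowers (x : Ω)), ∀ α ∈ F.autGroup F.core,
        α ⟨y, hz hy⟩ = ⟨y, hz hy⟩ := by
      intro y hy α hα
      obtain ⟨k, rfl⟩ := Subgroup.mem_zpowers_iff.mp hy
      have e : (⟨(x : Ω) ^ k, hz hy⟩ : F.core) = x ^ k := Subtype.ext (by simp)
      rw [e, map_zpow, hfix α hα]
    have hc : F.IsCentral (Subgroup.zpowers (x : Ω)) := by
      apply Cfsg.Agent.S5084.central_of_no_fusion p hS F hF _ (hz.trans hQS)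
      rintro y hy w ⟨φ, hφ, rfl⟩
      have hz' : Subgroup.zpowers y ≤ F.core := by
        rw [Subgroup.zpowers_le]; exact hz hy
      obtain ⟨α, hα, hαφ⟩ := Cfsg.Agent.S5106.extend_of_normal F F.core hQn _ hz' φ hφ
      rw [← hαφ]
      exact congrArg Subtype.val (hzfix y hy α hα)
    exact (le_sSup hc : Subgroup.zpowers (x : Ω) ≤ F.center) (Subgroup.mem_zpowers _)
  have hZc : (S ⊓ Subgroup.centralizer (S : Set Ω)).subgroupOf F.core ≤
      Subgroup.center ↥F.core := by
    intro z hz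
    rw [Subgroup.mem_center_iff]
    intro g
    apply Subtype.ext
    show (g : Ω) * z = z * g
    exact (Subgroup.mem_centralizer_iff.mp
      (Subgroup.mem_inf.mp (Subgroup.mem_subgroupOf.mp hz)).2) g (hQS g.2)
  have hU : ∀ u ∈ (R : Subgroup ↥(F.autGroup F.core)),
      ∀ z ∈ (S ⊓ Subgroup.centralizer (S : Set Ω)).subgroupOf F.core,
        (u : MulAut ↥F.core) z = z := by
    intro u hu z hz
    rw [hR, Subgroup.mem_subgroupOf, Cfsg.Agent.S5076.autInducedBy_eq_map] at hu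
    obtain ⟨n, hn, hnu⟩ := hu
    rw [← hnu]
    apply Subtype.ext
    show (n : Ω) * z * (n : Ω)⁻¹ = z
    have hzc := (Subgroup.mem_centralizer_iff.mp
      (Subgroup.mem_inf.mp (Subgroup.mem_subgroupOf.mp hz)).2) n (Subgroup.mem_subgroupOf.mp hn)
    rw [hzc]; group
  have hZq : ∀ z ∈ Subgroup.center ↥F.core,
      (∀ u ∈ (R : Subgroup ↥(F.autGroup F.core)), (u : MulAut ↥F.core) z = z) →
        z ∈ (S ⊓ Subgroup.centralizer (S : Set Ω)).subgroupOf F.core := by
    intro z hzc hfix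
    rw [Subgroup.mem_subgroupOf]
    refine Subgroup.mem_inf.mpr ⟨hQS z.2, ?_⟩
    rw [Subgroup.mem_centralizer_iff]
    intro s hs
    have hsN := hQnorm hs
    have hcA : F.core.normalizerMonoidHom ⟨s, hsN⟩ ∈ F.autGroup F.core :=
      fs_nmh_mem_autGroup F hQS ⟨s, hsN⟩ hs
    have hcR : (⟨_, hcA⟩ : F.autGroup F.core) ∈ (R : Subgroup ↥(F.autGroup F.core)) := by
      rw [hR, Subgroup.mem_subgroupOf]
      exact Subgroup.subset_closure ⟨s, hs, fun x => rfl⟩
    have h := hfix _ hcR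
    have h' : s * (z : Ω) * s⁻¹ = z := congrArg Subtype.val h
    calc s * (z : Ω) = (s * z * s⁻¹) * s := by group
      _ = z * s := by rw [h']
  have hcop : (Nat.card ↥((S ⊓ Subgroup.centralizer (S : Set Ω)).subgroupOf F.core)).Coprime
      (R : Subgroup ↥(F.autGroup F.core)).index := by
    obtain ⟨k, hk⟩ := IsPGroup.iff_card.mp ((hS.to_le hQS).to_subgroup
      ((S ⊓ Subgroup.centralizer (S : Set Ω)).subgroupOf F.core))
    rw [hk]
    exact Nat.Coprime.pow_left k ((Nat.Prime.coprime_iff_not_dvd Fact.out).mpr R.not_dvd_index)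
  obtain ⟨K₀, hK₀Z, hK₀1, hK₀2⟩ := trace_direct_factor (F.autGroup F.core)
    (R : Subgroup ↥(F.autGroup F.core)) _ hZc hU hZq hcop
  refine ⟨K₀.map F.core.subtype, ?_, ?_, ?_⟩
  · rintro _ ⟨k, hk, rfl⟩; exact Subgroup.mem_subgroupOf.mp (hK₀Z hk)
  · rw [eq_bot_iff]
    rintro y ⟨hyc, k, hk, rfl⟩
    rw [Subgroup.mem_bot]
    have h1 := hK₀1 k hk (hfix1 k hyc)
    rw [h1]; rfl
  · apply le_antisymm
    · apply sup_le
      · intro x hx
        refine Subgroup.mem_inf.mpr ⟨hcen.1 hx, ?_⟩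
        rw [Subgroup.mem_centralizer_iff]
        intro s hs
        have hz : Subgroup.zpowers x ≤ S := by
          rw [Subgroup.zpowers_le]; exact hcen.1 hx
        have h2 : F.IsConjElt x (s * x * s⁻¹) := ⟨_, F.conj_mem hz hs, rfl⟩
        have h3 := hcen.2 x hx _ h2
        calc s * x = (s * x * s⁻¹) * s := by group
          _ = x * s := by rw [h3]
      · rintro _ ⟨k, hk, rfl⟩; exact Subgroup.mem_subgroupOf.mp (hK₀Z hk)
    · intro z hz
      have hzQ : z ∈ F.core := hZ hz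
      obtain ⟨w, hw, k, hk, hwfix, hzwk⟩ := hK₀2 ⟨z, hzQ⟩ (Subgroup.mem_subgroupOf.mpr hz)
      have e : z = (w : Ω) * (k : Ω) := congrArg Subtype.val hzwk
      rw [e]
      exact Subgroup.mul_mem_sup (hfix2 w hwfix) ⟨k, hk, rfl⟩

end Cfsg.Agent.S5294
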