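import Cfsg.Statements.S5297
import Cfsg.Agent.Lib.Helper1.FusStab
import Cfsg.Agent.Lib.Helper1.FusBasic2
import Cfsg.Agent.Lib.Helper1.FusCoprime
import Cfsg.Agent.Lib.Helper1.FusCrit
import Cfsg.Agent.Lib.Helper1.FusFoc
import Cfsg.Agent.Lib.Helper1.FusNormal
import Cfsg.Agent.S5080

set_option autoImplicit false
universe u
open Cfsg

open Cfsg.Agent.Lib.Helper1

namespace Cfsg.Agent.S5297

/-- restriction of an automorphism to an invariant subgroup -/
def resAut {Γ : Type*} [Group Γ] (P : Subgroup Γ) (β : MulAut Γ) (h1 : ∀ x ∈ P, β x ∈ P)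
    (h2 : ∀ x ∈ P, β⁻¹ x ∈ P) : MulAut P where
  toFun x := ⟨β x, h1 x x.2⟩
  invFun x := ⟨β⁻¹ x, h2 x x.2⟩
  left_inv x := by
    apply Subtype.ext
    show β⁻¹ (β (x : Γ)) = x
    exact MulEquiv.symm_apply_apply β _
  right_inv x := by
    apply Subtype.ext
    show β (β⁻¹ (x : Γ)) = x
    exact MulEquiv.apply_symm_apply β _
  map_mul' x y := by
    apply Subtype.ext
    show β ((x : Γ) * (y : Γ)) = β x * β y
    exact map_mul β _ _

theorem resAut_pow {Γ : Type*} [Group Γ] (P : Subgroup Γ) (β : MulAut Γ)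
    (h1 : ∀ x ∈ P, β x ∈ P) (h2 : ∀ x ∈ P, β⁻¹ x ∈ P) (m : ℕ) :
    ∀ x : P, (((resAut P β h1 h2 ^ m) x : P) : Γ) = (β ^ m) (x : Γ) := by
  induction m with
  | zero => intro x; rfl
  | succ m ih =>
    intro x
    rw [pow_succ, MulAut.mul_apply, ih, pow_succ, MulAut.mul_apply]
    rfl

theorem ord_p_or_4 {Γ : Type*} [Group Γ] (p : ℕ) [Fact p.Prime] (g : Γ) (hg1 : g ≠ 1)
    (hge : g ^ (if p = 2 then 4 else p) = 1) : orderOf g = p ∨ orderOf g = 4 := by
  by_cases h2 : p = 2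
  · rw [if_pos h2] at hge
    have hdvd : orderOf g ∣ 4 := orderOf_dvd_of_pow_eq_one hge
    have hne1 : orderOf g ≠ 1 := fun h1 => hg1 (orderOf_eq_one_iff.mp h1)
    have hle : orderOf g ≤ 4 := Nat.le_of_dvd (by norm_num) hdvd
    have h3 : orderOf g ≠ 3 := by
      intro h3; rw [h3] at hdvd; norm_num at hdvd
    have h0 : orderOf g ≠ 0 := by
      intro h0; rw [h0] at hdvd; norm_num at hdvd
    have hcases : orderOf g = 2 ∨ orderOf g = 4 := by omega
    rcases hcases with h' | h'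
    · left; rw [h', h2]
    · right; exact h'
  · rw [if_neg h2] at hge
    left; exact orderOf_eq_prime hge hg1

/-- a map inducing an automorphism of `S` preserves the upper central series of `S` -/
theorem ucs_map {Ω : Type*} [Group Ω] {S : Subgroup Ω} (T : Subgroup Ω) (hST : S ≤ T)
    (ψ : T →* Ω) (hmap : (S.subgroupOf T).map ψ = S) :
    ∀ i : ℕ, ∀ (z : Ω) (hz : z ∈ S), (⟨z, hz⟩ : S) ∈ Subgroup.upperCentralSeries S i →
      ∀ hz' : ψ ⟨z, hST hz⟩ ∈ S,
        (⟨ψ ⟨z, hST hz⟩, hz'⟩ : S) ∈ Subgroup.upperCentralSeries S i := by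
  intro i
  induction i with
  | zero =>
    intro z hz h0 hz'
    rw [Subgroup.upperCentralSeries_zero, Subgroup.mem_bot] at h0 ⊢
    have hz1 : z = 1 := congrArg (fun w : S => (w : Ω)) h0
    apply Subtype.ext
    show ψ ⟨z, hST hz⟩ = 1
    have hT1 : (⟨z, hST hz⟩ : T) = 1 := Subtype.ext hz1
    rw [hT1, map_one]
  | succ i ih =>
    intro z hz hsucc hz'
    rw [Subgroup.mem_upperCentralSeries_succ_iff] at hsucc ⊢
    intro y
    have hy : (y : Ω) ∈ (S.subgroupOf T).map ψ := by rw [hmap]; exact y.2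
    obtain ⟨w, hw, hwy⟩ := hy
    have hwS : (w : Ω) ∈ S := Subgroup.mem_subgroupOf.mp hw
    have h1 := hsucc ⟨(w : Ω), hwS⟩
    have hmemS : z * (w : Ω) * z⁻¹ * (w : Ω)⁻¹ ∈ S :=
      S.mul_mem (S.mul_mem (S.mul_mem hz hwS) (S.inv_mem hz)) (S.inv_mem hwS)
    have h2 : (⟨z * (w : Ω) * z⁻¹ * (w : Ω)⁻¹, hmemS⟩ : S) ∈ Subgroup.upperCentralSeries S i :=
      h1
    have hT : (⟨z * (w : Ω) * z⁻¹ * (w : Ω)⁻¹, hST hmemS⟩ : T) =
        ⟨z, hST hz⟩ * w * (⟨z, hST hz⟩ : T)⁻¹ * w⁻¹ := rfl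
    have hψ : ψ ⟨z * (w : Ω) * z⁻¹ * (w : Ω)⁻¹, hST hmemS⟩ =
        ψ ⟨z, hST hz⟩ * (y : Ω) * (ψ ⟨z, hST hz⟩)⁻¹ * (y : Ω)⁻¹ := by
      rw [hT, map_mul, map_mul, map_mul, map_inv, map_inv, hwy]
    have hmem3 : ψ ⟨z * (w : Ω) * z⁻¹ * (w : Ω)⁻¹, hST hmemS⟩ ∈ S := by
      rw [hψ]
      exact S.mul_mem (S.mul_mem (S.mul_mem hz' y.2) (S.inv_mem hz')) (S.inv_mem y.2)
    have h3 := ih _ hmemS h2 hmem3
    have e : (⟨ψ ⟨z, hST hz⟩, hz'⟩ : S) * y * (⟨ψ ⟨z, hST hz⟩, hz'⟩ : S)⁻¹ * y⁻¹ =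
        ⟨ψ ⟨z * (w : Ω) * z⁻¹ * (w : Ω)⁻¹, hST hmemS⟩, hmem3⟩ := Subtype.ext hψ.symm
    rw [← e] at h3
    exact h3


/-- Let F be a saturated fusion system over a finite p-group S. If every map of F between cyclic subgroups of the hyperfocal subgroup of F of order p or 4 is a map of the normalizer system of S (it extends to a map of F defined on all of S), then S is normal in F. -/
theorem result {Ω : Type u} [Group Ω] {S : Subgroup Ω} [Finite S] (p : ℕ) [Fact p.Prime] (hS : IsPGroup p S)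
    (F : Cfsg.FusionSystem S) (hF : F.IsSaturated p)
    (h : ∀ A B : Subgroup Ω, A ≤ (F.hyperfocalSubgroup p) → B ≤ (F.hyperfocalSubgroup p) → IsCyclic ↥A → (Nat.card ↥A = p ∨ Nat.card ↥A = 4) → IsCyclic ↥B → (Nat.card ↥B = p ∨ Nat.card ↥B = 4) →
      F.homSet A B ⊆ F.normalizerHom S A) :
    F.IsNormal S := by
  have hp : p.Prime := Fact.out
  apply fs_normal_of_alperin p hS F hF S
  intro E hE
  have hES : E ≤ S := by
    rcases hE with rfl | hess
    · exact le_rfl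
    · exact hess.1.1
  have hSE : S ≤ E := by
    rcases hE with rfl | hess
    · exact le_rfl
    have hCE := hess.1.2 E (fs_isConj_refl F hES)
    have hrad := Cfsg.Agent.S5080.result p hS F hF E hess
    have hfa : F.IsFullyAutomized p E :=
      fs_fullyAutomized_of_top_or_essential p hS F hF E (Or.inr hess)
    haveI : Finite E := fs_finite_of_le hES
    have hEp : IsPGroup p E := hS.to_le hES
    have toS : ∀ x : E, (x : Ω) ∈ S := fun x => hES x.2
    obtain ⟨P₀, hP₀def⟩ : ∃ P₀ : Subgroup E, P₀ = Subgroup.closure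
        {y : E | ∃ γ : F.autGroup E, γ ∈ Cfsg.pResidual p (F.autGroup E) ∧
          ∃ x : E, y = x⁻¹ * (γ : MulAut E) x} := ⟨_, rfl⟩
    have hP₀gen : ∀ γ : F.autGroup E, γ ∈ Cfsg.pResidual p (F.autGroup E) →
        ∀ x : E, x⁻¹ * (γ : MulAut E) x ∈ P₀ := by
      intro γ hγ x
      rw [hP₀def]; exact Subgroup.subset_closure ⟨γ, hγ, x, rfl⟩
    have hP₀hyp : ∀ y ∈ P₀, (y : Ω) ∈ F.hyperfocalSubgroup p := by
      intro y hy
      have hle : P₀ ≤ (F.hyperfocalSubgroup p).subgroupOf E := by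
        rw [hP₀def, Subgroup.closure_le]
        rintro _ ⟨γ, hγ, x, rfl⟩
        exact Subgroup.mem_subgroupOf.mpr (Subgroup.subset_closure ⟨E, γ, x, hES, hγ, rfl⟩)
      exact Subgroup.mem_subgroupOf.mp (hle hy)
    have hP₀inv : ∀ a ∈ F.autGroup E, ∀ y ∈ P₀, a y ∈ P₀ := by
      intro a ha y hy
      have hle : P₀ ≤ P₀.comap a.toMonoidHom := by
        conv_lhs => rw [hP₀def]
        rw [Subgroup.closure_le]
        rintro _ ⟨γ, hγ, x, rfl⟩
        show a (x⁻¹ * (γ : MulAut E) x) ∈ P₀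
        have hγ' : (MulAut.conj (⟨a, ha⟩ : F.autGroup E)).toMonoidHom γ ∈
            Cfsg.pResidual p (F.autGroup E) := pResidual_map_le p _ ⟨γ, hγ, rfl⟩
        have h1 := hP₀gen _ hγ' (a x)
        have e : (a x)⁻¹ * (((MulAut.conj (⟨a, ha⟩ : F.autGroup E)).toMonoidHom γ :
            F.autGroup E) : MulAut E) (a x) = a (x⁻¹ * (γ : MulAut E) x) := by
          show (a x)⁻¹ * (a ((γ : MulAut E) (a⁻¹ (a x)))) = _
          have e2 : a⁻¹ (a x) = x := MulEquiv.symm_apply_apply a x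
          rw [e2, map_mul, map_inv]
        rw [← e]; exact h1
      exact hle hy
    have hinvA : ∀ a ∈ F.autGroup E, ∀ y ∈ P₀, a⁻¹ y ∈ P₀ :=
      fun a ha => hP₀inv a⁻¹ (inv_mem ha)
    have hP₀p : IsPGroup p P₀ := hEp.to_subgroup P₀
    obtain ⟨U₀, hU₀char, hU₀exp, hU₀faith⟩ := crit_exists p hP₀p
    obtain ⟨U, hUdef⟩ : ∃ U : Subgroup E, U = U₀.map P₀.subtype := ⟨_, rfl⟩
    have hUP₀ : ∀ x ∈ U, x ∈ P₀ := by
      intro x hx
      rw [hUdef] at hx
      obtain ⟨u, _, rfl⟩ := hx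
      exact u.2
    have hUmem : ∀ u : P₀, (u : E) ∈ U ↔ u ∈ U₀ := by
      intro u
      rw [hUdef]
      constructor
      · rintro ⟨v, hv, hvu⟩
        have hvu' : v = u := Subtype.ext hvu
        rw [← hvu']; exact hv
      · intro hu; exact ⟨u, hu, rfl⟩
    have hUinv : ∀ a ∈ F.autGroup E, ∀ x ∈ U, a x ∈ U := by
      intro a ha x hx
      have hxP := hUP₀ x hx
      have hu : (⟨x, hxP⟩ : P₀) ∈ U₀ := (hUmem ⟨x, hxP⟩).mp hx
      have h1 := (Subgroup.characteristic_iff_le_comap.mp hU₀char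
        (resAut P₀ a (hP₀inv a ha) (hinvA a ha))) hu
      exact (hUmem _).mpr h1
    have hUexp : ∀ x ∈ U, x ^ (if p = 2 then 4 else p) = 1 := by
      intro x hx
      have hxP := hUP₀ x hx
      have hu : (⟨x, hxP⟩ : P₀) ∈ U₀ := (hUmem ⟨x, hxP⟩).mp hx
      have h1 := hU₀exp _ hu
      have h2 : ((⟨x, hxP⟩ : P₀) : E) ^ (if p = 2 then 4 else p) = 1 := by
        rw [← Subgroup.coe_pow, h1]; rfl
      exact h2
    have hUhyp : ∀ x ∈ U, (x : Ω) ∈ F.hyperfocalSubgroup p :=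
      fun x hx => hP₀hyp x (hUP₀ x hx)
    have hcopres : ∀ (a : MulAut E) (ha : a ∈ F.autGroup E) (m : ℕ), Nat.Coprime m p →
        a ^ m = 1 → (⟨a, ha⟩ : F.autGroup E) ∈ Cfsg.pResidual p (F.autGroup E) := by
      intro a ha m hm ham
      apply Subgroup.subset_closure
      show Nat.Coprime (orderOf (⟨a, ha⟩ : F.autGroup E)) p
      have hdvd : orderOf (⟨a, ha⟩ : F.autGroup E) ∣ m :=
        orderOf_dvd_of_pow_eq_one (Subtype.ext (by simpa using ham))
      exact Nat.Coprime.coprime_dvd_left hdvd hm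
    have hUfaith : ∀ a ∈ F.autGroup E, ∀ m : ℕ, Nat.Coprime m p → a ^ m = 1 →
        (∀ x ∈ U, a x = x) → a = 1 := by
      intro a ha m hm ham hfix
      have hρ : resAut P₀ a (hP₀inv a ha) (hinvA a ha) = 1 := by
        apply hU₀faith _ m hm
        · apply MulEquiv.ext
          intro y
          apply Subtype.ext
          rw [resAut_pow, ham]
          rfl
        · intro u hu
          apply Subtype.ext
          exact hfix _ ((hUmem u).mpr hu)
      have hP₀fix : ∀ y ∈ P₀, a y = y := by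
        intro y hy
        have h1 := congrArg (fun ρ : MulAut P₀ => ((ρ ⟨y, hy⟩ : P₀) : E)) hρ
        exact h1
      apply MulEquiv.ext
      intro x
      obtain ⟨k, hk⟩ := hEp (x⁻¹ * a x)
      exact cop_fix_of_comm p a m hm ham x k hk
        (hP₀fix _ (hP₀gen ⟨a, ha⟩ (hcopres a ha m hm ham) x))
    -- the chain induced by the upper central series of `S`
    obtain ⟨L, hLdef⟩ : ∃ L : ℕ → Subgroup E, L = fun i =>
        ((Subgroup.upperCentralSeries S i).map S.subtype).subgroupOf E := ⟨_, rfl⟩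
    have hLmem : ∀ (i : ℕ) (x : E), x ∈ L i ↔
        (⟨(x : Ω), toS x⟩ : S) ∈ Subgroup.upperCentralSeries S i := by
      intro i x
      rw [hLdef]
      show (x : Ω) ∈ (Subgroup.upperCentralSeries S i).map S.subtype ↔ _
      constructor
      · rintro ⟨z, hz, hzx⟩
        have hzx' : z = ⟨(x : Ω), toS x⟩ := Subtype.ext hzx
        rw [← hzx']; exact hz
      · intro hx; exact ⟨_, hx, rfl⟩
    have hLmono : ∀ i, L i ≤ L (i + 1) := by
      intro i x hx
      rw [hLmem] at hx ⊢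
      exact Subgroup.upperCentralSeries_mono S (Nat.le_succ i) hx
    have hVmono : ∀ i, U ⊓ L i ≤ U ⊓ L (i + 1) := fun i => inf_le_inf_left _ (hLmono i)
    -- elements of order prime to `p` preserve the chain
    have hstep1 : ∀ γ : F.autGroup E, Nat.Coprime (orderOf γ) p → ∀ i, ∀ x ∈ U ⊓ L i,
        (γ : MulAut E) x ∈ L i := by
      intro γ hγ i x hx
      obtain ⟨hxU, hxL⟩ := Subgroup.mem_inf.mp hx
      obtain ⟨a, ha⟩ := γ
      show a x ∈ L i
      by_cases hx1 : x = 1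
      · rw [hx1, map_one]; exact Subgroup.one_mem _
      have hαF : E.subtype.comp a.toMonoidHom ∈ F.Hom E := (fs_mem_autGroup_iff F hES a).mp ha
      have haxU : a x ∈ U := hUinv a ha x hxU
      have hordx : orderOf (x : Ω) = p ∨ orderOf (x : Ω) = 4 := by
        rw [Subgroup.orderOf_coe]; exact ord_p_or_4 p x hx1 (hUexp x hxU)
      have hordα : orderOf ((a x : E) : Ω) = orderOf (x : Ω) := by
        rw [Subgroup.orderOf_coe, Subgroup.orderOf_coe]
        exact MulEquiv.orderOf_eq a x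
      have hA : Subgroup.zpowers (x : Ω) ≤ F.hyperfocalSubgroup p :=
        (Subgroup.zpowers_le).mpr (hUhyp x hxU)
      have hB : Subgroup.zpowers ((a x : E) : Ω) ≤ F.hyperfocalSubgroup p :=
        (Subgroup.zpowers_le).mpr (hUhyp _ haxU)
      have hAE : Subgroup.zpowers (x : Ω) ≤ E := (Subgroup.zpowers_le).mpr x.2
      have hcA : Nat.card (Subgroup.zpowers (x : Ω)) = p ∨
          Nat.card (Subgroup.zpowers (x : Ω)) = 4 := by
        rw [Nat.card_zpowers]; exact hordx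
      have hcB : Nat.card (Subgroup.zpowers ((a x : E) : Ω)) = p ∨
          Nat.card (Subgroup.zpowers ((a x : E) : Ω)) = 4 := by
        rw [Nat.card_zpowers, hordα]; exact hordx
      have hφ : (E.subtype.comp a.toMonoidHom).comp (Subgroup.inclusion hAE) ∈
          F.homSet (Subgroup.zpowers (x : Ω)) (Subgroup.zpowers ((a x : E) : Ω)) := by
        refine ⟨fs_restrict F hAE hαF, ?_⟩
        intro y
        obtain ⟨k, hk⟩ := Subgroup.mem_zpowers_iff.mp y.2
        have hy : Subgroup.inclusion hAE y = x ^ k := by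
          apply Subtype.ext
          rw [Subgroup.coe_inclusion, Subgroup.coe_zpow]
          exact hk.symm
        show ((a (Subgroup.inclusion hAE y) : E) : Ω) ∈ _
        rw [hy, map_zpow, Subgroup.coe_zpow]
        exact Subgroup.zpow_mem_zpowers _ k
      obtain ⟨-, -, -, ψ, hψ, hext, hmap⟩ := h _ _ hA hB (Subgroup.isCyclic_zpowers _) hcA
        (Subgroup.isCyclic_zpowers _) hcB hφ
      have hψx : ψ ⟨(x : Ω), (le_sup_right : S ≤ Subgroup.zpowers (x : Ω) ⊔ S) (toS x)⟩ =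
          ((a x : E) : Ω) := hext ⟨(x : Ω), Subgroup.mem_zpowers _⟩
      have hz' : ψ ⟨(x : Ω), (le_sup_right : S ≤ Subgroup.zpowers (x : Ω) ⊔ S) (toS x)⟩ ∈ S := by
        rw [hψx]; exact toS (a x)
      have h2 := ucs_map _ le_sup_right ψ hmap i (x : Ω) (toS x) ((hLmem i x).mp hxL) hz'
      rw [hLmem]
      have e : (⟨((a x : E) : Ω), toS (a x)⟩ : S) =
          ⟨ψ ⟨(x : Ω), (le_sup_right : S ≤ Subgroup.zpowers (x : Ω) ⊔ S) (toS x)⟩, hz'⟩ :=
        Subtype.ext hψx.symm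
      rw [e]; exact h2
    -- hence all of `Aut_F(E)` preserves the chain
    have hINV : ∀ a ∈ F.autGroup E, ∀ i, ∀ x ∈ U ⊓ L i, a x ∈ U ⊓ L i := by
      obtain ⟨Kinv, hKinv⟩ : ∃ Kinv : Subgroup (MulAut E), ∀ a, a ∈ Kinv ↔
          (a ∈ F.autGroup E ∧ ∀ i, ∀ x ∈ U ⊓ L i, a x ∈ L i ∧ a⁻¹ x ∈ L i) :=
        ⟨{ carrier := {a | a ∈ F.autGroup E ∧ ∀ i, ∀ x ∈ U ⊓ L i, a x ∈ L i ∧ a⁻¹ x ∈ L i}
           one_mem' := ⟨Subgroup.one_mem _, fun i x hx =>
             ⟨(Subgroup.mem_inf.mp hx).2, (Subgroup.mem_inf.mp hx).2⟩⟩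
           mul_mem' := by
             rintro a b ⟨ha, ha'⟩ ⟨hb, hb'⟩
             refine ⟨Subgroup.mul_mem _ ha hb, fun i x hx => ⟨?_, ?_⟩⟩
             · have hbx : b x ∈ U ⊓ L i :=
                 Subgroup.mem_inf.mpr ⟨hUinv b hb x (Subgroup.mem_inf.mp hx).1, (hb' i x hx).1⟩
               exact (ha' i _ hbx).1
             · have hax : a⁻¹ x ∈ U ⊓ L i :=
                 Subgroup.mem_inf.mpr ⟨hUinv a⁻¹ (inv_mem ha) x (Subgroup.mem_inf.mp hx).1,
                   (ha' i x hx).2⟩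
               rw [mul_inv_rev]
               exact (hb' i _ hax).2
           inv_mem' := by
             rintro a ⟨ha, ha'⟩
             refine ⟨inv_mem ha, fun i x hx => ⟨(ha' i x hx).2, ?_⟩⟩
             rw [inv_inv]; exact (ha' i x hx).1 }, fun a => Iff.rfl⟩
      have hres : Cfsg.pResidual p (F.autGroup E) ≤ Kinv.comap (F.autGroup E).subtype := by
        unfold Cfsg.pResidual
        rw [Subgroup.closure_le]
        intro γ hγ
        have hγ' : Nat.Coprime (orderOf γ) p := hγ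
        show (γ : MulAut E) ∈ Kinv
        rw [hKinv]
        refine ⟨γ.2, fun i x hx => ⟨hstep1 γ hγ' i x hx, ?_⟩⟩
        have hinv' : Nat.Coprime (orderOf γ⁻¹) p := by rw [orderOf_inv]; exact hγ'
        exact hstep1 γ⁻¹ hinv' i x hx
      have hconj : ∀ (g : Ω) (hg : g ∈ Subgroup.normalizer (E : Set Ω)), g ∈ S →
          E.normalizerMonoidHom ⟨g, hg⟩ ∈ Kinv := by
        intro g hg hgS
        rw [hKinv]
        refine ⟨fs_nmh_mem_autGroup F hES ⟨g, hg⟩ hgS, fun i x hx => ?_⟩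
        obtain ⟨hxU, hxL⟩ := Subgroup.mem_inf.mp hx
        have hxZ := (hLmem i x).mp hxL
        have hnorm : (Subgroup.upperCentralSeries S i).Normal := inferInstance
        constructor
        · rw [hLmem]
          have h1 := hnorm.conj_mem _ hxZ ⟨g, hgS⟩
          have e : (⟨((E.normalizerMonoidHom ⟨g, hg⟩ x : E) : Ω), toS _⟩ : S) =
              ⟨g, hgS⟩ * ⟨(x : Ω), toS x⟩ * (⟨g, hgS⟩ : S)⁻¹ := Subtype.ext rfl
          rw [e]; exact h1
        · rw [hLmem]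
          have h1 := hnorm.conj_mem _ hxZ (⟨g, hgS⟩ : S)⁻¹
          have e : (⟨(((E.normalizerMonoidHom ⟨g, hg⟩)⁻¹ x : E) : Ω), toS _⟩ : S) =
              (⟨g, hgS⟩ : S)⁻¹ * ⟨(x : Ω), toS x⟩ * ((⟨g, hgS⟩ : S)⁻¹)⁻¹ := by
            apply Subtype.ext
            rw [nmh_inv_apply]
            simp
          rw [e]; exact h1
      intro a ha i x hx
      obtain ⟨r, hr, g, hgS, hg, hrg⟩ := fs_aut_decomp p F E hfa a ha
      have h1 : (r : MulAut E) ∈ Kinv := hres hr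
      have h2 := hconj g hg hgS
      have h3 : a ∈ Kinv := by rw [hrg]; exact Kinv.mul_mem h1 h2
      rw [hKinv] at h3
      exact Subgroup.mem_inf.mpr ⟨hUinv a ha x (Subgroup.mem_inf.mp hx).1, (h3.2 i x hx).1⟩
    apply fs_le_of_normal_pgroup p hS F S le_rfl Subgroup.le_normalizer E hCE hrad
      (F.autGroup E ⊓ ⨅ i : ℕ, stabSub (U ⊓ L i) (U ⊓ L (i + 1)) (hVmono i))
    · exact inf_le_left
    · constructor
      intro w hw a
      rw [Subgroup.mem_subgroupOf] at hw ⊢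
      obtain ⟨hw1, hw2⟩ := Subgroup.mem_inf.mp hw
      refine Subgroup.mem_inf.mpr ⟨(a * w * a⁻¹).2, ?_⟩
      rw [Subgroup.mem_iInf] at hw2 ⊢
      intro i
      exact stabSub_conj _ _ _ (a : MulAut E) (hINV a a.2 i)
        (fun x hx => hINV _ (inv_mem a.2) (i + 1) x hx) (hw2 i)
    · apply isPGroup_of_forall_pow
      intro α hα
      obtain ⟨hα1, hα2⟩ := Subgroup.mem_inf.mp hα
      have hn : 0 < orderOf α := orderOf_pos_iff.mpr (isOfFinOrder_of_finite α)
      obtain ⟨a, m, hm, hnm⟩ := Nat.exists_eq_pow_mul_and_not_dvd hn.ne' p hp.ne_one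
      refine ⟨a, ?_⟩
      have hcop : Nat.Coprime m p := ((Nat.Prime.coprime_iff_not_dvd hp).mpr hm).symm
      obtain ⟨β, hβdef⟩ : ∃ β : MulAut E, β = α ^ (p ^ a) := ⟨_, rfl⟩
      rw [← hβdef]
      have hβm : β ^ m = 1 := by rw [hβdef, ← pow_mul, ← hnm]; exact pow_orderOf_eq_one α
      have hβA : β ∈ F.autGroup E := by rw [hβdef]; exact pow_mem hα1 _
      have hβK : β ∈ ⨅ i : ℕ, stabSub (U ⊓ L i) (U ⊓ L (i + 1)) (hVmono i) := by
        rw [hβdef]; exact pow_mem hα2 _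
      rw [Subgroup.mem_iInf] at hβK
      apply hUfaith β hβA m hcop hβm
      have hchain : ∀ i : ℕ, ∀ x ∈ U ⊓ L i, β x = x := by
        intro i
        induction i with
        | zero =>
          intro x hx
          have hxL := (hLmem 0 x).mp (Subgroup.mem_inf.mp hx).2
          rw [Subgroup.upperCentralSeries_zero, Subgroup.mem_bot] at hxL
          have hv : (x : Ω) = 1 := congrArg (fun z : S => (z : Ω)) hxL
          have hx1 : x = 1 := Subtype.ext hv
          rw [hx1, map_one]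
        | succ i ihi =>
          intro x hx
          have hc := ((hβK i) x hx).1
          obtain ⟨k, hk⟩ := hEp (x⁻¹ * β x)
          exact cop_fix_of_comm p β m hcop hβm x k hk (ihi _ hc)
      haveI : Group.IsNilpotent S := hS.isNilpotent
      obtain ⟨c, hc⟩ := Group.IsNilpotent.nilpotent S
      intro x hx
      apply hchain c
      refine Subgroup.mem_inf.mpr ⟨hx, ?_⟩
      rw [hLmem, hc]; exact Subgroup.mem_top _
    · intro n hn hnS
      have hnA := fs_nmh_mem_autGroup F hES ⟨n, hn⟩ hnS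
      refine Subgroup.mem_inf.mpr ⟨hnA, ?_⟩
      rw [Subgroup.mem_iInf]
      intro i x hx
      obtain ⟨hxU, hxL⟩ := Subgroup.mem_inf.mp hx
      have hxZ := (hLmem (i + 1) x).mp hxL
      constructor
      · refine Subgroup.mem_inf.mpr ⟨U.mul_mem (U.inv_mem hxU) (hUinv _ hnA x hxU), ?_⟩
        rw [hLmem]
        have h1 := Subgroup.mem_upperCentralSeries_succ_iff.mp (Subgroup.inv_mem _ hxZ) ⟨n, hnS⟩
        have e : (⟨((x⁻¹ * E.normalizerMonoidHom ⟨n, hn⟩ x : E) : Ω), toS _⟩ : S) =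
            (⟨(x : Ω), toS x⟩ : S)⁻¹ * ⟨n, hnS⟩ * ((⟨(x : Ω), toS x⟩ : S)⁻¹)⁻¹ *
              (⟨n, hnS⟩ : S)⁻¹ := by
          apply Subtype.ext
          show (x : Ω)⁻¹ * (n * (x : Ω) * n⁻¹) = (x : Ω)⁻¹ * n * ((x : Ω)⁻¹)⁻¹ * n⁻¹
          group
        rw [e]; exact h1
      · refine Subgroup.mem_inf.mpr
          ⟨U.mul_mem (U.inv_mem hxU) (hUinv _ (inv_mem hnA) x hxU), ?_⟩
        rw [hLmem]
        have h1 := Subgroup.mem_upperCentralSeries_succ_iff.mp (Subgroup.inv_mem _ hxZ)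
          (⟨n, hnS⟩ : S)⁻¹
        have e : (⟨((x⁻¹ * (E.normalizerMonoidHom ⟨n, hn⟩)⁻¹ x : E) : Ω), toS _⟩ : S) =
            (⟨(x : Ω), toS x⟩ : S)⁻¹ * (⟨n, hnS⟩ : S)⁻¹ * ((⟨(x : Ω), toS x⟩ : S)⁻¹)⁻¹ *
              ((⟨n, hnS⟩ : S)⁻¹)⁻¹ := by
          apply Subtype.ext
          have e1 : (((x⁻¹ * (E.normalizerMonoidHom ⟨n, hn⟩)⁻¹ x : E)) : Ω) =
              (x : Ω)⁻¹ * (n⁻¹ * (x : Ω) * n) := by
            rw [Subgroup.coe_mul, nmh_inv_apply]; rfl
          rw [e1]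
          show (x : Ω)⁻¹ * (n⁻¹ * (x : Ω) * n) = (x : Ω)⁻¹ * n⁻¹ * ((x : Ω)⁻¹)⁻¹ * (n⁻¹)⁻¹
          group
        rw [e]; exact h1
  refine ⟨hSE, fun α hα => ?_⟩
  have htop : S.subgroupOf E = ⊤ := Subgroup.subgroupOf_eq_top.mpr hES
  rw [htop]
  exact Subgroup.map_top_of_surjective _ α.surjective

end Cfsg.Agent.S5297
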