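import Cfsg.Statements.S5298
import Cfsg.Agent.Lib.Helper1.FusStab
import Cfsg.Agent.Lib.Helper1.FusBasic2
import Cfsg.Agent.Lib.Helper1.FusCoprime
import Cfsg.Agent.Lib.Helper1.FusCoprime2
import Cfsg.Agent.S5083

set_option autoImplicit false
universe u
open Cfsg

open Cfsg.Agent.Lib.Helper1

namespace Cfsg.Agent.S5298

/-- automorphisms of order prime to `p` in the system are trivial -/
theorem key {Ω : Type*} [Group Ω] {S : Subgroup Ω} [Finite S] (p : ℕ) [Fact p.Prime]
    (hS : IsPGroup p S) (F : Cfsg.FusionSystem S)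
    (h : ∀ A B : Subgroup Ω, A ≤ (F.hyperfocalSubgroup p) → B ≤ (F.hyperfocalSubgroup p) →
      IsCyclic ↥A → (Nat.card ↥A = p ∨ Nat.card ↥A = 4) → IsCyclic ↥B →
      (Nat.card ↥B = p ∨ Nat.card ↥B = 4) →
      F.homSet A B ⊆ (Cfsg.innerFusionSystem S).Hom A) :
    ∀ (n : ℕ) (R : Subgroup Ω), R ≤ S → Nat.card R = n → ∀ α ∈ F.autGroup R, ∀ m : ℕ,
      Nat.Coprime m p → α ^ m = 1 → α = 1 := by
  intro n
  induction n using Nat.strong_induction_on with
  | _ n ih =>
  intro R hRS hn α hα m hm hαm
  have hp : p.Prime := Fact.out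
  haveI : Finite R := fs_finite_of_le hRS
  have hRp : IsPGroup p R := hS.to_le hRS
  have hαF : R.subtype.comp α.toMonoidHom ∈ F.Hom R := (fs_mem_autGroup_iff F hRS α).mp hα
  have hm0 : m ≠ 0 := by
    rintro rfl
    rw [Nat.coprime_zero_left] at hm
    exact hp.ne_one hm
  have hαinv : α⁻¹ = α ^ (m - 1) := by
    apply inv_eq_of_mul_eq_one_right
    rw [← pow_succ', show m - 1 + 1 = m by omega, hαm]
  -- restriction to proper invariant subgroups
  have hres : ∀ W : Subgroup R, W ≠ ⊤ → (∀ x ∈ W, α x ∈ W) → ∀ x ∈ W, α x = x := by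
    intro W hW hWinv x hx
    have hWpow : ∀ j : ℕ, ∀ x ∈ W, (α ^ j) x ∈ W := by
      intro j
      induction j with
      | zero => intro x hx; exact hx
      | succ j ihj =>
        intro x hx
        rw [pow_succ', MulAut.mul_apply]
        exact hWinv _ (ihj x hx)
    have hWinv' : ∀ x ∈ W, α⁻¹ x ∈ W := by
      intro x hx
      rw [hαinv]; exact hWpow _ x hx
    obtain ⟨W', hW'def⟩ : ∃ W' : Subgroup Ω, W' = W.map R.subtype := ⟨_, rfl⟩
    have hW'R : W' ≤ R := by
      rw [hW'def]
      rintro _ ⟨z, _, rfl⟩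
      exact z.2
    have hmemW' : ∀ x : R, (x : Ω) ∈ W' ↔ x ∈ W := by
      intro x
      rw [hW'def]
      constructor
      · rintro ⟨z, hz, hzx⟩
        have hzx' : z = x := Subtype.ext hzx
        rw [← hzx']; exact hz
      · intro hx
        exact ⟨x, hx, rfl⟩
    have h1 : ∀ x : R, (x : Ω) ∈ W' → ((α x : R) : Ω) ∈ W' := by
      intro x hx
      rw [hmemW'] at hx ⊢
      exact hWinv x hx
    have h2 : ∀ x : R, (x : Ω) ∈ W' → ((α⁻¹ x : R) : Ω) ∈ W' := by
      intro x hx
      rw [hmemW'] at hx ⊢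
      exact hWinv' x hx
    have hcard : Nat.card W' < n := by
      rw [← hn]
      have e1 : Nat.card W' = Nat.card W := by
        rw [hW'def]
        exact Nat.card_congr (W.equivMapOfInjective R.subtype R.subtype_injective).symm.toEquiv
      have e2 : Nat.card W < Nat.card R := by
        by_contra hcon
        push_neg at hcon
        exact hW (Subgroup.eq_top_of_le_card W hcon)
      omega
    have h3 := ih _ hcard W' (hW'R.trans hRS) rfl (restrictAut W' hW'R α h1 h2)
      (restrictAut_mem F hRS W' hW'R α hα h1 h2) m hm (by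
        apply MulEquiv.ext
        intro y
        apply Subtype.ext
        rw [restrictAut_pow, hαm]
        rfl)
    have h4 := congrArg
      (fun γ : MulAut W' => ((γ ⟨(x : Ω), (hmemW' x).mpr hx⟩ : W') : Ω)) h3
    exact Subtype.ext h4
  -- hyperfocal quotients
  have hres_mem : (⟨α, hα⟩ : F.autGroup R) ∈ Cfsg.pResidual p (F.autGroup R) := by
    apply Subgroup.subset_closure
    show Nat.Coprime (orderOf (⟨α, hα⟩ : F.autGroup R)) p
    have hdvd : orderOf (⟨α, hα⟩ : F.autGroup R) ∣ m :=
      orderOf_dvd_of_pow_eq_one (Subtype.ext (by simpa using hαm))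
    exact Nat.Coprime.coprime_dvd_left hdvd hm
  have hhyp : ∀ x : R, (x : Ω)⁻¹ * ((α x : R) : Ω) ∈ F.hyperfocalSubgroup p := by
    intro x
    exact Subgroup.subset_closure ⟨R, ⟨α, hα⟩, x, hRS, hres_mem, rfl⟩
  obtain ⟨D, hD⟩ : ∃ D : Subgroup R,
      D = Subgroup.closure {y : R | ∃ g ∈ (⊤ : Subgroup R), y = g⁻¹ * α g} := ⟨_, rfl⟩
  have hDinv : ∀ z ∈ D, α z ∈ D := by
    intro z hz
    have hle : D ≤ D.comap α.toMonoidHom := by
      conv_lhs => rw [hD]
      rw [Subgroup.closure_le]
      rintro y ⟨g, hg, rfl⟩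
      show α (g⁻¹ * α g) ∈ D
      rw [map_mul, map_inv, hD]
      exact Subgroup.subset_closure ⟨α g, Subgroup.mem_top _, rfl⟩
    exact hle hz
  have hfinal : (∀ x : R, α (x⁻¹ * α x) = x⁻¹ * α x) → α = 1 := by
    intro hfix
    apply MulEquiv.ext
    intro x
    obtain ⟨k, hk⟩ := hRp (x⁻¹ * α x)
    exact cop_fix_of_comm p α m hm hαm x k hk (hfix x)
  by_cases hDtop : D = ⊤
  swap
  · apply hfinal
    intro x
    exact hres D hDtop hDinv _
      (by rw [hD]; exact Subgroup.subset_closure ⟨x, Subgroup.mem_top _, rfl⟩)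
  · have hRhyp : ∀ g : R, (g : Ω) ∈ F.hyperfocalSubgroup p := by
      intro g
      have hle : D ≤ (F.hyperfocalSubgroup p).subgroupOf R := by
        rw [hD, Subgroup.closure_le]
        rintro y ⟨x, _, rfl⟩
        exact Subgroup.mem_subgroupOf.mpr (hhyp x)
      have hgD : g ∈ D := by rw [hDtop]; exact Subgroup.mem_top _
      exact Subgroup.mem_subgroupOf.mp (hle hgD)
    by_cases hbot : (⊤ : Subgroup R) = ⊥
    · apply MulEquiv.ext
      intro x
      have hx : x ∈ (⊥ : Subgroup R) := hbot ▸ Subgroup.mem_top x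
      rw [Subgroup.mem_bot] at hx
      rw [hx, map_one]
      rfl
    have hΦne : cop_phi p (⊤ : Subgroup R) ≠ ⊤ := cop_phi_ne p ⊤ (hRp.to_subgroup ⊤) hbot
    have hΦinv : ∀ z ∈ cop_phi p (⊤ : Subgroup R), α z ∈ cop_phi p (⊤ : Subgroup R) :=
      cop_phi_hom p ⊤ α.toMonoidHom (fun g _ => Subgroup.mem_top _)
    have hΦfix := hres _ hΦne hΦinv
    have hexp := cop_exp p α (⊤ : Subgroup R) (fun g _ => Subgroup.mem_top _) hΦfix
      (by rw [← hD]; exact hDtop)
    have hcs : ∀ i : ℕ, ∀ g : R,
        (⟨(g : Ω), hRS g.2⟩ : S) ∈ Subgroup.upperCentralSeries S i → α g = g := by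
      intro i
      induction i with
      | zero =>
        intro g hg
        rw [Subgroup.upperCentralSeries_zero, Subgroup.mem_bot] at hg
        have hv : (g : Ω) = 1 := congrArg (fun z : S => (z : Ω)) hg
        have hg1 : g = 1 := Subtype.ext hv
        rw [hg1, map_one]
      | succ i ihi =>
        intro g hg
        by_cases hg1 : g = 1
        · rw [hg1, map_one]
        have hge : g ^ (if p = 2 then 4 else p) = 1 := hexp g (Subgroup.mem_top _)
        have hord : orderOf (g : Ω) = p ∨ orderOf (g : Ω) = 4 := by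
          rw [Subgroup.orderOf_coe]
          by_cases h2 : p = 2
          · rw [if_pos h2] at hge
            have hdvd : orderOf g ∣ 4 := orderOf_dvd_of_pow_eq_one hge
            have hne1 : orderOf g ≠ 1 := fun h1 => hg1 (orderOf_eq_one_iff.mp h1)
            have hle : orderOf g ≤ 4 := Nat.le_of_dvd (by norm_num) hdvd
            have h3 : orderOf g ≠ 3 := by
              intro h3; rw [h3] at hdvd; norm_num at hdvd
            have h0 : orderOf g ≠ 0 := by
              intro h0; rw [h0] at hdvd; norm_num at hdvd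
            have hcases : orderOf g = 2 ∨ orderOf g = 4 := by omega
            rcases hcases with h' | h'
            · left; rw [h', h2]
            · right; exact h'
          · rw [if_neg h2] at hge
            left; exact orderOf_eq_prime hge hg1
        have hordα : orderOf ((α g : R) : Ω) = orderOf (g : Ω) := by
          rw [Subgroup.orderOf_coe, Subgroup.orderOf_coe]
          exact MulEquiv.orderOf_eq α g
        have hA : Subgroup.zpowers (g : Ω) ≤ F.hyperfocalSubgroup p :=
          (Subgroup.zpowers_le).mpr (hRhyp g)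
        have hB : Subgroup.zpowers ((α g : R) : Ω) ≤ F.hyperfocalSubgroup p :=
          (Subgroup.zpowers_le).mpr (hRhyp (α g))
        have hAR : Subgroup.zpowers (g : Ω) ≤ R := (Subgroup.zpowers_le).mpr g.2
        have hcA : Nat.card (Subgroup.zpowers (g : Ω)) = p ∨
            Nat.card (Subgroup.zpowers (g : Ω)) = 4 := by
          rw [Nat.card_zpowers]; exact hord
        have hcB : Nat.card (Subgroup.zpowers ((α g : R) : Ω)) = p ∨
            Nat.card (Subgroup.zpowers ((α g : R) : Ω)) = 4 := by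
          rw [Nat.card_zpowers, hordα]; exact hord
        have hφ : (R.subtype.comp α.toMonoidHom).comp (Subgroup.inclusion hAR) ∈
            F.homSet (Subgroup.zpowers (g : Ω)) (Subgroup.zpowers ((α g : R) : Ω)) := by
          refine ⟨fs_restrict F hAR hαF, ?_⟩
          intro x
          obtain ⟨k, hk⟩ := Subgroup.mem_zpowers_iff.mp x.2
          have hx : Subgroup.inclusion hAR x = g ^ k := by
            apply Subtype.ext
            rw [Subgroup.coe_inclusion, Subgroup.coe_zpow]
            exact hk.symm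
          show ((α (Subgroup.inclusion hAR x) : R) : Ω) ∈ _
          rw [hx, map_zpow, Subgroup.coe_zpow]
          exact Subgroup.zpow_mem_zpowers _ k
        obtain ⟨-, s, hsS, hs⟩ := h _ _ hA hB (Subgroup.isCyclic_zpowers _) hcA
          (Subgroup.isCyclic_zpowers _) hcB hφ
        have hs' : ((α g : R) : Ω) = s * (g : Ω) * s⁻¹ :=
          hs ⟨(g : Ω), Subgroup.mem_zpowers _⟩
        have hc : α (g⁻¹ * α g) = g⁻¹ * α g := by
          apply ihi
          have hmem := (Subgroup.mem_upperCentralSeries_succ_iff.mp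
            (Subgroup.inv_mem _ hg)) ⟨s, hsS⟩
          have e : (⟨((g⁻¹ * α g : R) : Ω), hRS (g⁻¹ * α g).2⟩ : S) =
              (⟨(g : Ω), hRS g.2⟩ : S)⁻¹ * ⟨s, hsS⟩ * ((⟨(g : Ω), hRS g.2⟩ : S)⁻¹)⁻¹ *
                (⟨s, hsS⟩ : S)⁻¹ := by
            apply Subtype.ext
            simp only [Subgroup.coe_mul, Subgroup.coe_inv]
            rw [hs']
            group
          rw [e]; exact hmem
        obtain ⟨k, hk⟩ := hRp (g⁻¹ * α g)
        exact cop_fix_of_comm p α m hm hαm g k hk hc
    haveI : Group.IsNilpotent S := hS.isNilpotent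
    obtain ⟨c, hc⟩ := Group.IsNilpotent.nilpotent S
    apply MulEquiv.ext
    intro g
    exact hcs c g (by rw [hc]; exact Subgroup.mem_top _)


/-- Let F be a saturated fusion system over a finite p-group S. If every map of F between cyclic subgroups of the hyperfocal subgroup of F of order p or 4 is conjugation by an element of S, then F is the inner fusion system of S. -/
theorem result {Ω : Type u} [Group Ω] {S : Subgroup Ω} [Finite S] (p : ℕ) [Fact p.Prime] (hS : IsPGroup p S)
    (F : Cfsg.FusionSystem S) (hF : F.IsSaturated p)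
    (h : ∀ A B : Subgroup Ω, A ≤ (F.hyperfocalSubgroup p) → B ≤ (F.hyperfocalSubgroup p) → IsCyclic ↥A → (Nat.card ↥A = p ∨ Nat.card ↥A = 4) → IsCyclic ↥B → (Nat.card ↥B = p ∨ Nat.card ↥B = 4) →
      F.homSet A B ⊆ (Cfsg.innerFusionSystem S).Hom A) :
    ∀ P : Subgroup Ω, F.Hom P = (Cfsg.innerFusionSystem S).Hom P := by
  have hEq : F = Cfsg.innerFusionSystem S := by
    apply Cfsg.Agent.S5083.result p hS F hF
    intro P hPS
    haveI : Finite P := fs_finite_of_le hPS
    apply isPGroup_of_forall_pow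
    intro α hα
    have hp : p.Prime := Fact.out
    have hn : 0 < orderOf α := orderOf_pos_iff.mpr (isOfFinOrder_of_finite α)
    obtain ⟨a, m, hm, hnm⟩ := Nat.exists_eq_pow_mul_and_not_dvd hn.ne' p hp.ne_one
    refine ⟨a, ?_⟩
    have hcop : Nat.Coprime m p := ((Nat.Prime.coprime_iff_not_dvd hp).mpr hm).symm
    apply key p hS F h _ P hPS rfl (α ^ (p ^ a)) (pow_mem hα _) m hcop
    rw [← pow_mul, ← hnm]; exact pow_orderOf_eq_one α
  intro P
  rw [hEq]

end Cfsg.Agent.S5298
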