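import Cfsg.Statements.S5300
import Cfsg.Agent.Lib.Helper1.FusStab
import Cfsg.Agent.Lib.Helper1.FusBasic2
import Cfsg.Agent.Lib.Helper1.FusCoprime
import Cfsg.Agent.S5086

set_option autoImplicit false
universe u
open Cfsg

open Cfsg.Agent.Lib.Helper1

namespace Cfsg.Agent.S5300

/-- the automorphisms of `P` acting on each element `g` of `D` of order `p` (of order dividing `4`
when `p = 2`) trivially (by `g ↦ g` or `g ↦ g⁻¹` when `p = 2`) -/
def goodAut {Ω : Type*} [Group Ω] (p : ℕ) (P : Subgroup Ω) (D : Subgroup P) :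
    Subgroup (MulAut P) where
  carrier := {α | ∀ g ∈ D, (g ^ p = 1 ∨ (p = 2 ∧ g ^ 4 = 1)) → (α g = g ∨ (p = 2 ∧ α g = g⁻¹))}
  one_mem' := fun g _ _ => Or.inl rfl
  mul_mem' := by
    intro α α' hα hα' g hg hc
    rcases hα' g hg hc with h | ⟨h2, h⟩
    · rw [MulAut.mul_apply, h]; exact hα g hg hc
    · rw [MulAut.mul_apply, h, map_inv]
      rcases hα g hg hc with h' | ⟨_, h'⟩
      · rw [h']; exact Or.inr ⟨h2, rfl⟩
      · rw [h', inv_inv]; exact Or.inl rfl
  inv_mem' := by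
    intro α hα g hg hc
    rcases hα g hg hc with h | ⟨h2, h⟩
    · left
      calc α⁻¹ g = α⁻¹ (α g) := by rw [h]
        _ = g := MulEquiv.symm_apply_apply α g
    · right
      refine ⟨h2, ?_⟩
      have h3 : α⁻¹ (g⁻¹) = g := by
        calc α⁻¹ (g⁻¹) = α⁻¹ (α g) := by rw [h]
          _ = g := MulEquiv.symm_apply_apply α g
      rw [map_inv] at h3
      exact inv_eq_iff_eq_inv.mp h3


/-- Let F be a saturated fusion system over a finite p-group S. If every cyclic subgroup of the focal subgroup of F of order p (of order 2 or 4 when p = 2) is normal in S, then S is normal in F. -/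
theorem result {Ω : Type u} [Group Ω] {S : Subgroup Ω} [Finite S] (p : ℕ) [Fact p.Prime] (hS : IsPGroup p S)
    (F : Cfsg.FusionSystem S) (hF : F.IsSaturated p)
    (hnorm : ∀ x ∈ F.focalSubgroup, (x ^ p = 1 ∨ (p = 2 ∧ x ^ 4 = 1)) → ∀ s ∈ S, s * x * s⁻¹ ∈ Subgroup.zpowers x) :
    F.IsNormal S := by
  rw [Cfsg.Agent.S5086.result p hS F hF S]
  have hp : p.Prime := Fact.out
  refine ⟨⟨le_rfl, fun R _ φ hφ x => (F.le_of_mem hφ).2 x⟩, fun P hc hrad => ?_⟩
  have hPS := hc.1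
  have hCP := hc.2 P (fs_isConj_refl F hPS)
  haveI : Finite P := fs_finite_of_le hPS
  have hfoc : ∀ γ ∈ F.autGroup P, ∀ x : P, (x : Ω)⁻¹ * ((γ x : P) : Ω) ∈ F.focalSubgroup := by
    intro γ hγ x
    have hγF : P.subtype.comp γ.toMonoidHom ∈ F.Hom P := (fs_mem_autGroup_iff F hPS γ).mp hγ
    exact Subgroup.subset_closure ⟨P, _, x, hγF, rfl⟩
  obtain ⟨D, hD⟩ : ∃ D : Subgroup P, D = F.focalSubgroup.subgroupOf P := ⟨_, rfl⟩
  have hDmem : ∀ g : P, g ∈ D ↔ (g : Ω) ∈ F.focalSubgroup := by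
    intro g; rw [hD, Subgroup.mem_subgroupOf]
  have hDinv : ∀ γ ∈ F.autGroup P, ∀ g ∈ D, γ g ∈ D := by
    intro γ hγ g hg
    rw [hDmem] at hg ⊢
    have h1 := hfoc γ hγ g
    have e : ((γ g : P) : Ω) = (g : Ω) * ((g : Ω)⁻¹ * ((γ g : P) : Ω)) := by group
    rw [e]; exact Subgroup.mul_mem _ hg h1
  have hDp : IsPGroup p D := (hS.to_le hPS).to_subgroup D
  apply fs_le_of_normal_pgroup p hS F S le_rfl Subgroup.le_normalizer P hCP hrad
    (F.autGroup P ⊓ goodAut p P D)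
  · exact inf_le_left
  · constructor
    intro w hw a
    rw [Subgroup.mem_subgroupOf] at hw ⊢
    obtain ⟨hw1, hw2⟩ := Subgroup.mem_inf.mp hw
    refine Subgroup.mem_inf.mpr ⟨(a * w * a⁻¹).2, ?_⟩
    intro g hg hcond
    have hg' : (a : MulAut P)⁻¹ g ∈ D := hDinv _ (inv_mem a.2) g hg
    have hcond' : (((a : MulAut P)⁻¹ g) ^ p = 1 ∨ (p = 2 ∧ ((a : MulAut P)⁻¹ g) ^ 4 = 1)) := by
      rcases hcond with h | ⟨h2, h⟩
      · left; rw [← map_pow, h, map_one]
      · right; exact ⟨h2, by rw [← map_pow, h, map_one]⟩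
    have e : ((a * w * a⁻¹ : F.autGroup P) : MulAut P) g =
        (a : MulAut P) ((w : MulAut P) ((a : MulAut P)⁻¹ g)) := rfl
    rw [e]
    rcases hw2 _ hg' hcond' with h | ⟨h2, h⟩
    · left; rw [h]; exact MulEquiv.apply_symm_apply (a : MulAut P) g
    · right; refine ⟨h2, ?_⟩
      rw [h, map_inv]
      congr 1
      exact MulEquiv.apply_symm_apply (a : MulAut P) g
  · apply isPGroup_of_forall_pow
    intro α hα
    obtain ⟨hα1, hα2⟩ := Subgroup.mem_inf.mp hα
    have hn : 0 < orderOf α := orderOf_pos_iff.mpr (isOfFinOrder_of_finite α)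
    obtain ⟨a, m, hm, hnm⟩ := Nat.exists_eq_pow_mul_and_not_dvd hn.ne' p hp.ne_one
    refine ⟨a, ?_⟩
    have hcop : Nat.Coprime m p := ((Nat.Prime.coprime_iff_not_dvd hp).mpr hm).symm
    obtain ⟨β, hβdef⟩ : ∃ β : MulAut P, β = α ^ (p ^ a) := ⟨_, rfl⟩
    rw [← hβdef]
    have hβm : β ^ m = 1 := by rw [hβdef, ← pow_mul, ← hnm]; exact pow_orderOf_eq_one α
    have hβA : β ∈ F.autGroup P := by rw [hβdef]; exact pow_mem hα1 _
    have hβK : β ∈ goodAut p P D := by rw [hβdef]; exact pow_mem hα2 _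
    have h1 : ∀ g ∈ D, (g ^ p = 1 ∨ (p = 2 ∧ g ^ 4 = 1)) → β g = g := by
      intro g hg hcond
      rcases hβK g hg hcond with h | ⟨h2, h⟩
      · exact h
      · have hsq : (β ^ 2) g = g := by
          rw [pow_two, MulAut.mul_apply, h, map_inv, h, inv_inv]
        have hodd : ¬ 2 ∣ m := h2 ▸ hm
        obtain ⟨t, ht⟩ : ∃ t, m = 2 * t + 1 := ⟨m / 2, by omega⟩
        have e : β = (β ^ 2) ^ (t + 1) := by
          rw [← pow_mul, show 2 * (t + 1) = m + 1 by omega, pow_succ, hβm, one_mul]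
        rw [e]; exact cop_pow_fix _ g hsq _
    have h2 : ∀ g ∈ D, β g = g := cop_fix' p β m hcop hβm D hDp (hDinv β hβA) h1
    apply MulEquiv.ext
    intro x
    obtain ⟨k, hk⟩ := (hS.to_le hPS) (x⁻¹ * β x)
    apply cop_fix_of_comm p β m hcop hβm x k hk
    apply h2
    rw [hDmem]
    exact hfoc β hβA x
  · intro n hn hnS
    refine Subgroup.mem_inf.mpr ⟨fs_nmh_mem_autGroup F hPS ⟨n, hn⟩ hnS, ?_⟩
    intro g hg hcond
    rw [hDmem] at hg
    have hcoe : ∀ j : ℕ, g ^ j = 1 → (g : Ω) ^ j = 1 := by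
      intro j h
      have h' := congrArg Subtype.val h
      simpa using h'
    have hz := hnorm (g : Ω) hg (by
      rcases hcond with h | ⟨h2, h⟩
      · exact Or.inl (hcoe _ h)
      · exact Or.inr ⟨h2, hcoe _ h⟩) n hnS
    by_cases h2 : p = 2
    · have hg4 : (g : Ω) ^ 4 = 1 := by
        rcases hcond with h | ⟨_, h⟩
        · have h' : (g : Ω) ^ p = 1 := hcoe _ h
          rw [h2] at h'
          rw [show 4 = 2 * 2 by norm_num, pow_mul, h', one_pow]
        · exact hcoe _ h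
      rcases cop_conj_eq_or_inv_of_mem_zpowers n (g : Ω) hg4 hz with h | h
      · left; exact Subtype.ext h
      · right; exact ⟨h2, Subtype.ext h⟩
    · have hgp : (g : Ω) ^ p = 1 := by
        rcases hcond with h | ⟨h2', _⟩
        · exact hcoe _ h
        · exact absurd h2' h2
      obtain ⟨a, ha⟩ := hS ⟨n, hnS⟩
      have hna : n ^ (p ^ a) = 1 := by
        have h' := congrArg Subtype.val ha
        simpa using h'
      left
      exact Subtype.ext (cop_conj_eq_of_mem_zpowers p n (g : Ω) a hna hgp hz)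

end Cfsg.Agent.S5300
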