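import Cfsg.Statements.S5301
import Mathlib
import Cfsg.Agent.Lib.Helper1.FusNormal
import Cfsg.Agent.Lib.Helper1.FusAlp
import Cfsg.Agent.Lib.Helper7.PCore
import Cfsg.Agent.S5080
import Cfsg.Agent.S5087

set_option autoImplicit false
universe u
open Cfsg

open Cfsg.Agent.Lib.Helper1

namespace Cfsg.Agent.S5301

/-- Let F be a saturated fusion system over a finite p-group S. If for every subgroup P of S that is fully normalized, centric and radical in F the automorphism group that F induces on P has a normal Sylow p-subgroup, then S is normal in F. -/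
theorem result {Ω : Type u} [Group Ω] {S : Subgroup Ω} [Finite S] (p : ℕ) [Fact p.Prime] (hS : IsPGroup p S)
    (F : Cfsg.FusionSystem S) (hF : F.IsSaturated p)
    (hcl : ∀ P : Subgroup Ω, F.IsFullyNormalized P → F.IsCentric P → F.IsRadical p P →
      ∃ R : Sylow p ↥(F.autGroup P), (R : Subgroup ↥(F.autGroup P)).Normal) :
    F.IsNormal S := by
  rw [Cfsg.Agent.S5087.result p hS F hF S]
  intro P hP
  have hPeq : P = S := by
    rcases hP with h | hess
    · exact h
    · have hPS := hess.1.1
      have hfn := hess.2.1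
      have hcen := hess.1
      have hrad := Cfsg.Agent.S5080.result p hS F hF P hess
      obtain ⟨R, hRn⟩ := hcl P hfn hcen hrad
      obtain ⟨-, R₀, hR₀⟩ := fs_fullyAutomized_of_fullyNormalized p hS F hF P hfn
      by_contra hne
      have hlt : P < S := lt_of_le_of_ne hPS hne
      have hlt2 := fs_lt_normalizerIn hS hlt
      haveI : Finite ↥P := Finite.of_injective (Subgroup.inclusion hPS) (Subgroup.inclusion_injective hPS)
      haveI : Finite ↥(F.autGroup P) := inferInstance
      obtain ⟨g, hg⟩ := MulAction.exists_smul_eq (F.autGroup P) R R₀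
      have hRR : R₀ = R := by rw [← hg]; exact Sylow.smul_eq_of_normal
      have hle : FusionSystem.normalizerIn S P ≤ P := by
        intro n hn
        obtain ⟨hnS, hnN⟩ := Subgroup.mem_inf.mp hn
        have h1 : P.normalizerMonoidHom ⟨n, hnN⟩ ∈ F.autGroup P :=
          fs_nmh_mem_autGroup F hPS ⟨n, hnN⟩ hnS
        have h2 : (⟨_, h1⟩ : F.autGroup P) ∈ (R₀ : Subgroup (F.autGroup P)) := by
          rw [hR₀, Subgroup.mem_subgroupOf]
          exact Subgroup.subset_closure ⟨n, hnS, fun x => rfl⟩
        have h3 : (R : Subgroup (F.autGroup P)) ≤ pCore p (F.autGroup P) :=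
          Cfsg.Agent.Lib.Helper7.le_pCore hRn R.isPGroup'
        have h4 : P.normalizerMonoidHom ⟨n, hnN⟩ ∈ Inn P := by
          rw [← hrad.2]
          exact ⟨⟨_, h1⟩, h3 (hRR ▸ h2), rfl⟩
        exact fs_mem_of_nmh_mem_inn hPS (hcen.2 P (fs_isConj_refl F hPS)) ⟨n, hnN⟩ hnS h4
      exact absurd (lt_of_lt_of_le hlt2 hle) (lt_irrefl _)
  subst hPeq
  refine ⟨le_rfl, fun α hα => ?_⟩
  rw [Subgroup.subgroupOf_self, ← MonoidHom.range_eq_map]
  exact MonoidHom.range_eq_top.mpr α.surjective

end Cfsg.Agent.S5301
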