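import Cfsg.Statements.S5330
import Mathlib
import Cfsg.Agent.Lib.Helper1.CoprimeAb
import Cfsg.Agent.Lib.Helper1.FusFoc
import Cfsg.Agent.S5084
import Cfsg.Agent.S5087
import Cfsg.Agent.S5106

set_option autoImplicit false
open Cfsg

open Cfsg.Agent.Lib.Helper1

namespace Cfsg.Agent.S5330

/-- Let F be a saturated fusion system over a finite abelian p-group S. Then S is the internal direct product of the centre of the system and the focal subgroup: Z(F) ∩ foc(F) = 1 and Z(F)·foc(F) = S. -/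
theorem result {Ω : Type*} [Group Ω] {S : Subgroup Ω} [Finite S] (p : ℕ) [Fact p.Prime] (hS : IsPGroup p S) (F : Cfsg.FusionSystem S) (hF : F.IsSaturated p) (hab : ∀ x ∈ S, ∀ y ∈ S, x * y = y * x) : F.center ⊓ F.focalSubgroup = ⊥ ∧ F.center ⊔ F.focalSubgroup = S := by
  haveI hcomm : IsMulCommutative ↥S := ⟨⟨fun a b => Subtype.ext (hab a a.2 b b.2)⟩⟩
  have hSn : F.IsNormal S := by
    rw [Cfsg.Agent.S5087.result p hS F hF S]
    intro P hP
    have hPeq : P = S := by
      rcases hP with h | hess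
      · exact h
      · have hPS := hess.1.1
        have hCP := hess.1.2 P (fs_isConj_refl F hPS)
        apply le_antisymm hPS
        refine le_trans ?_ hCP
        intro x hx
        refine Subgroup.mem_inf.mpr ⟨hx, ?_⟩
        rw [Subgroup.mem_centralizer_iff]
        intro y hy
        exact hab y (hPS hy) x hx
    subst hPeq
    refine ⟨le_rfl, fun α hα => ?_⟩
    rw [Subgroup.subgroupOf_self, ← MonoidHom.range_eq_map]
    exact MonoidHom.range_eq_top.mpr α.surjective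
  have hext := fun (P : Subgroup Ω) (hPS : P ≤ S) (φ : P →* Ω) (hφ : φ ∈ F.Hom P) =>
    Cfsg.Agent.S5106.extend_of_normal F S hSn P hPS φ hφ
  obtain ⟨-, R, hR⟩ := fs_fullyAutomized_of_fullyNormalized p hS F hF S (fs_fullyNormalized_top F)
  have hRbot : (R : Subgroup ↥(F.autGroup S)) = ⊥ := by
    rw [hR, eq_bot_iff]
    intro a ha
    rw [Subgroup.mem_subgroupOf] at ha
    have hle : Cfsg.autInducedBy S S ≤ ⊥ := by
      unfold Cfsg.autInducedBy
      rw [Subgroup.closure_le]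
      rintro β ⟨g, hg, hβ⟩
      show β = 1
      ext x
      rw [hβ x]
      show g * (x : Ω) * g⁻¹ = x
      rw [hab g hg x x.2]; group
    have h1 := hle ha
    rw [Subgroup.mem_bot] at h1 ⊢
    exact Subtype.ext h1
  haveI : Finite ↥(F.autGroup S) := inferInstance
  have hp : ¬ p ∣ Nat.card ↥(F.autGroup S) := by
    have h := R.not_dvd_index
    rw [hRbot, Subgroup.index_bot] at h
    exact h
  have hcop : (Nat.card S).Coprime (Nat.card ↥(F.autGroup S)) := by
    obtain ⟨k, hk⟩ := IsPGroup.iff_card.mp hS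
    rw [hk]
    exact Nat.Coprime.pow_left k ((Nat.Prime.coprime_iff_not_dvd Fact.out).mpr hp)
  -- fixed points are central
  have hF1 : ∀ Q : Subgroup Ω, F.IsCentral Q → ∀ x (hx : x ∈ Q) (hxS : x ∈ S),
      ∀ α ∈ F.autGroup S, α ⟨x, hxS⟩ = ⟨x, hxS⟩ := by
    intro Q hQ x hx hxS α hα
    have h1 := ((Cfsg.Agent.S5084.result p hS F hF Q).mp hQ).2 x hx
    have hz : Subgroup.zpowers x ≤ S := by
      rw [Subgroup.zpowers_le]; exact hxS
    have hαF : S.subtype.comp α.toMonoidHom ∈ F.Hom S := (fs_mem_autGroup_iff F le_rfl α).mp hα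
    have h2 : F.IsConjElt x ((α ⟨x, hxS⟩ : S) : Ω) := ⟨_, fs_restrict F hz hαF, rfl⟩
    exact Subtype.ext (h1 _ h2)
  have hF2 : ∀ x (hxS : x ∈ S), (∀ α ∈ F.autGroup S, α ⟨x, hxS⟩ = ⟨x, hxS⟩) → x ∈ F.center := by
    intro x hxS hfix
    have hz : Subgroup.zpowers x ≤ S := by
      rw [Subgroup.zpowers_le]; exact hxS
    have hzfix : ∀ y (hy : y ∈ Subgroup.zpowers x), ∀ α ∈ F.autGroup S,
        α ⟨y, hz hy⟩ = ⟨y, hz hy⟩ := by
      intro y hy α hα
      obtain ⟨k, rfl⟩ := Subgroup.mem_zpowers_iff.mp hy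
      have e : (⟨x ^ k, hz hy⟩ : S) = (⟨x, hxS⟩ : S) ^ k := Subtype.ext (by simp)
      rw [e, map_zpow, hfix α hα]
    have hc : F.IsCentral (Subgroup.zpowers x) := by
      apply Cfsg.Agent.S5084.central_of_no_fusion p hS F hF _ hz
      rintro y hy w ⟨φ, hφ, rfl⟩
      have hz' : Subgroup.zpowers y ≤ S := by
        rw [Subgroup.zpowers_le]; exact hz hy
      obtain ⟨α, hα, hαφ⟩ := hext _ hz' φ hφ
      rw [← hαφ]
      have h3 := hzfix y hy α hα
      exact congrArg Subtype.val h3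
    exact (le_sSup hc : Subgroup.zpowers x ≤ F.center) (Subgroup.mem_zpowers x)
  have hF5 : ∀ y ∈ F.focalSubgroup, ∃ hy : y ∈ S, (⟨y, hy⟩ : S) ∈
      Subgroup.closure {z : S | ∃ α ∈ F.autGroup S, ∃ x : S, z = x⁻¹ * α x} := by
    have hle : F.focalSubgroup ≤ (Subgroup.closure
        {z : S | ∃ α ∈ F.autGroup S, ∃ x : S, z = x⁻¹ * α x}).map S.subtype := by
      conv_lhs => unfold Cfsg.FusionSystem.focalSubgroup
      rw [Subgroup.closure_le]
      rintro _ ⟨P, φ, x, hφ, rfl⟩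
      have hPS := (F.le_of_mem hφ).1
      obtain ⟨α, hα, hαφ⟩ := hext P hPS φ hφ
      refine ⟨(Subgroup.inclusion hPS x)⁻¹ * α (Subgroup.inclusion hPS x),
        Subgroup.subset_closure ⟨α, hα, _, rfl⟩, ?_⟩
      rw [← hαφ x]
      rfl
    intro y hy
    obtain ⟨f, hf, rfl⟩ := hle hy
    exact ⟨f.2, hf⟩
  have hF6 : ∀ f : S, f ∈ Subgroup.closure {z : S | ∃ α ∈ F.autGroup S, ∃ x : S, z = x⁻¹ * α x} →
      (f : Ω) ∈ F.focalSubgroup := by
    have hle : Subgroup.closure {z : S | ∃ α ∈ F.autGroup S, ∃ x : S, z = x⁻¹ * α x} ≤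
        F.focalSubgroup.comap S.subtype := by
      rw [Subgroup.closure_le]
      rintro _ ⟨α, hα, x, rfl⟩
      show ((x⁻¹ * α x : S) : Ω) ∈ F.focalSubgroup
      apply Subgroup.subset_closure
      exact ⟨S, S.subtype.comp α.toMonoidHom, x, (fs_mem_autGroup_iff F le_rfl α).mp hα, rfl⟩
    exact fun f hf => hle hf
  have hcS : F.center ≤ S := sSup_le (fun Q hQ => hQ.1)
  have hfS : F.focalSubgroup ≤ S := fun y hy => (hF5 y hy).1
  have hF3 : ∀ y (hy : y ∈ F.center), ∀ α ∈ F.autGroup S, α ⟨y, hcS hy⟩ = ⟨y, hcS hy⟩ := by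
    intro y hy α hα
    have hfin : {Q : Subgroup Ω | F.IsCentral Q}.Finite :=
      fs_finite_le.subset (fun Q hQ => hQ.1)
    exact hF1 _ (fs_central_sSup F hfin (fun Q hQ => hQ)) y hy (hcS hy) α hα
  constructor
  · rw [eq_bot_iff]
    intro y hy
    obtain ⟨hyc, hyf⟩ := Subgroup.mem_inf.mp hy
    obtain ⟨hyS, hyf'⟩ := hF5 y hyf
    have h1 := coprime_abelian_fix_inter (F.autGroup S) hcop ⟨y, hyS⟩ (hF3 y hyc) hyf'
    rw [Subgroup.mem_bot]
    exact congrArg Subtype.val h1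
  · apply le_antisymm (sup_le hcS hfS)
    intro x hx
    obtain ⟨c, f, hc, hf, hxcf⟩ := coprime_abelian_decomp (F.autGroup S) hcop ⟨x, hx⟩
    have e : x = (c : Ω) * (f : Ω) := congrArg Subtype.val hxcf
    rw [e]
    exact Subgroup.mul_mem_sup (hF2 c c.2 hc) (hF6 f hf)

end Cfsg.Agent.S5330
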