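import Cfsg.Statements.S5342
import Mathlib
import Cfsg.Agent.Lib.Helper1.FusRad

set_option autoImplicit false
open Cfsg

open Cfsg.Agent.Lib.Helper1

namespace Cfsg.Agent.S5342

theorem subnormal_constrained {Ω : Type*} [Group Ω] {T : Subgroup Ω} (E : Cfsg.FusionSystem T)
    {S : Subgroup Ω} (F : Cfsg.FusionSystem S) (p : ℕ) (hE : E.IsSubnormalIn F p) :
    T ≤ S ∧ (Fact p.Prime → Finite S → IsPGroup p S → F.IsConstrained p →
      E.IsConstrained p) := by
  induction hE with
  | refl F p => exact ⟨le_rfl, fun _ _ _ h => h⟩
  | step hED hDF ih =>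
    rename_i U S' E' D F' p'
    obtain ⟨hTU, ih⟩ := ih
    have hUS : U ≤ S' := hDF.1.2.2.2.1.1
    refine ⟨hTU.trans hUS, fun hp hfin hS hF => ?_⟩
    haveI := hfin
    haveI := hp
    have hD := normal_constrained p' hS F' hF D hDF
    exact ih hp (fs_finite_of_le hUS) (hS.to_le hUS) hD

/-- Let F be a constrained saturated fusion system over a finite p-group S. Then every subsystem of F that is subnormal in F (reached from F by a finite chain of successive normal subsystems) is constrained. -/
theorem result {Ω : Type*} [Group Ω] {S : Subgroup Ω} [Finite S] (p : ℕ) [Fact p.Prime] (hS : IsPGroup p S) (F : Cfsg.FusionSystem S) (hF : F.IsConstrained p) {T : Subgroup Ω} (E : Cfsg.FusionSystem T) (hE : E.IsSubnormalIn F p) : E.IsConstrained p := by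
  exact (subnormal_constrained E F p hE).2 inferInstance inferInstance hS hF

end Cfsg.Agent.S5342
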