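import Mathlib
import Cfsg.Statements.S5357
import Cfsg.Agent.S2630

set_option autoImplicit false
open scoped MatrixGroups
open Cfsg

namespace Cfsg.Agent.S5357

open Matrix
open Cfsg.Agent.S5754 (rfl0 rfl0_apply rfl0_invol rfl0_iso rfl0_self)
open Cfsg.Agent.S0792 (Rf Rf_val refl_mulVec Q_add')
open Cfsg.Agent.S2635 (Rf_mul_self Rf_inv)
open Cfsg.Agent.S2628 (mem_iso_iff)

section abs
variable {F : Type*} [Field F] {V : Type*} [AddCommGroup V] [Module F V] (Q : QuadraticForm F V)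

/-- `U` is orthogonal to `W`, `V = W + U`, and `W` has dimension at most `k` -/
def Good (W U : Submodule F V) (k : ℕ) : Prop :=
  (∀ y ∈ U, ∀ w ∈ W, QuadraticMap.polar Q y w = 0) ∧ (∀ z, ∃ w ∈ W, z - w ∈ U) ∧
    Module.finrank F W ≤ k

theorem good_bot : Good Q ⊥ ⊤ 0 := by
  refine ⟨fun y _ w hw => ?_, fun z => ⟨0, Submodule.zero_mem _, Submodule.mem_top⟩, ?_⟩
  · rw [Submodule.mem_bot] at hw
    rw [hw, QuadraticMap.polar_zero_right]
  · rw [finrank_bot]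

theorem good_step [FiniteDimensional F V] (h2 : (2 : F) ≠ 0) (W U : Submodule F V) (k : ℕ)
    (h : Good Q W U k) (z₁ : V) (hz₁ : z₁ ∈ U) (hQ₁ : Q z₁ ≠ 0) :
    Good Q (W ⊔ Submodule.span F {z₁}) (U ⊓ LinearMap.ker (QuadraticMap.polarBilin Q z₁))
      (k + 1) := by
  obtain ⟨ha, hb, hc⟩ := h
  have hz0 : z₁ ≠ 0 := by
    rintro rfl
    exact hQ₁ (QuadraticMap.map_zero Q)
  have hps : QuadraticMap.polar Q z₁ z₁ = 2 * Q z₁ := by
    rw [QuadraticMap.polar_self]; simp [two_mul, two_smul]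
  refine ⟨?_, ?_, ?_⟩
  · rintro y ⟨hyU, hy1⟩ w hw
    have hy1' : QuadraticMap.polar Q z₁ y = 0 := LinearMap.mem_ker.1 hy1
    obtain ⟨w₁, hw₁, w₂, hw₂, rfl⟩ := Submodule.mem_sup.1 hw
    obtain ⟨s, rfl⟩ := Submodule.mem_span_singleton.1 hw₂
    rw [QuadraticMap.polar_add_right, ha y hyU w₁ hw₁, QuadraticMap.polar_smul_right,
      QuadraticMap.polar_comm Q y z₁, hy1', smul_zero, add_zero]
  · intro z
    obtain ⟨w, hw, hu⟩ := hb z
    have e : z - (w + ((2 * Q z₁)⁻¹ * QuadraticMap.polar Q z₁ (z - w)) • z₁) =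
        (z - w) - ((2 * Q z₁)⁻¹ * QuadraticMap.polar Q z₁ (z - w)) • z₁ := by abel
    refine ⟨w + ((2 * Q z₁)⁻¹ * QuadraticMap.polar Q z₁ (z - w)) • z₁,
      Submodule.add_mem_sup hw (Submodule.smul_mem _ _ (Submodule.mem_span_singleton_self z₁)),
      ?_, ?_⟩
    · rw [e]
      exact Submodule.sub_mem _ hu (Submodule.smul_mem _ _ hz₁)
    · refine LinearMap.mem_ker.2 ?_
      show QuadraticMap.polar Q z₁ _ = 0
      rw [e, QuadraticMap.polar_sub_right, QuadraticMap.polar_smul_right, hps, smul_eq_mul]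
      field_simp
      ring
  · calc Module.finrank F ↥(W ⊔ Submodule.span F {z₁})
        ≤ Module.finrank F W + Module.finrank F (Submodule.span F {z₁}) :=
          Submodule.finrank_add_le_finrank_add_finrank W _
      _ ≤ k + 1 := add_le_add hc (finrank_span_singleton hz0).le

theorem good_exists [FiniteDimensional F V] (hQ : (QuadraticMap.polarBilin Q).Nondegenerate)
    (W U : Submodule F V) (k : ℕ) (h : Good Q W U k) (hk : k < Module.finrank F V) :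
    ∃ z ∈ U, Q z ≠ 0 := by
  obtain ⟨ha, hb, hc⟩ := h
  by_contra hcon
  push Not at hcon
  have hU : ∀ y ∈ U, y = 0 := by
    intro y hy
    apply hQ.1 y
    intro z
    show QuadraticMap.polar Q y z = 0
    obtain ⟨w, hw, hu⟩ := hb z
    have e : z = w + (z - w) := by abel
    rw [e, QuadraticMap.polar_add_right, ha y hy w hw, zero_add]
    unfold QuadraticMap.polar
    rw [hcon _ (Submodule.add_mem _ hy hu), hcon y hy, hcon _ hu]
    simp
  have hW : W = ⊤ := by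
    rw [eq_top_iff]
    intro z _
    obtain ⟨w, hw, hu⟩ := hb z
    have h3 := hU _ hu
    rw [sub_eq_zero] at h3
    rw [h3]; exact hw
  rw [hW, finrank_top] at hc
  omega

theorem pow3 {G : Type*} [Group G] (d e : G) (hdd : d * d = 1) (hee : e * e = 1)
    (h2 : d * e * d = e * d * e) : (d * e) ^ 3 = 1 := by
  have h3 : (d * e) ^ 3 = (d * e * d) * (e * d * e) := by
    simp only [pow_succ, pow_zero, one_mul, mul_assoc]
  rw [h3, h2]
  calc e * d * e * (e * d * e) = e * d * (e * e) * d * e := by simp only [mul_assoc]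
    _ = e * (d * d) * e := by rw [hee, mul_one, mul_assoc e d d]
    _ = 1 := by rw [hdd, mul_one, hee]

end abs

section mat
variable {n : ℕ} (Q : QuadraticForm (ZMod 3) (Fin n → ZMod 3))

theorem Rf_act (d x : Fin n → ZMod 3) (h : Q d ≠ 0) :
    ((Rf Q d : Matrix.GeneralLinearGroup (Fin n) (ZMod 3)) : Matrix (Fin n) (Fin n) (ZMod 3)) *ᵥ x =
      rfl0 Q d x := by
  rw [Rf_val Q d h, refl_mulVec]

theorem Rf_ext (g : ↥(Cfsg.isometryGroup (ZMod 3) ⇑Q)) (d : Fin n → ZMod 3) (hd : Q d ≠ 0)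
    (H : ∀ x, ((g : Matrix.GeneralLinearGroup (Fin n) (ZMod 3)) : Matrix (Fin n) (Fin n) (ZMod 3)) *ᵥ x =
      rfl0 Q d x) : g = Rf Q d := by
  apply Subtype.ext
  apply Units.ext
  apply Cfsg.Agent.Lib.Helper5.matrix_ext_mulVec
  intro x
  rw [H x, Rf_act Q d x hd]

theorem conj_Rf (h : ↥(Cfsg.isometryGroup (ZMod 3) ⇑Q)) (v : Fin n → ZMod 3) (hv : Q v ≠ 0) :
    h * Rf Q v * h⁻¹ = Rf Q
      (((h : Matrix.GeneralLinearGroup (Fin n) (ZMod 3)) : Matrix (Fin n) (Fin n) (ZMod 3)) *ᵥ v) := by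
  have hiso := (mem_iso_iff ⇑Q h.1).1 h.2
  have hQhv : Q (((h : Matrix.GeneralLinearGroup (Fin n) (ZMod 3)) : Matrix (Fin n) (Fin n) (ZMod 3)) *ᵥ v) ≠ 0 := by
    rw [hiso]; exact hv
  apply Rf_ext Q _ _ hQhv
  intro x
  rw [Subgroup.coe_mul, Subgroup.coe_mul, Units.val_mul, Units.val_mul, ← Matrix.mulVec_mulVec,
    ← Matrix.mulVec_mulVec, Rf_act Q v _ hv]
  have hx : ((h : Matrix.GeneralLinearGroup (Fin n) (ZMod 3)) : Matrix (Fin n) (Fin n) (ZMod 3)) *ᵥ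
      ((((h⁻¹ : ↥(Cfsg.isometryGroup (ZMod 3) ⇑Q)) : Matrix.GeneralLinearGroup (Fin n) (ZMod 3)) :
        Matrix (Fin n) (Fin n) (ZMod 3)) *ᵥ x) = x := by
    rw [Matrix.mulVec_mulVec, ← Units.val_mul, ← Subgroup.coe_mul, mul_inv_cancel]
    show (1 : Matrix (Fin n) (Fin n) (ZMod 3)) *ᵥ x = x
    rw [Matrix.one_mulVec]
  generalize (((h⁻¹ : ↥(Cfsg.isometryGroup (ZMod 3) ⇑Q)) : Matrix.GeneralLinearGroup (Fin n) (ZMod 3)) :
        Matrix (Fin n) (Fin n) (ZMod 3)) *ᵥ x = y at hx ⊢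
  have hpol : QuadraticMap.polar Q
      (((h : Matrix.GeneralLinearGroup (Fin n) (ZMod 3)) : Matrix (Fin n) (Fin n) (ZMod 3)) *ᵥ v) x =
      QuadraticMap.polar Q v y := by
    rw [← hx]
    unfold QuadraticMap.polar
    rw [← Matrix.mulVec_add, hiso, hiso, hiso]
  rw [rfl0_apply, rfl0_apply, Matrix.mulVec_sub, Matrix.mulVec_smul, hx, hiso v, hpol]

theorem Rf_braid (u v : Fin n → ZMod 3) (hu : Q u ≠ 0) (hv : Q v ≠ 0) :
    Rf Q u * Rf Q v * Rf Q u = Rf Q (rfl0 Q u v) := by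
  have h1 := conj_Rf Q (Rf Q u) v hv
  rw [Rf_inv, Rf_act Q u v hu] at h1
  exact h1

theorem Rf_smul (s : ZMod 3) (hs : s ≠ 0) (w : Fin n → ZMod 3) (hw : Q w ≠ 0) :
    Rf Q (s • w) = Rf Q w := by
  have hsw : Q (s • w) ≠ 0 := by
    rw [QuadraticMap.map_smul]
    exact mul_ne_zero (mul_ne_zero hs hs) hw
  symm
  apply Rf_ext Q _ _ hsw
  intro x
  rw [Rf_act Q w x hw, rfl0_apply, rfl0_apply, QuadraticMap.map_smul, QuadraticMap.polar_smul_left,
    smul_smul]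
  congr 2
  simp only [smul_eq_mul]
  field_simp

theorem three (c : ZMod 3) (hc : c ≠ 0) (u v : Fin n → ZMod 3) (hu : Q u = c) (hv : Q v = c) :
    (Rf Q u * Rf Q v * Rf Q u = Rf Q v ∧ QuadraticMap.polar Q u v = 0) ∨
    (Rf Q u * Rf Q v * Rf Q u = Rf Q v * Rf Q u * Rf Q v ∧ QuadraticMap.polar Q u v ≠ 0) := by
  have hu0 : Q u ≠ 0 := by rw [hu]; exact hc
  have hv0 : Q v ≠ 0 := by rw [hv]; exact hc
  by_cases hp : QuadraticMap.polar Q u v = 0
  · left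
    refine ⟨?_, hp⟩
    rw [Rf_braid Q u v hu0 hv0]
    congr 1
    rw [rfl0_apply, hp, mul_zero, zero_smul, sub_zero]
  · right
    refine ⟨?_, hp⟩
    rw [Rf_braid Q u v hu0 hv0, Rf_braid Q v u hv0 hu0]
    have hε : ∀ a b ε : ZMod 3, a ≠ 0 → b ≠ 0 → a * ε = b → ε * ε = 1 := by decide
    have h1 := hε c _ (c⁻¹ * QuadraticMap.polar Q u v) hc hp (mul_inv_cancel_left₀ hc _)
    have e : rfl0 Q v u = (-(c⁻¹ * QuadraticMap.polar Q u v)) • rfl0 Q u v := by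
      rw [rfl0_apply, rfl0_apply, QuadraticMap.polar_comm Q v u, hu, hv, smul_sub, smul_smul,
        neg_mul, neg_smul, neg_smul, sub_neg_eq_add, h1, one_smul]
      abel
    rw [e, Rf_smul Q _ (neg_ne_zero.2 (mul_ne_zero (inv_ne_zero hc) hp)) _
      (by rw [rfl0_iso Q u hu0]; exact hv0)]

theorem exists_norm (hQ : (QuadraticMap.polarBilin Q).Nondegenerate) (c : ZMod 3) (hc : c ≠ 0)
    (hn : 2 ≤ n) : ∃ v, Q v = c := by
  have hfin : Module.finrank (ZMod 3) (Fin n → ZMod 3) = n := by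
    rw [Module.finrank_fintype_fun_eq_card, Fintype.card_fin]
  have hval : ∀ a c : ZMod 3, c ≠ 0 → a ≠ 0 → a = c ∨ a = -c := by decide
  have h2 : (2 : ZMod 3) ≠ 0 := by decide
  have g0 := good_bot Q
  obtain ⟨v₁, -, hv₁⟩ := good_exists Q hQ ⊥ ⊤ 0 g0 (by rw [hfin]; omega)
  rcases hval _ c hc hv₁ with h | h
  · exact ⟨v₁, h⟩
  · have g1 := good_step Q h2 ⊥ ⊤ 0 g0 v₁ Submodule.mem_top hv₁
    obtain ⟨v₂, hv₂U, hv₂⟩ := good_exists Q hQ _ _ _ g1 (by rw [hfin]; omega)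
    rcases hval _ c hc hv₂ with h' | h'
    · exact ⟨v₂, h'⟩
    · refine ⟨v₁ + v₂, ?_⟩
      have hpol : QuadraticMap.polar Q v₁ v₂ = 0 := LinearMap.mem_ker.1 hv₂U.2
      rw [Q_add', h, h', hpol]
      exact (by decide : ∀ c : ZMod 3, -c + -c + 0 = c) c

theorem exists_mid (hQ : (QuadraticMap.polarBilin Q).Nondegenerate) (c : ZMod 3) (hc : c ≠ 0)
    (hn : 5 ≤ n) (u v : Fin n → ZMod 3) (hu : Q u = c) (hv : Q v = c)
    (hp : QuadraticMap.polar Q u v = 0) :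
    ∃ w, Q w = c ∧ QuadraticMap.polar Q u w ≠ 0 ∧ QuadraticMap.polar Q w v ≠ 0 := by
  have hfin : Module.finrank (ZMod 3) (Fin n → ZMod 3) = n := by
    rw [Module.finrank_fintype_fun_eq_card, Fintype.card_fin]
  have hval : ∀ a c : ZMod 3, c ≠ 0 → a ≠ 0 → a = c ∨ a = -c := by decide
  have h2 : (2 : ZMod 3) ≠ 0 := by decide
  have hu0 : Q u ≠ 0 := by rw [hu]; exact hc
  have hv0 : Q v ≠ 0 := by rw [hv]; exact hc
  have hps : ∀ x, QuadraticMap.polar Q x x = 2 * Q x := by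
    intro x
    rw [QuadraticMap.polar_self]; simp [two_mul, two_smul]
  have g0 := good_bot Q
  have g1 := good_step Q h2 ⊥ ⊤ 0 g0 u Submodule.mem_top hu0
  have hvU : v ∈ (⊤ : Submodule (ZMod 3) (Fin n → ZMod 3)) ⊓
      LinearMap.ker (QuadraticMap.polarBilin Q u) := ⟨Submodule.mem_top, LinearMap.mem_ker.2 hp⟩
  have g2 := good_step Q h2 _ _ _ g1 v hvU hv0
  obtain ⟨z₁, hz₁U, hz₁⟩ := good_exists Q hQ _ _ _ g2 (by rw [hfin]; omega)
  have hz₁u : QuadraticMap.polar Q u z₁ = 0 := LinearMap.mem_ker.1 hz₁U.1.2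
  have hz₁v : QuadraticMap.polar Q v z₁ = 0 := LinearMap.mem_ker.1 hz₁U.2
  obtain ⟨z, hzu, hzv, hz⟩ : ∃ z, QuadraticMap.polar Q u z = 0 ∧ QuadraticMap.polar Q v z = 0 ∧
      Q z = -c := by
    rcases hval _ c hc hz₁ with h | h
    · have g3 := good_step Q h2 _ _ _ g2 z₁ hz₁U hz₁
      obtain ⟨z₂, hz₂U, hz₂⟩ := good_exists Q hQ _ _ _ g3 (by rw [hfin]; omega)
      have hz₂u : QuadraticMap.polar Q u z₂ = 0 := LinearMap.mem_ker.1 hz₂U.1.1.2
      have hz₂v : QuadraticMap.polar Q v z₂ = 0 := LinearMap.mem_ker.1 hz₂U.1.2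
      have hz₂z : QuadraticMap.polar Q z₁ z₂ = 0 := LinearMap.mem_ker.1 hz₂U.2
      rcases hval _ c hc hz₂ with h' | h'
      · refine ⟨z₁ + z₂, ?_, ?_, ?_⟩
        · rw [QuadraticMap.polar_add_right, hz₁u, hz₂u, add_zero]
        · rw [QuadraticMap.polar_add_right, hz₁v, hz₂v, add_zero]
        · rw [Q_add', h, h', hz₂z]
          exact (by decide : ∀ c : ZMod 3, c + c + 0 = -c) c
      · exact ⟨z₂, hz₂u, hz₂v, h'⟩
    · exact ⟨z₁, hz₁u, hz₁v, h⟩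
  refine ⟨u + v + z, ?_, ?_, ?_⟩
  · rw [Q_add', Q_add', hu, hv, hp, hz, QuadraticMap.polar_add_left, hzu, hzv]
    exact (by decide : ∀ c : ZMod 3, c + c + 0 + -c + (0 + 0) = c) c
  · rw [QuadraticMap.polar_add_right, QuadraticMap.polar_add_right, hps, hp, hzu, hu]
    exact (by decide : ∀ c : ZMod 3, c ≠ 0 → 2 * c + 0 + 0 ≠ 0) c hc
  · rw [QuadraticMap.polar_add_left, QuadraticMap.polar_add_left, hp, hps, hv,
      QuadraticMap.polar_comm Q z v, hzv]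
    exact (by decide : ∀ c : ZMod 3, c ≠ 0 → 0 + 2 * c + 0 ≠ 0) c hc

theorem conjR1 (c : ZMod 3) (hc : c ≠ 0) (u v : Fin n → ZMod 3) (hu : Q u = c) (hv : Q v = c)
    (hp : QuadraticMap.polar Q u v ≠ 0) :
    ∃ h ∈ Cfsg.reflectionSubgroup ⇑Q c, h * Rf Q u = Rf Q v * h := by
  have hmem : ∀ w, Q w = c → Rf Q w ∈ Cfsg.reflectionSubgroup ⇑Q c := fun w hw =>
    Subgroup.subset_closure ⟨w, hw, Rf_val Q w (by rw [hw]; exact hc)⟩
  rcases three Q c hc u v hu hv with ⟨_, h0⟩ | ⟨h, _⟩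
  · exact absurd h0 hp
  · refine ⟨Rf Q u * Rf Q v * Rf Q u,
      Subgroup.mul_mem _ (Subgroup.mul_mem _ (hmem u hu) (hmem v hv)) (hmem u hu), ?_⟩
    rw [mul_assoc (Rf Q u * Rf Q v), Rf_mul_self, mul_one, h, ← mul_assoc, ← mul_assoc,
      Rf_mul_self, one_mul]

theorem conjR (hQ : (QuadraticMap.polarBilin Q).Nondegenerate) (hn : 5 ≤ n) (c : ZMod 3)
    (hc : c ≠ 0) (u v : Fin n → ZMod 3) (hu : Q u = c) (hv : Q v = c) :
    ∃ h ∈ Cfsg.reflectionSubgroup ⇑Q c, h * Rf Q u = Rf Q v * h := by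
  by_cases hp : QuadraticMap.polar Q u v = 0
  · obtain ⟨w, hw, h1, h2⟩ := exists_mid Q hQ c hc hn u v hu hv hp
    obtain ⟨a, haR, ha⟩ := conjR1 Q c hc u w hu hw h1
    obtain ⟨b, hbR, hb⟩ := conjR1 Q c hc w v hw hv h2
    exact ⟨b * a, Subgroup.mul_mem _ hbR haR, by rw [mul_assoc, ha, ← mul_assoc, hb, mul_assoc]⟩
  · exact conjR1 Q c hc u v hu hv hp

end mat

/-- Let Q be a non-degenerate quadratic form on the n-dimensional coordinate space over the field with three elements, n ≥ 5, and c a non-zero scalar. In the subgroup of the isometry group of Q generated by the reflections in vectors v with Q(v) = c, these reflections form a single conjugacy class of 3-transpositions generating that subgroup. -/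
theorem result (n : ℕ) (hn : 5 ≤ n) (Q : QuadraticForm (ZMod 3) (Fin n → ZMod 3)) (hQ : (QuadraticMap.polarBilin Q).Nondegenerate) (c : ZMod 3) (hc : c ≠ 0) : Cfsg.IsThreeTranspositionClass {g : ↥(Cfsg.reflectionSubgroup (⇑Q) c) | (g : ↥(Cfsg.isometryGroup (ZMod 3) (⇑Q))) ∈ Cfsg.reflectionsOfNorm (⇑Q) c} := by
  have hN : ∀ g : ↥(Cfsg.isometryGroup (ZMod 3) ⇑Q), g ∈ Cfsg.reflectionsOfNorm ⇑Q c ↔
      ∃ v, Q v = c ∧ g = Rf Q v := by
    intro g
    constructor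
    · rintro ⟨v, hv, hg⟩
      refine ⟨v, hv, ?_⟩
      apply Subtype.ext
      apply Units.ext
      rw [hg, Rf_val Q v (by rw [hv]; exact hc)]
    · rintro ⟨v, hv, rfl⟩
      exact ⟨v, hv, Rf_val Q v (by rw [hv]; exact hc)⟩
  have hmemR : ∀ v, Q v = c → Rf Q v ∈ Cfsg.reflectionSubgroup ⇑Q c := fun v hv =>
    Subgroup.subset_closure ((hN _).2 ⟨v, hv, rfl⟩)
  refine ⟨⟨?_, ?_⟩, ?_, ?_⟩
  · rintro ⟨d, hdR⟩ hd
    obtain ⟨u, hu, rfl⟩ := (hN d).1 hd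
    have hu0 : Q u ≠ 0 := by rw [hu]; exact hc
    have hdd : (⟨Rf Q u, hdR⟩ : ↥(Cfsg.reflectionSubgroup (⇑Q) c)) * ⟨Rf Q u, hdR⟩ = 1 :=
      Subtype.ext (Rf_mul_self Q u)
    have hd1 : (⟨Rf Q u, hdR⟩ : ↥(Cfsg.reflectionSubgroup (⇑Q) c)) ≠ 1 := by
      intro h1
      have h2 : Rf Q u = 1 := congrArg Subtype.val h1
      have h3 := Rf_act Q u u hu0
      rw [h2, rfl0_self Q u hu0] at h3
      have h4 : u = -u := by
        rw [← h3]
        show u = (1 : Matrix (Fin n) (Fin n) (ZMod 3)) *ᵥ u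
        rw [Matrix.one_mulVec]
      have h5 : u = 0 := by
        funext i
        have h6 := congrFun h4 i
        exact (by decide : ∀ a : ZMod 3, a = -a → a = 0) _ h6
      exact hu0 (by rw [h5]; exact QuadraticMap.map_zero Q)
    exact orderOf_eq_prime (by rw [pow_two]; exact hdd) hd1
  · rintro ⟨d, hdR⟩ hd ⟨e, heR⟩ he
    obtain ⟨u, hu, rfl⟩ := (hN d).1 hd
    obtain ⟨v, hv, rfl⟩ := (hN e).1 he
    rcases three Q c hc u v hu hv with ⟨h, _⟩ | ⟨h, _⟩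
    · left
      apply Subtype.ext
      show (Rf Q u * Rf Q v) ^ 2 = 1
      rw [pow_two, ← mul_assoc, h, Rf_mul_self]
    · right
      apply Subtype.ext
      show (Rf Q u * Rf Q v) ^ 3 = 1
      exact pow3 _ _ (Rf_mul_self Q u) (Rf_mul_self Q v) h
  · obtain ⟨v₀, hv₀⟩ : ∃ v, Q v = c := exists_norm Q hQ c hc (by omega)
    have hv₀0 : Q v₀ ≠ 0 := by rw [hv₀]; exact hc
    refine ⟨⟨Rf Q v₀, hmemR v₀ hv₀⟩, (hN _).2 ⟨v₀, hv₀, rfl⟩, ?_⟩
    ext g
    obtain ⟨g, hgR⟩ := g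
    constructor
    · intro hg
      obtain ⟨v, hv, rfl⟩ := (hN g).1 hg
      obtain ⟨h, hhR, hh⟩ := conjR Q hQ hn c hc v₀ v hv₀ hv
      show IsConj (⟨Rf Q v₀, hmemR v₀ hv₀⟩ : ↥(Cfsg.reflectionSubgroup (⇑Q) c)) ⟨Rf Q v, hgR⟩
      rw [isConj_iff]
      refine ⟨⟨h, hhR⟩, ?_⟩
      apply Subtype.ext
      show h * Rf Q v₀ * h⁻¹ = Rf Q v
      rw [hh, mul_assoc, mul_inv_cancel, mul_one]
    · intro hg
      have hg' : IsConj (⟨Rf Q v₀, hmemR v₀ hv₀⟩ : ↥(Cfsg.reflectionSubgroup (⇑Q) c)) ⟨g, hgR⟩ := hg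
      rw [isConj_iff] at hg'
      obtain ⟨⟨h, hhR⟩, hh⟩ := hg'
      have h1 : h * Rf Q v₀ * h⁻¹ = g := congrArg Subtype.val hh
      show g ∈ Cfsg.reflectionsOfNorm ⇑Q c
      rw [← h1, conj_Rf Q h v₀ hv₀0]
      have hiso := (mem_iso_iff ⇑Q h.1).1 h.2
      exact (hN _).2 ⟨_, by rw [hiso]; exact hv₀, rfl⟩
  · exact Subgroup.closure_closure_coe_preimage

end Cfsg.Agent.S5357
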