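import Cfsg.Statements.S5562
-- import your own Cfsg.Agent.* helpers here

set_option autoImplicit false
open Cfsg

namespace Cfsg.Agent.S5562

theorem aux_sq_half {G : Type*} [Group G] (t : G) (m : ℕ) (hm : Odd m) (ht : t ^ m = 1) :
    t ^ ((m + 1) / 2) * t ^ ((m + 1) / 2) = t := by
  obtain ⟨k, rfl⟩ := hm
  have h1 : (2 * k + 1 + 1) / 2 = k + 1 := by omega
  rw [h1, ← pow_add]
  have h2 : k + 1 + (k + 1) = (2 * k + 1) + 1 := by ring
  rw [h2, pow_succ, ht, one_mul]

theorem aux_conj_sq {G : Type*} [Group G] {d a : G} (hd : d * d = 1) (ha : a ∈ conjugatesOf d) :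
    a * a = 1 := by
  have ha' : IsConj d a := ha
  obtain ⟨g, rfl⟩ := isConj_iff.mp ha'
  calc g * d * g⁻¹ * (g * d * g⁻¹) = g * (d * d) * g⁻¹ := by group
    _ = 1 := by rw [hd]; group

theorem aux_conj_mem {G : Type*} [Group G] {d a : G} (ha : a ∈ conjugatesOf d) (g : G) :
    g * a * g⁻¹ ∈ conjugatesOf d := by
  have ha' : IsConj d a := ha
  exact ha'.trans (isConj_iff.mpr ⟨g, rfl⟩)

/-- Let G be a finite group, d an involution of G whose conjugates pairwise have products of odd order, and x any involution of G. Then the conjugacy class of d is the disjoint union, over the conjugates a of d commuting with x, of the sets of conjugates of d commuting with ax: every conjugate of d commutes with ax for exactly one conjugate a of d that commutes with x. -/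
theorem result {G : Type*} [Group G] [Finite G] (d : G) (hd : orderOf d = 2)
    (hodd : ∀ a ∈ conjugatesOf d, ∀ b ∈ conjugatesOf d, Odd (orderOf (a * b)))
    (x : G) (hx : orderOf x = 2) :
    ∀ e ∈ conjugatesOf d,
      ∃! a : G, a ∈ conjugatesOf d ∧ Commute a x ∧ Commute e (a * x) := by
  intro e he
  have hdd : d * d = 1 := by rw [← pow_two, ← hd, pow_orderOf_eq_one]
  have hxx : x * x = 1 := by rw [← pow_two, ← hx, pow_orderOf_eq_one]
  have hee : e * e = 1 := aux_conj_sq hdd he
  have hxinv : x⁻¹ = x := inv_eq_of_mul_eq_one_left hxx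
  have heinv : e⁻¹ = e := inv_eq_of_mul_eq_one_left hee
  -- u = x e x e
  have hu_odd : Odd (orderOf (x * e * x * e)) := by
    have h1 : x * e * x⁻¹ ∈ conjugatesOf d := aux_conj_mem he x
    have := hodd _ h1 e he
    rwa [hxinv] at this
  -- uniqueness formula
  have key : ∀ a : G, a ∈ conjugatesOf d → Commute e (a * x) →
      a = (x * e * x * e) ^ ((orderOf (x * e * x * e) + 1) / 2) * e := by
    intro a ha hc
    have haa : a * a = 1 := aux_conj_sq hdd ha
    have h1 : e * a = a * x * e * x := by
      have h2 : e * (a * x) = a * x * e := hc.eq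
      calc e * a = e * (a * x) * x := by rw [mul_assoc, mul_assoc, hxx, mul_one]
        _ = a * x * e * x := by rw [h2]
    have h3 : (a * e) ^ 2 = x * e * x * e := by
      calc (a * e) ^ 2 = a * (e * a) * e := by rw [pow_two]; group
        _ = a * (a * x * e * x) * e := by rw [h1]
        _ = (a * a) * x * e * x * e := by group
        _ = x * e * x * e := by rw [haa, one_mul]
    have h4 : Odd (orderOf (a * e)) := hodd a ha e he
    have h5 : orderOf (x * e * x * e) = orderOf (a * e) := by
      rw [← h3]
      exact Nat.Coprime.orderOf_pow (Nat.Coprime.symm (Nat.coprime_two_left.mpr h4))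
    have h6 := aux_sq_half (a * e) (orderOf (a * e)) h4 (pow_orderOf_eq_one _)
    have h7 : (x * e * x * e) ^ ((orderOf (x * e * x * e) + 1) / 2) = a * e := by
      rw [h5, ← h3, ← pow_mul, pow_mul', pow_two]
      exact h6
    rw [h7, mul_assoc, hee, mul_one]
  -- existence
  set u := x * e * x * e with hu
  set o := orderOf u with ho
  set s := u ^ ((o + 1) / 2) with hs
  have hss : s * s = u := aux_sq_half u o hu_odd (pow_orderOf_eq_one _)
  have hso : s ^ o = 1 := by rw [hs, ← pow_mul, mul_comm, pow_mul, pow_orderOf_eq_one, one_pow]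
  set w := s ^ ((o + 1) / 2) with hw
  have hww : w * w = s := aux_sq_half s o hu_odd hso
  have heu : e * u * e⁻¹ = u⁻¹ := by
    rw [heinv, hu, eq_inv_iff_mul_eq_one]
    calc e * (x * e * x * e) * e * (x * e * x * e) = e * x * e * x * (e * e) * x * e * x * e := by group
      _ = e * x * e * (x * x) * e * x * e := by rw [hee]; group
      _ = e * x * (e * e) * x * e := by rw [hxx]; group
      _ = e * (x * x) * e := by rw [hee]; group
      _ = 1 := by rw [hxx, mul_one, hee]
  have hxu : x * u * x⁻¹ = u⁻¹ := by
    rw [hxinv, hu, eq_inv_iff_mul_eq_one]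
    calc x * (x * e * x * e) * x * (x * e * x * e) = (x * x) * e * x * e * (x * x) * e * x * e := by group
      _ = e * x * (e * e) * x * e := by rw [hxx]; group
      _ = e * (x * x) * e := by rw [hee]; group
      _ = 1 := by rw [hxx, mul_one, hee]
  have hes : e * s * e⁻¹ = s⁻¹ := by
    rw [hs, ← conj_pow, heu, inv_pow]
  have hxs : x * s * x⁻¹ = s⁻¹ := by
    rw [hs, ← conj_pow, hxu, inv_pow]
  have hew : e * w * e⁻¹ = w⁻¹ := by
    rw [hw, ← conj_pow, hes, inv_pow]
  have ha0 : s * e ∈ conjugatesOf d := by
    have h1 : w * e * w⁻¹ ∈ conjugatesOf d := aux_conj_mem he w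
    have h2 : w * e * w⁻¹ = s * e := by
      have h3 : e * w⁻¹ = w * e := by
        have : e * w = w⁻¹ * e := by
          calc e * w = e * w * e⁻¹ * e := by group
            _ = w⁻¹ * e := by rw [hew]
        calc e * w⁻¹ = w * (w⁻¹ * e) * w⁻¹ := by group
          _ = w * (e * w) * w⁻¹ := by rw [this]
          _ = w * e := by group
      calc w * e * w⁻¹ = w * (e * w⁻¹) := by group
        _ = w * (w * e) := by rw [h3]
        _ = (w * w) * e := by group
        _ = s * e := by rw [hww]
    rwa [h2] at h1
  have hc1 : Commute (s * e) x := by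
    -- x (s e) x = s e
    have h1 : x * s = s⁻¹ * x := by
      calc x * s = x * s * x⁻¹ * x := by group
        _ = s⁻¹ * x := by rw [hxs]
    have h2 : x * e * x = u * e := by
      rw [hu]
      calc x * e * x = x * e * x * (e * e) := by rw [hee, mul_one]
        _ = x * e * x * e * e := by group
    show s * e * x = x * (s * e)
    calc s * e * x = s * ((x * x) * e * x) := by rw [hxx]; group
      _ = s * (x * (x * e * x)) := by group
      _ = s * (x * (u * e)) := by rw [h2]
      _ = s * (x * (s * s * e)) := by rw [hss]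
      _ = s * ((x * s) * s * e) := by group
      _ = s * ((s⁻¹ * x) * s * e) := by rw [h1]
      _ = (x * s) * e := by group
      _ = x * (s * e) := by group
  have hc2 : Commute e (s * e * x) := by
    have h1 : e * s = s⁻¹ * e := by
      calc e * s = e * s * e⁻¹ * e := by group
        _ = s⁻¹ * e := by rw [hes]
    have h2 : e * x * e = x * u := by
      rw [hu]
      calc e * x * e = (x * x) * e * x * e := by rw [hxx, one_mul]
        _ = x * (x * e * x * e) := by group
    have h3 : x * u = u⁻¹ * x := by
      calc x * u = x * u * x⁻¹ * x := by group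
        _ = u⁻¹ * x := by rw [hxu]
    show e * (s * e * x) = s * e * x * e
    calc e * (s * e * x) = (e * s) * e * x := by group
      _ = (s⁻¹ * e) * e * x := by rw [h1]
      _ = s⁻¹ * (e * e) * x := by group
      _ = s⁻¹ * x := by rw [hee, mul_one]
      _ = s * (s * s)⁻¹ * x := by group
      _ = s * u⁻¹ * x := by rw [hss]
      _ = s * (u⁻¹ * x) := by group
      _ = s * (x * u) := by rw [h3]
      _ = s * (e * x * e) := by rw [h2]
      _ = s * e * x * e := by group
  refine ⟨s * e, ⟨ha0, hc1, hc2⟩, ?_⟩
  rintro a ⟨ha, -, hc⟩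
  exact key a ha hc

end Cfsg.Agent.S5562
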