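import Mathlib
import Cfsg.Statements.S5729
import Cfsg.Agent.Lib.Helper5.Derang

set_option autoImplicit false
open Cfsg

namespace Cfsg.Agent.S5729

open MulAction in
open scoped Classical in
theorem cc_setup {G Ω : Type*} [Group G] [Fintype G] [MulAction G Ω] [FaithfulSMul G Ω] [Fintype Ω]
    (htr : MulAction.IsPretransitive G Ω) (hn : 2 ≤ Fintype.card Ω) :
    ∃ f : G → ℕ, (∀ g, f g ≤ Fintype.card Ω) ∧ f 1 = Fintype.card Ω ∧
      (∀ g, f g = 0 ↔ ∀ ω : Ω, g • ω ≠ ω) ∧ (∀ g, f g = Fintype.card Ω → g = 1) ∧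
      (∀ g, f g = Nat.card (fixedBy Ω g)) ∧
      ∑ g : G, f g = Nat.card G ∧ 2 * Nat.card G ≤ ∑ g : G, f g ^ 2 := by
  refine ⟨fun g => Nat.card (fixedBy Ω g), ?_, ?_, ?_, ?_, fun g => rfl, ?_, ?_⟩
  · intro g
    show Nat.card (fixedBy Ω g) ≤ _
    rw [← Nat.card_eq_fintype_card]
    exact Finite.card_subtype_le _
  · show Nat.card (fixedBy Ω (1 : G)) = _
    rw [← Nat.card_eq_fintype_card]
    have : fixedBy Ω (1 : G) = Set.univ := by
      ext ω; simp
    rw [this]
    exact Nat.card_congr (Equiv.Set.univ Ω)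
  · intro g
    show Nat.card (fixedBy Ω g) = 0 ↔ _
    rw [Nat.card_eq_zero]
    constructor
    · rintro (h | h)
      · intro ω hω
        exact h.false ⟨ω, hω⟩
      · exact absurd (inferInstance : Finite (fixedBy Ω g)) (not_finite_iff_infinite.mpr h)
    · intro h
      left
      exact ⟨fun x => h x.1 x.2⟩
  · intro g hg
    change Nat.card (fixedBy Ω g) = _ at hg
    apply FaithfulSMul.eq_of_smul_eq_smul (α := Ω)
    intro ω
    rw [one_smul]
    by_contra hne
    have hlt : Nat.card (fixedBy Ω g) < Nat.card Ω := by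
      rw [Nat.card_coe_set_eq, ← Set.ncard_univ]
      apply Set.ncard_lt_ncard _ (Set.toFinite _)
      exact ⟨Set.subset_univ _, fun h => hne (h (Set.mem_univ ω))⟩
    rw [Nat.card_eq_fintype_card (α := Ω)] at hlt
    omega
  · have hG := Cfsg.Agent.Lib.Helper5.burnside_card G Ω
    have hG1 : Nat.card (orbitRel.Quotient G Ω) ≤ 1 :=
      Finite.card_le_one_iff_subsingleton.2 ((pretransitive_iff_subsingleton_quotient G Ω).1 htr)
    have hne : Nonempty Ω := Fintype.card_pos_iff.mp (by omega)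
    obtain ⟨ω⟩ := hne
    have hG2 : 1 ≤ Nat.card (orbitRel.Quotient G Ω) := by
      have : Nonempty (orbitRel.Quotient G Ω) := ⟨Quotient.mk'' ω⟩
      exact Nat.card_pos
    have hG3 : Nat.card (orbitRel.Quotient G Ω) = 1 := le_antisymm hG1 hG2
    rw [hG3, one_mul] at hG
    exact hG
  · have hG := Cfsg.Agent.Lib.Helper5.burnside_card G (Ω × Ω)
    have h1 : ∑ g : G, Nat.card (fixedBy Ω g) ^ 2 = ∑ g : G, Nat.card (fixedBy (Ω × Ω) g) :=
      Finset.sum_congr rfl (fun g _ => (Cfsg.Agent.Lib.Helper5.card_fixedBy_prod G Ω g).symm)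
    show 2 * Nat.card G ≤ ∑ g : G, Nat.card (fixedBy Ω g) ^ 2
    rw [h1, hG]
    apply Nat.mul_le_mul_right
    obtain ⟨a, b, hab⟩ := Fintype.one_lt_card_iff.mp (show 1 < Fintype.card Ω by omega)
    have hq : (Quotient.mk'' (a, a) : orbitRel.Quotient G (Ω × Ω)) ≠ Quotient.mk'' (a, b) := by
      intro h
      have h' := Quotient.exact' h
      rw [orbitRel_apply] at h'
      obtain ⟨g, hg⟩ := h'
      have e1 : g • a = a := congrArg Prod.fst hg
      have e2 : g • b = a := congrArg Prod.snd hg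
      exact hab (smul_left_cancel g (e1.trans e2.symm))
    haveI : Nontrivial (orbitRel.Quotient G (Ω × Ω)) := ⟨⟨_, _, hq⟩⟩
    exact Finite.one_lt_card_iff_nontrivial.mpr inferInstance

/-- Let a finite group G act faithfully and transitively on a set with n ≥ 3 points. Then either G is a Frobenius permutation group (Frobenius as a permutation group: transitive, some non-identity element fixes a point, and no non-identity element fixes two points) of order n(n − 1) and exactly |G|/n of its elements are derangements (fix no point), or the number of derangements is greater than |G|/n. -/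
theorem result {G Ω : Type*} [Group G] [Finite G] [MulAction G Ω] [FaithfulSMul G Ω] [Fintype Ω] (htr : MulAction.IsPretransitive G Ω) (hn : 3 ≤ Fintype.card Ω) :
    ((MulAction.IsPretransitive G Ω ∧ (∃ g : G, g ≠ 1 ∧ ∃ ω : Ω, g • ω = ω) ∧ ∀ g : G, g ≠ 1 → Nat.card (MulAction.fixedBy Ω g) ≤ 1) ∧ Nat.card G = Fintype.card Ω * (Fintype.card Ω - 1) ∧ Fintype.card Ω * Nat.card {g : G // ∀ ω : Ω, g • ω ≠ ω} = Nat.card G) ∨
    Nat.card G < Fintype.card Ω * Nat.card {g : G // ∀ ω : Ω, g • ω ≠ ω} := by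
  classical
  haveI := Fintype.ofFinite G
  obtain ⟨f, hfle, hf1, hf0, hfn, hfdef, hS1, hS2⟩ := cc_setup htr (by omega : 2 ≤ Fintype.card Ω)
  obtain ⟨n, hndef⟩ : ∃ n, n = Fintype.card Ω := ⟨_, rfl⟩
  rw [← hndef] at hfle hf1 hfn hn ⊢
  have hD : Nat.card {g : G // ∀ ω : Ω, g • ω ≠ ω} = (Finset.univ.filter (fun g : G => f g = 0)).card := by
    rw [Nat.card_eq_fintype_card, Fintype.card_subtype]
    congr 1
    ext g
    simp only [Finset.mem_filter, Finset.mem_univ, true_and]
    exact (hf0 g).symm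
  rw [hD]
  obtain ⟨D, hDdef⟩ : ∃ D, D = (Finset.univ.filter (fun g : G => f g = 0)).card := ⟨_, rfl⟩
  rw [← hDdef]
  have hsumδ : ∑ g : G, (if f g = 0 then 1 else 0) = D := by
    rw [hDdef, Finset.card_filter]
  have hpt : ∀ g : G, f g ^ 2 + n ≤ (n + 1) * f g + n * (if f g = 0 then 1 else 0) := by
    intro g
    by_cases h0 : f g = 0
    · simp [h0]
    · simp only [h0, if_false, mul_zero, add_zero]
      obtain ⟨b, hb⟩ := Nat.exists_eq_add_of_le (hfle g)
      have h1 : 1 ≤ f g := Nat.one_le_iff_ne_zero.mpr h0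
      rw [hb]
      nlinarith [Nat.zero_le b, Nat.zero_le (b * (f g - 1)), mul_comm b (f g)]
  have hsumL : ∑ g : G, (f g ^ 2 + n) = ∑ g : G, f g ^ 2 + Nat.card G * n := by
    rw [Finset.sum_add_distrib, Finset.sum_const, Finset.card_univ, smul_eq_mul, Nat.card_eq_fintype_card]
  have hsumR : ∑ g : G, ((n + 1) * f g + n * (if f g = 0 then 1 else 0)) = (n + 1) * Nat.card G + n * D := by
    rw [Finset.sum_add_distrib, ← Finset.mul_sum, ← Finset.mul_sum, hS1, hsumδ]
  have hle : ∑ g : G, f g ^ 2 + Nat.card G * n ≤ (n + 1) * Nat.card G + n * D := by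
    rw [← hsumL, ← hsumR]
    exact Finset.sum_le_sum (fun g _ => hpt g)
  have hGle : Nat.card G ≤ n * D := by nlinarith
  rcases Nat.lt_or_ge (Nat.card G) (n * D) with hlt | hge
  · right; exact hlt
  left
  have hGeq : n * D = Nat.card G := le_antisymm hge hGle
  have hpteq : ∀ g : G, f g ^ 2 + n = (n + 1) * f g + n * (if f g = 0 then 1 else 0) := by
    intro g₀
    by_contra hne
    have hlt : f g₀ ^ 2 + n < (n + 1) * f g₀ + n * (if f g₀ = 0 then 1 else 0) :=
      lt_of_le_of_ne (hpt g₀) hne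
    have hslt : ∑ g : G, (f g ^ 2 + n) < ∑ g : G, ((n + 1) * f g + n * (if f g = 0 then 1 else 0)) :=
      Finset.sum_lt_sum (fun g _ => hpt g) ⟨g₀, Finset.mem_univ _, hlt⟩
    rw [hsumL, hsumR] at hslt
    nlinarith
  have hfix1 : ∀ g : G, g ≠ 1 → f g ≤ 1 := by
    intro g hg
    by_contra h
    push Not at h
    have h0 : f g ≠ 0 := by omega
    have he := hpteq g
    simp only [h0, if_false, mul_zero, add_zero] at he
    have hne : f g ≠ n := fun h' => hg (hfn g h')
    have hlt : f g < n := lt_of_le_of_ne (hfle g) hne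
    obtain ⟨b, hb⟩ := Nat.exists_eq_add_of_lt hlt
    obtain ⟨a, ha⟩ := Nat.exists_eq_add_of_lt h
    rw [hb] at he
    rw [ha] at he
    nlinarith [Nat.zero_le a, Nat.zero_le b, Nat.zero_le (a * b)]
  have hpt2 : ∀ g : G, f g + (if f g = 0 then 1 else 0) = 1 + (n - 1) * (if g = 1 then 1 else 0) := by
    intro g
    by_cases hg : g = 1
    · subst hg
      rw [hf1]
      have : n ≠ 0 := by omega
      simp [this]
      omega
    · simp only [hg, if_false, mul_zero, add_zero]
      have := hfix1 g hg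
      by_cases h0 : f g = 0
      · simp [h0]
      · simp only [h0, if_false, add_zero]
        omega
  have hsum2 : ∑ g : G, (f g + (if f g = 0 then 1 else 0)) = ∑ g : G, (1 + (n - 1) * (if g = 1 then 1 else 0)) :=
    Finset.sum_congr rfl (fun g _ => hpt2 g)
  rw [Finset.sum_add_distrib, Finset.sum_add_distrib, hS1, hsumδ, ← Finset.mul_sum] at hsum2
  simp only [Finset.sum_const, Finset.card_univ, smul_eq_mul, mul_one, Finset.sum_ite_eq', Finset.mem_univ, if_true] at hsum2
  rw [← Nat.card_eq_fintype_card] at hsum2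
  have hDn : D = n - 1 := by omega
  have hGn : Nat.card G = n * (n - 1) := by rw [← hGeq, hDn]
  refine ⟨⟨htr, ?_, ?_⟩, hGn, hGeq⟩
  · -- a nontrivial element with a fixed point
    have hne : Nonempty Ω := Fintype.card_pos_iff.mp (by omega)
    obtain ⟨ω⟩ := hne
    have h1 := Subgroup.index_mul_card (MulAction.stabilizer G ω)
    rw [MulAction.index_stabilizer_of_transitive, Nat.card_eq_fintype_card (α := Ω), ← hndef, hGn] at h1
    have h2' : Nat.card (MulAction.stabilizer G ω) = n - 1 := Nat.eq_of_mul_eq_mul_left (by omega) h1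
    have h3 : MulAction.stabilizer G ω ≠ ⊥ := by
      intro h
      rw [h, Subgroup.card_bot] at h2'
      omega
    obtain ⟨g, hg1⟩ := Subgroup.ne_bot_iff_exists_ne_one.mp h3
    exact ⟨g.1, fun h => hg1 (Subtype.ext h), ω, g.2⟩
  · intro g hg
    rw [← hfdef g]
    exact hfix1 g hg

end Cfsg.Agent.S5729
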