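import Mathlib
import Cfsg.Statements.S5747

set_option autoImplicit false
open Cfsg

namespace Cfsg.Agent.S5747

section
variable (G : Type*) {Ω : Type*} [Group G] [MulAction G Ω]

/-- `x` is moved by some element fixing the list `L` pointwise -/
def Moved (L : List Ω) (x : Ω) : Prop := ∃ g : G, (∀ y ∈ L, g • y = y) ∧ g • x ≠ x

/-- the pointwise stabiliser of `L` is trivial -/
def IsBase (L : List Ω) : Prop := ∀ g : G, (∀ y ∈ L, g • y = y) → g = 1

/-- every entry is moved by the stabiliser of the earlier ones -/
def Irred (L : List Ω) : Prop :=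
  ∀ (l₁ : List Ω) (x : Ω) (l₂ : List Ω), L = l₁ ++ x :: l₂ → Moved G l₁ x

theorem irred_prefix {L M : List Ω} (h : Irred G (L ++ M)) : Irred G L := by
  intro l₁ x l₂ hL
  exact h l₁ x (l₂ ++ M) (by rw [hL]; simp)

theorem irred_moved {L M : List Ω} {x : Ω} (h : Irred G (L ++ x :: M)) : Moved G L x :=
  h L x M rfl

theorem irred_snoc {L : List Ω} {x : Ω} (h : Irred G L) (hx : Moved G L x) :
    Irred G (L ++ [x]) := by
  intro l₁ y l₂ hL
  rcases List.eq_nil_or_concat l₂ with rfl | ⟨l₂', z, rfl⟩
  · obtain ⟨h2, h3⟩ := List.append_inj' hL (by simp)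
    subst h2
    simp at h3
    subst h3
    exact hx
  · rw [List.concat_eq_append, ← List.cons_append, ← List.append_assoc] at hL
    have h1 := List.append_inj' hL (by simp)
    exact h l₁ y l₂' h1.1

theorem not_moved_of_base {L : List Ω} (h : IsBase G L) (x : Ω) : ¬ Moved G L x := by
  rintro ⟨g, hg, hx⟩
  rw [h g hg, one_smul] at hx
  exact hx rfl

theorem isBase_perm {L L' : List Ω} (hp : L.Perm L') (h : IsBase G L) : IsBase G L' := by
  intro g hg
  apply h g
  intro y hy
  exact hg y (hp.mem_iff.mp hy)

theorem irred_nodup : ∀ (L : List Ω), Irred G L → L.Nodup := by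
  intro L
  induction L using List.reverseRecOn with
  | nil => intro _; exact List.nodup_nil
  | append_singleton L x ih =>
    intro h
    have h1 := ih (irred_prefix G h)
    obtain ⟨g, hg, hx⟩ := irred_moved G h
    rw [List.nodup_append]
    refine ⟨h1, List.nodup_singleton x, ?_⟩
    intro a ha b hb
    simp at hb
    subst hb
    rintro rfl
    exact hx (hg _ ha)

theorem extract : ∀ (A Q : List Ω), Irred G Q →
    ∃ A'' R : List Ω, A''.Sublist A ∧ A.Perm (A'' ++ R) ∧ Irred G (Q ++ A'') ∧
      ∀ g : G, (∀ y ∈ Q ++ A'', g • y = y) → ∀ y ∈ A, g • y = y := by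
  intro A
  induction A with
  | nil =>
    intro Q hQ
    exact ⟨[], [], List.Sublist.refl _, by simp, by simpa using hQ, by simp⟩
  | cons a A ih =>
    intro Q hQ
    by_cases hm : Moved G Q a
    · obtain ⟨A'', R, hs, hp, hi, hfix⟩ := ih (Q ++ [a]) (irred_snoc G hQ hm)
      refine ⟨a :: A'', R, hs.cons_cons a, List.Perm.cons a hp, by simpa using hi, ?_⟩
      intro g hg y hy
      have hg' : ∀ y ∈ Q ++ [a] ++ A'', g • y = y := by
        intro z hz
        apply hg z
        simpa using hz
      rcases List.mem_cons.mp hy with rfl | hy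
      · exact hg _ (by simp)
      · exact hfix g hg' y hy
    · obtain ⟨A'', R, hs, hp, hi, hfix⟩ := ih Q hQ
      refine ⟨A'', a :: R, hs.cons a, (List.Perm.cons a hp).trans List.perm_middle.symm, hi, ?_⟩
      intro g hg y hy
      rcases List.mem_cons.mp hy with rfl | hy
      · by_contra hne
        exact hm ⟨g, fun z hz => hg z (List.mem_append_left _ hz), hne⟩
      · exact hfix g hg y hy

theorem claim (hb : ∀ L L' : List Ω, L.Perm L' → IsBase G L → Irred G L → Irred G L') :
    ∀ (k : ℕ) (P A B : List Ω), IsBase G (P ++ A) → Irred G (P ++ A) → IsBase G (P ++ B) →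
      Irred G (P ++ B) → A.length = k → B.length = k := by
  intro k
  induction k using Nat.strong_induction_on with
  | _ k ih =>
    intro P A B hAb hAi hBb hBi hk
    rcases A with _ | ⟨a1, A'⟩
    · simp at hk
      subst hk
      rcases B with _ | ⟨b1, B'⟩
      · rfl
      · exact absurd (irred_moved G hBi) (not_moved_of_base G (by simpa using hAb) b1)
    · rcases B with _ | ⟨b1, B'⟩
      · exact absurd (irred_moved G hAi) (not_moved_of_base G (by simpa using hBb) a1)
      · have hQ : Irred G (P ++ [b1]) := irred_prefix G (M := B') (by simpa using hBi)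
        obtain ⟨A'', R, hs, hp, hi, hfix⟩ := extract G (a1 :: A') (P ++ [b1]) hQ
        have hCb : IsBase G (P ++ [b1] ++ A'') := by
          intro g hg
          apply hAb g
          intro y hy
          rcases List.mem_append.mp hy with hy | hy
          · exact hg y (by simp [hy])
          · exact hfix g hg y hy
        have hlen : (a1 :: A').length = A''.length + R.length := by
          rw [hp.length_eq, List.length_append]
        have hperm1 : (P ++ [b1] ++ A'').Perm (P ++ A'' ++ [b1]) := by
          rw [List.append_assoc, List.append_assoc]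
          exact List.Perm.append_left P List.perm_append_comm
        have h1b : IsBase G (P ++ A'' ++ [b1]) := isBase_perm G hperm1 hCb
        have h1i : Irred G (P ++ A'' ++ [b1]) := hb _ _ hperm1 hCb hi
        have hRne : R ≠ [] := by
          rintro rfl
          rw [List.append_nil] at hp
          have hperm : (P ++ A'' ++ [b1]).Perm (P ++ (a1 :: A') ++ [b1]) :=
            List.Perm.append_right [b1] (List.Perm.append_left P hp.symm)
          have h3 := hb _ _ hperm h1b h1i
          exact not_moved_of_base G hAb b1 (irred_moved G (M := []) h3)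
        have hRpos : 1 ≤ R.length := List.length_pos_iff.mpr hRne
        have hlt : A''.length < k := by rw [← hk, hlen]; omega
        have hB' : B'.length = A''.length :=
          ih A''.length hlt (P ++ [b1]) A'' B' hCb hi (by simpa using hBb) (by simpa using hBi) rfl
        have hperm2 : (P ++ (a1 :: A')).Perm (P ++ A'' ++ R) := by
          rw [List.append_assoc]
          exact List.Perm.append_left P hp
        have h2b : IsBase G (P ++ A'' ++ R) := isBase_perm G hperm2 hAb
        have h2i : Irred G (P ++ A'' ++ R) := hb _ _ hperm2 hAb hAi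
        rcases Nat.lt_or_ge 1 k with h1k | h1k
        · have hR1 : R.length = 1 := ih 1 h1k (P ++ A'') [b1] R h1b h1i h2b h2i rfl
          simp only [List.length_cons] at hk hlen ⊢
          omega
        · simp only [List.length_cons] at hk hlen ⊢
          omega

theorem same_len (hb : ∀ L L' : List Ω, L.Perm L' → IsBase G L → Irred G L → Irred G L')
    (L L' : List Ω) (h1 : IsBase G L) (h2 : Irred G L) (h3 : IsBase G L') (h4 : Irred G L') :
    L.length = L'.length :=
  (claim G hb L.length [] L L' h1 h2 h3 h4 rfl).symm

theorem perm_of_same_len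
    (ha : ∀ L L' : List Ω, IsBase G L → Irred G L → IsBase G L' → Irred G L' → L.length = L'.length)
    (L L' : List Ω) (hp : L.Perm L') (h1 : IsBase G L) (h2 : Irred G L) : Irred G L' := by
  obtain ⟨A'', R, hs, hp', hi, hfix⟩ := extract G L' [] (by intro l₁ x l₂ h; simp at h)
  have hb' : IsBase G L' := isBase_perm G hp h1
  have hA''b : IsBase G A'' := by
    intro g hg
    exact hb' g (hfix g (by simpa using hg))
  have hlen := ha L A'' h1 h2 hA''b (by simpa using hi)
  have : A'' = L' := hs.eq_of_length (by rw [← hlen, hp.length_eq])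
  rw [← this]
  simpa using hi

theorem conv {t : ℕ} (f : Fin t → Ω) :
    ((∀ g : G, (∀ i : Fin t, g • f i = f i) → g = 1) ∧
      ∀ i : Fin t, ∃ g : G, (∀ j : Fin t, j < i → g • f j = f j) ∧ g • f i ≠ f i) ↔
    (IsBase G (List.ofFn f) ∧ Irred G (List.ofFn f)) := by
  constructor
  · rintro ⟨h1, h2⟩
    refine ⟨?_, ?_⟩
    · intro g hg
      apply h1 g
      intro i
      exact hg _ (by simp)
    · intro l₁ x l₂ hL
      have hlen : l₁.length < t := by
        have := congrArg List.length hL
        simp at this
        omega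
      obtain ⟨g, hg1, hg2⟩ := h2 ⟨l₁.length, hlen⟩
      have hx : f ⟨l₁.length, hlen⟩ = x := by
        have h3 := List.getElem_of_eq hL (i := l₁.length) (by simpa using hlen)
        rw [List.getElem_ofFn] at h3
        rw [h3]
        simp
      refine ⟨g, ?_, by rwa [hx] at hg2⟩
      intro y hy
      obtain ⟨j, hj, rfl⟩ := List.getElem_of_mem hy
      have h3 := List.getElem_of_eq hL (i := j) (by simp; omega)
      rw [List.getElem_ofFn, List.getElem_append_left hj] at h3
      rw [← h3]
      exact hg1 ⟨j, by omega⟩ (by simpa [Fin.lt_def] using hj)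
  · rintro ⟨h1, h2⟩
    refine ⟨?_, ?_⟩
    · intro g hg
      apply h1 g
      intro y hy
      obtain ⟨i, rfl⟩ := (List.mem_ofFn' f y).mp hy
      exact hg i
    · intro i
      have hi : (i : ℕ) < (List.ofFn f).length := by simp
      have hdec : List.ofFn f = (List.ofFn f).take i ++ (List.ofFn f)[(i : ℕ)] :: (List.ofFn f).drop (i + 1) := by
        rw [List.getElem_cons_drop, List.take_append_drop]
      obtain ⟨g, hg1, hg2⟩ := h2 _ _ _ hdec
      rw [List.getElem_ofFn] at hg2
      refine ⟨g, ?_, hg2⟩
      intro j hj
      apply hg1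
      rw [List.mem_take_iff_getElem]
      refine ⟨(j : ℕ), ?_, ?_⟩
      · simp
        exact hj
      · simp

end

/-- Let a finite group G act on a finite set Ω. An irredundant base is a sequence of points ω₁, …, ω_t whose pointwise stabiliser is trivial and in which each ω_i is moved by some element fixing ω₁, …, ω_{i−1}. Then all irredundant bases have the same length if and only if every reordering of an irredundant base is again an irredundant base. -/
theorem result {G Ω : Type*} [Group G] [Finite G] [MulAction G Ω] [Fintype Ω] :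
    (∀ (t t' : ℕ) (f : Fin t → Ω) (f' : Fin t' → Ω), ((∀ g : G, (∀ i : Fin t, g • f i = f i) → g = 1) ∧ ∀ i : Fin t, ∃ g : G, (∀ j : Fin t, j < i → g • f j = f j) ∧ g • f i ≠ f i) → ((∀ g : G, (∀ i : Fin t', g • f' i = f' i) → g = 1) ∧ ∀ i : Fin t', ∃ g : G, (∀ j : Fin t', j < i → g • f' j = f' j) ∧ g • f' i ≠ f' i) → t = t') ↔
    (∀ (t : ℕ) (f : Fin t → Ω) (σ : Equiv.Perm (Fin t)), ((∀ g : G, (∀ i : Fin t, g • f i = f i) → g = 1) ∧ ∀ i : Fin t, ∃ g : G, (∀ j : Fin t, j < i → g • f j = f j) ∧ g • f i ≠ f i) → ((∀ g : G, (∀ i : Fin t, g • (f ∘ σ) i = (f ∘ σ) i) → g = 1) ∧ ∀ i : Fin t, ∃ g : G, (∀ j : Fin t, j < i → g • (f ∘ σ) j = (f ∘ σ) j) ∧ g • (f ∘ σ) i ≠ (f ∘ σ) i)) := by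
  constructor
  · intro ha
    have ha' : ∀ L L' : List Ω, IsBase G L → Irred G L → IsBase G L' → Irred G L' →
        L.length = L'.length := by
      intro L L' h1 h2 h3 h4
      refine ha L.length L'.length L.get L'.get ((conv G L.get).mpr ?_) ((conv G L'.get).mpr ?_)
      · rw [List.ofFn_get]; exact ⟨h1, h2⟩
      · rw [List.ofFn_get]; exact ⟨h3, h4⟩
    intro t f σ hf
    obtain ⟨hb1, hi1⟩ := (conv G f).mp hf
    have hperm := (σ.ofFn_comp_perm f).symm
    exact (conv G (f ∘ σ)).mpr ⟨isBase_perm G hperm hb1, perm_of_same_len G ha' _ _ hperm hb1 hi1⟩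
  · intro hb t t' f f' hf hf'
    have hb' : ∀ L L' : List Ω, L.Perm L' → IsBase G L → Irred G L → Irred G L' := by
      intro L L' hp h1 h2
      have hnd : L.Nodup := irred_nodup G L h2
      have hnd' : L'.Nodup := hp.nodup_iff.mp hnd
      have hlen : L.length = L'.length := hp.length_eq
      have hex : ∀ i : Fin L.length, ∃ j : Fin L.length, L.get j = L'.get (Fin.cast hlen i) := by
        intro i
        have h3 : L'.get (Fin.cast hlen i) ∈ L := hp.mem_iff.mpr (List.get_mem _ _)
        exact List.mem_iff_get.mp h3
      choose s hs using hex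
      have hinj : Function.Injective s := by
        intro i i' h
        have h3 : L'.get (Fin.cast hlen i) = L'.get (Fin.cast hlen i') := by
          rw [← hs i, ← hs i', h]
        have h4 := (List.nodup_iff_injective_get.mp hnd') h3
        exact Fin.cast_injective hlen h4
      have hbij : Function.Bijective s := Finite.injective_iff_bijective.mp hinj
      have h5 := hb L.length L.get (Equiv.ofBijective s hbij)
        ((conv G L.get).mpr (by rw [List.ofFn_get]; exact ⟨h1, h2⟩))
      have h6 : L.get ∘ (Equiv.ofBijective s hbij) = fun i => L'.get (Fin.cast hlen i) := by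
        funext i
        exact hs i
      rw [h6] at h5
      have h7 := ((conv G _).mp h5).2
      have h8 : List.ofFn (fun i => L'.get (Fin.cast hlen i)) = L' := by
        apply List.ext_getElem
        · simp [hlen]
        · intro i h9 h10
          simp
      rw [h8] at h7
      exact h7
    obtain ⟨hb1, hi1⟩ := (conv G f).mp hf
    obtain ⟨hb2, hi2⟩ := (conv G f').mp hf'
    have := same_len G hb' _ _ hb1 hi1 hb2 hi2
    simpa using this

end Cfsg.Agent.S5747
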