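import Mathlib
import Cfsg.Statements.S5763
import Cfsg.Agent.Lib.Helper8.Basic

set_option autoImplicit false
open Cfsg

namespace Cfsg.Agent.S5763

/-- the fixed-point-free involution (01)(23)(45)(67) as a function -/
def m1f : Fin 8 → Fin 8 := ![1, 0, 3, 2, 5, 4, 7, 6]

theorem m1f_invol : ∀ x : Fin 8, m1f (m1f x) = x := by decide

theorem m1f_ne : ∀ x : Fin 8, m1f x ≠ x := by decide

/-- the same involution as a permutation -/
def m1 : Equiv.Perm (Fin 8) := ⟨m1f, m1f, m1f_invol, m1f_invol⟩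

theorem m1_apply (x : Fin 8) : m1 x = m1f x := rfl

theorem m1_mul_self : m1 * m1 = 1 := by
  apply Equiv.ext
  intro x
  rw [Equiv.Perm.mul_apply, m1_apply, m1_apply, m1f_invol]
  rfl

/-- the two blocks `{0,1,2,3}` and `{4,5,6,7}` -/
def blk : Fin 8 → Bool := ![true, true, true, true, false, false, false, false]

/-- membership in the standard Sylow 2-subgroup: commute with `m1` and respect the blocks -/
def InP0 (σ : Equiv.Perm (Fin 8)) : Prop :=
  σ * m1 = m1 * σ ∧ ((∀ i, blk (σ i) = blk i) ∨ (∀ i, blk (σ i) = !blk i))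

instance decInP0 (σ : Equiv.Perm (Fin 8)) : Decidable (InP0 σ) := by
  unfold InP0
  infer_instance

theorem p_apply_inv (σ : Equiv.Perm (Fin 8)) (i : Fin 8) : σ (σ⁻¹ i) = i := σ.apply_symm_apply i

theorem p_inv_apply (σ : Equiv.Perm (Fin 8)) (i : Fin 8) : σ⁻¹ (σ i) = i := σ.symm_apply_apply i

/-- the standard Sylow 2-subgroup of `S₈` -/
def P0 : Subgroup (Equiv.Perm (Fin 8)) where
  carrier := {σ | InP0 σ}
  mul_mem' := by
    rintro σ τ ⟨hσ, hσb⟩ ⟨hτ, hτb⟩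
    refine ⟨?_, ?_⟩
    · rw [mul_assoc, hτ, ← mul_assoc, hσ, mul_assoc]
    · rcases hσb with h1 | h1 <;> rcases hτb with h2 | h2
      · left; intro i; rw [Equiv.Perm.mul_apply, h1, h2]
      · right; intro i; rw [Equiv.Perm.mul_apply, h1, h2]
      · right; intro i; rw [Equiv.Perm.mul_apply, h1, h2]
      · left; intro i; rw [Equiv.Perm.mul_apply, h1, h2, Bool.not_not]
  one_mem' := ⟨by rw [one_mul, mul_one], Or.inl (fun i => rfl)⟩
  inv_mem' := by
    rintro σ ⟨hσ, hσb⟩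
    refine ⟨?_, ?_⟩
    · have h : σ⁻¹ * (σ * m1) * σ⁻¹ = σ⁻¹ * (m1 * σ) * σ⁻¹ := by rw [hσ]
      simp only [mul_assoc, inv_mul_cancel_left, mul_inv_cancel, mul_one] at h
      exact h.symm
    · rcases hσb with h1 | h1
      · left; intro i
        have := h1 (σ⁻¹ i)
        rw [p_apply_inv] at this
        exact this.symm
      · right; intro i
        have := h1 (σ⁻¹ i)
        rw [p_apply_inv] at this
        rw [this, Bool.not_not]

/-- value table of a permutation commuting with `m1` -/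
def tau (a b c d : Fin 8) : Fin 8 → Fin 8 := ![a, m1f a, b, m1f b, c, m1f c, d, m1f d]

/-- the tables that come from elements of `P0` -/
def Valid (a b c d : Fin 8) : Prop :=
  blk b = blk a ∧ b ≠ a ∧ b ≠ m1f a ∧ blk c ≠ blk a ∧ blk d = blk c ∧ d ≠ c ∧ d ≠ m1f c

instance decValid (a b c d : Fin 8) : Decidable (Valid a b c d) := by
  unfold Valid
  infer_instance

theorem tau_inj : ∀ a b c d : Fin 8, Valid a b c d →
    ∀ i j : Fin 8, tau a b c d i = tau a b c d j → i = j := by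
  decide +kernel

theorem tau_comm : ∀ a b c d i : Fin 8, tau a b c d (m1f i) = m1f (tau a b c d i) := by
  decide +kernel

theorem tau_blk : ∀ a b c d : Fin 8, Valid a b c d →
    ((∀ i, blk (tau a b c d i) = blk i) ∨ (∀ i, blk (tau a b c d i) = !blk i)) := by
  decide +kernel

theorem valid_card :
    Fintype.card {x : Fin 8 × Fin 8 × Fin 8 × Fin 8 // Valid x.1 x.2.1 x.2.2.1 x.2.2.2} = 128 := by
  decide +kernel

theorem tau_K : ∀ a b c d : Fin 8, (∀ i, tau a b c d (tau a b c d i) = i) →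
    (∀ i, tau a b c d i ≠ i) → (∀ i, tau a b c d i ≠ m1f i) →
    ((∀ i, blk (tau a b c d i) = blk i) ∨ (∀ i, blk (tau a b c d i) = !blk i)) := by
  decide +kernel

theorem comm_apply (σ : Equiv.Perm (Fin 8)) (h : σ * m1 = m1 * σ) (x : Fin 8) :
    σ (m1f x) = m1f (σ x) := by
  have h1 := congrArg (fun f : Equiv.Perm (Fin 8) => f x) h
  exact h1

theorem eq_tau (σ : Equiv.Perm (Fin 8)) (h : σ * m1 = m1 * σ) :
    ∀ i, σ i = tau (σ 0) (σ 2) (σ 4) (σ 6) i := by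
  have hc := comm_apply σ h
  intro i
  fin_cases i
  · rfl
  · exact hc 0
  · rfl
  · exact hc 2
  · rfl
  · exact hc 4
  · rfl
  · exact hc 6

theorem valid_of_mem (σ : Equiv.Perm (Fin 8)) (h : InP0 σ) : Valid (σ 0) (σ 2) (σ 4) (σ 6) := by
  obtain ⟨hc, hb⟩ := h
  have hc' := comm_apply σ hc
  refine ⟨?_, ?_, ?_, ?_, ?_, ?_, ?_⟩
  · rcases hb with h | h <;> rw [h 2, h 0] <;> rfl
  · exact fun e => absurd (σ.injective e) (by decide)
  · rw [← hc' 0]
    exact fun e => absurd (σ.injective e) (by decide)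
  · rcases hb with h | h <;> rw [h 4, h 0] <;> decide
  · rcases hb with h | h <;> rw [h 6, h 4] <;> rfl
  · exact fun e => absurd (σ.injective e) (by decide)
  · rw [← hc' 4]
    exact fun e => absurd (σ.injective e) (by decide)

theorem tau_bij (a b c d : Fin 8) (hv : Valid a b c d) : Function.Bijective (tau a b c d) :=
  Finite.injective_iff_bijective.mp (fun i j h => tau_inj a b c d hv i j h)

theorem mem_of_valid (a b c d : Fin 8) (hv : Valid a b c d) :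
    InP0 (Equiv.ofBijective (tau a b c d) (tau_bij a b c d hv)) := by
  refine ⟨?_, tau_blk a b c d hv⟩
  apply Equiv.ext
  intro i
  exact tau_comm a b c d i

theorem card_P0 : Nat.card P0 = 128 := by
  rw [← valid_card, ← Nat.card_eq_fintype_card]
  apply Nat.card_congr
  exact
    { toFun := fun σ => ⟨(σ.1 0, σ.1 2, σ.1 4, σ.1 6), valid_of_mem σ.1 σ.2⟩
      invFun := fun x => ⟨Equiv.ofBijective (tau x.1.1 x.1.2.1 x.1.2.2.1 x.1.2.2.2)
        (tau_bij _ _ _ _ x.2), mem_of_valid _ _ _ _ x.2⟩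
      left_inv := by
        intro σ
        apply Subtype.ext
        apply Equiv.ext
        intro i
        exact (eq_tau σ.1 σ.2.1 i).symm
      right_inv := by
        rintro ⟨⟨a, b, c, d⟩, hx⟩
        rfl }

theorem fact8 : (Nat.card (Equiv.Perm (Fin 8))).factorization 2 = 7 := by
  rw [Nat.card_perm, Nat.card_fin]
  have h : (Nat.factorial 8) = 2 ^ 7 * 315 := by decide
  rw [h, Nat.factorization_mul (by norm_num) (by norm_num), Nat.Prime.factorization_pow Nat.prime_two]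
  simp [Nat.factorization_eq_zero_of_not_dvd (show ¬ 2 ∣ 315 by norm_num)]

theorem exists_conj (H : Sylow 2 (Equiv.Perm (Fin 8))) :
    ∃ g : Equiv.Perm (Fin 8), ∀ σ, σ ∈ (H : Subgroup (Equiv.Perm (Fin 8))) ↔ InP0 (g⁻¹ * σ * g) := by
  haveI : Fact (Nat.Prime 2) := ⟨Nat.prime_two⟩
  obtain ⟨g, hg⟩ := MulAction.exists_smul_eq (Equiv.Perm (Fin 8))
    (Sylow.ofCard P0 (by rw [card_P0, fact8]; norm_num)) H
  refine ⟨g, fun σ => ?_⟩
  rw [← hg, Cfsg.Agent.Lib.Helper8.h8_mem_smul_sylow]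
  rfl

theorem K (t : Equiv.Perm (Fin 8)) (h1 : t * m1 = m1 * t) (h2 : t * t = 1)
    (h3 : ∀ a, t a ≠ a) (h4 : ∀ a, t a ≠ m1 a) : InP0 t := by
  refine ⟨h1, ?_⟩
  have he := eq_tau t h1
  have h5 := tau_K (t 0) (t 2) (t 4) (t 6)
    (fun i => by
      rw [← he, ← he]
      have := congrArg (fun f : Equiv.Perm (Fin 8) => f i) h2
      exact this)
    (fun i => by rw [← he]; exact h3 i)
    (fun i => by rw [← he]; exact h4 i)
  rcases h5 with h | h
  · left; intro i; rw [he i]; exact h i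
  · right; intro i; rw [he i]; exact h i

/-- the conclusion of the table search: a common edge, or `(m1 v)^2 = 1`, or `(m1 v)^4 = 1` with
`(m1 v)^2` fixed-point-free -/
def RR (v : Fin 8 → Fin 8) : Prop :=
  (∃ a, v a = m1f a) ∨ (∀ i, m1f (v (m1f (v i))) = i) ∨
    ((∀ i, m1f (v (m1f (v (m1f (v (m1f (v i))))))) = i) ∧ ∀ i, m1f (v (m1f (v i))) ≠ i)

instance decRR (v : Fin 8 → Fin 8) : Decidable (RR v) := by
  unfold RR
  infer_instance

/-- stage 7 of the pruned search over fixed-point-free involutions -/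
def T7 (v0 v1 v2 v3 v4 v5 v6 : Fin 8) : Prop :=
  ∀ v7 : Fin 8, v7 ≠ 7 → (v0 = 7 ↔ v7 = 0) → (v1 = 7 ↔ v7 = 1) → (v2 = 7 ↔ v7 = 2) → (v3 = 7 ↔ v7 = 3) → (v4 = 7 ↔ v7 = 4) → (v5 = 7 ↔ v7 = 5) → (v6 = 7 ↔ v7 = 6) → RR ![v0, v1, v2, v3, v4, v5, v6, v7]

instance decT7 (v0 v1 v2 v3 v4 v5 v6 : Fin 8) : Decidable (T7 v0 v1 v2 v3 v4 v5 v6) := by
  unfold T7
  infer_instance

/-- stage 6 of the pruned search over fixed-point-free involutions -/
def T6 (v0 v1 v2 v3 v4 v5 : Fin 8) : Prop :=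
  ∀ v6 : Fin 8, v6 ≠ 6 → (v0 = 6 ↔ v6 = 0) → (v1 = 6 ↔ v6 = 1) → (v2 = 6 ↔ v6 = 2) → (v3 = 6 ↔ v6 = 3) → (v4 = 6 ↔ v6 = 4) → (v5 = 6 ↔ v6 = 5) → T7 v0 v1 v2 v3 v4 v5 v6

instance decT6 (v0 v1 v2 v3 v4 v5 : Fin 8) : Decidable (T6 v0 v1 v2 v3 v4 v5) := by
  unfold T6
  infer_instance

/-- stage 5 of the pruned search over fixed-point-free involutions -/
def T5 (v0 v1 v2 v3 v4 : Fin 8) : Prop :=
  ∀ v5 : Fin 8, v5 ≠ 5 → (v0 = 5 ↔ v5 = 0) → (v1 = 5 ↔ v5 = 1) → (v2 = 5 ↔ v5 = 2) → (v3 = 5 ↔ v5 = 3) → (v4 = 5 ↔ v5 = 4) → T6 v0 v1 v2 v3 v4 v5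

instance decT5 (v0 v1 v2 v3 v4 : Fin 8) : Decidable (T5 v0 v1 v2 v3 v4) := by
  unfold T5
  infer_instance

/-- stage 4 of the pruned search over fixed-point-free involutions -/
def T4 (v0 v1 v2 v3 : Fin 8) : Prop :=
  ∀ v4 : Fin 8, v4 ≠ 4 → (v0 = 4 ↔ v4 = 0) → (v1 = 4 ↔ v4 = 1) → (v2 = 4 ↔ v4 = 2) → (v3 = 4 ↔ v4 = 3) → T5 v0 v1 v2 v3 v4

instance decT4 (v0 v1 v2 v3 : Fin 8) : Decidable (T4 v0 v1 v2 v3) := by
  unfold T4
  infer_instance

/-- stage 3 of the pruned search over fixed-point-free involutions -/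
def T3 (v0 v1 v2 : Fin 8) : Prop :=
  ∀ v3 : Fin 8, v3 ≠ 3 → (v0 = 3 ↔ v3 = 0) → (v1 = 3 ↔ v3 = 1) → (v2 = 3 ↔ v3 = 2) → T4 v0 v1 v2 v3

instance decT3 (v0 v1 v2 : Fin 8) : Decidable (T3 v0 v1 v2) := by
  unfold T3
  infer_instance

/-- stage 2 of the pruned search over fixed-point-free involutions -/
def T2 (v0 v1 : Fin 8) : Prop :=
  ∀ v2 : Fin 8, v2 ≠ 2 → (v0 = 2 ↔ v2 = 0) → (v1 = 2 ↔ v2 = 1) → T3 v0 v1 v2

instance decT2 (v0 v1 : Fin 8) : Decidable (T2 v0 v1) := by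
  unfold T2
  infer_instance

/-- stage 1 of the pruned search over fixed-point-free involutions -/
def T1 (v0 : Fin 8) : Prop :=
  ∀ v1 : Fin 8, v1 ≠ 1 → (v0 = 1 ↔ v1 = 0) → T2 v0 v1

instance decT1 (v0 : Fin 8) : Decidable (T1 v0) := by
  unfold T1
  infer_instance

/-- stage 0 of the pruned search over fixed-point-free involutions -/
def T0 : Prop :=
  ∀ v0 : Fin 8, v0 ≠ 0 → T1 v0

instance decT0 : Decidable (T0) := by
  unfold T0
  infer_instance

theorem invol_T0 : T0 := by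
  decide +kernel

theorem RR_of_invol (m2 : Equiv.Perm (Fin 8)) (hsq : m2 * m2 = 1) (hne : ∀ a, m2 a ≠ a) : RR ⇑m2 := by
  have hsq' : ∀ i, m2 (m2 i) = i := fun i => congrArg (fun f : Equiv.Perm (Fin 8) => f i) hsq
  have hiff : ∀ i j : Fin 8, (m2 i = j ↔ m2 j = i) := by
    intro i j
    constructor
    · intro h; rw [← h, hsq']
    · intro h; rw [← h, hsq']
  have hR := invol_T0 (m2 0) (hne 0) (m2 1) (hne 1) (hiff 0 1) (m2 2) (hne 2) (hiff 0 2) (hiff 1 2) (m2 3) (hne 3) (hiff 0 3) (hiff 1 3) (hiff 2 3) (m2 4) (hne 4) (hiff 0 4) (hiff 1 4) (hiff 2 4) (hiff 3 4) (m2 5) (hne 5) (hiff 0 5) (hiff 1 5) (hiff 2 5) (hiff 3 5) (hiff 4 5) (m2 6) (hne 6) (hiff 0 6) (hiff 1 6) (hiff 2 6) (hiff 3 6) (hiff 4 6) (hiff 5 6) (m2 7) (hne 7) (hiff 0 7) (hiff 1 7) (hiff 2 7) (hiff 3 7) (hiff 4 7) (hiff 5 7) (hiff 6 7)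
  have hfun : (![m2 0, m2 1, m2 2, m2 3, m2 4, m2 5, m2 6, m2 7] : Fin 8 → Fin 8) = ⇑m2 := by
    funext i
    fin_cases i <;> rfl
  rw [hfun] at hR
  exact hR

theorem swap_mem : ∀ a : Fin 8, InP0 (Equiv.swap a (m1f a)) := by
  decide +kernel

theorem main_of_props (z m2 t : Equiv.Perm (Fin 8)) (hm2 : m2 = z * m1 * z⁻¹)
    (h1 : t * m1 = m1 * t) (h2 : t * m2 = m2 * t) (h3 : t * t = 1) (h4 : ∀ a, t a ≠ a)
    (h5 : ∀ a, t a ≠ m1 a) (h6 : ∀ a, t a ≠ m2 a) :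
    t ≠ 1 ∧ InP0 t ∧ InP0 (z⁻¹ * t * z) := by
  have hzm : ∀ a, z (m1 a) = m2 (z a) := by
    intro a
    rw [hm2]
    show z (m1 a) = z (m1 (z⁻¹ (z a)))
    rw [p_inv_apply]
  have ht2 : ∀ a, t (m2 a) = m2 (t a) := fun a => congrArg (fun f : Equiv.Perm (Fin 8) => f a) h2
  have ht3 : ∀ a, t (t a) = a := fun a => congrArg (fun f : Equiv.Perm (Fin 8) => f a) h3
  have hzi : ∀ b, z⁻¹ (m2 b) = m1 (z⁻¹ b) := by
    intro b
    have h := hzm (z⁻¹ b)
    rw [p_apply_inv] at h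
    rw [← h, p_inv_apply]
  refine ⟨?_, K t h1 h3 h4 h5, K _ ?_ ?_ ?_ ?_⟩
  · intro h
    exact h4 0 (by rw [h]; rfl)
  · apply Equiv.ext
    intro a
    show z⁻¹ (t (z (m1 a))) = m1 (z⁻¹ (t (z a)))
    rw [hzm, ht2, hzi]
  · apply Equiv.ext
    intro a
    show z⁻¹ (t (z (z⁻¹ (t (z a))))) = a
    rw [p_apply_inv, ht3, p_inv_apply]
  · intro a h
    change z⁻¹ (t (z a)) = a at h
    have h' := congrArg z h
    rw [p_apply_inv] at h'
    exact h4 (z a) h'
  · intro a h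
    change z⁻¹ (t (z a)) = m1 a at h
    have h' := congrArg z h
    rw [p_apply_inv, hzm] at h'
    exact h6 (z a) h'

theorem main (z : Equiv.Perm (Fin 8)) :
    ∃ t : Equiv.Perm (Fin 8), t ≠ 1 ∧ InP0 t ∧ InP0 (z⁻¹ * t * z) := by
  obtain ⟨m2, hm2⟩ : ∃ m2 : Equiv.Perm (Fin 8), m2 = z * m1 * z⁻¹ := ⟨_, rfl⟩
  have hm2a : ∀ a, m2 a = z (m1 (z⁻¹ a)) := fun a => by rw [hm2]; rfl
  have hm1sq : ∀ a, m1 (m1 a) = a := m1f_invol
  have hm1ne : ∀ a, m1 a ≠ a := m1f_ne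
  have hsq' : ∀ a, m2 (m2 a) = a := by
    intro a
    rw [hm2a, hm2a, p_inv_apply, hm1sq, p_apply_inv]
  have hsq : m2 * m2 = 1 := Equiv.ext hsq'
  have hne : ∀ a, m2 a ≠ a := by
    intro a h
    rw [hm2a] at h
    have h' := congrArg (⇑z⁻¹) h
    rw [p_inv_apply] at h'
    exact hm1ne _ h'
  have hR := RR_of_invol m2 hsq hne
  by_cases hA : ∃ a, m2 a = m1f a
  · obtain ⟨a, ha⟩ := hA
    refine ⟨Equiv.swap a (m1f a), ?_, swap_mem a, ?_⟩
    · rw [Ne, Equiv.swap_eq_one_iff]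
      exact (m1f_ne a).symm
    · have e1 : z⁻¹ * Equiv.swap a (m1f a) * z = Equiv.swap (z⁻¹ a) (z⁻¹ (m1f a)) := by
        rw [Equiv.swap_apply_apply, inv_inv]
      have e2 : z⁻¹ (m1f a) = m1f (z⁻¹ a) := by
        rw [← ha, hm2a, p_inv_apply]
        rfl
      rw [e1, e2]
      exact swap_mem _
  · push Not at hA
    have hA' : ∀ a, m2 a ≠ m1 a := hA
    rcases hR with ⟨a, ha⟩ | hB | ⟨hC4, hC2⟩
    · exact absurd ha (hA a)
    · -- (m1 m2)^2 = 1
      have hB' : ∀ i, m1 (m2 (m1 (m2 i))) = i := hB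
      have hcomm : ∀ a, m1 (m2 a) = m2 (m1 a) := by
        intro a
        have h := hB' (m2 (m1 a))
        rw [hsq', hm1sq] at h
        exact h
      refine ⟨m1 * m2, main_of_props z m2 (m1 * m2) hm2 ?_ ?_ ?_ ?_ ?_ ?_⟩
      · apply Equiv.ext
        intro a
        show m1 (m2 (m1 a)) = m1 (m1 (m2 a))
        rw [hcomm a]
      · apply Equiv.ext
        intro a
        show m1 (m2 (m2 a)) = m2 (m1 (m2 a))
        exact hcomm (m2 a)
      · apply Equiv.ext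
        intro a
        exact hB' a
      · intro a h
        change m1 (m2 a) = a at h
        have h' := congrArg (⇑m1) h
        rw [hm1sq] at h'
        exact hA' a h'
      · intro a h
        change m1 (m2 a) = m1 a at h
        exact hne a (m1.injective h)
      · intro a h
        change m1 (m2 a) = m2 a at h
        exact hm1ne _ h
    · -- (m1 m2)^4 = 1 and (m1 m2)^2 fixed-point-free
      have hC4' : ∀ i, m1 (m2 (m1 (m2 (m1 (m2 (m1 (m2 i))))))) = i := hC4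
      have hC2' : ∀ i, m1 (m2 (m1 (m2 i))) ≠ i := hC2
      have halt : ∀ a, m1 (m2 (m1 (m2 a))) = m2 (m1 (m2 (m1 a))) := by
        intro a
        have h := hC4' (m2 (m1 (m2 (m1 a))))
        rw [hsq', hm1sq, hsq', hm1sq] at h
        exact h
      refine ⟨m1 * m2 * (m1 * m2), main_of_props z m2 (m1 * m2 * (m1 * m2)) hm2 ?_ ?_ ?_ ?_ ?_ ?_⟩
      · apply Equiv.ext
        intro a
        show m1 (m2 (m1 (m2 (m1 a)))) = m1 (m1 (m2 (m1 (m2 a))))
        rw [halt (m1 a), hm1sq, hm1sq]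
      · apply Equiv.ext
        intro a
        show m1 (m2 (m1 (m2 (m2 a)))) = m2 (m1 (m2 (m1 (m2 a))))
        rw [hsq', halt a, hsq']
      · apply Equiv.ext
        intro a
        exact hC4' a
      · intro a h
        exact hC2' a h
      · intro a h
        change m1 (m2 (m1 (m2 a))) = m1 a at h
        have h' := m1.injective h
        have h'' := congrArg (⇑m2) h'
        rw [hsq'] at h''
        exact hm1ne _ h''
      · intro a h
        change m1 (m2 (m1 (m2 a))) = m2 a at h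
        rw [halt a] at h
        have h' := m2.injective h
        have h'' := congrArg (⇑m1) h'
        rw [hm1sq] at h''
        exact hne _ h''

/-- In the symmetric group on 8 letters any two Sylow 2-subgroups have non-trivial intersection: for a Sylow 2-subgroup H and every element x, H ∩ xHx⁻¹ ≠ 1. -/
theorem result (H : Sylow 2 (Equiv.Perm (Fin 8))) (x : Equiv.Perm (Fin 8)) :
    (H : Subgroup (Equiv.Perm (Fin 8))) ⊓ (H : Subgroup (Equiv.Perm (Fin 8))).map (MulAut.conj x).toMonoidHom ≠ ⊥ := by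
  obtain ⟨g, hg⟩ := exists_conj H
  obtain ⟨t, ht1, ht2, ht3⟩ := main (g⁻¹ * x * g)
  intro hbot
  have hs1 : g * t * g⁻¹ ∈ (H : Subgroup (Equiv.Perm (Fin 8))) := by
    rw [hg]
    have e : g⁻¹ * (g * t * g⁻¹) * g = t := by group
    rw [e]
    exact ht2
  have hs2 : g * t * g⁻¹ ∈ (H : Subgroup (Equiv.Perm (Fin 8))).map (MulAut.conj x).toMonoidHom := by
    rw [Cfsg.Agent.Lib.Helper8.h8_mem_map_conj, hg]
    have e : g⁻¹ * (x⁻¹ * (g * t * g⁻¹) * x) * g = (g⁻¹ * x * g)⁻¹ * t * (g⁻¹ * x * g) := by group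
    rw [e]
    exact ht3
  have hmem : g * t * g⁻¹ ∈ (H : Subgroup (Equiv.Perm (Fin 8))) ⊓
      (H : Subgroup (Equiv.Perm (Fin 8))).map (MulAut.conj x).toMonoidHom := ⟨hs1, hs2⟩
  rw [hbot, Subgroup.mem_bot] at hmem
  apply ht1
  have e : t = g⁻¹ * (g * t * g⁻¹) * g := by group
  rw [e, hmem]
  group

end Cfsg.Agent.S5763
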