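import Mathlib
import Cfsg.Statements.S5902
import Cfsg.Agent.Lib.Helper8.Basic
import Cfsg.Agent.S5901

set_option autoImplicit false
open Cfsg

namespace Cfsg.Agent.S5902

open Cfsg.Agent.Lib.Helper8

/-- Let G be a finite group, X a subgroup whose own subgroup lattice is complemented, and suppose X lies in exactly one maximal subgroup M of G. Then every subgroup H of G not contained in the normal core of M has a complement in the subgroup lattice of G (some C with H ⊔ C = G and H ⊓ C = 1); in particular the subgroup lattice of G modulo the normal core of M is complemented. -/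
theorem result {G : Type*} [Group G] [Finite G] (X M : Subgroup G)
    (hK : ComplementedLattice (Subgroup X))
    (hM : IsCoatom M) (hXM : X ≤ M) (huniq : ∀ M' : Subgroup G, IsCoatom M' → X ≤ M' → M' = M) :
    (∀ H : Subgroup G, ¬ H ≤ M.normalCore → ∃ C : Subgroup G, H ⊔ C = ⊤ ∧ H ⊓ C = ⊥) ∧
    ComplementedLattice (Subgroup (G ⧸ M.normalCore)) := by
  have hint : ∀ Y : Subgroup G, (⊥ : Subgroup G) ≤ Y → Y ≤ X →
      ∃ C : Subgroup G, (⊥ : Subgroup G) ≤ C ∧ C ≤ X ∧ Y ⊔ C = X ∧ Y ⊓ C = ⊥ := by
    intro Y _ hYX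
    obtain ⟨C', hC'⟩ := hK.exists_isCompl (Y.subgroupOf X)
    refine ⟨C'.map X.subtype, bot_le, ?_, ?_, ?_⟩
    · rintro _ ⟨c, -, rfl⟩
      exact c.2
    · have h1 : (Y.subgroupOf X).map X.subtype = Y := by
        rw [Subgroup.subgroupOf_map_subtype, inf_of_le_left hYX]
      have h2 := congrArg (Subgroup.map X.subtype) (codisjoint_iff.mp hC'.codisjoint)
      rw [Subgroup.map_sup, h1] at h2
      rw [h2, ← MonoidHom.range_eq_map, Subgroup.range_subtype]
    · have h1 : (Y.subgroupOf X).map X.subtype = Y := by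
        rw [Subgroup.subgroupOf_map_subtype, inf_of_le_left hYX]
      have h2 := congrArg (Subgroup.map X.subtype) (disjoint_iff.mp hC'.disjoint)
      rw [Subgroup.map_inf _ _ _ (Subgroup.subtype_injective X), h1, Subgroup.map_bot] at h2
      exact h2
  have part1 : ∀ H : Subgroup G, ¬ H ≤ M.normalCore → ∃ C : Subgroup G, H ⊔ C = ⊤ ∧ H ⊓ C = ⊥ := by
    intro H hH
    obtain ⟨h, hhH, hh⟩ := SetLike.not_le_iff_exists.mp hH
    have : ∃ b : G, b * h * b⁻¹ ∉ M := by
      by_contra hno
      push Not at hno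
      exact hh hno
    obtain ⟨b, hb⟩ := this
    have hH' : ¬ H.map (MulAut.conj b).toMonoidHom ≤ M := by
      intro hle
      exact hb (hle (h8_conj_mem_map_conj b H hhH))
    have hX : X ≠ ⊤ := by
      intro hX
      rw [hX, top_le_iff] at hXM
      exact hM.1 hXM
    obtain ⟨C', hC1, hC2⟩ := Cfsg.Agent.S5901.result ⊥ X M bot_le hX hint hM hXM huniq
      (H.map (MulAut.conj b).toMonoidHom) hH' (by simp)
    have hback : ∀ A : Subgroup G, (A.map (MulAut.conj b).toMonoidHom).map (MulAut.conj b⁻¹).toMonoidHom = A := by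
      intro A
      rw [← h8_map_conj_mul, inv_mul_cancel, h8_map_conj_one]
    refine ⟨C'.map (MulAut.conj b⁻¹).toMonoidHom, ?_, ?_⟩
    · have h2 := congrArg (Subgroup.map (MulAut.conj b⁻¹).toMonoidHom) hC1
      rw [Subgroup.map_sup, hback, Subgroup.map_top_of_surjective _ (MulAut.conj b⁻¹).surjective] at h2
      exact h2
    · have h2 := congrArg (Subgroup.map (MulAut.conj b⁻¹).toMonoidHom) hC2
      rw [Subgroup.map_inf _ _ _ (MulAut.conj b⁻¹).injective, hback, Subgroup.map_bot] at h2
      exact h2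
  refine ⟨part1, ⟨?_⟩⟩
  intro Hb
  by_cases hHb : Hb = ⊥
  · rw [hHb]
    exact ⟨⊤, isCompl_bot_top⟩
  · have hsurj : Function.Surjective (QuotientGroup.mk' M.normalCore) := QuotientGroup.mk'_surjective _
    have hH : ¬ Hb.comap (QuotientGroup.mk' M.normalCore) ≤ M.normalCore := by
      intro hle
      apply hHb
      rw [eq_bot_iff]
      intro x hx
      obtain ⟨g, rfl⟩ := hsurj x
      rw [Subgroup.mem_bot]
      have : g ∈ M.normalCore := hle hx
      exact (QuotientGroup.eq_one_iff g).mpr this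
    obtain ⟨C, hC1, hC2⟩ := part1 _ hH
    refine ⟨C.map (QuotientGroup.mk' M.normalCore), ?_⟩
    constructor
    · rw [disjoint_iff, eq_bot_iff]
      rintro x ⟨hx1, c, hc, rfl⟩
      have hcH : c ∈ Hb.comap (QuotientGroup.mk' M.normalCore) := hx1
      have : c ∈ Hb.comap (QuotientGroup.mk' M.normalCore) ⊓ C := ⟨hcH, hc⟩
      rw [hC2, Subgroup.mem_bot] at this
      rw [this, map_one]
      exact Subgroup.one_mem _
    · rw [codisjoint_iff]
      have h2 := congrArg (Subgroup.map (QuotientGroup.mk' M.normalCore)) hC1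
      rw [Subgroup.map_sup, Subgroup.map_comap_eq_self_of_surjective hsurj,
        Subgroup.map_top_of_surjective _ hsurj] at h2
      exact h2

end Cfsg.Agent.S5902
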