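import Mathlib
import Cfsg.Statements.S5904

set_option autoImplicit false
open scoped Pointwise
open Cfsg

namespace Cfsg.Agent.S5904

/-- Let Ω be a finite set with more than two elements and O ⊆ Ω a subset with exactly as many elements as its complement. Then the setwise stabilizer of O in the symmetric group on Ω is not a maximal subgroup (it is properly contained in the stabilizer of the partition {O, Ω ∖ O}, which is proper). -/
theorem result {Ω : Type*} [Fintype Ω] [DecidableEq Ω] (hΩ : 2 < Fintype.card Ω)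
    (O : Set Ω) (hO : Nat.card O = Nat.card ↥Oᶜ) :
    ¬ IsCoatom (MulAction.stabilizer (Equiv.Perm Ω) O) := by
-----
  classical
  intro hco
  have hcardΩ : Nat.card O + Nat.card ↥Oᶜ = Fintype.card Ω := by
    rw [← Nat.card_eq_fintype_card, Nat.card_coe_set_eq, Nat.card_coe_set_eq]
    exact Set.ncard_add_ncard_compl O
  have hO2 : 1 < Nat.card O := by omega
  obtain ⟨x, x', hx, hx', hxx'⟩ : ∃ x x' : Ω, x ∈ O ∧ x' ∈ O ∧ x ≠ x' := by
    rw [Nat.card_coe_set_eq, Set.one_lt_ncard_iff] at hO2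
    exact hO2
  obtain ⟨y, hy⟩ : ∃ y, y ∈ Oᶜ := by
    have h0 : 0 < Nat.card ↥Oᶜ := by omega
    rw [Nat.card_coe_set_eq, Set.ncard_pos] at h0
    exact h0
  obtain ⟨e⟩ := Finite.card_eq.mp hO
  obtain ⟨τf, hτf1, hτf2⟩ : ∃ τf : Ω → Ω, (∀ z (h : z ∈ O), τf z = (e ⟨z, h⟩ : Ω)) ∧
      (∀ z (h : z ∉ O), τf z = (e.symm ⟨z, h⟩ : Ω)) :=
    ⟨fun z => if h : z ∈ O then (e ⟨z, h⟩ : Ω) else (e.symm ⟨z, h⟩ : Ω),
      fun z h => dif_pos h, fun z h => dif_neg h⟩
  have hτinv : Function.Involutive τf := by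
    intro z
    by_cases h : z ∈ O
    · have h2 : (e ⟨z, h⟩ : Ω) ∉ O := (e ⟨z, h⟩).2
      rw [hτf1 z h, hτf2 _ h2]
      simp
    · have h2 : (e.symm ⟨z, h⟩ : Ω) ∈ O := (e.symm ⟨z, h⟩).2
      rw [hτf2 z h, hτf1 _ h2]
      simp
  have hτO : (hτinv.toPerm τf) • O = Oᶜ := by
    ext z
    rw [Set.mem_smul_set_iff_inv_smul_mem]
    have h0 : (hτinv.toPerm τf)⁻¹ • z = τf z := rfl
    rw [h0]
    by_cases h : z ∈ O
    · rw [hτf1 z h]
      constructor
      · intro h2; exact absurd h2 (e ⟨z, h⟩).2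
      · intro h2; exact absurd h h2
    · rw [hτf2 z h]
      exact ⟨fun _ => h, fun _ => (e.symm ⟨z, h⟩).2⟩
  have hpair : ∀ σ : Equiv.Perm Ω, σ • ({O, Oᶜ} : Set (Set Ω)) = {σ • O, (σ • O)ᶜ} := by
    intro σ
    rw [Set.smul_set_insert, Set.smul_set_singleton, Set.smul_set_compl]
  have hOne : O ≠ Oᶜ := by
    intro h
    have : x ∈ Oᶜ := h ▸ hx
    exact this hx
  have h1 : MulAction.stabilizer (Equiv.Perm Ω) O
      ≤ MulAction.stabilizer (Equiv.Perm Ω) ({O, Oᶜ} : Set (Set Ω)) := by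
    intro σ hσ
    rw [MulAction.mem_stabilizer_iff] at hσ ⊢
    rw [hpair, hσ]
  have h2 : (hτinv.toPerm τf) ∈ MulAction.stabilizer (Equiv.Perm Ω) ({O, Oᶜ} : Set (Set Ω)) := by
    rw [MulAction.mem_stabilizer_iff, hpair, hτO, compl_compl, Set.pair_comm]
  have h3 : (hτinv.toPerm τf) ∉ MulAction.stabilizer (Equiv.Perm Ω) O := by
    rw [MulAction.mem_stabilizer_iff, hτO]
    exact fun h => hOne h.symm
  have hlt : MulAction.stabilizer (Equiv.Perm Ω) O
      < MulAction.stabilizer (Equiv.Perm Ω) ({O, Oᶜ} : Set (Set Ω)) :=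
    lt_of_le_of_ne h1 (fun h => h3 (h ▸ h2))
  have htop := hco.2 _ hlt
  have hρ : Equiv.swap x y ∈ MulAction.stabilizer (Equiv.Perm Ω) ({O, Oᶜ} : Set (Set Ω)) := by
    rw [htop]; exact Subgroup.mem_top _
  rw [MulAction.mem_stabilizer_iff, hpair] at hρ
  have hmem : Equiv.swap x y • O ∈ ({Equiv.swap x y • O, (Equiv.swap x y • O)ᶜ} : Set (Set Ω)) :=
    Set.mem_insert _ _
  rw [hρ] at hmem
  have hy_in : y ∈ Equiv.swap x y • O := ⟨x, hx, by simp [Equiv.Perm.smul_def]⟩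
  have hx'_in : x' ∈ Equiv.swap x y • O := ⟨x', hx', by
    show Equiv.swap x y x' = x'
    exact Equiv.swap_apply_of_ne_of_ne hxx'.symm (fun h => hy (h ▸ hx'))⟩
  rcases hmem with h | h
  · rw [h] at hy_in; exact hy hy_in
  · rw [Set.mem_singleton_iff] at h
    rw [h] at hx'_in; exact hx'_in hx'

end Cfsg.Agent.S5904
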