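import Mathlib
import Cfsg.Statements.S5913

set_option autoImplicit false
open Cfsg

namespace Cfsg.Agent.S5913

/-- Let S be a non-abelian simple group and n a natural number. Every normal subgroup N of the direct power S^n (functions Fin n → S) is a subproduct: there is a set T of coordinates such that N consists exactly of the elements whose coordinates outside T are trivial. In particular the minimal normal subgroups of S^n are its n factors. -/
theorem result {S : Type*} [Group S] [IsSimpleGroup S] (hS : ¬ IsMulCommutative S) (n : ℕ)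
    (N : Subgroup (Fin n → S)) [N.Normal] :
    ∃ T : Finset (Fin n), ∀ x : Fin n → S, x ∈ N ↔ ∀ i, i ∉ T → x i = 1 := by
-----
  classical
  refine ⟨Finset.univ.filter (fun i => ∃ x ∈ N, x i ≠ 1), ?_⟩
  have hfac : ∀ i, (∃ x ∈ N, x i ≠ 1) → ∀ s : S, Pi.mulSingle i s ∈ N := by
    rintro i ⟨x, hx, hxi⟩ s
    have hNn : N.Normal := inferInstance
    obtain ⟨K, hKdef⟩ : ∃ K : Subgroup S, K = N.comap (MonoidHom.mulSingle (fun _ : Fin n => S) i) :=
      ⟨_, rfl⟩
    have hKn : K.Normal := by rw [hKdef]; exact Subgroup.Normal.comap hNn _
    rcases hKn.eq_bot_or_eq_top with hK | hK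
    · exfalso
      have hcomm : ∀ t : S, x i * t = t * x i := by
        intro t
        have h1 : x * Pi.mulSingle i t * x⁻¹ * (Pi.mulSingle i t)⁻¹ ∈ N := by
          have : x * Pi.mulSingle i t * x⁻¹ * (Pi.mulSingle i t)⁻¹
              = x * (Pi.mulSingle i t * x⁻¹ * (Pi.mulSingle i t)⁻¹) := by group
          rw [this]
          exact N.mul_mem hx (hNn.conj_mem _ (N.inv_mem hx) _)
        have h2 : x * Pi.mulSingle i t * x⁻¹ * (Pi.mulSingle i t)⁻¹
            = Pi.mulSingle i (x i * t * (x i)⁻¹ * t⁻¹) := by
          ext j
          by_cases hj : j = i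
          · subst hj; simp
          · simp [Pi.mulSingle_eq_of_ne hj]
        rw [h2] at h1
        have h3 : x i * t * (x i)⁻¹ * t⁻¹ ∈ K := by rw [hKdef]; exact h1
        rw [hK, Subgroup.mem_bot] at h3
        calc x i * t = (x i * t * (x i)⁻¹ * t⁻¹) * (t * x i) := by group
          _ = t * x i := by rw [h3, one_mul]
      have hcen : x i ∈ Subgroup.center S := by
        rw [Subgroup.mem_center_iff]; intro t; exact (hcomm t).symm
      have hcn : (Subgroup.center S).Normal := inferInstance
      rcases hcn.eq_bot_or_eq_top with hc | hc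
      · rw [hc, Subgroup.mem_bot] at hcen; exact hxi hcen
      · apply hS
        refine ⟨⟨fun a b => ?_⟩⟩
        have : b ∈ Subgroup.center S := by rw [hc]; exact Subgroup.mem_top b
        exact (Subgroup.mem_center_iff.mp this a)
    · have : s ∈ K := by rw [hK]; exact Subgroup.mem_top s
      rw [hKdef] at this
      exact this
  intro x
  constructor
  · intro hx i hi
    by_contra hne
    exact hi (by simp only [Finset.mem_filter, Finset.mem_univ, true_and]; exact ⟨x, hx, hne⟩)
  · intro hx
    have hprod := Finset.noncommProd_mulSingle x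
    rw [← hprod]
    apply Subgroup.noncommProd_mem
    intro i _
    by_cases hi : ∃ y ∈ N, y i ≠ 1
    · exact hfac i hi (x i)
    · have : x i = 1 := hx i (by simp only [Finset.mem_filter, Finset.mem_univ, true_and]; exact hi)
      rw [this, Pi.mulSingle_one]
      exact N.one_mem

end Cfsg.Agent.S5913
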